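/-
Abelian defect, free inertial action: the lattice of the block with its regular relation.
-/
import Mathlib
import Cfsg.Agent.Lib.Blocks.AbFree10

set_option autoImplicit false
set_option linter.style.haveILetI false

namespace Cfsg.Agent.Lib.Blocks.AbFree

open Cfsg Cfsg.Agent.Lib.Blocks.Local Cfsg.Agent.Lib.Blocks.Central Cfsg.Agent.Lib.Blocks.Nilp
open Cfsg.Agent.Lib.Char.Virtual
open ComplexConjugate

universe u

section Lat2

variable {G : Type u} [Group G] [Fintype G] {A : Type u} [Group A] [Fintype A]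

omit [Fintype A] in
/-- **The standard form of the lattice**, with the rows of the exceptional characters. -/
theorem lattice_std2 {T : Type*} [Fintype T] [DecidableEq T] (S : Finset (IrrCharacter G)) (n : IrrCharacter G → T → ℤ)
    (e : ℕ) (hgram : ∀ s t, ∑ χ ∈ S, n χ s * n χ t = if s = t then (e : ℤ) + 1 else e)
    (hone : ∀ t, ∑ χ ∈ S, (n χ t : ℂ) * (χ : G → ℂ) 1 = 0) (hT : 2 ≤ Fintype.card T) :
    ∃ (d ε : ℤ) (f : T → IrrCharacter G) (a : IrrCharacter G → ℤ), Function.Injective f ∧ (∀ t, f t ∈ S) ∧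
      (ε = 1 ∨ ε = -1) ∧ (∀ s t : T, n (f t) s = d - ε * if s = t then 1 else 0) ∧
      (∀ t, ∀ χ ∈ S, χ ∉ Set.range f → n χ t = a χ) ∧
      ∑ χ ∈ S.filter (· ∉ Set.range f), a χ ^ 2 = (e : ℤ) - (Fintype.card T : ℤ) * d ^ 2 + 2 * (d * ε) := by
  classical
  let α : T → G → ℂ := fun t => ∑ χ ∈ S, (n χ t : ℂ) • (χ : G → ℂ)
  have hαi : ∀ (t : T) (χ : IrrCharacter G), classInner (α t) (χ : G → ℂ) = if χ ∈ S then (n χ t : ℂ) else 0 := by
    intro t χ
    simp only [α]
    rw [classInner_finset_sum_left]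
    have h1 : ∀ η ∈ S, classInner ((n η t : ℂ) • (η : G → ℂ)) (χ : G → ℂ) = if η = χ then (n η t : ℂ) else 0 := by
      intro η _
      rw [classInner_smul_left, Cfsg.Agent.Lib.Char.Ortho.classInner_irr η.2 χ.2]
      by_cases h : η = χ
      · rw [if_pos h, if_pos (by rw [h]), mul_one]
      · rw [if_neg h, if_neg (fun h' => h (Subtype.ext h')), mul_zero]
    rw [Finset.sum_congr rfl h1, Finset.sum_ite_eq']
  have hgen : ∀ s : T, IsGeneralizedCharacter G (α s) := fun s =>
    isGeneralized_finset_sum _ fun χ _ => isGeneralized_intCast_smul (isGeneralized_of_isIrr χ.2) _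
  have hinner : ∀ s t : T, classInner (α s) (α t) = if s = t then (e : ℂ) + 1 else e := by
    intro s t
    have h1 : classInner (α s) (α t) = ((∑ χ ∈ S, n χ s * n χ t : ℤ) : ℂ) := by
      conv_lhs => rw [show α t = ∑ χ ∈ S, (n χ t : ℂ) • (χ : G → ℂ) from rfl]
      rw [classInner_finset_sum_right]
      push_cast
      refine Finset.sum_congr rfl fun χ hχ => ?_
      rw [classInner_smul_right, hαi, if_pos hχ, map_intCast]
      ring
    rw [h1, hgram]
    split_ifs <;> simp
  have hα1 : ∀ t, α t 1 = 0 := by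
    intro t
    simp only [α, Finset.sum_apply, Pi.smul_apply, smul_eq_mul]
    exact hone t
  obtain ⟨ε', f, hε', hinj, hD⟩ := Cfsg.Agent.Lib.Char.FrobPair.exists_signed_injection (G := G) (T := T)
    (fun s t => α t - α s)
    (fun s t u => by abel)
    (fun s t => isGeneralized_sub (hgen t) (hgen s))
    (fun s t => by
      simp only [Pi.sub_apply, hα1, sub_self])
    (fun s t u hst hsu => by
      rw [classInner_sub_left, classInner_sub_right, classInner_sub_right, hinner, hinner, hinner, hinner,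
        if_neg hst.symm, if_neg hsu, if_pos rfl]
      split_ifs <;> ring)
  have hε2 : ε' * ε' = 1 := by
    rcases hε' with h | h <;> rw [h] <;> ring
  have hε0 : ε' ≠ 0 := by
    rcases hε' with h | h <;> rw [h] <;> norm_num
  have hεconj : conj ε' = ε' := by
    rcases hε' with h | h <;> rw [h] <;> simp
  have hff : ∀ s t : T, classInner (f s : G → ℂ) (f t : G → ℂ) = if s = t then 1 else 0 := by
    intro s t
    rw [Cfsg.Agent.Lib.Char.Ortho.classInner_irr (f s).2 (f t).2]
    by_cases h : s = t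
    · rw [if_pos h, if_pos (by rw [h])]
    · rw [if_neg h, if_neg (fun h' => h (hinj (Subtype.ext h')))]
  have hdiff : ∀ (s t : T) (χ : IrrCharacter G), classInner (α t) (χ : G → ℂ) - classInner (α s) (χ : G → ℂ) =
      ε' * (classInner (f s : G → ℂ) (χ : G → ℂ) - classInner (f t : G → ℂ) (χ : G → ℂ)) := by
    intro s t χ
    rw [← classInner_sub_left, hD s t, classInner_smul_left, classInner_sub_left]
  let dd : T → ℂ := fun t => classInner (α t) (f t : G → ℂ) + ε'
  have hdd : ∀ s t : T, s ≠ t → classInner (α s) (f t : G → ℂ) = dd t := by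
    intro s t hne
    have h1 := hdiff t s (f t)
    rw [hff, hff, if_pos rfl, if_neg hne] at h1
    simp only [dd]
    linear_combination h1
  have hconst : ∀ s t : T, dd s = dd t := by
    intro s t
    by_cases hne : s = t
    · rw [hne]
    have h1 : classInner (α s) (α s - α t) = 1 := by
      rw [classInner_sub_right, hinner, hinner, if_pos rfl, if_neg hne]
      ring
    have h2 : α s - α t = ε' • ((f t : G → ℂ) - (f s : G → ℂ)) := hD t s
    rw [h2, classInner_smul_right, hεconj, classInner_sub_right, hdd s t hne] at h1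
    have h3 : classInner (α s) (f s : G → ℂ) = dd s - ε' := by
      simp only [dd]
      ring
    rw [h3] at h1
    have h4 : ε' * (dd s - dd t) = 0 := by
      linear_combination hε2 - h1
    have := (mul_eq_zero.1 h4).resolve_left hε0
    exact sub_eq_zero.1 this
  obtain ⟨ε, hε⟩ : ∃ ε : ℤ, (ε : ℂ) = ε' ∧ (ε = 1 ∨ ε = -1) := by
    rcases hε' with h | h
    · exact ⟨1, by rw [h]; simp, Or.inl rfl⟩
    · exact ⟨-1, by rw [h]; simp, Or.inr rfl⟩
  obtain ⟨s₀, t₀, hst⟩ : ∃ s₀ t₀ : T, s₀ ≠ t₀ := by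
    have : Nontrivial T := Fintype.one_lt_card_iff_nontrivial.mp hT
    exact exists_pair_ne T
  -- the membership
  have hfS : ∀ t, f t ∈ S := by
    intro t
    obtain ⟨s, hs⟩ : ∃ s : T, s ≠ t := by
      by_cases h : s₀ = t
      · exact ⟨t₀, fun h' => hst (h.trans h'.symm)⟩
      · exact ⟨s₀, h⟩
    by_contra hn
    have h1 := hdiff t s (f t)
    rw [hff, hff, if_pos rfl, if_neg hs, hαi, hαi, if_neg hn, if_neg hn] at h1
    apply hε0
    linear_combination -h1
  have hval : ∀ s t : T, classInner (α s) (f t : G → ℂ) = (n (f t) s : ℂ) := by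
    intro s t
    rw [hαi, if_pos (hfS t)]
  -- the integer `d`
  obtain ⟨d, hd⟩ : ∃ d : ℤ, (d : ℂ) = dd s₀ := ⟨n (f s₀) s₀ + ε, by
    simp only [dd]
    rw [hval, ← hε.1]
    push_cast
    rfl⟩
  have hnY : ∀ s t : T, n (f t) s = d - ε * if s = t then 1 else 0 := by
    intro s t
    have h1 : ((n (f t) s : ℤ) : ℂ) = ((d - ε * (if s = t then 1 else 0) : ℤ) : ℂ) := by
      rw [← hval]
      push_cast
      rw [hd, hconst s₀ t]
      by_cases h : s = t
      · subst h
        rw [if_pos rfl, hε.1]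
        simp only [dd]
        ring
      · rw [if_neg h, hdd s t h]
        ring
    exact Int.cast_injective h1
  have hnX : ∀ s t : T, ∀ χ ∈ S, χ ∉ Set.range f → n χ s = n χ t := by
    intro s t χ hχS hχ
    have h1 := hdiff t s χ
    have h2 : ∀ u : T, classInner (f u : G → ℂ) (χ : G → ℂ) = 0 := by
      intro u
      apply Cfsg.Agent.Lib.Char.Ortho.classInner_irr_of_ne (f u).2 χ.2
      intro h
      exact hχ ⟨u, Subtype.ext h⟩
    rw [h2, h2, hαi, hαi, if_pos hχS, if_pos hχS] at h1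
    simp only [sub_self, mul_zero] at h1
    have h3 : ((n χ s : ℤ) : ℂ) = ((n χ t : ℤ) : ℂ) := sub_eq_zero.mp h1
    exact Int.cast_injective h3
  refine ⟨d, ε, f, fun χ => n χ s₀, hinj, hfS, hε.2, hnY, fun t χ hχS hχ => hnX t s₀ χ hχS hχ, ?_⟩
  -- the norm
  have hsum : ∀ (R : Type) [AddCommMonoid R] (h : IrrCharacter G → R), ∑ χ ∈ S, h χ =
      ∑ χ ∈ S.filter (· ∉ Set.range f), h χ + ∑ t : T, h (f t) := by
    intro R _ h
    rw [← Finset.sum_filter_add_sum_filter_not S (· ∉ Set.range f)]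
    congr 1
    simp only [not_not]
    have h1 : S.filter (· ∈ Set.range f) = Finset.univ.image f := by
      ext χ
      simp only [Finset.mem_filter, Set.mem_range, Finset.mem_image, Finset.mem_univ, true_and]
      constructor
      · exact fun h => h.2
      · rintro ⟨t, rfl⟩
        exact ⟨hfS t, t, rfl⟩
    rw [h1, Finset.sum_image (fun x _ y _ h => hinj h)]
  have h0 := hgram s₀ s₀
  rw [if_pos rfl, hsum ℤ] at h0
  have h5 : ∑ t : T, n (f t) s₀ * n (f t) s₀ = (d - ε) ^ 2 + ((Fintype.card T : ℤ) - 1) * d ^ 2 := by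
    rw [← Finset.add_sum_erase _ _ (Finset.mem_univ s₀), hnY s₀ s₀, if_pos rfl, mul_one]
    congr 1
    · ring
    · have h6 : ∀ t ∈ (Finset.univ.erase s₀ : Finset T), n (f t) s₀ * n (f t) s₀ = d ^ 2 := by
        intro t ht
        rw [hnY s₀ t, if_neg (Finset.ne_of_mem_erase ht).symm]
        ring
      rw [Finset.sum_congr rfl h6, Finset.sum_const, Finset.card_erase_of_mem (Finset.mem_univ _), Finset.card_univ,
        nsmul_eq_mul]
      have h7 : 1 ≤ Fintype.card T := by omega
      push_cast [h7]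
      ring
  rw [h5] at h0
  have hε1 : ε * ε = 1 := by
    rcases hε.2 with h | h <;> rw [h] <;> ring
  have h8 : ∑ χ ∈ S.filter (· ∉ Set.range f), n χ s₀ ^ 2 = ∑ χ ∈ S.filter (· ∉ Set.range f), n χ s₀ * n χ s₀ :=
    Finset.sum_congr rfl fun χ _ => by ring
  rw [h8]
  have h10 : (d - ε) ^ 2 = d ^ 2 - 2 * (d * ε) + 1 := by
    calc (d - ε) ^ 2 = d ^ 2 - 2 * (d * ε) + ε * ε := by ring
      _ = _ := by rw [hε1]
  rw [h10] at h0
  linarith


variable {p : ℕ} [hp : Fact p.Prime] {S : Finset (IrrCharacter G)} {F : IrrCharacter G → A → ℂ} {E : Subgroup (MulAut A)}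

/-- The images are orthogonal to what the columns are orthogonal to. -/
theorem cc_orth (ev : IrrCharacter G → ℂ) (h : ∀ v : A, v ≠ 1 → ∑ χ ∈ S, ev χ * conj (F χ v) = 0) (φ : A →* ℂˣ) :
    ∑ χ ∈ S, cc F χ φ * ev χ = 0 := by
  classical
  have h1 : ∀ χ : IrrCharacter G, cc F χ φ * ev χ = (Nat.card A : ℂ)⁻¹ *
      ∑ v ∈ (Finset.univ.erase 1 : Finset A), (((φ v : ℂˣ) : ℂ) - 1) * (ev χ * conj (F χ v)) := by
    intro χ
    rw [cc_def, mul_assoc, Finset.sum_mul]
    congr 1
    refine Finset.sum_congr rfl fun v _ => ?_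
    ring
  rw [Finset.sum_congr rfl fun χ _ => h1 χ, ← Finset.mul_sum, Finset.sum_comm]
  apply mul_eq_zero_of_right
  refine Finset.sum_eq_zero fun v hv => ?_
  rw [← Finset.mul_sum, h v (Finset.ne_of_mem_erase hv), mul_zero]

/-- **The output of the lattice, with the regular relation.** -/
theorem LatHyp.main2 (H : LatHyp p S F E) [Fintype E] (hA : 1 < Nat.card A)
    (hreg : ∀ x : G, ¬ p ∣ orderOf x → ∀ v : A, v ≠ 1 → ∑ χ ∈ S, (χ : G → ℂ) x * conj (F χ v) = 0) :
    ∃ (m : ℕ) (X : Finset (IrrCharacter G)) (q : ℤ) (a : IrrCharacter G → ℤ) (ω : G → ℂ),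
      1 ≤ m ∧ m * Fintype.card E = Nat.card A - 1 ∧ X ⊆ S ∧ S.card = X.card + m ∧
      (∀ χ ∈ S, χ ∉ X → ∀ x : G, ¬ p ∣ orderOf x → (χ : G → ℂ) x = ω x) ∧ q ≠ 0 ∧ (∀ χ ∈ X, a χ ≠ 0) ∧
      (∀ x : G, ¬ p ∣ orderOf x → ∑ χ ∈ X, (a χ : ℂ) * (χ : G → ℂ) x + (q : ℂ) * ω x = 0) ∧
      q ^ 2 + (m : ℤ) * ∑ χ ∈ X, a χ ^ 2 = 1 + (m : ℤ) * Fintype.card E := by
  classical
  haveI : Finite (A →* ℂˣ) := Cfsg.Agent.Lib.Blocks.AbFrob.finite_dual H.hc
  letI : Fintype (A →* ℂˣ) := Fintype.ofFinite _
  have hcardD : Fintype.card (A →* ℂˣ) = Nat.card A := by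
    rw [← Nat.card_eq_fintype_card]
    exact Cfsg.Agent.Lib.Blocks.AbFrob.card_dual H.hc
  -- the action on the dual group
  let act : E → (A →* ℂˣ) → (A →* ℂˣ) := fun σ φ => φ.comp ((σ : MulAut A)⁻¹).toMonoidHom
  have hact1 : ∀ φ, act 1 φ = φ := by
    intro φ
    ext a
    simp [act]
  have hactm : ∀ σ τ φ, act (σ * τ) φ = act σ (act τ φ) := by
    intro σ τ φ
    ext a
    simp [act, mul_inv_rev]
  have hactne : ∀ σ : E, ∀ φ : A →* ℂˣ, φ ≠ 1 → act σ φ ≠ 1 := by
    intro σ φ hφ h
    apply hφ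
    ext a
    have h5 := congrArg (fun f : A →* ℂˣ => f ((σ : MulAut A) a)) h
    simpa [act] using h5
  have hfix : ∀ σ : MulAut A, σ ∈ E → σ ≠ 1 → ∀ v : A, σ v = v → v = 1 := by
    intro σ hσ hne v hv
    by_contra hv1
    exact hne (H.hfree σ hσ v hv1 hv)
  obtain ⟨R, hRY, hRu, hRc⟩ := exists_reps act hact1 hactm (Finset.univ.erase (1 : A →* ℂˣ))
    (fun σ φ hφ => Finset.mem_erase.mpr ⟨hactne σ φ (Finset.ne_of_mem_erase hφ), Finset.mem_univ _⟩)
    (fun σ φ hφ h => by
      have h1 : (σ : MulAut A)⁻¹ = 1 := eq_one_of_comp_eq H.hc (hfix _ (E.inv_mem σ.2)) (Finset.ne_of_mem_erase hφ) h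
      apply Subtype.ext
      simpa using h1)
  have hRne : ∀ r ∈ R, r ≠ 1 := fun r hr => Finset.ne_of_mem_erase (hRY hr)
  have hRc' : R.card * Fintype.card E = Nat.card A - 1 := by
    rw [hRc, Finset.card_erase_of_mem (Finset.mem_univ _), Finset.card_univ, hcardD]
  have hm1 : 1 ≤ R.card := by
    by_contra h0
    have h2 : R.card = 0 := by omega
    rw [h2, zero_mul] at hRc'
    omega
  -- the integers
  have hn : ∀ (χ : IrrCharacter G) (φ : A →* ℂˣ), ∃ n : ℤ, χ ∈ S → cc F χ φ = n := by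
    intro χ φ
    by_cases hχ : χ ∈ S
    · obtain ⟨n, hn⟩ := H.cc_int hχ φ
      exact ⟨n, fun _ => hn⟩
    · exact ⟨0, fun h => absurd h hχ⟩
  choose n hn using hn
  have hgram : ∀ s t : A →* ℂˣ, s ∈ R → t ∈ R → ∑ χ ∈ S, n χ s * n χ t = if s = t then (Fintype.card E : ℤ) + 1 else Fintype.card E := by
    intro s t hs ht
    have h1 : ((∑ χ ∈ S, n χ s * n χ t : ℤ) : ℂ) = ∑ σ : E, (1 + if s = t.comp (σ : MulAut A).toMonoidHom then (1 : ℂ) else 0) := by
      rw [← H.cc_bil (hRne s hs) (hRne t ht)]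
      push_cast
      refine Finset.sum_congr rfl fun χ hχ => ?_
      rw [hn χ s hχ, hn χ t hχ, map_intCast]
    have h2 : ∑ σ : E, (1 + if s = t.comp (σ : MulAut A).toMonoidHom then (1 : ℂ) else 0) =
        ((if s = t then (Fintype.card E : ℤ) + 1 else (Fintype.card E : ℤ) : ℤ) : ℂ) := by
      rw [Finset.sum_add_distrib, Finset.sum_const, Finset.card_univ, nsmul_eq_mul, mul_one]
      by_cases hst : s = t
      · subst hst
        rw [if_pos rfl]
        push_cast
        congr 1
        rw [Finset.sum_eq_single (1 : E)]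
        · rw [if_pos]
          ext a
          simp
        · intro σ _ hσ
          rw [if_neg]
          intro h
          apply hσ
          apply Subtype.ext
          exact eq_one_of_comp_eq H.hc (hfix _ σ.2) (hRne s hs) h.symm
        · simp
      · rw [if_neg hst]
        have h3 : ∀ σ : E, (if s = t.comp (σ : MulAut A).toMonoidHom then (1 : ℂ) else 0) = 0 := by
          intro σ
          rw [if_neg]
          intro h
          apply hst
          obtain ⟨r, -, hr⟩ := hRu t (hRY ht)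
          have e1 := hr t ⟨ht, 1, hact1 t⟩
          have e2 := hr s ⟨hs, σ⁻¹, by
            rw [h]
            ext a
            simp [act]⟩
          rw [e2, e1]
        simp only [h3, Finset.sum_const_zero, add_zero, Int.cast_natCast]
    rw [h2] at h1
    exact Int.cast_injective h1
  have hone : ∀ t : A →* ℂˣ, ∑ χ ∈ S, (n χ t : ℂ) * (χ : G → ℂ) 1 = 0 := by
    intro t
    rw [← H.cc_one t]
    refine Finset.sum_congr rfl fun χ hχ => ?_
    rw [hn χ t hχ]
  have hzero : ∀ χ ∈ S, ∃ r ∈ R, n χ r ≠ 0 := by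
    intro χ hχ
    obtain ⟨φ, hφ, hne⟩ := H.cc_nz hχ
    obtain ⟨r, ⟨hr, σ, hσ⟩, -⟩ := hRu φ (Finset.mem_erase.mpr ⟨hφ, Finset.mem_univ _⟩)
    refine ⟨r, hr, ?_⟩
    intro h0
    apply hne
    have h1 : cc F χ r = cc F χ φ := by
      rw [← hσ]
      exact H.cc_comp hχ (E.inv_mem σ.2) φ
    rw [← h1, hn χ r hχ, h0]
    simp
  have hregn : ∀ (t : A →* ℂˣ) (x : G), ¬ p ∣ orderOf x → ∑ χ ∈ S, (n χ t : ℂ) * (χ : G → ℂ) x = 0 := by
    intro t x hx
    have h2 := cc_orth (S := S) (F := F) (fun χ : IrrCharacter G => (χ : G → ℂ) x) (fun v hv => hreg x hx v hv) t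
    rw [← h2]
    refine Finset.sum_congr rfl fun χ hχ => ?_
    rw [hn χ t hχ]
  by_cases hm : R.card = 1
  · obtain ⟨r, hr⟩ := Finset.card_eq_one.mp hm
    have hrR : r ∈ R := by
      rw [hr]
      exact Finset.mem_singleton_self r
    have ha : ∀ χ ∈ S, n χ r ≠ 0 := by
      intro χ hχ
      obtain ⟨r', hr', hne⟩ := hzero χ hχ
      rw [hr, Finset.mem_singleton] at hr'
      rw [← hr']
      exact hne
    have hs : ∑ χ ∈ S, n χ r ^ 2 = (Fintype.card E : ℤ) + 1 := by
      have h1 := hgram r r hrR hrR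
      rw [if_pos rfl] at h1
      rw [← h1]
      exact Finset.sum_congr rfl fun χ _ => by ring
    have hSne : S.Nonempty := by
      by_contra h0
      rw [Finset.not_nonempty_iff_eq_empty] at h0
      rw [h0, Finset.sum_empty] at hs
      have : (0 : ℤ) ≤ Fintype.card E := by positivity
      omega
    obtain ⟨χ₀, hχ₀⟩ := hSne
    have hmq : (1 : ℕ) * Fintype.card E = Nat.card A - 1 := by rw [← hRc', hm]
    refine ⟨1, S.erase χ₀, n χ₀ r, fun χ => n χ r, fun x => (χ₀ : G → ℂ) x, le_rfl, hmq, Finset.erase_subset _ _, ?_, ?_,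
      ha _ hχ₀, fun χ hχ => ha χ (Finset.mem_of_mem_erase hχ), ?_, ?_⟩
    · rw [Finset.card_erase_of_mem hχ₀]
      have : 1 ≤ S.card := Finset.card_pos.mpr ⟨χ₀, hχ₀⟩
      omega
    · intro χ hχ hχ' x _
      have h1 : χ = χ₀ := by
        by_contra h2
        exact hχ' (Finset.mem_erase.mpr ⟨h2, hχ⟩)
      rw [h1]
    · intro x hx
      have h1 := hregn r x hx
      rw [← Finset.sum_erase_add _ _ hχ₀] at h1
      exact h1
    · rw [← hs.trans (by ring : (Fintype.card E : ℤ) + 1 = 1 + ((1 : ℕ) : ℤ) * Fintype.card E)]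
      rw [← Finset.sum_erase_add _ _ hχ₀]
      push_cast
      ring
  · have hm2 : 2 ≤ R.card := by omega
    let T := {r // r ∈ R}
    have hcT : Fintype.card T = R.card := Fintype.card_coe R
    obtain ⟨d, ε, f, a, hinj, hfS, hε, hnY, hXa, hnorm⟩ := lattice_std2 (T := T) S (fun χ t => n χ t.1) (Fintype.card E)
      (fun s t => by
        rw [hgram s.1 t.1 s.2 t.2]
        by_cases h : s = t
        · subst h
          rw [if_pos rfl, if_pos rfl]
        · rw [if_neg h, if_neg (fun h' => h (Subtype.ext h'))])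
      (fun t => hone t.1) (by rw [hcT]; exact hm2)
    rw [hcT] at hnorm
    have hε2 : ε * ε = 1 := by
      rcases hε with h | h <;> rw [h] <;> ring
    have hε0 : (ε : ℂ) ≠ 0 := by
      rcases hε with h | h <;> rw [h] <;> norm_num
    have hRne' : R.Nonempty := Finset.card_pos.mp (by omega)
    obtain ⟨r₀, hr₀⟩ := hRne'
    let t₀ : T := ⟨r₀, hr₀⟩
    set X := S.filter (· ∉ Set.range f) with hX
    have hsum : ∀ (h : IrrCharacter G → ℂ), ∑ χ ∈ S, h χ = ∑ χ ∈ X, h χ + ∑ t : T, h (f t) := by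
      intro h
      rw [← Finset.sum_filter_add_sum_filter_not S (· ∉ Set.range f)]
      congr 1
      simp only [not_not]
      have h1 : S.filter (· ∈ Set.range f) = Finset.univ.image f := by
        ext χ
        simp only [Finset.mem_filter, Set.mem_range, Finset.mem_image, Finset.mem_univ, true_and]
        constructor
        · exact fun h => h.2
        · rintro ⟨t, rfl⟩
          exact ⟨hfS t, t, rfl⟩
      rw [h1, Finset.sum_image (fun x _ y _ h => hinj h)]
    -- the relation at a regular element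
    have hrel : ∀ (x : G), ¬ p ∣ orderOf x → ∀ t : T, ∑ χ ∈ X, (a χ : ℂ) * (χ : G → ℂ) x +
        ((d : ℂ) * ∑ s : T, (f s : G → ℂ) x - (ε : ℂ) * (f t : G → ℂ) x) = 0 := by
      intro x hx t
      have h1 := hregn t.1 x hx
      rw [hsum] at h1
      have h2 : ∑ χ ∈ X, (n χ t.1 : ℂ) * (χ : G → ℂ) x = ∑ χ ∈ X, (a χ : ℂ) * (χ : G → ℂ) x := by
        refine Finset.sum_congr rfl fun χ hχ => ?_
        obtain ⟨h3, h4⟩ := Finset.mem_filter.mp hχ
        rw [hXa t χ h3 h4]
      have h3 : ∑ s : T, (n (f s) t.1 : ℂ) * (f s : G → ℂ) x = (d : ℂ) * ∑ s : T, (f s : G → ℂ) x - (ε : ℂ) * (f t : G → ℂ) x := by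
        have h4 : ∀ s : T, (n (f s) t.1 : ℂ) * (f s : G → ℂ) x = (d : ℂ) * (f s : G → ℂ) x -
            (if s = t then (ε : ℂ) * (f s : G → ℂ) x else 0) := by
          intro s
          have h5 : n (f s) t.1 = d - ε * if t = s then 1 else 0 := hnY t s
          rw [h5]
          by_cases hst : s = t
          · rw [if_pos hst, if_pos hst.symm]
            push_cast
            ring
          · rw [if_neg hst, if_neg (fun h => hst h.symm)]
            push_cast
            ring
        rw [Finset.sum_congr rfl fun s _ => h4 s, Finset.sum_sub_distrib, ← Finset.mul_sum, Finset.sum_ite_eq' Finset.univ t]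
        simp
      rw [h2, h3] at h1
      exact h1
    have heqf : ∀ (x : G), ¬ p ∣ orderOf x → ∀ t : T, (f t : G → ℂ) x = (f t₀ : G → ℂ) x := by
      intro x hx t
      have h1 := hrel x hx t
      have h2 := hrel x hx t₀
      have h3 : (ε : ℂ) * ((f t : G → ℂ) x - (f t₀ : G → ℂ) x) = 0 := by
        linear_combination h2 - h1
      exact sub_eq_zero.mp ((mul_eq_zero.mp h3).resolve_left hε0)
    have hXS : X.card + R.card = S.card := by
      have h1 := Finset.card_filter_add_card_filter_not (s := S) (· ∉ Set.range f)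
      have h2 : S.filter (fun χ => ¬ χ ∉ Set.range f) = Finset.univ.image f := by
        ext χ
        simp only [not_not, Finset.mem_filter, Set.mem_range, Finset.mem_image, Finset.mem_univ, true_and]
        constructor
        · exact fun h => h.2
        · rintro ⟨t, rfl⟩
          exact ⟨hfS t, t, rfl⟩
      rw [h2, Finset.card_image_of_injective _ hinj, Finset.card_univ, hcT] at h1
      exact h1
    refine ⟨R.card, X, d * (R.card : ℤ) - ε, a, fun x => (f t₀ : G → ℂ) x, hm1, hRc', Finset.filter_subset _ _, hXS.symm,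
      ?_, ?_, ?_, ?_, ?_⟩
    · intro χ hχ hχX x hx
      have h1 : χ ∈ Set.range f := by
        by_contra h2
        exact hχX (Finset.mem_filter.mpr ⟨hχ, h2⟩)
      obtain ⟨t, rfl⟩ := h1
      exact heqf x hx t
    · intro h0
      have h1 : (R.card : ℤ) ∣ ε := ⟨d, by linarith⟩
      have h2 : (R.card : ℤ) ∣ 1 := by
        rcases hε with h | h
        · rwa [h] at h1
        · rw [h] at h1
          exact (Int.dvd_neg.mp h1)
      have h3 : R.card = 1 := by
        have := Int.eq_one_of_dvd_one (by positivity) h2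
        exact_mod_cast this
      exact hm h3
    · intro χ hχ h0
      obtain ⟨hχS, hχr⟩ := Finset.mem_filter.mp hχ
      obtain ⟨r, hr, hne⟩ := hzero χ hχS
      apply hne
      have h1 := hXa ⟨r, hr⟩ χ hχS hχr
      rw [h1, h0]
    · intro x hx
      have h1 := hrel x hx t₀
      have h2 : ∑ s : T, (f s : G → ℂ) x = (R.card : ℂ) * (f t₀ : G → ℂ) x := by
        rw [Finset.sum_congr rfl fun s _ => heqf x hx s, Finset.sum_const, Finset.card_univ, hcT, nsmul_eq_mul]
      rw [h2] at h1
      push_cast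
      linear_combination h1
    · rw [hnorm]
      linear_combination hε2

end Lat2

end Cfsg.Agent.Lib.Blocks.AbFree
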