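/-
Abelian defect, free inertial action: the assembly, with the lattice.
-/
import Mathlib
import Cfsg.Agent.Lib.Blocks.AbFree12
import Cfsg.Agent.Lib.Blocks.AbLat1

set_option autoImplicit false
set_option linter.style.haveILetI false

namespace Cfsg.Agent.Lib.Blocks.AbFree

open Cfsg Cfsg.Agent.Lib.Blocks.Local Cfsg.Agent.Lib.Blocks.Central Cfsg.Agent.Lib.Blocks.Osima
open Cfsg.Agent.Lib.Blocks.Covering Cfsg.Agent.Lib.Blocks.BlockHom Cfsg.Agent.Lib.Blocks.Pairs
open Cfsg.Agent.Lib.Blocks.Twisted Cfsg.Agent.Lib.Blocks.Necklace Cfsg.Agent.Lib.Blocks.Nilp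
open Cfsg.Agent.Lib.Blocks.Regular Cfsg.Agent.Lib.Blocks.Sections Cfsg.Agent.Lib.Blocks.CycloSums
open Cfsg.Agent.Lib.Blocks.Transport Cfsg.Agent.Lib.Blocks.BrauerMap
open Cfsg.Agent.Lib.Char.Virtual
open ComplexConjugate

universe u

section CoreLat

variable {G : Type u} [Group G] [Fintype G] {p : ℕ} [hp : Fact p.Prime] {M : Ideal AlgInt}

open Classical in
/-- **Orthogonality with the regular elements.** -/
theorem col_reg [hMP : M.IsPrime] (hMp : IsPModular p M) {B : Set (IrrCharacter G)} (hB : IsPBlock M B) {v : G} (hv1 : v ≠ 1) {k : ℕ} (hk : orderOf v = p ^ k)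
    [Fintype (Kz v)] (ζ : Kz v → ℂ) {x : G} (hx : ¬ p ∣ orderOf x) :
    ∑ χ ∈ Finset.univ.filter (· ∈ B), (χ : G → ℂ) x * conj (classInner (reg p (sec χ v)) ζ) = 0 := by
  have h1 : ∀ χ : IrrCharacter G, (χ : G → ℂ) x * conj (classInner (reg p (sec χ v)) ζ) =
      (Nat.card (Kz v) : ℂ)⁻¹ * ∑ c : Kz v, ((χ : G → ℂ) x * conj (reg p (sec χ v) c)) * ζ c := by
    intro χ
    simp only [classInner, map_mul, map_sum, map_inv₀, map_natCast, Complex.conj_conj]
    rw [mul_left_comm, Finset.mul_sum]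
    congr 1
    refine Finset.sum_congr rfl fun c _ => ?_
    ring
  simp only [h1]
  rw [← Finset.mul_sum, Finset.sum_comm]
  apply mul_eq_zero_of_right
  refine Finset.sum_eq_zero fun c _ => ?_
  rw [← Finset.sum_mul]
  apply mul_eq_zero_of_left
  by_cases hc : p ∣ orderOf c
  · simp only [reg_of_dvd _ hc, map_zero, mul_zero, Finset.sum_const_zero]
  simp only [reg_of_not_dvd _ hc]
  have hp1 : IsPPart p (v * (c : G)) v :=
    ⟨c, rfl, (mem_centralizer_zpowers_iff.mp c.2).symm, ⟨k, hk⟩, by rwa [Subgroup.orderOf_coe]⟩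
  have hp2 : IsPPart p x 1 := Cfsg.Agent.Lib.Blocks.AbFrob.isPPart_one_of_reg hx
  have hnc : ¬ IsConj (1 : G) v := by
    intro h
    apply hv1
    exact (isConj_one_right.mp h)
  have h2 := block_orthogonality hMp hp2 hp1 hnc hB
  rw [Osima.finsum_mem_eq_sum_filter] at h2
  refine Eq.trans (Finset.sum_congr rfl fun χ _ => ?_) h2
  simp only [sec]
  rw [Cfsg.Agent.Lib.Char.Ortho.conj_of_isCharacter (Cfsg.Agent.Lib.Char.Basic.isCharacter_of_isIrrCharacter χ.2)]

set_option maxHeartbeats 2000000 in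
/-- **The core of the theorem, with the lattice.** -/
theorem coreLat (hMp : IsPModular p M) {B : Set (IrrCharacter G)} (hB : IsPBlock M B) {P T : Subgroup G}
    (hPD : IsDefectGroup p M B P) (hP1 : P ≠ ⊥) (hab : ∀ x ∈ P, ∀ y ∈ P, x * y = y * x)
    {c : Set (IrrCharacter (Subgroup.centralizer (P : Set G)))}
    (hc : IsInducedBlock M (Subgroup.centralizer (P : Set G)) c B)
    (hT : ∀ g : G, g ∈ T ↔ (g ∈ Subgroup.normalizer (P : Set G) ∧ StabilizesBlock (Subgroup.centralizer (P : Set G)) c g))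
    {e : ℕ} (he : (Subgroup.centralizer (P : Set G)).relIndex T = e)
    (hfree : ∀ g ∈ T, ∀ x ∈ P, x ≠ 1 → g * x * g⁻¹ = x → g ∈ Subgroup.centralizer (P : Set G)) :
    ∃ (m : ℕ) (X : Finset (IrrCharacter G)) (q : ℤ) (a : IrrCharacter G → ℤ) (ω : G → ℂ),
      1 ≤ m ∧ 1 ≤ e ∧ m * e = Nat.card P - 1 ∧ Nat.card B = blockRank p B + m ∧ (∀ χ ∈ X, χ ∈ B) ∧
      X.card = blockRank p B ∧ (∀ χ ∈ B, χ ∉ X → ∀ x : G, ¬ p ∣ orderOf x → (χ : G → ℂ) x = ω x) ∧
      q ≠ 0 ∧ (∀ χ ∈ X, a χ ≠ 0) ∧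
      (∀ x : G, ¬ p ∣ orderOf x → ∑ χ ∈ X, (a χ : ℂ) * (χ : G → ℂ) x + (q : ℂ) * ω x = 0) ∧
      q ^ 2 + (m : ℤ) * ∑ χ ∈ X, a χ ^ 2 = 1 + (m : ℤ) * e := by
  classical
  haveI := isPrime_of_isPModular hMp
  have hcard := Cfsg.Agent.S0908.result p M hMp B hB P hPD
  have hPp : IsPGroup p P := IsPGroup.of_card hcard
  have hBe := isBrauerPairOf_of_induced hPp hc
  have hmax := isMaximal_of_isDefectGroup hMp hBe hPD
  have hPe := hmax.1.1
  have hPK : ∀ Q : Subgroup G, Q ≤ P → P ≤ Subgroup.centralizer (Q : Set G) := fun Q hQ u hu =>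
    Subgroup.mem_centralizer_iff.mpr fun q hq => hab q (hQ hq) u hu
  have hnil : ∀ Q : Subgroup G, Q ≤ P → Q ≠ ⊥ → ∀ f : Set (IrrCharacter (XQ Q)), IsPBlock M f →
      SubpairLE p M Q f P c → IsNilpotentBlock p M f := by
    intro Q hQP hQ1 f _ hle
    have hKN : XQ Q ≤ Subgroup.normalizer (Q : Set G) := Cfsg.Agent.Lib.Blocks.FirstMain.centralizer_le_normalizer' Q
    exact (free_iff_local_nilpotent hMp hPD hab hPp hc hT).mp hfree Q hQP hQ1 f
      (isInducedBlockIn_of_normal hMp hQP (hPK Q hQP)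
        (isNormalSubpair_of_subpairLE hMp hPe hle ((hPK Q hQP).trans hKN)))
  obtain ⟨χ₀, y, hχ₀, -, hy, hTT, hne, h1⟩ := exists_setup' hMp hmax
  letI hX : ∀ R : Subgroup G, Fintype (XQ R) := fun R => Fintype.ofFinite _
  obtain ⟨ζ, κ, s, μ, hζn, hyrel, hκ, hs, hμ, hμv⟩ := stageA hMp hmax hab hnil hy hTT hne h1
  letI iP : Fintype P := Fintype.ofFinite _
  have hPf : (Pf P).card = Nat.card P := by
    rw [Nat.card_eq_fintype_card, Fintype.card_subtype]
    rfl
  -- the column entries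
  let AC : IrrCharacter G → P → ℂ := fun χ v => AA p P χ (v : G) (ζ v)
  have hv1 : ∀ v : P, v ≠ 1 → (v : G) ≠ 1 := fun v hv h => hv (Subtype.ext h)
  have hnilv : ∀ v : P, v ≠ 1 → IsNilpotentBlock p M (eBlk M p P c (v : G)) := by
    intro v hv
    have hQ1 : Subgroup.zpowers (v : G) ≠ ⊥ := by
      rw [Ne, Subgroup.zpowers_eq_bot]
      exact hv1 v hv
    exact hnil _ (Subgroup.zpowers_le.mpr v.2) hQ1 _ (isPBlock_eBlk hMp hPe v.2) (eBlk_spec hMp hPe v.2)
  have hACspec : ∀ (χ : IrrCharacter G) (v : P), v ≠ 1 → AC χ v ∈ rootRing (Fintype.card G) ∧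
      ∀ c' : Kz (v : G), ¬ p ∣ orderOf c' → twTrace (χ : G → ℂ) ((v : G) * c') (Ev M p P c v) = AC χ v * (ζ v : Kz (v : G) → ℂ) c' := by
    intro χ v hv
    obtain ⟨hζ, hnorm⟩ := hζn v hv
    obtain ⟨a, ha, hsec⟩ := exists_section_coeff hMp hmax hab v.2 (hnilv v hv) χ hζ hnorm
    have h2 : AC χ v = a := AA_eq_of_section hMp hPe hab v.2 hζ hnorm χ hsec
    rw [h2]
    exact ⟨ha, hsec⟩
  have hnu : ∀ (χ : IrrCharacter G) (v : P), v ≠ 1 → twTrace (χ : G → ℂ) (v : G) y = AC χ v * κ v := by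
    intro χ v hv
    obtain ⟨h2, h3⟩ := hACspec χ v hv
    exact hyrel v hv _ _ (fun g => memLocalRing_of_isIntegral (isIntegral_irr χ.2 g)) (isClassFunction_of_irr χ.2)
      (memLocalRing_of_mem_rootRing Fintype.card_pos h2) h3
  have hACinv : ∀ (χ : IrrCharacter G) (t : G), t ∈ T → ∀ v w : P, v ≠ 1 → (w : G) = t * v * t⁻¹ → AC χ w = AC χ v := by
    intro χ t ht v ⟨w, hwP⟩ hv hw
    simp only at hw
    subst hw
    obtain ⟨htN, hts⟩ := (hT t).mp ht
    have hw1 : (⟨t * v * t⁻¹, hwP⟩ : P) ≠ 1 := by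
      intro h
      apply hv1 v hv
      have h2 : t * (v : G) * t⁻¹ = 1 := congrArg Subtype.val h
      have h3 : (v : G) = t⁻¹ * (t * v * t⁻¹) * t := by group
      rw [h3, h2]
      group
    obtain ⟨hζ', hnorm'⟩ := hζn _ hw1
    obtain ⟨hζ, hnorm⟩ := hζn v hv
    exact AA_conj hMp hmax hab htN hts v.2 (hnilv v hv) hζ hnorm hζ' hnorm' χ
  -- the group `E`
  have hTN : T ≤ Subgroup.normalizer (P : Set G) := fun g hg => ((hT g).mp hg).1
  obtain ⟨E, hE1, hE2, hEcard⟩ := exists_E hTN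
  letI iE : Fintype E := Fintype.ofFinite _
  have hEc : Fintype.card E = e := by
    rw [← Nat.card_eq_fintype_card, hEcard, he]
  have hfreeE : ∀ σ ∈ E, ∀ v : P, v ≠ 1 → σ v = v → σ = 1 := by
    intro σ hσ v hv h
    obtain ⟨t, ht, hσt⟩ := hE1 σ hσ
    have h2 : t * (v : G) * t⁻¹ = v := by
      rw [← hσt, h]
    have h3 := hfree t ht v v.2 (hv1 v hv) h2
    ext w
    rw [hσt, ← Subgroup.mem_centralizer_iff.mp h3 w w.2]
    simp
  -- the representatives on `P`
  obtain ⟨RP, hRPY, hRPu, hRPc⟩ := exists_reps (X := P) (E := E) (fun σ v => (σ : MulAut P) v) (fun x => rfl)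
    (fun σ τ x => rfl) (Finset.univ.erase (1 : P))
    (fun σ x hx => Finset.mem_erase.mpr ⟨fun h => Finset.ne_of_mem_erase hx (by simpa using h), Finset.mem_univ _⟩)
    (fun σ x hx h => Subtype.ext (hfreeE σ σ.2 x (Finset.ne_of_mem_erase hx) h))
  have hYc : (Finset.univ.erase (1 : P)).card = Nat.card P - 1 := by
    rw [Finset.card_erase_of_mem (Finset.mem_univ _), Finset.card_univ, Nat.card_eq_fintype_card]
  rw [hYc, hEc] at hRPc
  obtain ⟨v₀, hv₀⟩ := (Subgroup.ne_bot_iff_exists_ne_one).mp hP1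
  have hP2 : 2 ≤ Nat.card P := by
    have h2 : 1 < Nat.card P := by
      rw [Finite.one_lt_card_iff_nontrivial]
      exact ⟨⟨v₀, 1, hv₀⟩⟩
    exact h2
  have hRP1 : 1 ≤ RP.card := by
    by_contra h0
    have h2 : RP.card = 0 := by omega
    rw [h2, zero_mul] at hRPc
    omega
  have he1 : 1 ≤ e := by
    by_contra h0
    have h2 : e = 0 := by omega
    rw [h2, mul_zero] at hRPc
    omega
  have hodd : p = 2 → Odd (Fintype.card E) := by
    intro hp2
    have hd : blockDefect p B ≠ 0 := by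
      intro h0
      rw [h0, pow_zero] at hcard
      omega
    have h2 : Even (Nat.card P) := by
      rw [hcard]
      exact Nat.even_pow.mpr ⟨by rw [hp2]; exact even_two, hd⟩
    have h3 : Odd (RP.card * e) := by
      rw [hRPc]
      exact Nat.Even.sub_odd (by omega) h2 odd_one
    rw [hEc]
    exact (Nat.odd_mul.mp h3).2
  have hcP : ∀ a b : P, a * b = b * a := fun a b => Subtype.ext (hab _ a.2 _ b.2)
  have hcharχ : ∀ χ : IrrCharacter G, IsCharacter G (χ : G → ℂ) := fun χ =>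
    Cfsg.Agent.Lib.Char.Values.IsIrrCharacter.isCharacter χ.2
  have hν₀ : IsGeneralizedCharacter P (fun v : P => twTrace (χ₀ : G → ℂ) (v : G) y) :=
    isGeneralized_of_isCharacter (isCharacter_nu (hcharχ χ₀) hy.idem hy.inv)
  have hν₀u : ∀ a : P, ¬ MemLocalIdeal M (twTrace (χ₀ : G → ℂ) (a : G) y) := fun a =>
    not_mem_nu hMp hPp (hcharχ χ₀) (fun g => memLocalRing_of_isIntegral (isIntegral_irr χ₀.2 g)) hy.loc hy.idem hy.inv hTT a.2
  obtain ⟨ι, m₁, s', hι, hm₁, hs', hs'E, hιv⟩ := sign_fix hMp hcP hPp ⟨v₀, hv₀⟩ E hodd hμ hν₀ hν₀u hs hκ hμv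
    (a₀ := AC χ₀) (hnu χ₀) (fun σ hσ v hv => by
      obtain ⟨t, ht, hσt⟩ := hE1 σ hσ
      exact hACinv χ₀ t ht v (σ v) hv (hσt v))
  have hs2' : ∀ v, (s' v : ℂ) * (s' v : ℂ) = 1 := by
    intro v
    rcases hs' v with h | h <;> rw [h] <;> simp
  -- the number of characters
  have hk : Nat.card B = blockRank p B + RP.card := by
    have h2 := card_eq_of_reps hMp hmax hab hT hnil (RP.image Subtype.val) (by
      intro r hr
      obtain ⟨r₀, hr₀, rfl⟩ := Finset.mem_image.mp hr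
      exact ⟨r₀.2, hv1 r₀ (Finset.ne_of_mem_erase (hRPY hr₀))⟩) (by
      intro w hwP hw1
      have hw1' : (⟨w, hwP⟩ : P) ≠ 1 := fun h => hw1 (congrArg Subtype.val h)
      obtain ⟨r₀, ⟨hr₀, σ, hσ⟩, hu⟩ := hRPu ⟨w, hwP⟩ (Finset.mem_erase.mpr ⟨hw1', Finset.mem_univ _⟩)
      refine ⟨(r₀ : G), ⟨Finset.mem_image.mpr ⟨r₀, hr₀, rfl⟩, ?_⟩, ?_⟩
      · obtain ⟨t, ht, hσt⟩ := hE1 σ σ.2
        exact ⟨t, ht, by rw [← hσ, hσt]⟩
      · rintro r ⟨hr, t', ht', htr⟩
        obtain ⟨r₁, hr₁, rfl⟩ := Finset.mem_image.mp hr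
        obtain ⟨σ', hσ', hσ't⟩ := hE2 t' ht'
        have h3 : r₁ = r₀ := hu r₁ ⟨hr₁, ⟨σ', hσ'⟩, Subtype.ext (by
          show ((σ' ⟨w, hwP⟩ : P) : G) = r₁
          rw [hσ't, ← htr])⟩
        rw [h3])
    rwa [Finset.card_image_of_injective _ Subtype.val_injective] at h2
  have hlpos : 1 ≤ blockRank p B := Cfsg.Agent.Lib.Blocks.CentralQuot.blockRank_pos hB
  -- the family
  let F : IrrCharacter G → P → ℂ := fun χ v => (s' v : ℂ) * AC χ v
  let S : Finset (IrrCharacter G) := Finset.univ.filter (· ∈ B)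
  have hH : LatHyp p S F E := by
    refine ⟨hcP, hPp, hfreeE, ⟨m₁, hm₁, fun χ _ => ⟨fun v => twTrace (χ : G → ℂ) (v : G) y * ι v,
      isGeneralized_mul (isGeneralized_of_isCharacter (isCharacter_nu (hcharχ χ) hy.idem hy.inv)) hι, fun v hv => ?_⟩⟩,
      fun χ _ σ hσ v hv => ?_, fun u v hu hv => ?_, fun v hv => ?_, fun χ _ v hv => ?_, fun χ hχ => ?_⟩
    · show twTrace (χ : G → ℂ) (v : G) y * ι v = _
      rw [hnu χ v hv]
      simp only [F]
      calc AC χ v * κ v * ι v = AC χ v * (ι v * κ v) := by ring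
        _ = _ := by rw [hιv v hv]; ring
    · obtain ⟨t, ht, hσt⟩ := hE1 σ hσ
      simp only [F]
      rw [hs'E σ hσ v hv, hACinv χ t ht v (σ v) hv (hσt v)]
    · by_cases h : ∃ σ ∈ E, σ u = v
      · rw [if_pos h]
        obtain ⟨σ, hσ, rfl⟩ := h
        obtain ⟨t, ht, hσt⟩ := hE1 σ hσ
        have h2 : ∀ χ, F χ (σ u) = F χ u := fun χ => by
          simp only [F]
          rw [hs'E σ hσ u hu, hACinv χ t ht u (σ u) hu (hσt u)]
        simp only [h2]
        have h3 := col_norm hMp hmax hab u.2 (hnilv u hu) (hζn u hu).1 (hζn u hu).2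
        rw [hPf] at h3
        rw [← h3]
        refine Finset.sum_congr rfl fun χ _ => ?_
        simp only [F, map_mul, map_intCast]
        calc (s' u : ℂ) * AC χ u * ((s' u : ℂ) * conj (AC χ u)) = ((s' u : ℂ) * (s' u : ℂ)) * (AC χ u * conj (AC χ u)) := by ring
          _ = _ := by rw [hs2', one_mul]
      · rw [if_neg h]
        have hnot : ¬ ∃ t : G, t ∈ Subgroup.normalizer (P : Set G) ∧
            StabilizesBlock (Subgroup.centralizer (P : Set G)) c t ∧ t * (u : G) * t⁻¹ = v := by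
          rintro ⟨t, htN, hts, htv⟩
          obtain ⟨σ, hσ, hσt⟩ := hE2 t ((hT t).mpr ⟨htN, hts⟩)
          exact h ⟨σ, hσ, Subtype.ext (by rw [hσt, htv])⟩
        have h3 := col_orth hMp hmax hab u.2 v.2 (hζn u hu).1 (hζn v hv).1 hnot
        have h4 : ∑ χ ∈ S, F χ u * conj (F χ v) = ((s' u : ℂ) * (s' v : ℂ)) * ∑ χ ∈ S, AC χ u * conj (AC χ v) := by
          rw [Finset.mul_sum]
          refine Finset.sum_congr rfl fun χ _ => ?_
          simp only [F, map_mul, map_intCast]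
          ring
        rw [h4]
        apply mul_eq_zero_of_right
        exact h3
    · obtain ⟨k, hk'⟩ := exists_orderOf_of_mem hPp v.2
      have h3 := col_one hMp hB (hv1 v hv) hk' (ζ v : Kz (v : G) → ℂ)
      have h4 : ∑ χ ∈ S, (χ : G → ℂ) 1 * conj (F χ v) = conj ((s' v : ℂ) * ((Pf P).card : ℂ)) *
          ∑ χ ∈ S, (χ : G → ℂ) 1 * conj (classInner (reg p (sec χ (v : G))) (ζ v : Kz (v : G) → ℂ)) := by
        rw [Finset.mul_sum]
        refine Finset.sum_congr rfl fun χ _ => ?_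
        simp only [F, AC, AA, map_mul]
        ring
      rw [h4]
      apply mul_eq_zero_of_right
      exact h3
    · exact IsIntegral.mul (isIntegral_algebraMap (R := ℤ) (A := ℂ) (x := s' v))
        (isIntegral_of_mem_rootRing Fintype.card_pos (hACspec χ v hv).1)
    · by_contra hcon
      push Not at hcon
      have hχB : χ ∈ B := (Finset.mem_filter.mp hχ).2
      have hAC0 : ∀ v : P, v ≠ 1 → AC χ v = 0 := by
        intro v hv
        have h2 := hcon v hv
        simp only [F] at h2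
        have h3 : (s' v : ℂ) ≠ 0 := fun h => by
          have := hs2' v
          rw [h] at this
          simp at this
        exact (mul_eq_zero.mp h2).resolve_left h3
      have hvan := vanish_of_sections hMp hmax hχB (fun v hvP hv c' hc' hreg => by
        have hv' : (⟨v, hvP⟩ : P) ≠ 1 := fun h => hv (congrArg Subtype.val h)
        have h2 := (hACspec χ ⟨v, hvP⟩ hv').2 ⟨c', hc'⟩ (by rwa [Subgroup.orderOf_mk])
        rw [hAC0 _ hv', zero_mul] at h2
        exact h2)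
      have hreg : reg p (χ : G → ℂ) = (χ : G → ℂ) := by
        funext g
        by_cases hg : p ∣ orderOf g
        · rw [reg_of_dvd _ hg, hvan g hg]
        · rw [reg_of_not_dvd _ hg]
      have hcl : Cfsg.Agent.Lib.Blocks.BlockCount.IsClosed M ({χ} : Set (IrrCharacter G)) := by
        refine isClosed_of_orth hMp fun χ' hχ' χ'' hχ'' => ?_
        rw [Set.mem_singleton_iff] at hχ'
        subst hχ'
        rw [hreg]
        exact Cfsg.Agent.Lib.Char.Ortho.classInner_irr_of_ne χ'.2 χ''.2 (fun h => hχ'' (by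
          rw [Set.mem_singleton_iff]
          exact (Subtype.ext h).symm))
      have hBs : B = {χ} := by
        obtain ⟨χ₁, hχ₁⟩ := hB
        have h2 : blockOf M (χ : G → ℂ) = B := by
          rw [hχ₁]
          exact blockOf_eq_of_mem (hχ₁ ▸ hχB)
        rw [← h2]
        apply Set.Subset.antisymm (hcl χ rfl)
        rintro _ rfl
        exact mem_blockOf_self _
      have h5 : Nat.card B = 1 := by
        rw [hBs]
        exact Nat.card_unique
      omega
  have hScard : Nat.card B = S.card := by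
    rw [← Fintype.card_coe]
    rw [← Nat.card_eq_fintype_card]
    refine Nat.card_congr (Equiv.subtypeEquivRight fun χ => ?_)
    simp [S]
  have hregF : ∀ x : G, ¬ p ∣ orderOf x → ∀ v : P, v ≠ 1 → ∑ χ ∈ S, (χ : G → ℂ) x * conj (F χ v) = 0 := by
    intro x hx v hv
    obtain ⟨k, hk'⟩ := exists_orderOf_of_mem hPp v.2
    have h3 := col_reg hMp hB (hv1 v hv) hk' (ζ v : Kz (v : G) → ℂ) hx
    have h4 : ∑ χ ∈ S, (χ : G → ℂ) x * conj (F χ v) = conj ((s' v : ℂ) * ((Pf P).card : ℂ)) *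
        ∑ χ ∈ S, (χ : G → ℂ) x * conj (classInner (reg p (sec χ (v : G))) (ζ v : Kz (v : G) → ℂ)) := by
      rw [Finset.mul_sum]
      refine Finset.sum_congr rfl fun χ _ => ?_
      simp only [F, AC, AA, map_mul]
      ring
    rw [h4]
    apply mul_eq_zero_of_right
    exact h3
  obtain ⟨m, X, q, a, ω, hm1', hm, hXS, hSX, hω, hq, ha, hrel, hnorm⟩ := hH.main2 (by omega) hregF
  rw [hEc] at hm hnorm
  have hmR : m = RP.card := by
    have h2 : m * e = RP.card * e := by rw [hm, hRPc]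
    exact Nat.eq_of_mul_eq_mul_right he1 h2
  have hmemS : ∀ χ, χ ∈ S ↔ χ ∈ B := fun χ => by simp [S]
  refine ⟨m, X, q, a, ω, hm1', he1, hm, ?_, fun χ hχ => (hmemS χ).mp (hXS hχ), ?_, ?_, hq, ha, hrel, hnorm⟩
  · rw [hk, hmR]
  · have h1 : Nat.card B = blockRank p B + m := by rw [hk, hmR]
    omega
  · intro χ hχ hχX
    exact hω χ ((hmemS χ).mpr hχ) hχX

end CoreLat

end Cfsg.Agent.Lib.Blocks.AbFree
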