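import Mathlib

/-!
# A Gram determinant bound for integer matrices

Used for the Brauer--Feit bound `k(B) ≤ p²` in defect two.

* `gram_bound`: an integer matrix `T` with nonzero rows and independent columns has
  `det (Tᵀ T) ≥ #rows - #columns + 1`.
* `dvd_det_of_minors`: an integer matrix all of whose `2 × 2` minors vanish mod `p` has determinant divisible by
  `p^(n-1)`.
* `key_bound`: an integer symmetric matrix `m` with `m² = p m`, of rank one modulo `p`, whose rows each have a nonzero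
  entry off the diagonal, has `aᵀ m a ≥ #rows - t` for `m a ≠ 0`, `t` the rank of its kernel.
-/

set_option autoImplicit false
set_option linter.unusedSectionVars false

namespace Cfsg.Agent.Lib.Blocks.BF2Matrix

open Matrix

section Gram

variable {ι κ : Type*} [Fintype ι] [Fintype κ] [DecidableEq ι] [DecidableEq κ]

/-- The real matrix of an integer matrix. -/
noncomputable abbrev toR {α β : Type*} (A : Matrix α β ℤ) : Matrix α β ℝ := A.map (Int.castRingHom ℝ)

lemma det_toR (A : Matrix κ κ ℤ) : (toR A).det = (A.det : ℝ) :=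
  ((Int.castRingHom ℝ).map_det A).symm

lemma det_add_vecMulVec_ge (Q : Matrix κ κ ℤ) (hQ : (toR Q).PosDef) (v : κ → ℤ) (hv : v ≠ 0) :
    Q.det + 1 ≤ (Q + vecMulVec v v).det := by
  have hdet : 0 < (toR Q).det := hQ.det_pos
  have hunit : IsUnit (toR Q).det := hdet.ne'.isUnit
  set vr : κ → ℝ := fun i => (v i : ℝ) with hvr
  have hvr0 : vr ≠ 0 := by
    intro h
    apply hv
    funext i
    have := congrFun h i
    simpa [hvr] using this
  have hcast : ((toR Q) + vecMulVec vr vr) = toR (Q + vecMulVec v v) := by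
    ext i j
    simp [toR, vecMulVec_apply, hvr]
  have h1 := det_add_replicateCol_mul_replicateRow (ι := Unit) hunit vr vr
  have h2 : replicateCol Unit vr * replicateRow Unit vr = vecMulVec vr vr := by
    ext i j
    simp [Matrix.mul_apply, vecMulVec_apply]
  rw [h2, hcast] at h1
  have h3 : (1 + replicateRow Unit vr * (toR Q)⁻¹ * replicateCol Unit vr).det =
      1 + vr ⬝ᵥ (toR Q)⁻¹ *ᵥ vr := by
    rw [Matrix.det_unique]
    simp only [Matrix.add_apply, Matrix.one_apply_eq, Matrix.mul_apply, replicateRow_apply, replicateCol_apply,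
      dotProduct, mulVec, Finset.mul_sum, Finset.sum_mul]
    congr 1
    rw [Finset.sum_comm]
    refine Finset.sum_congr rfl fun _ _ => Finset.sum_congr rfl fun _ _ => by ring
  rw [h3] at h1
  have hpos : 0 < vr ⬝ᵥ (toR Q)⁻¹ *ᵥ vr := by
    have h4 := hQ.inv.dotProduct_mulVec_pos hvr0
    simpa using h4
  -- the integer
  set n : ℤ := v ⬝ᵥ (adjugate Q) *ᵥ v with hn
  have hnc : (n : ℝ) = (toR Q).det * (vr ⬝ᵥ (toR Q)⁻¹ *ᵥ vr) := by
    have h5 : adjugate (toR Q) = toR (adjugate Q) := by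
      exact ((Int.castRingHom ℝ).map_adjugate Q).symm
    have h6 : (toR Q)⁻¹ = ((toR Q).det)⁻¹ • toR (adjugate Q) := by
      rw [Matrix.inv_def, h5]
      simp [Ring.inverse_eq_inv']
    rw [h6, smul_mulVec, dotProduct_smul, smul_eq_mul, ← mul_assoc, mul_inv_cancel₀ hdet.ne', one_mul, hn]
    simp [dotProduct, mulVec, toR, hvr]
  have hn1 : 1 ≤ n := by
    have h7 : (0 : ℝ) < n := by
      rw [hnc]
      exact mul_pos hdet hpos
    have h8 : 0 < n := by exact_mod_cast h7
    omega
  have h9 : ((Q + vecMulVec v v).det : ℝ) = ((Q.det + n : ℤ) : ℝ) := by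
    have e1 : (toR (Q + vecMulVec v v)).det = ((Q + vecMulVec v v).det : ℝ) := det_toR _
    have e2 : (toR Q).det = (Q.det : ℝ) := det_toR _
    rw [← e1, h1]
    rw [Int.cast_add, hnc, e2]
    ring
  have h10 : (Q + vecMulVec v v).det = Q.det + n := by exact_mod_cast h9
  omega

/-- The Gram sum over a subset of the rows. -/
def QQ (T : Matrix ι κ ℤ) (s : Finset ι) : Matrix κ κ ℤ := ∑ i ∈ s, vecMulVec (T i) (T i)

lemma QQ_quad (T : Matrix ι κ ℤ) (s : Finset ι) (x : κ → ℝ) :
    x ⬝ᵥ (toR (QQ T s)) *ᵥ x = ∑ i ∈ s, (∑ j, (T i j : ℝ) * x j) ^ 2 := by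
  classical
  have h1 : ∀ i : ι, (∑ j, (T i j : ℝ) * x j) ^ 2 = ∑ a, ∑ b, x a * ((T i a : ℝ) * (T i b : ℝ) * x b) := by
    intro i
    rw [sq, Finset.sum_mul_sum]
    refine Finset.sum_congr rfl fun a _ => Finset.sum_congr rfl fun b _ => by ring
  simp only [h1]
  rw [Finset.sum_comm]
  simp only [dotProduct, mulVec, Finset.mul_sum]
  refine Finset.sum_congr rfl fun a _ => ?_
  rw [Finset.sum_comm]
  refine Finset.sum_congr rfl fun b _ => ?_
  simp only [QQ, toR, map_apply, Matrix.sum_apply, vecMulVec_apply]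
  rw [map_sum, Finset.sum_mul, Finset.mul_sum]
  refine Finset.sum_congr rfl fun c _ => ?_
  simp

lemma QQ_posDef (T : Matrix ι κ ℤ) (s : Finset ι)
    (hs : ∀ x : κ → ℝ, x ≠ 0 → ∃ i ∈ s, ∑ j, (T i j : ℝ) * x j ≠ 0) : (toR (QQ T s)).PosDef := by
  refine PosDef.of_dotProduct_mulVec_pos ?_ ?_
  · ext a b
    simp [QQ, toR, Matrix.sum_apply, vecMulVec_apply, mul_comm]
  · intro x hx
    have h1 : star x = x := by
      funext i
      simp
    rw [h1, QQ_quad]
    obtain ⟨i, hi, hne⟩ := hs x hx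
    exact Finset.sum_pos' (fun _ _ => sq_nonneg _) ⟨i, hi, by positivity⟩

/-- A minimal spanning family of rows has at most `#κ` members. -/
lemma card_le_of_minimal (T : Matrix ι κ ℤ) (s : Finset ι)
    (hs : ∀ x : κ → ℝ, x ≠ 0 → ∃ i ∈ s, ∑ j, (T i j : ℝ) * x j ≠ 0)
    (hmin : ∀ j ∈ s, ¬ ∀ x : κ → ℝ, x ≠ 0 → ∃ i ∈ s.erase j, ∑ j, (T i j : ℝ) * x j ≠ 0) :
    s.card ≤ Fintype.card κ := by
  classical
  have h1 : ∀ j : s, ∃ x : κ → ℝ, x ≠ 0 ∧ ∀ i ∈ s.erase j, ∑ a, (T i a : ℝ) * x a = 0 := by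
    intro j
    have := hmin j j.2
    push Not at this
    exact this
  choose X hX0 hX using h1
  have hXne : ∀ j : s, ∑ a, (T j a : ℝ) * X j a ≠ 0 := by
    intro j hz
    obtain ⟨i, hi, hne⟩ := hs (X j) (hX0 j)
    by_cases hij : i = j
    · rw [hij] at hne
      exact hne hz
    · exact hne (hX j i (Finset.mem_erase.2 ⟨hij, hi⟩))
  have hli : LinearIndependent ℝ X := by
    rw [Fintype.linearIndependent_iff]
    intro c hc j
    have h2 : ∑ a, (T j a : ℝ) * (∑ i, c i • X i) a = 0 := by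
      rw [hc]
      simp
    have h3 : ∑ a, (T j a : ℝ) * (∑ i, c i • X i) a = ∑ i, c i * ∑ a, (T j a : ℝ) * X i a := by
      simp only [Finset.sum_apply, Pi.smul_apply, smul_eq_mul, Finset.mul_sum]
      rw [Finset.sum_comm]
      refine Finset.sum_congr rfl fun i _ => Finset.sum_congr rfl fun a _ => by ring
    rw [h3, Finset.sum_eq_single j] at h2
    · exact (mul_eq_zero.1 h2).resolve_right (hXne j)
    · intro i _ hij
      rw [hX i j (Finset.mem_erase.2 ⟨fun h => hij (Subtype.ext h).symm, j.2⟩), mul_zero]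
    · intro h
      exact absurd (Finset.mem_univ j) h
  have h4 := hli.fintype_card_le_finrank
  simpa using h4

theorem gram_bound_aux (T : Matrix ι κ ℤ) (hrow : ∀ i, T i ≠ 0) (n : ℕ) :
    ∀ s : Finset ι, s.card = n → (∀ x : κ → ℝ, x ≠ 0 → ∃ i ∈ s, ∑ j, (T i j : ℝ) * x j ≠ 0) →
      (s.card : ℤ) + 1 ≤ (QQ T s).det + Fintype.card κ := by
  induction n with
  | zero =>
    intro s hs hsp
    have hpd := QQ_posDef T s hsp
    have h1 : (0 : ℝ) < (toR (QQ T s)).det := hpd.det_pos
    have h2 : (toR (QQ T s)).det = ((QQ T s).det : ℝ) := det_toR _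
    rw [h2] at h1
    have h3 : 0 < (QQ T s).det := by exact_mod_cast h1
    rw [hs]
    have : (0 : ℤ) ≤ Fintype.card κ := by positivity
    push_cast
    omega
  | succ n ih =>
    intro s hs hsp
    have hpd := QQ_posDef T s hsp
    have h1 : (0 : ℝ) < (toR (QQ T s)).det := hpd.det_pos
    have h2 : (toR (QQ T s)).det = ((QQ T s).det : ℝ) := det_toR _
    rw [h2] at h1
    have h3 : 0 < (QQ T s).det := by exact_mod_cast h1
    by_cases hm : ∀ j ∈ s, ¬ ∀ x : κ → ℝ, x ≠ 0 → ∃ i ∈ s.erase j, ∑ j, (T i j : ℝ) * x j ≠ 0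
    · have h4 := card_le_of_minimal T s hsp hm
      have h5 : (s.card : ℤ) ≤ Fintype.card κ := by exact_mod_cast h4
      omega
    · push Not at hm
      obtain ⟨j, hj, hsp'⟩ := hm
      have hcard : (s.erase j).card = n := by
        rw [Finset.card_erase_of_mem hj, hs]
        rfl
      have h4 := ih (s.erase j) hcard hsp'
      have hpd' := QQ_posDef T (s.erase j) hsp'
      have h5 := det_add_vecMulVec_ge (QQ T (s.erase j)) hpd' (T j) (hrow j)
      have h6 : QQ T (s.erase j) + vecMulVec (T j) (T j) = QQ T s := by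
        rw [QQ, QQ, add_comm]
        exact Finset.add_sum_erase s (fun i => vecMulVec (T i) (T i)) hj
      rw [h6] at h5
      have h7 : ((s.erase j).card : ℤ) = s.card - 1 := by
        rw [Finset.card_erase_of_mem hj]
        have : 1 ≤ s.card := by omega
        push_cast [this]
        ring
      rw [h7] at h4
      omega

/-- **The Gram bound.** -/
theorem gram_bound (T : Matrix ι κ ℤ) (hrow : ∀ i, T i ≠ 0)
    (hinj : ∀ x : κ → ℝ, x ≠ 0 → ∃ i, ∑ j, (T i j : ℝ) * x j ≠ 0) :
    (Fintype.card ι : ℤ) + 1 ≤ (Tᵀ * T).det + Fintype.card κ := by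
  have h1 := gram_bound_aux T hrow _ Finset.univ rfl (fun x hx => by
    obtain ⟨i, hi⟩ := hinj x hx
    exact ⟨i, Finset.mem_univ _, hi⟩)
  have h2 : QQ T Finset.univ = Tᵀ * T := by
    ext a b
    simp [QQ, Matrix.sum_apply, vecMulVec_apply, Matrix.mul_apply]
  rw [h2] at h1
  simpa using h1

end Gram

section Minors

variable {n : Type*} [Fintype n] [DecidableEq n]

/-- All the `2 × 2` minors are divisible by `p`. -/
def Rk1 {α β : Type*} (p : ℕ) (A : Matrix α β ℤ) : Prop :=
  ∀ a a' b b', (p : ℤ) ∣ A a b * A a' b' - A a b' * A a' b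

theorem dvd_det_of_minors {p : ℕ} (hp : p.Prime) (B : Matrix n n ℤ) (h : Rk1 p B) :
    (p : ℤ) ^ (Fintype.card n - 1) ∣ B.det := by
  classical
  have hp0 : (p : ℤ) ≠ 0 := by exact_mod_cast hp.ne_zero
  by_cases h0 : ∀ a b, (p : ℤ) ∣ B a b
  · choose C hC using h0
    have h1 : B = (p : ℤ) • Matrix.of C := by
      ext a b
      simp [hC a b]
    rw [h1, det_smul]
    exact Dvd.dvd.mul_right (pow_dvd_pow _ (Nat.sub_le _ _)) _
  · push Not at h0
    obtain ⟨a₀, b₀, hu⟩ := h0
    have hcop : IsCoprime (B a₀ b₀) (p : ℤ) := by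
      have hpi : Prime (p : ℤ) := Nat.prime_iff_prime_int.mp hp
      exact ((Prime.coprime_iff_not_dvd hpi).mpr hu).symm
    obtain ⟨x, y, hxy⟩ := hcop
    -- the row operations
    let c : n → ℤ := fun a => if a = a₀ then 0 else -(x * B a b₀)
    let B' : Matrix n n ℤ := Matrix.of fun a b => B a b + c a * B a₀ b
    have hdet : B'.det = B.det :=
      det_eq_of_forall_row_eq_smul_add_const c a₀ (by simp [c]) (fun i j => rfl)
    have hrowp : ∀ a, a ≠ a₀ → ∀ b, (p : ℤ) ∣ B' a b := by
      intro a ha b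
      obtain ⟨k, hk⟩ := h a₀ a b₀ b
      have e : B' a b = (p : ℤ) * (y * B a b + x * k) := by
        simp only [B', c, Matrix.of_apply, if_neg ha]
        have : B a b = (x * B a₀ b₀ + y * (p : ℤ)) * B a b := by rw [hxy, one_mul]
        linear_combination this + x * hk
      rw [e]
      exact dvd_mul_right _ _
    choose! C' hC' using hrowp
    let d : n → ℤ := fun a => if a = a₀ then 1 else (p : ℤ)
    let C : Matrix n n ℤ := Matrix.of fun a b => if a = a₀ then B' a b else C' a b
    have hfac : B' = diagonal d * C := by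
      ext a b
      rw [diagonal_mul]
      by_cases ha : a = a₀
      · simp [d, C, ha]
      · simp only [d, C, Matrix.of_apply, if_neg ha]
        exact hC' a ha b
    rw [← hdet, hfac, det_mul, det_diagonal]
    refine Dvd.dvd.mul_right ?_ _
    have hprod : ∏ a, d a = (p : ℤ) ^ (Fintype.card n - 1) := by
      rw [← Finset.mul_prod_erase Finset.univ d (Finset.mem_univ a₀)]
      have h1 : ∀ a ∈ Finset.univ.erase a₀, d a = (p : ℤ) := by
        intro a ha
        simp only [d, if_neg (Finset.ne_of_mem_erase ha)]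
      rw [Finset.prod_congr rfl h1, Finset.prod_const, Finset.card_erase_of_mem (Finset.mem_univ a₀),
        Finset.card_univ]
      simp [d]
    rw [hprod]

lemma Rk1.mul_left {α β γ : Type*} [Fintype α] {p : ℕ} {A : Matrix α β ℤ} (h : Rk1 p A) (C : Matrix γ α ℤ) :
    Rk1 p (C * A) := by
  intro a a' b b'
  simp only [Matrix.mul_apply]
  have e : (∑ i, C a i * A i b) * (∑ i, C a' i * A i b') - (∑ i, C a i * A i b') * (∑ i, C a' i * A i b) =
      ∑ i, ∑ i', C a i * C a' i' * (A i b * A i' b' - A i b' * A i' b) := by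
    rw [Finset.sum_mul_sum, Finset.sum_mul_sum, ← Finset.sum_sub_distrib]
    refine Finset.sum_congr rfl fun i _ => ?_
    rw [← Finset.sum_sub_distrib]
    refine Finset.sum_congr rfl fun i' _ => by ring
  rw [e]
  exact Finset.dvd_sum fun i _ => Finset.dvd_sum fun i' _ => Dvd.dvd.mul_left (h _ _ _ _) _

lemma Rk1.transpose {α β : Type*} {p : ℕ} {A : Matrix α β ℤ} (h : Rk1 p A) : Rk1 p Aᵀ := by
  intro a a' b b'
  have := h b b' a a'
  simp only [transpose_apply]
  have e : A b a * A b' a' - A b' a * A b a' = A b a * A b' a' - A b a' * A b' a := by ring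
  rw [e]
  exact this

lemma Rk1.mul_right {α β γ : Type*} [Fintype β] {p : ℕ} {A : Matrix α β ℤ} (h : Rk1 p A) (C : Matrix β γ ℤ) :
    Rk1 p (A * C) := by
  have h1 := (h.transpose.mul_left Cᵀ).transpose
  rwa [transpose_mul, transpose_transpose, transpose_transpose] at h1

lemma Rk1.smul_sub {α β : Type*} {p : ℕ} {D : Matrix α β ℤ} (h : Rk1 p D) (X : Matrix α β ℤ) :
    Rk1 p ((p : ℤ) • X - D) := by
  intro a a' b b'
  obtain ⟨k, hk⟩ := h a a' b b'
  simp only [Matrix.sub_apply, Matrix.smul_apply, smul_eq_mul]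
  refine ⟨p * X a b * X a' b' - X a b * D a' b' - D a b * X a' b' - p * X a b' * X a' b + X a b' * D a' b +
    D a b' * X a' b + k, ?_⟩
  linear_combination hk

end Minors

section Key

variable {ι : Type*} [Fintype ι] [DecidableEq ι]

set_option maxHeartbeats 2000000 in
/-- **The bound.** -/
theorem key_bound {p : ℕ} (hp : p.Prime) (m : Matrix ι ι ℤ) (hsym : mᵀ = m) (hm2 : m * m = (p : ℤ) • m)
    (hminor : Rk1 p m) (hrow : ∀ i, ∃ j, j ≠ i ∧ m i j ≠ 0) :
    ∃ (t : ℕ) (R : Matrix ι (Fin t) ℤ), m * R = 0 ∧ (∃ K : Matrix (Fin t) ι ℤ, K * R = 1) ∧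
      ∀ a : ι → ℤ, m *ᵥ a ≠ 0 → (Fintype.card ι : ℤ) - t ≤ a ⬝ᵥ m *ᵥ a := by
  classical
  have hp0 : (p : ℤ) ≠ 0 := by exact_mod_cast hp.ne_zero
  have hp0r : (p : ℝ) ≠ 0 := by exact_mod_cast hp.ne_zero
  set f : (ι → ℤ) →ₗ[ℤ] (ι → ℤ) := m.mulVecLin with hf
  set Rel := LinearMap.ker f with hRel
  set t := Module.finrank ℤ Rel with ht
  let e : Module.Basis (Fin t) ℤ Rel := Module.finBasis ℤ Rel
  let R : Matrix ι (Fin t) ℤ := Matrix.of fun i s => (e s : ι → ℤ) i
  have hmR : m * R = 0 := by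
    ext i s
    have h1 : m *ᵥ (e s : ι → ℤ) = 0 := (e s).2
    have h2 := congrFun h1 i
    simpa [Matrix.mul_apply, R, mulVec, dotProduct] using h2
  -- the splitting
  obtain ⟨h, hh⟩ := Module.projective_lifting_property f.rangeRestrict (LinearMap.id : LinearMap.range f →ₗ[ℤ] _)
    f.surjective_rangeRestrict
  have hmem : ∀ a : ι → ℤ, a - h (f.rangeRestrict a) ∈ Rel := by
    intro a
    rw [hRel, LinearMap.mem_ker, map_sub]
    have h1 := LinearMap.congr_fun hh (f.rangeRestrict a)
    have h2 : f (h (f.rangeRestrict a)) = f a := congrArg Subtype.val h1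
    rw [h2, sub_self]
  let π : (ι → ℤ) →ₗ[ℤ] Rel := LinearMap.codRestrict Rel (LinearMap.id - h ∘ₗ f.rangeRestrict) hmem
  have hπ : ∀ r : Rel, π r = r := by
    intro r
    apply Subtype.ext
    have h1 : f.rangeRestrict (r : ι → ℤ) = 0 := by
      apply Subtype.ext
      exact r.2
    simp [π, h1]
  let K : Matrix (Fin t) ι ℤ := Matrix.of fun s i => e.repr (π (Pi.single i 1)) s
  have hKv : ∀ (v : ι → ℤ) (s : Fin t), (K *ᵥ v) s = e.repr (π v) s := by
    intro v s
    have h1 : v = ∑ i, v i • (Pi.single i (1 : ℤ) : ι → ℤ) := by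
      funext j
      simp [Finset.sum_apply, Pi.single_apply]
    let L : (ι → ℤ) →ₗ[ℤ] ℤ := (Finsupp.lapply s) ∘ₗ e.repr.toLinearMap ∘ₗ π
    have h2 : L v = ∑ i, v i • L (Pi.single i 1) := by
      conv_lhs => rw [h1]
      rw [map_sum]
      simp only [map_smul]
    have h3 : e.repr (π v) s = L v := rfl
    rw [h3, h2]
    simp only [mulVec, dotProduct, smul_eq_mul]
    refine Finset.sum_congr rfl fun i _ => ?_
    rw [mul_comm]
    rfl
  have hKR : K * R = 1 := by
    ext s s'
    have h1 : (K * R) s s' = (K *ᵥ (e s' : ι → ℤ)) s := by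
      simp [Matrix.mul_apply, mulVec, dotProduct, R]
    rw [h1, hKv, hπ, e.repr_self, Matrix.one_apply]
    simp [Finsupp.single_apply, eq_comm]
  have hRKv : ∀ v : ι → ℤ, m *ᵥ v = 0 → R *ᵥ (K *ᵥ v) = v := by
    intro v hv
    have hvm : v ∈ Rel := hv
    funext i
    have h1 : (R *ᵥ (K *ᵥ v)) i = ∑ s, (e s : ι → ℤ) i * e.repr (π v) s := by
      show ∑ s, R i s * (K *ᵥ v) s = _
      refine Finset.sum_congr rfl fun s _ => ?_
      rw [hKv]
      rfl
    rw [h1]
    have h2 : π v = ⟨v, hvm⟩ := hπ ⟨v, hvm⟩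
    rw [h2]
    have h3 := e.sum_repr ⟨v, hvm⟩
    have h4 := congrFun (congrArg Subtype.val h3) i
    simp only [AddSubmonoidClass.coe_finsetSum, SetLike.val_smul, Finset.sum_apply, Pi.smul_apply, smul_eq_mul] at h4
    rw [← h4]
    refine Finset.sum_congr rfl fun s _ => mul_comm _ _
  -- the matrix `p - m`
  set P : Matrix ι ι ℤ := (p : ℤ) • 1 - m with hP
  have hPsym : Pᵀ = P := by
    rw [hP, transpose_sub, transpose_smul, transpose_one, hsym]
  have hmP : m * P = 0 := by
    rw [hP, Matrix.mul_sub, hm2, Matrix.mul_smul, Matrix.mul_one, sub_self]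
  have hPR : P * R = (p : ℤ) • R := by
    rw [hP, Matrix.sub_mul, hmR, sub_zero, Matrix.smul_mul, Matrix.one_mul]
  have hRP : Rᵀ * P = (p : ℤ) • Rᵀ := by
    have h1 := congrArg Matrix.transpose hPR
    rwa [transpose_mul, hPsym, transpose_smul] at h1
  have hRKP : R * K * P = P := by
    ext i j
    have h1 : m *ᵥ (fun x => P x j) = 0 := by
      funext x
      have := congrFun (congrFun hmP x) j
      simpa [Matrix.mul_apply, mulVec, dotProduct] using this
    have h2 := congrFun (hRKv _ h1) i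
    rw [← h2, Matrix.mul_assoc]
    simp [Matrix.mul_apply, mulVec, dotProduct]
  set Y : Matrix (Fin t) ι ℤ := K * P with hY
  have hRY : R * Y = P := by rw [hY, ← Matrix.mul_assoc, hRKP]
  set N : Matrix (Fin t) (Fin t) ℤ := Rᵀ * R with hN
  set B : Matrix (Fin t) (Fin t) ℤ := Y * Kᵀ with hB
  have hNB : N * B = (p : ℤ) • 1 := by
    rw [hN, hB, hY, Matrix.mul_assoc, ← Matrix.mul_assoc R, ← Matrix.mul_assoc R, hRKP, ← Matrix.mul_assoc, hRP,
      Matrix.smul_mul, ← transpose_mul, hKR, transpose_one]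
  have hBR : B * Rᵀ = Y := by
    have hPRK : P * (R * K)ᵀ = P := by
      have := congrArg Matrix.transpose hRKP
      rwa [transpose_mul, hPsym] at this
    rw [hB, hY, Matrix.mul_assoc, Matrix.mul_assoc, ← transpose_mul, hPRK]
  have hRBR : R * B * Rᵀ = P := by
    rw [Matrix.mul_assoc, hBR, hRY]
  -- the determinant of `N`
  have hRinj : ∀ x : Fin t → ℝ, x ≠ 0 → ∃ i, ∑ j, (R i j : ℝ) * x j ≠ 0 := by
    intro x hx
    by_contra hcon
    push Not at hcon
    apply hx
    funext s
    have h1 : (toR K * toR R) s = (1 : Matrix (Fin t) (Fin t) ℝ) s := by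
      have h2 : toR K * toR R = toR (K * R) := (Matrix.map_mul).symm
      rw [h2, hKR]
      simp [toR]
    have h3 : ∑ s', (toR K * toR R) s s' * x s' = x s := by
      rw [h1]
      simp [Matrix.one_apply]
    rw [← h3]
    have h4 : ∑ s', (toR K * toR R) s s' * x s' = ∑ i, (K s i : ℝ) * ∑ j, (R i j : ℝ) * x j := by
      simp only [Matrix.mul_apply, toR, map_apply, Finset.sum_mul, Finset.mul_sum]
      rw [Finset.sum_comm]
      refine Finset.sum_congr rfl fun i _ => Finset.sum_congr rfl fun j _ => ?_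
      simp [mul_assoc]
    rw [h4]
    simp [hcon]
  have hNQ : N = QQ R Finset.univ := by
    ext a b
    simp [hN, QQ, Matrix.sum_apply, vecMulVec_apply, Matrix.mul_apply]
  have hNpd : (toR N).PosDef := by
    rw [hNQ]
    exact QQ_posDef R _ fun x hx => by
      obtain ⟨i, hi⟩ := hRinj x hx
      exact ⟨i, Finset.mem_univ _, hi⟩
  have hNpos : 0 < N.det := by
    have h1 := hNpd.det_pos
    rw [det_toR] at h1
    exact_mod_cast h1
  have hNle : N.det ≤ p := by
    have h1 : N.det * B.det = (p : ℤ) ^ t := by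
      rw [← det_mul, hNB, det_smul, det_one, mul_one, Fintype.card_fin]
    have hBm : Rk1 p B := by
      have h2 : B = (p : ℤ) • (K * Kᵀ) - K * m * Kᵀ := by
        rw [hB, hY, hP, Matrix.mul_sub, Matrix.sub_mul, Matrix.mul_smul, Matrix.mul_one, Matrix.smul_mul]
      rw [h2]
      exact ((hminor.mul_left K).mul_right Kᵀ).smul_sub _
    obtain ⟨x, hx⟩ := dvd_det_of_minors hp B hBm
    rcases Nat.eq_zero_or_pos t with h0 | h0
    · have h2 : N.det = 1 := by
        have h00 : (p : ℤ) ^ t = 1 := by rw [h0, pow_zero]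
        rw [h00] at h1
        exact Int.eq_one_of_mul_eq_one_right hNpos.le h1
      rw [h2]
      exact_mod_cast hp.one_lt.le
    · rw [hx, Fintype.card_fin] at h1
      have h2 : (p : ℤ) ^ t = (p : ℤ) ^ (t - 1) * p := by
        rw [← pow_succ]
        congr 1
        omega
      rw [h2] at h1
      have h3 : N.det * x = p := by
        have h4 : (p : ℤ) ^ (t - 1) ≠ 0 := pow_ne_zero _ hp0
        apply mul_left_cancel₀ h4
        linear_combination h1
      have hppos : (0 : ℤ) < p := by exact_mod_cast hp.pos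
      have hxpos : 0 < x := by
        by_contra hc
        have : N.det * x ≤ 0 := mul_nonpos_of_nonneg_of_nonpos hNpos.le (not_lt.mp hc)
        omega
      calc N.det = N.det * 1 := (mul_one _).symm
        _ ≤ N.det * x := mul_le_mul_of_nonneg_left hxpos hNpos.le
        _ = p := h3
  refine ⟨t, R, hmR, ⟨K, hKR⟩, fun a ha => ?_⟩
  -- the extended matrix
  let T : Matrix ι (Fin t ⊕ Unit) ℤ := Matrix.of fun i c => Sum.elim (fun s => R i s) (fun _ => a i) c
  have hTrow : ∀ i, T i ≠ 0 := by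
    intro i h0
    obtain ⟨j, hji, hj⟩ := hrow i
    apply hj
    have h1 : ∀ s, R i s = 0 := fun s => by
      have := congrFun h0 (Sum.inl s)
      simpa [T] using this
    have h2 := congrFun (congrFun hRY i) j
    simp only [Matrix.mul_apply, h1, zero_mul, Finset.sum_const_zero] at h2
    have h3 : P i j = - m i j := by
      rw [hP, Matrix.sub_apply, Matrix.smul_apply, Matrix.one_apply_ne hji.symm, smul_zero, zero_sub]
    rw [h3] at h2
    omega
  have hTinj : ∀ x : (Fin t ⊕ Unit) → ℝ, x ≠ 0 → ∃ i, ∑ j, (T i j : ℝ) * x j ≠ 0 := by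
    intro x hx
    by_contra hcon
    push Not at hcon
    have hsum : ∀ i, (∑ s, (R i s : ℝ) * x (Sum.inl s)) + (a i : ℝ) * x (Sum.inr ()) = 0 := by
      intro i
      have := hcon i
      rw [Fintype.sum_sum_type] at this
      simpa [T] using this
    -- apply `m`
    have hx0 : x (Sum.inr ()) = 0 := by
      by_contra hne
      apply ha
      funext i
      have h1 : ∑ j, (m i j : ℝ) * ((∑ s, (R j s : ℝ) * x (Sum.inl s)) + (a j : ℝ) * x (Sum.inr ())) = 0 := by
        simp [hsum]
      have h2 : ∑ j, (m i j : ℝ) * ∑ s, (R j s : ℝ) * x (Sum.inl s) = 0 := by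
        have h3 : ∑ j, (m i j : ℝ) * ∑ s, (R j s : ℝ) * x (Sum.inl s) =
            ∑ s, ((m * R) i s : ℝ) * x (Sum.inl s) := by
          simp only [Matrix.mul_apply, Finset.mul_sum]
          rw [Finset.sum_comm]
          refine Finset.sum_congr rfl fun s _ => ?_
          push_cast
          rw [Finset.sum_mul]
          refine Finset.sum_congr rfl fun j _ => by ring
        rw [h3, hmR]
        simp
      simp only [mul_add, Finset.sum_add_distrib, h2, zero_add] at h1
      have h4 : ((∑ j, m i j * a j : ℤ) : ℝ) * x (Sum.inr ()) = 0 := by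
        push_cast
        rw [Finset.sum_mul]
        rw [← h1]
        refine Finset.sum_congr rfl fun j _ => by ring
      have h5 := (mul_eq_zero.1 h4).resolve_right hne
      have h6 : ∑ j, m i j * a j = 0 := by exact_mod_cast h5
      simpa [mulVec, dotProduct] using h6
    have hc0 : (fun s => x (Sum.inl s)) = 0 := by
      by_contra hne
      obtain ⟨i, hi⟩ := hRinj _ hne
      apply hi
      have := hsum i
      rw [hx0, mul_zero, add_zero] at this
      exact this
    apply hx
    funext c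
    rcases c with s | u
    · exact congrFun hc0 s
    · exact hx0
  have hgram := gram_bound T hTrow hTinj
  -- the Schur complement
  letI : Invertible (toR N) := invertibleOfIsUnitDet _ hNpd.det_pos.ne'.isUnit
  have hNinv : ⅟(toR N) = (p : ℝ)⁻¹ • toR B := by
    have h1 : toR N * toR B = (p : ℝ) • 1 := by
      have h2 : toR N * toR B = toR (N * B) := (Matrix.map_mul).symm
      rw [h2, hNB]
      ext i j
      simp only [toR, map_apply, Matrix.smul_apply, smul_eq_mul, Matrix.one_apply]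
      by_cases hij : i = j <;> simp [hij]
    have h2 : toR N * ((p : ℝ)⁻¹ • toR B) = 1 := by
      rw [Matrix.mul_smul, h1, smul_smul, inv_mul_cancel₀ hp0r, one_smul]
    exact invOf_eq_right_inv h2
  set aR : Fin t → ℤ := Rᵀ *ᵥ a with haR
  let Dd : Matrix Unit Unit ℝ := Matrix.of fun _ _ => ((a ⬝ᵥ a : ℤ) : ℝ)
  have hTT : toR (Tᵀ * T) = fromBlocks (toR N) (replicateCol Unit (fun s => (aR s : ℝ)))
      (replicateRow Unit (fun s => (aR s : ℝ))) Dd := by
    ext c c'
    rcases c with s | u <;> rcases c' with s' | u'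
    · rw [fromBlocks_apply₁₁]
      simp [toR, T, Matrix.mul_apply, hN]
    · rw [fromBlocks_apply₁₂]
      simp [toR, T, Matrix.mul_apply, haR, mulVec, dotProduct]
    · rw [fromBlocks_apply₂₁]
      simp [toR, T, Matrix.mul_apply, haR, mulVec, dotProduct, mul_comm]
    · rw [fromBlocks_apply₂₂]
      simp [toR, T, Matrix.mul_apply, dotProduct, Dd]
  have hdetT : ((Tᵀ * T).det : ℝ) = (N.det : ℝ) * (((a ⬝ᵥ a : ℤ) : ℝ) - (p : ℝ)⁻¹ * ((aR ⬝ᵥ B *ᵥ aR : ℤ) : ℝ)) := by
    rw [← det_toR, hTT, det_fromBlocks₁₁, det_toR, hNinv]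
    congr 1
    rw [Matrix.det_unique]
    simp only [Matrix.sub_apply]
    congr 1
    simp only [Matrix.mul_apply, Matrix.smul_apply, smul_eq_mul, replicateRow_apply, replicateCol_apply, toR, map_apply,
      dotProduct, mulVec]
    push_cast
    simp only [Finset.mul_sum, Finset.sum_mul]
    rw [Finset.sum_comm]
    refine Finset.sum_congr rfl fun s _ => Finset.sum_congr rfl fun s' _ => ?_
    simp only [eq_intCast]
    ring
  have hquad : aR ⬝ᵥ B *ᵥ aR = a ⬝ᵥ P *ᵥ a := by
    have h1 : P *ᵥ a = R *ᵥ (B *ᵥ aR) := by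
      rw [mulVec_mulVec, haR, mulVec_mulVec, hRBR]
    rw [h1, dotProduct_mulVec a R, ← mulVec_transpose]
  have hPa : a ⬝ᵥ P *ᵥ a = (p : ℤ) * (a ⬝ᵥ a) - a ⬝ᵥ m *ᵥ a := by
    rw [hP, sub_mulVec, dotProduct_sub, smul_mulVec, one_mulVec, dotProduct_smul, smul_eq_mul]
  have hkey : (p : ℤ) * (Tᵀ * T).det = N.det * (a ⬝ᵥ m *ᵥ a) := by
    have h1 : ((p : ℝ)) * ((Tᵀ * T).det : ℝ) = (N.det : ℝ) * ((a ⬝ᵥ m *ᵥ a : ℤ) : ℝ) := by
      rw [hdetT, hquad, hPa]
      push_cast
      field_simp
      ring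
    exact_mod_cast h1
  -- conclusion
  have hTpos : 0 < (Tᵀ * T).det := by
    have hQ : Tᵀ * T = QQ T Finset.univ := by
      ext x y
      simp [QQ, Matrix.sum_apply, vecMulVec_apply, Matrix.mul_apply]
    have hpd : (toR (Tᵀ * T)).PosDef := by
      rw [hQ]
      exact QQ_posDef T _ fun x hx => by
        obtain ⟨i, hi⟩ := hTinj x hx
        exact ⟨i, Finset.mem_univ _, hi⟩
    have h1 := hpd.det_pos
    rw [det_toR] at h1
    exact_mod_cast h1
  have hcard : Fintype.card (Fin t ⊕ Unit) = t + 1 := by simp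
  rw [hcard] at hgram
  push_cast at hgram
  have hle : (Tᵀ * T).det ≤ a ⬝ᵥ m *ᵥ a := by
    have h1 : N.det * (Tᵀ * T).det ≤ N.det * (a ⬝ᵥ m *ᵥ a) := by
      rw [← hkey]
      exact mul_le_mul_of_nonneg_right hNle hTpos.le
    exact le_of_mul_le_mul_left h1 hNpos
  omega

end Key

end Cfsg.Agent.Lib.Blocks.BF2Matrix
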