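import Mathlib
import Cfsg.Agent.Lib.Blocks.BrauerFeit

/-!
# The matrix `m(ξ, ψ) = p^d ⟨reg ξ, ψ⟩` modulo `p`

* `mm_spec`: `m(ξ, ψ) = p^d ⟨reg ξ, ψ⟩` as complex numbers.
* `minor_dvd`: the `2 × 2` minors of `m` on a block are divisible by `p`.
* `not_dvd_mm`: the entries of `m` at characters of height zero are prime to `p`.
-/

set_option autoImplicit false

namespace Cfsg.Agent.Lib.Blocks.BF2Mm

open Cfsg Cfsg.Agent.Lib.Blocks.Local Cfsg.Agent.Lib.Blocks.Central Cfsg.Agent.Lib.Blocks.Osima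
  Cfsg.Agent.Lib.Blocks.Regular Cfsg.Agent.Lib.Blocks.RegLift Cfsg.Agent.Lib.Blocks.RegNorm
  Cfsg.Agent.Lib.Blocks.RegInt Cfsg.Agent.Lib.Blocks.HeightZero Cfsg.Agent.Lib.Blocks.BrauerFeit
open scoped ComplexConjugate

universe u

variable {G : Type u} [Group G] [Fintype G] {M : Ideal AlgInt} {p : ℕ} [hp : Fact p.Prime]

/-- `m(ξ, ψ) = p^d ⟨reg ξ, ψ⟩`. -/
theorem mm_spec [M.IsPrime] (hM : IsPModular p M) {B : Set (IrrCharacter G)} {ξ : IrrCharacter G} (hξ : ξ ∈ B)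
    (ψ : IrrCharacter G) :
    (p : ℂ) ^ blockDefect p B * classInner (reg p (ξ : G → ℂ)) (ψ : G → ℂ) = (mm p B ξ ψ : ℂ) := by
  have h1 := regI_eq_regN (p := p) ξ ψ
  rw [regI, regN_eq_mul_mm hM hξ ψ, ← defect_add_mu hξ] at h1
  have hp0 : (p : ℂ) ^ mu p B ≠ 0 := pow_ne_zero _ (by exact_mod_cast hp.out.ne_zero)
  apply mul_left_cancel₀ hp0
  push_cast at h1
  rw [pow_add] at h1
  linear_combination h1

/-- **The `2 × 2` minors of `m` vanish modulo `p`.** -/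
theorem minor_dvd [M.IsPrime] (hM : IsPModular p M) {B : Set (IrrCharacter G)} (hB : IsPBlock M B)
    {ξ₁ ξ₂ : IrrCharacter G} (h₁ : ξ₁ ∈ B) (h₂ : ξ₂ ∈ B) (ψ₁ ψ₂ : IrrCharacter G) :
    (p : ℤ) ∣ mm p B ξ₁ ψ₁ * mm p B ξ₂ ψ₂ - mm p B ξ₁ ψ₂ * mm p B ξ₂ ψ₁ := by
  obtain ⟨k₁₁, -, e₁₁, hk₁₁⟩ := regN_eq hM h₁ ψ₁
  obtain ⟨k₁₂, -, e₁₂, hk₁₂⟩ := regN_eq hM h₁ ψ₂
  obtain ⟨k₂₁, -, e₂₁, hk₂₁⟩ := regN_eq hM h₂ ψ₁
  obtain ⟨k₂₂, -, e₂₂, hk₂₂⟩ := regN_eq hM h₂ ψ₂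
  by_cases hh₁ : 0 < blockHeight p B (ξ₁ : G → ℂ)
  · have d₁ : ∀ k : ℤ, (p : ℤ) ∣ (p : ℤ) ^ blockHeight p B (ξ₁ : G → ℂ) * k := fun k =>
      Dvd.dvd.mul_right (dvd_pow_self _ hh₁.ne') _
    rw [e₁₁, e₁₂]
    exact dvd_sub (Dvd.dvd.mul_right (d₁ _) _) (Dvd.dvd.mul_right (d₁ _) _)
  by_cases hh₂ : 0 < blockHeight p B (ξ₂ : G → ℂ)
  · have d₂ : ∀ k : ℤ, (p : ℤ) ∣ (p : ℤ) ^ blockHeight p B (ξ₂ : G → ℂ) * k := fun k =>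
      Dvd.dvd.mul_right (dvd_pow_self _ hh₂.ne') _
    rw [e₂₁, e₂₂]
    exact dvd_sub (Dvd.dvd.mul_left (d₂ _) _) (Dvd.dvd.mul_left (d₂ _) _)
  have hh₁0 : blockHeight p B (ξ₁ : G → ℂ) = 0 := by omega
  have hh₂0 : blockHeight p B (ξ₂ : G → ℂ) = 0 := by omega
  rw [hh₁0, pow_zero, one_mul] at e₁₁ e₁₂
  rw [hh₂0, pow_zero, one_mul] at e₂₁ e₂₂
  rw [e₁₁, e₁₂, e₂₁, e₂₂]
  have hs : SameBlock M (ξ₁ : G → ℂ) (ξ₂ : G → ℂ) := by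
    obtain ⟨χ₀, rfl⟩ := hB
    exact Cfsg.Agent.Lib.Blocks.Central.sameBlock_trans (Cfsg.Agent.Lib.Blocks.Central.sameBlock_symm h₁) h₂
  set z₁ := zElt p (ψ₁ : G → ℂ) with hz₁
  set z₂ := zElt p (ψ₂ : G → ℂ) with hz₂
  have hzm₁ : z₁ ∈ localCenter G M := zElt_mem_localCenter ψ₁.2
  have hzm₂ : z₂ ∈ localCenter G M := zElt_mem_localCenter ψ₂.2
  have hδ₁ := memLocalIdeal_omega_sub ξ₁.2 ξ₂.2 hs hzm₁
  have hδ₂ := memLocalIdeal_omega_sub ξ₁.2 ξ₂.2 hs hzm₂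
  have hω₁ := memLocalRing_omega (M := M) ξ₁.2 hzm₁
  have hω₂ := memLocalRing_omega (M := M) ξ₁.2 hzm₂
  set o₁ := omega (ξ₁ : G → ℂ) z₁
  set o₂ := omega (ξ₁ : G → ℂ) z₂
  set o₁' := omega (ξ₂ : G → ℂ) z₁
  set o₂' := omega (ξ₂ : G → ℂ) z₂
  set n₁ : ℕ := ordCompl[p] (charDegree (ξ₁ : G → ℂ))
  set n₂ : ℕ := ordCompl[p] (charDegree (ξ₂ : G → ℂ))
  set q : ℕ := pm p G with hq
  rw [← memLocalIdeal_intCast_iff hM]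
  push_cast
  have hprod : ((k₁₁ : ℂ) * k₂₂ - k₁₂ * k₂₁) * ((q : ℂ) * q) =
      (n₁ : ℂ) * n₂ * (o₂ * (o₁ - o₁') - o₁ * (o₂ - o₂')) := by
    linear_combination (k₂₂ : ℂ) * q * hk₁₁ + (n₁ : ℂ) * o₁ * hk₂₂ - (k₂₁ : ℂ) * q * hk₁₂ - (n₁ : ℂ) * o₂ * hk₂₁
  have hI : MemLocalIdeal M (((k₁₁ : ℂ) * k₂₂ - k₁₂ * k₂₁) * ((q : ℂ) * q)) := by
    rw [hprod]
    refine memLocalIdeal_mul_left (memLocalRing_mul (memLocalRing_natCast _) (memLocalRing_natCast _)) ?_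
    exact memLocalIdeal_sub (memLocalIdeal_mul_left hω₂ hδ₁) (memLocalIdeal_mul_left hω₁ hδ₂)
  by_contra hcon
  have hqnot : ¬ MemLocalIdeal M (q : ℂ) := by
    rw [memLocalIdeal_natCast_iff hM]
    exact not_dvd_pm
  have hlr : MemLocalRing M ((k₁₁ : ℂ) * k₂₂ - k₁₂ * k₂₁) :=
    memLocalRing_sub (memLocalRing_mul (memLocalRing_intCast _) (memLocalRing_intCast _))
      (memLocalRing_mul (memLocalRing_intCast _) (memLocalRing_intCast _))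
  exact not_memLocalIdeal_mul hlr (memLocalRing_mul (memLocalRing_natCast _) (memLocalRing_natCast _)) hcon
    (not_memLocalIdeal_mul (memLocalRing_natCast _) (memLocalRing_natCast _) hqnot hqnot) hI

/-- **The entries at characters of height zero are prime to `p`.** -/
theorem not_dvd_mm [M.IsPrime] (hM : IsPModular p M) {B : Set (IrrCharacter G)} (hB : IsPBlock M B)
    {ξ ψ : IrrCharacter G} (hξ : ξ ∈ B) (hψ : ψ ∈ B) (h0ξ : blockHeight p B (ξ : G → ℂ) = 0)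
    (h0ψ : blockHeight p B (ψ : G → ℂ) = 0) : ¬ (p : ℤ) ∣ mm p B ξ ψ := by
  obtain ⟨k, -, e, hk⟩ := regN_eq hM hξ ψ
  rw [h0ξ, pow_zero, one_mul] at e
  rw [e, dvd_iff_memLocalIdeal hM hk]
  intro h
  have h3 := not_memLocalIdeal_omega_zElt_self hM hB hψ h0ψ
  apply h3
  have hs : SameBlock M (ξ : G → ℂ) (ψ : G → ℂ) := by
    obtain ⟨χ₀, rfl⟩ := hB
    exact Cfsg.Agent.Lib.Blocks.Central.sameBlock_trans (Cfsg.Agent.Lib.Blocks.Central.sameBlock_symm hξ) hψ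
  have h4 := memLocalIdeal_omega_sub ξ.2 ψ.2 hs (zElt_mem_localCenter (M := M) (p := p) ψ.2)
  have h5 := memLocalIdeal_sub h h4
  convert h5 using 1
  ring

end Cfsg.Agent.Lib.Blocks.BF2Mm
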