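import Mathlib
import Cfsg.Agent.Lib.Blocks.MajorLattice
import Cfsg.Agent.Lib.Blocks.CentralQuot
import Cfsg.Agent.Lib.Blocks.BF2Matrix
import Cfsg.Agent.Lib.Blocks.BF2Mm

/-!
# The lattice of a block of defect two with a central subgroup of order `p`

Let `b` be a block of `H = C_G(u)` of defect `2`, and `Z` a central subgroup of `H` of order `p`. The characters of `b`
with `Z` in their kernel generate the lattice `lat p b` of the regular parts, as a tight frame with constant `p`. This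
gives: `SS x x ≥ l(b)` for nonzero `x ∈ lat p b`.
-/

set_option autoImplicit false
set_option linter.unusedSectionVars false
set_option linter.style.haveILetI false

namespace Cfsg.Agent.Lib.Blocks.BF2Lat

open Cfsg Cfsg.Agent.Lib.Blocks.Local Cfsg.Agent.Lib.Blocks.Central Cfsg.Agent.Lib.Blocks.Osima
  Cfsg.Agent.Lib.Blocks.Regular Cfsg.Agent.Lib.Blocks.Cartan Cfsg.Agent.Lib.Blocks.Sections
  Cfsg.Agent.Lib.Blocks.BlockCount Cfsg.Agent.Lib.Blocks.HeightZero Cfsg.Agent.Lib.Blocks.MajorSub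
  Cfsg.Agent.Lib.Blocks.MajorSub2 Cfsg.Agent.Lib.Blocks.MajorLattice Cfsg.Agent.Lib.Blocks.BF2Mm
  Cfsg.Agent.Lib.Blocks.BF2Matrix
open scoped ComplexConjugate
open Matrix

universe u

variable {G : Type u} [Group G] [Fintype G] {M : Ideal AlgInt} [hMp : M.IsPrime] {p : ℕ} [hp : Fact p.Prime]
variable {u : G} [Fintype (Cen u)] {b : Set (IrrCharacter (Cen u))}

open Classical

/-- `SS` on the generators is the matrix `mm`. -/
lemma SS_reg_reg (hM : IsPModular p M) {μ : IrrCharacter (Cen u)} (hμ : μ ∈ b) (μ' : IrrCharacter (Cen u)) :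
    SS p b (reg p (μ : Cen u → ℂ)) (reg p (μ' : Cen u → ℂ)) = (BrauerFeit.mm p b μ μ' : ℂ) := by
  rw [SS, classInner_reg_reg]
  exact mm_spec hM hμ μ'

variable (Z : Subgroup (Cen u)) [hZn : Z.Normal] [Fintype Z]

/-- The characters of `b` with `Z` in the kernel. -/
abbrev Gen (b : Set (IrrCharacter (Cen u))) :=
  {η : IrrCharacter (Cen u) // η ∈ b ∧ ∀ n ∈ Z, (η : Cen u → ℂ) n = (η : Cen u → ℂ) 1}

/-- The generators. -/
noncomputable abbrev gen (p : ℕ) (i : Gen Z b) : Cen u → ℂ := reg p (i.1 : Cen u → ℂ)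

variable {Z}

lemma gen_mem (i : Gen Z b) : gen Z p i ∈ lat p b := reg_mem_lat i.2.1

variable [Fintype (IrrCharacter (Cen u))]

/-- **The frame identity.** -/
theorem frame_gen (hM : IsPModular p M) (hZ : ∀ z ∈ Z, ∀ g : Cen u, g * z = z * g) (hZp : IsPGroup p Z)
    (hc : Nat.card Z = p) (hb : IsPBlock M b) (hd : blockDefect p b = 2) {x : Cen u → ℂ} (hx : x ∈ lat p b) :
    (p : ℂ) • x = ∑ i : Gen Z b, (SS p b x (gen Z p i)) • gen Z p i := by
  induction hx using Submodule.span_induction with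
  | mem x hx =>
    obtain ⟨ξ, hξ, rfl⟩ := hx
    have h1 := CentralQuot.reg_eq_sum (p := p) Z hZ hZp ξ
    have h2 : ∑ η : IrrCharacter (Cen u), ((if ∀ n ∈ Z, (η : Cen u → ℂ) n = (η : Cen u → ℂ) 1 then
        (Nat.card Z : ℂ) * classInner (reg p (ξ : Cen u → ℂ)) (η : Cen u → ℂ) else 0)) • reg p (η : Cen u → ℂ) =
        ∑ i : Gen Z b, ((p : ℂ) * classInner (reg p (ξ : Cen u → ℂ)) (i.1 : Cen u → ℂ)) • gen Z p i := by
      rw [← Finset.sum_subtype (Finset.univ.filter (fun η : IrrCharacter (Cen u) => η ∈ b ∧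
        ∀ n ∈ Z, (η : Cen u → ℂ) n = (η : Cen u → ℂ) 1)) (by simp)
        (fun η : IrrCharacter (Cen u) => ((p : ℂ) * classInner (reg p (ξ : Cen u → ℂ)) (η : Cen u → ℂ)) • reg p (η : Cen u → ℂ)),
        Finset.sum_filter]
      refine Finset.sum_congr rfl fun η _ => ?_
      by_cases hk : ∀ n ∈ Z, (η : Cen u → ℂ) n = (η : Cen u → ℂ) 1
      · by_cases hη : η ∈ b
        · rw [if_pos hk, if_pos ⟨hη, hk⟩, hc]
        · have h3 : ¬ SameBlock M (ξ : Cen u → ℂ) (η : Cen u → ℂ) := by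
            intro h3
            obtain ⟨χ₀, rfl⟩ := hb
            exact hη (sameBlock_trans hξ h3)
          rw [if_pos hk, if_neg (fun h => hη h.1), Regular.classInner_reg_eq_zero hM h3, mul_zero, zero_smul]
      · rw [if_neg hk, if_neg (fun h => hk h.2), zero_smul]
    rw [h2] at h1
    simp only [SS, hd, gen]
    conv_lhs => rw [h1]
    rw [Finset.smul_sum]
    refine Finset.sum_congr rfl fun i _ => ?_
    rw [smul_smul, classInner_reg_reg]
    ring_nf
  | zero =>
    simp [SS_zero_left]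
  | add x y _ _ hx hy =>
    rw [smul_add, hx, hy, ← Finset.sum_add_distrib]
    refine Finset.sum_congr rfl fun i _ => ?_
    rw [SS_add_left, add_smul]
  | smul a x _ hx =>
    rw [smul_comm, hx, Finset.smul_sum]
    refine Finset.sum_congr rfl fun i _ => ?_
    rw [SS_zsmul_left, ← Int.cast_smul_eq_zsmul ℂ a, smul_smul]

/-- The matrix. -/
noncomputable def mat (p : ℕ) [hp : Fact p.Prime] (Z : Subgroup (Cen u)) (b : Set (IrrCharacter (Cen u))) : Matrix (Gen Z b) (Gen Z b) ℤ :=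
  Matrix.of fun i j => BrauerFeit.mm p b i.1 j.1

lemma SS_gen_gen (hM : IsPModular p M) (i j : Gen Z b) :
    SS p b (gen Z p i) (gen Z p j) = (mat p Z b i j : ℂ) :=
  SS_reg_reg hM i.2.1 j.1

lemma mat_symm : (mat p Z b)ᵀ = mat p Z b := by
  ext i j
  exact BrauerFeit.mm_comm _ _ _

lemma mat_apply_comm (i j : Gen Z b) : mat p Z b i j = mat p Z b j i := BrauerFeit.mm_comm _ _ _

theorem mat_sq (hM : IsPModular p M) (hZ : ∀ z ∈ Z, ∀ g : Cen u, g * z = z * g) (hZp : IsPGroup p Z)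
    (hc : Nat.card Z = p) (hb : IsPBlock M b) (hd : blockDefect p b = 2) :
    mat p Z b * mat p Z b = (p : ℤ) • mat p Z b := by
  ext i j
  have h1 := frame_gen hM hZ hZp hc hb hd (gen_mem (p := p) i)
  have h2 := congrArg (fun f => SS p b f (gen Z p j)) h1
  beta_reduce at h2
  have h3 : SS p b ((p : ℂ) • gen Z p i) (gen Z p j) = (p : ℂ) * mat p Z b i j := by
    rw [SS_smul_left, SS_gen_gen hM]
  have h4 : ∀ (s : Finset (Gen Z b)) (c : Gen Z b → ℂ) (f : Gen Z b → Cen u → ℂ),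
      SS p b (∑ k ∈ s, c k • f k) (gen Z p j) = ∑ k ∈ s, c k * SS p b (f k) (gen Z p j) := by
    intro s c f
    induction s using Finset.induction_on with
    | empty => simp [SS_zero_left]
    | insert a s ha ih =>
      rw [Finset.sum_insert ha, Finset.sum_insert ha, SS_add_left, SS_smul_left, ih]
  rw [h3, h4] at h2
  simp only [SS_gen_gen hM] at h2
  have h5 : ((p : ℤ) * mat p Z b i j : ℂ) = ((∑ k, mat p Z b i k * mat p Z b k j : ℤ) : ℂ) := by
    push_cast
    exact h2
  have h6 : (p : ℤ) * mat p Z b i j = ∑ k, mat p Z b i k * mat p Z b k j := by exact_mod_cast h5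
  simp only [Matrix.mul_apply, Matrix.smul_apply, smul_eq_mul]
  exact h6.symm

theorem mat_rk1 (hM : IsPModular p M) (hb : IsPBlock M b) : Rk1 p (mat p Z b) := by
  intro a a' c c'
  exact minor_dvd hM hb a.2.1 a'.2.1 c.1 c'.1

/-- A vector in the kernel of the matrix gives a relation among the generators. -/
theorem sum_eq_zero_of_ker (hM : IsPModular p M) (hZ : ∀ z ∈ Z, ∀ g : Cen u, g * z = z * g) (hZp : IsPGroup p Z)
    (hc : Nat.card Z = p) (hb : IsPBlock M b) (hd : blockDefect p b = 2) {r : Gen Z b → ℤ} (hr : mat p Z b *ᵥ r = 0) :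
    ∑ i, r i • gen Z p i = 0 := by
  set y := ∑ i, r i • gen Z p i with hy
  have hym : y ∈ lat p b := Submodule.sum_mem _ fun i _ => Submodule.smul_mem _ _ (gen_mem i)
  have h1 := frame_gen hM hZ hZp hc hb hd hym
  have h4 : ∀ (s : Finset (Gen Z b)) (j : Gen Z b),
      SS p b (∑ k ∈ s, r k • gen Z p k) (gen Z p j) = ∑ k ∈ s, (r k : ℂ) * SS p b (gen Z p k) (gen Z p j) := by
    intro s j
    induction s using Finset.induction_on with
    | empty => simp [SS_zero_left]
    | insert a s ha ih =>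
      rw [Finset.sum_insert ha, Finset.sum_insert ha, SS_add_left, SS_zsmul_left, ih]
  have h2 : ∀ j : Gen Z b, SS p b y (gen Z p j) = 0 := by
    intro j
    rw [hy, h4]
    simp only [SS_gen_gen hM]
    have h3 := congrFun hr j
    simp only [mulVec, dotProduct, Pi.zero_apply] at h3
    have h5 : ((∑ k, mat p Z b j k * r k : ℤ) : ℂ) = 0 := by rw [h3]; simp
    push_cast at h5
    rw [← h5]
    refine Finset.sum_congr rfl fun k _ => ?_
    rw [mat_apply_comm k j]
    ring
  simp only [h2, zero_smul, Finset.sum_const_zero] at h1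
  have hp0 : (p : ℂ) ≠ 0 := by exact_mod_cast hp.out.ne_zero
  exact (smul_eq_zero.1 h1).resolve_left hp0

/-- The minors with an arbitrary element of the lattice. -/
theorem lat_minor (hM : IsPModular p M) (hb : IsPBlock M b) {x : Cen u → ℂ} (hx : x ∈ lat p b)
    {ξ : IrrCharacter (Cen u)} (hξ : ξ ∈ b) (ψ₁ ψ₂ : IrrCharacter (Cen u)) (hψ₁ : ψ₁ ∈ b) (hψ₂ : ψ₂ ∈ b) {n₁ n₂ : ℤ}
    (h₁ : SS p b x (reg p (ψ₁ : Cen u → ℂ)) = n₁) (h₂ : SS p b x (reg p (ψ₂ : Cen u → ℂ)) = n₂) :
    (p : ℤ) ∣ n₁ * BrauerFeit.mm p b ξ ψ₂ - n₂ * BrauerFeit.mm p b ξ ψ₁ := by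
  induction hx using Submodule.span_induction generalizing n₁ n₂ with
  | mem x hx =>
    obtain ⟨μ, hμ, rfl⟩ := hx
    rw [SS_reg_reg hM hμ] at h₁ h₂
    have e₁ : BrauerFeit.mm p b μ ψ₁ = n₁ := by exact_mod_cast h₁
    have e₂ : BrauerFeit.mm p b μ ψ₂ = n₂ := by exact_mod_cast h₂
    rw [← e₁, ← e₂]
    exact minor_dvd hM hb hμ hξ ψ₁ ψ₂
  | zero =>
    rw [SS_zero_left] at h₁ h₂
    have e₁ : n₁ = 0 := by exact_mod_cast h₁.symm
    have e₂ : n₂ = 0 := by exact_mod_cast h₂.symm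
    simp [e₁, e₂]
  | add x y hx' hy' hx hy =>
    obtain ⟨a₁, ha₁⟩ := exists_int_SS (p := p) (b := b) hM hx' (reg_mem_lat hψ₁)
    obtain ⟨a₂, ha₂⟩ := exists_int_SS (p := p) (b := b) hM hx' (reg_mem_lat hψ₂)
    obtain ⟨c₁, hc₁⟩ := exists_int_SS (p := p) (b := b) hM hy' (reg_mem_lat hψ₁)
    obtain ⟨c₂, hc₂⟩ := exists_int_SS (p := p) (b := b) hM hy' (reg_mem_lat hψ₂)
    rw [SS_add_left, ha₁, hc₁] at h₁
    rw [SS_add_left, ha₂, hc₂] at h₂
    have e₁ : a₁ + c₁ = n₁ := by exact_mod_cast h₁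
    have e₂ : a₂ + c₂ = n₂ := by exact_mod_cast h₂
    have h3 := hx ha₁ ha₂
    have h4 := hy hc₁ hc₂
    have h5 := dvd_add h3 h4
    rw [← e₁, ← e₂]
    have e : (a₁ + c₁) * BrauerFeit.mm p b ξ ψ₂ - (a₂ + c₂) * BrauerFeit.mm p b ξ ψ₁ =
        a₁ * BrauerFeit.mm p b ξ ψ₂ - a₂ * BrauerFeit.mm p b ξ ψ₁ + (c₁ * BrauerFeit.mm p b ξ ψ₂ - c₂ * BrauerFeit.mm p b ξ ψ₁) := by
      ring
    rw [e]
    exact h5
  | smul a x hx' hx =>
    obtain ⟨a₁, ha₁⟩ := exists_int_SS (p := p) (b := b) hM hx' (reg_mem_lat hψ₁)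
    obtain ⟨a₂, ha₂⟩ := exists_int_SS (p := p) (b := b) hM hx' (reg_mem_lat hψ₂)
    rw [SS_zsmul_left, ha₁] at h₁
    rw [SS_zsmul_left, ha₂] at h₂
    have e₁ : a * a₁ = n₁ := by exact_mod_cast h₁
    have e₂ : a * a₂ = n₂ := by exact_mod_cast h₂
    have h3 := hx ha₁ ha₂
    have h5 := Dvd.dvd.mul_left h3 a
    rw [← e₁, ← e₂]
    have e : a * a₁ * BrauerFeit.mm p b ξ ψ₂ - a * a₂ * BrauerFeit.mm p b ξ ψ₁ =
        a * (a₁ * BrauerFeit.mm p b ξ ψ₂ - a₂ * BrauerFeit.mm p b ξ ψ₁) := by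
      ring
    rw [e]
    exact h5

/-- In defect two all the heights vanish. -/
lemma height_eq_zero (hM : IsPModular p M) (hb : IsPBlock M b) (hd : blockDefect p b = 2) {ψ : IrrCharacter (Cen u)}
    (hψ : ψ ∈ b) : blockHeight p b (ψ : Cen u → ℂ) = 0 := by
  by_contra h
  have := BrauerFeit.height_add_two_le hM hb hψ (Nat.pos_of_ne_zero h)
  omega

/-- `SS` of an integer combination of the generators. -/
lemma SS_sum_left (hM : IsPModular p M) (a : Gen Z b → ℤ) (j : Gen Z b) :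
    SS p b (∑ i, a i • gen Z p i) (gen Z p j) = ((mat p Z b *ᵥ a) j : ℤ) := by
  have h4 : ∀ (s : Finset (Gen Z b)),
      SS p b (∑ k ∈ s, a k • gen Z p k) (gen Z p j) = ∑ k ∈ s, (a k : ℂ) * SS p b (gen Z p k) (gen Z p j) := by
    intro s
    induction s using Finset.induction_on with
    | empty => simp [SS_zero_left]
    | insert c s ha ih =>
      rw [Finset.sum_insert ha, Finset.sum_insert ha, SS_add_left, SS_zsmul_left, ih]
  rw [h4]
  simp only [SS_gen_gen hM, mulVec, dotProduct]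
  push_cast
  refine Finset.sum_congr rfl fun k _ => ?_
  rw [mat_apply_comm k j]
  ring

/-- **The generators generate the lattice over `ℤ`.** -/
theorem exists_coeffs (hM : IsPModular p M) (hZ : ∀ z ∈ Z, ∀ g : Cen u, g * z = z * g) (hZp : IsPGroup p Z)
    (hc : Nat.card Z = p) (hb : IsPBlock M b) (hd : blockDefect p b = 2) (i₀ : Gen Z b) {x : Cen u → ℂ}
    (hx : x ∈ lat p b) : ∃ a : Gen Z b → ℤ, x = ∑ i, a i • gen Z p i := by
  have hp0 : (p : ℤ) ≠ 0 := by exact_mod_cast hp.out.ne_zero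
  have hp0c : (p : ℂ) ≠ 0 := by exact_mod_cast hp.out.ne_zero
  have hU : ∀ i : Gen Z b, ∃ n : ℤ, SS p b x (gen Z p i) = n := fun i => exists_int_SS hM hx (gen_mem i)
  choose U hU using hU
  have hw : ¬ (p : ℤ) ∣ mat p Z b i₀ i₀ :=
    not_dvd_mm hM hb i₀.2.1 i₀.2.1 (height_eq_zero hM hb hd i₀.2.1) (height_eq_zero hM hb hd i₀.2.1)
  have hcop : IsCoprime (mat p Z b i₀ i₀) (p : ℤ) := by
    have hpi : Prime (p : ℤ) := Nat.prime_iff_prime_int.mp hp.out
    exact ((Prime.coprime_iff_not_dvd hpi).mpr hw).symm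
  obtain ⟨x', y', hxy⟩ := hcop
  set κ := x' * U i₀ with hκ
  have hdiv : ∀ i, (p : ℤ) ∣ U i - κ * mat p Z b i₀ i := by
    intro i
    obtain ⟨k, hk⟩ := lat_minor hM hb hx i₀.2.1 i.1 i₀.1 i.2.1 i₀.2.1 (hU i) (hU i₀)
    refine ⟨x' * k + y' * U i, ?_⟩
    have e1 : mat p Z b i₀ i₀ = BrauerFeit.mm p b i₀.1 i₀.1 := rfl
    have e2 : mat p Z b i₀ i = BrauerFeit.mm p b i₀.1 i.1 := rfl
    rw [e2, hκ]
    rw [e1] at hxy
    linear_combination (-U i) * hxy + x' * hk
  choose W hW using hdiv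
  -- the frame for `x`
  have hframe : ∀ j : Gen Z b, ∑ k, mat p Z b j k * U k = (p : ℤ) * U j := by
    intro j
    have h1 := frame_gen hM hZ hZp hc hb hd hx
    have h2 := congrArg (fun f => SS p b f (gen Z p j)) h1
    beta_reduce at h2
    have h4 : ∀ (s : Finset (Gen Z b)),
        SS p b (∑ k ∈ s, SS p b x (gen Z p k) • gen Z p k) (gen Z p j) =
          ∑ k ∈ s, SS p b x (gen Z p k) * SS p b (gen Z p k) (gen Z p j) := by
      intro s
      induction s using Finset.induction_on with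
      | empty => simp [SS_zero_left]
      | insert c s ha ih =>
        rw [Finset.sum_insert ha, Finset.sum_insert ha, SS_add_left, SS_smul_left, ih]
    rw [h4, SS_smul_left, hU j] at h2
    simp only [hU, SS_gen_gen hM] at h2
    have h5 : (((p : ℤ) * U j : ℤ) : ℂ) = ((∑ k, mat p Z b j k * U k : ℤ) : ℂ) := by
      push_cast
      rw [h2]
      refine Finset.sum_congr rfl fun k _ => ?_
      rw [mat_apply_comm k j]
      ring
    exact_mod_cast h5.symm
  have hsq := mat_sq hM hZ hZp hc hb hd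
  have hmW : ∀ j, (mat p Z b *ᵥ W) j = (p : ℤ) * W j := by
    intro j
    apply mul_left_cancel₀ hp0
    have e1 : (p : ℤ) * (mat p Z b *ᵥ W) j = ∑ k, mat p Z b j k * ((p : ℤ) * W k) := by
      simp only [mulVec, dotProduct, Finset.mul_sum]
      refine Finset.sum_congr rfl fun k _ => by ring
    have e2 : ∑ k, mat p Z b j k * ((p : ℤ) * W k) = ∑ k, mat p Z b j k * U k -
        κ * ∑ k, mat p Z b j k * mat p Z b i₀ k := by
      rw [Finset.mul_sum, ← Finset.sum_sub_distrib]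
      refine Finset.sum_congr rfl fun k _ => ?_
      rw [← hW k]
      ring
    have e3 : ∑ k, mat p Z b j k * mat p Z b i₀ k = (p : ℤ) * mat p Z b j i₀ := by
      have := congrFun (congrFun hsq j) i₀
      simp only [Matrix.mul_apply, Matrix.smul_apply, smul_eq_mul] at this
      rw [← this]
      refine Finset.sum_congr rfl fun k _ => ?_
      rw [mat_apply_comm k i₀]
    rw [e1, e2, e3, hframe j, mat_apply_comm j i₀]
    have e4 := hW j
    linear_combination (p : ℤ) * e4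
  refine ⟨fun i => W i + if i = i₀ then κ else 0, ?_⟩
  set a : Gen Z b → ℤ := fun i => W i + if i = i₀ then κ else 0 with ha
  have hma : ∀ j, (mat p Z b *ᵥ a) j = U j := by
    intro j
    have e1 : (mat p Z b *ᵥ a) j = (mat p Z b *ᵥ W) j + κ * mat p Z b j i₀ := by
      simp only [mulVec, dotProduct, ha, mul_add, Finset.sum_add_distrib]
      congr 1
      simp [mul_comm]
    rw [e1, hmW, mat_apply_comm j i₀]
    have e4 := hW j
    linear_combination -e4
  set y := x - ∑ i, a i • gen Z p i with hy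
  have hym : y ∈ lat p b :=
    Submodule.sub_mem _ hx (Submodule.sum_mem _ fun i _ => Submodule.smul_mem _ _ (gen_mem i))
  have h0 : ∀ j : Gen Z b, SS p b y (gen Z p j) = 0 := by
    intro j
    have e : y + ∑ i, a i • gen Z p i = x := by rw [hy]; abel
    have h1 : SS p b x (gen Z p j) = SS p b y (gen Z p j) + SS p b (∑ i, a i • gen Z p i) (gen Z p j) := by
      rw [← e, SS_add_left]
    rw [SS_sum_left hM, hma, hU] at h1
    linear_combination -h1
  have h1 := frame_gen hM hZ hZp hc hb hd hym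
  simp only [h0, zero_smul, Finset.sum_const_zero] at h1
  have h2 : y = 0 := (smul_eq_zero.1 h1).resolve_left hp0c
  exact sub_eq_zero.1 h2

/-- The linear map of the generators. -/
noncomputable def phi (p : ℕ) (Z : Subgroup (Cen u)) (b : Set (IrrCharacter (Cen u))) : (Gen Z b → ℂ) →ₗ[ℂ] (Cen u → ℂ) :=
  Fintype.linearCombination ℂ (gen Z p)

lemma blockRank_le_range (hM : IsPModular p M) (hZ : ∀ z ∈ Z, ∀ g : Cen u, g * z = z * g) (hZp : IsPGroup p Z)
    (hb : IsPBlock M b) : blockRank p b ≤ Module.finrank ℂ (LinearMap.range (phi p Z b)) := by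
  rw [blockRank_eq]
  refine Submodule.finrank_mono ((CentralQuot.regSpan_le hM Z hZ hZp hb).trans ?_)
  rw [regSpan, Submodule.span_le]
  rintro _ ⟨η, hη, rfl⟩
  refine ⟨Pi.single ⟨η, hη⟩ 1, ?_⟩
  simp [phi, Fintype.linearCombination_apply, Pi.single_apply, pRegularPart_eq_reg]

/-- The rank and the relations. -/
theorem rank_le (hM : IsPModular p M) (hZ : ∀ z ∈ Z, ∀ g : Cen u, g * z = z * g) (hZp : IsPGroup p Z)
    (hc : Nat.card Z = p) (hb : IsPBlock M b) (hd : blockDefect p b = 2) {t : ℕ} {R : Matrix (Gen Z b) (Fin t) ℤ}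
    (hmR : mat p Z b * R = 0) {K : Matrix (Fin t) (Gen Z b) ℤ} (hKR : K * R = 1) :
    blockRank p b + t ≤ Fintype.card (Gen Z b) := by
  have h1 := blockRank_le_range (Z := Z) hM hZ hZp hb
  have h2 := LinearMap.finrank_range_add_finrank_ker (phi p Z b)
  rw [Module.finrank_fintype_fun_eq_card] at h2
  set Rc : Matrix (Gen Z b) (Fin t) ℂ := R.map (Int.castRingHom ℂ) with hRc
  set Kc : Matrix (Fin t) (Gen Z b) ℂ := K.map (Int.castRingHom ℂ) with hKc
  have hKRc : Kc * Rc = 1 := by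
    rw [hKc, hRc, ← Matrix.map_mul, hKR]
    simp
  have hinj : Function.Injective Rc.mulVecLin := by
    intro c c' hcc
    have h3 := congrArg (fun v => Kc *ᵥ v) hcc
    simpa [mulVec_mulVec, hKRc] using h3
  have hle : LinearMap.range Rc.mulVecLin ≤ LinearMap.ker (phi p Z b) := by
    rintro _ ⟨c, rfl⟩
    rw [LinearMap.mem_ker, phi, Fintype.linearCombination_apply]
    have hcol : ∀ s : Fin t, ∑ i, R i s • gen Z p i = 0 := by
      intro s
      refine sum_eq_zero_of_ker hM hZ hZp hc hb hd (r := fun i => R i s) ?_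
      funext j
      have := congrFun (congrFun hmR j) s
      simpa [Matrix.mul_apply, mulVec, dotProduct] using this
    have h3 : ∑ i, (Rc.mulVecLin c) i • gen Z p i = ∑ s, c s • ∑ i, R i s • gen Z p i := by
      simp only [mulVecLin_apply, mulVec, dotProduct, Finset.sum_smul, Finset.smul_sum]
      rw [Finset.sum_comm]
      refine Finset.sum_congr rfl fun s _ => Finset.sum_congr rfl fun i _ => ?_
      have e : (R i s) • gen Z p i = ((R i s : ℤ) : ℂ) • gen Z p i := (Int.cast_smul_eq_zsmul ℂ _ _).symm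
      rw [e, smul_smul]
      congr 1
      simp [hRc, mul_comm]
    rw [h3]
    exact Finset.sum_eq_zero fun s _ => by rw [hcol s, smul_zero]
  have h3 : t = Module.finrank ℂ (LinearMap.range Rc.mulVecLin) := by
    rw [LinearMap.finrank_range_of_inj hinj]
    simp
  have h4 := Submodule.finrank_mono hle
  omega

/-- **The minimum of the form on the lattice.** -/
theorem le_SS (hM : IsPModular p M) (hZ : ∀ z ∈ Z, ∀ g : Cen u, g * z = z * g) (hZp : IsPGroup p Z)
    (hc : Nat.card Z = p) (hb : IsPBlock M b) (hd : blockDefect p b = 2) {x : Cen u → ℂ} (hx : x ∈ lat p b)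
    (hx0 : x ≠ 0) : ∃ n : ℤ, SS p b x x = n ∧ (blockRank p b : ℤ) ≤ n := by
  obtain ⟨η₀, hη₀, hk₀⟩ := Dominate.exists_mem_kernel Z hM hZp hb
  let i₀ : Gen Z b := ⟨η₀, hη₀, hk₀⟩
  obtain ⟨n, hn⟩ := exists_int_SS (p := p) (b := b) hM hx hx
  refine ⟨n, hn, ?_⟩
  by_cases hs : Subsingleton (Gen Z b)
  · have h1 := blockRank_le_range (Z := Z) hM hZ hZp hb
    have h2 := LinearMap.finrank_range_le (phi p Z b)
    rw [Module.finrank_fintype_fun_eq_card] at h2
    have h3 : Fintype.card (Gen Z b) ≤ 1 := Fintype.card_le_one_iff_subsingleton.mpr hs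
    obtain ⟨r, hr, e⟩ := SS_self_nonneg (p := p) (b := b) x
    have hnr : (n : ℝ) = r := by
      rw [e] at hn
      exact_mod_cast hn.symm
    have hn0 : n ≠ 0 := by
      intro h0
      apply hx0
      apply SS_self_eq_zero (p := p) (b := b)
      rw [hn, h0]
      simp
    have hnn : 0 ≤ n := by
      have : (0 : ℝ) ≤ n := by rw [hnr]; exact hr
      exact_mod_cast this
    have h4 : blockRank p b ≤ 1 := by omega
    have h5 : (blockRank p b : ℤ) ≤ 1 := by exact_mod_cast h4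
    omega
  · have hrow : ∀ i : Gen Z b, ∃ j, j ≠ i ∧ mat p Z b i j ≠ 0 := by
      intro i
      rw [not_subsingleton_iff_nontrivial] at hs
      obtain ⟨j, hj⟩ := exists_ne i
      exact ⟨j, hj, BrauerFeit.mm_ne_zero hM hb i.2.1 (height_eq_zero hM hb hd i.2.1) j.2.1⟩
    obtain ⟨t, R, hmR, ⟨K, hKR⟩, hbound⟩ := key_bound hp.out (mat p Z b) mat_symm (mat_sq hM hZ hZp hc hb hd)
      (mat_rk1 hM hb) hrow
    obtain ⟨a, ha⟩ := exists_coeffs hM hZ hZp hc hb hd i₀ hx
    have hma : mat p Z b *ᵥ a ≠ 0 := by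
      intro h0
      apply hx0
      rw [ha]
      exact sum_eq_zero_of_ker hM hZ hZp hc hb hd h0
    have h1 := hbound a hma
    have h2 := rank_le hM hZ hZp hc hb hd hmR hKR
    have h3 : (blockRank p b : ℤ) + t ≤ Fintype.card (Gen Z b) := by exact_mod_cast h2
    have h4 : n = a ⬝ᵥ mat p Z b *ᵥ a := by
      have h6 : ∀ i, SS p b x (gen Z p i) = ((mat p Z b *ᵥ a) i : ℤ) := by
        intro i
        have := SS_sum_left hM a i
        rwa [← ha] at this
      have h7 : ∀ s : Finset (Gen Z b), SS p b x (∑ i ∈ s, a i • gen Z p i) =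
          ∑ i ∈ s, (a i : ℂ) * SS p b x (gen Z p i) := by
        intro s
        induction s using Finset.induction_on with
        | empty => simp [SS_zero_right]
        | insert c s hc' ih =>
          rw [Finset.sum_insert hc', Finset.sum_insert hc', SS_add_right, SS_zsmul_right, ih]
      have h8 : SS p b x x = ((a ⬝ᵥ mat p Z b *ᵥ a : ℤ) : ℂ) := by
        have h9 : SS p b x x = SS p b x (∑ i, a i • gen Z p i) := congrArg (SS p b x) ha
        rw [h9, h7]
        simp only [h6, dotProduct]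
        push_cast
        rfl
      rw [h8] at hn
      exact_mod_cast hn.symm
    omega

end Cfsg.Agent.Lib.Blocks.BF2Lat
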