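import Mathlib
import Cfsg.Agent.Lib.Blocks.BF2Lat

/-!
# Galois averages of the numbers `x(χ, χ)` for a major subsection at an element of order `p`

`gg χ = ∑_i ζ^i w_i` with `w_i` in the lattice of the block `b`, so that the average of `x(χ, χ) = SS (gg χ) (gg χ)` is
`(∑_{i,j} SS (w_i - w_j) (w_i - w_j)) / 2(p-1)`, which is at least the minimum of `SS` on the lattice.
The trace of `x` then gives `k(B) ≤ p^d` if this minimum is at least `l(b)`.
-/

set_option autoImplicit false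
set_option linter.unusedSectionVars false
set_option linter.style.haveILetI false

namespace Cfsg.Agent.Lib.Blocks.BF2Avg

open Cfsg Cfsg.Agent.Lib.Blocks.Local Cfsg.Agent.Lib.Blocks.Central Cfsg.Agent.Lib.Blocks.Osima
  Cfsg.Agent.Lib.Blocks.Regular Cfsg.Agent.Lib.Blocks.Cartan Cfsg.Agent.Lib.Blocks.Sections
  Cfsg.Agent.Lib.Blocks.BlockCount Cfsg.Agent.Lib.Blocks.HeightZero Cfsg.Agent.Lib.Blocks.MajorSub
  Cfsg.Agent.Lib.Blocks.MajorSub2 Cfsg.Agent.Lib.Blocks.MajorSub3 Cfsg.Agent.Lib.Blocks.MajorLattice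
  Cfsg.Agent.Lib.Blocks.CycloSums
open scoped ComplexConjugate

universe u

section Root

variable {p : ℕ} [hp : Fact p.Prime] {n : ℕ} [hn : NeZero n]

lemma pow_congr_of_modEq {ε : ℂ} (hε : ε ^ p = 1) {a b : ℕ} (h : a ≡ b [MOD p]) : ε ^ a = ε ^ b := by
  rw [pow_eq_pow_mod a hε, pow_eq_pow_mod b hε, h]

/-- The sum of the Galois conjugates of a nontrivial `p`-th root of unity. -/
theorem sum_root_units (hpn : p ∣ 2 * n) {ε : ℂ} (hε : ε ^ p = 1) (h1 : ε ≠ 1) :
    ((p : ℂ) - 1) * ∑ u : (ZMod (2 * n))ˣ, ε ^ (u : ZMod (2 * n)).val = -(Fintype.card (ZMod (2 * n))ˣ : ℂ) := by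
  classical
  haveI : NeZero (2 * n) := ⟨by have := hn.out; omega⟩
  set U := (ZMod (2 * n))ˣ with hU
  have hpp := hp.out
  let S : ℂ → ℂ := fun ξ => ∑ u : U, ξ ^ (u : ZMod (2 * n)).val
  -- the values at powers of `ε`
  have hmulval : ∀ x y : ZMod (2 * n), ε ^ (x * y).val = (ε ^ x.val) ^ y.val := by
    intro x y
    rw [ZMod.val_mul, ← pow_mul]
    refine pow_congr_of_modEq hε ?_
    exact (Nat.mod_modEq _ _).of_dvd hpn
  have hSt : ∀ t : ℕ, Nat.Coprime t p → S (ε ^ t) = S ε := by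
    intro t ht
    obtain ⟨w, hw⟩ := ZMod.unitsMap_surjective hpn (ZMod.unitOfCoprime t ht)
    have h2 : ε ^ (w : ZMod (2 * n)).val = ε ^ t := by
      refine pow_congr_of_modEq hε ?_
      have h3 := congrArg (fun a : (ZMod p)ˣ => (a : ZMod p)) hw
      simp only [ZMod.unitsMap_val, ZMod.coe_unitOfCoprime] at h3
      rw [← ZMod.natCast_eq_natCast_iff, ZMod.natCast_val]
      exact h3
    show ∑ u : U, (ε ^ t) ^ (u : ZMod (2 * n)).val = ∑ u : U, ε ^ (u : ZMod (2 * n)).val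
    rw [← h2]
    simp only [← hmulval]
    exact Fintype.sum_equiv (Equiv.mulLeft w) _ _ (fun u => by simp)
  have hgeom : ∀ u : U, ∑ t ∈ Finset.range p, (ε ^ t) ^ (u : ZMod (2 * n)).val = 0 := by
    intro u
    set η := ε ^ (u : ZMod (2 * n)).val with hη
    have h2 : ∀ t, (ε ^ t) ^ (u : ZMod (2 * n)).val = η ^ t := fun t => by
      rw [hη, ← pow_mul, ← pow_mul, mul_comm]
    simp only [h2]
    have h3 : η ^ p = 1 := by rw [hη, ← pow_mul, mul_comm, pow_mul, hε, one_pow]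
    have h4 : η ≠ 1 := by
      intro h5
      have hcop : Nat.Coprime (u : ZMod (2 * n)).val p :=
        Nat.Coprime.coprime_dvd_right hpn (ZMod.val_coe_unit_coprime u)
      have h6 : ε ^ Nat.gcd (u : ZMod (2 * n)).val p = 1 := pow_gcd_eq_one.2 ⟨h5, hε⟩
      rw [hcop] at h6
      exact h1 (by simpa using h6)
    have h5 := geom_sum_mul η p
    rw [h3, sub_self] at h5
    exact (mul_eq_zero.1 h5).resolve_right (sub_ne_zero.2 h4)
  have htotal : ∑ t ∈ Finset.range p, S (ε ^ t) = 0 := by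
    show ∑ t ∈ Finset.range p, ∑ u : U, (ε ^ t) ^ (u : ZMod (2 * n)).val = 0
    rw [Finset.sum_comm]
    exact Finset.sum_eq_zero fun u _ => hgeom u
  obtain ⟨q, hq⟩ : ∃ q, p = q + 1 := ⟨p - 1, by have := hpp.pos; omega⟩
  rw [hq, Finset.sum_range_succ'] at htotal
  have h2 : ∀ t ∈ Finset.range q, S (ε ^ (t + 1)) = S ε := by
    intro t ht
    refine hSt _ ?_
    have hlt : t + 1 < p := by
      have := Finset.mem_range.1 ht
      omega
    exact (Nat.coprime_comm.1 ((Nat.Prime.coprime_iff_not_dvd hpp).2 (Nat.not_dvd_of_pos_of_lt (by omega) hlt)))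
  rw [Finset.sum_congr rfl h2, Finset.sum_const, Finset.card_range, nsmul_eq_mul] at htotal
  have h3 : S (ε ^ 0) = (Fintype.card U : ℂ) := by
    simp [S]
  rw [h3] at htotal
  have h4 : ((p : ℂ) - 1) = q := by
    rw [hq]
    push_cast
    ring
  rw [h4]
  linear_combination htotal

/-- The average of a nontrivial `p`-th root of unity. -/
theorem avg_root (hpn : p ∣ 2 * n) {ε : ℂ} (hε : ε ^ p = 1) (h1 : ε ≠ 1) :
    ((p : ℂ) - 1) * avg n ε = -1 := by
  have h2 := sum_root_units (n := n) hpn hε h1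
  have hε' : ε ^ (2 * n) = 1 := by
    obtain ⟨c, hc⟩ := hpn
    rw [hc, pow_mul, hε, one_pow]
  have h3 : avg n ε = (Fintype.card (ZMod (2 * n))ˣ : ℂ)⁻¹ * ∑ u : (ZMod (2 * n))ˣ, ε ^ (u : ZMod (2 * n)).val := by
    rw [avg]
    congr 1
    exact Finset.sum_congr rfl fun u _ => tau_root n u hε'
  rw [h3, mul_left_comm, h2]
  have h4 : (Fintype.card (ZMod (2 * n))ˣ : ℂ) ≠ 0 := card_units_ne
  field_simp

end Root

section Count

variable {J α : Type*} [Fintype J] [DecidableEq J] [DecidableEq α]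

/-- A counting inequality. -/
theorem two_mul_le_sum {p : ℕ} (hc : Fintype.card J = p) (w : J → α) (f : J → J → ℤ) (hf : ∀ i j, 0 ≤ f i j) (l : ℤ)
    (hl : 0 ≤ l) (hfl : ∀ i j, w i ≠ w j → l ≤ f i j) (hne : ∃ i j, w i ≠ w j) :
    2 * ((p : ℤ) - 1) * l ≤ ∑ i, ∑ j, f i j := by
  obtain ⟨i₀, j₀, h0⟩ := hne
  set A := Finset.univ.filter (fun j => w j = w i₀) with hA
  set A' := Finset.univ.filter (fun j => ¬ w j = w i₀) with hA'
  have hcard : A.card + A'.card = p := by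
    rw [← hc, hA, hA', Finset.card_filter_add_card_filter_not]
    rfl
  have h1 : 1 ≤ A.card := Finset.card_pos.2 ⟨i₀, by simp [hA]⟩
  have h2 : 1 ≤ A'.card := Finset.card_pos.2 ⟨j₀, by simp [hA', Ne.symm h0]⟩
  have h3 : ∑ i, ∑ j, f i j = ∑ i ∈ A, ∑ j, f i j + ∑ i ∈ A', ∑ j, f i j := by
    rw [hA, hA', Finset.sum_filter_add_sum_filter_not]
  have h4 : ∑ i ∈ A, ∑ _j ∈ A', l ≤ ∑ i ∈ A, ∑ j, f i j := by
    refine Finset.sum_le_sum fun i hi => ?_
    calc ∑ _j ∈ A', l ≤ ∑ j ∈ A', f i j := by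
          refine Finset.sum_le_sum fun j hj => hfl i j ?_
          rw [(Finset.mem_filter.1 hi).2]
          exact fun h => (Finset.mem_filter.1 hj).2 h.symm
      _ ≤ ∑ j, f i j := Finset.sum_le_sum_of_subset_of_nonneg (Finset.subset_univ _) fun j _ _ => hf i j
  have h5 : ∑ i ∈ A', ∑ _j ∈ A, l ≤ ∑ i ∈ A', ∑ j, f i j := by
    refine Finset.sum_le_sum fun i hi => ?_
    calc ∑ _j ∈ A, l ≤ ∑ j ∈ A, f i j := by
          refine Finset.sum_le_sum fun j hj => hfl i j ?_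
          rw [(Finset.mem_filter.1 hj).2]
          exact (Finset.mem_filter.1 hi).2
      _ ≤ ∑ j, f i j := Finset.sum_le_sum_of_subset_of_nonneg (Finset.subset_univ _) fun j _ _ => hf i j
  simp only [Finset.sum_const, nsmul_eq_mul] at h4 h5
  rw [h3]
  have h6 : ((p : ℤ) - 1) ≤ (A.card : ℤ) * A'.card := by
    have h7 : (p : ℤ) = A.card + A'.card := by exact_mod_cast hcard.symm
    have h8 : (1 : ℤ) ≤ A.card := by exact_mod_cast h1
    have h9 : (1 : ℤ) ≤ A'.card := by exact_mod_cast h2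
    nlinarith
  have h10 : 2 * ((p : ℤ) - 1) * l ≤ 2 * ((A.card : ℤ) * A'.card) * l := by
    apply mul_le_mul_of_nonneg_right _ hl
    linarith
  nlinarith

end Count

section Main

variable {G : Type u} [Group G] [Fintype G] {M : Ideal AlgInt} [hMp : M.IsPrime] {p : ℕ} [hp : Fact p.Prime]
variable {u : G} [Fintype (Cen u)] {b : Set (IrrCharacter (Cen u))}

open Classical

lemma SS_sum_left' {J : Type*} (s : Finset J) (c : J → ℂ) (f : J → Cen u → ℂ) (y : Cen u → ℂ) :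
    SS p b (∑ i ∈ s, c i • f i) y = ∑ i ∈ s, c i * SS p b (f i) y := by
  induction s using Finset.induction_on with
  | empty => simp [SS_zero_left]
  | insert a s ha ih => rw [Finset.sum_insert ha, Finset.sum_insert ha, SS_add_left, SS_smul_left, ih]

lemma SS_sum_right' {J : Type*} (s : Finset J) (c : J → ℂ) (f : J → Cen u → ℂ) (y : Cen u → ℂ) :
    SS p b y (∑ i ∈ s, c i • f i) = ∑ i ∈ s, conj (c i) * SS p b y (f i) := by
  induction s using Finset.induction_on with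
  | empty => simp [SS_zero_right]
  | insert a s ha ih => rw [Finset.sum_insert ha, Finset.sum_insert ha, SS_add_right, SS_smul_right, ih]

lemma SS_sub_self (x y : Cen u → ℂ) :
    SS p b (x - y) (x - y) = SS p b x x + SS p b y y - SS p b x y - SS p b y x := by
  have h1 : x - y = x + (-1 : ℂ) • y := by
    funext c
    simp [sub_eq_add_neg]
  rw [h1]
  simp only [SS_add_left, SS_add_right, SS_smul_left, SS_smul_right]
  simp
  ring

/-- **The decomposition of the section functions.** -/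
theorem exists_decomp {ζ : ℂ} (hζ : IsPrimitiveRoot ζ p) (hk : orderOf u = p) (χ : IrrCharacter G) :
    ∃ w : Fin p → Cen u → ℂ, (∀ i, w i ∈ lat p b) ∧ gg p b χ = ∑ i : Fin p, ζ ^ (i : ℕ) • w i := by
  have hk' : orderOf u = p ^ 1 := by rw [pow_one, hk]
  haveI : NeZero p := ⟨hp.out.ne_zero⟩
  have hidx : ∀ μ : IrrCharacter (Cen u), ∃ i : Fin p, ζ ^ (i : ℕ) = nu μ := by
    intro μ
    have h1 : nu μ ^ p = 1 := by
      have := nu_pow_eq hk' μ
      rwa [pow_one] at this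
    obtain ⟨i, hi, hi'⟩ := hζ.eq_pow_of_pow_eq_one h1
    exact ⟨⟨i, hi⟩, hi'⟩
  choose idx hidx using hidx
  refine ⟨fun i => ∑ μ ∈ (Finset.univ.filter (· ∈ b)).filter (fun μ => idx μ = i), (mm χ μ : ℤ) • reg p (μ : Cen u → ℂ), ?_, ?_⟩
  · intro i
    refine Submodule.sum_mem _ fun μ hμ => Submodule.smul_mem _ _ (reg_mem_lat ?_)
    exact (Finset.mem_filter.1 (Finset.mem_filter.1 hμ).1).2
  · rw [gg_eq, ← Finset.sum_fiberwise (Finset.univ.filter (· ∈ b)) idx]
    refine Finset.sum_congr rfl fun i _ => ?_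
    rw [Finset.smul_sum]
    refine Finset.sum_congr rfl fun μ hμ => ?_
    have h1 : idx μ = i := (Finset.mem_filter.1 hμ).2
    rw [← hidx μ, h1, ← Int.cast_smul_eq_zsmul ℂ, smul_smul]
    congr 1
    push_cast
    ring

/-- **The lower bound for the average.** -/
theorem le_aAvg_XX (hM : IsPModular p M) (hk : orderOf u = p) (χ : IrrCharacter G) {l : ℤ} (hl : 0 ≤ l)
    (hmin : ∀ x ∈ lat p b, x ≠ 0 → ∃ n : ℤ, SS p b x x = n ∧ l ≤ n) (hgg : gg p b χ ≠ 0) :
    (l : ℝ) ≤ aAvg (p ^ (1 + 1)) (XX p b χ χ) := by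
  have hpp := hp.out
  haveI : NeZero p := ⟨hpp.ne_zero⟩
  have hζ : IsPrimitiveRoot (Complex.exp (2 * Real.pi * Complex.I / p)) p := Complex.isPrimitiveRoot_exp p hpp.ne_zero
  set ζ := Complex.exp (2 * Real.pi * Complex.I / p) with hζdef
  have hnorm : ζ * conj ζ = 1 := by
    rw [Complex.mul_conj, Complex.normSq_eq_norm_sq, hζ.norm'_eq_one hpp.ne_zero]
    simp
  obtain ⟨w, hw, hgg'⟩ := exists_decomp (b := b) hζ hk χ
  have hs : ∀ i j, ∃ n : ℤ, SS p b (w i) (w j) = n := fun i j => exists_int_SS hM (hw i) (hw j)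
  choose s hs using hs
  -- the expansion
  set ε : Fin p → Fin p → ℂ := fun i j => ζ ^ (i : ℕ) * conj (ζ ^ (j : ℕ)) with hε
  have hXX : XX p b χ χ = ∑ i, ∑ j, (s i j : ℂ) * ε i j := by
    rw [XX_eq_SS, hgg', SS_sum_left']
    refine Finset.sum_congr rfl fun i _ => ?_
    rw [SS_sum_right', Finset.mul_sum]
    refine Finset.sum_congr rfl fun j _ => ?_
    rw [hs, hε]
    ring
  -- the averages
  set n := p ^ (1 + 1) with hn
  haveI : NeZero n := ⟨(pow_pos hpp.pos _).ne'⟩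
  have hpn : p ∣ 2 * n := Dvd.dvd.mul_left (dvd_pow_self p (by norm_num)) _
  have hεp : ∀ i j, ε i j ^ p = 1 := by
    intro i j
    simp only [hε, mul_pow, ← map_pow, ← pow_mul]
    rw [mul_comm (i : ℕ), mul_comm (j : ℕ), pow_mul, pow_mul, hζ.pow_eq_one]
    simp
  have hεself : ∀ i, ε i i = 1 := by
    intro i
    simp only [hε, map_pow, ← mul_pow, hnorm, one_pow]
  have hεne : ∀ i j, i ≠ j → ε i j ≠ 1 := by
    intro i j hij h1
    apply hij
    have h2 : ζ ^ (i : ℕ) = ζ ^ (j : ℕ) := by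
      have h3 : ζ ^ (j : ℕ) * conj (ζ ^ (j : ℕ)) = 1 := by
        simp only [map_pow, ← mul_pow, hnorm, one_pow]
      calc ζ ^ (i : ℕ) = ζ ^ (i : ℕ) * (ζ ^ (j : ℕ) * conj (ζ ^ (j : ℕ))) := by rw [h3, mul_one]
        _ = (ζ ^ (i : ℕ) * conj (ζ ^ (j : ℕ))) * ζ ^ (j : ℕ) := by ring
        _ = ζ ^ (j : ℕ) := by
          have : ζ ^ (i : ℕ) * conj (ζ ^ (j : ℕ)) = 1 := h1
          rw [this, one_mul]
    exact Fin.ext (hζ.pow_inj i.2 j.2 h2)
  have hp1 : ((p : ℂ) - 1) ≠ 0 := by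
    intro h
    have h2 : (p : ℂ) = 1 := by linear_combination h
    have h3 : p = 1 := by exact_mod_cast h2
    exact hpp.one_lt.ne' h3
  set A : ℤ := ∑ i, s i i with hA
  set T : ℤ := ∑ i, ∑ j, s i j with hT
  have havg : ((p : ℂ) - 1) * avg n (XX p b χ χ) = (((p : ℤ) * A - T : ℤ) : ℂ) := by
    rw [hXX, avg_sum]
    simp only [avg_sum, avg_intCast_mul]
    rw [Finset.mul_sum]
    have h1 : ∀ i, ((p : ℂ) - 1) * ∑ j, (s i j : ℂ) * avg n (ε i j) = (p : ℂ) * s i i - ∑ j, (s i j : ℂ) := by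
      intro i
      rw [Finset.mul_sum, ← Finset.add_sum_erase _ _ (Finset.mem_univ i),
        ← Finset.add_sum_erase (Finset.univ : Finset (Fin p)) (fun j => (s i j : ℂ)) (Finset.mem_univ i)]
      have h2 : ∀ j ∈ Finset.univ.erase i, ((p : ℂ) - 1) * ((s i j : ℂ) * avg n (ε i j)) = -(s i j : ℂ) := by
        intro j hj
        have h3 := avg_root (n := n) hpn (hεp i j) (hεne i j (Finset.ne_of_mem_erase hj).symm)
        linear_combination (s i j : ℂ) * h3
      rw [Finset.sum_congr rfl h2, hεself, avg_one, Finset.sum_neg_distrib]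
      ring
    rw [Finset.sum_congr rfl fun i _ => h1 i, Finset.sum_sub_distrib, ← Finset.mul_sum, hA, hT]
    push_cast
    rfl
  -- the differences
  have hf : ∀ i j, SS p b (w i - w j) (w i - w j) = ((s i i + s j j - s i j - s j i : ℤ) : ℂ) := by
    intro i j
    rw [SS_sub_self, hs, hs, hs, hs]
    push_cast
    rfl
  set f : Fin p → Fin p → ℤ := fun i j => s i i + s j j - s i j - s j i with hfdef
  have hfnn : ∀ i j, 0 ≤ f i j := by
    intro i j
    obtain ⟨r, hr, e⟩ := SS_self_nonneg (p := p) (b := b) (w i - w j)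
    have h1 := hf i j
    rw [e] at h1
    have h2 : (f i j : ℝ) = r := by exact_mod_cast h1.symm
    have h3 : (0 : ℝ) ≤ f i j := by rw [h2]; exact hr
    exact_mod_cast h3
  have hfl : ∀ i j, w i ≠ w j → l ≤ f i j := by
    intro i j hij
    obtain ⟨m, hm, hlm⟩ := hmin (w i - w j) (Submodule.sub_mem _ (hw i) (hw j)) (sub_ne_zero.2 hij)
    have h1 := hf i j
    rw [hm] at h1
    have h2 : m = f i j := by exact_mod_cast h1
    rw [← h2]
    exact hlm
  have hne : ∃ i j, w i ≠ w j := by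
    by_contra hcon
    push Not at hcon
    apply hgg
    rw [hgg']
    let i₀ : Fin p := ⟨0, hpp.pos⟩
    have h1 : ∀ i : Fin p, ζ ^ (i : ℕ) • w i = ζ ^ (i : ℕ) • w i₀ := fun i => by rw [hcon i i₀]
    simp only [h1]
    rw [← Finset.sum_smul]
    have h2 : ∑ i : Fin p, ζ ^ (i : ℕ) = 0 := by
      rw [Fin.sum_univ_eq_sum_range (fun i => ζ ^ i) p]
      exact hζ.geom_sum_eq_zero hpp.one_lt
    rw [h2, zero_smul]
  have hcount := two_mul_le_sum (p := p) (by simp) w f hfnn l hl hfl hne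
  have hsum : ∑ i, ∑ j, f i j = 2 * ((p : ℤ) * A - T) := by
    simp only [hfdef, Finset.sum_sub_distrib, Finset.sum_add_distrib, Finset.sum_const, Finset.card_univ,
      Fintype.card_fin, nsmul_eq_mul]
    have h1 : ∑ i : Fin p, ∑ j, s j i = T := by
      rw [hT, Finset.sum_comm]
    have h2 : ∑ i : Fin p, (p : ℤ) * s i i = (p : ℤ) * A := by rw [hA, Finset.mul_sum]
    rw [h1, h2]
    ring
  rw [hsum] at hcount
  -- conclusion
  have hpz : (1 : ℤ) ≤ (p : ℤ) - 1 := by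
    have : (2 : ℤ) ≤ p := by exact_mod_cast hpp.two_le
    omega
  have h4 : ((p : ℤ) - 1) * l ≤ (p : ℤ) * A - T := by nlinarith
  have h5 : aAvg n (XX p b χ χ) * ((p : ℝ) - 1) = (((p : ℤ) * A - T : ℤ) : ℝ) := by
    have h6 := congrArg Complex.re havg
    rw [aAvg]
    have h7 : (((p : ℂ) - 1) * avg n (XX p b χ χ)).re = ((p : ℝ) - 1) * (avg n (XX p b χ χ)).re := by
      have : ((p : ℂ) - 1) = (((p : ℝ) - 1 : ℝ) : ℂ) := by push_cast; rfl
      rw [this, Complex.re_ofReal_mul]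
    rw [h7] at h6
    rw [mul_comm, h6]
    simp
  have h8 : (0 : ℝ) < (p : ℝ) - 1 := by
    have : (1 : ℝ) < p := by exact_mod_cast hpp.one_lt
    linarith
  have h9 : ((p : ℝ) - 1) * (l : ℝ) ≤ (((p : ℤ) * A - T : ℤ) : ℝ) := by
    have : (((((p : ℤ) - 1) * l : ℤ)) : ℝ) ≤ (((p : ℤ) * A - T : ℤ) : ℝ) := by exact_mod_cast h4
    push_cast at this ⊢
    exact this
  rw [← h5] at h9
  have h10 : (l : ℝ) * ((p : ℝ) - 1) ≤ aAvg n (XX p b χ χ) * ((p : ℝ) - 1) := by linarith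
  exact le_of_mul_le_mul_right h10 h8

/-- **`k(B) ≤ p^d`, from a lower bound on the lattice.** -/
theorem card_le_of_min (hM : IsPModular p M) (hk : orderOf u = p) {B : Set (IrrCharacter G)}
    (hind : IsInducedBlock M (Cen u) b B) (hd : blockDefect p b = blockDefect p B)
    (hmin : ∀ x ∈ lat p b, x ≠ 0 → ∃ n : ℤ, SS p b x x = n ∧ (blockRank p b : ℤ) ≤ n) :
    (Finset.univ.filter (· ∈ B)).card ≤ p ^ blockDefect p b := by
  set S := Finset.univ.filter (· ∈ B) with hS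
  have hk' : orderOf u = p ^ 1 := by rw [pow_one, hk]
  obtain ⟨χ₁, hχ₁, h₁⟩ := exists_height_zero (p := p) (nonempty_of_isPBlock hind.2.1)
  have hmem : ∀ {χ : IrrCharacter G}, χ ∈ S → χ ∈ B := fun hχ => (Finset.mem_filter.mp hχ).2
  have hgg : ∀ χ ∈ S, gg p b χ ≠ 0 := by
    intro χ hχ h0
    apply XX_ne_of_height_zero hM hk' hind hd (hmem hχ) hχ₁ h₁
    rw [XX, h0, classInner_eq_sumInner, Cfsg.Agent.Lib.Blocks.SubsectionNorm.sumInner]
    simp
  have hl0 : (0 : ℤ) ≤ (blockRank p b : ℤ) := by positivity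
  have h2 : ∀ χ ∈ S, ((blockRank p b : ℤ) : ℝ) ≤ aAvg (p ^ (1 + 1)) (XX p b χ χ) :=
    fun χ hχ => le_aAvg_XX hM hk χ hl0 hmin (hgg χ hχ)
  have h3 := trace_XX hM hk' hind
  have h4 : ∑ _χ ∈ S, ((blockRank p b : ℤ) : ℝ) ≤ ∑ χ ∈ S, aAvg (p ^ (1 + 1)) (XX p b χ χ) := Finset.sum_le_sum h2
  rw [h3, Finset.sum_const, nsmul_eq_mul] at h4
  have hl : 0 < blockRank p b := CentralQuot.blockRank_pos hind.1
  have hl' : (0 : ℝ) < blockRank p b := by exact_mod_cast hl
  have h5 : (S.card : ℝ) * blockRank p b ≤ ((p ^ blockDefect p b : ℕ) : ℝ) * blockRank p b := by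
    simpa using h4
  have h6 := le_of_mul_le_mul_right h5 hl'
  exact_mod_cast h6

end Main

end Cfsg.Agent.Lib.Blocks.BF2Avg
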