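import Mathlib
import Cfsg.Prelude.Def_Blocks
import Cfsg.Agent.Lib.Blocks.ClassIndep
import Cfsg.Agent.Lib.Blocks.CenBlocks
import Cfsg.Agent.Lib.Blocks.PFixed

/-!
# Robinson's `p`-separated classes

A family of classes with a common defect group `D`, such that no quotient of two elements of the classes is a nontrivial
`p`-element, has linearly independent class sums modulo the blocks with defect group different from `D`.
-/

set_option autoImplicit false

namespace Cfsg.Agent.Lib.Blocks.ClassIndep2

open Cfsg Cfsg.Agent.Lib.Blocks.Local Cfsg.Agent.Lib.Blocks.Central Cfsg.Agent.Lib.Blocks.Osima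
  Cfsg.Agent.Lib.Blocks.BrauerMap Cfsg.Agent.Lib.Blocks.PSum Cfsg.Agent.Lib.Blocks.BlockHom
  Cfsg.Agent.Lib.Blocks.Sections Cfsg.Agent.Lib.Blocks.CenBlocks Cfsg.Agent.Lib.Blocks.Principal
open scoped ComplexConjugate

universe u

variable {G : Type u} [Group G] [Fintype G] {M : Ideal AlgInt} [hMp : M.IsPrime] {p : ℕ} [hp : Fact p.Prime]

open Classical in
/-- If `a` has coefficients in the local ideal on `C_G(D)`, so has `a * b`, for local central `a`, `b`. -/
theorem memLocalIdeal_coeff_mul_of_centralizer (hM : IsPModular p M) {D : Subgroup G} (hD : IsPGroup p D)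
    {a b : MonoidAlgebra ℂ G} (ha : a ∈ localCenter G M) (hb : b ∈ localCenter G M)
    (h0 : ∀ y ∈ Subgroup.centralizer (D : Set G), MemLocalIdeal M (a.coeff y))
    {h : G} (hh : h ∈ Subgroup.centralizer (D : Set G)) : MemLocalIdeal M ((a * b).coeff h) := by
  haveI : Fintype (Subgroup.centralizer (D : Set G)) := Fintype.ofFinite _
  have h1 := brauer_mul_sub_coeff (H := Subgroup.centralizer (D : Set G)) hM hD le_rfl ha hb ⟨h, hh⟩
  rw [MonoidAlgebra.coeff_sub, Finsupp.sub_apply, coeff_brauer, if_pos hh] at h1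
  have h2 : MemLocalIdeal M ((brauer D (Subgroup.centralizer (D : Set G)) a *
      brauer D (Subgroup.centralizer (D : Set G)) b).coeff ⟨h, hh⟩) := by
    rw [coeff_mul_eq_sum]
    refine memLocalIdeal_sum _ _ fun y _ => ?_
    rw [coeff_brauer, coeff_brauer, if_pos y.2]
    refine memLocalIdeal_mul_right (h0 _ y.2) ?_
    split_ifs
    · exact hb.2 _
    · exact memLocalRing_zero
  have h3 := memLocalIdeal_add h1 h2
  simpa using h3

open Classical in
/-- The sum over `p`-elements of a central element times `g⁻¹`, `g ∈ C_G(D)`. -/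
theorem memLocalIdeal_pSum_of_centralizer (hM : IsPModular p M) {D : Subgroup G} (hD : IsPGroup p D)
    {w : MonoidAlgebra ℂ G} (hw : w ∈ localCenter G M) {g : G} (hg : g ∈ Subgroup.centralizer (D : Set G))
    (h0 : ∀ y ∈ Subgroup.centralizer (D : Set G), MemLocalIdeal M (w.coeff y)) :
    MemLocalIdeal M (pSum p (w * MonoidAlgebra.single g⁻¹ 1)) := by
  haveI hchar : CharP (localRing M ⧸ localIdeal M) p := charP_residue hM
  have hcoef : ∀ u, (w * MonoidAlgebra.single g⁻¹ 1).coeff u = w.coeff (u * g) := by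
    intro u
    rw [Cfsg.Agent.Lib.Blocks.WeakOrth.coeff_mul_single_one, inv_inv]
  let W : G → localRing M := fun u => ⟨w.coeff (u * g), hw.2 _⟩
  have hW : ∀ u, ((W u : localRing M) : ℂ) = w.coeff (u * g) := fun _ => rfl
  have h1 : pSum p (w * MonoidAlgebra.single g⁻¹ 1) =
      ((∑ u : G, if ∃ k : ℕ, orderOf u = p ^ k then W u else 0 : localRing M) : ℂ) := by
    unfold pSum
    rw [AddSubmonoidClass.coe_finset_sum]
    refine Finset.sum_congr rfl fun u _ => ?_
    rw [hcoef]
    split_ifs
    · rfl
    · rfl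
  rw [h1, ← residue_eq_zero_iff, map_sum]
  -- splitting into the centralizer and the rest
  let T : Type u := {u : G // (∃ k : ℕ, orderOf u = p ^ k) ∧ u ∉ Subgroup.centralizer (D : Set G)}
  have hsplit : ∑ u : G, residue M (if ∃ k : ℕ, orderOf u = p ^ k then W u else 0) =
      ∑ u : T, residue M (W u.1) := by
    have h2 : ∀ u : G, residue M (if ∃ k : ℕ, orderOf u = p ^ k then W u else 0) =
        if (∃ k : ℕ, orderOf u = p ^ k) ∧ u ∉ Subgroup.centralizer (D : Set G) then residue M (W u) else 0 := by
      intro u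
      by_cases hu : ∃ k : ℕ, orderOf u = p ^ k
      · rw [if_pos hu]
        by_cases hu' : u ∈ Subgroup.centralizer (D : Set G)
        · rw [if_neg (fun h => h.2 hu'), residue_eq_zero_iff]
          apply h0
          exact Subgroup.mul_mem _ hu' hg
        · rw [if_pos ⟨hu, hu'⟩]
      · rw [if_neg hu, if_neg (fun h => hu h.1), map_zero]
    simp only [h2]
    rw [← Finset.sum_filter]
    exact Finset.sum_subtype _ (by simp) _
  rw [hsplit]
  have hact : ∀ (d : D) (u : T), (∃ k : ℕ, orderOf ((d : G) * u.1 * (d : G)⁻¹) = p ^ k) ∧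
      (d : G) * u.1 * (d : G)⁻¹ ∉ Subgroup.centralizer (D : Set G) := by
    intro d u
    refine ⟨?_, ?_⟩
    · rw [Cfsg.Agent.Lib.Blocks.Regular.orderOf_conj']
      exact u.2.1
    · intro hmem
      apply u.2.2
      have h3 := (Subgroup.mem_centralizer_iff.mp hmem) d d.2
      have h4 : u.1 = (d : G) * u.1 * (d : G)⁻¹ := by
        have h5 : (d : G) * ((d : G) * u.1 * (d : G)⁻¹) * (d : G)⁻¹ = (d : G) * u.1 * (d : G)⁻¹ := by
          rw [h3]
          group
        have := congrArg (fun v => (d : G)⁻¹ * v * (d : G)) h5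
        simpa [mul_assoc] using this.symm
      rw [h4]
      exact hmem
  let act : MulAction D T :=
    { smul := fun d u => ⟨(d : G) * u.1 * (d : G)⁻¹, hact d u⟩
      one_smul := fun u => Subtype.ext (by
        show ((1 : D) : G) * u.1 * ((1 : D) : G)⁻¹ = u.1
        simp)
      mul_smul := fun a b u => Subtype.ext (by
        show ((a * b : D) : G) * u.1 * ((a * b : D) : G)⁻¹ = (a : G) * ((b : G) * u.1 * (b : G)⁻¹) * (a : G)⁻¹
        simp only [Subgroup.coe_mul]
        group) }
  have := Cfsg.Agent.Lib.Blocks.PFixed.sum_eq_zero_of_no_fixed (F := localRing M ⧸ localIdeal M) (V := localRing M ⧸ localIdeal M)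
    (p := p) (P := D) (α := T) hD ?_ (fun u => residue M (W u.1)) ?_
  · exact this
  · intro u
    by_contra hcon
    push Not at hcon
    apply u.2.2
    rw [Subgroup.mem_centralizer_iff]
    intro d hd
    have h3 : (d : G) * u.1 * (d : G)⁻¹ = u.1 := congrArg Subtype.val (hcon ⟨d, hd⟩)
    rw [mul_inv_eq_iff_eq_mul] at h3
    exact h3
  · intro d u
    congr 1
    apply Subtype.ext
    have hgd : (d : G) * g * (d : G)⁻¹ = g := by
      have := (Subgroup.mem_centralizer_iff.mp hg) d d.2
      rw [this]
      group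
    show w.coeff (((d : G) * u.1 * (d : G)⁻¹) * g) = w.coeff (u.1 * g)
    have h4 : ((d : G) * u.1 * (d : G)⁻¹) * g = (d : G) * (u.1 * g) * (d : G)⁻¹ := by
      nth_rw 1 [← hgd]
      group
    rw [h4, hw.1]


/-- A block with the right defect, a central character of a class with Sylow `D` outside the local ideal: `D` is a
defect group of the block. -/
theorem isDefectGroup_of_centralChar (hM : IsPModular p M) {D : Subgroup G} {x : G} (χ : IrrCharacter G)
    (hD : ∃ S : Sylow p (Subgroup.centralizer ({x} : Set G)),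
      (S : Subgroup (Subgroup.centralizer ({x} : Set G))).map (Subgroup.centralizer ({x} : Set G)).subtype = D)
    (hχ : ¬ MemLocalIdeal M (centralChar (χ : G → ℂ) x))
    (hdef : Nat.card D = p ^ blockDefect p (blockOf M (χ : G → ℂ))) :
    IsDefectGroup p M (blockOf M (χ : G → ℂ)) D := by
  classical
  have hB : IsPBlock M (blockOf M (χ : G → ℂ)) := ⟨χ, rfl⟩
  obtain ⟨g₁, hg₁⟩ := exists_isDefectClass (M := M) hB
  obtain ⟨S₁⟩ : Nonempty (Sylow p (Subgroup.centralizer ({g₁} : Set G))) := inferInstance
  have hS₁ : IsDefectGroup p M (blockOf M (χ : G → ℂ)) ((S₁ : Subgroup _).map (Subgroup.centralizer ({g₁} : Set G)).subtype) :=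
    ⟨g₁, hg₁, S₁, rfl⟩
  obtain ⟨y, Q, hle⟩ := (Cfsg.Agent.Lib.Blocks.Defect.min_max hM _ hB g₁ hg₁ S₁ x).2
    ⟨χ, mem_blockOf_self χ, hχ⟩
  obtain ⟨S', rfl⟩ := hD
  -- `Q` and `S'` are conjugate
  obtain ⟨c, hc⟩ := MulAction.exists_smul_eq (Subgroup.centralizer ({x} : Set G)) Q S'
  have hcard1 : Nat.card ((S₁ : Subgroup _).map (Subgroup.centralizer ({g₁} : Set G)).subtype) =
      p ^ blockDefect p (blockOf M (χ : G → ℂ)) := Cfsg.Agent.S0908.result p M hM _ hB _ hS₁
  have hS'Q : (S' : Subgroup (Subgroup.centralizer ({x} : Set G))) =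
      (Q : Subgroup (Subgroup.centralizer ({x} : Set G))).map (MulAut.conj c).toMonoidHom := by
    rw [← hc]
    rfl
  have hmap : (S' : Subgroup (Subgroup.centralizer ({x} : Set G))).map (Subgroup.centralizer ({x} : Set G)).subtype =
      ((Q : Subgroup (Subgroup.centralizer ({x} : Set G))).map (Subgroup.centralizer ({x} : Set G)).subtype).map
        (MulAut.conj (c : G)).toMonoidHom := by
    rw [hS'Q, Subgroup.map_map, Subgroup.map_map]
    rfl
  have hcardQ : Nat.card ((Q : Subgroup (Subgroup.centralizer ({x} : Set G))).map (Subgroup.centralizer ({x} : Set G)).subtype) =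
      p ^ blockDefect p (blockOf M (χ : G → ℂ)) := by
    rw [← hdef, hmap, Cfsg.Agent.S0916.card_map_conj]
  have heq : ((S₁ : Subgroup _).map (Subgroup.centralizer ({g₁} : Set G)).subtype).map (MulAut.conj y).toMonoidHom =
      (Q : Subgroup (Subgroup.centralizer ({x} : Set G))).map (Subgroup.centralizer ({x} : Set G)).subtype := by
    apply Subgroup.eq_of_le_of_card_ge hle
    rw [hcardQ, Cfsg.Agent.S0916.card_map_conj, hcard1]
  rw [hmap, ← heq]
  exact isDefectGroup_map_conj (isDefectGroup_map_conj hS₁ y) _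

/-- **Independence of `p`-separated class sums.** -/
theorem memLocalIdeal_of_separated (hM : IsPModular p M) {D : Subgroup G} {J : Type*} [Fintype J] (x : J → G)
    (hx : ∀ i j : J, IsConj (x i) (x j) → i = j)
    (hD : ∀ j, ∃ S : Sylow p (Subgroup.centralizer ({x j} : Set G)),
      (S : Subgroup (Subgroup.centralizer ({x j} : Set G))).map (Subgroup.centralizer ({x j} : Set G)).subtype = D)
    (hsep : ∀ i j : J, ∀ g h : G, IsConj (x i) g → IsConj (x j) h → ∀ k : ℕ, 0 < k → orderOf (g * h⁻¹) ≠ p ^ k)
    (c : J → ℂ) (hc : ∀ j, MemLocalRing M (c j))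
    (h0 : ∀ χ : IrrCharacter G, IsDefectGroup p M (blockOf M (χ : G → ℂ)) D →
      MemLocalIdeal M (omega (χ : G → ℂ) (∑ j, c j • classSum (x j)))) (i : J) :
    MemLocalIdeal M (c i) := by
  classical
  set z : MonoidAlgebra ℂ G := ∑ j, c j • classSum (x j) with hz
  have hzc : z ∈ localCenter G M := by
    rw [hz]
    exact (localCenter G M).sum_mem fun j _ => smul_mem_localCenter (hc j) (classSum_mem_localCenter _)
  have hcoef : ∀ h, z.coeff h = ∑ j, c j * (classSum (x j)).coeff h := by
    intro h
    rw [hz, MonoidAlgebra.coeff_sum, Finsupp.finsetSum_apply]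
    refine Finset.sum_congr rfl fun j _ => ?_
    rw [MonoidAlgebra.coeff_smul_apply, smul_eq_mul]
  set g := x i with hg
  obtain ⟨Si, hSi⟩ := hD i
  have hDp : IsPGroup p D := by
    rw [← hSi]
    exact Si.isPGroup'.map _
  have hDcent : ∀ j, D ≤ Subgroup.centralizer ({x j} : Set G) := by
    intro j
    obtain ⟨S, hS⟩ := hD j
    rw [← hS]
    exact Cfsg.Agent.Lib.Blocks.Defect.sylow_map_le S
  have hgC : g ∈ Subgroup.centralizer (D : Set G) :=
    Cfsg.Agent.Lib.Blocks.Defect.le_centralizer_singleton_iff.mp (hDcent i)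
  -- the sum over `p`-elements
  have hsum : pSum p (z * MonoidAlgebra.single g⁻¹ 1) = c i := by
    unfold pSum
    rw [Finset.sum_eq_single (1 : G)]
    · rw [if_pos ⟨0, by simp⟩, Cfsg.Agent.Lib.Blocks.WeakOrth.coeff_mul_single_one, inv_inv, one_mul, hcoef,
        Finset.sum_eq_single i]
      · rw [coeff_classSum_of_isConj (IsConj.refl _), mul_one]
      · intro j _ hj
        rw [coeff_classSum_of_not_isConj, mul_zero]
        intro hconj
        exact hj (hx _ _ hconj)
      · simp
    · intro u _ hu
      split_ifs with hup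
      · obtain ⟨k, hk⟩ := hup
        rw [Cfsg.Agent.Lib.Blocks.WeakOrth.coeff_mul_single_one, inv_inv, hcoef]
        refine Finset.sum_eq_zero fun j _ => ?_
        rw [coeff_classSum_of_not_isConj, mul_zero]
        intro hconj
        have hk0 : 0 < k := by
          rcases Nat.eq_zero_or_pos k with rfl | h
          · exact absurd (orderOf_eq_one_iff.mp (by simpa using hk)) hu
          · exact h
        apply hsep j i _ _ hconj (IsConj.refl _) k hk0
        rw [mul_inv_cancel_right, hk]
      · rfl
    · simp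
  -- the set of characters where `z` survives
  set A : Set (IrrCharacter G) := {χ | ¬ MemLocalIdeal M (omega (χ : G → ℂ) z)} with hA
  have hAclosed : ∀ χ ∈ A, blockOf M (χ : G → ℂ) ⊆ A := by
    intro χ hχ ψ hψ hψ'
    apply hχ
    have := memLocalIdeal_omega_sub (M := M) χ.2 ψ.2 hψ hzc
    simpa using memLocalIdeal_add this hψ'
  set e := blockElt A with he
  have hec : e ∈ localCenter G M := blockElt_mem_localCenter_of_closed hAclosed
  -- `e` vanishes mod `M` on `C_G(D)`
  have he0 : ∀ y ∈ Subgroup.centralizer (D : Set G), MemLocalIdeal M (e.coeff y) := by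
    intro y hy
    by_contra hcon
    rw [he, coeff_blockElt] at hcon
    obtain ⟨χ, hχ, hχ'⟩ := exists_block_of_closed hAclosed hcon
    have hBχ : IsPBlock M (blockOf M (χ : G → ℂ)) := ⟨χ, rfl⟩
    have h1 := (Cfsg.Agent.Lib.Blocks.DefectSupport.support_blockCoeff hM hBχ hχ').2
    -- a class seen by `χ`
    obtain ⟨j, hj⟩ : ∃ j, ¬ MemLocalIdeal M (centralChar (χ : G → ℂ) (x j)) := by
      by_contra hcon2
      push Not at hcon2
      apply hχ
      show MemLocalIdeal M (omega (χ : G → ℂ) z)
      rw [hz, omega_sum]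
      refine memLocalIdeal_sum _ _ fun j _ => ?_
      rw [omega_smul, omega_classSum (isClassFunction_of_irr χ.2)]
      exact memLocalIdeal_mul_left (hc j) (hcon2 j)
    have h2 : blockDefect p (blockOf M (χ : G → ℂ)) ≤
        (Nat.card (Subgroup.centralizer ({x j} : Set G))).factorization p := by
      by_contra hlt
      exact hj (Cfsg.Agent.Lib.Blocks.DefectCount.memLocalIdeal_centralChar_of_defect_lt hM hBχ
        (mem_blockOf_self χ) (x j) (not_le.mp hlt))
    have hcardj : Nat.card D = p ^ (Nat.card (Subgroup.centralizer ({x j} : Set G))).factorization p :=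
      ((Cfsg.Agent.S0916.exists_sylow_map_iff (p := p)).mp (hD j)).2
    have h3 : Nat.card D ∣ Nat.card (Subgroup.centralizer ({y} : Set G)) :=
      Subgroup.card_dvd_of_le (Cfsg.Agent.Lib.Blocks.Defect.le_centralizer_singleton_iff.mpr hy)
    rw [hcardj] at h3
    have h4 := ((Fact.out : p.Prime).pow_dvd_iff_le_factorization Nat.card_pos.ne').mp h3
    have h5 : blockDefect p (blockOf M (χ : G → ℂ)) =
        (Nat.card (Subgroup.centralizer ({x j} : Set G))).factorization p := by omega
    apply hχ
    exact h0 χ (isDefectGroup_of_centralChar hM χ (hD j) hj (by rw [h5, hcardj]))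
  have h1 : MemLocalIdeal M (pSum p ((e * z) * MonoidAlgebra.single g⁻¹ 1)) :=
    memLocalIdeal_pSum_of_centralizer hM hDp ((localCenter G M).mul_mem hec hzc) hgC
      (fun y hy => memLocalIdeal_coeff_mul_of_centralizer hM hDp hec hzc he0 hy)
  have h2 : MemLocalIdeal M (pSum p ((z - e * z) * MonoidAlgebra.single g⁻¹ 1)) := by
    refine memLocalIdeal_pSum_of_omega hM ((localCenter G M).sub_mem hzc ((localCenter G M).mul_mem hec hzc)) ?_ _
    intro ξ
    rw [omega_sub, omega_mul ξ.2 hec.1]
    by_cases hξ : ξ ∈ A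
    · rw [omega_blockElt_of_mem hξ]
      simpa using memLocalIdeal_zero (M := M)
    · rw [omega_blockElt_of_notMem hξ]
      simp only [zero_mul, sub_zero]
      exact not_not.mp hξ
  have h3 : (z - e * z) * MonoidAlgebra.single g⁻¹ 1 = z * MonoidAlgebra.single g⁻¹ 1 - (e * z) * MonoidAlgebra.single g⁻¹ 1 := sub_mul _ _ _
  rw [h3, pSum_sub, hsum] at h2
  simpa using memLocalIdeal_add h2 h1

/-- An injective matrix has an invertible maximal minor. -/
theorem exists_det_ne_zero_of_injective {k : Type*} [Field k] {I : Type*} [Fintype I] {r : ℕ}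
    (A : Matrix I (Fin r) k) (h : Function.Injective A.mulVecLin) :
    ∃ φ : Fin r → I, (Matrix.of fun i j => A (φ i) j).det ≠ 0 := by
  classical
  have hrank : A.rank = r := by
    unfold Matrix.rank
    simpa using LinearMap.finrank_range_of_inj h
  have hspan : Module.finrank k (Submodule.span k (Set.range A.row)) = r :=
    (Matrix.rank_eq_finrank_span_row A).symm.trans hrank
  obtain ⟨b, hbR, hbs, hbl⟩ := exists_linearIndependent k (Set.range A.row)
  letI : Fintype b := (LinearIndependent.setFinite hbl).fintype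
  have hcard : Fintype.card b = r := by
    have h1 := finrank_span_eq_card hbl
    rw [Subtype.range_coe, hbs, hspan] at h1
    exact h1.symm
  let e : Fin r ≃ b := (Fintype.equivFinOfCardEq hcard).symm
  choose φ hφ using fun i : Fin r => hbR (e i).2
  refine ⟨φ, ?_⟩
  have hli : LinearIndependent k (Matrix.of fun i j => A (φ i) j).row := by
    have h1 : (Matrix.of fun i j => A (φ i) j).row = fun i => ((e i : b) : Fin r → k) := by
      funext i
      rw [← hφ i]
      rfl
    rw [h1]
    exact hbl.comp e e.injective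
  have hu := Matrix.linearIndependent_rows_iff_isUnit.mp hli
  exact ((Matrix.isUnit_iff_isUnit_det _).mp hu).ne_zero

end Cfsg.Agent.Lib.Blocks.ClassIndep2
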