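import Mathlib

/-!
# A combinatorial lemma on integer vectors

A family of `m` integer vectors `a i` of norm 2 with pairwise inner product 1, with a vector `b` of norm 3 having
inner product 1 with each `a i`, has a prescribed shape, provided that `m ≠ 2` and that there is one more
vector `D` having inner product 1 with everyone.
-/

set_option autoImplicit false

namespace Cfsg.Agent.Lib.Blocks.DihS

section Combi

variable {X : Type*} [DecidableEq X]

/-- Integer vectors of small norm have entries `0, ±1`. -/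
lemma small_norm (S : Finset X) (u : X → ℤ) (n : ℕ) (hn : n ≤ 3) (h : ∑ x ∈ S, u x ^ 2 = n) :
    (∀ x ∈ S, u x = 0 ∨ u x = 1 ∨ u x = -1) ∧ (S.filter (fun x => u x ≠ 0)).card = n := by
  have hval : ∀ x ∈ S, u x = 0 ∨ u x = 1 ∨ u x = -1 := by
    intro x hx
    have h1 : u x ^ 2 ≤ n := by
      rw [← h]
      exact Finset.single_le_sum (f := fun x => u x ^ 2) (fun i _ => sq_nonneg (u i)) hx
    have h1' : u x ^ 2 ≤ 3 := by
      have : (n : ℤ) ≤ 3 := by exact_mod_cast hn
      linarith
    have h2 : u x < 2 := by nlinarith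
    have h3 : -2 < u x := by nlinarith
    omega
  refine ⟨hval, ?_⟩
  have h2 : ∑ x ∈ S, u x ^ 2 = ∑ x ∈ S.filter (fun x => u x ≠ 0), 1 := by
    rw [Finset.sum_filter]
    refine Finset.sum_congr rfl fun x hx => ?_
    rcases hval x hx with h | h | h <;> simp [h]
  rw [h] at h2
  simp only [Finset.sum_const, nsmul_eq_mul, mul_one] at h2
  exact_mod_cast h2.symm

/-- A sum with one factor supported on two points. -/
lemma sum_two (S : Finset X) {w f : X} (hw : w ∈ S) (hf : f ∈ S) (hne : w ≠ f) (u v : X → ℤ)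
    (hu : ∀ x ∈ S, x ≠ w → x ≠ f → u x = 0) : ∑ x ∈ S, u x * v x = u w * v w + u f * v f := by
  have h1 : ({w, f} : Finset X) ⊆ S := by
    intro x hx
    rw [Finset.mem_insert, Finset.mem_singleton] at hx
    rcases hx with rfl | rfl <;> assumption
  rw [← Finset.sum_subset h1, Finset.sum_pair hne]
  intro x hx hx'
  rw [Finset.mem_insert, Finset.mem_singleton, not_or] at hx'
  rw [hu x hx hx'.1 hx'.2, zero_mul]

/-- The shape of a vector of norm 2 having inner product one with a vector of norm 3. -/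
lemma two_support (S : Finset X) (a b : X → ℤ) (ha : ∑ x ∈ S, a x ^ 2 = 2) (hb : ∑ x ∈ S, b x ^ 2 = 3)
    (hab : ∑ x ∈ S, a x * b x = 1) :
    ∃ w f, w ∈ S ∧ f ∈ S ∧ w ≠ f ∧ a w = b w ∧ (b w = 1 ∨ b w = -1) ∧ b f = 0 ∧ (a f = 1 ∨ a f = -1) ∧
      ∀ x ∈ S, x ≠ w → x ≠ f → a x = 0 := by
  obtain ⟨hva, hca⟩ := small_norm S a 2 (by norm_num) (by simpa using ha)
  obtain ⟨hvb, -⟩ := small_norm S b 3 (by norm_num) (by simpa using hb)
  obtain ⟨p, q, hpq, hsupp⟩ := Finset.card_eq_two.mp hca
  have hp : p ∈ S.filter (fun x => a x ≠ 0) := by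
    rw [hsupp]
    simp
  have hq : q ∈ S.filter (fun x => a x ≠ 0) := by
    rw [hsupp]
    simp
  obtain ⟨hpS, hp0⟩ := Finset.mem_filter.mp hp
  obtain ⟨hqS, hq0⟩ := Finset.mem_filter.mp hq
  have hzero : ∀ x ∈ S, x ≠ p → x ≠ q → a x = 0 := by
    intro x hx hxp hxq
    by_contra h0
    have : x ∈ S.filter (fun x => a x ≠ 0) := Finset.mem_filter.mpr ⟨hx, h0⟩
    rw [hsupp, Finset.mem_insert, Finset.mem_singleton] at this
    rcases this with h | h
    · exact hxp h
    · exact hxq h
  have hsum := sum_two S hpS hqS hpq a b hzero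
  rw [hab] at hsum
  have hap : a p = 1 ∨ a p = -1 := by
    rcases hva p hpS with h | h | h
    · exact absurd h hp0
    · exact Or.inl h
    · exact Or.inr h
  have haq : a q = 1 ∨ a q = -1 := by
    rcases hva q hqS with h | h | h
    · exact absurd h hq0
    · exact Or.inl h
    · exact Or.inr h
  have hcase : (a p = b p ∧ (b p = 1 ∨ b p = -1) ∧ b q = 0) ∨ (a q = b q ∧ (b q = 1 ∨ b q = -1) ∧ b p = 0) := by
    rcases hap with h1 | h1 <;> rcases haq with h2 | h2 <;> rcases hvb p hpS with h3 | h3 | h3 <;>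
      rcases hvb q hqS with h4 | h4 | h4 <;> rw [h1, h2, h3, h4] at hsum <;> first
        | omega
        | (left; rw [h1, h3, h4]; norm_num)
        | (right; rw [h2, h3, h4]; norm_num)
  rcases hcase with ⟨h1, h2, h3⟩ | ⟨h1, h2, h3⟩
  · exact ⟨p, q, hpS, hqS, hpq, h1, h2, h3, haq, hzero⟩
  · exact ⟨q, p, hqS, hpS, hpq.symm, h1, h2, h3, hap, fun x hx h4 h5 => hzero x hx h5 h4⟩

/-- The combinatorial heart of the determination of the principal block. -/
theorem main_combi (S : Finset X) {m : ℕ} (hm0 : 0 < m) (hm2 : m ≠ 2) (a : Fin m → X → ℤ) (b D : X → ℤ)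
    (h1 : ∀ i, ∑ x ∈ S, a i x ^ 2 = 2) (h2 : ∀ i j, i ≠ j → ∑ x ∈ S, a i x * a j x = 1)
    (h3 : ∑ x ∈ S, b x ^ 2 = 3) (h4 : ∀ i, ∑ x ∈ S, a i x * b x = 1) (h5 : ∀ i, ∑ x ∈ S, a i x * D x = 1)
    (h6 : ∑ x ∈ S, b x * D x = 1) :
    ∃ (w r s : X) (f : Fin m → X), w ∈ S ∧ r ∈ S ∧ s ∈ S ∧ (∀ i, f i ∈ S) ∧ w ≠ r ∧ w ≠ s ∧ r ≠ s ∧
      Function.Injective f ∧ (∀ i, f i ≠ w ∧ f i ≠ r ∧ f i ≠ s) ∧
      (b w = 1 ∨ b w = -1) ∧ (b r = 1 ∨ b r = -1) ∧ (b s = 1 ∨ b s = -1) ∧ (∀ i, a i w = b w) ∧
      (∀ i, a i (f i) = 1 ∨ a i (f i) = -1) ∧ (∀ i, ∀ x ∈ S, x ≠ w → x ≠ f i → a i x = 0) ∧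
      (∀ x ∈ S, x ≠ w → x ≠ r → x ≠ s → b x = 0) := by
  have hsupp := fun i => two_support S (a i) b (h1 i) h3 (h4 i)
  choose w f hwS hfS hwf hawb hbw hbf haf hzero using hsupp
  obtain ⟨hvb, hcb⟩ := small_norm S b 3 (by norm_num) (by simpa using h3)
  -- the relations between the supports
  have hrel : ∀ i j, i ≠ j → (w i = w j ∧ f i ≠ f j) ∨ (w i ≠ w j ∧ f i = f j ∧ a i (f i) = a j (f j)) := by
    intro i j hij
    have hsum := sum_two S (hwS i) (hfS i) (hwf i) (a i) (a j) (hzero i)
    rw [h2 i j hij] at hsum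
    have hwfne : ∀ i j, w i ≠ f j := by
      intro i j he
      have h7 := hbf j
      rw [← he] at h7
      rcases hbw i with h8 | h8 <;> omega
    have haw : a j (w i) = if w i = w j then b (w j) else 0 := by
      split_ifs with he
      · rw [he, hawb]
      · exact hzero j _ (hwS i) he (hwfne i j)
    have haf' : a j (f i) = if f i = f j then a j (f j) else 0 := by
      split_ifs with he
      · rw [he]
      · exact hzero j _ (hfS i) (hwfne j i).symm he
    rw [haw, haf', hawb i] at hsum
    by_cases e1 : w i = w j <;> by_cases e2 : f i = f j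
    · exfalso
      rw [if_pos e1, if_pos e2, ← e1] at hsum
      have h8 : a i (f i) * a j (f j) = 0 := by
        rcases hbw i with h9 | h9 <;> rw [h9] at hsum <;> omega
      rcases haf i with h9 | h9 <;> rcases haf j with h10 | h10 <;> rw [h9, h10] at h8 <;> omega
    · left
      exact ⟨e1, e2⟩
    · right
      refine ⟨e1, e2, ?_⟩
      rw [if_neg e1, if_pos e2] at hsum
      rcases haf i with h9 | h9 <;> rcases haf j with h10 | h10 <;> rw [h9, h10] at hsum ⊢ <;> omega
    · exfalso
      rw [if_neg e1, if_neg e2] at hsum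
      omega
  by_cases hw : ∀ i j, w i = w j
  · -- all `w i` coincide
    set i₀ : Fin m := ⟨0, hm0⟩ with hi₀
    set w₀ := w i₀ with hw₀
    have hfinj : Function.Injective f := by
      intro i j he
      by_contra hij
      rcases hrel i j hij with h7 | h7
      · exact h7.2 he
      · exact h7.1 (hw i j)
    have hw₀mem : w₀ ∈ S.filter (fun x => b x ≠ 0) := by
      refine Finset.mem_filter.mpr ⟨hwS i₀, ?_⟩
      rcases hbw i₀ with h7 | h7 <;> rw [hw₀, h7] <;> norm_num
    have hcard : ((S.filter (fun x => b x ≠ 0)).erase w₀).card = 2 := by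
      rw [Finset.card_erase_of_mem hw₀mem, hcb]
    obtain ⟨r, s, hrs, hrs'⟩ := Finset.card_eq_two.mp hcard
    have hr : r ∈ (S.filter (fun x => b x ≠ 0)).erase w₀ := by
      rw [hrs']
      simp
    have hs : s ∈ (S.filter (fun x => b x ≠ 0)).erase w₀ := by
      rw [hrs']
      simp
    obtain ⟨hr1, hr2⟩ := Finset.mem_erase.mp hr
    obtain ⟨hs1, hs2⟩ := Finset.mem_erase.mp hs
    obtain ⟨hrS, hrb⟩ := Finset.mem_filter.mp hr2
    obtain ⟨hsS, hsb⟩ := Finset.mem_filter.mp hs2
    have hunit : ∀ x ∈ S, b x ≠ 0 → (b x = 1 ∨ b x = -1) := by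
      intro x hx h0
      rcases hvb x hx with h7 | h7 | h7
      · exact absurd h7 h0
      · exact Or.inl h7
      · exact Or.inr h7
    refine ⟨w₀, r, s, f, hwS i₀, hrS, hsS, hfS, hr1.symm, hs1.symm, hrs, hfinj, ?_, hbw i₀, hunit r hrS hrb,
      hunit s hsS hsb, ?_, haf, ?_, ?_⟩
    · intro i
      have h0 := hbf i
      refine ⟨?_, ?_, ?_⟩
      · intro he
        rw [he] at h0
        exact (Finset.mem_filter.mp hw₀mem).2 h0
      · intro he
        rw [he] at h0
        exact hrb h0
      · intro he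
        rw [he] at h0
        exact hsb h0
    · intro i
      rw [hw₀, hw i₀ i]
      exact hawb i
    · intro i x hx hxw hxf
      apply hzero i x hx _ hxf
      rw [hw i i₀]
      exact hxw
    · intro x hx hxw hxr hxs
      by_contra h0
      have h7 : x ∈ (S.filter (fun x => b x ≠ 0)).erase w₀ :=
        Finset.mem_erase.mpr ⟨hxw, Finset.mem_filter.mpr ⟨hx, h0⟩⟩
      rw [hrs', Finset.mem_insert, Finset.mem_singleton] at h7
      rcases h7 with h7 | h7
      · exact hxr h7
      · exact hxs h7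
  · -- the impossible case
    exfalso
    push Not at hw
    obtain ⟨i, j, hij⟩ := hw
    have hne : i ≠ j := fun he => hij (by rw [he])
    have hall : ∀ ν, f ν = f i ∧ a ν (f ν) = a i (f i) := by
      intro ν
      by_cases e1 : ν = i
      · rw [e1]
        exact ⟨rfl, rfl⟩
      rcases hrel ν i e1 with h7 | h7
      · by_cases e2 : ν = j
        · exfalso
          rw [e2] at h7
          exact hij h7.1.symm
        · rcases hrel ν j e2 with h8 | h8
          · exact absurd (h7.1.symm.trans h8.1) hij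
          · exfalso
            apply h7.2
            rw [h8.2.1]
            rcases hrel i j hne with h9 | h9
            · exact absurd h9.1 hij
            · exact h9.2.1.symm
      · exact ⟨h7.2.1, h7.2.2⟩
    have hwinj : Function.Injective w := by
      intro ν μ he
      by_contra hνμ
      rcases hrel ν μ hνμ with h7 | h7
      · exact h7.2 ((hall ν).1.trans (hall μ).1.symm)
      · exact h7.1 he
    have himg : Finset.univ.image w ⊆ S.filter (fun x => b x ≠ 0) := by
      intro x hx
      obtain ⟨ν, -, rfl⟩ := Finset.mem_image.mp hx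
      refine Finset.mem_filter.mpr ⟨hwS ν, ?_⟩
      rcases hbw ν with h7 | h7 <;> rw [h7] <;> norm_num
    have hcardimg : (Finset.univ.image w).card = m := by
      rw [Finset.card_image_of_injective _ hwinj]
      simp
    have hle : m ≤ 3 := by
      rw [← hcardimg, ← hcb]
      exact Finset.card_le_card himg
    have hm2' : 2 ≤ m := by
      have h7 : 2 ≤ Fintype.card (Fin m) := by
        have := Fintype.one_lt_card_iff.mpr ⟨i, j, hne⟩
        omega
      simpa using h7
    have hm3 : m = 3 := by omega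
    have himgeq : Finset.univ.image w = S.filter (fun x => b x ≠ 0) := by
      apply Finset.eq_of_subset_of_card_le himg
      rw [hcardimg, hcb, hm3]
    have hsumb : ∑ x ∈ S, b x * D x = ∑ ν : Fin m, b (w ν) * D (w ν) := by
      rw [← Finset.sum_image (s := Finset.univ) (g := w) (f := fun x => b x * D x) (fun a _ c _ he => hwinj he), himgeq]
      symm
      apply Finset.sum_subset (Finset.filter_subset _ _)
      intro x hx hx'
      have : b x = 0 := by
        by_contra h0
        exact hx' (Finset.mem_filter.mpr ⟨hx, h0⟩)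
      rw [this, zero_mul]
    have hpt : ∀ ν, b (w ν) * D (w ν) = 1 - a i (f i) * D (f i) := by
      intro ν
      have h7 := sum_two S (hwS ν) (hfS ν) (hwf ν) (a ν) D (hzero ν)
      rw [h5 ν, hawb ν, (hall ν).2, (hall ν).1] at h7
      linarith
    rw [h6] at hsumb
    simp only [hpt] at hsumb
    rw [Finset.sum_const, Finset.card_univ, Fintype.card_fin, hm3] at hsumb
    simp only [nsmul_eq_mul] at hsumb
    push_cast at hsumb
    omega

end Combi

end Cfsg.Agent.Lib.Blocks.DihS
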