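import Mathlib
import Cfsg.Prelude.Def_Blocks
import Cfsg.Agent.Lib.Blocks.DihC
import Cfsg.Agent.Lib.Blocks.DihD

/-!
# Groups with dihedral Sylow 2-subgroups: the structure of the principal 2-block
-/

set_option autoImplicit false

namespace Cfsg.Agent.Lib.Blocks.DihS

open Cfsg Cfsg.Agent.Lib.Blocks.Sections Cfsg.Agent.Lib.Blocks.Principal Cfsg.Agent.Lib.Blocks.Local
open scoped ComplexConjugate

universe u

variable {G : Type u} [Group G] [Fintype G] {k : ℕ} {P : Sylow 2 G} {σ : G} {M : Ideal AlgInt} {ζ : ℂ}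

section Sums

variable {X : Type*} [DecidableEq X]

lemma sum_two_c (S : Finset X) {w f : X} (hw : w ∈ S) (hf : f ∈ S) (hne : w ≠ f) (u v : X → ℂ)
    (hu : ∀ x ∈ S, x ≠ w → x ≠ f → u x = 0) : ∑ x ∈ S, u x * v x = u w * v w + u f * v f := by
  have h1 : ({w, f} : Finset X) ⊆ S := by
    intro x hx
    rw [Finset.mem_insert, Finset.mem_singleton] at hx
    rcases hx with rfl | rfl <;> assumption
  rw [← Finset.sum_subset h1, Finset.sum_pair hne]
  intro x hx hx'
  rw [Finset.mem_insert, Finset.mem_singleton, not_or] at hx'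
  rw [hu x hx hx'.1 hx'.2, zero_mul]

lemma sum_three_c (S : Finset X) {w r s : X} (hw : w ∈ S) (hr : r ∈ S) (hs : s ∈ S) (hwr : w ≠ r) (hws : w ≠ s)
    (hrs : r ≠ s) (u v : X → ℂ) (hu : ∀ x ∈ S, x ≠ w → x ≠ r → x ≠ s → u x = 0) :
    ∑ x ∈ S, u x * v x = u w * v w + u r * v r + u s * v s := by
  have h1 : ({w, r, s} : Finset X) ⊆ S := by
    intro x hx
    rw [Finset.mem_insert, Finset.mem_insert, Finset.mem_singleton] at hx
    rcases hx with rfl | rfl | rfl <;> assumption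
  rw [← Finset.sum_subset h1, Finset.sum_insert (by simp [hwr, hws]), Finset.sum_pair hrs, add_assoc]
  intro x hx hx'
  rw [Finset.mem_insert, Finset.mem_insert, Finset.mem_singleton, not_or, not_or] at hx'
  rw [hu x hx hx'.1 hx'.2.1 hx'.2.2, zero_mul]

end Sums

namespace DSig

/-- The main theorem, with the number `m = 2^(k-1) - 1` as a parameter. -/
theorem main_aux (h : DSig G k P σ) (hM : IsPModular 2 M) (hζ : IsPrimitiveRoot ζ (2 ^ k)) {m : ℕ}
    (hm : 2 ^ (k - 1) = m + 1) :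
    (TB M G).card = m + 4 ∧ ∃ (χ₁ χ₂ χ₃ : IrrCharacter G) (χ' : Fin m → IrrCharacter G) (δ₁ δ₂ δ₃ : ℤ),
      (δ₁ = 1 ∨ δ₁ = -1) ∧ (δ₂ = 1 ∨ δ₂ = -1) ∧ (δ₃ = 1 ∨ δ₃ = -1) ∧ Function.Injective χ' ∧
      χ₁ ∈ (TB M G).erase (trivChar G) ∧ χ₂ ∈ (TB M G).erase (trivChar G) ∧ χ₃ ∈ (TB M G).erase (trivChar G) ∧
      χ₁ ≠ χ₂ ∧ χ₁ ≠ χ₃ ∧ χ₂ ≠ χ₃ ∧
      (∀ j, χ' j ≠ χ₁ ∧ χ' j ≠ χ₂ ∧ χ' j ≠ χ₃ ∧ χ' j ∈ (TB M G).erase (trivChar G)) ∧
      (∀ χ ∈ TB M G, χ = trivChar G ∨ χ = χ₁ ∨ χ = χ₂ ∨ χ = χ₃ ∨ ∃ j, χ = χ' j) ∧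
      (∀ l : ℕ, 0 < l → l < 2 ^ k → (χ₁ : G → ℂ) (σ ^ l) = δ₁ ∧ (χ₂ : G → ℂ) (σ ^ l) = δ₂ * (-1) ^ (l + 1) ∧
        (χ₃ : G → ℂ) (σ ^ l) = δ₃ * (-1) ^ (l + 1) ∧ ∀ j : Fin m, (χ' j : G → ℂ) (σ ^ l) =
          δ₁ * (ζ ^ (((j : ℕ) + 1) * l) + (ζ ^ (((j : ℕ) + 1) * l))⁻¹)) ∧
      ∀ ρ : G, Odd (orderOf ρ) → ∀ j : Fin m, 1 + δ₁ * (χ₁ : G → ℂ) ρ = -δ₂ * (χ₂ : G → ℂ) ρ - δ₃ * (χ₃ : G → ℂ) ρ ∧
        1 + δ₁ * (χ₁ : G → ℂ) ρ = δ₁ * (χ' j : G → ℂ) ρ := by
  classical
  haveI hMp : M.IsPrime := isPrime_of_isPModular hM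
  have hk := h.hk
  have hmul := h.two_mul_half
  have hN : 2 ^ k = 2 * (m + 1) := by rw [hmul, hm]
  have hm0 : 0 < m := by
    have h1 : 2 ^ (k - 1) = 2 * 2 ^ (k - 2) := by
      rw [← pow_succ']
      congr 1
      omega
    have h2 : 0 < 2 ^ (k - 2) := by positivity
    omega
  have hm2 : m ≠ 2 := by
    intro h2
    have h1 : 2 ^ (k - 1) = 2 * 2 ^ (k - 2) := by
      rw [← pow_succ']
      congr 1
      omega
    omega
  set T := TB M G with hT
  have h1T : trivChar G ∈ T := Finset.mem_filter.mpr ⟨Finset.mem_univ _, trivChar_mem_principalBlock⟩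
  set S := T.erase (trivChar G) with hS
  choose cz hcz using fun (κ : ℕ) (χ : IrrCharacter G) => h.cc_int hζ κ χ
  have hcz1 : ∀ κ, 1 ≤ κ → κ ≤ m + 1 → cz κ (trivChar G) = -1 := by
    intro κ h1 h2
    have h3 := h.cc_triv hζ (κ := κ) (fun hd => by
      have := Nat.le_of_dvd (by omega) hd
      omega)
    rw [hcz] at h3
    exact_mod_cast h3
  have hgram : ∀ κ κ', 1 ≤ κ → κ ≤ m + 1 → 1 ≤ κ' → κ' ≤ m + 1 → ∑ x ∈ S, cz κ x * cz κ' x =
      1 + (if κ = κ' then 1 else 0) + (if κ = m + 1 ∧ κ' = m + 1 then 1 else 0) := by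
    intro κ κ' h1 h2 h1' h2'
    have h3 := h.gram hζ hM h1 (by omega) h1' (by omega)
    simp only [hcz] at h3
    rw [hm] at h3
    have h4 := Finset.add_sum_erase T (fun x => cz κ x * cz κ' x) h1T
    simp only [hcz1 κ h1 h2, hcz1 κ' h1' h2'] at h4
    have h5 : ∑ x ∈ T, cz κ x * cz κ' x = 2 + (if κ = κ' then 1 else 0) + (if κ = m + 1 ∧ κ' = m + 1 then 1 else 0) := by
      have h6 : ((∑ x ∈ T, cz κ x * cz κ' x : ℤ) : ℂ) =
          ((2 + (if κ = κ' then 1 else 0) + (if κ = m + 1 ∧ κ' = m + 1 then 1 else 0) : ℤ) : ℂ) := by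
        push_cast
        rw [h3]
      exact_mod_cast h6
    rw [h5] at h4
    linarith
  have hodd : ∀ κ, 1 ≤ κ → κ ≤ m + 1 → ∀ ρ : G, Odd (orderOf ρ) → ∑ x ∈ S, (cz κ x : ℂ) * (x : G → ℂ) ρ = 1 := by
    intro κ h1 h2 ρ hρ
    have h3 := h.sum_cc_odd hζ hM κ hρ
    simp only [hcz] at h3
    have h4 := Finset.add_sum_erase T (fun x => (cz κ x : ℂ) * (x : G → ℂ) ρ) h1T
    simp only [hcz1 κ h1 h2] at h4
    rw [h3] at h4
    simp only [coe_trivChar] at h4
    push_cast at h4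
    linear_combination h4
  -- degrees
  set D : IrrCharacter G → ℤ := fun x => (charDegree (x : G → ℂ) : ℤ) with hD
  have hDc : ∀ x : IrrCharacter G, (x : G → ℂ) 1 = (D x : ℂ) := by
    intro x
    have h1 := Cfsg.Agent.Lib.Char.Values.IsCharacter.charDegree_cast
      (Cfsg.Agent.Lib.Char.Basic.isCharacter_of_isIrrCharacter x.2)
    rw [← h1]
    simp [hD]
  have hDpos : ∀ x, 0 < D x := by
    intro x
    obtain ⟨n, hn, h1⟩ := Cfsg.Agent.Lib.Char.Ortho.irr_degree_pos x.2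
    rw [hDc] at h1
    have h2 : D x = n := by exact_mod_cast h1
    rw [h2]
    exact_mod_cast hn
  have hdeg : ∀ κ, 1 ≤ κ → κ ≤ m + 1 → ∑ x ∈ S, cz κ x * D x = 1 := by
    intro κ h1 h2
    have h3 := hodd κ h1 h2 1 (by simp)
    simp only [hDc] at h3
    exact_mod_cast h3
  -- the combinatorics
  set a : Fin m → IrrCharacter G → ℤ := fun i x => cz ((i : ℕ) + 1) x with ha
  set b : IrrCharacter G → ℤ := cz (m + 1) with hb
  obtain ⟨w, r, s, f, hwS, hrS, hsS, hfS, hwr, hws, hrs, hfinj, hfne, hbw, hbr, hbs, haw, haf, hazero, hbzero⟩ :=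
    main_combi S hm0 hm2 a b D
      (fun i => by
        have := hgram _ _ (by omega : 1 ≤ (i : ℕ) + 1) (by omega : (i : ℕ) + 1 ≤ m + 1) (by omega : 1 ≤ (i : ℕ) + 1)
          (by omega : (i : ℕ) + 1 ≤ m + 1)
        simp only [ha, pow_two]
        rw [this, if_pos rfl, if_neg (by omega)]
        norm_num)
      (fun i j hij => by
        have := hgram _ _ (by omega : 1 ≤ (i : ℕ) + 1) (by omega : (i : ℕ) + 1 ≤ m + 1) (by omega : 1 ≤ (j : ℕ) + 1)
          (by omega : (j : ℕ) + 1 ≤ m + 1)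
        simp only [ha]
        rw [this, if_neg (fun he => hij (Fin.ext (by omega))), if_neg (by omega)]
        norm_num)
      (by
        have := hgram (m + 1) (m + 1) (by omega) le_rfl (by omega) le_rfl
        simp only [hb, pow_two]
        rw [this, if_pos rfl, if_pos ⟨rfl, rfl⟩]
        norm_num)
      (fun i => by
        have := hgram _ _ (by omega : 1 ≤ (i : ℕ) + 1) (by omega : (i : ℕ) + 1 ≤ m + 1) (by omega : 1 ≤ m + 1) le_rfl
        simp only [ha, hb]
        rw [this, if_neg (by omega), if_neg (by omega)]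
        norm_num)
      (fun i => hdeg _ (by omega) (by omega))
      (hdeg _ (by omega) le_rfl)
  have hwT : w ≠ trivChar G ∧ w ∈ T := Finset.mem_erase.mp hwS
  have hrT : r ≠ trivChar G ∧ r ∈ T := Finset.mem_erase.mp hrS
  have hsT : s ≠ trivChar G ∧ s ∈ T := Finset.mem_erase.mp hsS
  have hfT : ∀ i, f i ≠ trivChar G ∧ f i ∈ T := fun i => Finset.mem_erase.mp (hfS i)
  -- values
  set ψ : Fin m → ℕ → ℂ := fun i l => ζ ^ (((i : ℕ) + 1) * l) + (ζ ^ (((i : ℕ) + 1) * l))⁻¹ with hψ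
  have hval : ∀ (x : IrrCharacter G) (l : ℕ), 0 < l → l < 2 ^ k →
      (x : G → ℂ) (σ ^ l) = ∑ i : Fin m, (a i x : ℂ) * ψ i l + (b x : ℂ) * (-1) ^ l := by
    intro x l h0 hl
    rw [h.value_formula hζ hm h0 hl x, Finset.sum_range, hm]
    simp only [hcz, ha, hb, hψ]
  have hroots : ∀ l : ℕ, 0 < l → l < 2 ^ k → 1 + ∑ i : Fin m, ψ i l + (-1) ^ l = (0 : ℂ) := by
    intro l h0 hl
    have h1 := h.sum_roots hζ hm h0 hl
    rwa [Finset.sum_range] at h1
  have hbfz : ∀ i, b (f i) = 0 := fun i =>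
    hbzero _ (hfS i) (hfne i).1 (hfne i).2.1 (hfne i).2.2
  have harz : ∀ i, a i r = 0 := fun i => hazero i r hrS hwr.symm (hfne i).2.1.symm
  have hasz : ∀ i, a i s = 0 := fun i => hazero i s hsS hws.symm (hfne i).2.2.symm
  have hafz : ∀ i j, i ≠ j → a i (f j) = 0 := fun i j hij =>
    hazero i (f j) (hfS j) (hfne j).1 (fun he => hij (hfinj he).symm)
  -- signs
  have hsign : ∀ j, a j (f j) = - b w := by
    intro j
    have h1 := hdeg ((j : ℕ) + 1) (by omega) (by omega)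
    have h2 := sum_two S hwS (hfS j) (hfne j).1.symm (a j) D (hazero j)
    have h3 : ∑ x ∈ S, a j x * D x = 1 := h1
    rw [h3, haw j] at h2
    have hp1 := hDpos w
    have hp2 := hDpos (f j)
    rcases hbw with h4 | h4 <;> rcases haf j with h5 | h5 <;> rw [h4, h5] at h2 <;> rw [h4, h5] <;> omega
  -- odd elements
  have hrelj : ∀ (ρ : G), Odd (orderOf ρ) → ∀ j : Fin m,
      (b w : ℂ) * (w : G → ℂ) ρ + (a j (f j) : ℂ) * (f j : G → ℂ) ρ = 1 := by
    intro ρ hρ j
    have h1 := hodd ((j : ℕ) + 1) (by omega) (by omega) ρ hρ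
    have h2 := sum_two_c S hwS (hfS j) (hfne j).1.symm (fun x => (a j x : ℂ)) (fun x => (x : G → ℂ) ρ) (by
      intro x hx hxw hxf
      rw [hazero j x hx hxw hxf]
      simp)
    have h3 : ∑ x ∈ S, (a j x : ℂ) * (x : G → ℂ) ρ = 1 := h1
    rw [h3] at h2
    rw [h2, haw j]
  have hrelb : ∀ (ρ : G), Odd (orderOf ρ) →
      (b w : ℂ) * (w : G → ℂ) ρ + (b r : ℂ) * (r : G → ℂ) ρ + (b s : ℂ) * (s : G → ℂ) ρ = 1 := by
    intro ρ hρ
    have h1 := hodd (m + 1) (by omega) le_rfl ρ hρ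
    have h2 := sum_three_c S hwS hrS hsS hwr hws hrs (fun x => (b x : ℂ)) (fun x => (x : G → ℂ) ρ) (by
      intro x hx hxw hxr hxs
      rw [hbzero x hx hxw hxr hxs]
      simp)
    have h3 : ∑ x ∈ S, (b x : ℂ) * (x : G → ℂ) ρ = 1 := h1
    rw [h3] at h2
    exact h2.symm
  have hunit : ∀ e : ℤ, (e = 1 ∨ e = -1) → (-e = 1 ∨ -e = -1) := by
    intro e he
    rcases he with he | he <;> omega
  have hmem : ∀ χ ∈ T, χ = trivChar G ∨ χ = w ∨ χ = r ∨ χ = s ∨ ∃ j, χ = f j := by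
    intro χ hχ
    by_contra hn
    push Not at hn
    obtain ⟨h1, h2, h3, h4, h5⟩ := hn
    have hχS : χ ∈ S := Finset.mem_erase.mpr ⟨h1, hχ⟩
    have h6 := hval χ (2 ^ (k - 1)) (by positivity) (by omega)
    have h7 : ∀ i, a i χ = 0 := fun i => hazero i χ hχS h2 (h5 i)
    have h8 : b χ = 0 := hbzero χ hχS h2 h3 h4
    simp only [h7, h8] at h6
    simp only [Int.cast_zero, zero_mul, Finset.sum_const_zero, add_zero] at h6
    exact h.J_ne_zero hM (Finset.mem_filter.mp hχ).2 h6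
  refine ⟨?_, w, r, s, f, -b w, -b r, -b s, hunit _ hbw, hunit _ hbr, hunit _ hbs, hfinj, hwS, hrS, hsS, hwr, hws, hrs,
    ?_, hmem, ?_, ?_⟩
  · -- the cardinality
    have hT' : T = insert (trivChar G) (insert w (insert r (insert s (Finset.univ.image f)))) := by
      ext χ
      simp only [Finset.mem_insert, Finset.mem_image, Finset.mem_univ, true_and]
      constructor
      · intro hχ
        rcases hmem χ hχ with h1 | h1 | h1 | h1 | ⟨j, h1⟩
        · exact Or.inl h1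
        · exact Or.inr (Or.inl h1)
        · exact Or.inr (Or.inr (Or.inl h1))
        · exact Or.inr (Or.inr (Or.inr (Or.inl h1)))
        · exact Or.inr (Or.inr (Or.inr (Or.inr ⟨j, h1.symm⟩)))
      · rintro (h1 | h1 | h1 | h1 | ⟨j, h1⟩)
        · rw [h1]
          exact h1T
        · rw [h1]
          exact hwT.2
        · rw [h1]
          exact hrT.2
        · rw [h1]
          exact hsT.2
        · rw [← h1]
          exact (hfT j).2
    rw [hT', Finset.card_insert_of_notMem, Finset.card_insert_of_notMem, Finset.card_insert_of_notMem,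
      Finset.card_insert_of_notMem, Finset.card_image_of_injective _ hfinj]
    · simp
    · simp only [Finset.mem_image, Finset.mem_univ, true_and, not_exists]
      exact fun j he => (hfne j).2.2 he
    · simp only [Finset.mem_insert, Finset.mem_image, Finset.mem_univ, true_and, not_or, not_exists]
      exact ⟨hrs, fun j he => (hfne j).2.1 he⟩
    · simp only [Finset.mem_insert, Finset.mem_image, Finset.mem_univ, true_and, not_or, not_exists]
      exact ⟨hwr, hws, fun j he => (hfne j).1 he⟩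
    · simp only [Finset.mem_insert, Finset.mem_image, Finset.mem_univ, true_and, not_or, not_exists]
      exact ⟨hwT.1.symm, hrT.1.symm, hsT.1.symm, fun j he => (hfT j).1 he⟩
  · intro j
    exact ⟨(hfne j).1, (hfne j).2.1, (hfne j).2.2, hfS j⟩
  · intro l h0 hl
    have hsum : ∀ c : ℂ, c * (∑ i : Fin m, ψ i l + (-1) ^ l) = - c := by
      intro c
      have := hroots l h0 hl
      linear_combination c * this
    refine ⟨?_, ?_, ?_, ?_⟩
    · rw [hval w l h0 hl]
      simp only [haw]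
      rw [← Finset.mul_sum, ← mul_add, hsum]
      push_cast
      ring
    · rw [hval r l h0 hl]
      simp only [harz]
      simp only [Int.cast_zero, zero_mul, Finset.sum_const_zero, zero_add]
      push_cast
      ring
    · rw [hval s l h0 hl]
      simp only [hasz]
      simp only [Int.cast_zero, zero_mul, Finset.sum_const_zero, zero_add]
      push_cast
      ring
    · intro j
      rw [hval (f j) l h0 hl, hbfz j]
      simp only [Int.cast_zero, zero_mul, add_zero]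
      rw [Finset.sum_eq_single j (fun i _ hij => by rw [hafz i j hij]; simp) (by simp), hsign j]
  · intro ρ hρ j
    have h1 := hrelj ρ hρ j
    have h2 := hrelb ρ hρ
    rw [hsign j] at h1
    push_cast at h1 ⊢
    constructor
    · linear_combination -h2
    · linear_combination -h1

end DSig

end Cfsg.Agent.Lib.Blocks.DihS
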