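import Mathlib
import Cfsg.Prelude.Def_Blocks
import Cfsg.Agent.Lib.Blocks.DihG

/-!
# Groups with dihedral Sylow 2-subgroups and one class of involutions: the number of involutions
commuting with `J`, and the value of the sum of a class function
-/

set_option autoImplicit false

namespace Cfsg.Agent.Lib.Blocks.DihS

open Cfsg Cfsg.Agent.Lib.Blocks.Sections
open Cfsg.Agent.Lib.Char.Klein4 (cls mem_cls)

universe u

section Cls

variable {G : Type u} [Group G] [Fintype G]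

/-- The size of a class under a centralizer. -/
theorem card_cls_pair {u a : G} (hc : a * u = u * a) :
    (cls u a).card * Nat.card (Subgroup.centralizer ({u, a} : Set G)) = Nat.card (Cen u) := by
  classical
  have haC : a ∈ Cen u := Subgroup.mem_centralizer_singleton_iff.mpr hc
  let a' : Cen u := ⟨a, haC⟩
  letI : Fintype (Cen u) := Fintype.ofFinite _
  have hclass : cls u a = (Cfsg.Agent.Lib.Char.Integrality.classFinset a').image Subtype.val := by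
    ext t
    rw [mem_cls, Finset.mem_image]
    constructor
    · rintro ⟨g, hg, rfl⟩
      have hgC : g ∈ Cen u := Subgroup.mem_centralizer_singleton_iff.mpr hg
      refine ⟨⟨g, hgC⟩ * a' * ⟨g, hgC⟩⁻¹, ?_, rfl⟩
      rw [Cfsg.Agent.Lib.Char.Integrality.mem_classFinset]
      exact isConj_iff.mpr ⟨_, rfl⟩
    · rintro ⟨y, hy, rfl⟩
      rw [Cfsg.Agent.Lib.Char.Integrality.mem_classFinset, isConj_iff] at hy
      obtain ⟨g, rfl⟩ := hy
      exact ⟨g, Subgroup.mem_centralizer_singleton_iff.mp g.2, rfl⟩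
  have hcard : (cls u a).card = (Subgroup.centralizer ({a'} : Set (Cen u))).index := by
    rw [hclass, Finset.card_image_of_injective _ Subtype.val_injective,
      Cfsg.Agent.Lib.Char.Integrality.card_classFinset]
  have hcen : Nat.card (Subgroup.centralizer ({a'} : Set (Cen u))) =
      Nat.card (Subgroup.centralizer ({u, a} : Set G)) := by
    refine (Nat.card_congr (Subgroup.equivMapOfInjective _ (Cen u).subtype Subtype.val_injective).toEquiv).trans ?_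
    congr 2
    ext x
    have hmem : x ∈ Subgroup.centralizer ({u, a} : Set G) ↔ x * u = u * x ∧ x * a = a * x := by
      rw [Subgroup.mem_centralizer_iff]
      constructor
      · intro h1
        exact ⟨(h1 u (by simp)).symm, (h1 a (by simp)).symm⟩
      · rintro ⟨h1, h2⟩ y hy
        rcases hy with rfl | hy
        · exact h1.symm
        · rw [Set.mem_singleton_iff.mp hy]
          exact h2.symm
    rw [hmem]
    constructor
    · rintro ⟨y, hy, rfl⟩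
      refine ⟨Subgroup.mem_centralizer_singleton_iff.mp y.2, ?_⟩
      have := Subgroup.mem_centralizer_singleton_iff.mp hy
      exact congrArg Subtype.val this
    · rintro ⟨h1, h2⟩
      refine ⟨⟨x, Subgroup.mem_centralizer_singleton_iff.mpr h1⟩, ?_, rfl⟩
      rw [SetLike.mem_coe, Subgroup.mem_centralizer_singleton_iff]
      exact Subtype.ext h2
  rw [hcard, ← hcen, mul_comm]
  exact Subgroup.card_mul_index _

end Cls

section Count

variable {G : Type u} [Group G] [Fintype G] {k : ℕ} {P : Sylow 2 G} {σ τ : G} {ζ : ℂ}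

lemma zeta_congr (hσo : orderOf σ = 2 ^ k) (hζ : IsPrimitiveRoot ζ (2 ^ k)) {a b : ℤ} (he : σ ^ a = σ ^ b) :
    ζ ^ a = ζ ^ b := by
  have h1 : σ ^ (a - b) = 1 := by rw [zpow_sub, he, mul_inv_cancel]
  have h2 : ((2 ^ k : ℕ) : ℤ) ∣ a - b := by
    rw [← hσo]
    exact orderOf_dvd_iff_zpow_eq_one.mpr h1
  have h3 : ζ ^ (a - b) = 1 := (hζ.zpow_eq_one_iff_dvd _).mpr h2
  have h0 : ζ ≠ 0 := hζ.ne_zero (by positivity)
  rw [zpow_sub₀ h0] at h3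
  exact (div_eq_one_iff_eq (zpow_ne_zero _ h0)).mp h3

namespace DOne

variable (h : DOne G k P σ τ)
include h

omit [Fintype G] in
theorem comm_J_of_mem_A {a : G} (ha : a ∈ Subgroup.zpowers σ) : a * σ ^ 2 ^ (k - 1) = σ ^ 2 ^ (k - 1) * a := by
  obtain ⟨z, rfl⟩ := ha
  exact ((Commute.refl σ).pow_right _).zpow_left z |>.eq

theorem conj_sigma_J : σ * σ ^ 2 ^ (k - 1) * σ⁻¹ = σ ^ 2 ^ (k - 1) := by
  rw [comm_J_of_mem_A h (Subgroup.mem_zpowers σ)]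
  group

variable {π : Cen (σ ^ 2 ^ (k - 1)) →* G} (hπ1 : ∀ c, π c ∈ (P : Subgroup G))
  (hπ2 : ∀ c : Cen (σ ^ 2 ^ (k - 1)), (c : G) ∈ (P : Subgroup G) → π c = c)
  (hπ3 : ∀ c : Cen (σ ^ 2 ^ (k - 1)), π c = 1 ↔ ¬ 2 ∣ orderOf (c : G))
include hπ1 hπ2 hπ3

/-- The main count. -/
theorem sum_theta (hζ : IsPrimitiveRoot ζ (2 ^ k)) {Θ : G → ℂ} (hT1 : ∀ g x : G, Θ (g * x * g⁻¹) = Θ x)
    (hT2 : ∀ ρ : G, ¬ 2 ∣ orderOf ρ → Θ ρ = 0)
    (hT3 : ∀ (t y : G) (j : ℕ), orderOf t = 2 ^ j → t ≠ 1 → Commute t y → ¬ 2 ∣ orderOf y → Θ (t * y) = Θ t)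
    (hT4 : ∀ z : ℤ, Θ (σ ^ z) = 2 - ζ ^ z - (ζ ^ z)⁻¹) :
    ∑ u ∈ Iz (σ ^ 2 ^ (k - 1)), ∑ v ∈ Iz (σ ^ 2 ^ (k - 1)), Θ (u * v) =
      2 * ((Iz (σ ^ 2 ^ (k - 1))).card : ℂ) ^ 2 := by
  classical
  set I := Iz (σ ^ 2 ^ (k - 1)) with hI
  have hS := h.hS
  have hk := hS.hk
  have hζ0 : ζ ≠ 0 := hζ.ne_zero (by positivity)
  have hmemC : ∀ t ∈ I, t ∈ Cen (σ ^ 2 ^ (k - 1)) := fun t ht =>
    mem_Cen_of_comm h (mem_Iz.mp ht).2.1
  have hex : ∀ t : G, ∃ z : ℤ, ∀ ht : t ∈ I, π ⟨t, hmemC t ht⟩ = σ ^ z * τ := by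
    intro t
    by_cases ht : t ∈ I
    · obtain ⟨z, hz⟩ := h.pi_refl hπ1 hπ2 hπ3 (c := ⟨t, hmemC t ht⟩) (mem_Iz.mp ht).1 (mem_Iz.mp ht).2.2
      exact ⟨z, fun _ => hz⟩
    · exact ⟨0, fun h1 => absurd h1 ht⟩
  choose zf hzf using hex
  set lam : G → ℂ := fun t => ζ ^ zf t with hlam
  have hlam0 : ∀ t, lam t ≠ 0 := fun t => zpow_ne_zero _ hζ0
  -- the value on pairs
  have hval : ∀ u ∈ I, ∀ v ∈ I, Θ (u * v) = 2 - lam u * (lam v)⁻¹ - (lam u)⁻¹ * lam v := by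
    intro u hu v hv
    have h1 := h.theta_of_pi hπ1 hπ2 hπ3 hT1 hT2 hT3 (c := ⟨u, hmemC u hu⟩ * ⟨v, hmemC v hv⟩)
    have h2 : π (⟨u, hmemC u hu⟩ * ⟨v, hmemC v hv⟩) = σ ^ (zf u - zf v) := by
      rw [map_mul, hzf u hu, hzf v hv, h.refl_mul]
    rw [h2, hT4] at h1
    have h3 : ((⟨u, hmemC u hu⟩ * ⟨v, hmemC v hv⟩ : Cen (σ ^ 2 ^ (k - 1))) : G) = u * v := rfl
    rw [h3] at h1
    rw [h1, zpow_sub₀ hζ0]
    simp only [hlam]
    field_simp
  -- the sum of `lam` vanishes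
  have hconjmem : ∀ t : G, t ∈ I ↔ σ * t * σ⁻¹ ∈ I := by
    intro t
    have := mem_Iz_conj (z := σ ^ 2 ^ (k - 1)) (t := t) σ
    rwa [h.conj_sigma_J] at this
  have hσC : σ ∈ Cen (σ ^ 2 ^ (k - 1)) := mem_Cen_of_comm h (comm_J_of_mem_A h (Subgroup.mem_zpowers σ))
  have hlamσ : ∀ t ∈ I, lam (σ * t * σ⁻¹) = ζ ^ 2 * lam t := by
    intro t ht
    have ht' := (hconjmem t).mp ht
    have h1 := hzf _ ht'
    have h2 : (⟨σ * t * σ⁻¹, hmemC _ ht'⟩ : Cen (σ ^ 2 ^ (k - 1))) =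
        ⟨σ, hσC⟩ * ⟨t, hmemC t ht⟩ * ⟨σ, hσC⟩⁻¹ := rfl
    have h3 : π ⟨σ, hσC⟩ = σ := hπ2 _ hS.hσ
    rw [h2, map_mul, map_mul, map_inv, h3, hzf t ht] at h1
    have h4 := h.conj_refl 1 (zf t)
    rw [zpow_one] at h4
    rw [h4] at h1
    have h5 : σ ^ (zf t + 2 * 1) = σ ^ zf (σ * t * σ⁻¹) := mul_right_cancel h1
    have h6 := zeta_congr hS.hσo hζ h5
    simp only [hlam]
    rw [← h6, zpow_add₀ hζ0, mul_comm]
    norm_num
  have hsum0 : ∑ t ∈ I, lam t = 0 := by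
    have h1 : ∑ t ∈ I, lam (σ * t * σ⁻¹) = ∑ t ∈ I, lam t :=
      Finset.sum_equiv (MulAut.conj σ).toEquiv (fun t => hconjmem t) (fun t _ => rfl)
    rw [Finset.sum_congr rfl hlamσ, ← Finset.mul_sum] at h1
    have hne : ζ ^ 2 ≠ 1 := by
      intro h2
      have h3 := (hζ.pow_eq_one_iff_dvd 2).mp h2
      have h4 : (2 : ℕ) ^ 2 ∣ 2 ^ k := pow_dvd_pow 2 hk
      have h5 := h4.trans h3
      norm_num at h5
    have h2 : (ζ ^ 2 - 1) * ∑ t ∈ I, lam t = 0 := by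
      rw [sub_mul, h1]
      ring
    exact (mul_eq_zero.mp h2).resolve_left (sub_ne_zero.mpr hne)
  -- the final computation
  rw [Finset.sum_congr rfl fun u hu => Finset.sum_congr rfl fun v hv => hval u hu v hv]
  have h1 : ∀ u, ∑ v ∈ I, (2 - lam u * (lam v)⁻¹ - (lam u)⁻¹ * lam v) =
      2 * (I.card : ℂ) - lam u * ∑ v ∈ I, (lam v)⁻¹ - (lam u)⁻¹ * ∑ v ∈ I, lam v := by
    intro u
    rw [Finset.sum_sub_distrib, Finset.sum_sub_distrib, Finset.mul_sum, Finset.mul_sum]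
    simp only [Finset.sum_const, nsmul_eq_mul]
    ring
  simp only [h1, hsum0, mul_zero, sub_zero]
  have h2 : ∑ x ∈ I, lam x * ∑ v ∈ I, (lam v)⁻¹ = (∑ x ∈ I, lam x) * ∑ v ∈ I, (lam v)⁻¹ :=
    (Finset.sum_mul _ _ _).symm
  rw [Finset.sum_sub_distrib, h2, hsum0]
  simp only [Finset.sum_const, nsmul_eq_mul]
  ring

omit hπ1 hπ2 hπ3 in
theorem conj_mem_Iz {g a : G} (hg : g * σ ^ 2 ^ (k - 1) = σ ^ 2 ^ (k - 1) * g) (ha : a ∈ (P : Subgroup G))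
    (hao : orderOf a = 2) (haJ : a ≠ σ ^ 2 ^ (k - 1)) : g * a * g⁻¹ ∈ Iz (σ ^ 2 ^ (k - 1)) := by
  have h1 : a ∈ Iz (σ ^ 2 ^ (k - 1)) := mem_Iz.mpr ⟨hao, h.hS.J_central ha, haJ⟩
  have h2 := (mem_Iz_conj g).mp h1
  have e : g * σ ^ 2 ^ (k - 1) * g⁻¹ = σ ^ 2 ^ (k - 1) := by
    rw [hg]
    group
  rwa [e] at h2

open Classical in
omit hπ1 hπ2 hπ3 in
/-- The involutions commuting with `J` are the classes of `τ` and `σ τ` under `C(J)`. -/
theorem Iz_eq_union : Iz (σ ^ 2 ^ (k - 1)) = cls (σ ^ 2 ^ (k - 1)) τ ∪ cls (σ ^ 2 ^ (k - 1)) (σ * τ) := by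
  have hS := h.hS
  ext t
  rw [Finset.mem_union, mem_cls, mem_cls]
  constructor
  · intro htI
    obtain ⟨hto, htc, htJ⟩ := mem_Iz.mp htI
    have htC : t ∈ Cen (σ ^ 2 ^ (k - 1)) := mem_Cen_of_comm h htc
    obtain ⟨x, hx⟩ := h.exists_conj_P (c := ⟨t, htC⟩) (j := 1) (by simpa using hto)
    have hxv : ((x * ⟨t, htC⟩ * x⁻¹ : Cen (σ ^ 2 ^ (k - 1))) : G) = (x : G) * t * (x : G)⁻¹ := rfl
    rw [hxv] at hx
    have hxc : (x : G) * σ ^ 2 ^ (k - 1) = σ ^ 2 ^ (k - 1) * x := (commute_of_mem_Cen x).eq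
    have hxic : (x : G)⁻¹ * σ ^ 2 ^ (k - 1) = σ ^ 2 ^ (k - 1) * (x : G)⁻¹ :=
      ((commute_of_mem_Cen x).inv_left).eq
    have hpo : orderOf ((x : G) * t * (x : G)⁻¹) = 2 := by rw [orderOf_conj_eq, hto]
    have hpJ : (x : G) * t * (x : G)⁻¹ ≠ σ ^ 2 ^ (k - 1) := by
      intro he
      apply htJ
      have e1 : t = (x : G)⁻¹ * ((x : G) * t * (x : G)⁻¹) * x := by group
      rw [e1, he, hxic]
      group
    have hpA := hS.notMem_A_of_involution (mul_self_of_order_two hpo) (ne_one_of_order_two hpo) hpJ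
    obtain ⟨z, hz⟩ := hS.exists_refl_form h.hτ h.hττ h.hτA hx hpA
    have hcomm : ∀ y : ℤ, ((x : G)⁻¹ * σ ^ y) * σ ^ 2 ^ (k - 1) = σ ^ 2 ^ (k - 1) * ((x : G)⁻¹ * σ ^ y) := by
      intro y
      have e1 := comm_J_of_mem_A h (Subgroup.zpow_mem_zpowers σ y)
      rw [mul_assoc, e1, ← mul_assoc, hxic, mul_assoc]
    rcases h.refl_cases z with ⟨y, hy⟩ | ⟨y, hy⟩
    · left
      refine ⟨(x : G)⁻¹ * σ ^ y, hcomm y, ?_⟩
      have e1 : t = (x : G)⁻¹ * ((x : G) * t * (x : G)⁻¹) * x := by group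
      rw [hz.trans hy] at e1
      rw [e1]
      group
    · right
      refine ⟨(x : G)⁻¹ * σ ^ y, hcomm y, ?_⟩
      have e1 : t = (x : G)⁻¹ * ((x : G) * t * (x : G)⁻¹) * x := by group
      rw [hz.trans hy] at e1
      rw [e1]
      group
  · rintro (⟨g, hg, rfl⟩ | ⟨g, hg, rfl⟩)
    · exact h.conj_mem_Iz hg h.hτ h.orderOf_tau h.tau_ne_J
    · exact h.conj_mem_Iz hg h.sigma_tau_mem h.orderOf_sigma_tau h.sigma_tau_ne_J

omit hπ1 hπ2 hπ3 in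
theorem no_conj_refl {y : ℤ} (he : σ ^ y * τ * (σ ^ y)⁻¹ = σ * τ) : False := by
  have h1 := h.conj_refl y 0
  rw [zpow_zero, one_mul, he] at h1
  have h2 : σ = σ ^ (0 + 2 * y) := mul_right_cancel h1
  have h3 : σ ^ (2 * y - 1) = 1 := by
    rw [zpow_sub, zpow_one, ← zero_add (2 * y), ← h2, mul_inv_cancel]
  have h4 := orderOf_dvd_iff_zpow_eq_one.mpr h3
  rw [h.hS.hσo] at h4
  have hk := h.hS.hk
  have h5 : (2 : ℤ) ∣ ((2 ^ k : ℕ) : ℤ) := by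
    push_cast
    exact dvd_pow_self 2 (by omega)
  have h6 := h5.trans h4
  omega

/-- The two classes are disjoint. -/
theorem cls_disjoint [DecidableEq G] : Disjoint (cls (σ ^ 2 ^ (k - 1)) τ) (cls (σ ^ 2 ^ (k - 1)) (σ * τ)) := by
  have hS := h.hS
  rw [Finset.disjoint_left]
  intro t ht1 ht2
  obtain ⟨g, hg, rfl⟩ := mem_cls.mp ht1
  obtain ⟨g', hg', he⟩ := mem_cls.mp ht2
  have hgC : g ∈ Cen (σ ^ 2 ^ (k - 1)) := mem_Cen_of_comm h hg
  have hgC' : g' ∈ Cen (σ ^ 2 ^ (k - 1)) := mem_Cen_of_comm h hg'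
  set x : Cen (σ ^ 2 ^ (k - 1)) := ⟨g', hgC'⟩⁻¹ * ⟨g, hgC⟩ with hx
  have hxv : (x : G) = g'⁻¹ * g := rfl
  have hle := hS.P_le_Cen_J
  set th : Cen (σ ^ 2 ^ (k - 1)) := ⟨τ, hle h.hτ⟩ with hth
  set sh : Cen (σ ^ 2 ^ (k - 1)) := ⟨σ * τ, hle h.sigma_tau_mem⟩ with hsh
  have hconj : x * th * x⁻¹ = sh := by
    apply Subtype.ext
    show (x : G) * τ * (x : G)⁻¹ = σ * τ
    rw [hxv]
    have e1 : σ * τ = g'⁻¹ * (g' * (σ * τ) * g'⁻¹) * g' := by group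
    rw [e1, he]
    group
  have h1 := congrArg π hconj
  rw [map_mul, map_mul, map_inv, hπ2 th h.hτ, hπ2 sh h.sigma_tau_mem] at h1
  have hpP := hπ1 x
  set p := π x with hp
  have h2 : p * τ * p⁻¹ = σ * τ := h1
  by_cases hpA : p ∈ Subgroup.zpowers σ
  · obtain ⟨y, hy⟩ := hpA
    have hy' : σ ^ y = p := hy
    rw [← hy'] at h2
    exact h.no_conj_refl h2
  · obtain ⟨y, hy⟩ := hS.exists_refl_form h.hτ h.hττ h.hτA hpP hpA
    rw [hy] at h2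
    have e : σ ^ y * τ * τ * (σ ^ y * τ)⁻¹ = σ ^ y * τ * (σ ^ y)⁻¹ := by
      rw [mul_inv_rev, h.tau_inv]
      calc σ ^ y * τ * τ * (τ * (σ ^ y)⁻¹) = σ ^ y * (τ * τ) * τ * (σ ^ y)⁻¹ := by group
        _ = σ ^ y * τ * (σ ^ y)⁻¹ := by rw [h.hττ, mul_one]
    rw [e] at h2
    exact h.no_conj_refl h2

/-- The number of involutions commuting with `J`. -/
theorem card_Iz : ((Iz (σ ^ 2 ^ (k - 1))).card : ℂ) =
    (Nat.card (Cen (σ ^ 2 ^ (k - 1))) : ℂ) *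
      (1 / (Nat.card (Subgroup.centralizer ({σ ^ 2 ^ (k - 1), τ} : Set G)) : ℂ) +
        1 / (Nat.card (Subgroup.centralizer ({σ ^ 2 ^ (k - 1), σ * τ} : Set G)) : ℂ)) := by
  classical
  have hS := h.hS
  rw [h.Iz_eq_union, Finset.card_union_of_disjoint (h.cls_disjoint hπ1 hπ2 hπ3)]
  have h1 := card_cls_pair (hS.J_central h.hτ)
  have h2 := card_cls_pair (hS.J_central h.sigma_tau_mem)
  have hpos1 : (Nat.card (Subgroup.centralizer ({σ ^ 2 ^ (k - 1), τ} : Set G)) : ℂ) ≠ 0 :=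
    Nat.cast_ne_zero.mpr Nat.card_pos.ne'
  have hpos2 : (Nat.card (Subgroup.centralizer ({σ ^ 2 ^ (k - 1), σ * τ} : Set G)) : ℂ) ≠ 0 :=
    Nat.cast_ne_zero.mpr Nat.card_pos.ne'
  have h1' := congrArg (fun n : ℕ => (n : ℂ)) h1
  have h2' := congrArg (fun n : ℕ => (n : ℂ)) h2
  simp only [Nat.cast_mul] at h1' h2'
  push_cast
  rw [mul_add]
  congr 1
  · rw [← h1']
    field_simp
  · rw [← h2']
    field_simp

end DOne

end Count

end Cfsg.Agent.Lib.Blocks.DihS
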