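import Mathlib
import Cfsg.Prelude.Def_Blocks
import Cfsg.Agent.Lib.Blocks.DihH
import Cfsg.Agent.Lib.Blocks.WeakOrth

/-!
# Groups with dihedral Sylow 2-subgroups and one class of involutions: the order formula
-/

set_option autoImplicit false

namespace Cfsg.Agent.Lib.Blocks.DihS

open Cfsg Cfsg.Agent.Lib.Blocks.Sections Cfsg.Agent.Lib.Blocks.Principal Cfsg.Agent.Lib.Blocks.PrincipalCen
  Cfsg.Agent.Lib.Blocks.Local
open scoped ComplexConjugate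

universe u

section Core

variable {C : Type*} [Group C] [Finite C]

theorem mem_core_of_odd {s : ℕ} (hidx : (pPrimeCore 2 C).index = 2 ^ s) (v : C) (hv : ¬ 2 ∣ orderOf v) :
    v ∈ pPrimeCore 2 C := by
  have hcop : (Nat.card (pPrimeCore 2 C)).Coprime 2 :=
    Cfsg.Agent.Lib.Solvable.Carter.card_pPrimeCore_coprime (G := C) 2
  have hq : IsPGroup 2 (C ⧸ pPrimeCore 2 C) := by
    rw [IsPGroup.iff_card]
    exact ⟨s, by rw [← Subgroup.index_eq_card, hidx]⟩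
  rw [Cfsg.Agent.Lib.Transfer.Basic.mem_iff_coprime_of_normal _ hcop hq, Nat.coprime_comm,
    Nat.Prime.coprime_iff_not_dvd Nat.prime_two]
  exact hv

end Core

variable {G : Type u} [Group G] [Fintype G] {k : ℕ} {P : Sylow 2 G} {σ τ : G} {M : Ideal AlgInt}

namespace DOne

variable (h : DOne G k P σ τ)
include h

/-- Principal block characters are constant on the sections of nontrivial 2-elements. -/
theorem apply_mul_odd (hM : IsPModular 2 M) {χ : IrrCharacter G} (hχ : χ ∈ principalBlock M G) {t y : G} {j : ℕ}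
    (ht : orderOf t = 2 ^ j) (ht1 : t ≠ 1) (hc : Commute t y) (hy : ¬ 2 ∣ orderOf y) :
    (χ : G → ℂ) (t * y) = (χ : G → ℂ) t := by
  classical
  haveI : Fact (Nat.Prime 2) := ⟨by norm_num⟩
  haveI hMp : M.IsPrime := isPrime_of_isPModular hM
  obtain ⟨a, ha, ha1, hconj⟩ := h.exists_conj_A ht ht1
  obtain ⟨g, hg⟩ := isConj_iff.mp hconj
  set y' := g * y * g⁻¹ with hy'
  have hcomm : a * y' = y' * a := by
    rw [← hg, hy']
    have e1 : g * t * g⁻¹ * (g * y * g⁻¹) = g * (t * y) * g⁻¹ := by group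
    have e2 : g * y * g⁻¹ * (g * t * g⁻¹) = g * (y * t) * g⁻¹ := by group
    rw [e1, e2, hc.eq]
  have hoy : ¬ 2 ∣ orderOf y' := by
    rw [hy', orderOf_conj_eq]
    exact hy
  have e : g * (t * y) * g⁻¹ = a * y' := by
    rw [← hg, hy']
    group
  have h1 : (χ : G → ℂ) (t * y) = (χ : G → ℂ) (a * y') := by
    rw [← e]
    exact Cfsg.Agent.Lib.Char.CompleteCor.irr_apply_of_isConj (isConj_iff.mpr ⟨g, rfl⟩) χ
  have h2 : (χ : G → ℂ) t = (χ : G → ℂ) a :=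
    Cfsg.Agent.Lib.Char.CompleteCor.irr_apply_of_isConj hconj χ
  rw [h1, h2]
  letI : Fintype (Cen a) := Fintype.ofFinite _
  obtain ⟨i, hi⟩ := h.hS.order_of_mem ha
  have hvC : y' ∈ Cen a := Subgroup.mem_centralizer_singleton_iff.mpr hcomm.symm
  have hidx : ∃ s, (pPrimeCore 2 (Cen a)).index = 2 ^ s := by
    by_cases haa : a * a = 1
    · refine ⟨k + 1, ?_⟩
      rw [h.hS.eq_J_of_sq ha haa ha1]
      exact h.hS.index_core_J
    · exact ⟨k, h.hS.index_core_of_sq_ne_one ha haa⟩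
  obtain ⟨s, hs⟩ := hidx
  have hv : (⟨y', hvC⟩ : Cen a) ∈ pPrimeCore 2 (Cen a) := by
    apply mem_core_of_odd hs
    rw [← Subgroup.orderOf_coe]
    exact hoy
  exact apply_mul_core hM hi hv hχ

/-- The sum of an irreducible character over `J` times the involutions. -/
theorem sum_Inv_apply (χ : IrrCharacter G) :
    ∑ v ∈ Inv G, (χ : G → ℂ) (σ ^ 2 ^ (k - 1) * v) =
      ((Cen (σ ^ 2 ^ (k - 1))).index : ℂ) * (χ : G → ℂ) (σ ^ 2 ^ (k - 1)) / (χ : G → ℂ) 1 * (χ : G → ℂ) (σ ^ 2 ^ (k - 1)) := by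
  classical
  have h1 := Cfsg.Agent.Lib.Blocks.WeakOrth.sum_isConj_mul χ.2 (σ ^ 2 ^ (k - 1)) (σ ^ 2 ^ (k - 1))
  rw [centralChar] at h1
  rw [← h1, Inv, Finset.sum_filter]
  refine Finset.sum_congr rfl fun v _ => ?_
  have hiff : IsConj (σ ^ 2 ^ (k - 1)) v ↔ orderOf v = 2 := by
    constructor
    · intro hc
      obtain ⟨g, rfl⟩ := isConj_iff.mp hc
      rw [orderOf_conj_eq]
      exact h.hS.orderOf_J
    · exact h.isConj_of_order_two
  by_cases hv : orderOf v = 2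
  · rw [if_pos hv, if_pos (hiff.mpr hv)]
    apply Cfsg.Agent.Lib.Char.CompleteCor.irr_apply_of_isConj
    rw [isConj_iff]
    refine ⟨(σ ^ 2 ^ (k - 1))⁻¹, ?_⟩
    group
  · rw [if_neg hv, if_neg (fun h2 => hv (hiff.mp h2))]

/-- The main formula. -/
theorem formula (hM : IsPModular 2 M) {χ₁ : IrrCharacter G} (hχ₁ : χ₁ ∈ principalBlock M G) (h1 : χ₁ ≠ trivChar G)
    {δ₁ : ℤ} (hδ₁ : δ₁ = 1 ∨ δ₁ = -1)
    (hval : ∀ l : ℕ, 0 < l → l < 2 ^ k → (χ₁ : G → ℂ) (σ ^ l) = δ₁) :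
    (χ₁ : G → ℂ) 1 ≠ δ₁ ∧
    (Nat.card G : ℂ) * ((χ₁ : G → ℂ) 1 - δ₁) ^ 2 = 2 * (χ₁ : G → ℂ) 1 * ((χ₁ : G → ℂ) 1 + δ₁) *
      (Nat.card (Cen (σ ^ 2 ^ (k - 1))) : ℂ) ^ 3 *
      (1 / (Nat.card (Subgroup.centralizer ({σ ^ 2 ^ (k - 1), τ} : Set G)) : ℂ) +
        1 / (Nat.card (Subgroup.centralizer ({σ ^ 2 ^ (k - 1), σ * τ} : Set G)) : ℂ)) ^ 2 := by
  classical
  haveI hMp : M.IsPrime := isPrime_of_isPModular hM
  have hS := h.hS
  have hk := hS.hk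
  have hNpos : 0 < 2 ^ k := by positivity
  have hmul := hS.two_mul_half
  -- the block data
  have hζ : IsPrimitiveRoot (Complex.exp (2 * Real.pi * Complex.I / ((2 ^ k : ℕ) : ℂ))) (2 ^ k) :=
    Complex.isPrimitiveRoot_exp (2 ^ k) hNpos.ne'
  set ζ := Complex.exp (2 * Real.pi * Complex.I / ((2 ^ k : ℕ) : ℂ)) with hζdef
  have hζ0 : ζ ≠ 0 := hζ.ne_zero hNpos.ne'
  have hhalf : ζ ^ 2 ^ (k - 1) = -1 := pow_half (by omega) hζ
  obtain ⟨m, hm⟩ : ∃ m, 2 ^ (k - 1) = m + 1 := ⟨2 ^ (k - 1) - 1, by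
    have : 0 < 2 ^ (k - 1) := by positivity
    omega⟩
  have hm0 : 0 < m := by
    have h2 : 2 ^ (k - 1) = 2 * 2 ^ (k - 2) := by
      rw [← pow_succ']
      congr 1
      omega
    have h3 : 0 < 2 ^ (k - 2) := by positivity
    omega
  obtain ⟨-, χa, χb, χc, χ', δa, δb, δc, hδa, hδb, hδc, -, -, -, -, -, -, -, hj, hmem, hvals, hrel⟩ :=
    hS.main_aux hM hζ hm
  have hl1 : 1 < 2 ^ k := by omega
  have hl2 : 2 < 2 ^ k := by
    have : (2 : ℕ) ^ 2 ≤ 2 ^ k := Nat.pow_le_pow_right (by norm_num) hk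
    omega
  have hδcast : ∀ e : ℤ, (e = 1 ∨ e = -1) → ((e : ℂ) * e = 1) := by
    rintro e (rfl | rfl) <;> norm_num
  have hδ₁c := hδcast δ₁ hδ₁
  -- identification of `χ₁`
  have hid : χ₁ = χa ∧ δ₁ = δa := by
    have hχ₁T : χ₁ ∈ TB M G := Finset.mem_filter.mpr ⟨Finset.mem_univ _, hχ₁⟩
    have hneg : ∀ {x : IrrCharacter G} {e : ℤ}, (e = 1 ∨ e = -1) → (∀ l : ℕ, 0 < l → l < 2 ^ k →
        (x : G → ℂ) (σ ^ l) = e * (-1) ^ (l + 1)) → x ≠ χ₁ := by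
      intro x e he hx hxe
      have h2 := hx 1 (by norm_num) hl1
      have h3 := hx 2 (by norm_num) hl2
      rw [hxe, hval 1 (by norm_num) hl1] at h2
      rw [hxe, hval 2 (by norm_num) hl2] at h3
      have h4 : (e : ℂ) = 0 := by
        have h5 : (e : ℂ) * (-1) ^ (1 + 1) = e := by norm_num
        have h6 : (e : ℂ) * (-1) ^ (2 + 1) = -e := by norm_num
        rw [h5] at h2
        rw [h6] at h3
        rw [h2] at h3
        have : (2 : ℂ) * e = 0 := by linear_combination h3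
        simpa using this
      have h5 := hδcast e he
      rw [h4] at h5
      norm_num at h5
    rcases hmem χ₁ hχ₁T with h2 | h2 | h2 | h2 | ⟨j, h2⟩
    · exact absurd h2 h1
    · refine ⟨h2, ?_⟩
      have h3 := hval 1 (by norm_num) hl1
      rw [h2, (hvals 1 (by norm_num) hl1).1] at h3
      exact_mod_cast h3.symm
    · exact absurd h2.symm (hneg hδb fun l h0 hl => (hvals l h0 hl).2.1)
    · exact absurd h2.symm (hneg hδc fun l h0 hl => (hvals l h0 hl).2.2.1)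
    · exfalso
      have hlt : 2 ^ (k - 1) < 2 ^ k := by omega
      have hlp : 0 < 2 ^ (k - 1) := by positivity
      have h3 := (hvals _ hlp hlt).2.2.2 j
      rw [← h2, hval _ hlp hlt] at h3
      have h4 : ζ ^ (((j : ℕ) + 1) * 2 ^ (k - 1)) = (-1) ^ ((j : ℕ) + 1) := by
        rw [mul_comm, pow_mul, hhalf]
      rw [h4] at h3
      have h5 := hδcast δa hδa
      rcases neg_one_pow_eq_or ℂ ((j : ℕ) + 1) with h6 | h6 <;> rw [h6] at h3
      · have h7 : (δ₁ : ℂ) = δa * 2 := by rw [h3]; norm_num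
        have : (δ₁ : ℂ) * δ₁ = 4 := by
          rw [h7]
          linear_combination 4 * h5
        rw [hδ₁c] at this
        norm_num at this
      · have h7 : (δ₁ : ℂ) = δa * (-2) := by rw [h3]; norm_num
        have : (δ₁ : ℂ) * δ₁ = 4 := by
          rw [h7]
          linear_combination 4 * h5
        rw [hδ₁c] at this
        norm_num at this
  obtain ⟨rfl, rfl⟩ := hid
  -- the second character
  set j₀ : Fin m := ⟨0, hm0⟩ with hj₀
  set χb₀ := χ' j₀ with hχb₀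
  have hb₀B : χb₀ ∈ principalBlock M G :=
    (Finset.mem_filter.mp (Finset.mem_erase.mp (hj j₀).2.2.2).2).2
  have hrel0 : ∀ ρ : G, Odd (orderOf ρ) → 1 + (δ₁ : ℂ) * (χ₁ : G → ℂ) ρ = δ₁ * (χb₀ : G → ℂ) ρ :=
    fun ρ hρ => (hrel ρ hρ j₀).2
  set x := (χ₁ : G → ℂ) 1 with hx
  have hx0 : x ≠ 0 := Cfsg.Agent.Lib.Char.Ortho.irr_apply_one_ne_zero χ₁.2
  have hy₀ : (χb₀ : G → ℂ) 1 = x + δ₁ := by
    have h2 := hrel0 1 (by simp)
    linear_combination (-(δ₁ : ℂ)) * h2 - ((χb₀ : G → ℂ) 1 - x) * hδ₁c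
  have hxδ0 : x + δ₁ ≠ 0 := by
    rw [← hy₀]
    exact Cfsg.Agent.Lib.Char.Ortho.irr_apply_one_ne_zero χb₀.2
  -- the class function
  set Θ : G → ℂ := fun g => 1 + (δ₁ : ℂ) * (χ₁ : G → ℂ) g - δ₁ * (χb₀ : G → ℂ) g with hΘ
  have hT1 : ∀ g y : G, Θ (g * y * g⁻¹) = Θ y := by
    intro g y
    have hc : IsConj (g * y * g⁻¹) y := (isConj_iff.mpr ⟨g, rfl⟩ : IsConj y (g * y * g⁻¹)).symm
    simp only [hΘ]
    rw [Cfsg.Agent.Lib.Char.CompleteCor.irr_apply_of_isConj hc χ₁,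
      Cfsg.Agent.Lib.Char.CompleteCor.irr_apply_of_isConj hc χb₀]
  have hT2 : ∀ ρ : G, ¬ 2 ∣ orderOf ρ → Θ ρ = 0 := by
    intro ρ hρ
    have h2 := hrel0 ρ (Nat.odd_iff.mpr (by omega))
    simp only [hΘ]
    rw [h2]
    ring
  have hT3 : ∀ (t y : G) (j : ℕ), orderOf t = 2 ^ j → t ≠ 1 → Commute t y → ¬ 2 ∣ orderOf y → Θ (t * y) = Θ t := by
    intro t y j ht ht1 hc hy
    simp only [hΘ]
    rw [h.apply_mul_odd hM hχ₁ ht ht1 hc hy, h.apply_mul_odd hM hb₀B ht ht1 hc hy]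
  have hT4 : ∀ z : ℤ, Θ (σ ^ z) = 2 - ζ ^ z - (ζ ^ z)⁻¹ := by
    intro z
    obtain ⟨l, hl, hle⟩ := hS.exists_pow_lt (Subgroup.zpow_mem_zpowers σ z)
    have e1 : σ ^ (l : ℤ) = σ ^ z := by
      rw [zpow_natCast]
      exact hle
    have e2 : ζ ^ z = ζ ^ l := by
      rw [← zeta_congr hS.hσo hζ e1, zpow_natCast]
    rw [e2, ← hle]
    rcases Nat.eq_zero_or_pos l with rfl | hp
    · rw [pow_zero, hT2 1 (by simp), pow_zero]
      norm_num
    · obtain ⟨v1, -, -, v4⟩ := hvals l hp hl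
      simp only [hΘ]
      rw [v1, hχb₀, v4 j₀]
      have e3 : ((j₀ : ℕ) + 1) * l = l := by
        simp [hj₀]
      rw [e3]
      linear_combination (1 - ζ ^ l - (ζ ^ l)⁻¹) * hδ₁c
  -- the count
  obtain ⟨π, hπ1, hπ2, hπ3⟩ := hS.exists_pi
  have hsum := h.sum_eq_Iz hπ1 hπ2 hπ3 hT1 hT2
  rw [h.sum_theta hπ1 hπ2 hπ3 hζ hT1 hT2 hT3 hT4] at hsum
  set n : ℂ := ((Iz (σ ^ 2 ^ (k - 1))).card : ℂ) with hn
  set idx : ℂ := ((Cen (σ ^ 2 ^ (k - 1))).index : ℂ) with hidx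
  have hs1 := h.sum_Inv_apply (trivChar G)
  have hs2 := h.sum_Inv_apply χ₁
  have hs3 := h.sum_Inv_apply χb₀
  have hlt : 2 ^ (k - 1) < 2 ^ k := by omega
  have hlp : 0 < 2 ^ (k - 1) := by positivity
  have hJ1 : (χ₁ : G → ℂ) (σ ^ 2 ^ (k - 1)) = δ₁ := hval _ hlp hlt
  have hJ2 : (χb₀ : G → ℂ) (σ ^ 2 ^ (k - 1)) = -2 * δ₁ := by
    have h2 := (hvals _ hlp hlt).2.2.2 j₀
    rw [← hχb₀] at h2
    have e3 : ((j₀ : ℕ) + 1) * 2 ^ (k - 1) = 2 ^ (k - 1) := by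
      simp [hj₀]
    rw [h2, e3, hhalf]
    norm_num
    ring
  rw [hJ1, ← hx] at hs2
  rw [hJ2, hy₀] at hs3
  simp only [coe_trivChar] at hs1
  have hA : idx * 1 / 1 * 1 + (δ₁ : ℂ) * (idx * δ₁ / x * δ₁) - δ₁ * (idx * (-2 * δ₁) / (x + δ₁) * (-2 * δ₁)) = 2 * n ^ 2 := by
    rw [← hsum, ← hs1, ← hs2, ← hs3]
    simp only [hΘ]
    rw [Finset.sum_sub_distrib, Finset.sum_add_distrib, Finset.mul_sum, Finset.mul_sum]
  have hp : x * x⁻¹ = 1 := mul_inv_cancel₀ hx0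
  have hq : (x + δ₁) * (x + δ₁)⁻¹ = 1 := mul_inv_cancel₀ hxδ0
  simp only [div_eq_mul_inv] at hA
  have hB : idx * (x - δ₁) ^ 2 = 2 * n ^ 2 * x * (x + δ₁) := by
    linear_combination (x * (x + δ₁)) * hA - (δ₁ : ℂ) ^ 3 * idx * (x + δ₁) * hp + 4 * (δ₁ : ℂ) ^ 3 * idx * x * hq +
      idx * (3 * δ₁ * x - (δ₁ : ℂ) ^ 2) * hδ₁c
  have hn0 : n ≠ 0 := by
    have hτI : τ ∈ Iz (σ ^ 2 ^ (k - 1)) := mem_Iz.mpr ⟨h.orderOf_tau, hS.J_central h.hτ, h.tau_ne_J⟩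
    exact Nat.cast_ne_zero.mpr (Finset.card_ne_zero_of_mem hτI)
  constructor
  · intro he
    rw [he, sub_self] at hB
    have h2 : 4 * n ^ 2 * ((δ₁ : ℂ) * δ₁) = 0 := by
      linear_combination -hB
    rw [hδ₁c] at h2
    have h3 : n ^ 2 = 0 := by linear_combination h2 / 4
    exact hn0 (pow_eq_zero_iff (by norm_num) |>.mp h3)
  · have hcard := congrArg (fun a : ℕ => (a : ℂ)) (Subgroup.card_mul_index (Cen (σ ^ 2 ^ (k - 1))))
    simp only [Nat.cast_mul] at hcard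
    have hnf := h.card_Iz hπ1 hπ2 hπ3
    rw [← hn] at hnf
    rw [← hcard]
    have h2 : (Nat.card (Cen (σ ^ 2 ^ (k - 1))) : ℂ) * idx * (x - δ₁) ^ 2 =
        (Nat.card (Cen (σ ^ 2 ^ (k - 1))) : ℂ) * (idx * (x - δ₁) ^ 2) := by ring
    rw [h2, hB, hnf]
    ring

end DOne

end Cfsg.Agent.Lib.Blocks.DihS
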