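import Mathlib
import Cfsg.Agent.Lib.Blocks.Knorr2
import Cfsg.Agent.Lib.Blocks.FirstMain2
import Cfsg.Agent.Lib.Blocks.BrauerCoeff
import Cfsg.Agent.S0958
import Cfsg.Agent.S0919
import Cfsg.Agent.S0912
import Cfsg.Agent.S0908
import Cfsg.Agent.Lib.Blocks.Knorr3
import Cfsg.Prelude.Def_BlockLocal

/-!
# The Harris--Knörr correspondence
-/

set_option autoImplicit false
set_option linter.unusedSectionVars false
set_option linter.style.haveILetI false

namespace Cfsg.Agent.Lib.Blocks.HarrisKnorr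

open Cfsg Cfsg.Agent.Lib.Blocks.Local Cfsg.Agent.Lib.Blocks.Central Cfsg.Agent.Lib.Blocks.Osima
  Cfsg.Agent.Lib.Blocks.Covering Cfsg.Agent.Lib.Blocks.Twisted Cfsg.Agent.Lib.Blocks.Defect
  Cfsg.Agent.Lib.Blocks.BrauerMap Cfsg.Agent.Lib.Blocks.Transport
open scoped ComplexConjugate

universe u

section GroupTheory

variable {G : Type u} [Group G] [Finite G] {p : ℕ} [Fact p.Prime]

/-- A `p`-subgroup in the centralizer of `g` is conjugate, by an element of the centralizer, into a given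
Sylow subgroup. -/
theorem exists_mem_centralizer_conj_mem {g : G} (D : Sylow p (Subgroup.centralizer ({g} : Set G)))
    {P : Subgroup G} (hP : IsPGroup p P) (hPg : P ≤ Subgroup.centralizer ({g} : Set G)) :
    ∃ v ∈ Subgroup.centralizer ({g} : Set G), ∀ a ∈ P,
      v * a * v⁻¹ ∈ (D : Subgroup (Subgroup.centralizer ({g} : Set G))).map
        (Subgroup.centralizer ({g} : Set G)).subtype := by
  have hP' : IsPGroup p (P.subgroupOf (Subgroup.centralizer ({g} : Set G))) :=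
    hP.comap_of_injective _ (Subgroup.subtype_injective _) |>.of_equiv (MulEquiv.refl _)
  obtain ⟨Q, hQ⟩ := hP'.exists_le_sylow
  obtain ⟨u, hu⟩ := MulAction.exists_smul_eq (Subgroup.centralizer ({g} : Set G)) Q D
  refine ⟨(u : G), u.2, fun a ha => ?_⟩
  have h1 : (⟨a, hPg ha⟩ : Subgroup.centralizer ({g} : Set G)) ∈
      (Q : Subgroup (Subgroup.centralizer ({g} : Set G))) :=
    hQ (Subgroup.mem_subgroupOf.2 ha)
  rw [← hu, Sylow.coe_subgroup_smul]
  refine ⟨u * ⟨a, hPg ha⟩ * u⁻¹, ⟨_, h1, ?_⟩, by simp⟩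
  simp [MulAut.conj_apply]

variable {N Q : Subgroup G} [hN : N.Normal]

/-- A finite-group criterion for normalizing. -/
lemma mem_normalizer_of_conj_mem {t : G} (h : ∀ q ∈ Q, t * q * t⁻¹ ∈ Q) :
    t ∈ Subgroup.normalizer (Q : Set G) := by
  have hle : Q.map (MulAut.conj t).toMonoidHom ≤ Q := by
    rintro _ ⟨q, hq, rfl⟩
    exact h q hq
  have heq : Q.map (MulAut.conj t).toMonoidHom = Q :=
    Subgroup.eq_of_le_of_card_ge hle (le_of_eq (Cfsg.Agent.S0916.card_map_conj t Q).symm)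
  rw [Subgroup.mem_normalizer_iff]
  intro q
  refine ⟨h q, fun hq => ?_⟩
  rw [← heq] at hq
  obtain ⟨q', hq', hq''⟩ := hq
  have h1 : t * q' * t⁻¹ = t * q * t⁻¹ := hq''
  have h2 : q' = q := by simpa using h1
  rwa [← h2]

/-- **Lemma**: the elements conjugate to a `good` element and lying in `C_G(Q)` are conjugate under
`N_G(Q)`. -/
theorem exists_conj_of_good (hQ : IsPGroup p Q) (hQN : Q ≤ N) {y : G}
    (hyC : y ∈ Subgroup.centralizer (Q : Set G))
    (hgood : ∀ r : G, r ∈ Subgroup.normalizer (Q : Set G) → r ∈ N → r * y = y * r →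
      IsPGroup p (Subgroup.zpowers r) → r ∈ Q)
    {x : G} (hx : x * y * x⁻¹ ∈ Subgroup.centralizer (Q : Set G)) :
    ∃ u ∈ Subgroup.normalizer (Q : Set G), u * y * u⁻¹ = x * y * x⁻¹ := by
  classical
  set C := Subgroup.centralizer ({y} : Set G) with hC
  have hQC : Q ≤ C := by
    intro q hq
    rw [hC, Subgroup.mem_centralizer_singleton_iff]
    have := Subgroup.mem_centralizer_iff.1 hyC q hq
    exact this
  obtain ⟨R, hR⟩ := Cfsg.Agent.Lib.Blocks.Defect.exists_sylow_le hQ hQC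
  set R' : Subgroup G := (R : Subgroup C).map C.subtype with hR'
  have hR'p : IsPGroup p R' := isPGroup_sylow_map R
  have hR'C : R' ≤ C := sylow_map_le R
  set S : Subgroup G := R' ⊓ N with hS
  have hSp : IsPGroup p S := hR'p.to_le inf_le_left
  have hQS : Q ≤ S := le_inf hR hQN
  -- `S = Q`
  have hSQ : S ≤ Q := by
    by_contra hne
    have hlt : Q.subgroupOf S < ⊤ := by
      rw [lt_top_iff_ne_top]
      intro htop
      apply hne
      intro s hs
      have : (⟨s, hs⟩ : S) ∈ Q.subgroupOf S := by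
        rw [htop]
        trivial
      exact Subgroup.mem_subgroupOf.1 this
    haveI : Group.IsNilpotent S := hSp.isNilpotent
    have hcond := Group.normalizerCondition_of_isNilpotent (G := S) (Q.subgroupOf S) hlt
    obtain ⟨s, hs, hs'⟩ := SetLike.exists_of_lt hcond
    apply hs'
    rw [Subgroup.mem_subgroupOf]
    have hsS := s.2
    apply hgood (s : G)
    · rw [Subgroup.mem_normalizer_iff]
      intro q
      have hn := Subgroup.mem_normalizer_iff.1 hs
      constructor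
      · intro hq
        have := (hn ⟨q, hQS hq⟩).1 (Subgroup.mem_subgroupOf.2 hq)
        exact Subgroup.mem_subgroupOf.1 this
      · intro hq
        have hqS : q ∈ S := by
          have h1 := S.mul_mem (S.mul_mem (S.inv_mem hsS) (hQS hq)) hsS
          have h2 : (s : G)⁻¹ * ((s : G) * q * (s : G)⁻¹) * s = q := by group
          rwa [h2] at h1
        have := (hn ⟨q, hqS⟩).2 (Subgroup.mem_subgroupOf.2 hq)
        exact Subgroup.mem_subgroupOf.1 this
    · exact hsS.2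
    · exact Subgroup.mem_centralizer_singleton_iff.1 (hR'C hsS.1)
    · exact hSp.to_le ((Subgroup.zpowers_le).2 hsS)
  -- conjugating
  have hP : Q.map (MulAut.conj x⁻¹).toMonoidHom ≤ C := by
    rintro _ ⟨q, hq, rfl⟩
    rw [hC, Subgroup.mem_centralizer_singleton_iff]
    have h1 := Subgroup.mem_centralizer_iff.1 hx q hq
    simp only [MulEquiv.toMonoidHom_eq_coe, MonoidHom.coe_coe, MulAut.conj_apply, inv_inv]
    calc x⁻¹ * q * x * y = x⁻¹ * (q * (x * y * x⁻¹)) * x := by group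
      _ = x⁻¹ * ((x * y * x⁻¹) * q) * x := by rw [h1]
      _ = y * (x⁻¹ * q * x) := by group
  obtain ⟨v, hv, hv'⟩ := exists_mem_centralizer_conj_mem R (hQ.map _) hP
  have hvy : v * y = y * v := Subgroup.mem_centralizer_singleton_iff.1 hv
  have ht : (v * x⁻¹) ∈ Subgroup.normalizer (Q : Set G) := by
    apply mem_normalizer_of_conj_mem
    intro q hq
    apply hSQ
    refine ⟨?_, ?_⟩
    · have := hv' _ ⟨q, hq, rfl⟩
      simp only [MulEquiv.toMonoidHom_eq_coe, MonoidHom.coe_coe, MulAut.conj_apply, inv_inv] at this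
      have h3 : v * x⁻¹ * q * (v * x⁻¹)⁻¹ = v * (x⁻¹ * q * x) * v⁻¹ := by group
      rw [h3]
      exact this
    · exact hN.conj_mem q (hQN hq) _
  refine ⟨(v * x⁻¹)⁻¹, Subgroup.inv_mem _ ht, ?_⟩
  have h2 : v⁻¹ * y * v = y := by
    rw [mul_assoc, ← hvy]
    group
  calc (v * x⁻¹)⁻¹ * y * ((v * x⁻¹)⁻¹)⁻¹ = x * (v⁻¹ * y * v) * x⁻¹ := by group
    _ = x * y * x⁻¹ := by rw [h2]

end GroupTheory

section Unique

variable {G : Type u} [Group G] [Fintype G] {p : ℕ} [Fact p.Prime] {M : Ideal AlgInt} [M.IsPrime]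
  {N Q : Subgroup G} [hN : N.Normal] [Fintype (Subgroup.normalizer (Q : Set G))]

theorem brauer_classSum_of_good (hQ : IsPGroup p Q) (hQN : Q ≤ N) (y : Subgroup.normalizer (Q : Set G))
    (hyC : (y : G) ∈ Subgroup.centralizer (Q : Set G))
    (hgood : ∀ r : G, r ∈ Subgroup.normalizer (Q : Set G) → r ∈ N → r * y = y * r →
      IsPGroup p (Subgroup.zpowers r) → r ∈ Q) :
    brauer Q (Subgroup.normalizer (Q : Set G)) (classSum (y : G)) = classSum y := by
  classical
  apply ext_coeff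
  intro h
  rw [coeff_brauer]
  by_cases hc : IsConj y h
  · rw [coeff_classSum_of_isConj hc]
    obtain ⟨t, rfl⟩ := isConj_iff.1 hc
    have h1 : ((t * y * t⁻¹ : Subgroup.normalizer (Q : Set G)) : G) = (t : G) * y * (t : G)⁻¹ := by simp
    rw [if_pos (by rw [h1]; exact (conj_mem_centralizer_iff le_rfl t y).2 hyC), h1]
    exact coeff_classSum_of_isConj (isConj_iff.2 ⟨(t : G), rfl⟩)
  · rw [coeff_classSum_of_not_isConj hc]
    split_ifs with hh
    · apply coeff_classSum_of_not_isConj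
      intro h2
      apply hc
      obtain ⟨x, hx⟩ := isConj_iff.1 h2
      obtain ⟨u, hu, hu'⟩ := exists_conj_of_good (N := N) hQ hQN hyC hgood (x := x) (by rw [hx]; exact hh)
      refine isConj_iff.2 ⟨⟨u, hu⟩, Subtype.ext ?_⟩
      simp only [Subgroup.coe_mul, Subgroup.coe_inv]
      rw [hu', hx]
    · rfl

/-- **Uniqueness**: a block of `N_G(Q)`, a defect group of which meets `N` inside `Q`, is determined by the
block of `G` it induces. -/
theorem eq_of_isInducedBlock_of_defect (hM : IsPModular p M) (hQ : IsPGroup p Q) (hQN : Q ≤ N)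
    {B : Set (IrrCharacter G)} (hB : IsPBlock M B)
    {c₁ c₂ : Set (IrrCharacter (Subgroup.normalizer (Q : Set G)))} (hc₁ : IsPBlock M c₁) (hc₂ : IsPBlock M c₂)
    {P₁ : Subgroup (Subgroup.normalizer (Q : Set G))} (hP₁ : IsDefectGroup p M c₁ P₁)
    (hP₁N : ∀ r ∈ P₁, (r : G) ∈ N → (r : G) ∈ Q)
    (h₁ : IsInducedBlock M (Subgroup.normalizer (Q : Set G)) c₁ B)
    (h₂ : IsInducedBlock M (Subgroup.normalizer (Q : Set G)) c₂ B) : c₁ = c₂ := by
  classical
  obtain ⟨ξ₁, hξ₁⟩ := id hc₁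
  obtain ⟨ξ₂, hξ₂⟩ := id hc₂
  have hξ₁m : ξ₁ ∈ c₁ := by rw [hξ₁]; exact mem_blockOf_self ξ₁
  have hξ₂m : ξ₂ ∈ c₂ := by rw [hξ₂]; exact mem_blockOf_self ξ₂
  obtain ⟨χ, hχ⟩ := id hB
  have hχm : χ ∈ B := by rw [hχ]; exact mem_blockOf_self χ
  have hQle : Q ≤ Subgroup.normalizer (Q : Set G) := Subgroup.le_normalizer
  have hDn : (Q.subgroupOf (Subgroup.normalizer (Q : Set G))).Normal :=
    (Subgroup.normal_subgroupOf_iff_le_normalizer hQle).mpr le_rfl
  have hDp : IsPGroup p (Q.subgroupOf (Subgroup.normalizer (Q : Set G))) :=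
    hQ.comap_of_injective _ (Subgroup.subtype_injective _)
  set e := blockElt c₁ with he
  have hel : e ∈ localCenter (Subgroup.normalizer (Q : Set G)) M := blockElt_mem_localCenter hc₁
  have hterm : ∀ L : ConjClasses (Subgroup.normalizer (Q : Set G)),
      MemLocalIdeal M (e.coeff L.out * centralChar (ξ₁ : _ → ℂ) L.out -
        e.coeff L.out * centralChar (ξ₂ : _ → ℂ) L.out) := by
    intro L
    rw [← mul_sub]
    set h := L.out with hh
    by_cases ha : MemLocalIdeal M (e.coeff h)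
    · exact memLocalIdeal_mul_right ha (memLocalRing_sub (memLocalRing_centralChar ξ₁.2 _)
        (memLocalRing_centralChar ξ₂.2 _))
    refine memLocalIdeal_mul_left (hel.2 _) ?_
    by_cases hcent : h ∈ Subgroup.centralizer ((Q.subgroupOf (Subgroup.normalizer (Q : Set G))) :
        Set (Subgroup.normalizer (Q : Set G)))
    · have hhC : (h : G) ∈ Subgroup.centralizer (Q : Set G) := by
        rw [Subgroup.mem_centralizer_iff]
        intro q hq
        have := Subgroup.mem_centralizer_iff.1 hcent ⟨q, hQle hq⟩ (Subgroup.mem_subgroupOf.2 hq)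
        exact congrArg Subtype.val this
      have hgood : ∀ r : G, r ∈ Subgroup.normalizer (Q : Set G) → r ∈ N → r * h = h * r →
          IsPGroup p (Subgroup.zpowers r) → r ∈ Q := by
        intro r hrH hrN hrh hrp
        set r' : Subgroup.normalizer (Q : Set G) := ⟨r, hrH⟩ with hr'
        have hRp : IsPGroup p (Subgroup.zpowers r') := by
          have hmap : (Subgroup.zpowers r').map (Subgroup.normalizer (Q : Set G)).subtype =
              Subgroup.zpowers r := by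
            rw [MonoidHom.map_zpowers]
            rfl
          have h1 : IsPGroup p ((Subgroup.zpowers r').map (Subgroup.normalizer (Q : Set G)).subtype) := by
            rw [hmap]
            exact hrp
          exact h1.of_equiv (Subgroup.equivMapOfInjective _ _ (Subgroup.subtype_injective _)).symm
        have hRs : ∀ s ∈ Subgroup.zpowers r', s * h = h * s := by
          intro s hs
          obtain ⟨k, rfl⟩ := Subgroup.mem_zpowers_iff.1 hs
          have hc : Commute r' h := Subtype.ext hrh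
          exact (hc.zpow_left k).eq
        have ha' : ¬ MemLocalIdeal M (blockCoeff c₁ h) := by
          rwa [he, coeff_blockElt] at ha
        obtain ⟨x, hx⟩ := Cfsg.Agent.Lib.Blocks.Knorr.exists_conj_le_of_blockCoeff hM hc₁ hP₁ ha' hRp hRs
        have h1 := hx r' (Subgroup.mem_zpowers r')
        have h2 : ((x * r' * x⁻¹ : Subgroup.normalizer (Q : Set G)) : G) = (x : G) * r * (x : G)⁻¹ := by simp [hr']
        have h3 := hP₁N _ h1 (by rw [h2]; exact hN.conj_mem r hrN x)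
        rw [h2] at h3
        have h4 := (Subgroup.mem_normalizer_iff.1 x.2 r).2 h3
        exact h4
      have hbr := brauer_classSum_of_good (N := N) hQ hQN h hhC hgood
      have key : ∀ ξ : IrrCharacter (Subgroup.normalizer (Q : Set G)),
          MemLocalIdeal M (inducedCentralChar (Subgroup.normalizer (Q : Set G)) (ξ : _ → ℂ) (h : G) -
            centralChar (ξ : _ → ℂ) h) := by
        intro ξ
        have h1 := memLocalIdeal_induced_sub_brauer hM hQ hQle le_rfl ξ.2 (h : G)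
        rwa [brauerCentralChar_eq_omega, hbr, omega_classSum (isClassFunction_of_irr ξ.2)] at h1
      have h5 := h₁.2.2 ξ₁ hξ₁m χ hχm (h : G)
      have h6 := h₂.2.2 ξ₂ hξ₂m χ hχm (h : G)
      have h7 := memLocalIdeal_sub (memLocalIdeal_sub (key ξ₂) (key ξ₁)) (memLocalIdeal_sub h6 h5)
      convert h7 using 1
      ring
    · exact memLocalIdeal_sub
        (memLocalIdeal_centralChar_of_not_centralizer hM _ hDp ξ₁.2 hcent)
        (memLocalIdeal_centralChar_of_not_centralizer hM _ hDp ξ₂.2 hcent)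
  have hsum : MemLocalIdeal M (omega (ξ₁ : _ → ℂ) e - omega (ξ₂ : _ → ℂ) e) := by
    rw [omega_eq_sum_centralChar (isClassFunction_of_irr ξ₁.2) hel.1,
      omega_eq_sum_centralChar (isClassFunction_of_irr ξ₂.2) hel.1, ← Finset.sum_sub_distrib]
    exact memLocalIdeal_sum _ _ fun L _ => hterm L
  have hin : ξ₂ ∈ c₁ := by
    by_contra hno
    rw [he, omega_blockElt_of_mem hξ₁m, omega_blockElt_of_notMem hno, sub_zero] at hsum
    exact not_memLocalIdeal_one hsum
  rw [hξ₂]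
  rw [hξ₁] at hin ⊢
  exact (blockOf_eq_of_mem hin).symm

end Unique

section Bridge

variable {G : Type u} [Group G]

/-- `N_G(Q)`. -/
abbrev HH (Q : Subgroup G) : Subgroup G := Subgroup.normalizer (Q : Set G)

/-- `N_N(Q)`, as a subgroup of `N`. -/
abbrev NN (N Q : Subgroup G) : Subgroup N := Subgroup.normalizer ((Q.subgroupOf N : Subgroup N) : Set N)

/-- `N_G(Q) ⊓ N`. -/
abbrev LL (N Q : Subgroup G) : Subgroup G := HH Q ⊓ N

/-- `N_G(Q) ⊓ N`, as a subgroup of `N_G(Q)`. -/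
abbrev LH (N Q : Subgroup G) : Subgroup (HH Q) := (LL N Q).subgroupOf (HH Q)

variable {N Q : Subgroup G} [hN : N.Normal]

lemma mem_NN_iff (hQN : Q ≤ N) (x : N) : x ∈ NN N Q ↔ (x : G) ∈ HH Q := by
  rw [Subgroup.mem_normalizer_iff, Subgroup.mem_normalizer_iff]
  constructor
  · intro h q
    by_cases hq : q ∈ N
    · have := h ⟨q, hq⟩
      simpa [Subgroup.mem_subgroupOf] using this
    · have h1 : q ∉ Q := fun h2 => hq (hQN h2)
      have h2 : (x : G) * q * (x : G)⁻¹ ∉ Q := fun h3 => hq (by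
        have := hN.conj_mem _ (hQN h3) (x : G)⁻¹
        simpa [mul_assoc] using this)
      simp [h1, h2]
  · intro h n
    have := h (n : G)
    simpa [Subgroup.mem_subgroupOf] using this

omit hN in
lemma mem_centralizer_subgroupOf_iff (hQN : Q ≤ N) (x : N) :
    x ∈ Subgroup.centralizer ((Q.subgroupOf N : Subgroup N) : Set N) ↔
      (x : G) ∈ Subgroup.centralizer (Q : Set G) := by
  rw [Subgroup.mem_centralizer_iff, Subgroup.mem_centralizer_iff]
  constructor
  · intro h q hq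
    have := h ⟨q, hQN hq⟩ (Subgroup.mem_subgroupOf.2 hq)
    exact congrArg Subtype.val this
  · intro h q hq
    exact Subtype.ext (h q (Subgroup.mem_subgroupOf.1 hq))

/-- `N_N(Q)` and `N_G(Q) ⊓ N`. -/
def psiN (hQN : Q ≤ N) : NN N Q ≃* LL N Q where
  toFun x := ⟨x.1.1, (mem_NN_iff hQN x.1).1 x.2, x.1.2⟩
  invFun y := ⟨⟨y.1, y.2.2⟩, (mem_NN_iff hQN ⟨y.1, y.2.2⟩).2 y.2.1⟩
  left_inv _ := rfl
  right_inv _ := rfl
  map_mul' _ _ := rfl

/-- `N_G(Q) ⊓ N`, inside `N_G(Q)`. -/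
noncomputable abbrev phiH (N Q : Subgroup G) : LH N Q ≃* LL N Q :=
  Subgroup.subgroupOfEquivOfLe inf_le_left

instance LH_normal : (LH N Q).Normal := by
  have h : LH N Q = N.subgroupOf (HH Q) := Subgroup.inf_subgroupOf_left _ _
  rw [h]
  infer_instance

lemma classInner_phiH [Fintype (HH Q)] [Fintype (LL N Q)] [Fintype (LH N Q)] (ψ : HH Q → ℂ)
    (θ : IrrCharacter (LL N Q)) :
    classInner (fun n : LH N Q => ψ n) (irrComap (phiH N Q) θ : LH N Q → ℂ) =
      classInner (fun n : LL N Q => ψ (Subgroup.inclusion inf_le_left n)) (θ : LL N Q → ℂ) := by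
  simp only [classInner]
  rw [Nat.card_congr (phiH N Q).toEquiv]
  congr 1
  exact Equiv.sum_comp (phiH N Q).toEquiv
    (fun n : LL N Q => ψ (Subgroup.inclusion inf_le_left n) * conj ((θ : LL N Q → ℂ) n))

variable [Fintype G] {p : ℕ} [Fact p.Prime] {M : Ideal AlgInt} [M.IsPrime] [Fintype N] [Fintype (HH Q)]
  [Fintype (NN N Q)] [Fintype (LL N Q)] [Fintype (LH N Q)]

theorem omega_bridge (hQN : Q ≤ N) {ξ : HH Q → ℂ} (hξ : IsIrrCharacter (HH Q) ξ)
    (ν : IrrCharacter (LL N Q))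
    (hcon : classInner (fun l : LL N Q => ξ (Subgroup.inclusion inf_le_left l)) (ν : LL N Q → ℂ) ≠ 0)
    {f : MonoidAlgebra ℂ N} (hf : push N f ∈ localCenter G M) :
    omega ξ (brauer Q (HH Q) (push N f)) =
      omega (irrComap (psiN hQN) ν : NN N Q → ℂ) (brauer (Q.subgroupOf N) (NN N Q) f) := by
  classical
  set A : MonoidAlgebra ℂ (LH N Q) := ofFun (fun l =>
    if ((l : HH Q) : G) ∈ Subgroup.centralizer (Q : Set G) then
      f.coeff ⟨((l : HH Q) : G), (phiH N Q l).2.2⟩ else 0) with hA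
  have hpush : push (LH N Q) A = brauer Q (HH Q) (push N f) := by
    apply ext_coeff
    intro h
    rw [coeff_brauer]
    by_cases hh : h ∈ LH N Q
    · have h1 := coeff_push_coe (LH N Q) A ⟨h, hh⟩
      simp only at h1
      rw [h1, hA, coeff_ofFun]
      have h2 := coeff_push_coe N f ⟨(h : G), (Subgroup.mem_subgroupOf.1 hh).2⟩
      simp only at h2
      rw [h2]
    · rw [coeff_push_of_notMem _ _ hh]
      have h3 : (h : G) ∉ N := fun hn => hh (Subgroup.mem_subgroupOf.2 ⟨h.2, hn⟩)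
      rw [coeff_push_of_notMem N f h3]
      simp
  have h1 := omega_push_eq_of_constituent hξ (irrComap (phiH N Q) ν).2
    (by rw [classInner_phiH]; exact hcon) (a := A)
    (by rw [hpush]; exact (brauer_mem_localCenter le_rfl hf).1)
  rw [← hpush, h1, omega, omega]
  simp only [coe_irrComap, map_one]
  congr 1
  rw [← Equiv.sum_comp ((phiH N Q).trans (psiN hQN).symm).toEquiv]
  refine Finset.sum_congr rfl fun l _ => ?_
  have h2 : ((psiN hQN) (((phiH N Q).trans (psiN hQN).symm).toEquiv l)) = phiH N Q l := by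
    simp
  rw [h2]
  congr 1
  rw [hA, coeff_ofFun, coeff_brauer]
  have h3 : ((((phiH N Q).trans (psiN hQN).symm).toEquiv l : NN N Q) : N) =
      ⟨((l : HH Q) : G), (phiH N Q l).2.2⟩ := rfl
  rw [h3]
  by_cases h4 : ((l : HH Q) : G) ∈ Subgroup.centralizer (Q : Set G)
  · rw [if_pos h4, if_pos ((mem_centralizer_subgroupOf_iff hQN _).2 h4)]
  · rw [if_neg h4, if_neg (fun h5 => h4 ((mem_centralizer_subgroupOf_iff hQN _).1 h5))]

/-- **Covering along the Brauer map**. -/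
theorem covers_of_brauer (hM : IsPModular p M) (hQ : IsPGroup p Q) (hQN : Q ≤ N)
    (ξ : IrrCharacter (HH Q)) (ν : IrrCharacter (LL N Q))
    (hcon : classInner (fun l : LL N Q => (ξ : HH Q → ℂ) (Subgroup.inclusion inf_le_left l))
      (ν : LL N Q → ℂ) ≠ 0)
    (χ : IrrCharacter G)
    (hχ : ∀ z : localCenter G M,
      MemLocalIdeal M (omega (ξ : HH Q → ℂ) (brauer Q (HH Q) z.1) - omega (χ : G → ℂ) z.1))
    {d₀ : Set (IrrCharacter N)} (hd₀ : IsPBlock M d₀) {e₀ : Set (IrrCharacter (NN N Q))}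
    (he₀ : irrComap (psiN hQN) ν ∈ e₀) (hind : IsInducedBlock M (NN N Q) e₀ d₀) :
    ∃ θ ∈ d₀, classInner (fun n : N => (χ : G → ℂ) n) (θ : N → ℂ) ≠ 0 := by
  classical
  have hA := isConjStable_conjOrbit (G := G) d₀
  set A := conjOrbit (G := G) d₀ with hAdef
  have hloc : blockElt A ∈ localCenter N M :=
    Cfsg.Agent.Lib.Blocks.Covering2.blockElt_conjOrbit_mem_localCenter hd₀
  have hz : push N (blockElt A) ∈ localCenter G M :=
    push_mem_localCenter (isClassFunction_pushBlock hA) hloc.2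
  obtain ⟨θ₀, hθ₀⟩ := id hd₀
  have hθ₀m : θ₀ ∈ d₀ := by rw [hθ₀]; exact mem_blockOf_self θ₀
  have h1 := hχ ⟨_, hz⟩
  simp only at h1
  rw [omega_bridge hQN ξ.2 ν hcon hz] at h1
  have hQ' : IsPGroup p (Q.subgroupOf N) := hQ.comap_of_injective _ (Subgroup.subtype_injective _)
  have hQ'le : Q.subgroupOf N ≤ NN N Q := Subgroup.le_normalizer
  have h2 := Cfsg.Agent.Lib.Blocks.BrauerCoeff.brauer_of_isInducedBlock hM hQ' hQ'le le_rfl
    (fun g => hind.2.2 _ he₀ θ₀ hθ₀m g) ⟨_, hloc⟩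
  simp only at h2
  rw [omega_blockElt_of_mem (subset_conjOrbit d₀ hθ₀m)] at h2
  have h3 := memLocalIdeal_sub h2 h1
  have h4 : MemLocalIdeal M (omega (χ : G → ℂ) (pushBlock A) - 1) := by
    convert h3 using 1
    rw [pushBlock]
    ring
  obtain ⟨θ₁, hθ₁⟩ := exists_constituent (N := N) χ.2
  have hθ₁A : θ₁ ∈ A := by
    by_contra hno
    rw [omega_pushBlock_of_notMem hA χ.2 hθ₁ hno, zero_sub] at h4
    apply not_memLocalIdeal_one (M := M)
    have h5 := memLocalIdeal_sub memLocalIdeal_zero h4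
    simpa using h5
  obtain ⟨g, θ₂, hθ₂, rfl⟩ := hθ₁A
  refine ⟨θ₂, hθ₂, ?_⟩
  rwa [classInner_conjIrr (isClassFunction_of_irr χ.2)] at hθ₁

omit [Fintype G] [Fintype N] [Fintype (HH Q)] [Fintype (NN N Q)] [Fintype (LL N Q)] [Fintype (LH N Q)] [M.IsPrime] in
/-- From induction in `N`, given inside `G`, to induction in the group `N`. -/
theorem isInducedBlock_of_in [Finite G] (hQN : Q ≤ N) {e : Set (IrrCharacter (LL N Q))} {d : Set (IrrCharacter N)}
    (hed : IsInducedBlockIn M N (LL N Q) e d) :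
    IsInducedBlock M (NN N Q) (blockMap (psiN hQN) e) d := by
  refine ⟨isPBlock_blockMap _ hed.1, hed.2.1, ?_⟩
  rintro _ ⟨ξ, hξ, rfl⟩ χ hχ g
  have h1 := hed.2.2 ξ hξ χ hχ g
  convert h1 using 2
  rw [inducedCentralChar, inducedCentralCharIn]
  apply finsum_mem_eq_of_bijOn (psiN hQN)
  · refine ⟨?_, (psiN hQN).injective.injOn, ?_⟩
    · intro h hh
      obtain ⟨x, hx⟩ := isConj_iff.1 (IsConj.symm hh)
      exact ⟨x, congrArg Subtype.val hx⟩
    · rintro k ⟨x, hx⟩
      refine ⟨(psiN hQN).symm k, ?_, by simp⟩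
      refine IsConj.symm (isConj_iff.2 ⟨x, Subtype.ext hx⟩)
  · intro h _
    simp

end Bridge

section Conj

lemma isConj_apply_iff' {X : Type*} [Group X] (φ : X ≃* X) {a b : X} : IsConj (φ a) (φ b) ↔ IsConj a b := by
  rw [isConj_iff, isConj_iff]
  constructor
  · rintro ⟨c, hc⟩
    refine ⟨φ.symm c, φ.injective ?_⟩
    simpa using hc
  · rintro ⟨c, rfl⟩
    exact ⟨φ c, by simp⟩

lemma inducedCentralChar_comap {X : Type*} [Group X] (φ : X ≃* X) (H : Subgroup X) (τ : H ≃* H)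
    (hτ : ∀ h : H, ((τ h : H) : X) = φ h) (ξ : H → ℂ) (g : X) :
    inducedCentralChar H (fun h => ξ (τ h)) g = inducedCentralChar H ξ (φ g) := by
  rw [inducedCentralChar, inducedCentralChar]
  apply finsum_mem_eq_of_bijOn τ
  · refine ⟨?_, τ.injective.injOn, ?_⟩
    · intro h hh
      show IsConj (φ g) ((τ h : H) : X)
      rw [hτ]
      exact (isConj_apply_iff' φ).2 hh
    · intro k hk
      refine ⟨τ.symm k, ?_, by simp⟩
      show IsConj g ((τ.symm k : H) : X)
      apply (isConj_apply_iff' φ).1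
      rw [← hτ]
      simpa using hk
  · intro h _
    simp

lemma isInducedBlock_comap {X : Type*} [Group X] [Finite X] {M : Ideal AlgInt} (φ : X ≃* X) (H : Subgroup X)
    (τ : H ≃* H) (hτ : ∀ h : H, ((τ h : H) : X) = φ h) {b : Set (IrrCharacter H)} {B : Set (IrrCharacter X)}
    (h : IsInducedBlock M H b B) : IsInducedBlock M H (blockMap τ b) (blockMap φ B) := by
  refine ⟨isPBlock_blockMap _ h.1, isPBlock_blockMap _ h.2.1, ?_⟩
  rintro _ ⟨ξ, hξ, rfl⟩ _ ⟨χ, hχ, rfl⟩ g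
  have h1 := h.2.2 ξ hξ χ hχ (φ g)
  show MemLocalIdeal M (inducedCentralChar H (fun h => (ξ : H → ℂ) (τ h)) g -
    centralChar (fun a => (χ : X → ℂ) (φ a)) g)
  rw [inducedCentralChar_comap φ H τ hτ, centralChar_comap]
  exact h1

lemma classInner_comap {A B : Type*} [Group A] [Group B] [Fintype A] [Fintype B] (ρ : A ≃* B) (f g : B → ℂ) :
    classInner (fun a => f (ρ a)) (fun a => g (ρ a)) = classInner f g := by
  simp only [classInner]
  rw [Nat.card_congr ρ.toEquiv]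
  congr 1
  exact Equiv.sum_comp ρ.toEquiv (fun b => f b * conj (g b))

variable {G : Type u} [Group G] {N Q : Subgroup G} [hN : N.Normal]

/-- Conjugation by an element of `N_G(Q)` on `N_N(Q)`. -/
def tauN (hQN : Q ≤ N) (t : G) (ht : t ∈ HH Q) : NN N Q ≃* NN N Q where
  toFun h := ⟨MulAut.conjNormal t h.1, (mem_NN_iff hQN _).2 (by
    have h1 := (mem_NN_iff hQN _).1 h.2
    simpa [MulAut.conjNormal_apply] using (HH Q).mul_mem ((HH Q).mul_mem ht h1) ((HH Q).inv_mem ht))⟩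
  invFun h := ⟨MulAut.conjNormal t⁻¹ h.1, (mem_NN_iff hQN _).2 (by
    have h1 := (mem_NN_iff hQN _).1 h.2
    have ht' := (HH Q).inv_mem ht
    simpa [MulAut.conjNormal_apply] using (HH Q).mul_mem ((HH Q).mul_mem ht' h1) ht)⟩
  left_inv h := by
    apply Subtype.ext
    simp
  right_inv h := by
    apply Subtype.ext
    simp
  map_mul' x y := by
    apply Subtype.ext
    simp

end Conj

section Main

variable {G : Type u} [Group G] [Fintype G] {p : ℕ} [Fact p.Prime] {M : Ideal AlgInt}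
  {N Q : Subgroup G} [hN : N.Normal] [Fintype N] [Fintype (LL N Q)]

lemma eq_blockOf_of_mem {X : Type*} [Group X] [Fintype X] [M.IsPrime] {b : Set (IrrCharacter X)} (hb : IsPBlock M b)
    {θ : IrrCharacter X} (h : θ ∈ b) : b = blockOf M (θ : X → ℂ) := by
  obtain ⟨θ₀, rfl⟩ := hb
  exact (blockOf_eq_of_mem h).symm

/-- The first half. -/
theorem exists_unique_induced (hM : IsPModular p M) (hQ : IsPGroup p Q) (hQN : Q ≤ N)
    {d : Set (IrrCharacter N)} {e : Set (IrrCharacter (LL N Q))}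
    (hed : IsInducedBlockIn M N (LL N Q) e d) {c : Set (IrrCharacter (HH Q))} (hc : IsPBlock M c)
    (hcov : ∃ ψ ∈ c, ∃ ξ ∈ e, classInner (fun l : LL N Q => (ψ : HH Q → ℂ) (Subgroup.inclusion inf_le_left l))
      (ξ : LL N Q → ℂ) ≠ 0) :
    ∃! B : Set (IrrCharacter G), IsInducedBlock M (HH Q) c B ∧
      ∃ χ ∈ B, ∃ θ ∈ d, classInner (fun n : N => (χ : G → ℂ) n) (θ : N → ℂ) ≠ 0 := by
  classical
  letI : Fintype (HH Q) := Fintype.ofFinite _
  letI : Fintype (NN N Q) := Fintype.ofFinite _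
  letI : Fintype (LH N Q) := Fintype.ofFinite _
  haveI := isPrime_of_isPModular hM
  obtain ⟨ψ, hψ, ν, hν, hcon⟩ := hcov
  obtain ⟨B, hB⟩ := Cfsg.Agent.S0919.result p M hM Q (HH Q) hQ Subgroup.le_normalizer
    (Subgroup.centralizer_le_normalizer _) le_rfl c hc
  refine ⟨B, ⟨hB, ?_⟩, fun B' hB' => Cfsg.Agent.Lib.Blocks.FirstMain2.induced_unique hB'.1 hB⟩
  obtain ⟨χ, hχ⟩ := id hB.2.1
  have hχm : χ ∈ B := by rw [hχ]; exact mem_blockOf_self χ
  refine ⟨χ, hχm, ?_⟩
  exact covers_of_brauer hM hQ hQN ψ ν hcon χ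
    (fun z => Cfsg.Agent.Lib.Blocks.BrauerCoeff.brauer_of_isInducedBlock hM hQ Subgroup.le_normalizer le_rfl
      (fun g => hB.2.2 ψ hψ χ hχm g) z) hed.2.1 (irrComap_mem_blockMap _ hν) (isInducedBlock_of_in hQN hed)

/-- The uniqueness in the second half. -/
theorem unique_covering (hM : IsPModular p M) (hQ : IsPGroup p Q) (hQN : Q ≤ N)
    {e : Set (IrrCharacter (LL N Q))} (he : IsPBlock M e)
    (heQ : IsDefectGroup p M e (Q.subgroupOf (LL N Q))) {B : Set (IrrCharacter G)} (hB : IsPBlock M B)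
    {c₁ c₂ : Set (IrrCharacter (HH Q))} (hc₁ : IsPBlock M c₁) (hc₂ : IsPBlock M c₂)
    (hcov : ∃ ψ ∈ c₁, ∃ ξ ∈ e, classInner (fun l : LL N Q => (ψ : HH Q → ℂ) (Subgroup.inclusion inf_le_left l))
      (ξ : LL N Q → ℂ) ≠ 0)
    (h₁ : IsInducedBlock M (HH Q) c₁ B) (h₂ : IsInducedBlock M (HH Q) c₂ B) : c₁ = c₂ := by
  classical
  letI : Fintype (HH Q) := Fintype.ofFinite _
  letI : Fintype (LH N Q) := Fintype.ofFinite _
  haveI := isPrime_of_isPModular hM
  obtain ⟨ψ, hψ, ξ, hξ, hcon⟩ := hcov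
  obtain ⟨P, hP, hPN⟩ := Cfsg.Agent.Lib.Blocks.Knorr.exists_defect_inf_eq (G := HH Q) (N := LH N Q) hM hc₁
    (isPBlock_blockMap (phiH N Q) he) (isDefectGroup_blockMap (phiH N Q) heQ) hψ
    (θ := irrComap (phiH N Q) ξ) (irrComap_mem_blockMap _ hξ) (by rw [classInner_phiH]; exact hcon)
  refine eq_of_isInducedBlock_of_defect (N := N) hM hQ hQN hB hc₁ hc₂ hP ?_ h₁ h₂
  intro r hr hrN
  have h1 : r ∈ P ⊓ LH N Q := ⟨hr, Subgroup.mem_subgroupOf.2 ⟨r.2, hrN⟩⟩
  rw [hPN] at h1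
  obtain ⟨q, hq, rfl⟩ := h1
  exact Subgroup.mem_subgroupOf.1 hq

/-- The existence in the second half. -/
theorem exists_covering (hM : IsPModular p M) (hQ : IsPGroup p Q) (hQN : Q ≤ N)
    {d : Set (IrrCharacter N)} (hd : IsPBlock M d) (hdQ : IsDefectGroup p M d (Q.subgroupOf N))
    {e : Set (IrrCharacter (LL N Q))} (heQ : IsDefectGroup p M e (Q.subgroupOf (LL N Q)))
    (hed : IsInducedBlockIn M N (LL N Q) e d) {B : Set (IrrCharacter G)} (hB : IsPBlock M B)
    (hcov : ∃ χ ∈ B, ∃ θ ∈ d, classInner (fun n : N => (χ : G → ℂ) n) (θ : N → ℂ) ≠ 0) :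
    ∃ c : Set (IrrCharacter (HH Q)), (IsPBlock M c ∧
      ∃ ψ ∈ c, ∃ ξ ∈ e, classInner (fun l : LL N Q => (ψ : HH Q → ℂ) (Subgroup.inclusion inf_le_left l))
        (ξ : LL N Q → ℂ) ≠ 0) ∧ IsInducedBlock M (HH Q) c B := by
  classical
  letI : Fintype (HH Q) := Fintype.ofFinite _
  letI : Fintype (NN N Q) := Fintype.ofFinite _
  letI : Fintype (LH N Q) := Fintype.ofFinite _
  haveI := isPrime_of_isPModular hM
  obtain ⟨χ, hχ, θ, hθ, hcon⟩ := hcov
  have hQ' : IsPGroup p (Q.subgroupOf N) := hQ.comap_of_injective _ (Subgroup.subtype_injective _)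
  -- Step 1: `Q` lies in a defect group of `B`
  obtain ⟨D, hD, hDN⟩ := Cfsg.Agent.Lib.Blocks.Knorr.exists_defect_inf_eq hM hB hd hdQ hχ hθ hcon
  have hQD : Q ≤ D := by
    intro q hq
    have h1 : q ∈ D ⊓ N := by
      rw [hDN]
      exact ⟨⟨q, hQN hq⟩, Subgroup.mem_subgroupOf.2 hq, rfl⟩
    exact h1.1
  -- Step 2: `B` is induced from `H`
  obtain ⟨c₀, hc₀⟩ := (Cfsg.Agent.S0958.result p M hM Q (HH Q) hQ
    (sup_le Subgroup.le_normalizer (Subgroup.centralizer_le_normalizer _)) le_rfl B hB).2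
    ⟨D, hD, 1, by
      rintro _ ⟨q, hq, rfl⟩
      simpa using hQD hq⟩
  obtain ⟨ξ₀, hξ₀⟩ := id hc₀.1
  have hξ₀m : ξ₀ ∈ c₀ := by rw [hξ₀]; exact mem_blockOf_self ξ₀
  -- Step 3: a block of `L` covered by `c₀`, and the block of `N` it induces
  obtain ⟨ν₀'', hν₀''⟩ := exists_constituent (N := LH N Q) ξ₀.2
  set ν₀ := irrComap (phiH N Q).symm ν₀'' with hν₀
  have hcon₀ : classInner (fun l : LL N Q => (ξ₀ : HH Q → ℂ) (Subgroup.inclusion inf_le_left l))
      (ν₀ : LL N Q → ℂ) ≠ 0 := by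
    rw [← classInner_phiH, hν₀, irrComap_irrComap_symm]
    exact hν₀''
  set ν₀' := irrComap (psiN hQN) ν₀ with hν₀'
  have hQ'le : Q.subgroupOf N ≤ NN N Q := Subgroup.le_normalizer
  obtain ⟨d₀, hd₀⟩ := Cfsg.Agent.S0919.result p M hM (Q.subgroupOf N) (NN N Q) hQ' hQ'le
    (Subgroup.centralizer_le_normalizer _) le_rfl (blockOf M (ν₀' : NN N Q → ℂ)) ⟨ν₀', rfl⟩
  -- Step 4: `B` covers `d₀`
  obtain ⟨χ₀, hχ₀⟩ := id hB
  have hχ₀m : χ₀ ∈ B := by rw [hχ₀]; exact mem_blockOf_self χ₀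
  obtain ⟨θ₀, hθ₀, hcon'⟩ := covers_of_brauer hM hQ hQN ξ₀ ν₀ hcon₀ χ₀
    (fun z => Cfsg.Agent.Lib.Blocks.BrauerCoeff.brauer_of_isInducedBlock hM hQ Subgroup.le_normalizer le_rfl
      (fun g => hc₀.2.2 ξ₀ hξ₀m χ₀ hχ₀m g) z) hd₀.2.1 (mem_blockOf_self ν₀') hd₀
  -- Step 5: `d₀` is conjugate to `d` under `N_G(Q)`
  have hsame : SameBlock M (χ : G → ℂ) (χ₀ : G → ℂ) := by
    rw [hχ₀] at hχ
    exact sameBlock_symm hχ
  have hθ₀A : θ₀ ∈ conjOrbit (G := G) d := mem_of_sameBlock_of_constituent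
    (isConjStable_conjOrbit d) (Cfsg.Agent.Lib.Blocks.Covering2.blockElt_conjOrbit_mem_localCenter hd).2 χ.2 χ₀.2
    hsame hcon (subset_conjOrbit d hθ) hcon'
  obtain ⟨g, θ₁, hθ₁, hθ₀eq⟩ := hθ₀A
  have hconjb : ∀ (s : G), θ₀ = conjIrr s θ₁ → d₀ = blockMap (MulAut.conjNormal s) d := by
    intro s hs
    rw [eq_blockOf_of_mem hd₀.2.1 hθ₀, eq_blockOf_of_mem hd hθ₁, hs]
    exact blockOf_comap (MulAut.conjNormal s) θ₁
  have hdefg : IsDefectGroup p M d₀ ((Q.subgroupOf N).comap (MulAut.conjNormal g).toMonoidHom) := by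
    rw [hconjb g hθ₀eq]
    exact isDefectGroup_blockMap _ hdQ
  -- the defect group of the block of `N_N(Q)`
  obtain ⟨k, hk⟩ := exists_isDefectClass (M := M) (B := blockOf M (ν₀' : NN N Q → ℂ)) ⟨ν₀', rfl⟩
  obtain ⟨S'⟩ : Nonempty (Sylow p (Subgroup.centralizer ({k} : Set (NN N Q)))) := inferInstance
  have hdb : IsDefectGroup p M (blockOf M (ν₀' : NN N Q → ℂ)) ((S' : Subgroup _).map
      (Subgroup.centralizer ({k} : Set (NN N Q))).subtype) := ⟨k, hk, S', rfl⟩
  have hcore := Cfsg.Agent.S0912.result p M hM _ ⟨ν₀', rfl⟩ _ hdb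
  have hDn : ((Q.subgroupOf N).subgroupOf (NN N Q)).Normal :=
    (Subgroup.normal_subgroupOf_iff_le_normalizer hQ'le).mpr le_rfl
  have hDp : IsPGroup p ((Q.subgroupOf N).subgroupOf (NN N Q)) :=
    hQ'.comap_of_injective _ (Subgroup.subtype_injective _)
  have hDcore := Cfsg.Agent.Lib.Basic.PCore.le_pCore hDn hDp
  obtain ⟨E, hE, hDbE⟩ := Cfsg.Agent.Lib.Blocks.Induced.induced_block_defect_group_le hM _ _ ⟨ν₀', rfl⟩ d₀
    hd₀.2.1 hd₀ _ hdb
  obtain ⟨n, hn⟩ := Cfsg.Agent.Lib.Blocks.HeightZero.exists_map_conj_eq_of_isDefectGroup hM hd₀.2.1 hdefg hE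
  set t : G := g * n with ht
  have htH : t ∈ HH Q := by
    apply mem_normalizer_of_conj_mem
    intro q hq
    have hq' : (⟨q, hQN hq⟩ : N) ∈ Q.subgroupOf N := Subgroup.mem_subgroupOf.2 hq
    have h1 : (⟨q, hQN hq⟩ : N) ∈ E := by
      apply hDbE
      refine ⟨⟨⟨q, hQN hq⟩, hQ'le hq'⟩, ?_, rfl⟩
      exact hcore (hDcore (Subgroup.mem_subgroupOf.2 hq'))
    have h2 : (MulAut.conj n).toMonoidHom (⟨q, hQN hq⟩ : N) ∈ (Q.subgroupOf N).comap (MulAut.conjNormal g).toMonoidHom := by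
      rw [← hn]
      exact ⟨_, h1, rfl⟩
    have h3 := Subgroup.mem_subgroupOf.1 (Subgroup.mem_comap.1 h2)
    simp only [MulEquiv.toMonoidHom_eq_coe, MonoidHom.coe_coe, MulAut.conj_apply, MulAut.conjNormal_apply,
      Subgroup.coe_mul, Subgroup.coe_inv] at h3
    have h4 : t * q * t⁻¹ = g * ((n : G) * q * (n : G)⁻¹) * g⁻¹ := by
      rw [ht]
      group
    rw [h4]
    exact h3
  have hθ₀t : θ₀ = conjIrr t θ₁ := by
    rw [ht, ← conjIrr_conjIrr, ← hθ₀eq, Cfsg.Agent.Lib.Blocks.Knorr.conjIrr_of_mem]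
  have hd₀t := hconjb t hθ₀t
  -- Step 6: `e` conjugated by `t` induces `d₀`
  set τ := tauN hQN t htH with hτ
  have hind1 : IsInducedBlock M (NN N Q) (blockMap τ (blockMap (psiN hQN) e)) d₀ := by
    rw [hd₀t]
    exact isInducedBlock_comap (MulAut.conjNormal t) (NN N Q) τ (fun _ => rfl) (isInducedBlock_of_in hQN hed)
  have hdef1 : IsDefectGroup p M (blockMap τ (blockMap (psiN hQN) e)) ((Q.subgroupOf N).subgroupOf (NN N Q)) := by
    have h1 := isDefectGroup_blockMap (p := p) τ (isDefectGroup_blockMap (p := p) (psiN hQN) heQ)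
    convert h1 using 1
    ext x
    simp only [Subgroup.mem_comap, Subgroup.mem_subgroupOf]
    have hx := (Subgroup.mem_normalizer_iff.1 htH (((x : NN N Q) : N) : G))
    rw [hx]
    rfl
  have heq := Cfsg.Agent.Lib.Blocks.FirstMain.eq_of_isInducedBlock hM hQ' hd₀.2.1 hind1.1 ⟨ν₀', rfl⟩ hdef1 hind1 hd₀
  -- Step 7: conclusion
  have hν₀'m : ν₀' ∈ blockMap τ (blockMap (psiN hQN) e) := by
    rw [heq]
    exact mem_blockOf_self ν₀'
  rw [mem_blockMap_iff, mem_blockMap_iff] at hν₀'m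
  refine ⟨c₀, ⟨hc₀.1, ξ₀, hξ₀m, _, hν₀'m, ?_⟩, hc₀⟩
  set ρ : LL N Q ≃* LL N Q := (psiN hQN).symm.trans (τ.symm.trans (psiN hQN)) with hρ
  have h2 : (irrComap (psiN hQN).symm (irrComap τ.symm ν₀') : LL N Q → ℂ) = fun l => (ν₀ : LL N Q → ℂ) (ρ l) := rfl
  rw [h2]
  have h3 : (fun l : LL N Q => (ξ₀ : HH Q → ℂ) (Subgroup.inclusion inf_le_left l)) =
      fun l => (ξ₀ : HH Q → ℂ) (Subgroup.inclusion inf_le_left (ρ l)) := by
    funext l
    have h4 := isClassFunction_of_irr ξ₀.2 (Subgroup.inclusion inf_le_left l) (⟨t, htH⟩⁻¹ : HH Q)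
    rw [← h4]
    congr 1
  rw [h3, classInner_comap ρ (fun l => (ξ₀ : HH Q → ℂ) (Subgroup.inclusion inf_le_left l))
    (ν₀ : LL N Q → ℂ)]
  exact hcon₀

end Main

end Cfsg.Agent.Lib.Blocks.HarrisKnorr
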