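/-
Two-groups with no noncyclic abelian subgroup of order eight and with an automorphism of odd
order acting nontrivially: they are four-groups or quaternion groups of order eight.
-/
import Mathlib
import Cfsg.Agent.Lib.PGroup.Basic
import Cfsg.Agent.Lib.PGroup.CyclicMax
import Cfsg.Agent.Lib.PGroup.LocalIndex
import Cfsg.Agent.Lib.PqFpf.Struct
import Cfsg.Agent.Lib.Frobenius.Norm

set_option autoImplicit false
set_option linter.style.longLine false

open Subgroup

namespace Cfsg.Agent.Lib.Blocks.NoA8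

variable {G : Type*} [Group G] [Finite G]

/-- No noncyclic abelian subgroup of order eight inside `Y`. -/
def NoA (Y : Subgroup G) : Prop :=
  ∀ A : Subgroup G, A ≤ Y → IsMulCommutative A → ¬ IsCyclic A → Nat.card A ≠ 8

theorem NoA.mono {Y Y' : Subgroup G} (h : NoA Y') (hle : Y ≤ Y') : NoA Y :=
  fun A hA => h A (hA.trans hle)

theorem exists_two_pow {R : Subgroup G} (h : IsPGroup 2 R) {x : G} (hx : x ∈ R) :
    ∃ k : ℕ, x ^ 2 ^ k = 1 := by
  obtain ⟨k, hk⟩ := h ⟨x, hx⟩
  exact ⟨k, by simpa using congrArg Subtype.val hk⟩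

/-- An abelian noncyclic `2`-subgroup of order at least eight violates `NoA`. -/
theorem not_noA_of_abelian {B : Subgroup G} (hc : IsMulCommutative B) (h2 : IsPGroup 2 B)
    (hnc : ¬ IsCyclic B) (h8 : 8 ≤ Nat.card B) : ¬ NoA B := by
  classical
  intro hno
  haveI : Fact (Nat.Prime 2) := ⟨Nat.prime_two⟩
  letI : CommGroup B := { (inferInstance : Group B) with mul_comm := hc.is_comm.comm }
  obtain ⟨p, hp, E, hE, hEp⟩ := Cfsg.Agent.Lib.Frobenius.Norm.exists_elementary_of_not_isCyclic hnc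
  obtain ⟨n, hn⟩ := IsPGroup.iff_card.mp h2
  have hp2 : p = 2 := by
    have h1 : p ∣ Nat.card B := by
      rw [← Subgroup.card_mul_index E, hE]
      exact Dvd.dvd.mul_right (dvd_pow_self p (by norm_num)) _
    rw [hn] at h1
    exact (Nat.prime_dvd_prime_iff_eq hp Nat.prime_two).mp (hp.dvd_of_dvd_pow h1)
  subst hp2
  have h3 : 3 ≤ n := by
    by_contra hlt
    have : n ≤ 2 := by omega
    have h4 : 2 ^ n ≤ 2 ^ 2 := Nat.pow_le_pow_right (by norm_num) this
    rw [hn] at h8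
    omega
  have hdvd : 2 ^ (2 + 1) ∣ Nat.card B := by
    rw [hn]
    exact pow_dvd_pow 2 (by omega)
  obtain ⟨K, hK, hEK⟩ := Sylow.exists_subgroup_card_pow_succ (p := 2) (n := 2) hdvd (H := E) (by rw [hE])
  refine hno (K.map B.subtype) (Subgroup.map_subtype_le K) ?_ ?_ ?_
  · refine ⟨⟨?_⟩⟩
    rintro ⟨_, x, hx, rfl⟩ ⟨_, y, hy, rfl⟩
    apply Subtype.ext
    show (x : G) * y = y * x
    exact congrArg Subtype.val (mul_comm x y)
  · intro hcyc
    have hKc : IsCyclic K := by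
      have e : K ≃* K.map B.subtype := K.equivMapOfInjective B.subtype Subtype.val_injective
      exact isCyclic_of_surjective e.symm e.symm.surjective
    have hEc : IsCyclic E := by
      have hin : IsCyclic (E.subgroupOf K) := inferInstance
      have e : E.subgroupOf K ≃* E := Subgroup.subgroupOfEquivOfLe hEK
      exact isCyclic_of_surjective e e.surjective
    obtain ⟨g, hg⟩ := hEc.exists_generator
    have hg2 : g ^ 2 = 1 := by
      apply Subtype.ext
      exact hEp g g.2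
    have hg4 : orderOf g = 4 := by
      have : orderOf g = Nat.card E := orderOf_eq_card_of_forall_mem_zpowers hg
      rw [this, hE]; norm_num
    have := orderOf_le_of_pow_eq_one (by norm_num : 0 < 2) hg2
    omega
  · rw [Subgroup.card_map_of_injective Subtype.val_injective, hK]
    norm_num

theorem twist_eq_one {q x b : G} (hq : Odd (orderOf q)) (hb : q * b * q⁻¹ = b)
    (hx : q * x * q⁻¹ = x * b) {k : ℕ} (hk : b ^ 2 ^ k = 1) : b = 1 := by
  have h1 : ∀ n : ℕ, q ^ n * x * (q ^ n)⁻¹ = x * b ^ n := by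
    intro n
    induction n with
    | zero => simp
    | succ n ih =>
      have hb' : q * b ^ n * q⁻¹ = b ^ n := by
        rw [← conj_pow, hb]
      calc q ^ (n+1) * x * (q ^ (n+1))⁻¹ = q * (q ^ n * x * (q ^ n)⁻¹) * q⁻¹ := by
            rw [pow_succ']; group
        _ = q * (x * b ^ n) * q⁻¹ := by rw [ih]
        _ = (q * x * q⁻¹) * (q * b ^ n * q⁻¹) := by group
        _ = x * b ^ (n+1) := by rw [hx, hb', pow_succ', mul_assoc]
  have h2 := h1 (orderOf q)
  rw [pow_orderOf_eq_one] at h2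
  have h2' : b ^ orderOf q = 1 := by
    simpa using h2.symm
  have h3 : orderOf b ∣ orderOf q := orderOf_dvd_of_pow_eq_one h2'
  have h4 : orderOf b ∣ 2 ^ k := orderOf_dvd_of_pow_eq_one hk
  have h5 : Nat.Coprime (orderOf q) (2 ^ k) :=
    Nat.Coprime.pow_right _ hq.coprime_two_right
  exact orderOf_eq_one_iff.mp (Nat.eq_one_of_dvd_coprimes h5 h3 h4)

/-- The fixed points of `q` in `R`. -/
def fixS (R : Subgroup G) (q : G) : Subgroup G := R ⊓ centralizer ({q} : Set G)

theorem mem_fixS {R : Subgroup G} {q x : G} : x ∈ fixS R q ↔ x ∈ R ∧ q * x * q⁻¹ = x := by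
  unfold fixS
  rw [Subgroup.mem_inf, Subgroup.mem_centralizer_singleton_iff]
  constructor
  · rintro ⟨h1, h2⟩
    exact ⟨h1, by rw [← h2]; group⟩
  · rintro ⟨h1, h2⟩
    refine ⟨h1, ?_⟩
    nth_rewrite 1 [← h2]
    group

/-- A subgroup minimal with the property that `q` acts nontrivially on it. -/
structure MinAct (R : Subgroup G) (q : G) : Prop where
  two : IsPGroup 2 R
  odd : Odd (orderOf q)
  inv : ∀ x ∈ R, q * x * q⁻¹ ∈ R
  nt : ∃ x ∈ R, q * x * q⁻¹ ≠ x
  min : ∀ Y : Subgroup G, Y ≤ R → (∀ x ∈ Y, q * x * q⁻¹ ∈ Y) → Y ≠ R → ∀ x ∈ Y, q * x * q⁻¹ = x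

section MinAct

variable {R : Subgroup G} {q : G} (h : MinAct R q)
include h

theorem MinAct.ne_top_fix : fixS R q ≠ R := by
  obtain ⟨x, hx, hne⟩ := h.nt
  intro heq
  have : x ∈ fixS R q := by rw [heq]; exact hx
  exact hne (mem_fixS.mp this).2

theorem MinAct.sq_mem {x : G} (hx : x ∈ R) : x ^ 2 ∈ fixS R q := by
  classical
  haveI : Fact (Nat.Prime 2) := ⟨Nat.prime_two⟩
  rw [mem_fixS]
  refine ⟨R.pow_mem hx 2, ?_⟩
  haveI : Nontrivial R := by
    obtain ⟨y, hy, hne⟩ := h.nt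
    refine ⟨⟨⟨y, hy⟩, 1, ?_⟩⟩
    intro h1
    have : y = 1 := congrArg Subtype.val h1
    apply hne
    rw [this]; simp
  set D : Subgroup G := Subgroup.closure {y | ∃ x ∈ R, x ^ 2 = y} with hD
  have hDR : D ≤ R := by
    rw [hD, Subgroup.closure_le]
    rintro _ ⟨x, hx, rfl⟩
    exact R.pow_mem hx 2
  have hDne : D ≠ R := by
    intro heq
    have hle : D ≤ (frattini R).map R.subtype := by
      rw [hD, Subgroup.closure_le]
      rintro _ ⟨x, hx, rfl⟩
      refine ⟨⟨x, hx⟩ ^ 2, ?_, rfl⟩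
      exact Cfsg.Agent.Lib.PGroup.Basic.pow_mem_frattini h.two _
    have hF : frattini R = ⊤ := by
      rw [eq_top_iff]
      rintro ⟨y, hy⟩ -
      have hy' : y ∈ (frattini R).map R.subtype := hle (heq ▸ hy)
      obtain ⟨z, hz, hzy⟩ := hy'
      have : z = ⟨y, hy⟩ := Subtype.ext hzy
      rwa [← this]
    exact Cfsg.Agent.Lib.PqFpf.frattini_ne_top_of_nontrivial hF
  have hDinv : ∀ x ∈ D, q * x * q⁻¹ ∈ D := by
    intro x hxD
    have : D ≤ D.comap (MulAut.conj q).toMonoidHom := by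
      rw [hD, Subgroup.closure_le]
      rintro _ ⟨x, hx, rfl⟩
      have h1 : (MulAut.conj q).toMonoidHom (x ^ 2) = (q * x * q⁻¹) ^ 2 := by
        simp [MulAut.conj_apply, conj_pow]
      rw [SetLike.mem_coe, Subgroup.mem_comap, h1]
      exact Subgroup.subset_closure ⟨_, h.inv x hx, rfl⟩
    exact this hxD
  exact h.min D hDR hDinv hDne _ (Subgroup.subset_closure ⟨x, hx, rfl⟩)

theorem MinAct.comm_mem {x y : G} (hx : x ∈ R) (hy : y ∈ R) : x * y * x⁻¹ * y⁻¹ ∈ fixS R q := by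
  have h1 : x * y * x⁻¹ * y⁻¹ = (x * y) ^ 2 * (y⁻¹ * x⁻¹ * y) ^ 2 * (y⁻¹) ^ 2 := by
    simp only [pow_two]; group
  rw [h1]
  exact mul_mem (mul_mem (h.sq_mem (mul_mem hx hy))
    (h.sq_mem (mul_mem (mul_mem (inv_mem hy) (inv_mem hx)) hy))) (h.sq_mem (inv_mem hy))

theorem MinAct.conj_mem {x y : G} (hy : y ∈ R) (hx : x ∈ fixS R q) : y * x * y⁻¹ ∈ fixS R q := by
  have h1 : y * x * y⁻¹ = (y * x * y⁻¹ * x⁻¹) * x := by group
  rw [h1]
  exact mul_mem (h.comm_mem hy (mem_fixS.mp hx).1) hx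

/-- Fixed-point-freeness on `R / E`. -/
theorem MinAct.fpf {t : G} (ht : t ∈ R) (hb : t⁻¹ * (q * t * q⁻¹) ∈ fixS R q) : t ∈ fixS R q := by
  have hb' := mem_fixS.mp hb
  obtain ⟨k, hk⟩ := exists_two_pow h.two hb'.1
  have h1 : q * t * q⁻¹ = t * (t⁻¹ * (q * t * q⁻¹)) := by group
  have h2 := twist_eq_one h.odd hb'.2 h1 hk
  refine mem_fixS.mpr ⟨ht, ?_⟩
  rw [h1, h2, mul_one]

/-- `E` is central in `R`. -/
theorem MinAct.central {e t : G} (he : e ∈ fixS R q) (ht : t ∈ R) : t * e = e * t := by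
  classical
  -- the centralizer of `E` in `R`
  set B : Subgroup G := R ⊓ centralizer (fixS R q : Set G) with hB
  have hBR : B ≤ R := inf_le_left
  by_cases hBeq : B = R
  · have : t ∈ B := hBeq ▸ ht
    exact ((Subgroup.mem_centralizer_iff.mp this.2) e he).symm
  · exfalso
    have hBinv : ∀ x ∈ B, q * x * q⁻¹ ∈ B := by
      intro x hx
      refine Subgroup.mem_inf.mpr ⟨h.inv x hx.1, ?_⟩
      rw [Subgroup.mem_centralizer_iff]
      intro e' he'
      have h1 := (mem_fixS.mp (show e' ∈ fixS R q from he')).2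
      have h2 := (Subgroup.mem_centralizer_iff.mp hx.2) e' he'
      calc e' * (q * x * q⁻¹) = (q * e' * q⁻¹) * (q * x * q⁻¹) := by rw [h1]
        _ = q * (e' * x) * q⁻¹ := by group
        _ = q * (x * e') * q⁻¹ := by rw [h2]
        _ = (q * x * q⁻¹) * (q * e' * q⁻¹) := by group
        _ = _ := by rw [h1]
    have hfix := h.min B hBR hBinv hBeq
    obtain ⟨x, hx, hne⟩ := h.nt
    apply hne
    -- `b = x⁻¹ (q x q⁻¹)` lies in `B`
    have hb : x⁻¹ * (q * x * q⁻¹) ∈ B := by
      refine Subgroup.mem_inf.mpr ⟨mul_mem (inv_mem hx) (h.inv x hx), ?_⟩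
      rw [Subgroup.mem_centralizer_iff]
      intro e' he'
      have he1 := mem_fixS.mp (show e' ∈ fixS R q from he')
      have hc := h.comm_mem hx he1.1
      have hc2 := (mem_fixS.mp hc).2
      -- `q [x,e'] q⁻¹ = [x,e']`
      have h3 : (q * x * q⁻¹) * e' * (q * x * q⁻¹)⁻¹ * e'⁻¹ = x * e' * x⁻¹ * e'⁻¹ := by
        have h4 : q * (x * e' * x⁻¹ * e'⁻¹) * q⁻¹ =
            (q * x * q⁻¹) * (q * e' * q⁻¹) * (q * x * q⁻¹)⁻¹ * (q * e' * q⁻¹)⁻¹ := by group
        rw [he1.2] at h4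
        rw [← h4, hc2]
      have h5 : (q * x * q⁻¹) * e' * (q * x * q⁻¹)⁻¹ = x * e' * x⁻¹ := by
        have := congrArg (fun z => z * e') h3
        simpa [mul_assoc] using this
      calc e' * (x⁻¹ * (q * x * q⁻¹)) = x⁻¹ * (x * e' * x⁻¹) * (q * x * q⁻¹) := by group
        _ = x⁻¹ * ((q * x * q⁻¹) * e' * (q * x * q⁻¹)⁻¹) * (q * x * q⁻¹) := by rw [h5]
        _ = _ := by group
    have hb2 := hfix _ hb
    obtain ⟨k, hk⟩ := exists_two_pow h.two hb.1
    have h1 : q * x * q⁻¹ = x * (x⁻¹ * (q * x * q⁻¹)) := by group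
    have h2 := twist_eq_one h.odd hb2 h1 hk
    rw [h1, h2, mul_one]

end MinAct

/-! ### Generalities on joins with one more element -/

/-- Elements of `H ⊔ ⟨y⟩` when `y` normalizes `H` with square in `H`. -/
theorem mem_sup_zpowers_cases {H : Subgroup G} {y : G} (hn : ∀ h ∈ H, y * h * y⁻¹ ∈ H)
    (hy : y ^ 2 ∈ H) {x : G} (hx : x ∈ H ⊔ zpowers y) : x ∈ H ∨ y⁻¹ * x ∈ H := by
  have hy' : y * y ∈ H := by rwa [pow_two] at hy
  have hyi : y⁻¹ * y⁻¹ ∈ H := by
    have := inv_mem hy'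
    simpa [mul_inv_rev] using this
  have hn' : ∀ h ∈ H, y⁻¹ * h * y ∈ H := by
    intro h hh
    have h1 : y⁻¹ * h * y = (y⁻¹ * y⁻¹) * (y * h * y⁻¹) * (y * y) := by group
    rw [h1]
    exact mul_mem (mul_mem hyi (hn h hh)) hy'
  let T : Subgroup G :=
    { carrier := {x | x ∈ H ∨ y⁻¹ * x ∈ H}
      one_mem' := Or.inl (one_mem H)
      mul_mem' := by
        rintro a b (ha | ha) (hb | hb)
        · exact Or.inl (mul_mem ha hb)
        · right
          have h1 : y⁻¹ * (a * b) = (y⁻¹ * a * y) * (y⁻¹ * b) := by group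
          rw [h1]
          exact mul_mem (hn' a ha) hb
        · right
          have h1 : y⁻¹ * (a * b) = (y⁻¹ * a) * b := by group
          rw [h1]
          exact mul_mem ha hb
        · left
          have h1 : a * b = (y * (y⁻¹ * a) * y⁻¹) * (y * y) * (y⁻¹ * b) := by group
          rw [h1]
          exact mul_mem (mul_mem (hn _ ha) hy') hb
      inv_mem' := by
        rintro a (ha | ha)
        · exact Or.inl (inv_mem ha)
        · right
          have h1 : y⁻¹ * a⁻¹ = (y⁻¹ * (y⁻¹ * a)⁻¹ * y) * (y⁻¹ * y⁻¹) := by group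
          rw [h1]
          exact mul_mem (hn' _ (inv_mem ha)) hyi }
  have hle : H ⊔ zpowers y ≤ T := by
    refine sup_le (fun h hh => Or.inl hh) ?_
    rw [Subgroup.zpowers_le]
    right
    rw [inv_mul_cancel]
    exact one_mem H
  exact hle hx

/-- `E ⊔ ⟨y⟩` is abelian when `E` is abelian and `y` commutes with `E`. -/
theorem isMulCommutative_sup_zpowers {E : Subgroup G} {y : G} (hE : ∀ a ∈ E, ∀ b ∈ E, a * b = b * a)
    (hy : ∀ a ∈ E, y * a = a * y) : IsMulCommutative (E ⊔ zpowers y : Subgroup G) := by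
  have h1 : E ⊔ zpowers y ≤ centralizer (E : Set G) := by
    refine sup_le ?_ ?_
    · intro a ha
      rw [Subgroup.mem_centralizer_iff]
      intro b hb
      exact hE b hb a ha
    · rw [Subgroup.zpowers_le, Subgroup.mem_centralizer_iff]
      intro b hb
      exact (hy b hb).symm
  have h2 : E ⊔ zpowers y ≤ centralizer ({y} : Set G) := by
    refine sup_le ?_ ?_
    · intro a ha
      rw [Subgroup.mem_centralizer_singleton_iff]
      exact (hy a ha).symm
    · rw [Subgroup.zpowers_le, Subgroup.mem_centralizer_singleton_iff]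
  refine ⟨⟨?_⟩⟩
  rintro ⟨a, ha⟩ ⟨b, hb⟩
  apply Subtype.ext
  show a * b = b * a
  have h3 : E ⊔ zpowers y ≤ centralizer ({b} : Set G) := by
    refine sup_le ?_ ?_
    · intro c hc
      rw [Subgroup.mem_centralizer_singleton_iff]
      exact ((Subgroup.mem_centralizer_iff.mp (h1 hb)) c hc)
    · rw [Subgroup.zpowers_le, Subgroup.mem_centralizer_singleton_iff]
      exact (Subgroup.mem_centralizer_singleton_iff.mp (h2 hb)).symm
  exact (Subgroup.mem_centralizer_singleton_iff.mp (h3 ha))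

/-- At most one involution in a cyclic group. -/
theorem not_isCyclic_of_two_involutions {B : Subgroup G} {a b : G} (ha : a ∈ B) (hb : b ∈ B)
    (ha2 : a ^ 2 = 1) (hb2 : b ^ 2 = 1) (ha1 : a ≠ 1) (hb1 : b ≠ 1) (hab : a ≠ b) : ¬ IsCyclic B := by
  classical
  intro hc
  haveI := Fintype.ofFinite B
  have h1 := IsCyclic.card_pow_eq_one_le (α := B) (n := 2) (by norm_num)
  have h2 : ({1, ⟨a, ha⟩, ⟨b, hb⟩} : Finset B) ⊆ Finset.univ.filter (fun x : B => x ^ 2 = 1) := by
    intro x hx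
    simp only [Finset.mem_insert, Finset.mem_singleton] at hx
    simp only [Finset.mem_filter, Finset.mem_univ, true_and]
    rcases hx with rfl | rfl | rfl
    · simp
    · exact Subtype.ext ha2
    · exact Subtype.ext hb2
  have h3 : ({1, ⟨a, ha⟩, ⟨b, hb⟩} : Finset B).card = 3 := by
    rw [Finset.card_eq_three]
    refine ⟨1, ⟨a, ha⟩, ⟨b, hb⟩, ?_, ?_, ?_, rfl⟩
    · intro h; exact ha1 (congrArg Subtype.val h).symm
    · intro h; exact hb1 (congrArg Subtype.val h).symm
    · intro h; exact hab (congrArg Subtype.val h)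
  have h4 := Finset.card_le_card h2
  omega

/-- A `2`-subgroup of a group of larger order `≥ 2·|H|`. -/
theorem two_mul_card_le_of_lt {H K : Subgroup G} (hle : H ≤ K) (hne : H ≠ K) :
    2 * Nat.card H ≤ Nat.card K := by
  have h1 : Nat.card H ∣ Nat.card K := Subgroup.card_dvd_of_le hle
  obtain ⟨c, hc⟩ := h1
  have hpos : 0 < Nat.card K := Nat.card_pos
  have hc0 : c ≠ 0 := by
    rintro rfl
    omega
  have hc1 : c ≠ 1 := by
    rintro rfl
    rw [mul_one] at hc
    exact hne (Subgroup.eq_of_le_of_card_ge hle (le_of_eq hc))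
  have : 2 ≤ c := by omega
  rw [hc, mul_comm]
  exact Nat.mul_le_mul_left _ this

section MinAct2

variable {R : Subgroup G} {q : G} (h : MinAct R q)
include h

theorem MinAct.conj_sq {x : G} (hx : x ∈ R) : (q * x * q⁻¹) ^ 2 = x ^ 2 := by
  rw [conj_pow]
  exact (mem_fixS.mp (h.sq_mem hx)).2

/-- `R / E` does not have order two. -/
theorem MinAct.card_ne_two_mul : Nat.card R ≠ 2 * Nat.card (fixS R q) := by
  classical
  intro hcard
  have hle : fixS R q ≤ R := inf_le_left
  have hidx : ((fixS R q).subgroupOf R).index = 2 := by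
    have h1 := Subgroup.card_mul_index ((fixS R q).subgroupOf R)
    have h2 : Nat.card ((fixS R q).subgroupOf R) = Nat.card (fixS R q) :=
      Nat.card_congr (Subgroup.subgroupOfEquivOfLe hle).toEquiv
    rw [h2, hcard] at h1
    have hpos : 0 < Nat.card (fixS R q) := Nat.card_pos
    nlinarith
  obtain ⟨x, hx, hne⟩ := h.nt
  have hxE : x ∉ fixS R q := fun hc => hne (mem_fixS.mp hc).2
  have hxE2 : (⟨x, hx⟩ : R) ∉ (fixS R q).subgroupOf R := by
    simpa [Subgroup.mem_subgroupOf] using hxE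
  have hyE : q * x * q⁻¹ ∉ fixS R q := by
    intro hc
    apply hxE
    refine mem_fixS.mpr ⟨hx, ?_⟩
    have h1 := (mem_fixS.mp hc).2
    have h2 : q * (q * x * q⁻¹) * q⁻¹ = q * x * q⁻¹ := h1
    have h3 : q * x * q⁻¹ = x := by
      have := congrArg (fun z => q⁻¹ * z * q) h2
      simpa [mul_assoc] using this
    exact h3
  have hyE2 : (⟨q * x * q⁻¹, h.inv x hx⟩ : R) ∉ (fixS R q).subgroupOf R := by
    simpa [Subgroup.mem_subgroupOf] using hyE
  have h3 := Subgroup.mul_mem_iff_of_index_two hidx (a := (⟨x, hx⟩ : R)⁻¹) (b := ⟨q * x * q⁻¹, h.inv x hx⟩)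
  have h4 : ((⟨x, hx⟩ : R)⁻¹ * ⟨q * x * q⁻¹, h.inv x hx⟩) ∈ (fixS R q).subgroupOf R := by
    rw [h3]
    constructor
    · intro hc
      exact absurd (by simpa using inv_mem hc) hxE2
    · intro hc
      exact absurd hc hyE2
  rw [Subgroup.mem_subgroupOf] at h4
  exact hxE (h.fpf hx h4)

/-- The abelian case. -/
theorem MinAct.abelian_case (hno : NoA R) (hab : ∀ x ∈ R, ∀ y ∈ R, x * y = y * x) :
    Nat.card R = 4 ∧ fixS R q = ⊥ ∧ ∀ x ∈ R, x ^ 2 = 1 := by
  classical
  haveI : Fact (Nat.Prime 2) := ⟨Nat.prime_two⟩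
  -- exponent two
  have hexp : ∀ x ∈ R, x ^ 2 = 1 := by
    let O : Subgroup G :=
      { carrier := {x | x ∈ R ∧ x ^ 2 = 1}
        one_mem' := ⟨one_mem R, one_pow 2⟩
        mul_mem' := by
          rintro a b ⟨ha, ha2⟩ ⟨hb, hb2⟩
          refine ⟨mul_mem ha hb, ?_⟩
          have : a * b * (a * b) = a * a * (b * b) := by
            calc a * b * (a * b) = a * (b * a) * b := by group
              _ = a * (a * b) * b := by rw [hab b hb a ha]
              _ = _ := by group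
          rw [pow_two] at ha2 hb2 ⊢
          rw [this, ha2, hb2, one_mul]
        inv_mem' := by
          rintro a ⟨ha, ha2⟩
          exact ⟨inv_mem ha, by rw [inv_pow, ha2, inv_one]⟩ }
    by_cases hO : O = R
    · intro x hx
      have : x ∈ O := hO ▸ hx
      exact this.2
    · exfalso
      have hOinv : ∀ x ∈ O, q * x * q⁻¹ ∈ O := by
        rintro x ⟨hx, hx2⟩
        exact ⟨h.inv x hx, by rw [h.conj_sq hx, hx2]⟩
      have hOR : O ≤ R := fun x hx => hx.1
      have hfix := h.min O hOR hOinv hO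
      obtain ⟨x, hx, hne⟩ := h.nt
      apply hne
      have hb : x⁻¹ * (q * x * q⁻¹) ∈ O := by
        refine ⟨mul_mem (inv_mem hx) (h.inv x hx), ?_⟩
        have h1 := h.inv x hx
        have h2 := h.conj_sq hx
        have h3 : (x⁻¹ * (q * x * q⁻¹)) ^ 2 = (x⁻¹) ^ 2 * (q * x * q⁻¹) ^ 2 := by
          rw [pow_two, pow_two, pow_two]
          calc x⁻¹ * (q * x * q⁻¹) * (x⁻¹ * (q * x * q⁻¹))
              = x⁻¹ * ((q * x * q⁻¹) * x⁻¹) * (q * x * q⁻¹) := by group
            _ = x⁻¹ * (x⁻¹ * (q * x * q⁻¹)) * (q * x * q⁻¹) := by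
                rw [hab _ h1 _ (inv_mem hx)]
            _ = _ := by group
        rw [h3, h2, inv_pow]
        group
      have hb2 := hfix _ hb
      obtain ⟨k, hk⟩ := exists_two_pow h.two hb.1
      have h1 : q * x * q⁻¹ = x * (x⁻¹ * (q * x * q⁻¹)) := by group
      have h2 := twist_eq_one h.odd hb2 h1 hk
      rw [h1, h2, mul_one]
  obtain ⟨n, hn⟩ := IsPGroup.iff_card.mp h.two
  have hn2 : n ≤ 2 := by
    by_contra hgt
    have h3 : 3 ≤ n := by omega
    have h8 : 8 ≤ Nat.card R := by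
      rw [hn]
      calc 8 = 2 ^ 3 := by norm_num
        _ ≤ 2 ^ n := Nat.pow_le_pow_right (by norm_num) h3
    have hcom : IsMulCommutative R := by
      refine ⟨⟨?_⟩⟩
      rintro ⟨a, ha⟩ ⟨b, hb⟩
      exact Subtype.ext (hab a ha b hb)
    refine not_noA_of_abelian hcom h.two ?_ h8 hno
    intro hc
    obtain ⟨g, hg⟩ := hc.exists_generator
    have hg1 : orderOf g = Nat.card R := orderOf_eq_card_of_forall_mem_zpowers hg
    have hg2 : g ^ 2 = 1 := Subtype.ext (by simpa using hexp g g.2)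
    have := orderOf_le_of_pow_eq_one (by norm_num : 0 < 2) hg2
    omega
  have hn1 : n ≠ 0 ∧ n ≠ 1 := by
    obtain ⟨x, hx, hne⟩ := h.nt
    constructor
    · rintro rfl
      rw [pow_zero] at hn
      have : Subsingleton R := (Nat.card_eq_one_iff_unique.mp hn).1
      have hx1 : (⟨x, hx⟩ : R) = 1 := Subsingleton.elim _ _
      have hx2 : x = 1 := congrArg Subtype.val hx1
      apply hne
      rw [hx2]; simp
    · rintro rfl
      rw [pow_one] at hn
      -- any two nonidentity elements are equal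
      have hx1 : x ≠ 1 := by
        rintro rfl
        apply hne
        simp
      have hy1 : q * x * q⁻¹ ≠ 1 := by
        intro hc
        apply hx1
        have := congrArg (fun z => q⁻¹ * z * q) hc
        simpa [mul_assoc] using this
      apply hne
      have hc := (Nat.card_eq_two_iff' (1 : R)).mp hn
      obtain ⟨w, ⟨hw1, hw2⟩⟩ := hc
      have e1 : (⟨x, hx⟩ : R) = w := hw2 _ (fun hc => hx1 (congrArg Subtype.val hc))
      have e2 : (⟨q * x * q⁻¹, h.inv x hx⟩ : R) = w := hw2 _ (fun hc => hy1 (congrArg Subtype.val hc))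
      exact congrArg Subtype.val (e2.trans e1.symm)
  have hcard : Nat.card R = 4 := by
    have : n = 2 := by omega
    rw [hn, this]; norm_num
  refine ⟨hcard, ?_, hexp⟩
  -- `E = ⊥`
  have hle : fixS R q ≤ R := inf_le_left
  have h1 : Nat.card (fixS R q) ∣ 4 := hcard ▸ Subgroup.card_dvd_of_le hle
  have h2 : Nat.card (fixS R q) ≠ 4 := by
    intro hc
    apply h.ne_top_fix
    exact Subgroup.eq_of_le_of_card_ge hle (by omega)
  have h3 : Nat.card (fixS R q) ≠ 2 := by
    intro hc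
    apply h.card_ne_two_mul
    omega
  have h4 : Nat.card (fixS R q) ∈ Nat.divisors 4 := by simp [h1]
  have h5 : Nat.divisors 4 = {1, 2, 4} := by decide
  rw [h5] at h4
  simp only [Finset.mem_insert, Finset.mem_singleton] at h4
  rcases h4 with h4 | h4 | h4
  · exact Subgroup.eq_bot_of_card_eq _ h4
  · exact absurd h4 h3
  · exact absurd h4 h2

end MinAct2

/-- Conjugation-invariant subgroups of a finite group are invariant under the inverse too. -/
theorem inv_conj_mem {R : Subgroup G} {q : G} (hinv : ∀ x ∈ R, q * x * q⁻¹ ∈ R) :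
    ∀ x ∈ R, q⁻¹ * x * q ∈ R := by
  have key : ∀ n : ℕ, ∀ x ∈ R, q ^ n * x * (q ^ n)⁻¹ ∈ R := by
    intro n
    induction n with
    | zero => intro x hx; simpa using hx
    | succ n ih =>
      intro x hx
      have h1 : q ^ (n + 1) * x * (q ^ (n + 1))⁻¹ = q ^ n * (q * x * q⁻¹) * (q ^ n)⁻¹ := by
        rw [pow_succ]; group
      rw [h1]
      exact ih _ (hinv x hx)
  intro x hx
  have h1 : q⁻¹ = q ^ (orderOf q - 1) := by
    apply inv_eq_of_mul_eq_one_right
    rw [← pow_succ', Nat.sub_add_cancel (orderOf_pos q), pow_orderOf_eq_one]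
  have h2 := key (orderOf q - 1) x hx
  rw [← h1] at h2
  simpa using h2

/-- Square roots of involutions in a cyclic `2`-group of order at least four. -/
theorem exists_sq_root_of_cyclic {E : Subgroup G} (hc : IsCyclic E) (h2 : IsPGroup 2 E)
    (h4 : 4 ≤ Nat.card E) {c : G} (hcE : c ∈ E) (hc2 : c ^ 2 = 1) : ∃ w ∈ E, w ^ 2 = c := by
  obtain ⟨g, hg⟩ := hc.exists_generator
  have hord : orderOf g = Nat.card E := orderOf_eq_card_of_forall_mem_zpowers hg
  obtain ⟨n, hn⟩ := IsPGroup.iff_card.mp h2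
  have hn2 : 2 ≤ n := by
    by_contra hlt
    have : n ≤ 1 := by omega
    have h5 : 2 ^ n ≤ 2 ^ 1 := Nat.pow_le_pow_right (by norm_num) this
    rw [hn] at h4
    omega
  obtain ⟨m, rfl⟩ : ∃ m, n = m + 2 := ⟨n - 2, by omega⟩
  have hk := (mem_powers_iff_mem_zpowers).mpr (hg ⟨c, hcE⟩)
  obtain ⟨k, hk⟩ := hk
  replace hk : g ^ k = ⟨c, hcE⟩ := hk
  have hk1 : g ^ (k * 2) = 1 := by
    rw [pow_mul, hk]
    exact Subtype.ext hc2
  have hk2 := orderOf_dvd_of_pow_eq_one hk1
  rw [hord, hn, pow_succ 2 (m + 1)] at hk2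
  have hk3 : 2 ^ (m + 1) ∣ k := Nat.dvd_of_mul_dvd_mul_right (by norm_num) hk2
  obtain ⟨l, rfl⟩ := hk3
  refine ⟨((g ^ (2 ^ m * l) : E) : G), (g ^ (2 ^ m * l)).2, ?_⟩
  have h6 : (g ^ (2 ^ m * l)) ^ 2 = g ^ (2 ^ (m + 1) * l) := by
    rw [← pow_mul]
    congr 1
    ring
  have h7 := congrArg Subtype.val (h6.trans hk)
  simpa using h7

section MinAct3

variable {R : Subgroup G} {q : G} (h : MinAct R q)
include h

theorem MinAct.inv' {x : G} (hx : x ∈ R) : q⁻¹ * x * q ∈ R := inv_conj_mem h.inv x hx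

theorem MinAct.conj_eq_iff_mem_fix {x : G} (hx : x ∈ R) (hc : q * x * q⁻¹ ∈ fixS R q) :
    x ∈ fixS R q := by
  refine mem_fixS.mpr ⟨hx, ?_⟩
  have h1 := (mem_fixS.mp hc).2
  have := congrArg (fun z => q⁻¹ * z * q) h1
  simpa [mul_assoc] using this

/-- The fixed points are the centre in the nonabelian case. -/
theorem MinAct.mem_fix_iff_center (hna : ∃ x ∈ R, ∃ y ∈ R, x * y ≠ y * x) {x : G} :
    x ∈ fixS R q ↔ x ∈ R ∧ ∀ y ∈ R, x * y = y * x := by
  constructor
  · intro hx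
    exact ⟨(mem_fixS.mp hx).1, fun y hy => (h.central hx hy).symm⟩
  · rintro ⟨hx, hc⟩
    let Z : Subgroup G := R ⊓ centralizer (R : Set G)
    have hZne : Z ≠ R := by
      intro heq
      obtain ⟨a, ha, b, hb, hab⟩ := hna
      have : a ∈ Z := heq ▸ ha
      exact hab ((Subgroup.mem_centralizer_iff.mp (Subgroup.mem_inf.mp this).2) b hb).symm
    have hZinv : ∀ x ∈ Z, q * x * q⁻¹ ∈ Z := by
      intro x hx
      have hx1 := (Subgroup.mem_inf.mp hx).1
      have hx2 := (Subgroup.mem_inf.mp hx).2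
      refine Subgroup.mem_inf.mpr ⟨h.inv x hx1, ?_⟩
      rw [Subgroup.mem_centralizer_iff]
      intro y hy
      have h3 := (Subgroup.mem_centralizer_iff.mp hx2) _ (h.inv' hy)
      calc y * (q * x * q⁻¹) = q * ((q⁻¹ * y * q) * x) * q⁻¹ := by group
        _ = q * (x * (q⁻¹ * y * q)) * q⁻¹ := by rw [h3]
        _ = _ := by group
    refine mem_fixS.mpr ⟨hx, h.min Z inf_le_left hZinv hZne x (Subgroup.mem_inf.mpr ⟨hx, ?_⟩)⟩
    rw [Subgroup.mem_centralizer_iff]
    intro y hy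
    exact (hc y hy).symm

theorem MinAct.exists_notMem_fix : ∃ y ∈ R, y ∉ fixS R q := by
  obtain ⟨x, hx, hne⟩ := h.nt
  exact ⟨x, hx, fun hc => hne (mem_fixS.mp hc).2⟩

theorem MinAct.fix_comm {a b : G} (ha : a ∈ fixS R q) (hb : b ∈ fixS R q) : a * b = b * a :=
  (h.central ha (mem_fixS.mp hb).1).symm

/-- Order of the fixed points in the nonabelian case. -/
theorem MinAct.card_fix_eq_two (hno : NoA R) (hna : ∃ x ∈ R, ∃ y ∈ R, x * y ≠ y * x) :
    Nat.card (fixS R q) = 2 := by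
  classical
  haveI : Fact (Nat.Prime 2) := ⟨Nat.prime_two⟩
  set E := fixS R q with hE
  have hER : E ≤ R := inf_le_left
  have hE2 : IsPGroup 2 E := h.two.to_le hER
  obtain ⟨n, hn⟩ := IsPGroup.iff_card.mp hE2
  have hn0 : n ≠ 0 := by
    rintro rfl
    rw [pow_zero] at hn
    have hbot := Subgroup.eq_bot_of_card_eq E hn
    obtain ⟨a, ha, b, hb, hab⟩ := hna
    have h1 := h.comm_mem ha hb
    rw [← hE, hbot, Subgroup.mem_bot] at h1
    apply hab
    have h2 : a * b * a⁻¹ = b := by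
      have := congrArg (fun z => z * b) h1
      simpa using this
    calc a * b = (a * b * a⁻¹) * a := by group
      _ = b * a := by rw [h2]
  by_cases hn1 : n = 1
  · rw [hn, hn1, pow_one]
  exfalso
  have h4 : 4 ≤ Nat.card E := by
    rw [hn]
    calc 4 = 2 ^ 2 := by norm_num
      _ ≤ 2 ^ n := Nat.pow_le_pow_right (by norm_num) (by omega)
  obtain ⟨y, hy, hyE⟩ := h.exists_notMem_fix
  have hEcomm : ∀ a ∈ E, ∀ b ∈ E, a * b = b * a := fun a ha b hb => h.fix_comm ha hb
  by_cases hcyc : IsCyclic E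
  · -- the cyclic case
    set v := q * y * q⁻¹ with hv
    have hvR : v ∈ R := h.inv y hy
    set u := y * v with hu
    have huR : u ∈ R := mul_mem hy hvR
    have hs : y ^ 2 ∈ E := h.sq_mem hy
    have hsq : v ^ 2 = y ^ 2 := h.conj_sq hy
    set c := v * y * v⁻¹ * y⁻¹ with hc
    have hcE : c ∈ E := h.comm_mem hvR hy
    have hcc : ∀ t ∈ R, t * c = c * t := fun t ht => h.central hcE ht
    have hss : ∀ t ∈ R, t * y ^ 2 = y ^ 2 * t := fun t ht => h.central hs ht
    have hvy : v * y = c * (y * v) := by rw [hc]; group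
    have hu2 : u ^ 2 = c * (y ^ 2) ^ 2 := by
      rw [hu, pow_two]
      calc y * v * (y * v) = y * (v * y) * v := by group
        _ = y * (c * (y * v)) * v := by rw [hvy]
        _ = (y * c) * y * v * v := by group
        _ = (c * y) * y * v * v := by rw [hcc y hy]
        _ = c * (y * y) * (v * v) := by group
        _ = c * (y ^ 2) * (v ^ 2) := by rw [pow_two, pow_two]
        _ = c * (y ^ 2) ^ 2 := by rw [hsq]; simp only [pow_two]; group
    have hc2 : c ^ 2 = 1 := by
      have h1 : v * y * v⁻¹ = c * y := by rw [hc]; group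
      have h2 : (v * y * v⁻¹) ^ 2 = y ^ 2 := by
        rw [conj_pow]
        have := hss v hvR
        rw [this]
        group
      have h3 : (c * y) ^ 2 = c ^ 2 * y ^ 2 := by
        simp only [pow_two]
        calc c * y * (c * y) = c * (y * c) * y := by group
          _ = c * (c * y) * y := by rw [hcc y hy]
          _ = _ := by group
      rw [h1, h3] at h2
      exact mul_eq_right.mp h2
    obtain ⟨w₁, hw₁, hw₁2⟩ := exists_sq_root_of_cyclic hcyc hE2 h4 hcE hc2
    set w := w₁ * y ^ 2 with hw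
    have hwE : w ∈ E := mul_mem hw₁ hs
    have hwc : ∀ t ∈ R, t * w = w * t := fun t ht => h.central hwE ht
    have hw2 : w ^ 2 = u ^ 2 := by
      rw [hu2, hw, ← hw₁2]
      simp only [pow_two]
      have h1 := h.fix_comm hw₁ hs
      rw [pow_two] at h1
      calc w₁ * (y * y) * (w₁ * (y * y)) = w₁ * ((y * y) * w₁) * (y * y) := by group
        _ = w₁ * (w₁ * (y * y)) * (y * y) := by rw [h1]
        _ = _ := by group
    set t := u * w⁻¹ with ht
    have htR : t ∈ R := mul_mem huR (inv_mem (hER hwE))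
    have ht2 : t ^ 2 = 1 := by
      have h1 := hwc u huR
      have h2 : w⁻¹ * u = u * w⁻¹ := by
        rw [inv_mul_eq_iff_eq_mul, ← mul_assoc, ← h1, mul_assoc, mul_inv_cancel, mul_one]
      rw [ht]
      simp only [pow_two]
      calc u * w⁻¹ * (u * w⁻¹) = u * (w⁻¹ * u) * w⁻¹ := by group
        _ = u * (u * w⁻¹) * w⁻¹ := by rw [h2]
        _ = (u ^ 2) * (w ^ 2)⁻¹ := by simp only [pow_two]; group
        _ = 1 := by rw [hw2]; simp
    have huE : u ∉ E := by
      intro huE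
      apply hyE
      apply h.fpf hy
      have h1 : y⁻¹ * (q * y * q⁻¹) = (y ^ 2)⁻¹ * u := by
        rw [hu, ← hv]; simp only [pow_two]; group
      rw [h1]
      exact mul_mem (inv_mem hs) huE
    have htE : t ∉ E := by
      intro htE
      apply huE
      have h1 : u = t * w := by rw [ht]; group
      rw [h1]
      exact mul_mem htE hwE
    set B := E ⊔ zpowers t with hB
    have hBR : B ≤ R := sup_le hER ((Subgroup.zpowers_le).mpr htR)
    have hBc : IsMulCommutative B :=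
      isMulCommutative_sup_zpowers hEcomm (fun a ha => h.central ha htR)
    have hB2 : IsPGroup 2 B := h.two.to_le hBR
    have hEB : E ≤ B := le_sup_left
    have htB : t ∈ B := Subgroup.mem_sup_right (Subgroup.mem_zpowers t)
    have hB8 : 8 ≤ Nat.card B := by
      have := two_mul_card_le_of_lt hEB (fun heq => htE (heq ▸ htB))
      omega
    refine not_noA_of_abelian hBc hB2 ?_ hB8 (hno.mono hBR)
    -- two involutions
    obtain ⟨τ, hτ⟩ := exists_prime_orderOf_dvd_card' (G := E) 2 (by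
      rw [hn]; exact dvd_pow_self 2 hn0)
    have hτ2 : (τ : G) ^ 2 = 1 := by
      have := pow_orderOf_eq_one τ
      rw [hτ] at this
      exact congrArg Subtype.val this
    have hτ1 : (τ : G) ≠ 1 := by
      intro hc
      have : τ = 1 := Subtype.ext hc
      rw [this, orderOf_one] at hτ
      omega
    refine not_isCyclic_of_two_involutions (hEB τ.2) htB hτ2 ht2 hτ1 ?_ ?_
    · intro hc
      exact htE (hc ▸ one_mem E)
    · intro hc
      exact htE (hc ▸ τ.2)
  · -- the noncyclic case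
    set B := E ⊔ zpowers y with hB
    have hBR : B ≤ R := sup_le hER ((Subgroup.zpowers_le).mpr hy)
    have hBc : IsMulCommutative B :=
      isMulCommutative_sup_zpowers hEcomm (fun a ha => h.central ha hy)
    have hB2 : IsPGroup 2 B := h.two.to_le hBR
    have hEB : E ≤ B := le_sup_left
    have hyB : y ∈ B := Subgroup.mem_sup_right (Subgroup.mem_zpowers y)
    have hB8 : 8 ≤ Nat.card B := by
      have := two_mul_card_le_of_lt hEB (fun heq => hyE (show y ∈ E from heq.symm ▸ hyB))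
      omega
    refine not_noA_of_abelian hBc hB2 ?_ hB8 (hno.mono hBR)
    intro hcB
    apply hcyc
    have hin : IsCyclic (E.subgroupOf B) := inferInstance
    exact isCyclic_of_surjective (Subgroup.subgroupOfEquivOfLe hEB)
      (Subgroup.subgroupOfEquivOfLe hEB).surjective

end MinAct3

section MinAct4

variable {R : Subgroup G} {q : G} (h : MinAct R q)
include h

theorem MinAct.fix_sq_eq_one (hno : NoA R) (hna : ∃ x ∈ R, ∃ y ∈ R, x * y ≠ y * x) {e : G}
    (he : e ∈ fixS R q) : e ^ 2 = 1 := by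
  have h1 := h.card_fix_eq_two hno hna
  have h2 : (⟨e, he⟩ : fixS R q) ^ Nat.card (fixS R q) = 1 := pow_card_eq_one'
  rw [h1] at h2
  exact congrArg Subtype.val h2

theorem MinAct.pow_four (hno : NoA R) (hna : ∃ x ∈ R, ∃ y ∈ R, x * y ≠ y * x) {x : G}
    (hx : x ∈ R) : x ^ 4 = 1 := by
  have h1 := h.fix_sq_eq_one hno hna (h.sq_mem hx)
  rw [← pow_mul] at h1
  exact h1

/-- Abelian subgroups have order at most four. -/
theorem MinAct.card_le_four_of_comm (hno : NoA R) (hna : ∃ x ∈ R, ∃ y ∈ R, x * y ≠ y * x)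
    {B : Subgroup G} (hBR : B ≤ R) (hB : IsMulCommutative B) : Nat.card B ≤ 4 := by
  by_contra hlt
  push Not at hlt
  have h2 : IsPGroup 2 B := h.two.to_le hBR
  obtain ⟨n, hn⟩ := IsPGroup.iff_card.mp h2
  have h8 : 8 ≤ Nat.card B := by
    rw [hn] at hlt ⊢
    have : 3 ≤ n := by
      by_contra hlt2
      have h3 : n ≤ 2 := by omega
      have h5 : 2 ^ n ≤ 2 ^ 2 := Nat.pow_le_pow_right (by norm_num) h3
      omega
    calc 8 = 2 ^ 3 := by norm_num
      _ ≤ 2 ^ n := Nat.pow_le_pow_right (by norm_num) this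
  refine not_noA_of_abelian hB h2 ?_ h8 (hno.mono hBR)
  intro hc
  obtain ⟨g, hg⟩ := hc.exists_generator
  have hord : orderOf g = Nat.card B := orderOf_eq_card_of_forall_mem_zpowers hg
  have hg4 : g ^ 4 = 1 := Subtype.ext (by simpa using h.pow_four hno hna (hBR g.2))
  have := orderOf_le_of_pow_eq_one (by norm_num : 0 < 4) hg4
  omega

/-- The order of `R` in the nonabelian case. -/
theorem MinAct.card_eq_eight (hno : NoA R) (hna : ∃ x ∈ R, ∃ y ∈ R, x * y ≠ y * x) :
    Nat.card R = 8 := by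
  classical
  have hE2 := h.card_fix_eq_two hno hna
  set E := fixS R q with hE
  have hER : E ≤ R := inf_le_left
  have hEcomm : ∀ a ∈ E, ∀ b ∈ E, a * b = b * a := fun a ha b hb => h.fix_comm ha hb
  obtain ⟨y, hy, hyE⟩ := h.exists_notMem_fix
  set D := E ⊔ zpowers y with hD
  have hDR : D ≤ R := sup_le hER ((Subgroup.zpowers_le).mpr hy)
  have hDc : IsMulCommutative D :=
    isMulCommutative_sup_zpowers hEcomm (fun a ha => h.central ha hy)
  have hED : E ≤ D := le_sup_left
  have hyD : y ∈ D := Subgroup.mem_sup_right (Subgroup.mem_zpowers y)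
  have hD4 : 4 ≤ Nat.card D := by
    have := two_mul_card_le_of_lt hED (fun heq => hyE (show y ∈ E from heq.symm ▸ hyD))
    omega
  have hD4' : Nat.card D = 4 := le_antisymm (h.card_le_four_of_comm hno hna hDR hDc) hD4
  have hDcomm : ∀ a ∈ D, ∀ b ∈ D, a * b = b * a := by
    intro a ha b hb
    exact congrArg Subtype.val (hDc.is_comm.comm (⟨a, ha⟩ : D) ⟨b, hb⟩)
  set C := R ⊓ centralizer ({y} : Set G) with hC
  have hCR : C ≤ R := inf_le_left
  have hDC : D ≤ C := by
    refine le_inf hDR ?_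
    intro a ha
    rw [Subgroup.mem_centralizer_singleton_iff]
    exact hDcomm a ha y hyD
  have hCD : C = D := by
    by_contra hne
    have hne' : D ≠ C := fun hc => hne hc.symm
    obtain ⟨w, hwC, hwD⟩ : ∃ w ∈ C, w ∉ D := by
      by_contra hcon
      push Not at hcon
      exact hne' (le_antisymm hDC hcon)
    have hwR : w ∈ R := hCR hwC
    have hwy : w * y = y * w := by
      have := (Subgroup.mem_inf.mp hwC).2
      rwa [Subgroup.mem_centralizer_singleton_iff] at this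
    have hwcomm : ∀ a ∈ D, w * a = a * w := by
      have hle : D ≤ centralizer ({w} : Set G) := by
        refine sup_le ?_ ?_
        · intro a ha
          rw [Subgroup.mem_centralizer_singleton_iff]
          exact (h.central ha hwR).symm
        · rw [Subgroup.zpowers_le, Subgroup.mem_centralizer_singleton_iff]
          exact hwy.symm
      intro a ha
      exact (Subgroup.mem_centralizer_singleton_iff.mp (hle ha)).symm
    have hB : IsMulCommutative (D ⊔ zpowers w : Subgroup G) :=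
      isMulCommutative_sup_zpowers hDcomm hwcomm
    have hBR : (D ⊔ zpowers w : Subgroup G) ≤ R :=
      sup_le hDR ((Subgroup.zpowers_le).mpr hwR)
    have h4 := h.card_le_four_of_comm hno hna hBR hB
    have h5 := two_mul_card_le_of_lt (le_sup_left : D ≤ D ⊔ zpowers w)
      (fun heq => hwD (heq.symm ▸ Subgroup.mem_sup_right (Subgroup.mem_zpowers w)))
    omega
  have hCcard : Nat.card C = 4 := by rw [hCD, hD4']
  -- the commutator map
  let f : R →* E := MonoidHom.mk' (fun x => (⟨(x : G) * y * (x : G)⁻¹ * y⁻¹, h.comm_mem x.2 hy⟩ : E)) (by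
    intro a b
    apply Subtype.ext
    have hb := h.comm_mem b.2 hy
    show (a : G) * b * y * ((a : G) * b)⁻¹ * y⁻¹ =
      ((a : G) * y * (a : G)⁻¹ * y⁻¹) * ((b : G) * y * (b : G)⁻¹ * y⁻¹)
    have h1 : (a : G) * ((b : G) * y * (b : G)⁻¹ * y⁻¹) = ((b : G) * y * (b : G)⁻¹ * y⁻¹) * a :=
      h.central hb a.2
    have h2 := h.fix_comm (h.comm_mem a.2 hy) hb
    calc (a : G) * b * y * ((a : G) * b)⁻¹ * y⁻¹
        = ((a : G) * ((b : G) * y * (b : G)⁻¹ * y⁻¹)) * y * (a : G)⁻¹ * y⁻¹ := by group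
      _ = ((b : G) * y * (b : G)⁻¹ * y⁻¹) * ((a : G) * y * (a : G)⁻¹ * y⁻¹) := by rw [h1]; group
      _ = _ := h2.symm)
  have hker : f.ker = C.subgroupOf R := by
    ext x
    rw [MonoidHom.mem_ker, Subgroup.mem_subgroupOf, Subgroup.mem_inf,
      Subgroup.mem_centralizer_singleton_iff]
    constructor
    · intro hx
      have h1 : (x : G) * y * (x : G)⁻¹ * y⁻¹ = 1 := congrArg Subtype.val hx
      refine ⟨x.2, ?_⟩
      have h2 : (x : G) * y * (x : G)⁻¹ = y := by
        have := congrArg (fun z => z * y) h1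
        simpa using this
      calc (x : G) * y = ((x : G) * y * (x : G)⁻¹) * x := by group
        _ = y * x := by rw [h2]
    · rintro ⟨-, h1⟩
      apply Subtype.ext
      show (x : G) * y * (x : G)⁻¹ * y⁻¹ = 1
      rw [h1]
      group
  have hcardR : Nat.card R = 4 * Nat.card f.range := by
    have h1 := Subgroup.card_mul_index f.ker
    rw [Subgroup.index_ker, hker] at h1
    have h2 : Nat.card (C.subgroupOf R) = Nat.card C :=
      Nat.card_congr (Subgroup.subgroupOfEquivOfLe hCR).toEquiv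
    rw [h2, hCcard] at h1
    exact h1.symm
  have hrange : Nat.card f.range ∣ 2 := by
    rw [← hE2]
    exact Subgroup.card_subgroup_dvd_card _
  have hrange2 : Nat.card f.range = 1 ∨ Nat.card f.range = 2 :=
    (Nat.dvd_prime Nat.prime_two).mp hrange
  rcases hrange2 with h1 | h1
  · exfalso
    rw [h1] at hcardR
    have hDeq : D = R := Subgroup.eq_of_le_of_card_ge hDR (by omega)
    obtain ⟨a, ha, b, hb, hab⟩ := hna
    exact hab (hDcomm a (hDeq ▸ ha) b (hDeq ▸ hb))
  · rw [hcardR, h1]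

/-- The quaternion case. -/
theorem MinAct.q8_case (hno : NoA R) (hna : ∃ x ∈ R, ∃ y ∈ R, x * y ≠ y * x) :
    Nonempty (R ≃* QuaternionGroup 2) := by
  classical
  have hE2 := h.card_fix_eq_two hno hna
  have hR8 := h.card_eq_eight hno hna
  have hesq : ∀ e ∈ fixS R q, e ^ 2 = 1 := fun e he => h.fix_sq_eq_one hno hna he
  set E := fixS R q with hE
  have hER : E ≤ R := inf_le_left
  have hEcomm : ∀ a ∈ E, ∀ b ∈ E, a * b = b * a := fun a ha b hb => h.fix_comm ha hb
  -- two nonidentity elements of `E` agree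
  have hEuniq : ∀ a ∈ E, ∀ b ∈ E, a ≠ 1 → b ≠ 1 → a = b := by
    intro a ha b hb ha1 hb1
    obtain ⟨w, hw1, hw2⟩ := (Nat.card_eq_two_iff' (1 : E)).mp hE2
    have e1 : (⟨a, ha⟩ : E) = w := hw2 _ (fun hc => ha1 (congrArg Subtype.val hc))
    have e2 : (⟨b, hb⟩ : E) = w := hw2 _ (fun hc => hb1 (congrArg Subtype.val hc))
    exact congrArg Subtype.val (e1.trans e2.symm)
  obtain ⟨y, hy, hyE⟩ := h.exists_notMem_fix
  set v := q * y * q⁻¹ with hv
  have hvR : v ∈ R := h.inv y hy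
  have hvE : v ∉ E := fun hc => hyE (h.conj_eq_iff_mem_fix hy hc)
  have hyv : y⁻¹ * v ∉ E := fun hc => hyE (h.fpf hy hc)
  have hs : y ^ 2 ∈ E := h.sq_mem hy
  have hsq : v ^ 2 = y ^ 2 := h.conj_sq hy
  set D := E ⊔ zpowers y with hD
  have hDR : D ≤ R := sup_le hER ((Subgroup.zpowers_le).mpr hy)
  have hDc : IsMulCommutative D :=
    isMulCommutative_sup_zpowers hEcomm (fun a ha => h.central ha hy)
  have hED : E ≤ D := le_sup_left
  have hyD : y ∈ D := Subgroup.mem_sup_right (Subgroup.mem_zpowers y)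
  have hD4 : 4 ≤ Nat.card D := by
    have := two_mul_card_le_of_lt hED (fun heq => hyE (show y ∈ E from heq.symm ▸ hyD))
    omega
  have hDcases : ∀ x ∈ D, x ∈ E ∨ y⁻¹ * x ∈ E := by
    intro x hx
    refine mem_sup_zpowers_cases (fun e he => ?_) hs hx
    rw [h.central he hy]
    simpa using he
  have hvD : v ∉ D := by
    intro hc
    rcases hDcases v hc with h1 | h1
    · exact hvE h1
    · exact hyv h1
  set c := v * y * v⁻¹ * y⁻¹ with hc
  have hcE : c ∈ E := h.comm_mem hvR hy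
  have hvy : v * y * v⁻¹ = c * y := by rw [hc]; group
  -- the join with `v` is everything
  have hD2 : D ⊔ zpowers v = R := by
    refine Subgroup.eq_of_le_of_card_ge (sup_le hDR ((Subgroup.zpowers_le).mpr hvR)) ?_
    have := two_mul_card_le_of_lt (le_sup_left : D ≤ D ⊔ zpowers v)
      (fun heq => hvD (heq.symm ▸ Subgroup.mem_sup_right (Subgroup.mem_zpowers v)))
    omega
  have hc1 : c ≠ 1 := by
    intro hc1
    have hvy2 : v * y = y * v := by
      have h1 : v * y * v⁻¹ = y := by rw [hvy, hc1, one_mul]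
      calc v * y = (v * y * v⁻¹) * v := by group
        _ = y * v := by rw [h1]
    have hDcomm : ∀ a ∈ D, ∀ b ∈ D, a * b = b * a := by
      intro a ha b hb
      exact congrArg Subtype.val (hDc.is_comm.comm (⟨a, ha⟩ : D) ⟨b, hb⟩)
    have hvcomm : ∀ a ∈ D, v * a = a * v := by
      have hle : D ≤ centralizer ({v} : Set G) := by
        refine sup_le ?_ ?_
        · intro a ha
          rw [Subgroup.mem_centralizer_singleton_iff]
          exact (h.central ha hvR).symm
        · rw [Subgroup.zpowers_le, Subgroup.mem_centralizer_singleton_iff]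
          exact hvy2.symm
      intro a ha
      exact (Subgroup.mem_centralizer_singleton_iff.mp (hle ha)).symm
    have hB : IsMulCommutative (D ⊔ zpowers v : Subgroup G) :=
      isMulCommutative_sup_zpowers hDcomm hvcomm
    rw [hD2] at hB
    obtain ⟨a, ha, b, hb, hab⟩ := hna
    exact hab (congrArg Subtype.val (hB.is_comm.comm (⟨a, ha⟩ : R) ⟨b, hb⟩))
  have hclass : ∀ x ∈ R, x ∈ E ∨ y⁻¹ * x ∈ E ∨ v⁻¹ * x ∈ E ∨ y⁻¹ * (v⁻¹ * x) ∈ E := by
    intro x hx
    have hx' : x ∈ D ⊔ zpowers v := hD2 ▸ hx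
    have hnorm : ∀ d ∈ D, v * d * v⁻¹ ∈ D := by
      have : D ≤ D.comap (MulAut.conj v).toMonoidHom := by
        refine sup_le ?_ ?_
        · intro e he
          rw [Subgroup.mem_comap]
          have h1 : (MulAut.conj v).toMonoidHom e = v * e * v⁻¹ := rfl
          rw [h1, h.central he hvR]
          simpa using hED he
        · rw [Subgroup.zpowers_le, Subgroup.mem_comap]
          have h1 : (MulAut.conj v).toMonoidHom y = v * y * v⁻¹ := rfl
          rw [h1, hvy]
          exact mul_mem (hED hcE) hyD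
      exact fun d hd => this hd
    have hv2 : v ^ 2 ∈ D := by rw [hsq]; exact hED hs
    rcases mem_sup_zpowers_cases hnorm hv2 hx' with h1 | h1
    · rcases hDcases x h1 with h2 | h2
      · exact Or.inl h2
      · exact Or.inr (Or.inl h2)
    · rcases hDcases _ h1 with h2 | h2
      · exact Or.inr (Or.inr (Or.inl h2))
      · exact Or.inr (Or.inr (Or.inr h2))
  have hs1 : y ^ 2 ≠ 1 := by
    intro hs1
    set w := q * v * q⁻¹ with hw
    have hwR : w ∈ R := h.inv v hvR
    have hw2 : w ^ 2 = 1 := by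
      rw [hw, h.conj_sq hvR, hsq, hs1]
    have hv2 : v ^ 2 = 1 := by rw [hsq, hs1]
    rcases hclass w hwR with h1 | h1 | h1 | h1
    · exact hvE (h.conj_eq_iff_mem_fix hvR h1)
    · -- `q²` fixes `y`
      have hodd : Odd (orderOf (q ^ 2)) := Odd.of_dvd_nat h.odd (orderOf_dvd_of_pow_eq_one (by
        rw [← pow_mul, mul_comm, pow_mul, pow_orderOf_eq_one, one_pow]))
      have hfix1 := (mem_fixS.mp h1).2
      have hb2 : q ^ 2 * (y⁻¹ * w) * (q ^ 2)⁻¹ = y⁻¹ * w := by
        have e1 : q ^ 2 * (y⁻¹ * w) * (q ^ 2)⁻¹ = q * (q * (y⁻¹ * w) * q⁻¹) * q⁻¹ := by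
          rw [pow_two]; group
        rw [e1, hfix1, hfix1]
      have hx2 : q ^ 2 * y * (q ^ 2)⁻¹ = y * (y⁻¹ * w) := by
        have e1 : q ^ 2 * y * (q ^ 2)⁻¹ = q * (q * y * q⁻¹) * q⁻¹ := by
          rw [pow_two]; group
        rw [e1, ← hv, ← hw]
        group
      obtain ⟨k, hk⟩ := exists_two_pow h.two (hER h1)
      have hb1 := twist_eq_one hodd hb2 hx2 hk
      have hq2 : q ^ 2 * y * (q ^ 2)⁻¹ = y := by rw [hx2, hb1, mul_one]
      -- `q` is a power of `q²`
      obtain ⟨m, hm⟩ := h.odd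
      have hq3 : q = (q ^ 2) ^ (m + 1) := by
        rw [← pow_mul]
        have : 2 * (m + 1) = orderOf q + 1 := by omega
        rw [this, pow_succ, pow_orderOf_eq_one, one_mul]
      have hq4 : ∀ n : ℕ, (q ^ 2) ^ n * y * ((q ^ 2) ^ n)⁻¹ = y := by
        intro n
        induction n with
        | zero => simp
        | succ n ih =>
          have : (q ^ 2) ^ (n + 1) * y * ((q ^ 2) ^ (n + 1))⁻¹ =
              (q ^ 2) ^ n * (q ^ 2 * y * (q ^ 2)⁻¹) * ((q ^ 2) ^ n)⁻¹ := by
            rw [pow_succ]; group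
          rw [this, hq2, ih]
      have hq5 := hq4 (m + 1)
      rw [← hq3] at hq5
      exact hyE (mem_fixS.mpr ⟨hy, hq5⟩)
    · exact hvE (h.fpf hvR h1)
    · -- `w = v y e`
      have hw3 : w = v * y * (y⁻¹ * (v⁻¹ * w)) := by group
      set e := y⁻¹ * (v⁻¹ * w) with he
      have hecen := h.central h1 (mul_mem hvR hy)
      have h2 : (v * y) ^ 2 = c := by
        have hy2 : y * y = 1 := by rwa [pow_two] at hs1
        have hvv : v * v = 1 := by rwa [pow_two] at hv2
        have hcy := h.central hcE hy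
        rw [pow_two]
        calc v * y * (v * y) = (v * y * v⁻¹) * (v * v) * y := by group
          _ = c * y * y := by rw [hvy, hvv, mul_one]
          _ = c := by rw [mul_assoc, hy2, mul_one]
      have h3 : w ^ 2 = c * e ^ 2 := by
        have h4 : (v * y * e) ^ 2 = (v * y) ^ 2 * e ^ 2 := Commute.mul_pow hecen 2
        rw [← hw3] at h4
        rw [h4, h2]
      rw [hesq e h1, mul_one] at h3
      exact hc1 (h3.symm.trans hw2)
  have hcs : c = y ^ 2 := hEuniq c hcE _ hs hc1 hs1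
  have hy4 : y ^ 4 = 1 := h.pow_four hno hna hy
  have hord : orderOf y = 4 := by
    have : orderOf y = 2 ^ 2 := orderOf_eq_prime_pow (p := 2) (n := 1)
      (by simpa using hs1) (by simpa using hy4)
    rw [this]; norm_num
  have hvy3 : v * y * v⁻¹ = y⁻¹ := by
    rw [hvy, hcs]
    apply eq_inv_of_mul_eq_one_left
    calc y ^ 2 * y * y = y ^ 4 := by group
      _ = 1 := hy4
  haveI : NeZero 2 := ⟨by norm_num⟩
  refine Cfsg.Agent.Lib.PGroup.CyclicMax.quaternionEquivOfGens 2 (by rw [hR8]) ⟨y, hy⟩ ⟨v, hvR⟩ ?_ ?_ ?_ ?_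
  · rw [Subgroup.orderOf_mk, hord]
  · apply Subtype.ext
    show v * v = y ^ 2
    rw [← hsq, pow_two]
  · apply Subtype.ext
    exact hvy3
  · intro hc
    obtain ⟨k, hk⟩ := hc
    apply hvD
    have hk' : y ^ k = v := congrArg Subtype.val hk
    rw [← hk']
    exact zpow_mem hyD k

end MinAct4

/-- The two possible shapes. -/
structure VQ (R : Subgroup G) (q : G) : Prop where
  act : MinAct R q
  noA : NoA R
  case : (Nat.card R = 4 ∧ fixS R q = ⊥ ∧ ∀ x ∈ R, x ^ 2 = 1) ∨
    (Nat.card R = 8 ∧ Nat.card (fixS R q) = 2 ∧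
      (∀ x, x ∈ fixS R q ↔ x ∈ R ∧ ∀ y ∈ R, x * y = y * x) ∧ Nonempty (R ≃* QuaternionGroup 2))

theorem vq_of_minAct {R : Subgroup G} {q : G} (h : MinAct R q) (hno : NoA R) : VQ R q := by
  refine ⟨h, hno, ?_⟩
  by_cases hab : ∀ x ∈ R, ∀ y ∈ R, x * y = y * x
  · exact Or.inl (h.abelian_case hno hab)
  · push Not at hab
    exact Or.inr ⟨h.card_eq_eight hno hab, h.card_fix_eq_two hno hab,
      fun x => h.mem_fix_iff_center hab, h.q8_case hno hab⟩

theorem exists_central_mod {P : Type*} [Group P] [Finite P] (hP : IsPGroup 2 P) {R E : Subgroup P}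
    (hR : R.Normal) (hE : E.Normal) (hle : E ≤ R) (hne : E ≠ R) :
    ∃ r ∈ R, r ∉ E ∧ ∀ p : P, p * r * p⁻¹ * r⁻¹ ∈ E := by
  haveI : Fact (Nat.Prime 2) := ⟨Nat.prime_two⟩
  let Rb : Subgroup (P ⧸ E) := R.map (QuotientGroup.mk' E)
  haveI : Rb.Normal := hR.map _ (QuotientGroup.mk'_surjective E)
  have hRb : Rb ≠ ⊥ := by
    intro hb
    apply hne
    apply le_antisymm hle
    intro r hr
    have : QuotientGroup.mk' E r ∈ Rb := mem_map_of_mem _ hr
    rw [hb, mem_bot] at this
    exact (QuotientGroup.eq_one_iff r).mp this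
  have hPq : IsPGroup 2 (P ⧸ E) := hP.to_quotient E
  have h1 := Cfsg.Agent.Lib.PGroup.Basic.inf_center_ne_bot hPq hRb
  obtain ⟨⟨x, hx⟩, hx1⟩ := (Subgroup.ne_bot_iff_exists_ne_one).mp h1
  have hx1' : x ≠ 1 := fun hc => hx1 (Subtype.ext hc)
  obtain ⟨r, hr, rfl⟩ := (Subgroup.mem_inf.mp hx).1
  refine ⟨r, hr, ?_, ?_⟩
  · intro hc
    exact hx1' ((QuotientGroup.eq_one_iff r).mpr hc)
  · intro p
    have hc := (Subgroup.mem_center_iff.mp (Subgroup.mem_inf.mp hx).2) (QuotientGroup.mk' E p)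
    have h3 : QuotientGroup.mk' E (p * r * p⁻¹ * r⁻¹) = 1 := by
      rw [map_mul, map_mul, map_mul, map_inv, map_inv, hc]
      group
    exact (QuotientGroup.eq_one_iff _).mp h3

section VQ

variable {R : Subgroup G} {q : G}

theorem VQ.fix_conj_mem (h : VQ R q) {n : G} (hn : ∀ x ∈ R, n * x * n⁻¹ ∈ R) {e : G}
    (he : e ∈ fixS R q) : n * e * n⁻¹ ∈ fixS R q := by
  rcases h.case with ⟨-, hb, -⟩ | ⟨-, -, hc, -⟩
  · rw [hb, Subgroup.mem_bot] at he
    rw [he, hb]
    simp
  · have he' := (hc e).mp he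
    refine (hc _).mpr ⟨hn e he'.1, ?_⟩
    intro y hy
    have h1 := he'.2 _ (inv_conj_mem hn y hy)
    calc n * e * n⁻¹ * y = n * (e * (n⁻¹ * y * n)) * n⁻¹ := by group
      _ = n * ((n⁻¹ * y * n) * e) * n⁻¹ := by rw [h1]
      _ = _ := by group

/-- A `2`-group normalized by `q` and normalizing `R` acts trivially on `R / E`. -/
theorem VQ.act_trivial (h : VQ R q) {N : Subgroup G} (hN2 : IsPGroup 2 N)
    (hNR : ∀ n ∈ N, ∀ x ∈ R, n * x * n⁻¹ ∈ R) (hqN : ∀ n ∈ N, q⁻¹ * n * q ∈ N) :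
    ∀ n ∈ N, ∀ x ∈ R, n * x * n⁻¹ * x⁻¹ ∈ fixS R q := by
  classical
  haveI : Fact (Nat.Prime 2) := ⟨Nat.prime_two⟩
  have hact := h.act
  set E := fixS R q with hE
  have hER : E ≤ R := inf_le_left
  -- the normalizers
  have hNnorm : N ≤ normalizer (R : Set G) := by
    intro n hn
    rw [Subgroup.mem_normalizer_iff]
    intro x
    constructor
    · exact hNR n hn x
    · intro hx
      have := inv_conj_mem (hNR n hn) _ hx
      simpa [mul_assoc] using this
  have hRnorm : R ≤ normalizer (R : Set G) := le_normalizer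
  have hP2 : IsPGroup 2 (N ⊔ R : Subgroup G) :=
    IsPGroup.to_sup_of_normal_right' hN2 hact.two hNnorm
  have hPR : (N ⊔ R : Subgroup G) ≤ normalizer (R : Set G) := sup_le hNnorm hRnorm
  have hPE : (N ⊔ R : Subgroup G) ≤ normalizer (E : Set G) := by
    have h1 : ∀ g : G, (∀ x ∈ R, g * x * g⁻¹ ∈ R) → g ∈ normalizer (E : Set G) := by
      intro g hg
      rw [Subgroup.mem_normalizer_iff]
      intro x
      constructor
      · exact fun hx => h.fix_conj_mem hg hx
      · intro hx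
        have hinv2 : ∀ x ∈ R, g⁻¹ * x * g⁻¹⁻¹ ∈ R := by simpa using inv_conj_mem hg
        have := h.fix_conj_mem hinv2 hx
        simpa [mul_assoc] using this
    refine sup_le (fun n hn => h1 n (hNR n hn)) (fun r hr => h1 r (fun x hx => ?_))
    exact mul_mem (mul_mem hr hx) (inv_mem hr)
  have hRP : R ≤ N ⊔ R := le_sup_right
  have hNP : N ≤ N ⊔ R := le_sup_left
  haveI hRn : (R.subgroupOf (N ⊔ R : Subgroup G)).Normal := by
    refine ⟨fun x hx p => ?_⟩
    rw [Subgroup.mem_subgroupOf] at hx ⊢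
    have := (Subgroup.mem_normalizer_iff.mp (hPR p.2) x).mp hx
    simpa using this
  haveI hEn : (E.subgroupOf (N ⊔ R : Subgroup G)).Normal := by
    refine ⟨fun x hx p => ?_⟩
    rw [Subgroup.mem_subgroupOf] at hx ⊢
    have := (Subgroup.mem_normalizer_iff.mp (hPE p.2) x).mp hx
    simpa using this
  have hle : E.subgroupOf (N ⊔ R : Subgroup G) ≤ R.subgroupOf (N ⊔ R : Subgroup G) := by
    intro x hx
    rw [Subgroup.mem_subgroupOf] at hx ⊢
    exact hER hx
  have hne : E.subgroupOf (N ⊔ R : Subgroup G) ≠ R.subgroupOf (N ⊔ R : Subgroup G) := by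
    intro heq
    apply hact.ne_top_fix
    apply le_antisymm hER
    intro r hr
    have h1 : (⟨r, hRP hr⟩ : (N ⊔ R : Subgroup G)) ∈ R.subgroupOf (N ⊔ R : Subgroup G) := by
      rw [Subgroup.mem_subgroupOf]; exact hr
    rw [← heq, Subgroup.mem_subgroupOf] at h1
    exact h1
  obtain ⟨r, hr, hrE, hrc⟩ := exists_central_mod hP2 hRn hEn hle hne
  rw [Subgroup.mem_subgroupOf] at hr hrE
  -- the subgroup of elements with trivial action
  let K : Subgroup G :=
    { carrier := {x | x ∈ R ∧ ∀ n ∈ N, n * x * n⁻¹ * x⁻¹ ∈ E}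
      one_mem' := ⟨one_mem R, fun n _ => by simp [one_mem]⟩
      mul_mem' := by
        rintro a b ⟨ha, ha2⟩ ⟨hb, hb2⟩
        refine ⟨mul_mem ha hb, fun n hn => ?_⟩
        have h1 : n * (a * b) * n⁻¹ * (a * b)⁻¹ =
            (n * a * n⁻¹ * a⁻¹) * (a * (n * b * n⁻¹ * b⁻¹) * a⁻¹) := by group
        rw [h1]
        exact mul_mem (ha2 n hn) (hact.conj_mem ha (hb2 n hn))
      inv_mem' := by
        rintro a ⟨ha, ha2⟩
        refine ⟨inv_mem ha, fun n hn => ?_⟩
        have h1 : n * a⁻¹ * n⁻¹ * a⁻¹⁻¹ = a⁻¹ * (n * a * n⁻¹ * a⁻¹)⁻¹ * a⁻¹⁻¹ := by group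
        rw [h1]
        exact hact.conj_mem (inv_mem ha) (inv_mem (ha2 n hn)) }
  have hKR : K ≤ R := fun x hx => hx.1
  have hKinv : ∀ x ∈ K, q * x * q⁻¹ ∈ K := by
    rintro x ⟨hx, hx2⟩
    refine ⟨hact.inv x hx, fun n hn => ?_⟩
    have h1 : n * (q * x * q⁻¹) * n⁻¹ * (q * x * q⁻¹)⁻¹ =
        q * ((q⁻¹ * n * q) * x * (q⁻¹ * n * q)⁻¹ * x⁻¹) * q⁻¹ := by group
    rw [h1]
    have h2 := hx2 _ (hqN n hn)
    rw [(mem_fixS.mp h2).2]
    exact h2
  have hrK : (r : G) ∈ K := by
    refine ⟨hr, fun n hn => ?_⟩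
    have h1 := hrc ⟨n, hNP hn⟩
    rw [Subgroup.mem_subgroupOf] at h1
    exact h1
  have hKeq : K = R := by
    by_contra hne
    have := hact.min K hKR hKinv hne _ hrK
    exact hrE (mem_fixS.mpr ⟨hr, this⟩)
  intro n hn x hx
  have : x ∈ K := hKeq ▸ hx
  exact this.2 n hn

/-- An element of `2`-power order outside `R ≅ Q₈` centralizing it produces a forbidden subgroup. -/
theorem VQ.not_noA_of_centralizing (h : VQ R q) (hq8 : Nat.card R = 8) {c : G} (hcR : c ∉ R)
    (hP : IsPGroup 2 (R ⊔ zpowers c : Subgroup G)) (hcc : ∀ x ∈ R, c * x = x * c) :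
    ¬ NoA (R ⊔ zpowers c) := by
  classical
  have hact := h.act
  obtain ⟨hE2, hcen, ⟨e⟩⟩ : Nat.card (fixS R q) = 2 ∧
      (∀ x, x ∈ fixS R q ↔ x ∈ R ∧ ∀ y ∈ R, x * y = y * x) ∧ Nonempty (R ≃* QuaternionGroup 2) := by
    rcases h.case with ⟨h4, -⟩ | ⟨-, h1, h2, h3⟩
    · omega
    · exact ⟨h1, h2, h3⟩
  set E := fixS R q with hE
  have hER : E ≤ R := inf_le_left
  have hEuniq : ∀ a ∈ E, ∀ b ∈ E, a ≠ 1 → b ≠ 1 → a = b := by
    intro a ha b hb ha1 hb1
    obtain ⟨w, hw1, hw2⟩ := (Nat.card_eq_two_iff' (1 : E)).mp hE2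
    have e1 : (⟨a, ha⟩ : E) = w := hw2 _ (fun hc => ha1 (congrArg Subtype.val hc))
    have e2 : (⟨b, hb⟩ : E) = w := hw2 _ (fun hc => hb1 (congrArg Subtype.val hc))
    exact congrArg Subtype.val (e1.trans e2.symm)
  have hEsq : ∀ a ∈ E, a ^ 2 = 1 := by
    intro a ha
    have h2 : (⟨a, ha⟩ : E) ^ Nat.card E = 1 := pow_card_eq_one'
    rw [hE2] at h2
    exact congrArg Subtype.val h2
  -- the element `y₀`
  have hcm : c ∈ (R ⊔ zpowers c : Subgroup G) := Subgroup.mem_sup_right (Subgroup.mem_zpowers c)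
  have hex : ∃ k : ℕ, c ^ 2 ^ k ∈ R := by
    obtain ⟨k, hk⟩ := exists_two_pow hP hcm
    exact ⟨k, by rw [hk]; exact one_mem R⟩
  set k := Nat.find hex with hk
  have hk1 : c ^ 2 ^ k ∈ R := Nat.find_spec hex
  have hk0 : k ≠ 0 := by
    intro h0
    rw [h0, pow_zero, pow_one] at hk1
    exact hcR hk1
  obtain ⟨l, hl⟩ : ∃ l, k = l + 1 := ⟨k - 1, by omega⟩
  have hl1 : c ^ 2 ^ l ∉ R := Nat.find_min hex (by omega : l < k)
  set y := c ^ 2 ^ l with hy
  have hy2 : y ^ 2 = c ^ 2 ^ k := by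
    rw [hy, ← pow_mul, hl, pow_succ]
  have hyR : y ^ 2 ∈ R := hy2 ▸ hk1
  have hyc : ∀ x ∈ R, y * x = x * y := by
    intro x hx
    have h1 : Commute c x := hcc x hx
    exact (h1.pow_left _)
  have hyE : y ^ 2 ∈ E := by
    refine (hcen _).mpr ⟨hyR, fun x hx => ?_⟩
    have h1 : Commute y x := hyc x hx
    exact (h1.pow_left 2)
  -- the element `i` of order four
  set i := ((e.symm (QuaternionGroup.a 1) : R) : G) with hi
  have hiR : i ∈ R := (e.symm (QuaternionGroup.a 1) : R).2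
  have hiord : orderOf i = 4 := by
    rw [hi, Subgroup.orderOf_coe, MulEquiv.orderOf_eq, QuaternionGroup.orderOf_a_one]
  have hi4 : i ^ 4 = 1 := by rw [← hiord]; exact pow_orderOf_eq_one i
  have hi2 : i ^ 2 ≠ 1 := by
    intro hc
    have := orderOf_le_of_pow_eq_one (by norm_num : 0 < 2) hc
    omega
  have hi2E : i ^ 2 ∈ E := hact.sq_mem hiR
  -- the second involution
  obtain ⟨w, hw, hw2, hwR⟩ : ∃ w ∈ (zpowers i ⊔ zpowers y : Subgroup G), w ^ 2 = 1 ∧ w ∉ R := by
    by_cases hy1 : y ^ 2 = 1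
    · exact ⟨y, Subgroup.mem_sup_right (Subgroup.mem_zpowers y), hy1, hl1⟩
    · refine ⟨y * i⁻¹, mul_mem (Subgroup.mem_sup_right (Subgroup.mem_zpowers y))
        (inv_mem (Subgroup.mem_sup_left (Subgroup.mem_zpowers i))), ?_, ?_⟩
      · have h1 : y ^ 2 = i ^ 2 := hEuniq _ hyE _ hi2E hy1 hi2
        have h2 : Commute y i⁻¹ := by
          have h3 : Commute y i := hyc i hiR
          exact h3.inv_right
        rw [h2.mul_pow, h1, inv_pow]
        simp
      · intro hc
        apply hl1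
        have : y = (y * i⁻¹) * i := by group
        rw [this]
        exact mul_mem hc hiR
  have hzB : i ^ 2 ∈ (zpowers i ⊔ zpowers y : Subgroup G) :=
    Subgroup.mem_sup_left (Subgroup.pow_mem _ (Subgroup.mem_zpowers i) 2)
  have hBle : (zpowers i ⊔ zpowers y : Subgroup G) ≤ R ⊔ zpowers c := by
    refine sup_le ?_ ?_
    · rw [Subgroup.zpowers_le]
      exact Subgroup.mem_sup_left hiR
    · rw [Subgroup.zpowers_le]
      exact Subgroup.pow_mem _ hcm _
  have hB2 : IsPGroup 2 (zpowers i ⊔ zpowers y : Subgroup G) := hP.to_le hBle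
  have hBc : IsMulCommutative (zpowers i ⊔ zpowers y : Subgroup G) := by
    refine isMulCommutative_sup_zpowers ?_ ?_
    · rintro _ ⟨a, rfl⟩ _ ⟨b, rfl⟩
      exact (zpow_mul_comm i a b)
    · rintro _ ⟨a, rfl⟩
      have h3 : Commute y i := hyc i hiR
      exact (h3.zpow_right a)
  have hyB : y ∈ (zpowers i ⊔ zpowers y : Subgroup G) :=
    Subgroup.mem_sup_right (Subgroup.mem_zpowers y)
  have hB8 : 8 ≤ Nat.card (zpowers i ⊔ zpowers y : Subgroup G) := by
    have h1 := two_mul_card_le_of_lt (le_sup_left : zpowers i ≤ zpowers i ⊔ zpowers y)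
      (fun heq => hl1 (by
        have : y ∈ zpowers i := heq.symm ▸ hyB
        exact (Subgroup.zpowers_le.mpr hiR) this))
    rw [Nat.card_zpowers, hiord] at h1
    omega
  intro hno
  refine not_noA_of_abelian hBc hB2 ?_ hB8 (hno.mono hBle)
  refine not_isCyclic_of_two_involutions hzB hw ?_ hw2 hi2 ?_ ?_
  · rw [← pow_mul]; exact hi4
  · rintro rfl
    exact hwR (one_mem R)
  · rintro rfl
    exact hwR hi2E.1

end VQ

/-- **Main structural lemma.** -/
theorem vq_of_noA {T : Subgroup G} {q : G} (hT2 : IsPGroup 2 T) (hodd : Odd (orderOf q))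
    (hinv : ∀ x ∈ T, q * x * q⁻¹ ∈ T) (hnt : ∃ x ∈ T, q * x * q⁻¹ ≠ x) (hno : NoA T) : VQ T q := by
  classical
  haveI : Fact (Nat.Prime 2) := ⟨Nat.prime_two⟩
  let S : Set (Subgroup G) :=
    {Y | Y ≤ T ∧ (∀ x ∈ Y, q * x * q⁻¹ ∈ Y) ∧ ∃ x ∈ Y, q * x * q⁻¹ ≠ x}
  have hS : S.Nonempty := ⟨T, le_rfl, hinv, hnt⟩
  obtain ⟨R, hR⟩ := (Set.toFinite S).exists_minimal hS
  obtain ⟨hRT, hRinv, hRnt⟩ := hR.prop
  have hmin : MinAct R q := by
    refine ⟨hT2.to_le hRT, hodd, hRinv, hRnt, ?_⟩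
    intro Y hYR hYinv hYne x hx
    by_contra hne
    have hYS : Y ∈ S := ⟨hYR.trans hRT, hYinv, x, hx, hne⟩
    exact hYne (le_antisymm hYR (hR.le_of_le hYS hYR))
  have hvq : VQ R q := vq_of_minAct hmin (hno.mono hRT)
  have hRTeq : R = T := by
    by_contra hne
    have hlt : R < T := lt_of_le_of_ne hRT hne
    obtain ⟨x, hxT, hxR, hxN⟩ := Cfsg.Agent.Lib.PGroup.Basic.exists_mem_normalizer_of_lt hT2 hlt
    set N : Subgroup G := T ⊓ normalizer (R : Set G) with hN
    have hN2 : IsPGroup 2 N := hT2.to_le inf_le_left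
    have hNR : ∀ n ∈ N, ∀ y ∈ R, n * y * n⁻¹ ∈ R := by
      intro n hn y hy
      exact (Subgroup.mem_normalizer_iff.mp (Subgroup.mem_inf.mp hn).2 y).mp hy
    have hqN : ∀ n ∈ N, q⁻¹ * n * q ∈ N := by
      intro n hn
      refine Subgroup.mem_inf.mpr ⟨inv_conj_mem hinv n (Subgroup.mem_inf.mp hn).1, ?_⟩
      rw [Subgroup.mem_normalizer_iff]
      intro y
      have hn2 := Subgroup.mem_normalizer_iff.mp (Subgroup.mem_inf.mp hn).2
      constructor
      · intro hy
        have h1 : q⁻¹ * n * q * y * (q⁻¹ * n * q)⁻¹ = q⁻¹ * (n * (q * y * q⁻¹) * n⁻¹) * q := by group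
        rw [h1]
        exact inv_conj_mem hRinv _ ((hn2 _).mp (hRinv y hy))
      · intro hy
        have h1 : q⁻¹ * n * q * y * (q⁻¹ * n * q)⁻¹ = q⁻¹ * (n * (q * y * q⁻¹) * n⁻¹) * q := by group
        rw [h1] at hy
        have h2 := hRinv _ hy
        have h3 : q * (q⁻¹ * (n * (q * y * q⁻¹) * n⁻¹) * q) * q⁻¹ = n * (q * y * q⁻¹) * n⁻¹ := by group
        rw [h3] at h2
        have h4 := (hn2 _).mpr h2
        have h5 := inv_conj_mem hRinv _ h4
        simpa [mul_assoc] using h5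
    have hxN' : x ∈ N := Subgroup.mem_inf.mpr ⟨hxT, hxN⟩
    have htriv := hvq.act_trivial hN2 hNR hqN x hxN'
    rcases hvq.case with ⟨h4, hb, hsq⟩ | ⟨h8, h2, hcen, ⟨e⟩⟩
    · -- the four-group
      have hcomm : ∀ a ∈ R, ∀ b ∈ R, a * b = b * a := by
        intro a ha b hb
        have h1 := hsq a ha
        have h2 := hsq b hb
        have h3 := hsq _ (mul_mem ha hb)
        rw [pow_two] at h1 h2 h3
        calc a * b = a * (a * b * (a * b)) * b := by rw [h3]; group
          _ = (a * a) * b * a * (b * b) := by group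
          _ = b * a := by rw [h1, h2]; group
      have hxc : ∀ a ∈ R, x * a = a * x := by
        intro a ha
        have h1 := htriv a ha
        rw [hb, Subgroup.mem_bot] at h1
        have h2 : x * a * x⁻¹ = a := by
          have := congrArg (fun z => z * a) h1
          simpa using this
        calc x * a = (x * a * x⁻¹) * x := by group
          _ = a * x := by rw [h2]
      have hBle : (R ⊔ zpowers x : Subgroup G) ≤ T :=
        sup_le hRT ((Subgroup.zpowers_le).mpr hxT)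
      have hBc : IsMulCommutative (R ⊔ zpowers x : Subgroup G) :=
        isMulCommutative_sup_zpowers hcomm hxc
      have hB8 := two_mul_card_le_of_lt (le_sup_left : R ≤ R ⊔ zpowers x)
        (fun heq => hxR (heq.symm ▸ Subgroup.mem_sup_right (Subgroup.mem_zpowers x)))
      refine not_noA_of_abelian hBc (hT2.to_le hBle) ?_ (by omega) (hno.mono hBle)
      intro hc
      have hin : IsCyclic (R.subgroupOf (R ⊔ zpowers x : Subgroup G)) := inferInstance
      have hRc : IsCyclic R := isCyclic_of_surjective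
        (Subgroup.subgroupOfEquivOfLe (le_sup_left : R ≤ R ⊔ zpowers x))
        (Subgroup.subgroupOfEquivOfLe (le_sup_left : R ≤ R ⊔ zpowers x)).surjective
      obtain ⟨g, hg⟩ := hRc.exists_generator
      have hord : orderOf g = Nat.card R := orderOf_eq_card_of_forall_mem_zpowers hg
      have hg2 : g ^ 2 = 1 := Subtype.ext (by simpa using hsq g g.2)
      have := orderOf_le_of_pow_eq_one (by norm_num : 0 < 2) hg2
      omega
    · -- the quaternion group
      have hφ : ∀ y : R, y⁻¹ * normalizerMonoidHom R ⟨x, hxN⟩ y ∈ center R := by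
        intro y
        rw [Subgroup.mem_center_iff]
        intro g
        apply Subtype.ext
        have h1 := htriv y y.2
        have h2 : ((y⁻¹ * normalizerMonoidHom R ⟨x, hxN⟩ y : R) : G) =
            (y : G)⁻¹ * (x * y * x⁻¹ * (y : G)⁻¹) * y := by
          show (y : G)⁻¹ * (x * y * x⁻¹) = _
          group
        have h3 : ((y⁻¹ * normalizerMonoidHom R ⟨x, hxN⟩ y : R) : G) ∈ fixS R q := by
          rw [h2]
          exact hmin.conj_mem (inv_mem y.2 : (y : G)⁻¹ ∈ R) (by simpa using h1) |> fun h5 => by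
            simpa using h5
        exact ((hcen _).mp h3).2 g g.2 |>.symm
      obtain ⟨u, hu⟩ := Cfsg.Agent.Lib.PGroup.LocalIndex.inner_of_trivial e
        (normalizerMonoidHom R ⟨x, hxN⟩) hφ
      set c := (u : G)⁻¹ * x with hc
      have hcR : c ∉ R := by
        intro h1
        apply hxR
        have : x = u * c := by rw [hc]; group
        rw [this]
        exact mul_mem u.2 h1
      have hcT : c ∈ T := mul_mem (inv_mem (hRT u.2)) hxT
      have hcc : ∀ y ∈ R, c * y = y * c := by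
        intro y hy
        have h2 := congrArg Subtype.val (hu ⟨y, hy⟩)
        have h3 : x * y * x⁻¹ = (u : G) * y * (u : G)⁻¹ := h2
        have h4 : x * y = (u : G) * y * (u : G)⁻¹ * x := by
          rw [← h3]; group
        calc c * y = (u : G)⁻¹ * (x * y) := by rw [hc]; group
          _ = (u : G)⁻¹ * ((u : G) * y * (u : G)⁻¹ * x) := by rw [h4]
          _ = y * c := by rw [hc]; group
      have hBle : (R ⊔ zpowers c : Subgroup G) ≤ T :=
        sup_le hRT ((Subgroup.zpowers_le).mpr hcT)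
      exact hvq.not_noA_of_centralizing h8 hcR (hT2.to_le hBle) hcc (hno.mono hBle)
  exact hRTeq ▸ hvq

section VQ2

variable {R : Subgroup G} {q : G}

theorem VQ.fix_sq (h : VQ R q) {e : G} (he : e ∈ fixS R q) : e ^ 2 = 1 := by
  rcases h.case with ⟨-, hb, -⟩ | ⟨-, h2, -, -⟩
  · rw [hb, Subgroup.mem_bot] at he
    rw [he, one_pow]
  · have h3 : (⟨e, he⟩ : fixS R q) ^ Nat.card (fixS R q) = 1 := pow_card_eq_one'
    rw [h2] at h3
    exact congrArg Subtype.val h3

theorem VQ.q8_data (h : VQ R q) (h8 : Nat.card R = 8) :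
    Nat.card (fixS R q) = 2 ∧ (∀ x, x ∈ fixS R q ↔ x ∈ R ∧ ∀ y ∈ R, x * y = y * x) ∧
      Nonempty (R ≃* QuaternionGroup 2) := by
  rcases h.case with ⟨h4, -⟩ | ⟨-, h1, h2, h3⟩
  · omega
  · exact ⟨h1, h2, h3⟩

theorem VQ.fix_uniq (h : VQ R q) (h8 : Nat.card R = 8) {a b : G} (ha : a ∈ fixS R q)
    (hb : b ∈ fixS R q) (ha1 : a ≠ 1) (hb1 : b ≠ 1) : a = b := by
  obtain ⟨hE2, -, -⟩ := h.q8_data h8
  obtain ⟨w, hw1, hw2⟩ := (Nat.card_eq_two_iff' (1 : fixS R q)).mp hE2
  have e1 : (⟨a, ha⟩ : fixS R q) = w := hw2 _ (fun hc => ha1 (congrArg Subtype.val hc))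
  have e2 : (⟨b, hb⟩ : fixS R q) = w := hw2 _ (fun hc => hb1 (congrArg Subtype.val hc))
  exact congrArg Subtype.val (e1.trans e2.symm)

/-- In `Q₈` the only elements of square one are central. -/
theorem VQ.mem_fix_of_sq_eq_one (h : VQ R q) (h8 : Nat.card R = 8) {x : G} (hx : x ∈ R)
    (hx2 : x ^ 2 = 1) : x ∈ fixS R q := by
  obtain ⟨-, hcen, ⟨e⟩⟩ := h.q8_data h8
  have key : ∀ t : QuaternionGroup 2, t ^ 2 = 1 → t = 1 ∨ t = QuaternionGroup.a 2 := by decide
  have h1 : e ⟨x, hx⟩ ^ 2 = 1 := by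
    rw [← map_pow]
    have : (⟨x, hx⟩ : R) ^ 2 = 1 := Subtype.ext hx2
    rw [this, map_one]
  have h2 := (Cfsg.Agent.Lib.PGroup.LocalIndex.mem_center_iff_of_equiv e ⟨x, hx⟩).mpr (key _ h1)
  refine (hcen x).mpr ⟨hx, fun y hy => ?_⟩
  have h3 := (Subgroup.mem_center_iff.mp h2) ⟨y, hy⟩
  exact (congrArg Subtype.val h3).symm

/-- Elements acting trivially on `R / E` act as inner automorphisms when `R ≅ Q₈`. -/
theorem VQ.exists_inner (h : VQ R q) (h8 : Nat.card R = 8) {x : G}
    (hxN : x ∈ normalizer (R : Set G)) (htriv : ∀ y ∈ R, x * y * x⁻¹ * y⁻¹ ∈ fixS R q) :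
    ∃ u ∈ R, ∀ y ∈ R, ((u : G)⁻¹ * x) * y = y * ((u : G)⁻¹ * x) := by
  obtain ⟨-, hcen, ⟨e⟩⟩ := h.q8_data h8
  have hφ : ∀ y : R, y⁻¹ * normalizerMonoidHom R ⟨x, hxN⟩ y ∈ center R := by
    intro y
    rw [Subgroup.mem_center_iff]
    intro g
    apply Subtype.ext
    have h1 := htriv y y.2
    have h2 : ((y⁻¹ * normalizerMonoidHom R ⟨x, hxN⟩ y : R) : G) =
        (y : G)⁻¹ * (x * y * x⁻¹ * (y : G)⁻¹) * y := by
      show (y : G)⁻¹ * (x * y * x⁻¹) = _
      group
    have h3 : ((y⁻¹ * normalizerMonoidHom R ⟨x, hxN⟩ y : R) : G) ∈ fixS R q := by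
      rw [h2]
      have h4 := h.act.conj_mem (inv_mem y.2 : (y : G)⁻¹ ∈ R) h1
      simpa using h4
    exact ((hcen _).mp h3).2 g g.2 |>.symm
  obtain ⟨u, hu⟩ := Cfsg.Agent.Lib.PGroup.LocalIndex.inner_of_trivial e
    (normalizerMonoidHom R ⟨x, hxN⟩) hφ
  refine ⟨u, u.2, fun y hy => ?_⟩
  have h2 := congrArg Subtype.val (hu ⟨y, hy⟩)
  have h3 : x * y * x⁻¹ = (u : G) * y * (u : G)⁻¹ := h2
  have h4 : x * y = (u : G) * y * (u : G)⁻¹ * x := by
    rw [← h3]; group
  calc (u : G)⁻¹ * x * y = (u : G)⁻¹ * (x * y) := by group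
    _ = (u : G)⁻¹ * ((u : G) * y * (u : G)⁻¹ * x) := by rw [h4]
    _ = _ := by group

/-- An element fixed by `q` acting trivially on `R / E` centralizes `R`. -/
theorem VQ.centralize (h : VQ R q) {y : G} (hqy : q * y * q⁻¹ = y)
    (htriv : ∀ x ∈ R, y * x * y⁻¹ * x⁻¹ ∈ fixS R q) : ∀ x ∈ R, y * x = x * y := by
  classical
  have hact := h.act
  set K : Subgroup G := R ⊓ centralizer ({y} : Set G) with hK
  have hKR : K ≤ R := inf_le_left
  have hKinv : ∀ x ∈ K, q * x * q⁻¹ ∈ K := by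
    intro x hx
    have hx1 := (Subgroup.mem_inf.mp hx).1
    have hx2 := Subgroup.mem_centralizer_singleton_iff.mp (Subgroup.mem_inf.mp hx).2
    refine Subgroup.mem_inf.mpr ⟨hact.inv x hx1, ?_⟩
    rw [Subgroup.mem_centralizer_singleton_iff]
    nth_rewrite 2 [← hqy]
    nth_rewrite 1 [← hqy]
    calc q * x * q⁻¹ * (q * y * q⁻¹) = q * (x * y) * q⁻¹ := by group
      _ = q * (y * x) * q⁻¹ := by rw [hx2]
      _ = _ := by group
  obtain ⟨w₁, hw₁, hw₁E⟩ := hact.exists_notMem_fix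
  set w₂ := q * w₁ * q⁻¹ with hw₂
  have hw₂R : w₂ ∈ R := hact.inv w₁ hw₁
  have hc₁ := htriv w₁ hw₁
  set c := y * w₁ * y⁻¹ * w₁⁻¹ with hc
  have hc₂ : y * w₂ * y⁻¹ * w₂⁻¹ = c := by
    have h1 : q * (y * w₁ * y⁻¹ * w₁⁻¹) * q⁻¹ =
        (q * y * q⁻¹) * w₂ * (q * y * q⁻¹)⁻¹ * w₂⁻¹ := by rw [hw₂]; group
    rw [hqy, ← hc, (mem_fixS.mp hc₁).2] at h1
    exact h1.symm
  have hcc := h.fix_sq hc₁
  have hcw := hact.central hc₁ hw₁
  have ht : y * (w₁ * w₂) * y⁻¹ * (w₁ * w₂)⁻¹ = 1 := by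
    have h1 : y * w₁ * y⁻¹ = c * w₁ := by rw [hc]; group
    have h2 : y * w₂ * y⁻¹ = c * w₂ := by rw [← hc₂]; group
    calc y * (w₁ * w₂) * y⁻¹ * (w₁ * w₂)⁻¹
        = (y * w₁ * y⁻¹) * (y * w₂ * y⁻¹) * w₂⁻¹ * w₁⁻¹ := by group
      _ = c * (w₁ * c) * w₁⁻¹ := by rw [h1, h2]; group
      _ = c * (c * w₁) * w₁⁻¹ := by rw [hcw]
      _ = c ^ 2 := by rw [pow_two]; group
      _ = 1 := hcc
  have htK : w₁ * w₂ ∈ K := by
    refine Subgroup.mem_inf.mpr ⟨mul_mem hw₁ hw₂R, ?_⟩
    rw [Subgroup.mem_centralizer_singleton_iff]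
    have h1 : y * (w₁ * w₂) * y⁻¹ = w₁ * w₂ := mul_inv_eq_one.mp ht
    calc w₁ * w₂ * y = (y * (w₁ * w₂) * y⁻¹) * y := by rw [h1]
      _ = _ := by group
  have htE : w₁ * w₂ ∉ fixS R q := by
    intro hc2
    apply hw₁E
    apply hact.fpf hw₁
    have h1 : w₁⁻¹ * (q * w₁ * q⁻¹) = (w₁ ^ 2)⁻¹ * (w₁ * w₂) := by
      rw [hw₂]; simp only [pow_two]; group
    rw [h1]
    exact mul_mem (inv_mem (hact.sq_mem hw₁)) hc2
  have hKeq : K = R := by
    by_contra hne
    have := hact.min K hKR hKinv hne _ htK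
    exact htE (mem_fixS.mpr ⟨mul_mem hw₁ hw₂R, this⟩)
  intro x hx
  have hx' : x ∈ K := hKeq ▸ hx
  exact (Subgroup.mem_centralizer_singleton_iff.mp (Subgroup.mem_inf.mp hx').2).symm

/-- A four-group with an element of `2`-power order outside centralizing it. -/
theorem not_noA_of_four {R : Subgroup G} (h4 : Nat.card R = 4) (hsq : ∀ x ∈ R, x ^ 2 = 1) {c : G}
    (hcR : c ∉ R) (hP : IsPGroup 2 (R ⊔ zpowers c : Subgroup G)) (hcc : ∀ x ∈ R, c * x = x * c) :
    ¬ NoA (R ⊔ zpowers c) := by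
  have hcomm : ∀ a ∈ R, ∀ b ∈ R, a * b = b * a := by
    intro a ha b hb
    have h1 := hsq a ha
    have h2 := hsq b hb
    have h3 := hsq _ (mul_mem ha hb)
    rw [pow_two] at h1 h2 h3
    calc a * b = a * (a * b * (a * b)) * b := by rw [h3]; group
      _ = (a * a) * b * a * (b * b) := by group
      _ = b * a := by rw [h1, h2]; group
  have hBc : IsMulCommutative (R ⊔ zpowers c : Subgroup G) :=
    isMulCommutative_sup_zpowers hcomm hcc
  have hB8 := two_mul_card_le_of_lt (le_sup_left : R ≤ R ⊔ zpowers c)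
    (fun heq => hcR (heq.symm ▸ Subgroup.mem_sup_right (Subgroup.mem_zpowers c)))
  refine not_noA_of_abelian hBc hP ?_ (by omega)
  intro hc
  have hin : IsCyclic (R.subgroupOf (R ⊔ zpowers c : Subgroup G)) := inferInstance
  have hRc : IsCyclic R := isCyclic_of_surjective
    (Subgroup.subgroupOfEquivOfLe (le_sup_left : R ≤ R ⊔ zpowers c))
    (Subgroup.subgroupOfEquivOfLe (le_sup_left : R ≤ R ⊔ zpowers c)).surjective
  obtain ⟨g, hg⟩ := hRc.exists_generator
  have hord : orderOf g = Nat.card R := orderOf_eq_card_of_forall_mem_zpowers hg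
  have hg2 : g ^ 2 = 1 := Subtype.ext (by simpa using hsq g g.2)
  have := orderOf_le_of_pow_eq_one (by norm_num : 0 < 2) hg2
  omega

/-- The last power of a `2`-element outside a subgroup. -/
theorem exists_last_power {R : Subgroup G} {c : G} (hcR : c ∉ R) {K : ℕ} (hK : c ^ 2 ^ K = 1) :
    ∃ l : ℕ, c ^ 2 ^ l ∉ R ∧ (c ^ 2 ^ l) ^ 2 ∈ R := by
  classical
  have hex : ∃ k : ℕ, c ^ 2 ^ k ∈ R := ⟨K, by rw [hK]; exact one_mem R⟩
  set k := Nat.find hex with hk
  have hk1 : c ^ 2 ^ k ∈ R := Nat.find_spec hex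
  have hk0 : k ≠ 0 := by
    intro h0
    rw [h0, pow_zero, pow_one] at hk1
    exact hcR hk1
  obtain ⟨l, hl⟩ : ∃ l, k = l + 1 := ⟨k - 1, by omega⟩
  refine ⟨l, Nat.find_min hex (by omega : l < k), ?_⟩
  rw [← pow_mul, ← pow_succ, ← hl]
  exact hk1

end VQ2

end Cfsg.Agent.Lib.Blocks.NoA8
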