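import Mathlib
import Cfsg.Agent.Lib.Blocks.NilpBij
import Cfsg.Agent.Lib.Blocks.HeightZero
import Cfsg.Agent.S0908

/-!
# Nilpotent blocks: the height-zero characters have one degree

From the data of the bijection for nilpotent blocks, every character of a nilpotent block has degree
`θ(1) χ₀(1)` for a character `θ` of the defect group and one fixed `χ₀` of the block.
-/

set_option autoImplicit false

namespace Cfsg.Agent.Lib.Blocks.Pim

open Cfsg Cfsg.Agent.Lib.Blocks.Local Cfsg.Agent.Lib.Blocks.Central Cfsg.Agent.Lib.Blocks.Osima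
open Cfsg.Agent.Lib.Blocks.Nilp Cfsg.Agent.Lib.Blocks.Regular

universe u

theorem nilpotent_degree {G : Type u} [Group G] [Fintype G] {p : ℕ} [hp : Fact p.Prime] {M : Ideal AlgInt}
    (hMp : IsPModular p M) {B : Set (IrrCharacter G)} (hnil : IsNilpotentBlock p M B) {P : Subgroup G}
    (hP : IsDefectGroup p M B P) :
    ∃ χ₀ ∈ B, ∀ χ ∈ B, ∃ θ : IrrCharacter P,
      charDegree ((χ : IrrCharacter G) : G → ℂ) =
        charDegree ((θ : IrrCharacter P) : P → ℂ) * charDegree ((χ₀ : IrrCharacter G) : G → ℂ) := by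
  classical
  haveI : M.IsPrime := isPrime_of_isPModular hMp
  obtain ⟨χ₀, y, e, hχ₀, hk, hy, hT, hne, hmax, h1⟩ := exists_setup hMp hnil.1 hP
  obtain ⟨φ, a, hD⟩ := exists_secD hMp hmax hnil (fun v hv =>
    letI : Fintype (Kz v) := Fintype.ofFinite _
    bpConcl_all hMp _ (Kz v) _ rfl (isNilpotentBlock_eBlk hMp hmax hnil (mem_Pnc.mp hv).1))
  obtain ⟨hR, ha⟩ := core_of_source hMp hmax hnil hD hy hne h1 hχ₀ hk hT
  have hex : ∀ χ : IrrCharacter G, ∃ n : ℕ, χ ∈ B → reg p (χ : G → ℂ) = (n : ℂ) • reg p (χ₀ : G → ℂ) := by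
    intro χ
    by_cases hχ : χ ∈ B
    · obtain ⟨d, hd, -⟩ := rank_one_core hMp hmax hnil hD hy hne h1 hχ₀ hk hT hχ
      exact ⟨d, fun _ => hd⟩
    · exact ⟨0, fun hh => absurd hh hχ⟩
  choose d hd using hex
  have h : BPData M p B P e φ a y χ₀ d := ⟨hMp, hmax, hnil, hD, hy, hne, h1, hχ₀, hk, hT, hR, ha, hd⟩
  refine ⟨χ₀, hχ₀, fun χ hχ => ?_⟩
  obtain ⟨L, hL⟩ := h.exists_lam hχ
  refine ⟨L, ?_⟩
  have hdeg : charDegree ((L : IrrCharacter P) : P → ℂ) = d χ := by
    have h1 := Cfsg.Agent.Lib.Char.Values.IsCharacter.charDegree_cast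
      (Cfsg.Agent.Lib.Char.Values.IsIrrCharacter.isCharacter L.2)
    rw [← hL 1] at h1
    simp only [OneMemClass.coe_one] at h1
    rw [h.TT_one] at h1
    exact_mod_cast h1
  rw [hdeg]
  exact h.charDegree_eq hχ

/-- In a nilpotent block all characters of height zero have one degree. -/
theorem degree_of_height_zero {G : Type u} [Group G] [Fintype G] {p : ℕ} [hp : Fact p.Prime] {M : Ideal AlgInt}
    (hMp : IsPModular p M) {B : Set (IrrCharacter G)} (hnil : IsNilpotentBlock p M B) {P : Subgroup G}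
    (hP : IsDefectGroup p M B P) :
    ∃ d : ℕ, ∀ χ : IrrCharacter G, χ ∈ B → blockHeight p B (χ : G → ℂ) = 0 →
      charDegree (χ : G → ℂ) = d := by
  classical
  haveI : M.IsPrime := isPrime_of_isPModular hMp
  letI : Fintype P := Fintype.ofFinite _
  obtain ⟨χ₀, hχ₀, h⟩ := nilpotent_degree hMp hnil hP
  have hpos : ∀ χ : IrrCharacter G, charDegree (χ : G → ℂ) ≠ 0 := fun χ =>
    Cfsg.Agent.Lib.Blocks.RegInt.charDegree_ne_zero χ
  have hposP : ∀ χ : IrrCharacter P, charDegree (χ : P → ℂ) ≠ 0 := fun χ =>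
    Cfsg.Agent.Lib.Blocks.RegInt.charDegree_ne_zero χ
  have hs : sInf ((fun ψ : IrrCharacter G => (charDegree (ψ : G → ℂ)).factorization p) '' B) =
      (charDegree (χ₀ : G → ℂ)).factorization p := by
    apply le_antisymm
    · exact Nat.sInf_le ⟨χ₀, hχ₀, rfl⟩
    · refine le_csInf ⟨_, χ₀, hχ₀, rfl⟩ ?_
      rintro _ ⟨ψ, hψ, rfl⟩
      obtain ⟨θ, hθ⟩ := h ψ hψ
      simp only
      rw [hθ, Nat.factorization_mul (hposP θ) (hpos χ₀)]
      simp
  refine ⟨charDegree (χ₀ : G → ℂ), fun χ hχ hh => ?_⟩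
  obtain ⟨θ, hθ⟩ := h χ hχ
  have hh2 : (charDegree ((θ : IrrCharacter P) : P → ℂ)).factorization p = 0 := by
    rw [blockHeight, hs, hθ, Nat.factorization_mul (hposP θ) (hpos χ₀)] at hh
    simpa using hh
  have hk : Nat.card P = p ^ blockDefect p B := Cfsg.Agent.S0908.result p M hMp B hnil.1 P hP
  have hdvd := Cfsg.Agent.Lib.Blocks.HeightZero.charDegree_dvd_card θ.2
  rw [hk] at hdvd
  obtain ⟨j, -, hj⟩ := (Nat.dvd_prime_pow hp.out).1 hdvd
  have : charDegree ((θ : IrrCharacter P) : P → ℂ) = 1 := by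
    rw [hj] at hh2 ⊢
    rw [hp.out.factorization_pow] at hh2
    simp at hh2
    simp [hh2]
  rw [hθ, this, one_mul]

end Cfsg.Agent.Lib.Blocks.Pim
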