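/-
Tame blocks: dihedral groups inside a group.
-/
import Mathlib

set_option autoImplicit false
set_option linter.style.haveILetI false

namespace Cfsg.Agent.Lib.Blocks.Tame

universe u

section Cyc

variable {G : Type u} [Group G] [Finite G]

/-- An automorphism of odd order of a cyclic `2`-group is trivial. -/
lemma conj_eq_of_odd {g t : G} {r s : ℕ} (hg : orderOf g = 2 ^ r) (ht : Odd (orderOf t))
    (h : t * g * t⁻¹ = g ^ s) : t * g * t⁻¹ = g := by
  have hpow : ∀ i : ℕ, t ^ i * g * (t ^ i)⁻¹ = g ^ (s ^ i) := by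
    intro i
    induction i with
    | zero => simp
    | succ i ih =>
      have h1 : t ^ (i + 1) * g * (t ^ (i + 1))⁻¹ = t * (t ^ i * g * (t ^ i)⁻¹) * t⁻¹ := by
        rw [pow_succ']
        group
      rw [h1, ih, ← conj_pow, h, ← pow_mul, pow_succ']
  have h1 := hpow (orderOf t)
  rw [pow_orderOf_eq_one] at h1
  simp only [one_mul, inv_one, mul_one] at h1
  have h2 : s ^ orderOf t ≡ 1 [MOD orderOf g] := by
    have h3 : g ^ (s ^ orderOf t) = g ^ 1 := by rw [← h1, pow_one]
    exact pow_eq_pow_iff_modEq.mp h3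
  rw [hg] at h2
  rcases Nat.eq_zero_or_pos r with rfl | hr
  · have : g = 1 := by
      rw [← orderOf_eq_one_iff, hg, pow_zero]
    rw [this]
    simp
  have hs : Nat.Coprime s (2 ^ r) := by
    have hne : orderOf t ≠ 0 := orderOf_pos t |>.ne'
    have h3 : Nat.Coprime (s ^ orderOf t) (2 ^ r) := by
      have h4 := h2.gcd_eq
      rw [Nat.Coprime, h4]
      simp
    exact Nat.Coprime.coprime_dvd_left (dvd_pow_self s hne) h3
  haveI : NeZero (2 ^ r) := ⟨by positivity⟩
  set u : (ZMod (2 ^ r))ˣ := ZMod.unitOfCoprime s hs with hu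
  have hu1 : u ^ orderOf t = 1 := by
    apply Units.ext
    simp only [Units.val_pow_eq_pow_val, ZMod.coe_unitOfCoprime, hu, Units.val_one]
    have := (ZMod.natCast_eq_natCast_iff _ _ _).mpr h2
    push_cast at this
    exact this
  have hu2 : u ^ Nat.totient (2 ^ r) = 1 := ZMod.pow_totient u
  have hcop : Nat.Coprime (orderOf t) (Nat.totient (2 ^ r)) := by
    rw [Nat.totient_prime_pow Nat.prime_two hr]
    simp only [Nat.add_one_sub_one, mul_one]
    exact Nat.Coprime.pow_right _ (Nat.coprime_two_right.mpr ht)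
  have hu3 : u = 1 := by
    have h3 := orderOf_dvd_of_pow_eq_one hu1
    have h4 := orderOf_dvd_of_pow_eq_one hu2
    have h5 := Nat.Coprime.eq_one_of_dvd (Nat.Coprime.coprime_dvd_left h3 hcop) h4
    exact orderOf_eq_one_iff.mp h5
  have hs1 : ((s : ℕ) : ZMod (2 ^ r)) = 1 := by
    have := congrArg Units.val hu3
    simpa [hu] using this
  have hs2 : s ≡ 1 [MOD orderOf g] := by
    rw [hg]
    have : ((s : ℕ) : ZMod (2 ^ r)) = ((1 : ℕ) : ZMod (2 ^ r)) := by
      rw [hs1]
      simp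
    exact (ZMod.natCast_eq_natCast_iff _ _ _).mp this
  have hs3 : g ^ s = g ^ 1 := pow_eq_pow_iff_modEq.mpr hs2
  rw [h, hs3, pow_one]

/-- Two elements of the same order of a cyclic `2`-group are powers of each other. -/
lemma exists_pow_eq_of_orderOf_eq {x : G} {k i j : ℕ} (hx : orderOf x = 2 ^ k)
    (h : orderOf (x ^ i) = orderOf (x ^ j)) : ∃ s : ℕ, x ^ j = (x ^ i) ^ s := by
  have hpos : 0 < orderOf x := orderOf_pos x
  rw [orderOf_pow, orderOf_pow] at h
  have hd1 : Nat.gcd (orderOf x) i ∣ orderOf x := Nat.gcd_dvd_left _ _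
  have hd2 : Nat.gcd (orderOf x) j ∣ orderOf x := Nat.gcd_dvd_left _ _
  have hdd : Nat.gcd (orderOf x) i = Nat.gcd (orderOf x) j := by
    have hp1 : 0 < Nat.gcd (orderOf x) i := Nat.pos_of_dvd_of_pos hd1 hpos
    have hp2 : 0 < Nat.gcd (orderOf x) j := Nat.pos_of_dvd_of_pos hd2 hpos
    have h3 := Nat.div_mul_cancel hd1
    have h4 := Nat.div_mul_cancel hd2
    rw [h] at h3
    have hq : 0 < orderOf x / Nat.gcd (orderOf x) j := Nat.div_pos (Nat.le_of_dvd hpos hd2) hp2
    exact Nat.eq_of_mul_eq_mul_left hq (h3.trans h4.symm)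
  set d := Nat.gcd (orderOf x) i with hd
  have hdj : d ∣ j := by
    rw [hdd]
    exact Nat.gcd_dvd_right _ _
  obtain ⟨q, rfl⟩ := hdj
  by_cases hlt : Nat.gcd i (orderOf x) < orderOf x
  · obtain ⟨m, -, hm⟩ := Nat.exists_mul_mod_eq_gcd hlt
    refine ⟨m * q, ?_⟩
    have h5 : x ^ d = x ^ (i * m) := by
      rw [pow_eq_pow_iff_modEq]
      have h6 : d % orderOf x = i * m % orderOf x := by
        rw [hm, hd, Nat.gcd_comm]
        apply Nat.mod_eq_of_lt
        rw [Nat.gcd_comm]
        rw [Nat.gcd_comm]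
        exact hlt
      exact h6
    rw [pow_mul x d q, h5, ← pow_mul, ← pow_mul, mul_assoc]
  · refine ⟨0, ?_⟩
    have hge : orderOf x ≤ Nat.gcd i (orderOf x) := not_lt.mp hlt
    have hdo : d = orderOf x := by
      rw [hd, Nat.gcd_comm]
      exact le_antisymm (Nat.le_of_dvd hpos (Nat.gcd_dvd_right _ _)) hge
    rw [hdo, pow_mul, pow_orderOf_eq_one, one_pow, pow_zero]

end Cyc

section Dih

variable {G : Type u} [Group G]

/-- A dihedral group inside `G`, with rotation `x` of order `2 * N` and reflection `a`, `N` a power of two. -/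
structure DihD (D : Subgroup G) (x a : G) (N : ℕ) : Prop where
  hpow : ∃ m : ℕ, N = 2 ^ (m + 1)
  hxo : orderOf x = 2 * N
  hxD : x ∈ D
  haD : a ∈ D
  haa : a * a = 1
  hax : a * x * a⁻¹ = x⁻¹
  hcov : ∀ g ∈ D, (∃ t : ℕ, g = x ^ t) ∨ (∃ t : ℕ, g = a * x ^ t)
  hnot : ∀ t : ℕ, a ≠ x ^ t

/-- A dihedral subgroup has the data. -/
theorem exists_dihD {D : Subgroup G} {n : ℕ} (hn : 3 ≤ n) (h : Nonempty (D ≃* DihedralGroup (2 ^ (n - 1)))) :
    ∃ x a : G, DihD D x a (2 ^ (n - 2)) ∧ Nat.card D = 4 * 2 ^ (n - 2) := by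
  obtain ⟨ι⟩ := h
  haveI : NeZero (2 ^ (n - 1)) := ⟨by positivity⟩
  have hn1 : (2 : ℕ) ^ (n - 1) = 2 * 2 ^ (n - 2) := by
    rw [← pow_succ']
    congr 1
    omega
  set X : D := ι.symm (DihedralGroup.r 1) with hX
  set A : D := ι.symm (DihedralGroup.sr 0) with hA
  have hXι : ι X = DihedralGroup.r 1 := by simp [hX]
  have hAι : ι A = DihedralGroup.sr 0 := by simp [hA]
  have hcard : Nat.card D = 4 * 2 ^ (n - 2) := by
    rw [Nat.card_congr ι.toEquiv, DihedralGroup.nat_card, hn1]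
    ring
  refine ⟨X, A, ⟨⟨n - 3, ?_⟩, ?_, X.2, A.2, ?_, ?_, ?_, ?_⟩, hcard⟩
  · congr 1
    omega
  · rw [Subgroup.orderOf_coe, ← MulEquiv.orderOf_eq ι X, hXι, DihedralGroup.orderOf_r_one, hn1]
  · have : A * A = 1 := by
      apply ι.injective
      rw [map_mul, hAι, map_one, DihedralGroup.sr_mul_sr]
      simp
    exact congrArg Subtype.val this
  · have : A * X * A⁻¹ = X⁻¹ := by
      apply ι.injective
      simp only [map_mul, map_inv, hAι, hXι]
      rw [DihedralGroup.sr_mul_r, DihedralGroup.inv_sr, DihedralGroup.sr_mul_sr, DihedralGroup.inv_r]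
      simp
    exact congrArg Subtype.val this
  · intro g hg
    have hι : ∀ i : ZMod (2 ^ (n - 1)), (DihedralGroup.r i : DihedralGroup (2 ^ (n - 1))) = (DihedralGroup.r 1) ^ i.val := by
      intro i
      rw [DihedralGroup.r_one_pow]
      simp
    rcases hc : ι ⟨g, hg⟩ with i | i
    · left
      refine ⟨i.val, ?_⟩
      have h1 : (⟨g, hg⟩ : D) = X ^ i.val := by
        apply ι.injective
        rw [hc, map_pow, hXι, ← hι]
      exact congrArg Subtype.val h1
    · right
      refine ⟨i.val, ?_⟩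
      have h1 : (⟨g, hg⟩ : D) = A * X ^ i.val := by
        apply ι.injective
        rw [hc, map_mul, map_pow, hXι, hAι, ← hι, DihedralGroup.sr_mul_r, zero_add]
      exact congrArg Subtype.val h1
  · intro t ht
    have h1 : A = X ^ t := Subtype.ext (by simpa using ht)
    have h2 := congrArg ι h1
    rw [map_pow, hXι, hAι, DihedralGroup.r_one_pow] at h2
    cases h2

namespace DihD

variable {D : Subgroup G} {x a : G} {N : ℕ} (h : DihD D x a N)
include h

theorem N_pos : 0 < N := by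
  obtain ⟨m, rfl⟩ := h.hpow
  positivity

theorem N_even : 2 ∣ N := by
  obtain ⟨m, rfl⟩ := h.hpow
  exact ⟨2 ^ m, by ring⟩

theorem two_le : 2 ≤ N := Nat.le_of_dvd h.N_pos h.N_even

theorem x_pow_two_N : x ^ (2 * N) = 1 := by
  rw [← h.hxo]
  exact pow_orderOf_eq_one x

theorem a_inv : a⁻¹ = a := inv_eq_of_mul_eq_one_left h.haa

theorem a_conj_pow (t : ℕ) : a * x ^ t * a⁻¹ = (x ^ t)⁻¹ := by
  rw [← conj_pow, h.hax, inv_pow]

/-- Reflections are involutions. -/
theorem refl_sq (t : ℕ) : (a * x ^ t) * (a * x ^ t) = 1 := by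
  have h1 := h.a_conj_pow t
  rw [h.a_inv] at h1
  calc (a * x ^ t) * (a * x ^ t) = (a * x ^ t * a) * x ^ t := by group
    _ = 1 := by rw [h1]; group

theorem refl_ne (t s : ℕ) : a * x ^ t ≠ x ^ s := by
  intro he
  have h1 : a = x ^ s * (x ^ t)⁻¹ := by
    rw [← he]
    group
  have h2 : x ^ s * (x ^ t)⁻¹ = x ^ (s + (2 * N - 1) * t) := by
    have h3 : (x ^ t)⁻¹ = x ^ ((2 * N - 1) * t) := by
      apply inv_eq_of_mul_eq_one_right
      rw [← pow_add]
      have h4 : t + (2 * N - 1) * t = 2 * N * t := by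
        have hN := h.N_pos
        obtain ⟨c, hc⟩ : ∃ c, 2 * N = c + 1 := ⟨2 * N - 1, by omega⟩
        rw [hc]
        simp
        ring
      rw [h4, pow_mul, h.x_pow_two_N, one_pow]
    rw [h3, pow_add]
  exact h.hnot _ (h1.trans h2)

omit h in
/-- The central involution. -/
abbrev zz (x : G) (N : ℕ) : G := x ^ N

theorem zz_sq : zz x N * zz x N = 1 := by
  rw [zz, ← pow_add, ← two_mul, h.x_pow_two_N]

theorem zz_ne_one : zz x N ≠ 1 := by
  intro h0
  have h1 := orderOf_dvd_of_pow_eq_one h0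
  rw [h.hxo] at h1
  have := Nat.le_of_dvd h.N_pos h1
  have := h.N_pos
  omega

theorem zz_inv : (zz x N)⁻¹ = zz x N := inv_eq_of_mul_eq_one_left h.zz_sq

theorem zz_mem : zz x N ∈ D := D.pow_mem h.hxD N

theorem a_comm_zz : a * zz x N = zz x N * a := by
  have h1 := h.a_conj_pow N
  rw [h.zz_inv] at h1
  calc a * x ^ N = (a * x ^ N * a⁻¹) * a := by group
    _ = x ^ N * a := by rw [h1]

/-- `z` is central in `D`. -/
theorem zz_comm {g : G} (hg : g ∈ D) : g * zz x N = zz x N * g := by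
  have hc : ∀ t : ℕ, x ^ t * zz x N = zz x N * x ^ t := fun t => by
    rw [zz, ← pow_add, ← pow_add, add_comm]
  rcases h.hcov g hg with ⟨t, rfl⟩ | ⟨t, rfl⟩
  · exact hc t
  · rw [mul_assoc, hc t, ← mul_assoc, h.a_comm_zz, mul_assoc]

theorem D_le_cen : D ≤ Subgroup.centralizer ({zz x N} : Set G) := by
  intro g hg
  rw [Subgroup.mem_centralizer_iff]
  rintro w rfl
  exact (h.zz_comm hg).symm

/-- An involution of `⟨x⟩` is `z`. -/
theorem eq_zz_of_sq {t : ℕ} (h1 : x ^ t * x ^ t = 1) (hne : x ^ t ≠ 1) : x ^ t = zz x N := by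
  have h2 : x ^ (2 * t) = 1 := by
    rw [two_mul, pow_add, h1]
  have h3 := orderOf_dvd_of_pow_eq_one h2
  rw [h.hxo] at h3
  have h4 : N ∣ t := Nat.dvd_of_mul_dvd_mul_left (by norm_num) h3
  obtain ⟨q, rfl⟩ := h4
  rcases Nat.even_or_odd' q with ⟨c, rfl | rfl⟩
  · exfalso
    apply hne
    rw [show N * (2 * c) = 2 * N * c by ring, pow_mul, h.x_pow_two_N, one_pow]
  · rw [show N * (2 * c + 1) = 2 * N * c + N by ring, pow_add, pow_mul, h.x_pow_two_N, one_pow, one_mul]

/-- An element of `D` which is not an involution is a rotation. -/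
theorem exists_pow_of_sq_ne {g : G} (hg : g ∈ D) (hne : g * g ≠ 1) : ∃ t : ℕ, g = x ^ t := by
  rcases h.hcov g hg with h1 | ⟨t, rfl⟩
  · exact h1
  · exact absurd (h.refl_sq t) hne

/-- Rotations contain `z`. -/
theorem zz_mem_zpowers {t : ℕ} (hne : x ^ t ≠ 1) : zz x N ∈ Subgroup.zpowers (x ^ t) := by
  obtain ⟨m, hm⟩ := h.hpow
  have h1 : orderOf (x ^ t) ∣ 2 ^ (m + 2) := by
    apply orderOf_dvd_of_pow_eq_one
    rw [← pow_mul, mul_comm, pow_mul]
    have : (2 : ℕ) ^ (m + 2) = 2 * N := by rw [hm]; ring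
    rw [this, h.x_pow_two_N, one_pow]
  obtain ⟨r, -, hr⟩ := (Nat.dvd_prime_pow Nat.prime_two).mp h1
  have hr0 : r ≠ 0 := by
    rintro rfl
    apply hne
    rw [← orderOf_eq_one_iff, hr, pow_zero]
  obtain ⟨q, rfl⟩ : ∃ q, r = q + 1 := ⟨r - 1, by omega⟩
  have h2 : (x ^ t) ^ 2 ^ q ≠ 1 := by
    intro h0
    have h3 := orderOf_dvd_of_pow_eq_one h0
    rw [hr] at h3
    have h4 := (Nat.pow_dvd_pow_iff_le_right (by norm_num : 1 < 2)).mp h3
    omega
  have h3 : (x ^ (t * 2 ^ q)) * (x ^ (t * 2 ^ q)) = 1 := by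
    rw [← pow_add, show t * 2 ^ q + t * 2 ^ q = t * 2 ^ (q + 1) by ring, pow_mul, ← hr]
    exact pow_orderOf_eq_one _
  rw [← pow_mul] at h2
  have h4 := h.eq_zz_of_sq h3 h2
  rw [← h4, pow_mul]
  exact Subgroup.pow_mem _ (Subgroup.mem_zpowers _) _

end DihD

end Dih

section Odd

variable {G : Type u} [Group G] [Finite G]

namespace DihD

variable {D : Subgroup G} {x a : G} {N : ℕ} (h : DihD D x a N)
include h

/-- An odd order element normalizing a rotation of order at least `4` fixes it. -/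
theorem conj_rot_eq {t : G} (ht : Odd (orderOf t)) (htz : t * zz x N = zz x N * t) {s : ℕ}
    (htD : t * x ^ s * t⁻¹ ∈ D) : t * x ^ s * t⁻¹ = x ^ s := by
  by_cases hsq : x ^ s * x ^ s = 1
  · by_cases h1 : x ^ s = 1
    · rw [h1]
      group
    · rw [h.eq_zz_of_sq hsq h1]
      rw [htz]
      group
  · have hsq' : (t * x ^ s * t⁻¹) * (t * x ^ s * t⁻¹) ≠ 1 := by
      intro h0
      apply hsq
      have h1 : t * (x ^ s * x ^ s) * t⁻¹ = 1 := by
        rw [← h0]
        group
      have h2 : x ^ s * x ^ s = t⁻¹ * (t * (x ^ s * x ^ s) * t⁻¹) * t := by group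
      rw [h2, h1]
      group
    obtain ⟨s', hs'⟩ := h.exists_pow_of_sq_ne htD hsq'
    have ho : orderOf (x ^ s) = orderOf (x ^ s') := by
      rw [← hs']
      exact ((MulAut.conj t).orderOf_eq _).symm
    obtain ⟨m, hm⟩ := h.hpow
    have hx2 : orderOf x = 2 ^ (m + 2) := by
      rw [h.hxo, hm]
      ring
    obtain ⟨c, hc⟩ := exists_pow_eq_of_orderOf_eq hx2 ho
    have h1 : orderOf (x ^ s) ∣ 2 ^ (m + 2) := by
      rw [← hx2]
      exact orderOf_dvd_of_pow_eq_one (by rw [← pow_mul, mul_comm, pow_mul, pow_orderOf_eq_one, one_pow])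
    obtain ⟨r, -, hr⟩ := (Nat.dvd_prime_pow Nat.prime_two).mp h1
    exact conj_eq_of_odd hr ht (by rw [hs', hc])

/-- **An odd order element normalizing a subgroup of `D` and centralizing `z` centralizes it.** -/
theorem odd_centralizes {Q : Subgroup G} (hQ : Q ≤ D) {t : G} (ht : Odd (orderOf t))
    (htz : t * zz x N = zz x N * t) (htQ : ∀ g ∈ Q, t * g * t⁻¹ ∈ Q) (g : G) (hg : g ∈ Q) :
    t * g * t⁻¹ = g := by
  rcases h.hcov g (hQ hg) with ⟨s, rfl⟩ | ⟨s, rfl⟩
  · exact h.conj_rot_eq ht htz (hQ (htQ _ hg))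
  · set g := a * x ^ s with hgdef
    have hc1 : t * g * t⁻¹ ∈ D := hQ (htQ g hg)
    -- the image is a reflection
    have hsq : g * g = 1 := h.refl_sq s
    rcases h.hcov _ hc1 with ⟨s₁, hs₁⟩ | ⟨s₁, hs₁⟩
    · exfalso
      have h1 : x ^ s₁ * x ^ s₁ = 1 := by
        rw [← hs₁]
        calc t * g * t⁻¹ * (t * g * t⁻¹) = t * (g * g) * t⁻¹ := by group
          _ = 1 := by rw [hsq]; group
      have h2 : x ^ s₁ ≠ 1 := by
        rw [← hs₁]
        intro h0
        have h3 : g = t⁻¹ * (t * g * t⁻¹) * t := by group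
        rw [h0] at h3
        simp only [mul_one, inv_mul_cancel] at h3
        have h4 : a * x ^ s = x ^ 0 := by
          rw [pow_zero]
          exact h3
        exact h.refl_ne s 0 h4
      have h3 := h.eq_zz_of_sq h1 h2
      rw [h3] at hs₁
      have h4 : g = zz x N := by
        have h5 : t * g * t⁻¹ = t * zz x N * t⁻¹ := by
          rw [hs₁, htz]
          group
        exact mul_left_cancel (mul_right_cancel h5)
      exact h.refl_ne s N h4
    · -- `r = g⁻¹ g^t` is a rotation in `Q`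
      have hr : ∃ c : ℕ, t * g * t⁻¹ = g * x ^ c := by
        have h1 : g * (t * g * t⁻¹) = x ^ ((2 * N - 1) * s + s₁) := by
          rw [hs₁, hgdef]
          have h2 : (a * x ^ s) * (a * x ^ s₁) = (a * x ^ s * a) * x ^ s₁ := by group
          rw [h2]
          have h3 := h.a_conj_pow s
          rw [h.a_inv] at h3
          rw [h3, pow_add]
          congr 1
          apply inv_eq_of_mul_eq_one_right
          rw [← pow_add]
          have h4 : s + (2 * N - 1) * s = 2 * N * s := by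
            have hN := h.N_pos
            obtain ⟨c, hc⟩ : ∃ c, 2 * N = c + 1 := ⟨2 * N - 1, by omega⟩
            rw [hc]
            simp
            ring
          rw [h4, pow_mul, h.x_pow_two_N, one_pow]
        refine ⟨(2 * N - 1) * s + s₁, ?_⟩
        calc t * g * t⁻¹ = (g * g) * (t * g * t⁻¹) := by rw [hsq, one_mul]
          _ = g * (g * (t * g * t⁻¹)) := by rw [mul_assoc]
          _ = _ := by rw [h1]
      obtain ⟨c, hc⟩ := hr
      have hxQ : x ^ c ∈ Q := by
        have h1 : x ^ c = g⁻¹ * (t * g * t⁻¹) := by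
          rw [hc]
          group
        rw [h1]
        exact Q.mul_mem (Q.inv_mem hg) (htQ g hg)
      have hfix := h.conj_rot_eq ht htz (hQ (htQ _ hxQ))
      have hit : ∀ i : ℕ, t ^ i * g * (t ^ i)⁻¹ = g * (x ^ c) ^ i := by
        intro i
        induction i with
        | zero => simp
        | succ i ih =>
          have h1 : t ^ (i + 1) * g * (t ^ (i + 1))⁻¹ = t * (t ^ i * g * (t ^ i)⁻¹) * t⁻¹ := by
            rw [pow_succ']
            group
          rw [h1, ih]
          have h2 : t * (g * (x ^ c) ^ i) * t⁻¹ = (t * g * t⁻¹) * (t * x ^ c * t⁻¹) ^ i := by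
            rw [conj_pow]
            group
          rw [h2, hfix, hc, mul_assoc, pow_succ']
      have h1 := hit (orderOf t)
      rw [pow_orderOf_eq_one] at h1
      simp only [one_mul, inv_one, mul_one] at h1
      have h2 : (x ^ c) ^ orderOf t = 1 := mul_left_cancel (a := g) (by rw [← h1, mul_one])
      -- `x ^ c` has `2`-power order, `orderOf t` is odd
      have h3 : orderOf (x ^ c) ∣ orderOf t := orderOf_dvd_of_pow_eq_one h2
      obtain ⟨m, hm⟩ := h.hpow
      have h4 : orderOf (x ^ c) ∣ 2 ^ (m + 2) := by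
        apply orderOf_dvd_of_pow_eq_one
        rw [← pow_mul, mul_comm, pow_mul]
        have : (2 : ℕ) ^ (m + 2) = 2 * N := by rw [hm]; ring
        rw [this, h.x_pow_two_N, one_pow]
      have hcop : Nat.Coprime (orderOf t) (2 ^ (m + 2)) :=
        Nat.Coprime.pow_right _ (Nat.coprime_two_right.mpr ht)
      have h5 : orderOf (x ^ c) = 1 := Nat.Coprime.eq_one_of_dvd (Nat.Coprime.coprime_dvd_left h3 hcop) h4
      rw [hc, orderOf_eq_one_iff.mp h5, mul_one]

end DihD

end Odd

end Cfsg.Agent.Lib.Blocks.Tame
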