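/-
Tame blocks: Fourier analysis on the cyclic subgroup of a dihedral group, abstractly.
-/
import Mathlib
import Cfsg.Agent.Lib.Blocks.DihC

set_option autoImplicit false
set_option linter.style.haveILetI false

namespace Cfsg.Agent.Lib.Blocks.Tame

open Cfsg.Agent.Lib.Blocks.DihS

/-- The data of the columns on the rotations. -/
structure FD {ι : Type*} (S : Finset ι) (F : ι → ℕ → ℂ) (k : ℕ) (ζ : ℂ) : Prop where
  hk : 2 ≤ k
  hζ : IsPrimitiveRoot ζ (2 ^ k)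
  flip : ∀ {l : ℕ}, 0 < l → l < 2 ^ k → ∀ i, F i (2 ^ k - l) = F i l
  ortho : ∀ {l l' : ℕ}, 0 < l → l < 2 ^ k → 0 < l' → l' < 2 ^ k → ∑ i ∈ S, F i l' * F i l =
    ((2 ^ k : ℕ) : ℂ) * ((if l' = l then 1 else 0) + (if l' = 2 ^ k - l then 1 else 0))

/-- The multiplicity of `μ^κ - 1` in the column. -/
noncomputable def cc {ι : Type*} (F : ι → ℕ → ℂ) (ζ : ℂ) (N κ : ℕ) (i : ι) : ℂ :=
  (N : ℂ)⁻¹ * ∑ l ∈ Finset.range N, (ζ ^ (κ * l) - 1) * F i l

namespace FD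

variable {ι : Type*} {S : Finset ι} {F : ι → ℕ → ℂ} {k : ℕ} {ζ : ℂ} (h : FD S F k ζ)
include h

theorem two_mul_half : 2 ^ k = 2 * 2 ^ (k - 1) := by
  have := h.hk
  rw [← pow_succ']
  congr 1
  omega

/-- The weighted sum over the exponents. -/
theorem sum_g (g : ℕ → ℂ) (hg : g 0 = 0) {l : ℕ} (h0 : 0 < l) (hl : l < 2 ^ k) :
    ∑ l' ∈ Finset.range (2 ^ k), g l' * ∑ i ∈ S, F i l' * F i l =
      ((2 ^ k : ℕ) : ℂ) * (g l + g (2 ^ k - l)) := by
  have h1 : ∀ l' ∈ Finset.range (2 ^ k), g l' * ∑ i ∈ S, F i l' * F i l =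
      ((2 ^ k : ℕ) : ℂ) * (g l' * (if l' = l then 1 else 0) + g l' * (if l' = 2 ^ k - l then 1 else 0)) := by
    intro l' hl'
    rcases Nat.eq_zero_or_pos l' with rfl | hp
    · rw [hg]
      simp
    · rw [h.ortho h0 hl hp (Finset.mem_range.mp hl')]
      ring
  rw [Finset.sum_congr rfl h1, ← Finset.mul_sum, Finset.sum_add_distrib]
  congr 2
  · simp only [mul_ite, mul_one, mul_zero]
    rw [Finset.sum_ite_eq' (Finset.range (2 ^ k)) l g, if_pos (Finset.mem_range.mpr hl)]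
  · simp only [mul_ite, mul_one, mul_zero]
    rw [Finset.sum_ite_eq' (Finset.range (2 ^ k)) (2 ^ k - l) g, if_pos (Finset.mem_range.mpr (by omega))]

/-- The inner products of the vectors `cc κ`. -/
theorem sum_cc_mul {κ κ' : ℕ} (hκ' : κ' ≤ 2 ^ k) :
    ∑ i ∈ S, cc F ζ (2 ^ k) κ i * cc F ζ (2 ^ k) κ' i =
      ((2 ^ k : ℕ) : ℂ)⁻¹ * ∑ l ∈ Finset.range (2 ^ k), (ζ ^ (κ * l) - 1) *
        (ζ ^ (κ' * l) + ζ ^ ((2 ^ k - κ') * l) - 2) := by
  have hne := two_pow_ne_zero k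
  have hζ := h.hζ
  set N := 2 ^ k with hN
  have hNpos : 0 < N := by positivity
  unfold cc
  have h1 : ∀ i, ((N : ℕ) : ℂ)⁻¹ * (∑ l ∈ Finset.range N, (ζ ^ (κ * l) - 1) * F i l) *
      (((N : ℕ) : ℂ)⁻¹ * ∑ l' ∈ Finset.range N, (ζ ^ (κ' * l') - 1) * F i l') =
      ((N : ℕ) : ℂ)⁻¹ * ((N : ℕ) : ℂ)⁻¹ * ∑ l ∈ Finset.range N, (ζ ^ (κ * l) - 1) *
        ∑ l' ∈ Finset.range N, (ζ ^ (κ' * l') - 1) * (F i l' * F i l) := by
    intro i
    rw [mul_mul_mul_comm, Finset.sum_mul_sum]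
    congr 1
    refine Finset.sum_congr rfl fun l _ => ?_
    rw [Finset.mul_sum]
    refine Finset.sum_congr rfl fun l' _ => ?_
    ring
  simp only [h1]
  rw [← Finset.mul_sum, Finset.sum_comm]
  simp only [← Finset.mul_sum]
  have h2 : ∀ l ∈ Finset.range N, (ζ ^ (κ * l) - 1) * ∑ i ∈ S, ∑ l' ∈ Finset.range N,
      (ζ ^ (κ' * l') - 1) * (F i l' * F i l) =
      ((N : ℕ) : ℂ) * ((ζ ^ (κ * l) - 1) * (ζ ^ (κ' * l) + ζ ^ ((N - κ') * l) - 2)) := by
    intro l hl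
    rcases Nat.eq_zero_or_pos l with rfl | hp
    · simp
    · rw [Finset.sum_comm]
      simp only [← Finset.mul_sum]
      rw [h.sum_g (fun l' => ζ ^ (κ' * l') - 1) (by simp) hp (Finset.mem_range.mp hl)]
      rw [pow_flip_eq hζ hNpos hκ' (Finset.mem_range.mp hl).le]
      ring
  rw [Finset.sum_congr rfl h2, ← Finset.mul_sum, ← mul_assoc, mul_assoc _ _ ((N : ℕ) : ℂ),
    inv_mul_cancel₀ hne, mul_one]

/-- The Gram matrix, computed. -/
theorem gram {κ κ' : ℕ} (h1 : 1 ≤ κ) (h2 : κ ≤ 2 ^ (k - 1)) (h1' : 1 ≤ κ') (h2' : κ' ≤ 2 ^ (k - 1)) :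
    ∑ i ∈ S, cc F ζ (2 ^ k) κ i * cc F ζ (2 ^ k) κ' i =
      2 + (if κ = κ' then 1 else 0) + (if κ = 2 ^ (k - 1) ∧ κ' = 2 ^ (k - 1) then 1 else 0) := by
  have hne := two_pow_ne_zero k
  have hmul := h.two_mul_half
  have hζ := h.hζ
  have hle : κ' ≤ 2 ^ k := by omega
  rw [h.sum_cc_mul hle]
  set N := 2 ^ k with hN
  have hpos : 0 < 2 ^ (k - 1) := by positivity
  have hexp : ∀ l, (ζ ^ (κ * l) - 1) * (ζ ^ (κ' * l) + ζ ^ ((N - κ') * l) - 2) =
      ζ ^ ((κ + κ') * l) + ζ ^ ((κ + (N - κ')) * l) - 2 * ζ ^ (κ * l) - ζ ^ (κ' * l) - ζ ^ ((N - κ') * l) + 2 := by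
    intro l
    rw [add_mul, add_mul, pow_add, pow_add]
    ring
  simp only [hexp]
  rw [Finset.sum_add_distrib, Finset.sum_sub_distrib, Finset.sum_sub_distrib, Finset.sum_sub_distrib,
    Finset.sum_add_distrib, ← Finset.mul_sum, geom_mul hζ, geom_mul hζ, geom_mul hζ, geom_mul hζ, geom_mul hζ]
  have hd1 : ¬ N ∣ κ := fun hd => by
    have := Nat.le_of_dvd (by omega) hd
    omega
  have hd2 : ¬ N ∣ κ' := fun hd => by
    have := Nat.le_of_dvd (by omega) hd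
    omega
  have hd3 : ¬ N ∣ N - κ' := fun hd => by
    have := Nat.le_of_dvd (by omega) hd
    omega
  have hd4 : N ∣ κ + κ' ↔ (κ = 2 ^ (k - 1) ∧ κ' = 2 ^ (k - 1)) := by
    constructor
    · intro hd
      have := Nat.le_of_dvd (by omega) hd
      omega
    · rintro ⟨e1, e2⟩
      rw [e1, e2, hmul]
      exact ⟨1, by ring⟩
  have hd5 : N ∣ κ + (N - κ') ↔ κ = κ' := by
    constructor
    · intro hd
      obtain ⟨c, hc⟩ := hd
      have hc1 : c = 1 := by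
        rcases c with _ | _ | c
        · omega
        · rfl
        · exfalso
          have : N * (c + 1 + 1) = N * c + 2 * N := by ring
          rw [this] at hc
          have : 0 ≤ N * c := Nat.zero_le _
          omega
      rw [hc1] at hc
      omega
    · intro e
      rw [e]
      exact ⟨1, by omega⟩
  rw [if_neg hd1, if_neg hd2, if_neg hd3]
  simp only [hd4, hd5, Finset.sum_const, Finset.card_range, nsmul_eq_mul, mul_zero, sub_zero]
  field_simp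
  split_ifs <;> ring

omit h in
theorem cc_zero (i : ι) : cc F ζ (2 ^ k) 0 i = 0 := by
  unfold cc
  simp

/-- Fourier inversion on `⟨σ⟩`. -/
theorem fourier {l : ℕ} (h0 : 0 < l) (hl : l < 2 ^ k) (i : ι) :
    F i l = ∑ κ ∈ Finset.range (2 ^ k), ζ ^ (κ * l) * cc F ζ (2 ^ k) κ i := by
  have hne := two_pow_ne_zero k
  have hζ := h.hζ
  have hflip := @h.flip
  set N := 2 ^ k with hN
  unfold cc
  have h1 : ∀ κ, ζ ^ (κ * l) * (((N : ℕ) : ℂ)⁻¹ * ∑ l' ∈ Finset.range N, (ζ ^ (κ * l') - 1) * F i l') =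
      ((N : ℕ) : ℂ)⁻¹ * ∑ l' ∈ Finset.range N, (ζ ^ ((l + l') * κ) - ζ ^ (l * κ)) * F i l' := by
    intro κ
    rw [mul_left_comm, Finset.mul_sum]
    congr 1
    refine Finset.sum_congr rfl fun l' _ => ?_
    rw [add_mul, pow_add, mul_comm l κ, mul_comm l' κ]
    ring
  simp only [h1]
  rw [← Finset.mul_sum, Finset.sum_comm]
  simp only [← Finset.sum_mul]
  have hdl : ¬ N ∣ l := fun hd => by
    have := Nat.le_of_dvd h0 hd
    omega
  have h2 : ∀ l' ∈ Finset.range N, (∑ κ ∈ Finset.range N, (ζ ^ ((l + l') * κ) - ζ ^ (l * κ))) * F i l' =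
      if l' = N - l then ((N : ℕ) : ℂ) * F i l else 0 := by
    intro l' hl'
    have hl'' := Finset.mem_range.mp hl'
    rw [Finset.sum_sub_distrib, geom_mul hζ, geom_mul hζ, if_neg hdl, sub_zero]
    by_cases e : l' = N - l
    · rw [if_pos e, if_pos (by rw [e, Nat.add_sub_cancel' hl.le]), e]
      rw [hflip h0 hl i]
    · rw [if_neg e, if_neg, zero_mul]
      intro hd
      obtain ⟨c, hc⟩ := hd
      have hc1 : c = 1 := by
        rcases c with _ | _ | c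
        · omega
        · rfl
        · exfalso
          have : N * (c + 1 + 1) = N * c + 2 * N := by ring
          rw [this] at hc
          have : 0 ≤ N * c := Nat.zero_le _
          omega
      rw [hc1] at hc
      omega
  rw [Finset.sum_congr rfl h2, Finset.sum_ite_eq' (Finset.range N) (N - l), if_pos (Finset.mem_range.mpr (by omega)),
    ← mul_assoc, inv_mul_cancel₀ hne, one_mul]

/-- Symmetry of the multiplicities. -/
theorem cc_flip {κ : ℕ} (hκ : κ ≤ 2 ^ k) (i : ι) :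
    cc F ζ (2 ^ k) (2 ^ k - κ) i = cc F ζ (2 ^ k) κ i := by
  unfold cc
  congr 1
  have hζ := h.hζ
  have hNpos : 0 < 2 ^ k := by positivity
  obtain ⟨K, hK⟩ : ∃ K, 2 ^ k = K + 1 := ⟨2 ^ k - 1, by omega⟩
  rw [show Finset.range (2 ^ k) = Finset.range (K + 1) by rw [hK]]
  apply sum_flip K
  · simp
  · simp
  · intro l h0 hl
    have hl' : l < 2 ^ k := by omega
    rw [← hK, h.flip h0 hl', pow_flip_eq hζ hNpos (by omega : 2 ^ k - κ ≤ 2 ^ k) hl'.le,
      Nat.sub_sub_self hκ]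

theorem pow_mul_inv {a l : ℕ} (ha : a ≤ 2 ^ k) : ζ ^ ((2 ^ k - a) * l) = (ζ ^ (a * l))⁻¹ := by
  have hζ := h.hζ
  have hNpos : 0 < 2 ^ k := by positivity
  apply eq_inv_of_mul_eq_one_left
  rw [← pow_add, ← add_mul, Nat.sub_add_cancel ha, pow_mul, hζ.pow_eq_one, one_pow]

/-- The value of a column in terms of the multiplicities. -/
theorem value_formula {m : ℕ} (hm : 2 ^ (k - 1) = m + 1) {l : ℕ} (h0 : 0 < l) (hl : l < 2 ^ k) (i : ι) :
    F i l = ∑ j ∈ Finset.range m, cc F ζ (2 ^ k) (j + 1) i * (ζ ^ ((j + 1) * l) + (ζ ^ ((j + 1) * l))⁻¹) +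
      cc F ζ (2 ^ k) (2 ^ (k - 1)) i * (-1) ^ l := by
  have hmul := h.two_mul_half
  have hζ := h.hζ
  have hk := h.hk
  have hN : 2 ^ k = 2 * (m + 1) := by rw [hmul, hm]
  rw [h.fourier h0 hl, hN, sum_split_range, ← hN, cc_zero, mul_zero, zero_add]
  congr 1
  · refine Finset.sum_congr rfl fun j hj => ?_
    have hj' := Finset.mem_range.mp hj
    rw [h.cc_flip (by omega), h.pow_mul_inv (by omega)]
    ring
  · rw [← hm, pow_mul, pow_half (by omega) hζ]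
    ring

/-- The column at the central involution. -/
theorem value_half {m : ℕ} (hm : 2 ^ (k - 1) = m + 1) (i : ι) :
    F i (2 ^ (k - 1)) = ∑ j ∈ Finset.range m, 2 * (-1) ^ (j + 1) * cc F ζ (2 ^ k) (j + 1) i +
      cc F ζ (2 ^ k) (2 ^ (k - 1)) i := by
  have hmul := h.two_mul_half
  have hζ := h.hζ
  have hk := h.hk
  have hpos : 0 < 2 ^ (k - 1) := by positivity
  rw [h.value_formula hm hpos (by omega) i]
  have heven : Even (2 ^ (k - 1)) := by
    apply Nat.even_pow.mpr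
    exact ⟨even_two, by omega⟩
  rw [heven.neg_one_pow, mul_one]
  congr 1
  refine Finset.sum_congr rfl fun j _ => ?_
  have h1 : ζ ^ ((j + 1) * 2 ^ (k - 1)) = (-1) ^ (j + 1) := by
    rw [mul_comm, pow_mul, pow_half (by omega) hζ]
  rw [h1]
  have h2 : ((-1 : ℂ) ^ (j + 1))⁻¹ = (-1) ^ (j + 1) := by
    rw [← inv_pow]
    norm_num
  rw [h2]
  ring

omit h in
/-- Linear relations pass to the multiplicities. -/
theorem sum_cc_eq_zero {N : ℕ} (δ : ι → ℂ) (H : ∀ l, 0 < l → l < N → ∑ i ∈ S, δ i * F i l = 0) (κ : ℕ) :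
    ∑ i ∈ S, δ i * cc F ζ N κ i = 0 := by
  unfold cc
  have h1 : ∀ i, δ i * (((N : ℕ) : ℂ)⁻¹ * ∑ l ∈ Finset.range N, (ζ ^ (κ * l) - 1) * F i l) =
      ((N : ℕ) : ℂ)⁻¹ * ∑ l ∈ Finset.range N, (ζ ^ (κ * l) - 1) * (δ i * F i l) := by
    intro i
    rw [mul_left_comm, Finset.mul_sum]
    congr 1
    refine Finset.sum_congr rfl fun l _ => ?_
    ring
  simp only [h1]
  rw [← Finset.mul_sum, Finset.sum_comm]
  simp only [← Finset.mul_sum]
  apply mul_eq_zero_of_right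
  refine Finset.sum_eq_zero fun l hl => ?_
  rcases Nat.eq_zero_or_pos l with rfl | hp
  · simp
  · rw [H l hp (Finset.mem_range.mp hl), mul_zero]

end FD

end Cfsg.Agent.Lib.Blocks.Tame
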