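/-
Tame blocks: the characters of a dihedral group on its rotations.
-/
import Mathlib
import Cfsg.Agent.Lib.Blocks.TameA
import Cfsg.Agent.Lib.Blocks.TameD
import Cfsg.Agent.Lib.Char.CompleteCor
import Cfsg.Agent.Lib.Blocks.Central

set_option autoImplicit false
set_option linter.style.haveILetI false

namespace Cfsg.Agent.Lib.Blocks.Tame

open Cfsg
open scoped ComplexConjugate

universe u

section DGroup

variable {K : Type u} [Group K] [Fintype K] {D : Subgroup K} {x a : K} {N : ℕ}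

namespace DihD

variable (h : DihD D x a N)
include h

theorem pow_inj {s t : ℕ} (hs : s < 2 * N) (ht : t < 2 * N) (e : x ^ s = x ^ t) : s = t := by
  have h1 := pow_injOn_Iio_orderOf (x := x)
  rw [h.hxo] at h1
  exact h1 (Set.mem_Iio.mpr hs) (Set.mem_Iio.mpr ht) e

theorem conj_rot (hall : ∀ g, g ∈ D) (g : K) (l : ℕ) : g * x ^ l * g⁻¹ = x ^ l ∨ g * x ^ l * g⁻¹ = (x ^ l)⁻¹ := by
  rcases h.hcov g (hall g) with ⟨t, rfl⟩ | ⟨t, rfl⟩
  · left
    rw [← pow_add, show x ^ (t + l) * (x ^ t)⁻¹ = x ^ (l + t) * (x ^ t)⁻¹ by rw [add_comm]]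
    rw [pow_add]
    group
  · right
    have h1 : a * x ^ t * x ^ l * (a * x ^ t)⁻¹ = a * x ^ l * a⁻¹ := by
      have : x ^ t * x ^ l * (x ^ t)⁻¹ = x ^ l := by
        rw [← pow_add, show x ^ (t + l) * (x ^ t)⁻¹ = x ^ (l + t) * (x ^ t)⁻¹ by rw [add_comm]]
        rw [pow_add]
        group
      calc a * x ^ t * x ^ l * (a * x ^ t)⁻¹ = a * (x ^ t * x ^ l * (x ^ t)⁻¹) * a⁻¹ := by group
        _ = a * x ^ l * a⁻¹ := by rw [this]
    rw [h1, h.a_conj_pow]

theorem inv_pow_eq {l : ℕ} (hl : l ≤ 2 * N) : (x ^ l)⁻¹ = x ^ (2 * N - l) := by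
  apply inv_eq_of_mul_eq_one_left
  rw [← pow_add, Nat.sub_add_cancel hl, h.x_pow_two_N]

/-- The conjugates of the rotations. -/
theorem isConj_rot_iff (hall : ∀ g, g ∈ D) {l l' : ℕ} (h0 : 0 < l) (hl : l < 2 * N) (h0' : 0 < l') (hl' : l' < 2 * N) :
    IsConj (x ^ l') (x ^ l) ↔ l' = l ∨ l' = 2 * N - l := by
  constructor
  · intro hc
    obtain ⟨g, hg⟩ := isConj_iff.mp hc
    rcases h.conj_rot hall g l' with e | e
    · rw [e] at hg
      exact Or.inl (h.pow_inj hl' hl hg)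
    · rw [e] at hg
      right
      have h1 : x ^ l' = x ^ (2 * N - l) := by
        rw [← h.inv_pow_eq hl.le, ← hg, inv_inv]
      exact h.pow_inj hl' (by omega) h1
  · rintro (rfl | rfl)
    · exact IsConj.refl _
    · apply isConj_iff.mpr
      refine ⟨a, ?_⟩
      rw [h.a_conj_pow, h.inv_pow_eq (by omega), Nat.sub_sub_self hl.le]

/-- The order of the centralizer of a rotation. -/
theorem card_cen_rot (hall : ∀ g, g ∈ D) (hc : Nat.card K = 4 * N) {l : ℕ} (h0 : 0 < l) (hl : l < 2 * N) :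
    Nat.card (Subgroup.centralizer ({x ^ l} : Set K)) = if l = N then 4 * N else 2 * N := by
  by_cases e : l = N
  · rw [if_pos e, ← hc, e]
    have h1 : Subgroup.centralizer ({x ^ N} : Set K) = ⊤ := by
      ext g
      simp only [Subgroup.mem_top, iff_true]
      rw [Subgroup.mem_centralizer_singleton_iff]
      exact h.zz_comm (hall g)
    rw [h1]
    exact Nat.card_congr Subgroup.topEquiv.toEquiv
  · rw [if_neg e]
    have h1 : Subgroup.centralizer ({x ^ l} : Set K) = Subgroup.zpowers x := by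
      ext g
      rw [Subgroup.mem_centralizer_singleton_iff]
      constructor
      · intro hg
        rcases h.hcov g (hall g) with ⟨t, rfl⟩ | ⟨t, rfl⟩
        · exact Subgroup.pow_mem _ (Subgroup.mem_zpowers x) t
        · exfalso
          have h2 : (a * x ^ t) * x ^ l * (a * x ^ t)⁻¹ = x ^ l := by
            rw [hg]
            group
          have h3 : (a * x ^ t) * x ^ l * (a * x ^ t)⁻¹ = (x ^ l)⁻¹ := by
            have h4 : x ^ t * x ^ l * (x ^ t)⁻¹ = x ^ l := by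
              rw [← pow_add, show x ^ (t + l) * (x ^ t)⁻¹ = x ^ (l + t) * (x ^ t)⁻¹ by rw [add_comm]]
              rw [pow_add]
              group
            calc (a * x ^ t) * x ^ l * (a * x ^ t)⁻¹ = a * (x ^ t * x ^ l * (x ^ t)⁻¹) * a⁻¹ := by group
              _ = a * x ^ l * a⁻¹ := by rw [h4]
              _ = (x ^ l)⁻¹ := h.a_conj_pow l
          rw [h2, h.inv_pow_eq hl.le] at h3
          have h5 := h.pow_inj hl (by omega) h3
          omega
      · rintro ⟨s, rfl⟩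
        simp only
        exact ((Commute.refl x).zpow_left s |>.pow_right l).eq
    rw [h1, Nat.card_zpowers, h.hxo]

/-- **Column orthogonality on the rotations.** -/
theorem gram_rot [Fintype (IrrCharacter K)] (hall : ∀ g, g ∈ D) (hc : Nat.card K = 4 * N) {l l' : ℕ} (h0 : 0 < l)
    (hl : l < 2 * N) (h0' : 0 < l') (hl' : l' < 2 * N) :
    ∑ χ : IrrCharacter K, (χ : K → ℂ) (x ^ l') * conj ((χ : K → ℂ) (x ^ l)) =
      ((2 * N : ℕ) : ℂ) * ((if l' = l then 1 else 0) + (if l' = 2 * N - l then 1 else 0)) := by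
  by_cases hcj : IsConj (x ^ l') (x ^ l)
  · rw [Cfsg.Agent.Lib.Char.CompleteCor.column_orth_conj hcj, h.card_cen_rot hall hc h0' hl']
    rcases (h.isConj_rot_iff hall h0 hl h0' hl').mp hcj with e | e
    · subst e
      by_cases e2 : l' = N
      · rw [if_pos e2, if_pos rfl, if_pos (by omega)]
        push_cast
        ring
      · rw [if_neg e2, if_pos rfl, if_neg (by omega)]
        push_cast
        ring
    · by_cases e2 : l' = N
      · rw [if_pos e2, if_pos (by omega), if_pos e]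
        push_cast
        ring
      · rw [if_neg e2, if_neg (by omega), if_pos e]
        push_cast
        ring
  · rw [Cfsg.Agent.Lib.Char.CompleteCor.column_orth_not_conj hcj]
    have hn : ¬ (l' = l ∨ l' = 2 * N - l) := fun hh => hcj ((h.isConj_rot_iff hall h0 hl h0' hl').mpr hh)
    rw [not_or] at hn
    rw [if_neg hn.1, if_neg hn.2]
    simp

/-- The characters are real on the rotations. -/
theorem irr_rot_real (χ : IrrCharacter K) (l : ℕ) : conj ((χ : K → ℂ) (x ^ l)) = (χ : K → ℂ) (x ^ l) := by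
  rw [Cfsg.Agent.Lib.Char.Ortho.conj_of_isCharacter (Cfsg.Agent.Lib.Char.Basic.isCharacter_of_isIrrCharacter χ.2),
    ← h.a_conj_pow l]
  exact (Cfsg.Agent.Lib.Blocks.Central.isClassFunction_of_irr χ.2) (x ^ l) a

/-- The flip of the rotations. -/
theorem irr_rot_flip (χ : IrrCharacter K) {l : ℕ} (hl : l ≤ 2 * N) : (χ : K → ℂ) (x ^ (2 * N - l)) = (χ : K → ℂ) (x ^ l) := by
  rw [← h.inv_pow_eq hl, ← h.a_conj_pow l]
  exact (Cfsg.Agent.Lib.Blocks.Central.isClassFunction_of_irr χ.2) (x ^ l) a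

/-- The multiplicity of a linear character on `⟨x⟩`. -/
theorem exists_nat_mult {k : ℕ} (hk : 2 ^ k = 2 * N) {ζ : ℂ} (hζ : IsPrimitiveRoot ζ (2 ^ k)) (κ : ℕ) (χ : IrrCharacter K) :
    ∃ n : ℕ, ((2 ^ k : ℕ) : ℂ)⁻¹ * ∑ l ∈ Finset.range (2 ^ k), ζ ^ (κ * l) * (χ : K → ℂ) (x ^ l) = n := by
  classical
  set A : Subgroup K := Subgroup.zpowers x with hA
  letI : Fintype A := Fintype.ofFinite _
  have hNpos : 0 < 2 ^ k := by positivity
  have h0 := hζ.ne_zero hNpos.ne'
  set u : ℂˣ := Units.mk0 (ζ ^ κ) (pow_ne_zero _ h0) with hu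
  set s : A := ⟨x, Subgroup.mem_zpowers x⟩ with hs
  have hgen : ∀ y : A, y ∈ Subgroup.zpowers s := by
    rintro ⟨_, z, rfl⟩
    exact ⟨z, Subtype.ext (by simp [hs])⟩
  have hso : orderOf s = 2 ^ k := by
    rw [← Subgroup.orderOf_coe, hk]
    exact h.hxo
  have hord : orderOf u ∣ orderOf s := by
    apply orderOf_dvd_of_pow_eq_one
    rw [hso]
    apply Units.ext
    simp only [hu, Units.val_pow_eq_pow_val, Units.val_mk0, Units.val_one]
    rw [← pow_mul, mul_comm, pow_mul, hζ.pow_eq_one, one_pow]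
  set φ : A →* ℂˣ := monoidHomOfForallMemZpowers hgen hord with hφ
  have hφs : φ s = u := monoidHomOfForallMemZpowers_apply_gen hgen hord
  have hpowA : ∀ l : ℕ, x ^ l ∈ A := fun l => Subgroup.pow_mem _ (Subgroup.mem_zpowers x) l
  have hφl : ∀ l : ℕ, ((φ ⟨x ^ l, hpowA l⟩ : ℂˣ) : ℂ) = ζ ^ (κ * l) := by
    intro l
    have h1 : (⟨x ^ l, hpowA l⟩ : A) = s ^ l := Subtype.ext (by simp [hs])
    rw [h1, map_pow, hφs]
    simp only [hu, Units.val_pow_eq_pow_val, Units.val_mk0]
    rw [pow_mul]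
  have hχc := Cfsg.Agent.Lib.Char.Basic.isCharacter_of_isIrrCharacter χ.2
  obtain ⟨n, hn⟩ := Cfsg.Agent.Lib.Char.Ortho.exists_nat_classInner_of_isCharacter
    (Cfsg.Agent.Lib.Char.Basic.isCharacter_of_isIrrCharacter (Cfsg.Agent.Lib.Char.LinearChars.isIrr_of_hom φ))
    (Cfsg.Agent.Lib.Char.Basic.isCharacter_restrict hχc A)
  refine ⟨n, ?_⟩
  have hcardA : Nat.card A = 2 ^ k := by rw [hA, Nat.card_zpowers, h.hxo, hk]
  rw [← hn, Cfsg.Agent.Lib.Char.Induced.classInner_def, hcardA]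
  congr 1
  have hfin : IsOfFinOrder x := isOfFinOrder_of_finite x
  have hxo' : orderOf x = 2 ^ k := by rw [h.hxo, hk]
  rw [← hxo']
  rw [← Equiv.sum_comp (finEquivZPowers hfin)]
  rw [← Fin.sum_univ_eq_sum_range (fun l => ζ ^ (κ * l) * (χ : K → ℂ) (x ^ l))]
  refine Finset.sum_congr rfl fun l _ => ?_
  rw [finEquivZPowers_apply]
  have h1 := hφl (l : ℕ)
  simp only
  rw [h1]
  congr 1
  exact (h.irr_rot_real χ _).symm

end DihD

end DGroup

end Cfsg.Agent.Lib.Blocks.Tame
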