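/-
Quaternion defect groups: generalized quaternion groups inside a group.
-/
import Mathlib
import Cfsg.Agent.Lib.Blocks.TameA2
import Cfsg.Agent.Lib.Char.CompleteCor
import Cfsg.Agent.Lib.Blocks.Central

set_option autoImplicit false
set_option linter.style.haveILetI false

namespace Cfsg.Agent.Lib.Blocks.Quat

open Cfsg Cfsg.Agent.Lib.Blocks.Tame
open scoped ComplexConjugate

universe u

section Q

variable {G : Type u} [Group G]

/-- A generalized quaternion group inside `G`, with cyclic part `⟨x⟩` of order `2 * N`, `N` a power of two. -/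
structure QuatD (D : Subgroup G) (x t : G) (N : ℕ) : Prop where
  hpow : ∃ m : ℕ, N = 2 ^ (m + 1)
  hxo : orderOf x = 2 * N
  hxD : x ∈ D
  htD : t ∈ D
  htt : t * t = x ^ N
  htx : t * x * t⁻¹ = x⁻¹
  hcov : ∀ g ∈ D, (∃ s : ℕ, g = x ^ s) ∨ (∃ s : ℕ, g = t * x ^ s)
  hnot : ∀ s : ℕ, t ≠ x ^ s

/-- A subgroup isomorphic to a generalized quaternion group has the data. -/
theorem exists_quatD {D : Subgroup G} {n : ℕ} (hn : 3 ≤ n) (h : Nonempty (D ≃* QuaternionGroup (2 ^ (n - 2)))) :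
    ∃ x t : G, QuatD D x t (2 ^ (n - 2)) ∧ Nat.card D = 4 * 2 ^ (n - 2) := by
  obtain ⟨ι⟩ := h
  have hne : 2 ^ (n - 2) ≠ 0 := by positivity
  haveI : NeZero (2 ^ (n - 2)) := ⟨hne⟩
  haveI : NeZero (2 * 2 ^ (n - 2)) := ⟨by positivity⟩
  set X : D := ι.symm (QuaternionGroup.a 1) with hX
  set A : D := ι.symm (QuaternionGroup.xa 0) with hA
  have hXι : ι X = QuaternionGroup.a 1 := by simp [hX]
  have hAι : ι A = QuaternionGroup.xa 0 := by simp [hA]
  have hcard : Nat.card D = 4 * 2 ^ (n - 2) := by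
    rw [Nat.card_congr ι.toEquiv, Nat.card_eq_fintype_card, QuaternionGroup.card]
  have hpw : ∀ i : ZMod (2 * 2 ^ (n - 2)), (QuaternionGroup.a i : QuaternionGroup (2 ^ (n - 2))) = (QuaternionGroup.a 1) ^ i.val := by
    intro i
    rw [QuaternionGroup.a_one_pow]
    simp
  refine ⟨X, A, ⟨⟨n - 3, ?_⟩, ?_, X.2, A.2, ?_, ?_, ?_, ?_⟩, hcard⟩
  · congr 1
    omega
  · rw [Subgroup.orderOf_coe, ← MulEquiv.orderOf_eq ι X, hXι, QuaternionGroup.orderOf_a_one]
  · have : A * A = X ^ (2 ^ (n - 2)) := by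
      apply ι.injective
      rw [map_mul, hAι, map_pow, hXι, QuaternionGroup.xa_mul_xa, QuaternionGroup.a_one_pow]
      simp
    exact congrArg Subtype.val this
  · have : A * X * A⁻¹ = X⁻¹ := by
      apply ι.injective
      simp only [map_mul, map_inv, hAι, hXι]
      have hinv : (QuaternionGroup.xa 0 : QuaternionGroup (2 ^ (n - 2)))⁻¹ = QuaternionGroup.xa ((2 ^ (n - 2) : ℕ) : ZMod (2 * 2 ^ (n - 2))) := by
        apply inv_eq_of_mul_eq_one_right
        rw [QuaternionGroup.xa_mul_xa]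
        have h2 : ((2 ^ (n - 2) : ℕ) : ZMod (2 * 2 ^ (n - 2))) + ((2 ^ (n - 2) : ℕ) : ZMod (2 * 2 ^ (n - 2))) = 0 := by
          have : (((2 * 2 ^ (n - 2) : ℕ)) : ZMod (2 * 2 ^ (n - 2))) = 0 := ZMod.natCast_self _
          push_cast at this ⊢
          rw [← two_mul]
          exact this
        rw [sub_zero, h2]
        rfl
      have hinv1 : (QuaternionGroup.a 1 : QuaternionGroup (2 ^ (n - 2)))⁻¹ = QuaternionGroup.a (-1) := by
        apply inv_eq_of_mul_eq_one_right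
        rw [QuaternionGroup.a_mul_a]
        simp
      rw [hinv, hinv1, QuaternionGroup.xa_mul_a, QuaternionGroup.xa_mul_xa]
      congr 1
      have h2 : ((2 ^ (n - 2) : ℕ) : ZMod (2 * 2 ^ (n - 2))) + ((2 ^ (n - 2) : ℕ) : ZMod (2 * 2 ^ (n - 2))) = 0 := by
        have : (((2 * 2 ^ (n - 2) : ℕ)) : ZMod (2 * 2 ^ (n - 2))) = 0 := ZMod.natCast_self _
        push_cast at this ⊢
        rw [← two_mul]
        exact this
      have h3 : (((2 ^ (n - 2) : ℕ) : ZMod (2 * 2 ^ (n - 2)))) + ((2 ^ (n - 2) : ℕ) : ZMod (2 * 2 ^ (n - 2))) - (0 + 1) = -1 := by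
        rw [h2]
        ring
      exact h3
    exact congrArg Subtype.val this
  · intro g hg
    rcases hc : ι ⟨g, hg⟩ with i | i
    · left
      refine ⟨i.val, ?_⟩
      have h1 : (⟨g, hg⟩ : D) = X ^ i.val := by
        apply ι.injective
        rw [hc, map_pow, hXι, ← hpw]
      exact congrArg Subtype.val h1
    · right
      refine ⟨i.val, ?_⟩
      have h1 : (⟨g, hg⟩ : D) = A * X ^ i.val := by
        apply ι.injective
        rw [hc, map_mul, map_pow, hXι, hAι, ← hpw, QuaternionGroup.xa_mul_a, zero_add]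
      exact congrArg Subtype.val h1
  · intro s hs
    have h1 : A = X ^ s := Subtype.ext (by simpa using hs)
    have h2 := congrArg ι h1
    rw [map_pow, hXι, hAι, QuaternionGroup.a_one_pow] at h2
    cases h2

namespace QuatD

variable {D : Subgroup G} {x t : G} {N : ℕ} (h : QuatD D x t N)
include h

theorem N_pos : 0 < N := by
  obtain ⟨m, rfl⟩ := h.hpow
  positivity

theorem N_even : 2 ∣ N := by
  obtain ⟨m, rfl⟩ := h.hpow
  exact ⟨2 ^ m, by ring⟩

theorem two_le : 2 ≤ N := Nat.le_of_dvd h.N_pos h.N_even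

theorem half_add : N / 2 + N / 2 = N := by
  obtain ⟨c, hc⟩ := h.N_even
  omega

theorem x_pow_two_N : x ^ (2 * N) = 1 := by
  rw [← h.hxo]
  exact pow_orderOf_eq_one x

theorem t_conj_pow (s : ℕ) : t * x ^ s * t⁻¹ = (x ^ s)⁻¹ := by
  rw [← conj_pow, h.htx, inv_pow]

theorem zz_sq : x ^ N * x ^ N = 1 := by
  rw [← pow_add, ← two_mul, h.x_pow_two_N]

theorem zz_ne_one : x ^ N ≠ 1 := by
  intro h0
  have h1 := orderOf_dvd_of_pow_eq_one h0
  rw [h.hxo] at h1
  have := Nat.le_of_dvd h.N_pos h1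
  have := h.N_pos
  omega

theorem zz_inv : (x ^ N)⁻¹ = x ^ N := inv_eq_of_mul_eq_one_left h.zz_sq

theorem t_comm_zz : t * x ^ N = x ^ N * t := by
  have h1 := h.t_conj_pow N
  rw [h.zz_inv] at h1
  calc t * x ^ N = (t * x ^ N * t⁻¹) * t := by group
    _ = x ^ N * t := by rw [h1]

/-- The elements outside the cyclic part square to `z`. -/
theorem refl_sq (s : ℕ) : (t * x ^ s) * (t * x ^ s) = x ^ N := by
  have h1 := h.t_conj_pow s
  calc (t * x ^ s) * (t * x ^ s) = (t * x ^ s * t⁻¹) * (t * t) * x ^ s := by group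
    _ = (x ^ s)⁻¹ * x ^ N * x ^ s := by rw [h1, h.htt]
    _ = x ^ N := by
      have h2 : x ^ N * x ^ s = x ^ s * x ^ N := by rw [← pow_add, ← pow_add, add_comm]
      rw [mul_assoc, h2, ← mul_assoc, inv_mul_cancel, one_mul]

theorem refl_ne (s r : ℕ) : t * x ^ s ≠ x ^ r := by
  intro he
  have h1 : t = x ^ r * (x ^ s)⁻¹ := by
    rw [← he]
    group
  have h2 : x ^ r * (x ^ s)⁻¹ = x ^ (r + (2 * N - 1) * s) := by
    have h3 : (x ^ s)⁻¹ = x ^ ((2 * N - 1) * s) := by
      apply inv_eq_of_mul_eq_one_right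
      rw [← pow_add]
      have h4 : s + (2 * N - 1) * s = 2 * N * s := by
        have hN := h.N_pos
        obtain ⟨c, hc⟩ : ∃ c, 2 * N = c + 1 := ⟨2 * N - 1, by omega⟩
        rw [hc]
        simp
        ring
      rw [h4, pow_mul, h.x_pow_two_N, one_pow]
    rw [h3, pow_add]
  exact h.hnot _ (h1.trans h2)

theorem zz_mem : x ^ N ∈ D := D.pow_mem h.hxD N

/-- `z` is central in `D`. -/
theorem zz_comm {g : G} (hg : g ∈ D) : g * x ^ N = x ^ N * g := by
  have hc : ∀ s : ℕ, x ^ s * x ^ N = x ^ N * x ^ s := fun s => by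
    rw [← pow_add, ← pow_add, add_comm]
  rcases h.hcov g hg with ⟨s, rfl⟩ | ⟨s, rfl⟩
  · exact hc s
  · rw [mul_assoc, hc s, ← mul_assoc, h.t_comm_zz, mul_assoc]

theorem D_le_cen : D ≤ Subgroup.centralizer ({x ^ N} : Set G) := by
  intro g hg
  rw [Subgroup.mem_centralizer_iff]
  rintro w rfl
  exact (h.zz_comm hg).symm

/-- An involution of `⟨x⟩` is `z`. -/
theorem eq_zz_of_sq {s : ℕ} (h1 : x ^ s * x ^ s = 1) (hne : x ^ s ≠ 1) : x ^ s = x ^ N := by
  have h2 : x ^ (2 * s) = 1 := by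
    rw [two_mul, pow_add, h1]
  have h3 := orderOf_dvd_of_pow_eq_one h2
  rw [h.hxo] at h3
  have h4 : N ∣ s := Nat.dvd_of_mul_dvd_mul_left (by norm_num) h3
  obtain ⟨q, rfl⟩ := h4
  rcases Nat.even_or_odd' q with ⟨c, rfl | rfl⟩
  · exfalso
    apply hne
    rw [show N * (2 * c) = 2 * N * c by ring, pow_mul, h.x_pow_two_N, one_pow]
  · rw [show N * (2 * c + 1) = 2 * N * c + N by ring, pow_add, pow_mul, h.x_pow_two_N, one_pow, one_mul]

/-- `z` is the unique involution of `D`. -/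
theorem invol_eq {g : G} (hg : g ∈ D) (h1 : g * g = 1) (hne : g ≠ 1) : g = x ^ N := by
  rcases h.hcov g hg with ⟨s, rfl⟩ | ⟨s, rfl⟩
  · exact h.eq_zz_of_sq h1 hne
  · exfalso
    rw [h.refl_sq] at h1
    exact h.zz_ne_one h1

/-- Rotations contain `z`. -/
theorem zz_mem_zpowers {s : ℕ} (hne : x ^ s ≠ 1) : x ^ N ∈ Subgroup.zpowers (x ^ s) := by
  obtain ⟨m, hm⟩ := h.hpow
  have h1 : orderOf (x ^ s) ∣ 2 ^ (m + 2) := by
    apply orderOf_dvd_of_pow_eq_one
    rw [← pow_mul, mul_comm, pow_mul]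
    have : (2 : ℕ) ^ (m + 2) = 2 * N := by rw [hm]; ring
    rw [this, h.x_pow_two_N, one_pow]
  obtain ⟨r, -, hr⟩ := (Nat.dvd_prime_pow Nat.prime_two).mp h1
  have hr0 : r ≠ 0 := by
    rintro rfl
    apply hne
    rw [← orderOf_eq_one_iff, hr, pow_zero]
  obtain ⟨q, rfl⟩ : ∃ q, r = q + 1 := ⟨r - 1, by omega⟩
  have h2 : (x ^ s) ^ 2 ^ q ≠ 1 := by
    intro h0
    have h3 := orderOf_dvd_of_pow_eq_one h0
    rw [hr] at h3
    have h4 := (Nat.pow_dvd_pow_iff_le_right (by norm_num : 1 < 2)).mp h3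
    omega
  have h3 : (x ^ (s * 2 ^ q)) * (x ^ (s * 2 ^ q)) = 1 := by
    rw [← pow_add, show s * 2 ^ q + s * 2 ^ q = s * 2 ^ (q + 1) by ring, pow_mul, ← hr]
    exact pow_orderOf_eq_one _
  rw [← pow_mul] at h2
  have h4 := h.eq_zz_of_sq h3 h2
  rw [← h4, pow_mul]
  exact Subgroup.pow_mem _ (Subgroup.mem_zpowers _) _

/-- Every nontrivial element of `D` contains `z`. -/
theorem zz_mem_zpowers_of_mem {g : G} (hg : g ∈ D) (hne : g ≠ 1) : x ^ N ∈ Subgroup.zpowers g := by
  rcases h.hcov g hg with ⟨s, rfl⟩ | ⟨s, rfl⟩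
  · exact h.zz_mem_zpowers hne
  · rw [← h.refl_sq s, ← pow_two]
    exact Subgroup.pow_mem _ (Subgroup.mem_zpowers _) _

theorem x_order_pow : ∃ k : ℕ, orderOf x = 2 ^ k := by
  obtain ⟨m, hm⟩ := h.hpow
  exact ⟨m + 2, by rw [h.hxo, hm]; ring⟩

/-- Powers of `x` have `2`-power order. -/
theorem order_pow (s : ℕ) : ∃ r : ℕ, orderOf (x ^ s) = 2 ^ r := by
  obtain ⟨k, hk⟩ := h.x_order_pow
  have h1 : orderOf (x ^ s) ∣ 2 ^ k := by
    apply orderOf_dvd_of_pow_eq_one
    rw [← pow_mul, mul_comm, pow_mul, ← hk, pow_orderOf_eq_one, one_pow]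
  obtain ⟨r, -, hr⟩ := (Nat.dvd_prime_pow Nat.prime_two).mp h1
  exact ⟨r, hr⟩

omit h in
/-- The element of order four. -/
abbrev ww (x : G) (N : ℕ) : G := x ^ (N / 2)

theorem ww_sq : ww x N * ww x N = x ^ N := by
  rw [ww, ← pow_add, h.half_add]

theorem ww_order : orderOf (ww x N) = 4 := by
  have hN := h.N_even
  obtain ⟨c, rfl⟩ := hN
  have hc : 0 < c := by
    have := h.N_pos
    omega
  have h1 : 2 * c / 2 = c := by omega
  rw [ww, orderOf_pow' _ (by omega), h.hxo]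
  rw [h1, show 2 * (2 * c) = 4 * c by ring, Nat.gcd_eq_right (Dvd.intro_left 4 rfl)]
  exact Nat.mul_div_cancel _ hc

theorem ww_comm_x (s : ℕ) : ww x N * x ^ s = x ^ s * ww x N := by
  rw [ww, ← pow_add, ← pow_add, add_comm]

/-- `D` normalizes `⟨w⟩`. -/
theorem D_le_norm : D ≤ Subgroup.normalizer ((Subgroup.zpowers (ww x N) : Subgroup G) : Set G) := by
  have hgen : ∀ g ∈ D, g * ww x N * g⁻¹ = ww x N ∨ g * ww x N * g⁻¹ = (ww x N)⁻¹ := by
    intro g hg
    rcases h.hcov g hg with ⟨s, rfl⟩ | ⟨s, rfl⟩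
    · left
      rw [← h.ww_comm_x]
      group
    · right
      have h1 : t * x ^ s * ww x N * (t * x ^ s)⁻¹ = t * (x ^ s * ww x N * (x ^ s)⁻¹) * t⁻¹ := by group
      rw [h1, ← h.ww_comm_x s, mul_inv_cancel_right, h.t_conj_pow]
  intro g hg
  rw [Subgroup.mem_normalizer_iff]
  intro y
  constructor
  · rintro ⟨c, rfl⟩
    show g * (ww x N ^ c) * g⁻¹ ∈ _
    rw [← MulAut.conj_apply, map_zpow, MulAut.conj_apply]
    refine Subgroup.zpow_mem _ ?_ _
    rcases hgen g hg with e | e <;> rw [e]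
    · exact Subgroup.mem_zpowers _
    · exact Subgroup.inv_mem _ (Subgroup.mem_zpowers _)
  · intro hy
    obtain ⟨c, hc⟩ := hy
    have hc' : (ww x N) ^ c = g * y * g⁻¹ := hc
    have hy' : y = (g⁻¹ * ww x N * g) ^ c := by
      have h5 := conj_zpow (a := g⁻¹) (b := ww x N) (i := c)
      rw [inv_inv] at h5
      rw [h5, hc']
      group
    rw [hy']
    refine Subgroup.zpow_mem _ ?_ _
    have hgi : g⁻¹ ∈ D := D.inv_mem hg
    have := hgen g⁻¹ hgi
    rw [inv_inv] at this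
    rcases this with e | e <;> rw [e]
    · exact Subgroup.mem_zpowers _
    · exact Subgroup.inv_mem _ (Subgroup.mem_zpowers _)

end QuatD

section Finite

variable [Finite G]

/-- Elements of order dividing four in a cyclic group containing an element of order four. -/
theorem mem_zpowers_of_pow_four {y w v : G} (hw : w ∈ Subgroup.zpowers y) (hwo : orderOf w = 4)
    (hv : v ∈ Subgroup.zpowers y) (hv4 : v ^ 4 = 1) : v ∈ Subgroup.zpowers w := by
  classical
  letI : Fintype (Subgroup.zpowers y) := Fintype.ofFinite _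
  have h1 := IsCyclic.card_pow_eq_one_le (α := Subgroup.zpowers y) (n := 4) (by norm_num)
  set A : Finset (Subgroup.zpowers y) := Finset.univ.filter (fun a => a ^ 4 = 1) with hA
  set W : Finset (Subgroup.zpowers y) := (Finset.range 4).image (fun i => (⟨w, hw⟩ : Subgroup.zpowers y) ^ i) with hW
  have hwo' : orderOf (⟨w, hw⟩ : Subgroup.zpowers y) = 4 := by
    rw [← Subgroup.orderOf_coe]
    exact hwo
  have hWc : W.card = 4 := by
    rw [hW, Finset.card_image_of_injOn, Finset.card_range]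
    intro i hi j hj hij
    have h2 := pow_injOn_Iio_orderOf (x := (⟨w, hw⟩ : Subgroup.zpowers y))
    rw [hwo'] at h2
    exact h2 (by simpa using hi) (by simpa using hj) hij
  have hWA : W ⊆ A := by
    intro a ha
    obtain ⟨i, -, rfl⟩ := Finset.mem_image.mp ha
    simp only [hA, Finset.mem_filter, Finset.mem_univ, true_and]
    rw [← pow_mul, mul_comm, pow_mul, ← hwo', pow_orderOf_eq_one, one_pow]
  have hWA' : W = A := Finset.eq_of_subset_of_card_le hWA (by rw [hWc]; exact h1)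
  have hvA : (⟨v, hv⟩ : Subgroup.zpowers y) ∈ A := by
    simp only [hA, Finset.mem_filter, Finset.mem_univ, true_and]
    exact Subtype.ext hv4
  rw [← hWA'] at hvA
  obtain ⟨i, -, hi⟩ := Finset.mem_image.mp hvA
  have h2 := congrArg Subtype.val hi
  simp only [SubmonoidClass.mk_pow] at h2
  rw [← h2]
  exact Subgroup.pow_mem _ (Subgroup.mem_zpowers _) _

/-- An element conjugating `y` to `y'`, both above `w`, normalizes `⟨w⟩`. -/
theorem mem_norm_of_conj {w y y' g : G} (hwo : orderOf w = 4) (hw : w ∈ Subgroup.zpowers y)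
    (hw' : w ∈ Subgroup.zpowers y') (hg : g * y * g⁻¹ = y') :
    g ∈ Subgroup.normalizer ((Subgroup.zpowers w : Subgroup G) : Set G) := by
  have h4 : ∀ {a b : G}, w ^ 4 = 1 → a = b → True := fun _ _ => trivial
  have hw4 : w ^ 4 = 1 := by rw [← hwo]; exact pow_orderOf_eq_one w
  have h1 : g * w * g⁻¹ ∈ Subgroup.zpowers w := by
    apply mem_zpowers_of_pow_four hw' hwo
    · obtain ⟨c, hc⟩ := hw
      have hc' : y ^ c = w := hc
      rw [← hc', ← MulAut.conj_apply, map_zpow, MulAut.conj_apply, hg]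
      exact Subgroup.zpow_mem _ (Subgroup.mem_zpowers _) _
    · rw [conj_pow, hw4]
      group
  have hconj : (Subgroup.zpowers w).map (MulAut.conj g).toMonoidHom ≤ Subgroup.zpowers w := by
    rintro _ ⟨a, ⟨c, rfl⟩, rfl⟩
    simp only [MulEquiv.coe_toMonoidHom, map_zpow]
    exact Subgroup.zpow_mem _ h1 _
  have hcard : Nat.card ((Subgroup.zpowers w).map (MulAut.conj g).toMonoidHom) = Nat.card (Subgroup.zpowers w) :=
    Nat.card_congr (Subgroup.equivMapOfInjective _ _ (MulAut.conj g).injective).symm.toEquiv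
  have heq := Subgroup.eq_of_le_of_card_ge hconj hcard.ge
  rw [Subgroup.mem_normalizer_iff]
  intro a
  constructor
  · intro ha
    rw [← heq]
    exact ⟨a, ha, rfl⟩
  · intro ha
    rw [← heq] at ha
    obtain ⟨a', ha', he⟩ := ha
    have : a' = a := by
      simpa using he
    rwa [← this]

/-- An element commuting with `y` above `w` normalizes `⟨w⟩`. -/
theorem mem_norm_of_comm {w y c : G} (hw : w ∈ Subgroup.zpowers y) (hc : c * y = y * c) :
    c ∈ Subgroup.normalizer ((Subgroup.zpowers w : Subgroup G) : Set G) := by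
  rw [Subgroup.mem_normalizer_iff]
  have hcw : Commute c w := by
    obtain ⟨m, hm⟩ := hw
    have hm' : y ^ m = w := hm
    rw [← hm']
    exact (show Commute c y from hc).zpow_right m
  intro a
  constructor
  · rintro ⟨m, rfl⟩
    have : c * w ^ m * c⁻¹ = w ^ m := by
      rw [(hcw.zpow_right m).eq]
      group
    show c * w ^ m * c⁻¹ ∈ _
    rw [this]
    exact Subgroup.zpow_mem _ (Subgroup.mem_zpowers _) _
  · rintro ⟨m, hm⟩
    have hm' : w ^ m = c * a * c⁻¹ := hm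
    have : a = w ^ m := by
      have h1 : a = c⁻¹ * (c * a * c⁻¹) * c := by group
      rw [h1, ← hm', (hcw.inv_left.zpow_right m).eq]
      group
    rw [this]
    exact Subgroup.zpow_mem _ (Subgroup.mem_zpowers _) _

namespace QuatD

variable {D : Subgroup G} {x t : G} {N : ℕ} (h : QuatD D x t N)
include h

/-- Rotations of order at least four contain `w`. -/
theorem ww_mem_zpowers {s : ℕ} (hne : x ^ s ≠ 1) (hne' : x ^ s ≠ x ^ N) : ww x N ∈ Subgroup.zpowers (x ^ s) := by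
  obtain ⟨k, hk⟩ := h.x_order_pow
  obtain ⟨r, hr⟩ := h.order_pow s
  have hr0 : r ≠ 0 := by
    rintro rfl
    apply hne
    rw [← orderOf_eq_one_iff, hr, pow_zero]
  have hr1 : r ≠ 1 := by
    rintro rfl
    apply hne'
    apply h.eq_zz_of_sq _ hne
    have h2 : (x ^ s) ^ 2 = 1 := by
      rw [← orderOf_dvd_iff_pow_eq_one, hr]
      norm_num
    rwa [pow_two] at h2
  obtain ⟨q, rfl⟩ : ∃ q, r = q + 2 := ⟨r - 2, by omega⟩
  have ho : orderOf (x ^ (s * 2 ^ q)) = 4 := by
    rw [pow_mul, orderOf_pow_of_dvd (by positivity) (by rw [hr]; exact pow_dvd_pow _ (by omega)), hr]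
    rw [show q + 2 = q + 2 by rfl, pow_add]
    norm_num
  have ho' : orderOf (x ^ (s * 2 ^ q)) = orderOf (x ^ (N / 2)) := by
    rw [ho]
    exact h.ww_order.symm
  obtain ⟨c, hc⟩ := exists_pow_eq_of_orderOf_eq hk ho'
  rw [ww, hc, pow_mul]
  exact Subgroup.pow_mem _ (Subgroup.pow_mem _ (Subgroup.mem_zpowers _) _) _

/-- An odd order element centralizing `w` and mapping a rotation into `D` fixes it. -/
theorem conj_rot_eq {k : G} (hk : Odd (orderOf k)) (hkw : k * ww x N = ww x N * k) {s : ℕ}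
    (hkD : k * x ^ s * k⁻¹ ∈ D) : k * x ^ s * k⁻¹ = x ^ s := by
  obtain ⟨r, hr⟩ := h.order_pow s
  by_cases hr2 : r ≤ 2
  · -- in `⟨w⟩`
    have hin : x ^ s ∈ Subgroup.zpowers (ww x N) := by
      have h1 : (x ^ s) ^ 4 = 1 := by
        rw [← orderOf_dvd_iff_pow_eq_one, hr]
        exact (pow_dvd_pow 2 hr2).trans (by norm_num)
      exact mem_zpowers_of_pow_four (y := x) (Subgroup.pow_mem _ (Subgroup.mem_zpowers x) _) h.ww_order
        (Subgroup.pow_mem _ (Subgroup.mem_zpowers x) _) h1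
    obtain ⟨c, hc⟩ := hin
    have hc' : (ww x N) ^ c = x ^ s := hc
    rw [← hc', ((show Commute k (ww x N) from hkw).zpow_right c).eq]
    group
  · push Not at hr2
    -- the image is a rotation
    have hord : orderOf (k * x ^ s * k⁻¹) = orderOf (x ^ s) := (MulAut.conj k).orderOf_eq _
    rcases h.hcov _ hkD with ⟨s', hs'⟩ | ⟨s', hs'⟩
    · have ho : orderOf (x ^ s) = orderOf (x ^ s') := by
        rw [← hs']
        exact hord.symm
      obtain ⟨k₀, hk₀⟩ := h.x_order_pow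
      obtain ⟨c, hc⟩ := exists_pow_eq_of_orderOf_eq hk₀ ho
      exact conj_eq_of_odd hr hk (by rw [hs', hc])
    · exfalso
      have h1 : (t * x ^ s') ^ 4 = 1 := by
        have h2 := h.refl_sq s'
        rw [show (4 : ℕ) = 2 + 2 by norm_num, pow_add, pow_two, h2, h.zz_sq]
      have h2 : orderOf (x ^ s) ∣ 4 := by
        rw [← hord, hs']
        exact orderOf_dvd_of_pow_eq_one h1
      rw [hr] at h2
      have h3 : (2 : ℕ) ^ r ∣ 2 ^ 2 := h2
      have h4 := (Nat.pow_dvd_pow_iff_le_right (by norm_num : 1 < 2)).mp h3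
      omega

/-- **An odd order element normalizing a subgroup of `D` and centralizing `w` centralizes it.** -/
theorem odd_centralizes {Q : Subgroup G} (hQ : Q ≤ D) {k : G} (hk : Odd (orderOf k))
    (hkw : k * ww x N = ww x N * k) (hkQ : ∀ g ∈ Q, k * g * k⁻¹ ∈ Q) (g : G) (hg : g ∈ Q) :
    k * g * k⁻¹ = g := by
  rcases h.hcov g (hQ hg) with ⟨s, rfl⟩ | ⟨s, rfl⟩
  · exact h.conj_rot_eq hk hkw (hQ (hkQ _ hg))
  · set g := t * x ^ s with hgdef
    have hc1 : k * g * k⁻¹ ∈ D := hQ (hkQ g hg)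
    rcases h.hcov _ hc1 with ⟨s₁, hs₁⟩ | ⟨s₁, hs₁⟩
    · exfalso
      have hxQ : x ^ s₁ ∈ Q := by
        rw [← hs₁]
        exact hkQ g hg
      have h2 := h.conj_rot_eq hk hkw (hQ (hkQ _ hxQ))
      rw [← hs₁] at h2
      have h3 : g = k * g * k⁻¹ := by
        have h4 : k * (k * g * k⁻¹) * k⁻¹ = k * g * k⁻¹ := h2
        exact (mul_left_cancel (mul_right_cancel h4)).symm
      rw [hs₁] at h3
      exact h.refl_ne s s₁ h3
    · have hr : ∃ c : ℕ, k * g * k⁻¹ = g * x ^ c := by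
        have h3 : (x ^ s)⁻¹ = x ^ ((2 * N - 1) * s) := by
          apply inv_eq_of_mul_eq_one_right
          rw [← pow_add]
          have h4 : s + (2 * N - 1) * s = 2 * N * s := by
            have hN := h.N_pos
            obtain ⟨c, hc⟩ : ∃ c, 2 * N = c + 1 := ⟨2 * N - 1, by omega⟩
            rw [hc]
            simp
            ring
          rw [h4, pow_mul, h.x_pow_two_N, one_pow]
        refine ⟨(2 * N - 1) * s + s₁, ?_⟩
        rw [hs₁, hgdef, pow_add, ← h3]
        group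
      obtain ⟨c, hc⟩ := hr
      have hxQ : x ^ c ∈ Q := by
        have h1 : x ^ c = g⁻¹ * (k * g * k⁻¹) := by
          rw [hc]
          group
        rw [h1]
        exact Q.mul_mem (Q.inv_mem hg) (hkQ g hg)
      have hfix := h.conj_rot_eq hk hkw (hQ (hkQ _ hxQ))
      have hit : ∀ i : ℕ, k ^ i * g * (k ^ i)⁻¹ = g * (x ^ c) ^ i := by
        intro i
        induction i with
        | zero => simp
        | succ i ih =>
          have h1 : k ^ (i + 1) * g * (k ^ (i + 1))⁻¹ = k * (k ^ i * g * (k ^ i)⁻¹) * k⁻¹ := by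
            rw [pow_succ']
            group
          rw [h1, ih]
          have h2 : k * (g * (x ^ c) ^ i) * k⁻¹ = (k * g * k⁻¹) * (k * x ^ c * k⁻¹) ^ i := by
            rw [conj_pow]
            group
          rw [h2, hfix, hc, mul_assoc, pow_succ']
      have h1 := hit (orderOf k)
      rw [pow_orderOf_eq_one] at h1
      simp only [one_mul, inv_one, mul_one] at h1
      have h2 : (x ^ c) ^ orderOf k = 1 := mul_left_cancel (a := g) (by rw [← h1, mul_one])
      have h3 : orderOf (x ^ c) ∣ orderOf k := orderOf_dvd_of_pow_eq_one h2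
      obtain ⟨r, hr⟩ := h.order_pow c
      have hcop : Nat.Coprime (orderOf k) (2 ^ r) :=
        Nat.Coprime.pow_right _ (Nat.coprime_two_right.mpr hk)
      have h5 : orderOf (x ^ c) = 1 := Nat.Coprime.eq_one_of_dvd (Nat.Coprime.coprime_dvd_left h3 hcop) (by rw [hr])
      rw [hc, orderOf_eq_one_iff.mp h5, mul_one]

/-- An odd order element normalizing `⟨w⟩` centralizes `w`. -/
theorem odd_comm_ww {k : G} (hk : Odd (orderOf k))
    (hkn : k ∈ Subgroup.normalizer ((Subgroup.zpowers (ww x N) : Subgroup G) : Set G)) :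
    k * ww x N = ww x N * k := by
  have h1 : k * ww x N * k⁻¹ ∈ Subgroup.zpowers (ww x N) :=
    (Subgroup.mem_normalizer_iff.mp hkn _).mp (Subgroup.mem_zpowers _)
  have h2 : ∃ c : ℕ, (ww x N) ^ c = k * ww x N * k⁻¹ := by
    exact (Submonoid.mem_powers_iff _ _).mp ((mem_powers_iff_mem_zpowers).2 h1)
  obtain ⟨c, hc⟩ := h2
  have h3 := conj_eq_of_odd (r := 2) (s := c) (by rw [h.ww_order]; norm_num) hk hc.symm
  calc k * ww x N = (k * ww x N * k⁻¹) * k := by group
    _ = ww x N * k := by rw [h3]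

end QuatD

end Finite

/-- The data pass to a subgroup. -/
theorem QuatD.subgroupOf {D W : Subgroup G} {x t : G} {N : ℕ} (h : QuatD D x t N) (hDW : D ≤ W) :
    QuatD (D.subgroupOf W) (⟨x, hDW h.hxD⟩ : W) (⟨t, hDW h.htD⟩ : W) N where
  hpow := h.hpow
  hxo := by
    rw [← h.hxo]
    exact Subgroup.orderOf_mk x _
  hxD := Subgroup.mem_subgroupOf.mpr h.hxD
  htD := Subgroup.mem_subgroupOf.mpr h.htD
  htt := Subtype.ext h.htt
  htx := Subtype.ext h.htx
  hcov := by
    intro g hg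
    rcases h.hcov g (Subgroup.mem_subgroupOf.mp hg) with ⟨s, hs⟩ | ⟨s, hs⟩
    · exact Or.inl ⟨s, Subtype.ext hs⟩
    · exact Or.inr ⟨s, Subtype.ext hs⟩
  hnot := by
    intro s hs
    exact h.hnot s (congrArg Subtype.val hs)

end Q

section DGroup

variable {K : Type u} [Group K] [Fintype K] {D : Subgroup K} {x t : K} {N : ℕ}

namespace QuatD

variable (h : QuatD D x t N)
include h

theorem pow_inj {s r : ℕ} (hs : s < 2 * N) (hr : r < 2 * N) (e : x ^ s = x ^ r) : s = r := by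
  have h1 := pow_injOn_Iio_orderOf (x := x)
  rw [h.hxo] at h1
  exact h1 (Set.mem_Iio.mpr hs) (Set.mem_Iio.mpr hr) e

theorem conj_rot (hall : ∀ g, g ∈ D) (g : K) (l : ℕ) : g * x ^ l * g⁻¹ = x ^ l ∨ g * x ^ l * g⁻¹ = (x ^ l)⁻¹ := by
  rcases h.hcov g (hall g) with ⟨s, rfl⟩ | ⟨s, rfl⟩
  · left
    rw [← pow_add, show x ^ (s + l) * (x ^ s)⁻¹ = x ^ (l + s) * (x ^ s)⁻¹ by rw [add_comm]]
    rw [pow_add]
    group
  · right
    have h1 : t * x ^ s * x ^ l * (t * x ^ s)⁻¹ = t * x ^ l * t⁻¹ := by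
      have : x ^ s * x ^ l * (x ^ s)⁻¹ = x ^ l := by
        rw [← pow_add, show x ^ (s + l) * (x ^ s)⁻¹ = x ^ (l + s) * (x ^ s)⁻¹ by rw [add_comm]]
        rw [pow_add]
        group
      calc t * x ^ s * x ^ l * (t * x ^ s)⁻¹ = t * (x ^ s * x ^ l * (x ^ s)⁻¹) * t⁻¹ := by group
        _ = t * x ^ l * t⁻¹ := by rw [this]
    rw [h1, h.t_conj_pow]

theorem inv_pow_eq {l : ℕ} (hl : l ≤ 2 * N) : (x ^ l)⁻¹ = x ^ (2 * N - l) := by
  apply inv_eq_of_mul_eq_one_left
  rw [← pow_add, Nat.sub_add_cancel hl, h.x_pow_two_N]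

/-- The conjugates of the rotations. -/
theorem isConj_rot_iff (hall : ∀ g, g ∈ D) {l l' : ℕ} (hl : l < 2 * N) (hl' : l' < 2 * N) (h0 : 0 < l) :
    IsConj (x ^ l') (x ^ l) ↔ l' = l ∨ l' = 2 * N - l := by
  constructor
  · intro hc
    obtain ⟨g, hg⟩ := isConj_iff.mp hc
    rcases h.conj_rot hall g l' with e | e
    · rw [e] at hg
      exact Or.inl (h.pow_inj hl' hl hg)
    · rw [e] at hg
      right
      have h1 : x ^ l' = x ^ (2 * N - l) := by
        rw [← h.inv_pow_eq hl.le, ← hg, inv_inv]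
      exact h.pow_inj hl' (by omega) h1
  · rintro (rfl | rfl)
    · exact IsConj.refl _
    · apply isConj_iff.mpr
      refine ⟨t, ?_⟩
      rw [h.t_conj_pow, h.inv_pow_eq (by omega), Nat.sub_sub_self hl.le]

/-- The order of the centralizer of a rotation. -/
theorem card_cen_rot (hall : ∀ g, g ∈ D) {l : ℕ} (h0 : 0 < l) (hl : l < 2 * N) (e : l ≠ N) :
    Nat.card (Subgroup.centralizer ({x ^ l} : Set K)) = 2 * N := by
  have h1 : Subgroup.centralizer ({x ^ l} : Set K) = Subgroup.zpowers x := by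
    ext g
    rw [Subgroup.mem_centralizer_singleton_iff]
    constructor
    · intro hg
      rcases h.hcov g (hall g) with ⟨s, rfl⟩ | ⟨s, rfl⟩
      · exact Subgroup.pow_mem _ (Subgroup.mem_zpowers x) s
      · exfalso
        have h2 : (t * x ^ s) * x ^ l * (t * x ^ s)⁻¹ = x ^ l := by
          rw [hg]
          group
        have h3 : (t * x ^ s) * x ^ l * (t * x ^ s)⁻¹ = (x ^ l)⁻¹ := by
          have h4 : x ^ s * x ^ l * (x ^ s)⁻¹ = x ^ l := by
            rw [← pow_add, show x ^ (s + l) * (x ^ s)⁻¹ = x ^ (l + s) * (x ^ s)⁻¹ by rw [add_comm]]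
            rw [pow_add]
            group
          calc (t * x ^ s) * x ^ l * (t * x ^ s)⁻¹ = t * (x ^ s * x ^ l * (x ^ s)⁻¹) * t⁻¹ := by group
            _ = t * x ^ l * t⁻¹ := by rw [h4]
            _ = (x ^ l)⁻¹ := h.t_conj_pow l
        rw [h2, h.inv_pow_eq hl.le] at h3
        have h5 := h.pow_inj hl (by omega) h3
        omega
    · rintro ⟨c, rfl⟩
      simp only
      exact ((Commute.refl x).zpow_left c |>.pow_right l).eq
  rw [h1, Nat.card_zpowers, h.hxo]

/-- **Column orthogonality on the rotations.** -/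
theorem gram_rot [Fintype (IrrCharacter K)] (hall : ∀ g, g ∈ D) {l l' : ℕ} (h0 : 0 < l)
    (hl : l < 2 * N) (e : l ≠ N) (h0' : 0 < l') (hl' : l' < 2 * N) (e' : l' ≠ N) :
    ∑ χ : IrrCharacter K, (χ : K → ℂ) (x ^ l') * conj ((χ : K → ℂ) (x ^ l)) =
      ((2 * N : ℕ) : ℂ) * ((if l' = l then 1 else 0) + (if l' = 2 * N - l then 1 else 0)) := by
  by_cases hcj : IsConj (x ^ l') (x ^ l)
  · rw [Cfsg.Agent.Lib.Char.CompleteCor.column_orth_conj hcj, h.card_cen_rot hall h0' hl' e']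
    rcases (h.isConj_rot_iff hall hl hl' h0).mp hcj with e2 | e2
    · subst e2
      rw [if_pos rfl, if_neg (by omega)]
      push_cast
      ring
    · rw [if_neg (by omega), if_pos e2]
      push_cast
      ring
  · rw [Cfsg.Agent.Lib.Char.CompleteCor.column_orth_not_conj hcj]
    have hn : ¬ (l' = l ∨ l' = 2 * N - l) := fun hh => hcj ((h.isConj_rot_iff hall hl hl' h0).mpr hh)
    rw [not_or] at hn
    rw [if_neg hn.1, if_neg hn.2]
    simp

/-- The characters are real on the rotations. -/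
theorem irr_rot_real (χ : IrrCharacter K) (l : ℕ) : conj ((χ : K → ℂ) (x ^ l)) = (χ : K → ℂ) (x ^ l) := by
  rw [Cfsg.Agent.Lib.Char.Ortho.conj_of_isCharacter (Cfsg.Agent.Lib.Char.Basic.isCharacter_of_isIrrCharacter χ.2),
    ← h.t_conj_pow l]
  exact (Cfsg.Agent.Lib.Blocks.Central.isClassFunction_of_irr χ.2) (x ^ l) t

/-- The flip of the rotations. -/
theorem irr_rot_flip (χ : IrrCharacter K) {l : ℕ} (hl : l ≤ 2 * N) : (χ : K → ℂ) (x ^ (2 * N - l)) = (χ : K → ℂ) (x ^ l) := by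
  rw [← h.inv_pow_eq hl, ← h.t_conj_pow l]
  exact (Cfsg.Agent.Lib.Blocks.Central.isClassFunction_of_irr χ.2) (x ^ l) t

/-- The multiplicity of a linear character on `⟨x⟩`. -/
theorem exists_nat_mult {k : ℕ} (hk : 2 ^ k = 2 * N) {ζ : ℂ} (hζ : IsPrimitiveRoot ζ (2 ^ k)) (κ : ℕ) (χ : IrrCharacter K) :
    ∃ n : ℕ, ((2 ^ k : ℕ) : ℂ)⁻¹ * ∑ l ∈ Finset.range (2 ^ k), ζ ^ (κ * l) * (χ : K → ℂ) (x ^ l) = n := by
  classical
  set A : Subgroup K := Subgroup.zpowers x with hA
  letI : Fintype A := Fintype.ofFinite _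
  have hNpos : 0 < 2 ^ k := by positivity
  have h0 := hζ.ne_zero hNpos.ne'
  set u : ℂˣ := Units.mk0 (ζ ^ κ) (pow_ne_zero _ h0) with hu
  set s : A := ⟨x, Subgroup.mem_zpowers x⟩ with hs
  have hgen : ∀ y : A, y ∈ Subgroup.zpowers s := by
    rintro ⟨_, z, rfl⟩
    exact ⟨z, Subtype.ext (by simp [hs])⟩
  have hso : orderOf s = 2 ^ k := by
    rw [← Subgroup.orderOf_coe, hk]
    exact h.hxo
  have hord : orderOf u ∣ orderOf s := by
    apply orderOf_dvd_of_pow_eq_one
    rw [hso]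
    apply Units.ext
    simp only [hu, Units.val_pow_eq_pow_val, Units.val_mk0, Units.val_one]
    rw [← pow_mul, mul_comm, pow_mul, hζ.pow_eq_one, one_pow]
  set φ : A →* ℂˣ := monoidHomOfForallMemZpowers hgen hord with hφ
  have hφs : φ s = u := monoidHomOfForallMemZpowers_apply_gen hgen hord
  have hpowA : ∀ l : ℕ, x ^ l ∈ A := fun l => Subgroup.pow_mem _ (Subgroup.mem_zpowers x) l
  have hφl : ∀ l : ℕ, ((φ ⟨x ^ l, hpowA l⟩ : ℂˣ) : ℂ) = ζ ^ (κ * l) := by
    intro l
    have h1 : (⟨x ^ l, hpowA l⟩ : A) = s ^ l := Subtype.ext (by simp [hs])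
    rw [h1, map_pow, hφs]
    simp only [hu, Units.val_pow_eq_pow_val, Units.val_mk0]
    rw [pow_mul]
  have hχc := Cfsg.Agent.Lib.Char.Basic.isCharacter_of_isIrrCharacter χ.2
  obtain ⟨n, hn⟩ := Cfsg.Agent.Lib.Char.Ortho.exists_nat_classInner_of_isCharacter
    (Cfsg.Agent.Lib.Char.Basic.isCharacter_of_isIrrCharacter (Cfsg.Agent.Lib.Char.LinearChars.isIrr_of_hom φ))
    (Cfsg.Agent.Lib.Char.Basic.isCharacter_restrict hχc A)
  refine ⟨n, ?_⟩
  have hcardA : Nat.card A = 2 ^ k := by rw [hA, Nat.card_zpowers, h.hxo, hk]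
  rw [← hn, Cfsg.Agent.Lib.Char.Induced.classInner_def, hcardA]
  congr 1
  have hfin : IsOfFinOrder x := isOfFinOrder_of_finite x
  have hxo' : orderOf x = 2 ^ k := by rw [h.hxo, hk]
  rw [← hxo']
  rw [← Equiv.sum_comp (finEquivZPowers hfin)]
  rw [← Fin.sum_univ_eq_sum_range (fun l => ζ ^ (κ * l) * (χ : K → ℂ) (x ^ l))]
  refine Finset.sum_congr rfl fun l _ => ?_
  rw [finEquivZPowers_apply]
  have h1 := hφl (l : ℕ)
  simp only
  rw [h1]
  congr 1
  exact (h.irr_rot_real χ _).symm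

end QuatD

end DGroup

end Cfsg.Agent.Lib.Blocks.Quat
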