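/-
Quaternion defect groups: Fourier analysis on the cyclic part, abstractly.  Only the columns at the elements of
order at least four satisfy orthogonality relations.
-/
import Mathlib
import Cfsg.Agent.Lib.Blocks.DihC

set_option autoImplicit false
set_option linter.style.haveILetI false

namespace Cfsg.Agent.Lib.Blocks.Quat

open Cfsg.Agent.Lib.Blocks.DihS

/-- The data of the columns on the rotations. -/
structure FQ {ι : Type*} (S : Finset ι) (F : ι → ℕ → ℂ) (k : ℕ) (ζ : ℂ) : Prop where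
  hk : 2 ≤ k
  hζ : IsPrimitiveRoot ζ (2 ^ k)
  flip : ∀ {l : ℕ}, 0 < l → l < 2 ^ k → ∀ i, F i (2 ^ k - l) = F i l
  ortho : ∀ {l l' : ℕ}, 0 < l → l < 2 ^ k → l ≠ 2 ^ (k - 1) → 0 < l' → l' < 2 ^ k → l' ≠ 2 ^ (k - 1) →
    ∑ i ∈ S, F i l' * F i l =
      ((2 ^ k : ℕ) : ℂ) * ((if l' = l then 1 else 0) + (if l' = 2 ^ k - l then 1 else 0))

/-- The multiplicity of `μ^κ` in the column. -/
noncomputable def qc {ι : Type*} (F : ι → ℕ → ℂ) (ζ : ℂ) (M κ : ℕ) (i : ι) : ℂ :=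
  (M : ℂ)⁻¹ * ∑ l ∈ Finset.range M, ζ ^ (κ * l) * F i l

/-- Indicator of divisibility. -/
noncomputable def dv (M t : ℕ) : ℂ := if M ∣ t then 1 else 0

/-- The Gram entries. -/
noncomputable def RR (M a b : ℕ) : ℂ := dv M (a + b) + dv M (a + (M - b))

namespace FQ

variable {ι : Type*} {S : Finset ι} {F : ι → ℕ → ℂ} {k : ℕ} {ζ : ℂ} (h : FQ S F k ζ)
include h

theorem two_mul_half : 2 ^ k = 2 * 2 ^ (k - 1) := by
  have := h.hk
  rw [← pow_succ']
  congr 1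
  omega

/-- The weighted sum over the exponents. -/
theorem sum_g (g : ℕ → ℂ) (hg : g 0 = 0) (hgN : g (2 ^ (k - 1)) = 0) {l : ℕ} (h0 : 0 < l) (hl : l < 2 ^ k)
    (he : l ≠ 2 ^ (k - 1)) :
    ∑ l' ∈ Finset.range (2 ^ k), g l' * ∑ i ∈ S, F i l' * F i l =
      ((2 ^ k : ℕ) : ℂ) * (g l + g (2 ^ k - l)) := by
  have h1 : ∀ l' ∈ Finset.range (2 ^ k), g l' * ∑ i ∈ S, F i l' * F i l =
      ((2 ^ k : ℕ) : ℂ) * (g l' * (if l' = l then 1 else 0) + g l' * (if l' = 2 ^ k - l then 1 else 0)) := by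
    intro l' hl'
    rcases Nat.eq_zero_or_pos l' with rfl | hp
    · rw [hg]
      simp
    · by_cases e' : l' = 2 ^ (k - 1)
      · rw [e', hgN]
        simp
      · rw [h.ortho h0 hl he hp (Finset.mem_range.mp hl') e']
        ring
  rw [Finset.sum_congr rfl h1, ← Finset.mul_sum, Finset.sum_add_distrib]
  congr 2
  · simp only [mul_ite, mul_one, mul_zero]
    rw [Finset.sum_ite_eq' (Finset.range (2 ^ k)) l g, if_pos (Finset.mem_range.mpr hl)]
  · simp only [mul_ite, mul_one, mul_zero]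
    rw [Finset.sum_ite_eq' (Finset.range (2 ^ k)) (2 ^ k - l) g, if_pos (Finset.mem_range.mpr (by omega))]

/-- The inner products of weighted sums. -/
theorem sum_gg (g g' : ℕ → ℂ) (hg : g 0 = 0) (hgN : g (2 ^ (k - 1)) = 0) (hg' : g' 0 = 0)
    (hgN' : g' (2 ^ (k - 1)) = 0) :
    ∑ i ∈ S, (((2 ^ k : ℕ) : ℂ)⁻¹ * ∑ l ∈ Finset.range (2 ^ k), g l * F i l) *
        (((2 ^ k : ℕ) : ℂ)⁻¹ * ∑ l' ∈ Finset.range (2 ^ k), g' l' * F i l') =
      ((2 ^ k : ℕ) : ℂ)⁻¹ * ∑ l ∈ Finset.range (2 ^ k), g l * (g' l + g' (2 ^ k - l)) := by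
  have hne := two_pow_ne_zero k
  set N := 2 ^ k with hN
  have hNpos : 0 < N := by positivity
  have h1 : ∀ i, ((N : ℕ) : ℂ)⁻¹ * (∑ l ∈ Finset.range N, g l * F i l) *
      (((N : ℕ) : ℂ)⁻¹ * ∑ l' ∈ Finset.range N, g' l' * F i l') =
      ((N : ℕ) : ℂ)⁻¹ * ((N : ℕ) : ℂ)⁻¹ * ∑ l ∈ Finset.range N, g l *
        ∑ l' ∈ Finset.range N, g' l' * (F i l' * F i l) := by
    intro i
    rw [mul_mul_mul_comm, Finset.sum_mul_sum]
    congr 1
    refine Finset.sum_congr rfl fun l _ => ?_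
    rw [Finset.mul_sum]
    refine Finset.sum_congr rfl fun l' _ => ?_
    ring
  simp only [h1]
  rw [← Finset.mul_sum, Finset.sum_comm]
  simp only [← Finset.mul_sum]
  have h2 : ∀ l ∈ Finset.range N, g l * ∑ i ∈ S, ∑ l' ∈ Finset.range N, g' l' * (F i l' * F i l) =
      ((N : ℕ) : ℂ) * (g l * (g' l + g' (N - l))) := by
    intro l hl
    rcases Nat.eq_zero_or_pos l with rfl | hp
    · simp [hg]
    · by_cases e : l = 2 ^ (k - 1)
      · rw [e, hgN]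
        simp
      · rw [Finset.sum_comm]
        simp only [← Finset.mul_sum]
        rw [h.sum_g g' hg' hgN' hp (Finset.mem_range.mp hl) e]
        ring
  rw [Finset.sum_congr rfl h2, ← Finset.mul_sum, ← mul_assoc, mul_assoc _ _ ((N : ℕ) : ℂ),
    inv_mul_cancel₀ hne, mul_one]

omit h in
lemma qc_sub (κ κ' : ℕ) (M : ℕ) (i : ι) :
    qc F ζ M κ i - qc F ζ M κ' i = (M : ℂ)⁻¹ * ∑ l ∈ Finset.range M, (ζ ^ (κ * l) - ζ ^ (κ' * l)) * F i l := by
  unfold qc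
  rw [← mul_sub, ← Finset.sum_sub_distrib]
  congr 1
  refine Finset.sum_congr rfl fun l _ => ?_
  ring

/-- **The Gram matrix.** -/
theorem gram {κ₁ κ₂ κ₃ κ₄ : ℕ} (h3 : κ₃ ≤ 2 ^ k) (h4 : κ₄ ≤ 2 ^ k)
    (h12 : ζ ^ (κ₁ * 2 ^ (k - 1)) = ζ ^ (κ₂ * 2 ^ (k - 1))) (h34 : ζ ^ (κ₃ * 2 ^ (k - 1)) = ζ ^ (κ₄ * 2 ^ (k - 1))) :
    ∑ i ∈ S, (qc F ζ (2 ^ k) κ₁ i - qc F ζ (2 ^ k) κ₂ i) * (qc F ζ (2 ^ k) κ₃ i - qc F ζ (2 ^ k) κ₄ i) =
      RR (2 ^ k) κ₁ κ₃ - RR (2 ^ k) κ₁ κ₄ - RR (2 ^ k) κ₂ κ₃ + RR (2 ^ k) κ₂ κ₄ := by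
  simp only [qc_sub]
  rw [h.sum_gg (fun l => ζ ^ (κ₁ * l) - ζ ^ (κ₂ * l)) (fun l => ζ ^ (κ₃ * l) - ζ ^ (κ₄ * l)) (by simp) (by simp [h12])
    (by simp) (by simp [h34])]
  have hne := two_pow_ne_zero k
  have hζ := h.hζ
  set N := 2 ^ k with hN
  have hNpos : 0 < N := by positivity
  have hexp : ∀ l ∈ Finset.range N, (ζ ^ (κ₁ * l) - ζ ^ (κ₂ * l)) *
      ((ζ ^ (κ₃ * l) - ζ ^ (κ₄ * l)) + (ζ ^ (κ₃ * (N - l)) - ζ ^ (κ₄ * (N - l)))) =
      ζ ^ ((κ₁ + κ₃) * l) - ζ ^ ((κ₁ + κ₄) * l) + ζ ^ ((κ₁ + (N - κ₃)) * l) - ζ ^ ((κ₁ + (N - κ₄)) * l)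
      - ζ ^ ((κ₂ + κ₃) * l) + ζ ^ ((κ₂ + κ₄) * l) - ζ ^ ((κ₂ + (N - κ₃)) * l) + ζ ^ ((κ₂ + (N - κ₄)) * l) := by
    intro l hl
    have hl' := (Finset.mem_range.mp hl).le
    rw [pow_flip_eq hζ hNpos h3 hl', pow_flip_eq hζ hNpos h4 hl']
    simp only [add_mul, pow_add]
    ring
  rw [Finset.sum_congr rfl hexp]
  simp only [Finset.sum_add_distrib, Finset.sum_sub_distrib, geom_mul hζ]
  have hif : ∀ t : ℕ, (if N ∣ t then (N : ℂ) else 0) = (N : ℂ) * dv N t := by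
    intro t
    unfold dv
    split_ifs <;> simp
  simp only [hif, RR]
  field_simp
  ring

/-- Fourier inversion. -/
theorem inv_eq {l : ℕ} (h0 : 0 < l) (hl : l < 2 ^ k) (i : ι) :
    F i l = ∑ κ ∈ Finset.range (2 ^ k), ζ ^ (κ * l) * qc F ζ (2 ^ k) κ i := by
  have hne := two_pow_ne_zero k
  have hζ := h.hζ
  have hflip := @h.flip
  set N := 2 ^ k with hN
  unfold qc
  have h1 : ∀ κ, ζ ^ (κ * l) * (((N : ℕ) : ℂ)⁻¹ * ∑ l' ∈ Finset.range N, ζ ^ (κ * l') * F i l') =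
      ((N : ℕ) : ℂ)⁻¹ * ∑ l' ∈ Finset.range N, ζ ^ ((l + l') * κ) * F i l' := by
    intro κ
    rw [mul_left_comm, Finset.mul_sum]
    congr 1
    refine Finset.sum_congr rfl fun l' _ => ?_
    rw [add_mul, pow_add, mul_comm l κ, mul_comm l' κ]
    ring
  simp only [h1]
  rw [← Finset.mul_sum, Finset.sum_comm]
  simp only [← Finset.sum_mul]
  have h2 : ∀ l' ∈ Finset.range N, (∑ κ ∈ Finset.range N, ζ ^ ((l + l') * κ)) * F i l' =
      if l' = N - l then ((N : ℕ) : ℂ) * F i l else 0 := by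
    intro l' hl'
    have hl'' := Finset.mem_range.mp hl'
    rw [geom_mul hζ]
    by_cases e : l' = N - l
    · rw [if_pos e, if_pos (by rw [e, Nat.add_sub_cancel' hl.le]), e]
      rw [hflip h0 hl i]
    · rw [if_neg e, if_neg, zero_mul]
      intro hd
      obtain ⟨c, hc⟩ := hd
      have hc1 : c = 1 := by
        rcases c with _ | _ | c
        · omega
        · rfl
        · exfalso
          have : N * (c + 1 + 1) = N * c + 2 * N := by ring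
          rw [this] at hc
          have : 0 ≤ N * c := Nat.zero_le _
          omega
      rw [hc1] at hc
      omega
  rw [Finset.sum_congr rfl h2, Finset.sum_ite_eq' (Finset.range N) (N - l), if_pos (Finset.mem_range.mpr (by omega)),
    ← mul_assoc, inv_mul_cancel₀ hne, one_mul]

/-- Symmetry of the multiplicities. -/
theorem qc_flip {κ : ℕ} (hκ : κ ≤ 2 ^ k) (i : ι) :
    qc F ζ (2 ^ k) (2 ^ k - κ) i = qc F ζ (2 ^ k) κ i := by
  unfold qc
  congr 1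
  have hζ := h.hζ
  have hNpos : 0 < 2 ^ k := by positivity
  obtain ⟨K, hK⟩ : ∃ K, 2 ^ k = K + 1 := ⟨2 ^ k - 1, by omega⟩
  have h1 : ∑ l ∈ Finset.range (K + 1), (ζ ^ ((2 ^ k - κ) * l) - 1) * F i l =
      ∑ l ∈ Finset.range (K + 1), (ζ ^ (κ * l) - 1) * F i l := by
    apply sum_flip K
    · simp
    · simp
    · intro l h0 hl
      have hl' : l < 2 ^ k := by omega
      rw [← hK, h.flip h0 hl', pow_flip_eq hζ hNpos (by omega : 2 ^ k - κ ≤ 2 ^ k) hl'.le,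
        Nat.sub_sub_self hκ]
  have h2 : ∀ a : ℕ, ∑ l ∈ Finset.range (K + 1), ζ ^ (a * l) * F i l =
      ∑ l ∈ Finset.range (K + 1), (ζ ^ (a * l) - 1) * F i l + ∑ l ∈ Finset.range (K + 1), F i l := by
    intro a
    rw [← Finset.sum_add_distrib]
    refine Finset.sum_congr rfl fun l _ => ?_
    ring
  rw [hK, h2, h2, ← hK, ← hK, ← hK] at *
  rw [hK] at h1
  rw [h1]

/-- The column at the central involution. -/
theorem value_half (i : ι) :
    F i (2 ^ (k - 1)) = ∑ κ ∈ Finset.range (2 ^ k), (-1) ^ κ * qc F ζ (2 ^ k) κ i := by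
  have hmul := h.two_mul_half
  have hpos : 0 < 2 ^ (k - 1) := by positivity
  rw [h.inv_eq hpos (by omega) i]
  refine Finset.sum_congr rfl fun κ _ => ?_
  rw [mul_comm κ, pow_mul, pow_half (by have := h.hk; omega) h.hζ]

/-- The value at a rotation when the multiplicities only depend on the parity. -/
theorem value_const {l : ℕ} (h0 : 0 < l) (hl : l < 2 ^ k) (he : l ≠ 2 ^ (k - 1)) (i : ι) {E O : ℂ}
    (hc : ∀ κ ∈ Finset.range (2 ^ (k - 1)), qc F ζ (2 ^ k) (2 * κ) i = E ∧ qc F ζ (2 ^ k) (2 * κ + 1) i = O) :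
    F i l = 0 := by
  have hmul := h.two_mul_half
  have hζ := h.hζ
  rw [h.inv_eq h0 hl i]
  have hsplit : ∀ (m : ℕ) (f : ℕ → ℂ), ∑ κ ∈ Finset.range (2 * m), f κ =
      ∑ κ ∈ Finset.range m, (f (2 * κ) + f (2 * κ + 1)) := by
    intro m f
    induction m with
    | zero => simp
    | succ m ih =>
      rw [show 2 * (m + 1) = 2 * m + 1 + 1 by ring, Finset.sum_range_succ, Finset.sum_range_succ, ih,
        Finset.sum_range_succ, add_assoc]
  rw [hmul, hsplit]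
  have h1 : ∀ κ ∈ Finset.range (2 ^ (k - 1)), ζ ^ (2 * κ * l) * qc F ζ (2 * 2 ^ (k - 1)) (2 * κ) i +
      ζ ^ ((2 * κ + 1) * l) * qc F ζ (2 * 2 ^ (k - 1)) (2 * κ + 1) i =
      (E + ζ ^ l * O) * (ζ ^ (2 * l)) ^ κ := by
    intro κ hκ
    obtain ⟨e1, e2⟩ := hc κ hκ
    rw [hmul] at e1 e2
    rw [e1, e2, add_mul, one_mul, pow_add]
    have e3 : ζ ^ (2 * κ * l) = (ζ ^ (2 * l)) ^ κ := by
      rw [← pow_mul]
      congr 1
      ring
    rw [e3]
    ring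
  rw [Finset.sum_congr rfl h1, ← Finset.mul_sum]
  apply mul_eq_zero_of_right
  have hne : ζ ^ (2 * l) ≠ 1 := by
    intro h2
    have h3 := (hζ.pow_eq_one_iff_dvd _).mp h2
    rw [hmul] at h3
    have h4 : 2 ^ (k - 1) ∣ l := Nat.dvd_of_mul_dvd_mul_left (by norm_num) h3
    obtain ⟨c, rfl⟩ := h4
    have hc' : c = 1 := by
      rcases c with _ | _ | c
      · omega
      · rfl
      · exfalso
        have : 2 ^ (k - 1) * (c + 1 + 1) = 2 ^ (k - 1) * c + 2 * 2 ^ (k - 1) := by ring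
        rw [this] at hl
        have : 0 ≤ 2 ^ (k - 1) * c := Nat.zero_le _
        omega
    apply he
    rw [hc', mul_one]
  have h5 : (ζ ^ (2 * l) - 1) * ∑ κ ∈ Finset.range (2 ^ (k - 1)), (ζ ^ (2 * l)) ^ κ = (ζ ^ (2 * l)) ^ (2 ^ (k - 1)) - 1 :=
    mul_geom_sum _ _
  have h6 : (ζ ^ (2 * l)) ^ (2 ^ (k - 1)) = 1 := by
    rw [← pow_mul, show 2 * l * 2 ^ (k - 1) = 2 * 2 ^ (k - 1) * l by ring, ← hmul, pow_mul, hζ.pow_eq_one, one_pow]
  rw [h6, sub_self] at h5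
  exact (mul_eq_zero.mp h5).resolve_left (sub_ne_zero.mpr hne)

/-- Characters with `z` acting as a sign have multiplicities of one parity only. -/
theorem qc_even_zero {i : ι} (hF : ∀ l < 2 ^ (k - 1), F i (2 ^ (k - 1) + l) = - F i l) (κ : ℕ) :
    qc F ζ (2 ^ k) (2 * κ) i = 0 := by
  have hmul := h.two_mul_half
  have hζ := h.hζ
  have hh := pow_half (by have := h.hk; omega) hζ
  unfold qc
  apply mul_eq_zero_of_right
  rw [hmul, two_mul (2 ^ (k - 1)), Finset.sum_range_add, ← Finset.sum_add_distrib]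
  refine Finset.sum_eq_zero fun l hl => ?_
  rw [hF l (Finset.mem_range.mp hl), mul_add, pow_add]
  have h1 : ζ ^ (2 * κ * 2 ^ (k - 1)) = 1 := by
    rw [show 2 * κ * 2 ^ (k - 1) = 2 * 2 ^ (k - 1) * κ by ring, ← hmul, pow_mul, hζ.pow_eq_one, one_pow]
  rw [h1]
  ring

/-- Characters with `z` in the kernel have multiplicities of even exponent only. -/
theorem qc_odd_zero {i : ι} (hF : ∀ l < 2 ^ (k - 1), F i (2 ^ (k - 1) + l) = F i l) (κ : ℕ) :
    qc F ζ (2 ^ k) (2 * κ + 1) i = 0 := by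
  have hmul := h.two_mul_half
  have hζ := h.hζ
  have hh := pow_half (by have := h.hk; omega) hζ
  unfold qc
  apply mul_eq_zero_of_right
  rw [hmul, two_mul (2 ^ (k - 1)), Finset.sum_range_add, ← Finset.sum_add_distrib]
  refine Finset.sum_eq_zero fun l hl => ?_
  rw [hF l (Finset.mem_range.mp hl), mul_add, pow_add]
  have h1 : ζ ^ ((2 * κ + 1) * 2 ^ (k - 1)) = -1 := by
    rw [show (2 * κ + 1) * 2 ^ (k - 1) = 2 * 2 ^ (k - 1) * κ + 2 ^ (k - 1) by ring, pow_add, ← hmul, pow_mul,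
      hζ.pow_eq_one, one_pow, one_mul, hh]
  rw [h1]
  ring

omit h in
/-- Linear relations pass to the differences of multiplicities. -/
theorem sum_dc_eq_zero {M N : ℕ} (δ : ι → ℂ) (H : ∀ l, 0 < l → l < M → l ≠ N → ∑ i ∈ S, δ i * F i l = 0) {κ κ' : ℕ}
    (hp : ζ ^ (κ * N) = ζ ^ (κ' * N)) :
    ∑ i ∈ S, δ i * (qc F ζ M κ i - qc F ζ M κ' i) = 0 := by
  simp only [qc_sub]
  have h1 : ∀ i, δ i * ((M : ℂ)⁻¹ * ∑ l ∈ Finset.range M, (ζ ^ (κ * l) - ζ ^ (κ' * l)) * F i l) =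
      (M : ℂ)⁻¹ * ∑ l ∈ Finset.range M, (ζ ^ (κ * l) - ζ ^ (κ' * l)) * (δ i * F i l) := by
    intro i
    rw [mul_left_comm, Finset.mul_sum]
    congr 1
    refine Finset.sum_congr rfl fun l _ => ?_
    ring
  simp only [h1]
  rw [← Finset.mul_sum, Finset.sum_comm]
  simp only [← Finset.mul_sum]
  apply mul_eq_zero_of_right
  refine Finset.sum_eq_zero fun l hl => ?_
  rcases Nat.eq_zero_or_pos l with rfl | hpos
  · simp
  · by_cases e : l = N
    · rw [e, hp]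
      simp
    · rw [H l hpos (Finset.mem_range.mp hl) e, mul_zero]

end FQ

/-- Splitting the alternating sum. -/
lemma sum_alt_split (f : ℕ → ℂ) (h : ℕ) :
    ∑ j ∈ Finset.range (2 * h + 1), (-1 : ℂ) ^ (j + 1) * f (j + 1) =
      ∑ j ∈ Finset.range h, f (2 * (j + 1)) - ∑ i ∈ Finset.range (h + 1), f (2 * i + 1) := by
  induction h with
  | zero => simp
  | succ h ih =>
    rw [show 2 * (h + 1) + 1 = 2 * h + 1 + 1 + 1 by ring, Finset.sum_range_succ, Finset.sum_range_succ, ih,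
      Finset.sum_range_succ (fun j => f (2 * (j + 1))), Finset.sum_range_succ (fun i => f (2 * i + 1)) (h + 1)]
    have e1 : (-1 : ℂ) ^ (2 * h + 1 + 1) = 1 := by
      rw [show 2 * h + 1 + 1 = 2 * (h + 1) by ring, pow_mul]
      norm_num
    have e2 : (-1 : ℂ) ^ (2 * h + 1 + 1 + 1) = -1 := by
      rw [pow_succ, e1]
      norm_num
    rw [e1, e2, show 2 * h + 1 + 1 = 2 * (h + 1) by ring, show 2 * (h + 1) + 1 = 2 * (h + 1) + 1 by rfl]
    ring

/-- The alternating sum of a symmetric function. -/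
lemma sum_neg_one_pow {c : ℕ → ℂ} {h : ℕ} (hf : ∀ κ ≤ 4 * (h + 1), c (4 * (h + 1) - κ) = c κ) :
    ∑ κ ∈ Finset.range (4 * (h + 1)), (-1) ^ κ * c κ =
      c 0 + c (2 * (h + 1)) + 2 * (∑ j ∈ Finset.range h, c (2 * (j + 1)) - ∑ i ∈ Finset.range (h + 1), c (2 * i + 1)) := by
  have h1 : 4 * (h + 1) = 2 * ((2 * h + 1) + 1) := by ring
  rw [h1, sum_split_range (2 * h + 1) (fun κ => (-1) ^ κ * c κ)]
  have h2 := sum_alt_split c h
  have h3 : ∀ i ∈ Finset.range (2 * h + 1), (-1 : ℂ) ^ (i + 1) * c (i + 1) +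
      (-1) ^ (2 * (2 * h + 1 + 1) - (i + 1)) * c (2 * (2 * h + 1 + 1) - (i + 1)) =
      2 * ((-1) ^ (i + 1) * c (i + 1)) := by
    intro i hi
    have hi' := Finset.mem_range.mp hi
    have e1 : c (2 * (2 * h + 1 + 1) - (i + 1)) = c (i + 1) := by
      have := hf (i + 1) (by omega)
      rwa [← h1] 
    have e2 : (-1 : ℂ) ^ (2 * (2 * h + 1 + 1) - (i + 1)) = (-1) ^ (i + 1) := by
      have e3 : (-1 : ℂ) ^ (2 * (2 * h + 1 + 1) - (i + 1)) * (-1) ^ (i + 1) = 1 := by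
        rw [← pow_add, Nat.sub_add_cancel (by omega), pow_mul]
        norm_num
      have e4 : (-1 : ℂ) ^ (i + 1) * (-1) ^ (i + 1) = 1 := by
        rw [← mul_pow]
        norm_num
      exact mul_right_cancel₀ (pow_ne_zero _ (by norm_num)) (e3.trans e4.symm)
    rw [e1, e2]
    ring
  rw [Finset.sum_congr rfl h3, ← Finset.mul_sum, h2]
  have e5 : (-1 : ℂ) ^ (2 * h + 1 + 1) = 1 := by
    rw [show 2 * h + 1 + 1 = 2 * (h + 1) by ring, pow_mul]
    norm_num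
  simp only [pow_zero, one_mul, e5]
  rw [show 2 * h + 1 + 1 = 2 * (h + 1) by ring]
  ring

end Cfsg.Agent.Lib.Blocks.Quat
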