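/-
Tame blocks: the integral lattice of the columns.
-/
import Mathlib

set_option autoImplicit false
set_option linter.style.haveILetI false

namespace Cfsg.Agent.Lib.Blocks.Tame

section Lat

variable {ι : Type*} [DecidableEq ι]

lemma odd_sq_mod_eight {a : ℤ} (h : Odd a) : a ^ 2 % 8 = 1 := by
  obtain ⟨k, rfl⟩ := h
  have h1 : Even (k * (k + 1)) := Int.even_mul_succ_self k
  obtain ⟨r, hr⟩ := h1
  have : (2 * k + 1) ^ 2 = 4 * (k * (k + 1)) + 1 := by ring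
  rw [this, hr]
  omega

lemma even_sq_mod_four {a : ℤ} (h : ¬ Odd a) : a ^ 2 % 4 = 0 := by
  obtain ⟨k, rfl⟩ := Int.not_odd_iff_even.mp h
  have : (k + k) ^ 2 = 4 * (k * k) := by ring
  rw [this]
  omega

/-- **The odd coordinates.** -/
theorem card_odd {S : Finset ι} {v w : ι → ℤ} {N : ℕ} (hvv : ∑ χ ∈ S, v χ ^ 2 = 4)
    (hwv : ∀ χ ∈ S, Even (w χ - v χ)) (hww : ∑ χ ∈ S, w χ ^ 2 = 4 * N) (hodd : ∃ χ ∈ S, Odd (w χ)) :
    (S.filter (fun χ => Odd (w χ))).card = 4 ∧ (∀ χ ∈ S, Odd (w χ) → v χ ^ 2 = 1) ∧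
      (∀ χ ∈ S, ¬ Odd (w χ) → v χ = 0) := by
  classical
  set Y := S.filter (fun χ => Odd (w χ)) with hY
  have hq : ∀ χ, ∃ q : ℤ, w χ ^ 2 = (if Odd (w χ) then 1 else 0) + 4 * q := by
    intro χ
    by_cases h : Odd (w χ)
    · rw [if_pos h]
      have := odd_sq_mod_eight h
      exact ⟨(w χ ^ 2 - 1) / 4, by omega⟩
    · rw [if_neg h]
      have := even_sq_mod_four h
      exact ⟨w χ ^ 2 / 4, by omega⟩
  choose q hq using hq
  have hsum : (4 : ℤ) * N = (Y.card : ℤ) + 4 * ∑ χ ∈ S, q χ := by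
    rw [← hww, Finset.sum_congr rfl (fun χ _ => hq χ), Finset.sum_add_distrib, ← Finset.mul_sum]
    congr 1
    rw [hY, Finset.card_filter]
    push_cast
    rfl
  have hodd' : ∀ χ ∈ Y, Odd (v χ) := by
    intro χ hχ
    obtain ⟨hχS, hχo⟩ := Finset.mem_filter.mp hχ
    have h1 := hwv χ hχS
    by_contra h2
    have h3 : Even (v χ) := Int.not_odd_iff_even.mp h2
    have h4 : Even (w χ) := by
      have := h1.add h3
      simpa using this
    exact (Int.not_odd_iff_even.mpr h4) hχo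
  have hge : ∀ χ ∈ Y, 1 ≤ v χ ^ 2 := by
    intro χ hχ
    have h1 := odd_sq_mod_eight (hodd' χ hχ)
    have h2 := sq_nonneg (v χ)
    omega
  have hYS : Y ⊆ S := Finset.filter_subset _ _
  have hsplit : ∑ χ ∈ Y, v χ ^ 2 + ∑ χ ∈ S \ Y, v χ ^ 2 = 4 := by
    rw [add_comm, Finset.sum_sdiff hYS, hvv]
  have hle : (Y.card : ℤ) ≤ ∑ χ ∈ Y, v χ ^ 2 := by
    have : ∑ χ ∈ Y, (1 : ℤ) ≤ ∑ χ ∈ Y, v χ ^ 2 := Finset.sum_le_sum hge
    simpa using this
  have hoff : 0 ≤ ∑ χ ∈ S \ Y, v χ ^ 2 := Finset.sum_nonneg fun χ _ => sq_nonneg _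
  have hcard : Y.card = 4 := by
    obtain ⟨χ, hχ, hχo⟩ := hodd
    have hpos : 0 < Y.card := Finset.card_pos.mpr ⟨χ, Finset.mem_filter.mpr ⟨hχ, hχo⟩⟩
    have h5 : (Y.card : ℤ) ≤ 4 := by linarith
    have h6 : (Y.card : ℤ) % 4 = 0 := by omega
    omega
  refine ⟨hcard, ?_, ?_⟩
  · intro χ hχ hχo
    have hmem : χ ∈ Y := Finset.mem_filter.mpr ⟨hχ, hχo⟩
    have h1 : ∑ χ ∈ Y, (v χ ^ 2 - 1) = 0 := by
      have h2 : ∑ χ ∈ Y, (v χ ^ 2 - 1) = ∑ χ ∈ Y, v χ ^ 2 - Y.card := by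
        rw [Finset.sum_sub_distrib]
        simp
      rw [h2]
      have h3 : (Y.card : ℤ) = 4 := by exact_mod_cast hcard
      rw [h3] at hle ⊢
      linarith
    have h2 := (Finset.sum_eq_zero_iff_of_nonneg (fun χ hχ => by
      have := hge χ hχ
      linarith)).mp h1 χ hmem
    linarith
  · intro χ hχ hχo
    have hmem : χ ∈ S \ Y := Finset.mem_sdiff.mpr ⟨hχ, fun h => hχo (Finset.mem_filter.mp h).2⟩
    have h3 : (Y.card : ℤ) = 4 := by exact_mod_cast hcard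
    rw [h3] at hle
    have h1 : ∑ χ ∈ S \ Y, v χ ^ 2 = 0 := by linarith
    have h2 := (Finset.sum_eq_zero_iff_of_nonneg (fun χ _ => sq_nonneg (v χ))).mp h1 χ hmem
    exact pow_eq_zero_iff (by norm_num) |>.mp h2

/-- **The upper bound.** -/
theorem card_le_of_norm {S : Finset ι} {w : ι → ℤ} {N : ℕ} (hww : ∑ χ ∈ S, w χ ^ 2 = 4 * N)
    (hne : ∀ χ ∈ S, w χ ≠ 0) (hY : (S.filter (fun χ => Odd (w χ))).card = 4) :
    S.card ≤ N + 3 ∧ (S.card = N + 3 → (∀ χ ∈ S, Odd (w χ) → w χ ^ 2 = 1) ∧ (∀ χ ∈ S, ¬ Odd (w χ) → w χ ^ 2 = 4)) := by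
  classical
  set Y := S.filter (fun χ => Odd (w χ)) with hYdef
  have hYS : Y ⊆ S := Finset.filter_subset _ _
  have hsplit : ∑ χ ∈ Y, w χ ^ 2 + ∑ χ ∈ S \ Y, w χ ^ 2 = 4 * N := by
    rw [add_comm, Finset.sum_sdiff hYS, hww]
  have hcard : (S \ Y).card + 4 = S.card := by
    rw [Finset.card_sdiff_of_subset hYS, hY]
    have := Finset.card_le_card hYS
    omega
  have h1 : ∀ χ ∈ Y, 1 ≤ w χ ^ 2 := by
    intro χ hχ
    have h2 := odd_sq_mod_eight (Finset.mem_filter.mp hχ).2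
    have h3 := sq_nonneg (w χ)
    omega
  have h2 : ∀ χ ∈ S \ Y, 4 ≤ w χ ^ 2 := by
    intro χ hχ
    obtain ⟨hχS, hχY⟩ := Finset.mem_sdiff.mp hχ
    have hχo : ¬ Odd (w χ) := fun h => hχY (Finset.mem_filter.mpr ⟨hχS, h⟩)
    have h3 := even_sq_mod_four hχo
    have h4 := hne χ hχS
    have h5 : w χ ^ 2 ≠ 0 := pow_ne_zero _ h4
    have h6 := sq_nonneg (w χ)
    omega
  have h3 : ∑ χ ∈ Y, (1 : ℤ) ≤ ∑ χ ∈ Y, w χ ^ 2 := Finset.sum_le_sum h1
  have h4 : ∑ χ ∈ S \ Y, (4 : ℤ) ≤ ∑ χ ∈ S \ Y, w χ ^ 2 := Finset.sum_le_sum h2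
  simp only [Finset.sum_const, nsmul_eq_mul, mul_one, hY] at h3 h4
  have hcz : ((S \ Y).card : ℤ) + 4 = S.card := by exact_mod_cast hcard
  push_cast at h3
  refine ⟨?_, fun hS => ⟨?_, ?_⟩⟩
  · have : (S.card : ℤ) ≤ N + 3 := by nlinarith
    exact_mod_cast this
  · intro χ hχ hχo
    have hmem : χ ∈ Y := Finset.mem_filter.mpr ⟨hχ, hχo⟩
    have hS' : (S.card : ℤ) = N + 3 := by exact_mod_cast hS
    have h5 : ∑ χ ∈ Y, (w χ ^ 2 - 1) = 0 := by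
      have h6 : ∑ χ ∈ Y, (w χ ^ 2 - 1) = ∑ χ ∈ Y, w χ ^ 2 - Y.card := by
        rw [Finset.sum_sub_distrib]
        simp
      rw [h6, hY]
      push_cast
      nlinarith
    have h6 := (Finset.sum_eq_zero_iff_of_nonneg (fun χ hχ => by
      have := h1 χ hχ
      linarith)).mp h5 χ hmem
    linarith
  · intro χ hχ hχo
    have hmem : χ ∈ S \ Y := Finset.mem_sdiff.mpr ⟨hχ, fun h => hχo (Finset.mem_filter.mp h).2⟩
    have hS' : (S.card : ℤ) = N + 3 := by exact_mod_cast hS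
    have h5 : ∑ χ ∈ S \ Y, (w χ ^ 2 - 4) = 0 := by
      have h6 : ∑ χ ∈ S \ Y, (w χ ^ 2 - 4) = ∑ χ ∈ S \ Y, w χ ^ 2 - (S \ Y).card * 4 := by
        rw [Finset.sum_sub_distrib]
        simp
      rw [h6]
      nlinarith
    have h6 := (Finset.sum_eq_zero_iff_of_nonneg (fun χ hχ => by
      have := h2 χ hχ
      linarith)).mp h5 χ hmem
    linarith

/-- A norm `8` column cannot be supported on four odd coordinates. -/
theorem card_ne_four {S : Finset ι} {w : ι → ℤ} (hww : ∑ χ ∈ S, w χ ^ 2 = 8)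
    (hY : (S.filter (fun χ => Odd (w χ))).card = 4) : S.card ≠ 4 := by
  classical
  intro hS
  have hYS : S.filter (fun χ => Odd (w χ)) = S :=
    Finset.eq_of_subset_of_card_le (Finset.filter_subset _ _) (by rw [hY, hS])
  have hall : ∀ χ ∈ S, Odd (w χ) := fun χ hχ => by
    rw [← hYS] at hχ
    exact (Finset.mem_filter.mp hχ).2
  have hq : ∀ χ, ∃ q : ℤ, χ ∈ S → w χ ^ 2 = 1 + 8 * q := by
    intro χ
    by_cases h : χ ∈ S
    · have := odd_sq_mod_eight (hall χ h)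
      exact ⟨(w χ ^ 2 - 1) / 8, fun _ => by omega⟩
    · exact ⟨0, fun h' => absurd h' h⟩
  choose q hq using hq
  have h1 : ∑ χ ∈ S, w χ ^ 2 = 4 + 8 * ∑ χ ∈ S, q χ := by
    rw [Finset.sum_congr rfl (fun χ hχ => hq χ hχ), Finset.sum_add_distrib, ← Finset.mul_sum]
    simp [hS]
  omega

end Lat

end Cfsg.Agent.Lib.Blocks.Tame
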