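/-
Tame blocks: the integral lattice of the columns, the standard form.
-/
import Mathlib
import Cfsg.Agent.Lib.Blocks.TameE

set_option autoImplicit false
set_option linter.style.haveILetI false

namespace Cfsg.Agent.Lib.Blocks.Tame

section Final

variable {ι : Type*} [DecidableEq ι]

open Classical in
lemma sum_split {α : Type*} [AddCommMonoid α] {M : ℕ} {S : Finset ι} {f : Fin M → ι} (hinj : Function.Injective f)
    (hfS : ∀ t, f t ∈ S) (g : ι → α) :
    ∑ χ ∈ S, g χ = ∑ t, g (f t) + ∑ χ ∈ S.filter (· ∉ Set.range f), g χ := by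
  rw [← Finset.sum_filter_add_sum_filter_not S (· ∈ Set.range f) g]
  congr 1
  have h1 : S.filter (· ∈ Set.range f) = Finset.univ.image f := by
    ext χ
    simp only [Finset.mem_filter, Finset.mem_image, Finset.mem_univ, true_and, Set.mem_range]
    constructor
    · rintro ⟨-, h⟩
      exact h
    · rintro ⟨t, rfl⟩
      exact ⟨hfS t, t, rfl⟩
  rw [h1, Finset.sum_image (fun a _ b _ h => hinj h)]

lemma int_sq_le_three {u : ℤ} (h : u ^ 2 ≤ 3) : u = 0 ∨ u = 1 ∨ u = -1 := by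
  have h1 : u ≤ 1 := by nlinarith
  have h2 : -1 ≤ u := by nlinarith
  omega

lemma int_eq_of_sq_eq_one {u : ℤ} (h : u ^ 2 = 1) : u = 1 ∨ u = -1 := by
  rcases int_sq_le_three (by omega : u ^ 2 ≤ 3) with h1 | h1 | h1
  · rw [h1] at h
    norm_num at h
  · exact Or.inl h1
  · exact Or.inr h1

lemma int_sq_small {e : ℤ} (h : 3 * e ^ 2 - 2 * e - 2 ≤ 0) : e = 0 ∨ e = 1 := by
  have h4 : e ≤ 1 := by nlinarith
  have h5 : 0 ≤ e := by nlinarith
  omega

lemma exists_of_sum_sq_one {U : Finset ι} {u : ι → ℤ} (h : ∑ χ ∈ U, u χ ^ 2 = 1) :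
    ∃ q ∈ U, u q ^ 2 = 1 ∧ ∀ χ ∈ U, χ ≠ q → u χ = 0 := by
  classical
  have hex : ∃ q ∈ U, u q ≠ 0 := by
    by_contra hc
    push Not at hc
    have : ∑ χ ∈ U, u χ ^ 2 = 0 := Finset.sum_eq_zero fun χ hχ => by rw [hc χ hχ]; simp
    omega
  obtain ⟨q, hq, hq0⟩ := hex
  have h1 : u q ^ 2 + ∑ χ ∈ U.erase q, u χ ^ 2 = 1 := by
    rw [Finset.add_sum_erase U (fun χ => u χ ^ 2) hq, h]
  have h2 : 0 ≤ ∑ χ ∈ U.erase q, u χ ^ 2 := Finset.sum_nonneg fun χ _ => sq_nonneg _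
  have h3 : 1 ≤ u q ^ 2 := by
    have h4 := sq_nonneg (u q)
    have h5 : u q ^ 2 ≠ 0 := pow_ne_zero _ hq0
    omega
  refine ⟨q, hq, by omega, fun χ hχ hne => ?_⟩
  have h4 : ∑ χ ∈ U.erase q, u χ ^ 2 = 0 := by omega
  have h5 := (Finset.sum_eq_zero_iff_of_nonneg (fun χ _ => sq_nonneg (u χ))).mp h4 χ
    (Finset.mem_erase.mpr ⟨hne, hχ⟩)
  exact pow_eq_zero_iff (by norm_num) |>.mp h5

lemma exists_of_sum_sq_two {U : Finset ι} {u : ι → ℤ} (h : ∑ χ ∈ U, u χ ^ 2 = 2) :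
    ∃ p₁ ∈ U, ∃ p₂ ∈ U, p₁ ≠ p₂ ∧ u p₁ ^ 2 = 1 ∧ u p₂ ^ 2 = 1 ∧ ∀ χ ∈ U, χ ≠ p₁ → χ ≠ p₂ → u χ = 0 := by
  classical
  have hex : ∃ q ∈ U, u q ≠ 0 := by
    by_contra hc
    push Not at hc
    have : ∑ χ ∈ U, u χ ^ 2 = 0 := Finset.sum_eq_zero fun χ hχ => by rw [hc χ hχ]; simp
    omega
  obtain ⟨q, hq, hq0⟩ := hex
  have h1 : u q ^ 2 + ∑ χ ∈ U.erase q, u χ ^ 2 = 2 := by
    rw [Finset.add_sum_erase U (fun χ => u χ ^ 2) hq, h]
  have h2 : 0 ≤ ∑ χ ∈ U.erase q, u χ ^ 2 := Finset.sum_nonneg fun χ _ => sq_nonneg _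
  have h3 : 1 ≤ u q ^ 2 := by
    have h4 := sq_nonneg (u q)
    have h5 : u q ^ 2 ≠ 0 := pow_ne_zero _ hq0
    omega
  have h4 : u q ^ 2 = 1 := by
    have h5 : u q ^ 2 ≤ 3 := by omega
    rcases int_sq_le_three h5 with h7 | h7 | h7
    · exact absurd h7 hq0
    · rw [h7]; norm_num
    · rw [h7]; norm_num
  have h5 : ∑ χ ∈ U.erase q, u χ ^ 2 = 1 := by omega
  obtain ⟨p, hp, hp1, hp2⟩ := exists_of_sum_sq_one h5
  refine ⟨q, hq, p, Finset.mem_of_mem_erase hp, (Finset.ne_of_mem_erase hp).symm, h4, hp1, fun χ hχ h1 h2 => ?_⟩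
  exact hp2 χ (Finset.mem_erase.mpr ⟨h1, hχ⟩) h2

/-- The linear algebra of the exceptional case. -/
lemma alt_solve {ε d w' aq vq ap d0 d1 d2 dq dp w0 w1 w2 wq wp : ℤ} (hε : ε = 1 ∨ ε = -1) (hvq : vq = 1 ∨ vq = -1)
    (hap : ap = 1 ∨ ap = -1) (hc : d = 0 ∧ aq = vq ∧ ε * w' = -1 ∨ d = ε ∧ aq = 0 ∧ ε * w' = 1)
    (h0 : 0 < d0) (h1 : 0 < d1) (h2 : 0 < d2) (hq : 0 < dq) (hp : 0 < dp)
    (e0 : (d - ε * 1) * d0 + (d - ε * 0) * d1 + (d - ε * 0) * d2 + aq * dq + ap * dp = 0)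
    (e1 : (d - ε * 0) * d0 + (d - ε * 1) * d1 + (d - ε * 0) * d2 + aq * dq + ap * dp = 0)
    (e2 : (d - ε * 0) * d0 + (d - ε * 0) * d1 + (d - ε * 1) * d2 + aq * dq + ap * dp = 0)
    (e3 : w' * d0 + w' * d1 + w' * d2 + vq * dq + 0 * dp = 0)
    (f0 : w0 = w' + 2 * (-(d - ε * 1) + (d - ε * 0) - (d - ε * 0)))
    (f1 : w1 = w' + 2 * (-(d - ε * 0) + (d - ε * 1) - (d - ε * 0)))
    (f2 : w2 = w' + 2 * (-(d - ε * 0) + (d - ε * 0) - (d - ε * 1)))
    (f3 : wq = vq - 2 * aq) (f4 : wp = 0 - 2 * ap) :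
    w0 = ε ∧ w1 = -3 * ε ∧ w2 = ε ∧ wq = -ε ∧ wp = 2 * ε ∧ d1 = d0 ∧ d2 = d0 ∧ dq = 3 * d0 ∧ dp = 2 * d0 := by
  rcases hc with ⟨rfl, rfl, hw⟩ | ⟨rfl, rfl, hw⟩ <;> rcases hε with rfl | rfl <;> rcases hvq with rfl | rfl <;>
    rcases hap with rfl | rfl <;>
    (have hw' : w' = 1 ∨ w' = -1 := by omega
     rcases hw' with rfl | rfl <;> omega)

set_option maxHeartbeats 2000000 in
open Classical in
/-- **The case analysis of the lattice.** -/
theorem lattice_final {M : ℕ} (hM : M = 3 ∨ 7 ≤ M) (S : Finset ι) (n : ι → Fin M → ℤ) (v w deg : ι → ℤ) (d ε : ℤ)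
    (f : Fin M → ι) (a : ι → ℤ) (hinj : Function.Injective f) (hfS : ∀ t, f t ∈ S) (hε : ε = 1 ∨ ε = -1)
    (hstd : ∀ s t, n (f t) s = d - ε * if s = t then 1 else 0)
    (hoff : ∀ t, ∀ χ ∈ S, χ ∉ Set.range f → n χ t = a χ)
    (ha : ∑ χ ∈ S.filter (· ∉ Set.range f), a χ ^ 2 = 2 - (M : ℤ) * d ^ 2 + 2 * (d * ε))
    (hv : ∀ t, ∑ χ ∈ S, v χ * n χ t = 2) (hvv : ∑ χ ∈ S, v χ ^ 2 = 4)
    (hw : ∀ χ, w χ = v χ + 2 * ∑ j : Fin M, (-1) ^ (j.val + 1) * n χ j)
    (hne : ∀ χ ∈ S, w χ ≠ 0) (hY : (S.filter (fun χ => Odd (w χ))).card = 4)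
    (hdeg : ∀ χ ∈ S, 0 < deg χ) (hone : ∀ t, ∑ χ ∈ S, n χ t * deg χ = 0) (hvone : ∑ χ ∈ S, v χ * deg χ = 0) :
    M + 4 ≤ S.card ∨ (M = 3 ∧ S.card = 5 ∧ ∃ (ε' A : ℤ) (χ₁ χ₂ χ₃ χ₄ χ₅ : ι), (ε' = 1 ∨ ε' = -1) ∧ 0 < A ∧
      χ₁ ∈ S ∧ χ₂ ∈ S ∧ χ₃ ∈ S ∧ χ₄ ∈ S ∧ χ₅ ∈ S ∧
      (∀ {α : Type} [AddCommMonoid α] (g : ι → α), ∑ χ ∈ S, g χ = g χ₁ + g χ₂ + g χ₃ + g χ₄ + g χ₅) ∧
      w χ₁ = ε' ∧ w χ₂ = -3 * ε' ∧ w χ₃ = ε' ∧ w χ₄ = -ε' ∧ w χ₅ = 2 * ε' ∧
      deg χ₁ = A ∧ deg χ₂ = A ∧ deg χ₃ = A ∧ deg χ₄ = 3 * A ∧ deg χ₅ = 2 * A) := by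
  classical
  set off := S.filter (· ∉ Set.range f) with hoffdef
  have hs : ∀ {α : Type} [AddCommMonoid α] (g : ι → α), ∑ χ ∈ S, g χ = ∑ t, g (f t) + ∑ χ ∈ off, g χ :=
    fun g => sum_split hinj hfS g
  have hMpos : 0 < M := by omega
  have hcard : S.card = M + off.card := by
    have h1 := hs (fun _ => (1 : ℤ))
    simp only [Finset.sum_const, nsmul_eq_mul, mul_one, Finset.card_univ, Fintype.card_fin] at h1
    exact_mod_cast h1
  have hε2 : ε * ε = 1 := by rcases hε with rfl | rfl <;> norm_num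
  have hε0 : ε ≠ 0 := by rcases hε with rfl | rfl <;> norm_num
  -- `v` is constant on the range
  have hconst : ∀ s t, v (f s) = v (f t) := by
    intro s t
    have h1 : ∑ χ ∈ S, v χ * (n χ s - n χ t) = 0 := by
      simp only [mul_sub]
      rw [Finset.sum_sub_distrib, hv s, hv t, sub_self]
    rw [hs] at h1
    have h2 : ∑ χ ∈ off, v χ * (n χ s - n χ t) = 0 := by
      refine Finset.sum_eq_zero fun χ hχ => ?_
      obtain ⟨hχS, hχr⟩ := Finset.mem_filter.mp hχ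
      rw [hoff s χ hχS hχr, hoff t χ hχS hχr, sub_self, mul_zero]
    rw [h2, add_zero] at h1
    have h3 : ∀ r, v (f r) * (n (f r) s - n (f r) t) =
        ε * ((if t = r then v (f r) else 0) - (if s = r then v (f r) else 0)) := by
      intro r
      rw [hstd, hstd]
      by_cases h4 : s = r <;> by_cases h5 : t = r <;> simp only [h4, h5, if_true, if_false] <;> ring
    simp only [h3] at h1
    rw [← Finset.mul_sum, Finset.sum_sub_distrib, Finset.sum_ite_eq, Finset.sum_ite_eq] at h1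
    simp only [Finset.mem_univ, if_true] at h1
    have h4 := (mul_eq_zero.mp h1).resolve_left hε0
    linarith
  set t₀ : Fin M := ⟨0, hMpos⟩ with ht₀
  set w' := v (f t₀) with hw'
  have hvf : ∀ t, v (f t) = w' := fun t => hconst t t₀
  have hoffnn : 0 ≤ ∑ χ ∈ off, v χ ^ 2 := Finset.sum_nonneg fun χ _ => sq_nonneg _
  have hnorm : (M : ℤ) * w' ^ 2 + ∑ χ ∈ off, v χ ^ 2 = 4 := by
    rw [← hvv, hs (fun χ => v χ ^ 2)]
    congr 1
    simp [hvf]
  by_cases hw0 : w' = 0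
  · left
    have hsub : S.filter (fun χ => Odd (w χ)) ⊆ off := by
      intro χ hχ
      obtain ⟨hχS, hχo⟩ := Finset.mem_filter.mp hχ
      refine Finset.mem_filter.mpr ⟨hχS, ?_⟩
      rintro ⟨t, rfl⟩
      rw [hw, hvf, hw0, zero_add] at hχo
      exact (Int.not_odd_iff_even.mpr (even_two_mul _)) hχo
    have := Finset.card_le_card hsub
    omega
  · right
    have hw1 : 1 ≤ w' ^ 2 := by
      have h4 := sq_nonneg w'
      have h5 : w' ^ 2 ≠ 0 := pow_ne_zero _ hw0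
      omega
    have hMle : (M : ℤ) ≤ 4 := by
      have h4 : (M : ℤ) * 1 ≤ (M : ℤ) * w' ^ 2 := mul_le_mul_of_nonneg_left hw1 (by positivity)
      linarith
    have hM3 : M = 3 := by
      rcases hM with h | h
      · exact h
      · exfalso
        have : (7 : ℤ) ≤ M := by exact_mod_cast h
        linarith
    subst hM3
    push_cast at hnorm ha
    have hw2 : w' ^ 2 = 1 := by omega
    have hvoff : ∑ χ ∈ off, v χ ^ 2 = 1 := by omega
    obtain ⟨q, hq, hq1, hq2⟩ := exists_of_sum_sq_one hvoff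
    have hqS : q ∈ S := (Finset.mem_filter.mp hq).1
    -- the column outside the range
    have hwoff : ∀ χ ∈ off, w χ = v χ - 2 * a χ := by
      intro χ hχ
      obtain ⟨hχS, hχr⟩ := Finset.mem_filter.mp hχ
      rw [hw, Fin.sum_univ_three, hoff 0 χ hχS hχr, hoff 1 χ hχS hχr, hoff 2 χ hχS hχr]
      norm_num
      ring
    have hanonneg : 0 ≤ ∑ χ ∈ off, a χ ^ 2 := Finset.sum_nonneg fun χ _ => sq_nonneg _
    have haq : a q ^ 2 ≤ ∑ χ ∈ off, a χ ^ 2 :=
      Finset.single_le_sum (f := fun χ => a χ ^ 2) (fun χ _ => sq_nonneg _) hq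
    -- `d` is small
    have hdcase : d = 0 ∨ d = ε := by
      have h0 : 0 ≤ 2 - 3 * d ^ 2 + 2 * (d * ε) := by rw [← ha]; exact hanonneg
      have h1 : (d * ε) ^ 2 = d ^ 2 := by
        rw [mul_pow, sq ε, hε2, mul_one]
      have h2 : d * ε = 0 ∨ d * ε = 1 := by
        have h3 : 3 * (d * ε) ^ 2 - 2 * (d * ε) - 2 ≤ 0 := by rw [h1]; linarith
        exact int_sq_small h3
      rcases h2 with h2 | h2
      · left
        exact (mul_eq_zero.mp h2).resolve_right hε0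
      · right
        have : d * ε * ε = 1 * ε := by rw [h2]
        rw [mul_assoc, hε2, mul_one, one_mul] at this
        exact this
    -- the relation `v n = 2`
    have hrel : w' * (3 * d - ε) + v q * a q = 2 := by
      have h1 := hv 0
      rw [hs (fun χ => v χ * n χ 0), Fin.sum_univ_three] at h1
      have h2 : ∑ χ ∈ off, v χ * n χ 0 = v q * a q := by
        rw [Finset.sum_eq_single q]
        · rw [hoff 0 q hqS (Finset.mem_filter.mp hq).2]
        · intro χ hχ hne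
          rw [hq2 χ hχ hne, zero_mul]
        · intro h
          exact absurd hq h
      rw [h2, hvf, hvf, hvf, hstd, hstd, hstd] at h1
      simp only [if_true, Fin.isValue] at h1
      have h3 : (0 : Fin 3) ≠ 1 := by decide
      have h4 : (0 : Fin 3) ≠ 2 := by decide
      simp only [h3, h4, if_false] at h1
      linarith
    have hw'2 : w' = 1 ∨ w' = -1 := int_eq_of_sq_eq_one hw2
    have hvq2 : v q = 1 ∨ v q = -1 := int_eq_of_sq_eq_one hq1
    -- the structure outside the range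
    have hstruct : ∃ p ∈ off, p ≠ q ∧ (∀ χ ∈ off, χ = q ∨ χ = p) ∧ (a p = 1 ∨ a p = -1) ∧
        ((d = 0 ∧ a q = v q ∧ ε * w' = -1) ∨ (d = ε ∧ a q = 0 ∧ ε * w' = 1)) := by
      rcases hdcase with hd | hd
      · have ha2 : ∑ χ ∈ off, a χ ^ 2 = 2 := by rw [ha, hd]; ring
        obtain ⟨p₁, hp₁, p₂, hp₂, hp, h1, h2, h3⟩ := exists_of_sum_sq_two ha2
        rw [hd] at hrel
        have hraq : a q ^ 2 ≤ 2 := by rw [← ha2]; exact haq
        have haq' : a q = 0 ∨ a q = 1 ∨ a q = -1 := int_sq_le_three (by omega)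
        have hcase : ε * w' = -1 ∧ a q = v q := by
          rcases hε with rfl | rfl <;> rcases hw'2 with h5 | h5 <;> rcases hvq2 with h6 | h6 <;>
            rcases haq' with h7 | h7 | h7 <;> rw [h5] at hrel <;> rw [h6, h7] at hrel <;>
            first | (exfalso; omega) | (rw [h5, h6, h7]; norm_num)
        have hmem : ∀ χ ∈ off, a χ ≠ 0 → χ = p₁ ∨ χ = p₂ := by
          intro χ hχ h0
          by_contra hc
          push Not at hc
          exact h0 (h3 χ hχ hc.1 hc.2)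
        have hqa : a q ≠ 0 := by
          rw [hcase.2]
          rcases hvq2 with h | h <;> rw [h] <;> norm_num
        have hall : ∀ χ ∈ off, χ = q ∨ a χ ≠ 0 := by
          intro χ hχ
          by_contra hc
          push Not at hc
          have h4 := hne χ (Finset.mem_filter.mp hχ).1
          rw [hwoff χ hχ, hq2 χ hχ hc.1, hc.2] at h4
          exact h4 (by norm_num)
        have ha1 : ∀ p : ι, a p ^ 2 = 1 → a p = 1 ∨ a p = -1 := fun p hp => int_eq_of_sq_eq_one hp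
        rcases hmem q hq hqa with e | e
        · refine ⟨p₂, hp₂, ?_, ?_, ha1 p₂ h2, Or.inl ⟨hd, hcase.2, hcase.1⟩⟩
          · rw [e]; exact hp.symm
          · intro χ hχ
            rcases hall χ hχ with h4 | h4
            · exact Or.inl h4
            · rcases hmem χ hχ h4 with h5 | h5
              · left; rw [h5, e]
              · right; exact h5
        · refine ⟨p₁, hp₁, ?_, ?_, ha1 p₁ h1, Or.inl ⟨hd, hcase.2, hcase.1⟩⟩
          · rw [e]; exact hp
          · intro χ hχ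
            rcases hall χ hχ with h4 | h4
            · exact Or.inl h4
            · rcases hmem χ hχ h4 with h5 | h5
              · right; exact h5
              · left; rw [h5, e]
      · have ha2 : ∑ χ ∈ off, a χ ^ 2 = 1 := by
          rw [ha, hd]
          have : ε ^ 2 = 1 := by rw [sq, hε2]
          nlinarith
        obtain ⟨p, hp, h1, h2⟩ := exists_of_sum_sq_one ha2
        rw [hd] at hrel
        have hraq : a q ^ 2 ≤ 1 := by rw [← ha2]; exact haq
        have haq' : a q = 0 ∨ a q = 1 ∨ a q = -1 := int_sq_le_three (by omega)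
        have hcase : ε * w' = 1 ∧ a q = 0 := by
          rcases hε with rfl | rfl <;> rcases hw'2 with h5 | h5 <;> rcases hvq2 with h6 | h6 <;>
            rcases haq' with h7 | h7 | h7 <;> rw [h5] at hrel <;> rw [h6, h7] at hrel <;>
            first | (exfalso; omega) | (rw [h5, h7]; norm_num)
        have hpq : p ≠ q := by
          rintro rfl
          rw [hcase.2] at h1
          norm_num at h1
        have hall : ∀ χ ∈ off, χ = q ∨ χ = p := by
          intro χ hχ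
          by_contra hc
          push Not at hc
          have h4 := hne χ (Finset.mem_filter.mp hχ).1
          rw [hwoff χ hχ, hq2 χ hχ hc.1, h2 χ hχ hc.2] at h4
          exact h4 (by norm_num)
        have ha1 : a p = 1 ∨ a p = -1 := int_eq_of_sq_eq_one h1
        exact ⟨p, hp, hpq, hall, ha1, Or.inr ⟨hd, hcase.2, hcase.1⟩⟩
    obtain ⟨p, hp, hpq, hall, hσ, hcases⟩ := hstruct
    have hpS : p ∈ S := (Finset.mem_filter.mp hp).1
    have hoffeq : off = {q, p} := by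
      ext χ
      simp only [Finset.mem_insert, Finset.mem_singleton]
      constructor
      · exact hall χ
      · rintro (rfl | rfl)
        · exact hq
        · exact hp
    have hcard5 : off.card = 2 := by
      rw [hoffeq, Finset.card_pair hpq.symm]
    have hvp : v p = 0 := hq2 p hp hpq
    have hsum : ∀ {α : Type} [AddCommMonoid α] (g : ι → α), ∑ χ ∈ S, g χ = g (f 0) + g (f 1) + g (f 2) + g q + g p := by
      intro α _ g
      rw [hs, Fin.sum_univ_three, hoffeq, Finset.sum_pair hpq.symm]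
      simp only [add_assoc]
    have hf0 := hdeg (f 0) (hfS 0)
    have hf1 := hdeg (f 1) (hfS 1)
    have hf2 := hdeg (f 2) (hfS 2)
    have hdq := hdeg q hqS
    have hdp := hdeg p hpS
    have hone0 := hone 0
    have hone1 := hone 1
    have hone2 := hone 2
    rw [hsum] at hone0 hone1 hone2 hvone
    rw [hoff 0 q hqS (Finset.mem_filter.mp hq).2, hoff 0 p hpS (Finset.mem_filter.mp hp).2, hstd, hstd, hstd] at hone0
    rw [hoff 1 q hqS (Finset.mem_filter.mp hq).2, hoff 1 p hpS (Finset.mem_filter.mp hp).2, hstd, hstd, hstd] at hone1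
    rw [hoff 2 q hqS (Finset.mem_filter.mp hq).2, hoff 2 p hpS (Finset.mem_filter.mp hp).2, hstd, hstd, hstd] at hone2
    rw [hvf, hvf, hvf, hvp] at hvone
    have h01 : (0 : Fin 3) ≠ 1 := by decide
    have h02 : (0 : Fin 3) ≠ 2 := by decide
    have h12 : (1 : Fin 3) ≠ 2 := by decide
    simp only [if_true, h01, h02, h12, h01.symm, h02.symm, h12.symm, if_false] at hone0 hone1 hone2
    have hwt : ∀ t : Fin 3, w (f t) = w' + 2 * (-(d - ε * (if (0 : Fin 3) = t then 1 else 0)) +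
        (d - ε * (if (1 : Fin 3) = t then 1 else 0)) - (d - ε * (if (2 : Fin 3) = t then 1 else 0))) := by
      intro t
      rw [hw, Fin.sum_univ_three, hvf, hstd, hstd, hstd]
      norm_num
      ring
    have hw0' := hwt 0
    have hw1' := hwt 1
    have hw2' := hwt 2
    simp only [if_true, h01, h02, h12, h01.symm, h02.symm, h12.symm, if_false] at hw0' hw1' hw2'
    have hwq := hwoff q hq
    have hwp := hwoff p hp
    rw [hvp] at hwp
    obtain ⟨k1, k2, k3, k4, k5, k6, k7, k8, k9⟩ := alt_solve hε hvq2 hσ hcases hf0 hf1 hf2 hdq hdp hone0 hone1 hone2 hvone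
      hw0' hw1' hw2' hwq hwp
    exact ⟨rfl, by omega, ε, deg (f 0), f 0, f 1, f 2, q, p, hε, hf0, hfS 0, hfS 1, hfS 2, hqS, hpS, @hsum, k1, k2, k3, k4, k5,
      rfl, k6, k7, k8, k9⟩

end Final

end Cfsg.Agent.Lib.Blocks.Tame
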