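/-
Quaternion defect groups: the integer lattice of the columns, the shape of the vectors.
-/
import Mathlib
import Cfsg.Agent.Lib.Blocks.TameE2

set_option autoImplicit false
set_option linter.style.haveILetI false

namespace Cfsg.Agent.Lib.Blocks.Quat

open Cfsg.Agent.Lib.Blocks.Tame

section Sums

variable {ι : Type*} [DecidableEq ι] {S : Finset ι}

lemma sum_one_of (a : ι) (ha : a ∈ S) (f : ι → ℤ) (h0 : ∀ i ∈ S, i ≠ a → f i = 0) :
    ∑ i ∈ S, f i = f a := by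
  rw [Finset.sum_eq_single a (fun i hi hne => h0 i hi hne) (fun h => absurd ha h)]

lemma sum_two_of {a b : ι} (ha : a ∈ S) (hb : b ∈ S) (hab : a ≠ b) (f : ι → ℤ)
    (h0 : ∀ i ∈ S, i ≠ a → i ≠ b → f i = 0) : ∑ i ∈ S, f i = f a + f b := by
  have hT : ({a, b} : Finset ι) ⊆ S := by
    intro i hi
    simp only [Finset.mem_insert, Finset.mem_singleton] at hi
    rcases hi with rfl | rfl <;> assumption
  rw [← Finset.sum_subset hT (fun i hi hn => by
    simp only [Finset.mem_insert, Finset.mem_singleton, not_or] at hn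
    exact h0 i hi hn.1 hn.2)]
  rw [Finset.sum_pair hab]

lemma sum_three_of {a b c : ι} (ha : a ∈ S) (hb : b ∈ S) (hc : c ∈ S) (hab : a ≠ b) (hac : a ≠ c) (hbc : b ≠ c)
    (f : ι → ℤ) (h0 : ∀ i ∈ S, i ≠ a → i ≠ b → i ≠ c → f i = 0) : ∑ i ∈ S, f i = f a + f b + f c := by
  have h1 : ∑ i ∈ S.erase c, f i = f a + f b := by
    refine sum_two_of (Finset.mem_erase.mpr ⟨hac, ha⟩) (Finset.mem_erase.mpr ⟨hbc, hb⟩) hab f ?_
    intro i hi h2 h3
    obtain ⟨h4, h5⟩ := Finset.mem_erase.mp hi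
    exact h0 i h5 h2 h3 h4
  rw [← Finset.add_sum_erase S f hc, h1]
  ring

lemma sum_four_of {a b c e : ι} (ha : a ∈ S) (hb : b ∈ S) (hc : c ∈ S) (he : e ∈ S) (hab : a ≠ b) (hac : a ≠ c)
    (hae : a ≠ e) (hbc : b ≠ c) (hbe : b ≠ e) (hce : c ≠ e)
    (f : ι → ℤ) (h0 : ∀ i ∈ S, i ≠ a → i ≠ b → i ≠ c → i ≠ e → f i = 0) : ∑ i ∈ S, f i = f a + f b + f c + f e := by
  have h1 : ∑ i ∈ S.erase e, f i = f a + f b + f c := by
    refine sum_three_of (Finset.mem_erase.mpr ⟨hae, ha⟩) (Finset.mem_erase.mpr ⟨hbe, hb⟩)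
      (Finset.mem_erase.mpr ⟨hce, hc⟩) hab hac hbc f ?_
    intro i hi h2 h3 h4
    obtain ⟨h5, h6⟩ := Finset.mem_erase.mp hi
    exact h0 i h6 h2 h3 h4 h5
  rw [← Finset.add_sum_erase S f he, h1]
  ring

lemma sum_nonneg_sq (T : Finset ι) (f : ι → ℤ) : 0 ≤ ∑ i ∈ T, f i ^ 2 :=
  Finset.sum_nonneg fun _ _ => sq_nonneg _

/-- Terms of a sum of squares. -/
lemma three_le_sum {a b c : ι} (ha : a ∈ S) (hb : b ∈ S) (hc : c ∈ S) (hab : a ≠ b) (hac : a ≠ c) (hbc : b ≠ c)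
    (f : ι → ℤ) : f a ^ 2 + f b ^ 2 + f c ^ 2 ≤ ∑ i ∈ S, f i ^ 2 := by
  have hT : ({a, b, c} : Finset ι) ⊆ S := by
    intro i hi
    simp only [Finset.mem_insert, Finset.mem_singleton] at hi
    rcases hi with rfl | rfl | rfl <;> assumption
  have h1 := Finset.sum_le_sum_of_subset_of_nonneg (f := fun i => f i ^ 2) hT (fun i _ _ => sq_nonneg _)
  rw [Finset.sum_insert (by simp [hab, hac]), Finset.sum_pair hbc] at h1
  linarith

/-- A sum of squares of norm four with no entry `±2`. -/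
lemma exists_of_sum_sq_four {U : Finset ι} {u : ι → ℤ} (h : ∑ i ∈ U, u i ^ 2 = 4) (hno : ∀ q ∈ U, u q ^ 2 ≠ 4) :
    ∃ a ∈ U, ∃ b ∈ U, ∃ c ∈ U, ∃ e ∈ U, a ≠ b ∧ a ≠ c ∧ a ≠ e ∧ b ≠ c ∧ b ≠ e ∧ c ≠ e ∧
      u a ^ 2 = 1 ∧ u b ^ 2 = 1 ∧ u c ^ 2 = 1 ∧ u e ^ 2 = 1 ∧
      ∀ i ∈ U, i ≠ a → i ≠ b → i ≠ c → i ≠ e → u i = 0 := by
  have hex : ∀ {T : Finset ι} {t : ℤ}, 0 < t → ∑ i ∈ T, u i ^ 2 = t → ∃ q ∈ T, u q ≠ 0 := by
    intro T t ht hT
    by_contra hc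
    push Not at hc
    have : ∑ i ∈ T, u i ^ 2 = 0 := Finset.sum_eq_zero fun i hi => by rw [hc i hi]; simp
    omega
  obtain ⟨a, ha, ha0⟩ := hex (by norm_num) h
  have h1 : u a ^ 2 + ∑ i ∈ U.erase a, u i ^ 2 = 4 := by
    rw [Finset.add_sum_erase U (fun i => u i ^ 2) ha, h]
  have h2 := sum_nonneg_sq (U.erase a) u
  have h3 : u a ^ 2 ≠ 0 := pow_ne_zero _ ha0
  have h4 : 0 ≤ u a ^ 2 := sq_nonneg _
  have h5 : u a ^ 2 ≠ 2 := by
    intro h6
    have h7 : u a ≤ 1 ∧ -1 ≤ u a := by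
      constructor <;> nlinarith
    have h8 : u a = 0 ∨ u a = 1 ∨ u a = -1 := by omega
    rcases h8 with h8 | h8 | h8 <;> rw [h8] at h6 <;> norm_num at h6
  have h6 : u a ^ 2 ≠ 3 := by
    intro h6
    rcases int_sq_le_three (by omega : u a ^ 2 ≤ 3) with h8 | h8 | h8 <;> rw [h8] at h6 <;> norm_num at h6
  have ha1 : u a ^ 2 = 1 := by
    have := hno a ha
    omega
  have h7 : ∑ i ∈ U.erase a, u i ^ 2 = 3 := by omega
  obtain ⟨b, hb, hb0⟩ := hex (by norm_num) h7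
  have h8 : u b ^ 2 + ∑ i ∈ (U.erase a).erase b, u i ^ 2 = 3 := by
    rw [Finset.add_sum_erase (U.erase a) (fun i => u i ^ 2) hb, h7]
  have h9 := sum_nonneg_sq ((U.erase a).erase b) u
  have hb1 : u b ^ 2 = 1 := by
    have h10 : u b ^ 2 ≠ 0 := pow_ne_zero _ hb0
    rcases int_sq_le_three (by omega : u b ^ 2 ≤ 3) with h11 | h11 | h11
    · exact absurd h11 hb0
    · rw [h11]; norm_num
    · rw [h11]; norm_num
  have h10 : ∑ i ∈ (U.erase a).erase b, u i ^ 2 = 2 := by omega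
  obtain ⟨c, hc, e, he, hce, hc1, he1, hrest⟩ := exists_of_sum_sq_two h10
  obtain ⟨hb2, hb3⟩ := Finset.mem_erase.mp hb
  obtain ⟨hc2, hc3⟩ := Finset.mem_erase.mp hc
  obtain ⟨hc4, hc5⟩ := Finset.mem_erase.mp hc3
  obtain ⟨he2, he3⟩ := Finset.mem_erase.mp he
  obtain ⟨he4, he5⟩ := Finset.mem_erase.mp he3
  refine ⟨a, ha, b, hb3, c, hc5, e, he5, hb2.symm, hc4.symm, he4.symm, hc2.symm, he2.symm, hce, ha1, hb1, hc1, he1, ?_⟩
  intro i hi hia hib hic hie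
  exact hrest i (Finset.mem_erase.mpr ⟨hib, Finset.mem_erase.mpr ⟨hia, hi⟩⟩) hic hie

/-- A sum of squares of norm three. -/
lemma exists_of_sum_sq_three {U : Finset ι} {u : ι → ℤ} (h : ∑ i ∈ U, u i ^ 2 = 3) :
    ∃ a ∈ U, ∃ b ∈ U, ∃ c ∈ U, a ≠ b ∧ a ≠ c ∧ b ≠ c ∧ u a ^ 2 = 1 ∧ u b ^ 2 = 1 ∧ u c ^ 2 = 1 ∧
      ∀ i ∈ U, i ≠ a → i ≠ b → i ≠ c → u i = 0 := by
  have hex : ∃ q ∈ U, u q ≠ 0 := by
    by_contra hc
    push Not at hc
    have : ∑ i ∈ U, u i ^ 2 = 0 := Finset.sum_eq_zero fun i hi => by rw [hc i hi]; simp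
    omega
  obtain ⟨a, ha, ha0⟩ := hex
  have h1 : u a ^ 2 + ∑ i ∈ U.erase a, u i ^ 2 = 3 := by
    rw [Finset.add_sum_erase U (fun i => u i ^ 2) ha, h]
  have h2 := sum_nonneg_sq (U.erase a) u
  have ha1 : u a ^ 2 = 1 := by
    rcases int_sq_le_three (by omega : u a ^ 2 ≤ 3) with h11 | h11 | h11
    · exact absurd h11 ha0
    · rw [h11]; norm_num
    · rw [h11]; norm_num
  have h10 : ∑ i ∈ U.erase a, u i ^ 2 = 2 := by omega
  obtain ⟨b, hb, c, hc, hbc, hb1, hc1, hrest⟩ := exists_of_sum_sq_two h10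
  obtain ⟨hb2, hb3⟩ := Finset.mem_erase.mp hb
  obtain ⟨hc2, hc3⟩ := Finset.mem_erase.mp hc
  refine ⟨a, ha, b, hb3, c, hc3, hb2.symm, hc2.symm, hbc, ha1, hb1, hc1, ?_⟩
  intro i hi hia hib hic
  exact hrest i (Finset.mem_erase.mpr ⟨hia, hi⟩) hib hic

lemma sq_one_cases {u : ℤ} (h : u ^ 2 = 1) : u = 1 ∨ u = -1 := int_eq_of_sq_eq_one h

end Sums

section Core

variable {ι : Type*} [DecidableEq ι]

/-- The lattice: Gram matrix and the positive degrees. -/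
structure NCore (S : Finset ι) (J : ℕ) (n m : ι → ℕ → ℤ) (v d : ι → ℤ) : Prop where
  hnn : ∀ s < J, ∀ t < J, ∑ i ∈ S, n i s * n i t = if s = t then 3 else 2
  hmm : ∀ s < J, ∀ t < J, ∑ i ∈ S, m i s * m i t = if s = t then 2 else 1
  hvn : ∀ t < J, ∑ i ∈ S, v i * n i t = 2
  hvv : ∑ i ∈ S, v i * v i = 4
  hnm : ∀ s < J, ∀ t < J, ∑ i ∈ S, n i s * m i t = 0
  hvm : ∀ t < J, ∑ i ∈ S, v i * m i t = 0
  hd : ∀ i ∈ S, 0 < d i
  hdn : ∀ t < J, ∑ i ∈ S, d i * n i t = 0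
  hdm : ∀ t < J, ∑ i ∈ S, d i * m i t = 0
  hdv : ∑ i ∈ S, d i * v i = 0

variable {S : Finset ι} {J : ℕ} {n m : ι → ℕ → ℤ} {v d : ι → ℤ}

/-- **The vector `v` has four entries `±1`.** -/
theorem NCore.v_shape (h : NCore S J n m v d) :
    ∃ a ∈ S, ∃ b ∈ S, ∃ c ∈ S, ∃ e ∈ S, a ≠ b ∧ a ≠ c ∧ a ≠ e ∧ b ≠ c ∧ b ≠ e ∧ c ≠ e ∧
      v a ^ 2 = 1 ∧ v b ^ 2 = 1 ∧ v c ^ 2 = 1 ∧ v e ^ 2 = 1 ∧
      ∀ i ∈ S, i ≠ a → i ≠ b → i ≠ c → i ≠ e → v i = 0 := by
  have h1 : ∑ i ∈ S, v i ^ 2 = 4 := by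
    simp only [sq]
    exact h.hvv
  refine exists_of_sum_sq_four h1 ?_
  intro q hq hq4
  have h2 : q ∈ S := hq
  have h3 : v q ^ 2 + ∑ i ∈ S.erase q, v i ^ 2 = 4 := by
    rw [Finset.add_sum_erase S (fun i => v i ^ 2) hq, h1]
  have h4 : ∑ i ∈ S.erase q, v i ^ 2 = 0 := by omega
  have h5 : ∀ i ∈ S, i ≠ q → v i = 0 := by
    intro i hi hne
    have h6 := (Finset.sum_eq_zero_iff_of_nonneg (fun j _ => sq_nonneg (v j))).mp h4 i
      (Finset.mem_erase.mpr ⟨hne, hi⟩)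
    exact pow_eq_zero_iff (by norm_num) |>.mp h6
  have h6 := h.hdv
  rw [sum_one_of q hq _ (fun i hi hne => by rw [h5 i hi hne, mul_zero])] at h6
  have h7 : v q ≠ 0 := by
    intro h8
    rw [h8] at hq4
    norm_num at hq4
  exact (mul_ne_zero (h.hd q hq).ne' h7) h6

/-- The entries of `v`. -/
theorem NCore.v_entry (h : NCore S J n m v d) {i : ι} (hi : i ∈ S) : v i = 0 ∨ v i ^ 2 = 1 := by
  obtain ⟨a, ha, b, hb, c, hc, e, he, -, -, -, -, -, -, h1, h2, h3, h4, h5⟩ := h.v_shape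
  by_cases e1 : i = a
  · subst e1; exact Or.inr h1
  by_cases e2 : i = b
  · subst e2; exact Or.inr h2
  by_cases e3 : i = c
  · subst e3; exact Or.inr h3
  by_cases e4 : i = e
  · subst e4; exact Or.inr h4
  exact Or.inl (h5 i hi e1 e2 e3 e4)

/-- A term of a sum of products. -/
lemma term_cases {w u : ℤ} (hw : w = 0 ∨ w ^ 2 = 1) (hu : u ^ 2 = 1) :
    (w * u = 0 ∧ w = 0) ∨ (w * u = 1 ∧ w = u) ∨ (w * u = -1 ∧ w = -u) := by
  rcases sq_one_cases hu with rfl | rfl <;> rcases hw with rfl | hw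
  · simp
  · rcases sq_one_cases hw with rfl | rfl <;> simp
  · simp
  · rcases sq_one_cases hw with rfl | rfl <;> simp

/-- The shape of the vectors `n`. -/
structure NShape (S : Finset ι) (J : ℕ) (n : ι → ℕ → ℤ) (v : ι → ℤ) (y₁ y₂ : ι) (p : Fin J → ι) (ε : ℤ) : Prop where
  hy₁ : y₁ ∈ S
  hy₂ : y₂ ∈ S
  hy : y₁ ≠ y₂
  hv₁ : v y₁ ^ 2 = 1
  hv₂ : v y₂ ^ 2 = 1
  hp : ∀ t, p t ∈ S
  hinj : Function.Injective p
  hε : ε = 1 ∨ ε = -1
  hvp : ∀ t, v (p t) = 0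
  hnp : ∀ s t : Fin J, n (p s) t.val = if s = t then ε else 0
  hn₁ : ∀ t : Fin J, n y₁ t.val = v y₁
  hn₂ : ∀ t : Fin J, n y₂ t.val = v y₂
  hn0 : ∀ t : Fin J, ∀ i ∈ S, i ≠ y₁ → i ≠ y₂ → (∀ s, i ≠ p s) → n i t.val = 0

/-- The exceptional shape of the vectors `n`. -/
def NExc (S : Finset ι) (n : ι → ℕ → ℤ) (v : ι → ℤ) : Prop :=
  ∃ f₀ ∈ S, ∃ f₁ ∈ S, ∃ f₂ ∈ S, ∃ c ∈ S, ∃ y ∈ S, f₀ ≠ f₁ ∧ f₀ ≠ f₂ ∧ f₀ ≠ c ∧ f₀ ≠ y ∧ f₁ ≠ f₂ ∧ f₁ ≠ c ∧ f₁ ≠ y ∧
    f₂ ≠ c ∧ f₂ ≠ y ∧ c ≠ y ∧ v f₀ ^ 2 = 1 ∧ v f₁ ^ 2 = 1 ∧ v f₂ ^ 2 = 1 ∧ v c ^ 2 = 1 ∧ v y = 0 ∧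
    ∀ θ : ι → ℤ, (∀ t < 3, ∑ i ∈ S, θ i * n i t = 0) → ∑ i ∈ S, θ i * v i = 0 →
      θ f₁ = θ f₀ ∧ θ f₂ = θ f₀ ∧ θ c = 3 * θ f₀ ∧ θ y = 2 * θ f₀

/-- The case of one vector `n`. -/
theorem NCore.n_shape_one (h : NCore S 1 n m v d) :
    ∃ (y₁ y₂ : ι) (p : Fin 1 → ι) (ε : ℤ), NShape S 1 n v y₁ y₂ p ε := by
  have h1 : ∑ i ∈ S, n i 0 ^ 2 = 3 := by
    simp only [sq]
    have := h.hnn 0 (by norm_num) 0 (by norm_num)
    simpa using this
  obtain ⟨a, ha, b, hb, c, hc, hab, hac, hbc, ha1, hb1, hc1, hrest⟩ := exists_of_sum_sq_three h1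
  have h2 := h.hvn 0 (by norm_num)
  rw [sum_three_of ha hb hc hab hac hbc _ (fun i hi h3 h4 h5 => by rw [hrest i hi h3 h4 h5, mul_zero])] at h2
  have ta := term_cases (h.v_entry ha) ha1
  have tb := term_cases (h.v_entry hb) hb1
  have tc := term_cases (h.v_entry hc) hc1
  have key : ∀ (x y z : ι), x ∈ S → y ∈ S → z ∈ S → x ≠ y → x ≠ z → y ≠ z → v x = n x 0 → v y = n y 0 → v z = 0 →
      n x 0 ^ 2 = 1 → n y 0 ^ 2 = 1 → n z 0 ^ 2 = 1 → (∀ i ∈ S, i ≠ x → i ≠ y → i ≠ z → n i 0 = 0) →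
      ∃ (y₁ y₂ : ι) (p : Fin 1 → ι) (ε : ℤ), NShape S 1 n v y₁ y₂ p ε := by
    intro x y z hx hy hz hxy hxz hyz hvx hvy hvz hnx hny hnz hr
    refine ⟨x, y, fun _ => z, n z 0, ⟨hx, hy, hxy, by rw [hvx]; exact hnx, by rw [hvy]; exact hny, fun _ => hz,
      fun a b _ => Subsingleton.elim a b, sq_one_cases hnz, fun _ => hvz, ?_, ?_, ?_, ?_⟩⟩
    · intro s t
      have e1 : s = t := Subsingleton.elim s t
      have e2 : t.val = 0 := by omega
      rw [if_pos e1, e2]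
    · intro t
      have e2 : t.val = 0 := by omega
      rw [e2, hvx]
    · intro t
      have e2 : t.val = 0 := by omega
      rw [e2, hvy]
    · intro t i hi h3 h4 h5
      have e2 : t.val = 0 := by omega
      rw [e2]
      exact hr i hi h3 h4 (h5 ⟨0, by norm_num⟩)
  rcases ta with ⟨e1, e2⟩ | ⟨e1, e2⟩ | ⟨e1, e2⟩ <;> rcases tb with ⟨e3, e4⟩ | ⟨e3, e4⟩ | ⟨e3, e4⟩ <;>
    rcases tc with ⟨e5, e6⟩ | ⟨e5, e6⟩ | ⟨e5, e6⟩ <;> first
      | (exfalso; omega)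
      | exact key b c a hb hc ha hbc hab.symm hac.symm e4 e6 e2 hb1 hc1 ha1
          (fun i hi h3 h4 h5 => hrest i hi h5 h3 h4)
      | exact key a c b ha hc hb hac hab hbc.symm e2 e6 e4 ha1 hc1 hb1
          (fun i hi h3 h4 h5 => hrest i hi h3 h5 h4)
      | exact key a b c ha hb hc hab hac hbc e2 e4 e6 ha1 hb1 hc1 hrest

lemma star_arith {ε v₀ σ τ d0 d1 d2 dc dy T0 T1 T2 Tc Ty : ℤ} (hε : ε = 1 ∨ ε = -1) (hv₀ : -ε * v₀ = 1)
    (hσ : σ = 1 ∨ σ = -1) (hτ : τ = 1 ∨ τ = -1) (h0 : 0 < d0) (h1 : 0 < d1) (h2 : 0 < d2) (hc : 0 < dc) (hy : 0 < dy)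
    (E0 : -ε * d0 + σ * dc + τ * dy = 0) (E1 : -ε * d1 + σ * dc + τ * dy = 0) (E2 : -ε * d2 + σ * dc + τ * dy = 0)
    (V : v₀ * (d0 + d1 + d2) + σ * dc = 0)
    (F0 : -ε * T0 + σ * Tc + τ * Ty = 0) (F1 : -ε * T1 + σ * Tc + τ * Ty = 0) (F2 : -ε * T2 + σ * Tc + τ * Ty = 0)
    (W : v₀ * (T0 + T1 + T2) + σ * Tc = 0) : T1 = T0 ∧ T2 = T0 ∧ Tc = 3 * T0 ∧ Ty = 2 * T0 := by
  rcases hε with rfl | rfl
  · have hv : v₀ = -1 := by omega
    subst hv
    rcases hσ with rfl | rfl <;> rcases hτ with rfl | rfl <;> omega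
  · have hv : v₀ = 1 := by omega
    subst hv
    rcases hσ with rfl | rfl <;> rcases hτ with rfl | rfl <;> omega

lemma tri_arith {ε v₀ σ τ d0 d1 d2 dc dy T0 T1 T2 Tc Ty : ℤ} (hε : ε = 1 ∨ ε = -1) (hv₀ : ε * v₀ = 1)
    (hσ : σ = 1 ∨ σ = -1) (hτ : τ = 1 ∨ τ = -1) (h0 : 0 < d0) (h1 : 0 < d1) (h2 : 0 < d2) (hc : 0 < dc) (hy : 0 < dy)
    (E0 : ε * (d1 + d2) + τ * dy = 0) (E1 : ε * (d0 + d2) + τ * dy = 0) (E2 : ε * (d0 + d1) + τ * dy = 0)
    (V : v₀ * (d0 + d1 + d2) + σ * dc = 0)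
    (F0 : ε * (T1 + T2) + τ * Ty = 0) (F1 : ε * (T0 + T2) + τ * Ty = 0) (F2 : ε * (T0 + T1) + τ * Ty = 0)
    (W : v₀ * (T0 + T1 + T2) + σ * Tc = 0) : T1 = T0 ∧ T2 = T0 ∧ Tc = 3 * T0 ∧ Ty = 2 * T0 := by
  rcases hε with rfl | rfl
  · have hv : v₀ = 1 := by omega
    subst hv
    rcases hσ with rfl | rfl <;> rcases hτ with rfl | rfl <;> omega
  · have hv : v₀ = -1 := by omega
    subst hv
    rcases hσ with rfl | rfl <;> rcases hτ with rfl | rfl <;> omega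

set_option maxHeartbeats 2000000 in
open Classical in
/-- **The shape of the vectors `n`, in the case of many vectors.** -/
theorem NCore.n_shape_big (h : NCore S J n m v d) (hJ : J = 3 ∨ 7 ≤ J)
    (hlat : ∃ (dd ε : ℤ) (f : Fin J → ι) (a : ι → ℤ), Function.Injective f ∧ (∀ t, f t ∈ S) ∧ (ε = 1 ∨ ε = -1) ∧
      (∀ s t : Fin J, n (f t) s.val = dd - ε * if s = t then 1 else 0) ∧
      (∀ t : Fin J, ∀ i ∈ S, i ∉ Set.range f → n i t.val = a i) ∧
      ∑ i ∈ S.filter (· ∉ Set.range f), a i ^ 2 = 2 - (J : ℤ) * dd ^ 2 + 2 * (dd * ε)) :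
    (∃ (y₁ y₂ : ι) (p : Fin J → ι) (ε : ℤ), NShape S J n v y₁ y₂ p ε) ∨ (J = 3 ∧ NExc S n v) := by
  classical
  obtain ⟨dd, ε, f, a, hinj, hfS, hε, hstd, hoff, ha⟩ := hlat
  set off := S.filter (· ∉ Set.range f) with hoffdef
  have hs : ∀ u : ι → ℤ, ∑ i ∈ S, u i = ∑ t, u (f t) + ∑ i ∈ off, u i :=
    fun u => sum_split hinj hfS u
  have hJpos : 0 < J := by omega
  have hε2 : ε * ε = 1 := by rcases hε with rfl | rfl <;> norm_num
  have hε0 : ε ≠ 0 := by rcases hε with rfl | rfl <;> norm_num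
  have hmemoff : ∀ {i}, i ∈ off → i ∈ S ∧ i ∉ Set.range f := fun hi => Finset.mem_filter.mp hi
  -- `v` is constant on the range
  have hconst : ∀ s t : Fin J, v (f s) = v (f t) := by
    intro s t
    have h1 : ∑ i ∈ S, v i * (n i s.val - n i t.val) = 0 := by
      simp only [mul_sub]
      rw [Finset.sum_sub_distrib, h.hvn _ s.isLt, h.hvn _ t.isLt, sub_self]
    rw [hs] at h1
    have h2 : ∑ i ∈ off, v i * (n i s.val - n i t.val) = 0 := by
      refine Finset.sum_eq_zero fun i hi => ?_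
      obtain ⟨hiS, hir⟩ := hmemoff hi
      rw [hoff s i hiS hir, hoff t i hiS hir, sub_self, mul_zero]
    rw [h2, add_zero] at h1
    have h3 : ∀ r : Fin J, v (f r) * (n (f r) s.val - n (f r) t.val) =
        ε * ((if t = r then v (f r) else 0) - (if s = r then v (f r) else 0)) := by
      intro r
      rw [hstd, hstd]
      by_cases h4 : s = r <;> by_cases h5 : t = r <;> simp only [h4, h5, if_true, if_false] <;> ring
    simp only [h3] at h1
    rw [← Finset.mul_sum, Finset.sum_sub_distrib, Finset.sum_ite_eq, Finset.sum_ite_eq] at h1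
    simp only [Finset.mem_univ, if_true] at h1
    have h4 := (mul_eq_zero.mp h1).resolve_left hε0
    linarith
  set t₀ : Fin J := ⟨0, hJpos⟩ with ht₀
  set v₀ := v (f t₀) with hv₀
  have hvf : ∀ t, v (f t) = v₀ := fun t => hconst t t₀
  have hvnorm : (J : ℤ) * v₀ ^ 2 + ∑ i ∈ off, v i ^ 2 = 4 := by
    have h1 := hs (fun i => v i ^ 2)
    have h2 : ∑ i ∈ S, v i ^ 2 = 4 := by
      simp only [sq]
      exact h.hvv
    rw [h2] at h1
    rw [h1]
    congr 1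
    simp [hvf]
  have hvoffnn : 0 ≤ ∑ i ∈ off, v i ^ 2 := sum_nonneg_sq _ _
  have hanon : 0 ≤ ∑ i ∈ off, a i ^ 2 := sum_nonneg_sq _ _
  have hJ3 : (3 : ℤ) ≤ J := by
    rcases hJ with rfl | h1
    · norm_num
    · have : (7 : ℤ) ≤ J := by exact_mod_cast h1
      omega
  -- the small cases of `dd`
  have hdd : dd = 0 ∨ (dd = ε ∧ J = 3) := by
    have h0 : 0 ≤ 2 - (J : ℤ) * dd ^ 2 + 2 * (dd * ε) := by rw [← ha]; exact hanon
    have h1 : (dd * ε) ^ 2 = dd ^ 2 := by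
      rw [mul_pow, sq ε, hε2, mul_one]
    have h2 : dd * ε = 0 ∨ dd * ε = 1 := by
      have h3 : 3 * (dd * ε) ^ 2 - 2 * (dd * ε) - 2 ≤ 0 := by
        rw [h1]
        nlinarith [sq_nonneg dd]
      exact int_sq_small h3
    rcases h2 with h2 | h2
    · left
      exact (mul_eq_zero.mp h2).resolve_right hε0
    · right
      have h3 : dd = ε := by
        have : dd * ε * ε = 1 * ε := by rw [h2]
        rw [mul_assoc, hε2, mul_one, one_mul] at this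
        exact this
      refine ⟨h3, ?_⟩
      rw [h3, sq ε, hε2] at h0
      rcases hJ with h4 | h4
      · exact h4
      · exfalso
        have : (7 : ℤ) ≤ J := by exact_mod_cast h4
        omega
  -- the relation
  have hrel : v₀ * ((J : ℤ) * dd - ε) + ∑ i ∈ off, v i * a i = 2 := by
    have h1 := h.hvn t₀.val t₀.isLt
    rw [hs] at h1
    have h2 : ∑ i ∈ off, v i * n i t₀.val = ∑ i ∈ off, v i * a i := by
      refine Finset.sum_congr rfl fun i hi => ?_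
      obtain ⟨hiS, hir⟩ := hmemoff hi
      rw [hoff t₀ i hiS hir]
    rw [h2] at h1
    have h3 : ∑ r : Fin J, v (f r) * n (f r) t₀.val = v₀ * ((J : ℤ) * dd - ε) := by
      have h4 : ∀ r : Fin J, v (f r) * n (f r) t₀.val = v₀ * dd - ε * (if t₀ = r then v₀ else 0) := by
        intro r
        rw [hvf, hstd]
        by_cases h5 : t₀ = r <;> simp only [h5, if_true, if_false] <;> ring
      simp only [h4]
      simp only [Finset.sum_sub_distrib, Finset.sum_const, Finset.card_univ, Fintype.card_fin, nsmul_eq_mul]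
      rw [← Finset.mul_sum, Finset.sum_ite_eq]
      simp only [Finset.mem_univ, if_true]
      ring
    rw [h3] at h1
    exact h1
  -- the exceptional case, once `v₀ ≠ 0`
  have hvJ : v₀ ≠ 0 → J = 3 ∧ v₀ ^ 2 = 1 ∧ ∑ i ∈ off, v i ^ 2 = 1 := by
    intro hv
    have h1 : 1 ≤ v₀ ^ 2 := by
      have h4 := sq_nonneg v₀
      have h5 : v₀ ^ 2 ≠ 0 := pow_ne_zero _ hv
      omega
    have hJ4 : (J : ℤ) ≤ 4 := by
      have h4 : (J : ℤ) * 1 ≤ (J : ℤ) * v₀ ^ 2 := mul_le_mul_of_nonneg_left h1 (by positivity)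
      linarith
    have hJ3' : J = 3 := by
      rcases hJ with h2 | h2
      · exact h2
      · exfalso
        have : (7 : ℤ) ≤ J := by exact_mod_cast h2
        omega
    subst hJ3'
    push_cast at hvnorm
    refine ⟨rfl, ?_, ?_⟩ <;> omega
  rcases hdd with hd0 | ⟨hd1, hJ3'⟩
  · -- `dd = 0`
    have ha2 : ∑ i ∈ off, a i ^ 2 = 2 := by rw [ha, hd0]; ring
    obtain ⟨y₁, hy₁, y₂, hy₂, hy, hy₁1, hy₂1, hrest⟩ := exists_of_sum_sq_two ha2
    have hrel2 : -ε * v₀ + (v y₁ * a y₁ + v y₂ * a y₂) = 2 := by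
      have h1 : ∑ i ∈ off, v i * a i = v y₁ * a y₁ + v y₂ * a y₂ :=
        sum_two_of hy₁ hy₂ hy _ (fun i hi h3 h4 => by rw [hrest i hi h3 h4, mul_zero])
      rw [h1, hd0] at hrel
      linarith
    have ty₁ := term_cases (h.v_entry (hmemoff hy₁).1) hy₁1
    have ty₂ := term_cases (h.v_entry (hmemoff hy₂).1) hy₂1
    have hnstd : ∀ s t : Fin J, n (f s) t.val = if s = t then -ε else 0 := by
      intro s t
      rw [hstd, hd0]
      by_cases h1 : t = s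
      · rw [if_pos h1, if_pos h1.symm]
        ring
      · rw [if_neg h1, if_neg (fun h2 => h1 h2.symm)]
        ring
    by_cases hv0 : v₀ = 0
    · -- the shape
      left
      rw [hv0, mul_zero, zero_add] at hrel2
      have hvy : v y₁ = a y₁ ∧ v y₂ = a y₂ := by
        rcases ty₁ with ⟨e1, e2⟩ | ⟨e1, e2⟩ | ⟨e1, e2⟩ <;> rcases ty₂ with ⟨e3, e4⟩ | ⟨e3, e4⟩ | ⟨e3, e4⟩ <;>
          first
            | (exfalso; omega)
            | exact ⟨e2, e4⟩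
      refine ⟨y₁, y₂, f, -ε, ⟨(hmemoff hy₁).1, (hmemoff hy₂).1, hy, by rw [hvy.1]; exact hy₁1, by rw [hvy.2]; exact hy₂1,
        hfS, hinj, ?_, fun t => by rw [hvf, hv0], hnstd, ?_, ?_, ?_⟩⟩
      · rcases hε with rfl | rfl <;> norm_num
      · intro t
        rw [hoff t y₁ (hmemoff hy₁).1 (hmemoff hy₁).2, hvy.1]
      · intro t
        rw [hoff t y₂ (hmemoff hy₂).1 (hmemoff hy₂).2, hvy.2]
      · intro t i hi h1 h2 h3
        have hio : i ∈ off := Finset.mem_filter.mpr ⟨hi, by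
          rintro ⟨s, rfl⟩
          exact h3 s rfl⟩
        rw [hoff t i hi (hmemoff hio).2, hrest i hio h1 h2]
    · right
      obtain ⟨hJ3', hv2, hvo⟩ := hvJ hv0
      subst hJ3'
      refine ⟨rfl, ?_⟩
      obtain ⟨c, hc, hc1, hcrest⟩ := exists_of_sum_sq_one hvo
      have hcS := (hmemoff hc).1
      have hsum : ∑ i ∈ off, v i * a i = v c * a c :=
        sum_one_of c hc _ (fun i hi hne => by rw [hcrest i hi hne, zero_mul])
      rw [hsum, hd0] at hrel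
      have hac : a c ^ 2 ≤ 2 := by
        rw [← ha2]
        exact Finset.single_le_sum (f := fun i => a i ^ 2) (fun i _ => sq_nonneg _) hc
      have hac' : a c = 0 ∨ a c = 1 ∨ a c = -1 := int_sq_le_three (by omega)
      have hvc' := sq_one_cases hc1
      have hv0' := sq_one_cases hv2
      push_cast at hrel
      have hcase : -ε * v₀ = 1 ∧ a c = v c := by
        rcases hε with rfl | rfl <;> rcases hv0' with h5 | h5 <;> rcases hvc' with h6 | h6 <;>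
            rcases hac' with h7 | h7 | h7 <;> rw [h5] at hrel <;> rw [h6, h7] at hrel <;>
            first | (exfalso; omega) | (rw [h5, h6, h7]; norm_num)
      have hac0 : a c ≠ 0 := by
        rw [hcase.2]
        rcases hvc' with h | h <;> rw [h] <;> norm_num
      -- the second entry
      have hcy : ∃ y ∈ off, y ≠ c ∧ a y ^ 2 = 1 ∧ ∀ i ∈ off, i ≠ c → i ≠ y → a i = 0 := by
        by_cases h1 : c = y₁
        · subst h1
          exact ⟨y₂, hy₂, hy.symm, hy₂1, fun i hi h3 h4 => hrest i hi h3 h4⟩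
        · have h2 : c = y₂ := by
            by_contra h2
            exact hac0 (hrest c hc h1 h2)
          subst h2
          exact ⟨y₁, hy₁, hy, hy₁1, fun i hi h3 h4 => hrest i hi h4 h3⟩
      obtain ⟨y, hy', hyc, hya, hyrest⟩ := hcy
      have hyS := (hmemoff hy').1
      have hvy0 : v y = 0 := hcrest y hy' hyc
      have hτ := sq_one_cases hya
      have hne : ∀ t : Fin 3, f t ≠ c ∧ f t ≠ y := by
        intro t
        exact ⟨fun h1 => (hmemoff hc).2 ⟨t, h1⟩, fun h1 => (hmemoff hy').2 ⟨t, h1⟩⟩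
      have hf01 : f 0 ≠ f 1 := fun h1 => absurd (hinj h1) (by decide)
      have hf02 : f 0 ≠ f 2 := fun h1 => absurd (hinj h1) (by decide)
      have hf12 : f 1 ≠ f 2 := fun h1 => absurd (hinj h1) (by decide)
      -- the sums
      have hN : ∀ (θ : ι → ℤ) (t : Fin 3), ∑ i ∈ S, θ i * n i t.val =
          -ε * θ (f t) + v c * θ c + a y * θ y := by
        intro θ t
        rw [hs]
        have h1 : ∑ i ∈ off, θ i * n i t.val = v c * θ c + a y * θ y := by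
          rw [sum_two_of hc hy' hyc.symm _ (fun i hi h3 h4 => by
            rw [hoff t i (hmemoff hi).1 (hmemoff hi).2, hyrest i hi h3 h4, mul_zero])]
          rw [hoff t c hcS (hmemoff hc).2, hoff t y hyS (hmemoff hy').2, hcase.2]
          ring
        rw [h1, Fin.sum_univ_three, hnstd, hnstd, hnstd]
        fin_cases t <;> simp <;> ring
      have hV : ∀ θ : ι → ℤ, ∑ i ∈ S, θ i * v i = v₀ * (θ (f 0) + θ (f 1) + θ (f 2)) + v c * θ c := by
        intro θ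
        rw [hs]
        have h1 : ∑ i ∈ off, θ i * v i = v c * θ c := by
          rw [sum_one_of c hc _ (fun i hi hne => by rw [hcrest i hi hne, mul_zero])]
          ring
        rw [h1, Fin.sum_univ_three, hvf, hvf, hvf]
        ring
      have hdpos := h.hd
      have hD0 := hN d 0
      have hD1 := hN d 1
      have hD2 := hN d 2
      rw [h.hdn _ (by norm_num)] at hD0 hD1 hD2
      have hDv := hV d
      rw [h.hdv] at hDv
      refine ⟨f 0, hfS 0, f 1, hfS 1, f 2, hfS 2, c, hcS, y, hyS, hf01, hf02, (hne 0).1, (hne 0).2, hf12, (hne 1).1, (hne 1).2,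
        (hne 2).1, (hne 2).2, hyc.symm, by rw [hvf]; exact hv2, by rw [hvf]; exact hv2, by rw [hvf]; exact hv2, hc1, hvy0, ?_⟩
      intro θ hθn hθv
      have hT0 := hN θ 0
      have hT1 := hN θ 1
      have hT2 := hN θ 2
      rw [hθn _ (by norm_num)] at hT0 hT1 hT2
      have hTv := hV θ
      rw [hθv] at hTv
      exact star_arith hε hcase.1 hvc' hτ (hdpos _ (hfS 0)) (hdpos _ (hfS 1)) (hdpos _ (hfS 2)) (hdpos _ hcS) (hdpos _ hyS)
        hD0.symm hD1.symm hD2.symm hDv.symm hT0.symm hT1.symm hT2.symm hTv.symm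
  · -- `dd = ε`, `J = 3`
    subst hJ3'
    push_cast at ha hrel hvnorm
    have ha2 : ∑ i ∈ off, a i ^ 2 = 1 := by
      rw [ha, hd1]
      have : ε ^ 2 = 1 := by rw [sq, hε2]
      nlinarith
    obtain ⟨y, hy', hya, hyrest⟩ := exists_of_sum_sq_one ha2
    have hyS := (hmemoff hy').1
    have hsum : ∑ i ∈ off, v i * a i = v y * a y :=
      sum_one_of y hy' _ (fun i hi hne => by rw [hyrest i hi hne, mul_zero])
    rw [hsum, hd1] at hrel
    have ty := term_cases (h.v_entry hyS) hya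
    have hτ := sq_one_cases hya
    have hv0 : v₀ ≠ 0 := by
      rintro hv0
      rw [hv0, zero_mul, zero_add] at hrel
      rcases ty with ⟨e1, -⟩ | ⟨e1, -⟩ | ⟨e1, -⟩ <;> omega
    obtain ⟨-, hv2, hvo⟩ := hvJ hv0
    obtain ⟨c, hc, hc1, hcrest⟩ := exists_of_sum_sq_one hvo
    have hcS := (hmemoff hc).1
    have hvc' := sq_one_cases hc1
    have hv0' := sq_one_cases hv2
    have hcase : ε * v₀ = 1 ∧ v y = 0 := by
      rcases ty with ⟨e1, e2⟩ | ⟨e1, e2⟩ | ⟨e1, e2⟩ <;> rcases hε with h4 | h4 <;> rcases hv0' with h5 | h5 <;>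
        rw [h4, h5] at hrel <;> rw [h4, h5] <;>
        first | (exfalso; omega) | exact ⟨by norm_num, e2⟩
    have hyc : y ≠ c := by
      rintro rfl
      rw [hcase.2] at hc1
      norm_num at hc1
    have hne : ∀ t : Fin 3, f t ≠ c ∧ f t ≠ y := by
      intro t
      exact ⟨fun h1 => (hmemoff hc).2 ⟨t, h1⟩, fun h1 => (hmemoff hy').2 ⟨t, h1⟩⟩
    have hf01 : f 0 ≠ f 1 := fun h1 => absurd (hinj h1) (by decide)
    have hf02 : f 0 ≠ f 2 := fun h1 => absurd (hinj h1) (by decide)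
    have hf12 : f 1 ≠ f 2 := fun h1 => absurd (hinj h1) (by decide)
    have hN : ∀ (θ : ι → ℤ) (t : Fin 3), ∑ i ∈ S, θ i * n i t.val =
        ε * (θ (f 0) + θ (f 1) + θ (f 2) - θ (f t)) + a y * θ y := by
      intro θ t
      rw [hs]
      have h1 : ∑ i ∈ off, θ i * n i t.val = a y * θ y := by
        rw [sum_one_of y hy' _ (fun i hi h3 => by
          rw [hoff t i (hmemoff hi).1 (hmemoff hi).2, hyrest i hi h3, mul_zero])]
        rw [hoff t y hyS (hmemoff hy').2]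
        ring
      rw [h1, Fin.sum_univ_three, hstd, hstd, hstd, hd1]
      fin_cases t <;> simp <;> ring
    have hV : ∀ θ : ι → ℤ, ∑ i ∈ S, θ i * v i = v₀ * (θ (f 0) + θ (f 1) + θ (f 2)) + v c * θ c := by
      intro θ
      rw [hs]
      have h1 : ∑ i ∈ off, θ i * v i = v c * θ c := by
        rw [sum_one_of c hc _ (fun i hi hne => by rw [hcrest i hi hne, mul_zero])]
        ring
      rw [h1, Fin.sum_univ_three, hvf, hvf, hvf]
      ring
    have hdpos := h.hd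
    have hD0 := hN d 0
    have hD1 := hN d 1
    have hD2 := hN d 2
    rw [h.hdn _ (by norm_num)] at hD0 hD1 hD2
    have hDv := hV d
    rw [h.hdv] at hDv
    right
    refine ⟨rfl, f 0, hfS 0, f 1, hfS 1, f 2, hfS 2, c, hcS, y, hyS, hf01, hf02, (hne 0).1, (hne 0).2, hf12, (hne 1).1, (hne 1).2,
      (hne 2).1, (hne 2).2, hyc.symm, by rw [hvf]; exact hv2, by rw [hvf]; exact hv2, by rw [hvf]; exact hv2, hc1, hcase.2, ?_⟩
    intro θ hθn hθv
    have hT0 := hN θ 0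
    have hT1 := hN θ 1
    have hT2 := hN θ 2
    rw [hθn _ (by norm_num)] at hT0 hT1 hT2
    have hTv := hV θ
    rw [hθv] at hTv
    have e0 : ε * (d (f 1) + d (f 2)) + a y * d y = 0 := by
      have := hD0.symm
      linarith
    have e1 : ε * (d (f 0) + d (f 2)) + a y * d y = 0 := by
      have := hD1.symm
      linarith
    have e2 : ε * (d (f 0) + d (f 1)) + a y * d y = 0 := by
      have := hD2.symm
      linarith
    have e3 : ε * (θ (f 1) + θ (f 2)) + a y * θ y = 0 := by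
      have := hT0.symm
      linarith
    have e4 : ε * (θ (f 0) + θ (f 2)) + a y * θ y = 0 := by
      have := hT1.symm
      linarith
    have e5 : ε * (θ (f 0) + θ (f 1)) + a y * θ y = 0 := by
      have := hT2.symm
      linarith
    exact tri_arith hε hcase.1 hvc' hτ (hdpos _ (hfS 0)) (hdpos _ (hfS 1)) (hdpos _ (hfS 2)) (hdpos _ hcS) (hdpos _ hyS)
      e0 e1 e2 hDv.symm e3 e4 e5 hTv.symm

end Core

end Cfsg.Agent.Lib.Blocks.Quat
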