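/-
Quaternion defect groups: the integer lattice of the columns, the shape of the vectors `m`.
-/
import Mathlib
import Cfsg.Agent.Lib.Blocks.Quat7

set_option autoImplicit false
set_option linter.style.haveILetI false

namespace Cfsg.Agent.Lib.Blocks.Quat

open Cfsg.Agent.Lib.Blocks.Tame

section M

variable {ι : Type*} [DecidableEq ι]

/-- The shape of the vectors `m`. -/
structure MShape (S : Finset ι) (J : ℕ) (m : ι → ℕ → ℤ) (q₀ : ι) (q : Fin J → ι) (ε : ℤ) : Prop where
  hq₀ : q₀ ∈ S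
  hq : ∀ t, q t ∈ S
  hinj : Function.Injective q
  hne : ∀ t, q₀ ≠ q t
  hε : ε = 1 ∨ ε = -1
  hm₀ : ∀ t : Fin J, m q₀ t.val = ε
  hmq : ∀ s t : Fin J, m (q s) t.val = if s = t then -ε else 0
  hm0 : ∀ t : Fin J, ∀ i ∈ S, i ≠ q₀ → (∀ s, i ≠ q s) → m i t.val = 0

variable {S : Finset ι} {J : ℕ} {n m : ι → ℕ → ℤ} {v d : ι → ℤ}

/-- The case of one vector `m`. -/
theorem NCore.m_shape_one (h : NCore S 1 n m v d) :
    ∃ (q₀ : ι) (q : Fin 1 → ι) (ε : ℤ), MShape S 1 m q₀ q ε := by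
  have h1 : ∑ i ∈ S, m i 0 ^ 2 = 2 := by
    simp only [sq]
    have := h.hmm 0 (by norm_num) 0 (by norm_num)
    simpa using this
  obtain ⟨a, ha, b, hb, hab, ha1, hb1, hrest⟩ := exists_of_sum_sq_two h1
  have h2 := h.hdm 0 (by norm_num)
  rw [sum_two_of ha hb hab _ (fun i hi h3 h4 => by rw [hrest i hi h3 h4, mul_zero])] at h2
  have hda := h.hd a ha
  have hdb := h.hd b hb
  have hεa := sq_one_cases ha1
  have hεb := sq_one_cases hb1
  have hopp : m b 0 = -m a 0 := by
    rcases hεa with e1 | e1 <;> rcases hεb with e2 | e2 <;> rw [e1, e2] at h2 <;> rw [e1, e2] <;> omega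
  have hF : ∀ t : Fin 1, t.val = 0 := fun t => by omega
  refine ⟨a, fun _ => b, m a 0, ⟨ha, fun _ => hb, fun x y _ => Subsingleton.elim x y, fun _ => hab, hεa, ?_, ?_, ?_⟩⟩
  · intro t
    rw [hF t]
  · intro s t
    rw [hF t, if_pos (Subsingleton.elim s t), hopp]
  · intro t i hi h3 h4
    rw [hF t]
    exact hrest i hi h3 (h4 ⟨0, by norm_num⟩)

open Classical in
/-- **The shape of the vectors `m`, in the case of many vectors.** -/
theorem NCore.m_shape_big (h : NCore S J n m v d) (hJ : 3 ≤ J)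
    (hlat : ∃ (dd ε : ℤ) (f : Fin J → ι) (a : ι → ℤ), Function.Injective f ∧ (∀ t, f t ∈ S) ∧ (ε = 1 ∨ ε = -1) ∧
      (∀ s t : Fin J, m (f t) s.val = dd - ε * if s = t then 1 else 0) ∧
      (∀ t : Fin J, ∀ i ∈ S, i ∉ Set.range f → m i t.val = a i) ∧
      ∑ i ∈ S.filter (· ∉ Set.range f), a i ^ 2 = 1 - (J : ℤ) * dd ^ 2 + 2 * (dd * ε)) :
    ∃ (q₀ : ι) (q : Fin J → ι) (ε : ℤ), MShape S J m q₀ q ε := by
  classical
  obtain ⟨dd, ε, f, a, hinj, hfS, hε, hstd, hoff, ha⟩ := hlat
  set off := S.filter (· ∉ Set.range f) with hoffdef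
  have hs : ∀ u : ι → ℤ, ∑ i ∈ S, u i = ∑ t, u (f t) + ∑ i ∈ off, u i :=
    fun u => sum_split hinj hfS u
  have hε2 : ε * ε = 1 := by rcases hε with rfl | rfl <;> norm_num
  have hε0 : ε ≠ 0 := by rcases hε with rfl | rfl <;> norm_num
  have hmemoff : ∀ {i}, i ∈ off → i ∈ S ∧ i ∉ Set.range f := fun hi => Finset.mem_filter.mp hi
  have hanon : 0 ≤ ∑ i ∈ off, a i ^ 2 := sum_nonneg_sq _ _
  have hJ3 : (3 : ℤ) ≤ J := by exact_mod_cast hJ
  have h0 : 0 ≤ 1 - (J : ℤ) * dd ^ 2 + 2 * (dd * ε) := by rw [← ha]; exact hanon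
  have h1 : (dd * ε) ^ 2 = dd ^ 2 := by
    rw [mul_pow, sq ε, hε2, mul_one]
  have h2 : dd * ε = 0 ∨ dd * ε = 1 := by
    have h3 : 3 * (dd * ε) ^ 2 - 2 * (dd * ε) - 2 ≤ 0 := by
      rw [h1]
      nlinarith [sq_nonneg dd]
    exact int_sq_small h3
  have hdpos := h.hd
  rcases h2 with h2 | h2
  · -- `dd = 0`
    have hd0 : dd = 0 := (mul_eq_zero.mp h2).resolve_right hε0
    have ha2 : ∑ i ∈ off, a i ^ 2 = 1 := by rw [ha, hd0]; ring
    obtain ⟨q₀, hq, hq1, hqrest⟩ := exists_of_sum_sq_one ha2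
    have hq₀S := (hmemoff hq).1
    have hnstd : ∀ s t : Fin J, m (f s) t.val = if s = t then -ε else 0 := by
      intro s t
      rw [hstd, hd0]
      by_cases h3 : t = s
      · rw [if_pos h3, if_pos h3.symm]
        ring
      · rw [if_neg h3, if_neg (fun h4 => h3 h4.symm)]
        ring
    -- the sign
    have hsign : a q₀ = ε := by
      have ht : (0 : ℕ) < J := by omega
      have h3 := h.hdm 0 ht
      rw [hs] at h3
      have h4 : ∑ i ∈ off, d i * m i 0 = d q₀ * a q₀ := by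
        rw [sum_one_of q₀ hq _ (fun i hi hne => by
          have := hoff ⟨0, ht⟩ i (hmemoff hi).1 (hmemoff hi).2
          simp only at this
          rw [this, hqrest i hi hne, mul_zero])]
        have := hoff ⟨0, ht⟩ q₀ hq₀S (hmemoff hq).2
        simp only at this
        rw [this]
      have h5 : ∑ r : Fin J, d (f r) * m (f r) 0 = d (f ⟨0, ht⟩) * (-ε) := by
        rw [Finset.sum_eq_single (⟨0, ht⟩ : Fin J)]
        · have e : m (f ⟨0, ht⟩) 0 = -ε := by
            have := hnstd ⟨0, ht⟩ ⟨0, ht⟩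
            rw [if_pos rfl] at this
            exact this
          rw [e]
        · intro r _ hne
          have e : m (f r) 0 = 0 := by
            have := hnstd r ⟨0, ht⟩
            rw [if_neg hne] at this
            exact this
          rw [e, mul_zero]
        · intro h6
          exact absurd (Finset.mem_univ _) h6
      rw [h4, h5] at h3
      have hd1 := hdpos _ (hfS ⟨0, ht⟩)
      have hd2 := hdpos _ hq₀S
      rcases hε with rfl | rfl <;> rcases sq_one_cases hq1 with e | e <;> rw [e] at h3 ⊢ <;> omega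
    refine ⟨q₀, f, ε, ⟨hq₀S, hfS, hinj, fun t h3 => (hmemoff hq).2 ⟨t, h3.symm⟩, hε, ?_, ?_, ?_⟩⟩
    · intro t
      rw [hoff t q₀ hq₀S (hmemoff hq).2, hsign]
    · intro s t
      rw [hnstd]
    · intro t i hi h3 h4
      have hio : i ∈ off := Finset.mem_filter.mpr ⟨hi, by
        rintro ⟨s, rfl⟩
        exact h4 s rfl⟩
      rw [hoff t i hi (hmemoff hio).2, hqrest i hio h3]
  · -- `dd = ε` is impossible
    exfalso
    have hd1 : dd = ε := by
      have : dd * ε * ε = 1 * ε := by rw [h2]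
      rw [mul_assoc, hε2, mul_one, one_mul] at this
      exact this
    rw [hd1, sq ε, hε2] at h0
    have hJ3' : J = 3 := by
      have : (J : ℤ) ≤ 3 := by linarith
      omega
    subst hJ3'
    push_cast at ha
    have ha2 : ∑ i ∈ off, a i ^ 2 = 0 := by
      rw [ha, hd1, sq ε, hε2]
      norm_num
    have ha0 : ∀ i ∈ off, a i = 0 := by
      intro i hi
      have h5 := (Finset.sum_eq_zero_iff_of_nonneg (fun j _ => sq_nonneg (a j))).mp ha2 i hi
      exact pow_eq_zero_iff (by norm_num) |>.mp h5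
    have h3 := h.hdm 0 (by norm_num)
    rw [hs] at h3
    have h4 : ∑ i ∈ off, d i * m i 0 = 0 := by
      refine Finset.sum_eq_zero fun i hi => ?_
      have := hoff 0 i (hmemoff hi).1 (hmemoff hi).2
      simp only [Fin.val_zero] at this
      rw [this, ha0 i hi, mul_zero]
    rw [h4, add_zero, Fin.sum_univ_three] at h3
    have e0 := hstd 0 0
    have e1 := hstd 0 1
    have e2 := hstd 0 2
    simp only [Fin.val_zero] at e0 e1 e2
    rw [e0, e1, e2, hd1] at h3
    have hd01 : (0 : Fin 3) ≠ 1 := by decide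
    have hd02 : (0 : Fin 3) ≠ 2 := by decide
    simp only [if_true, hd01, hd02, if_false] at h3
    have hp1 := hdpos _ (hfS 1)
    have hp2 := hdpos _ (hfS 2)
    rcases hε with rfl | rfl <;> omega

/-- The sums along the vectors `m`. -/
lemma MShape.sum_eq {q₀ : ι} {q : Fin J → ι} {ε : ℤ} (h : MShape S J m q₀ q ε) (u : ι → ℤ) (t : Fin J) :
    ∑ i ∈ S, u i * m i t.val = ε * (u q₀ - u (q t)) := by
  rw [sum_two_of h.hq₀ (h.hq t) (h.hne t) _ (fun i hi h3 h4 => by
    by_cases h5 : ∃ s, i = q s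
    · obtain ⟨s, rfl⟩ := h5
      have hst : s ≠ t := fun h6 => h4 (by rw [h6])
      rw [h.hmq, if_neg hst, mul_zero]
    · push Not at h5
      rw [h.hm0 t i hi h3 h5, mul_zero])]
  rw [h.hm₀, h.hmq, if_pos rfl]
  ring

/-- The profile along the vectors `m` is constant. -/
lemma MShape.profile {q₀ : ι} {q : Fin J → ι} {ε : ℤ} (h : MShape S J m q₀ q ε) {u : ι → ℤ}
    (hu : ∀ t : Fin J, ∑ i ∈ S, u i * m i t.val = 0) (t : Fin J) : u (q t) = u q₀ := by
  have h1 := hu t
  rw [h.sum_eq] at h1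
  have h2 : ε ≠ 0 := by rcases h.hε with rfl | rfl <;> norm_num
  have h3 := (mul_eq_zero.mp h1).resolve_left h2
  linarith

lemma four_in_three {a b c e x y z : ι} (hab : a ≠ b) (hac : a ≠ c) (hae : a ≠ e) (hbc : b ≠ c) (hbe : b ≠ e) (hce : c ≠ e)
    (ha : a = x ∨ a = y ∨ a = z) (hb : b = x ∨ b = y ∨ b = z) (hc : c = x ∨ c = y ∨ c = z) (he : e = x ∨ e = y ∨ e = z) :
    False := by
  have h4 : ({a, b, c, e} : Finset ι).card = 4 := by
    rw [Finset.card_insert_of_notMem (by simp [hab, hac, hae]), Finset.card_insert_of_notMem (by simp [hbc, hbe]),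
      Finset.card_pair hce]
  have h3 : ({x, y, z} : Finset ι).card ≤ 3 := Finset.card_le_three
  have hsub : ({a, b, c, e} : Finset ι) ⊆ {x, y, z} := by
    intro i hi
    simp only [Finset.mem_insert, Finset.mem_singleton] at hi ⊢
    rcases hi with rfl | rfl | rfl | rfl <;> assumption
  have := Finset.card_le_card hsub
  omega

end M

end Cfsg.Agent.Lib.Blocks.Quat
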