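/-
Quaternion defect groups: the numerical theorem, the rows of the matrix of the central involution.
-/
import Mathlib
import Cfsg.Agent.Lib.Blocks.Quat7b

set_option autoImplicit false
set_option linter.style.haveILetI false

namespace Cfsg.Agent.Lib.Blocks.Quat

open Cfsg.Agent.Lib.Blocks.Tame

section Num

variable {ι : Type*} [DecidableEq ι]

/-- The integer column at the central involution. -/
def Yf (g J : ℕ) (n m : ι → ℕ → ℤ) (v e : ι → ℤ) (i : ι) : ℤ :=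
  2 ^ g * e i + v i + 2 * ∑ j ∈ Finset.range J, n i j - 2 * ∑ j ∈ Finset.range J, m i j

/-- The numerical data of a block with generalized quaternion defect group. -/
structure QNum (S : Finset ι) (J g l : ℕ) (n m : ι → ℕ → ℤ) (v d e : ι → ℤ) (X : ι → ι → ℤ) (h : ι → ℕ) : Prop
    extends NCore S J n m v d where
  hg : 1 ≤ g
  hJg : 2 * (J + 1) = 2 ^ g
  hXs : ∀ a c, X a c = X c a
  hXr : ∀ a ∈ S, ∀ c ∈ S, ∑ i ∈ S, X a i * X c i = 4 * 2 ^ g * X a c
  hXn : ∀ a ∈ S, ∀ t < J, ∑ i ∈ S, X a i * n i t = 0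
  hXm : ∀ a ∈ S, ∀ t < J, ∑ i ∈ S, X a i * m i t = 0
  hXv : ∀ a ∈ S, ∑ i ∈ S, X a i * v i = 0
  hXo : ∀ a ∈ S, ∀ c ∈ S, h c = 0 → ∃ r, Odd r ∧ X a c = 2 ^ h a * r
  hYv : (∃ i ∈ S, Odd (Yf g J n m v e i)) → ∀ i ∈ S, ∃ r, Odd r ∧ Yf g J n m v e i = 2 ^ h i * r
  hcard : S.card = l + 2 ^ g + 2
  hl : 1 ≤ l

variable {S : Finset ι} {J g l : ℕ} {n m : ι → ℕ → ℤ} {v d e : ι → ℤ} {X : ι → ι → ℤ} {h : ι → ℕ}

namespace QNum

variable (H : QNum S J g l n m v d e X h)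
include H

theorem pow_g : ∃ g' : ℕ, (2 : ℤ) ^ g = 2 * 2 ^ g' ∧ g = g' + 1 := by
  obtain ⟨g', hg'⟩ : ∃ g', g = g' + 1 := ⟨g - 1, by have := H.hg; omega⟩
  subst hg'
  exact ⟨g', by rw [pow_succ]; ring, rfl⟩

theorem Yf_eq (i : ι) : ∃ w : ℤ, Yf g J n m v e i = v i + 2 * w := by
  obtain ⟨g', h1, -⟩ := H.pow_g
  refine ⟨2 ^ g' * e i + ∑ j ∈ Finset.range J, n i j - ∑ j ∈ Finset.range J, m i j, ?_⟩
  unfold Yf
  rw [h1]
  ring

/-- The four entries of `v`. -/
theorem exists_V : ∃ a ∈ S, ∃ b ∈ S, ∃ c ∈ S, ∃ f ∈ S, a ≠ b ∧ a ≠ c ∧ a ≠ f ∧ b ≠ c ∧ b ≠ f ∧ c ≠ f ∧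
    v a ^ 2 = 1 ∧ v b ^ 2 = 1 ∧ v c ^ 2 = 1 ∧ v f ^ 2 = 1 ∧ ∀ i ∈ S, i ≠ a → i ≠ b → i ≠ c → i ≠ f → v i = 0 :=
  H.toNCore.v_shape

theorem odd_of_sq {u : ℤ} (hu : u ^ 2 = 1) : Odd u := by
  rcases sq_one_cases hu with rfl | rfl <;> decide

/-- The column at `z` has the valuation of the heights. -/
theorem hY : ∀ i ∈ S, ∃ r, Odd r ∧ Yf g J n m v e i = 2 ^ h i * r := by
  apply H.hYv
  obtain ⟨a, ha, -, -, -, -, -, -, -, -, -, -, -, -, h1, -, -, -, -⟩ := H.exists_V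
  refine ⟨a, ha, ?_⟩
  obtain ⟨w, hw⟩ := H.Yf_eq a
  rw [hw]
  obtain ⟨k, hk⟩ := odd_of_sq H h1
  exact ⟨k + w, by rw [hk]; ring⟩

/-- **Height zero means `v ≠ 0`.** -/
theorem h_zero_iff {i : ι} (hi : i ∈ S) : h i = 0 ↔ v i ≠ 0 := by
  obtain ⟨r, ⟨k, hk⟩, hr⟩ := H.hY i hi
  obtain ⟨w, hw⟩ := H.Yf_eq i
  rw [hw, hk] at hr
  constructor
  · intro h0 hv
    rw [h0, hv, pow_zero] at hr
    omega
  · intro hv
    by_contra h0
    obtain ⟨j, hj⟩ : ∃ j, h i = j + 1 := ⟨h i - 1, by omega⟩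
    rw [hj, pow_succ] at hr
    rcases H.toNCore.v_entry hi with h1 | h1
    · exact hv h1
    · obtain ⟨k', hk'⟩ := odd_of_sq H h1
      rw [hk'] at hr
      have h2 : (2 : ℤ) ^ j * 2 * (2 * k + 1) = 2 * (2 ^ j * (2 * k + 1)) := by ring
      rw [h2] at hr
      omega

theorem row_sum {a : ι} (ha : a ∈ S) : ∑ i ∈ S, X a i ^ 2 = 4 * 2 ^ g * X a a := by
  have := H.hXr a ha a ha
  simp only [sq]
  exact this

theorem X_ne {a c : ι} (ha : a ∈ S) (hc : c ∈ S) (hv : v c ≠ 0) : ∃ r, Odd r ∧ X a c = 2 ^ h a * r :=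
  H.hXo a ha c hc ((H.h_zero_iff hc).mpr hv)

theorem X_ne_zero {a c : ι} (ha : a ∈ S) (hc : c ∈ S) (hv : v c ≠ 0) : X a c ≠ 0 := by
  obtain ⟨r, ⟨k, hk⟩, hr⟩ := H.X_ne ha hc hv
  rw [hr, hk]
  refine mul_ne_zero (by positivity) ?_
  omega

theorem v_sq_of_ne {c : ι} (hc : c ∈ S) (hv : v c ≠ 0) : v c ^ 2 = 1 :=
  (H.toNCore.v_entry hc).resolve_left hv

omit H in
lemma ne_zero_of_sq {u : ℤ} (hu : u ^ 2 = 1) : u ≠ 0 := by
  rintro rfl
  norm_num at hu

theorem exists_third (a b : ι) : ∃ c ∈ S, c ≠ a ∧ c ≠ b ∧ v c ≠ 0 := by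
  obtain ⟨a', ha', b', hb', c', hc', f', hf', hab, hac, hae, hbc, hbe, hce, h1, h2, h3, h4, -⟩ := H.exists_V
  by_contra hno
  push Not at hno
  have key : ∀ u ∈ S, v u ^ 2 = 1 → u = a ∨ u = b ∨ u = a := by
    intro u hu hu1
    by_cases e1 : u = a
    · exact Or.inl e1
    by_cases e2 : u = b
    · exact Or.inr (Or.inl e2)
    exact absurd (hno u hu e1 e2) (ne_zero_of_sq hu1)
  exact four_in_three hab hac hae hbc hbe hce (key _ ha' h1) (key _ hb' h2) (key _ hc' h3) (key _ hf' h4)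

theorem row_lt {a b : ι} (ha : a ∈ S) (hb : b ∈ S) (hab : a ≠ b) : X a b ^ 2 < 4 * (2 ^ g) ^ 2 := by
  obtain ⟨c, hc, hca, hcb, hcv⟩ := H.exists_third a b
  have h1 := three_le_sum ha hb hc hab hca.symm hcb.symm (fun i => X a i)
  rw [H.row_sum ha] at h1
  have h2 : X a c ≠ 0 := H.X_ne_zero ha hc hcv
  have h3 : 1 ≤ X a c ^ 2 := by
    have h4 := sq_nonneg (X a c)
    have h5 := pow_ne_zero 2 h2
    omega
  generalize ((2 : ℤ) ^ g) = N at *
  nlinarith [sq_nonneg (X a a - 2 * N)]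

omit H in
lemma sum_sq_ge {W U : Finset ι} (hW : W ⊆ S) (hU : U ⊆ S) (hd : Disjoint W U) (f : ι → ℤ) {c : ℤ}
    (hc : ∀ i ∈ U, c ≤ f i ^ 2) :
    ∑ i ∈ W, f i ^ 2 + U.card * c ≤ ∑ i ∈ S, f i ^ 2 := by
  have h1 : ∑ i ∈ W ∪ U, f i ^ 2 ≤ ∑ i ∈ S, f i ^ 2 :=
    Finset.sum_le_sum_of_subset_of_nonneg (Finset.union_subset hW hU) (fun i _ _ => sq_nonneg _)
  rw [Finset.sum_union hd] at h1
  have h2 : (U.card : ℤ) * c ≤ ∑ i ∈ U, f i ^ 2 := by
    have := Finset.card_nsmul_le_sum U (fun i => f i ^ 2) c hc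
    simpa using this
  linarith

/-- **The pair bound.** -/
theorem pair_bound {a c : ι} (ha : a ∈ S) (hc : c ∈ S) (hac : a ≠ c) {s s' : ℤ} (hs : s ^ 2 = 1) (hs' : s' ^ 2 = 1)
    {U : Finset ι} (hU : U ⊆ S) (hUa : a ∉ U) (hUc : c ∉ U)
    (hθ : ∀ i ∈ U, 4 * (2 ^ g) ^ 2 ≤ (s * X a i - s' * X c i) ^ 2) : U.card ≤ 2 := by
  set θ : ι → ℤ := fun i => s * X a i - s' * X c i with hθdef
  have hsum : ∑ i ∈ S, θ i ^ 2 = 4 * 2 ^ g * (X a a + X c c - 2 * (s * s') * X a c) := by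
    have h1 : ∀ i, θ i ^ 2 = s ^ 2 * (X a i * X a i) + s' ^ 2 * (X c i * X c i) - 2 * (s * s') * (X a i * X c i) := by
      intro i
      simp only [hθdef]
      ring
    simp only [h1, hs, hs', one_mul]
    rw [Finset.sum_sub_distrib, Finset.sum_add_distrib, ← Finset.mul_sum, H.hXr a ha a ha, H.hXr c hc c hc,
      H.hXr a ha c hc]
    ring
  have hW : ({a, c} : Finset ι) ⊆ S := by
    intro i hi
    simp only [Finset.mem_insert, Finset.mem_singleton] at hi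
    rcases hi with rfl | rfl <;> assumption
  have hd : Disjoint ({a, c} : Finset ι) U := by
    rw [Finset.disjoint_left]
    intro i hi
    simp only [Finset.mem_insert, Finset.mem_singleton] at hi
    rcases hi with rfl | rfl <;> assumption
  have hge := sum_sq_ge hW hU hd θ hθ
  rw [hsum, Finset.sum_pair hac] at hge
  set T := X a a + X c c - 2 * (s * s') * X a c with hT
  have hTθ : T = s * θ a - s' * θ c := by
    simp only [hθdef, hT]
    rw [H.hXs c a]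
    have e1 : s * (s * X a a - s' * X a c) = s ^ 2 * X a a - s * s' * X a c := by ring
    have e2 : s' * (s * X a c - s' * X c c) = s * s' * X a c - s' ^ 2 * X c c := by ring
    rw [e1, e2, hs, hs']
    ring
  have hT2 : T ^ 2 ≤ 2 * (θ a ^ 2 + θ c ^ 2) := by
    have e : (s * θ a - s' * θ c) ^ 2 + (s * θ a + s' * θ c) ^ 2 = 2 * (s ^ 2 * θ a ^ 2 + s' ^ 2 * θ c ^ 2) := by ring
    rw [hs, hs'] at e
    rw [hTθ]
    nlinarith [sq_nonneg (s * θ a + s' * θ c)]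
  by_contra hcard
  have h3 : (3 : ℤ) ≤ U.card := by
    have : 3 ≤ U.card := by omega
    exact_mod_cast this
  have hN : (0 : ℤ) < (2 : ℤ) ^ g := by positivity
  generalize ((2 : ℤ) ^ g) = N at *
  have h4 : 3 * (4 * N ^ 2) ≤ (U.card : ℤ) * (4 * N ^ 2) :=
    mul_le_mul_of_nonneg_right h3 (by positivity)
  nlinarith [sq_nonneg (T - 4 * N), mul_pos hN hN]

theorem card_V : (S.filter (fun i => v i ≠ 0)).card = 4 := by
  obtain ⟨a, ha, b, hb, c, hc, f, hf, hab, hac, haf, hbc, hbf, hcf, h1, h2, h3, h4, hr⟩ := H.exists_V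
  have e : S.filter (fun i => v i ≠ 0) = {a, b, c, f} := by
    ext i
    simp only [Finset.mem_filter, Finset.mem_insert, Finset.mem_singleton]
    constructor
    · rintro ⟨hi, hv⟩
      by_contra hno
      push Not at hno
      exact hv (hr i hi hno.1 hno.2.1 hno.2.2.1 hno.2.2.2)
    · rintro (rfl | rfl | rfl | rfl)
      · exact ⟨ha, ne_zero_of_sq h1⟩
      · exact ⟨hb, ne_zero_of_sq h2⟩
      · exact ⟨hc, ne_zero_of_sq h3⟩
      · exact ⟨hf, ne_zero_of_sq h4⟩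
  rw [e, Finset.card_insert_of_notMem (by simp [hab, hac, haf]), Finset.card_insert_of_notMem (by simp [hbc, hbf]),
    Finset.card_pair hcf]

theorem v_zero_of_four {a b c f i : ι} (ha : a ∈ S) (hb : b ∈ S) (hc : c ∈ S) (hf : f ∈ S) (hab : a ≠ b) (hac : a ≠ c)
    (haf : a ≠ f) (hbc : b ≠ c) (hbf : b ≠ f) (hcf : c ≠ f) (va : v a ≠ 0) (vb : v b ≠ 0) (vc : v c ≠ 0) (vf : v f ≠ 0)
    (hi : i ∈ S) (hia : i ≠ a) (hib : i ≠ b) (hic : i ≠ c) (hif : i ≠ f) : v i = 0 := by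
  by_contra hv
  have hsub : ({i, a, b, c, f} : Finset ι) ⊆ S.filter (fun i => v i ≠ 0) := by
    intro u hu
    simp only [Finset.mem_insert, Finset.mem_singleton] at hu
    rw [Finset.mem_filter]
    rcases hu with rfl | rfl | rfl | rfl | rfl <;> exact ⟨by assumption, by assumption⟩
  have h5 : ({i, a, b, c, f} : Finset ι).card = 5 := by
    rw [Finset.card_insert_of_notMem (by simp [hia, hib, hic, hif]), Finset.card_insert_of_notMem (by simp [hab, hac, haf]),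
      Finset.card_insert_of_notMem (by simp [hbc, hbf]), Finset.card_pair hcf]
  have := Finset.card_le_card hsub
  rw [h5, H.card_V] at this
  omega

/-- The height of a character on which no vector lives. -/
theorem E_height {i : ι} (hi : i ∈ S) (hv : v i = 0) (hn : ∀ t : Fin J, n i t.val = 0) (hm : ∀ t : Fin J, m i t.val = 0) :
    g ≤ h i := by
  obtain ⟨r, ⟨k, hk⟩, hr⟩ := H.hY i hi
  have e1 : ∑ j ∈ Finset.range J, n i j = 0 := by
    rw [Finset.sum_range]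
    exact Finset.sum_eq_zero fun t _ => hn t
  have e2 : ∑ j ∈ Finset.range J, m i j = 0 := by
    rw [Finset.sum_range]
    exact Finset.sum_eq_zero fun t _ => hm t
  unfold Yf at hr
  rw [e1, e2, hv] at hr
  by_contra hlt
  obtain ⟨j, hj⟩ : ∃ j, h i = g - j - 1 ∧ g = h i + j + 1 := ⟨g - h i - 1, by omega, by omega⟩
  rw [hj.2, pow_succ, pow_add, hk] at hr
  have h2 : (2 : ℤ) ^ h i ≠ 0 := by positivity
  have h3 : (2 : ℤ) ^ h i * (2 * k + 1) = 2 ^ h i * (2 ^ j * 2 * e i) := by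
    rw [← hr]
    ring
  have h4 := mul_left_cancel₀ h2 h3
  have h5 : (2 : ℤ) ^ j * 2 * e i = 2 * (2 ^ j * e i) := by ring
  rw [h5] at h4
  omega

theorem X_sq_ge {i c : ι} (hi : i ∈ S) (hc : c ∈ S) (hv : v c ≠ 0) {k : ℕ} (hk : k ≤ h i) :
    ((2 : ℤ) ^ k) ^ 2 ≤ X c i ^ 2 := by
  obtain ⟨r, ⟨a, ha⟩, hX⟩ := H.X_ne hi hc hv
  rw [H.hXs c i, hX]
  obtain ⟨j, hj⟩ : ∃ j, h i = k + j := ⟨h i - k, by omega⟩
  rw [hj, pow_add, mul_pow, mul_pow]
  have h1 : (1 : ℤ) ≤ r ^ 2 := by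
    have h2 : r ≠ 0 := by omega
    have h3 := pow_ne_zero 2 h2
    have h4 := sq_nonneg r
    omega
  have h2 : (1 : ℤ) ≤ ((2 : ℤ) ^ j) ^ 2 := by
    have h3 : (1 : ℤ) ≤ (2 : ℤ) ^ j := one_le_pow₀ (by norm_num)
    nlinarith
  have h3 : (1 : ℤ) ≤ ((2 : ℤ) ^ j) ^ 2 * r ^ 2 := by nlinarith
  have h4 : (0 : ℤ) < ((2 : ℤ) ^ k) ^ 2 := by positivity
  nlinarith

/-- The entries of a row of the exceptional characters. -/
theorem E_entry {ξ c : ι} (hξ : ξ ∈ S) (hg : g ≤ h ξ) (hc : c ∈ S) (hv : v c ≠ 0) (hne : ξ ≠ c) :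
    h ξ = g ∧ X ξ c ^ 2 = ((2 : ℤ) ^ g) ^ 2 := by
  obtain ⟨r, ⟨a, ha⟩, hX⟩ := H.X_ne hξ hc hv
  have hlt := H.row_lt hξ hc hne
  obtain ⟨j, hj⟩ : ∃ j, h ξ = g + j := ⟨h ξ - g, by omega⟩
  rw [hX, hj, pow_add] at hlt
  have h1 : ((2 : ℤ) ^ j * r) ^ 2 < 4 := by
    have h2 : (0 : ℤ) < ((2 : ℤ) ^ g) ^ 2 := by positivity
    have h3 : ((2 : ℤ) ^ g) ^ 2 * ((2 : ℤ) ^ j * r) ^ 2 < ((2 : ℤ) ^ g) ^ 2 * 4 := by
      calc ((2 : ℤ) ^ g) ^ 2 * ((2 : ℤ) ^ j * r) ^ 2 = ((2 : ℤ) ^ g * 2 ^ j * r) ^ 2 := by ring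
        _ < 4 * ((2 : ℤ) ^ g) ^ 2 := hlt
        _ = _ := by ring
    exact lt_of_mul_lt_mul_left h3 h2.le
  have hr0 : r ≠ 0 := by omega
  have hr1 : (1 : ℤ) ≤ r ^ 2 := by
    have h3 := pow_ne_zero 2 hr0
    have h4 := sq_nonneg r
    omega
  have hj0 : j = 0 := by
    by_contra hj0
    obtain ⟨j', rfl⟩ : ∃ j', j = j' + 1 := ⟨j - 1, by omega⟩
    have h2 : (1 : ℤ) ≤ ((2 : ℤ) ^ j') ^ 2 := by
      have h3 : (1 : ℤ) ≤ (2 : ℤ) ^ j' := one_le_pow₀ (by norm_num)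
      nlinarith
    have h3 : ((2 : ℤ) ^ (j' + 1) * r) ^ 2 = 4 * (((2 : ℤ) ^ j') ^ 2 * r ^ 2) := by
      rw [pow_succ]
      ring
    rw [h3] at h1
    nlinarith
  subst hj0
  rw [pow_zero, one_mul] at h1
  have hr2 : r ^ 2 = 1 := by
    rcases int_sq_le_three (by omega : r ^ 2 ≤ 3) with h3 | h3 | h3
    · exact absurd h3 hr0
    · rw [h3]; norm_num
    · rw [h3]; norm_num
  refine ⟨by omega, ?_⟩
  rw [hX, hj, add_zero, mul_pow, hr2, mul_one]

omit H in
lemma sign_arith {a b N : ℤ} (ha : a ^ 2 = N ^ 2) (hb : b ^ 2 = N ^ 2) (hC : (a + b) ^ 2 < 4 * N ^ 2) :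
    4 * N ^ 2 ≤ (a - b) ^ 2 := by
  have h1 : (a - b) * (a + b) = 0 := by nlinarith
  rcases mul_eq_zero.mp h1 with h2 | h2
  · have h3 : a = b := by linarith
    subst h3
    exfalso
    nlinarith
  · have h3 : b = -a := by linarith
    subst h3
    nlinarith

omit H in
lemma two_of_three {A B C F : ℤ} (hA : A = 2 ∨ A = -2) (hB : B = 2 ∨ B = -2) (hC : C = 2 ∨ C = -2) (hF : F = 2 ∨ F = -2)
    (hs : A + B + C + F = 0) :
    2 ≤ (if (16 : ℤ) ≤ (A - B) ^ 2 then 1 else 0) + (if (16 : ℤ) ≤ (A - C) ^ 2 then 1 else 0) +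
      (if (16 : ℤ) ≤ (A - F) ^ 2 then 1 else 0) := by
  rcases hA with rfl | rfl <;> rcases hB with rfl | rfl <;> rcases hC with rfl | rfl <;> rcases hF with rfl | rfl <;>
    first
      | (exfalso; omega)
      | norm_num

/-- The bound on the exceptional characters, one vector at least. -/
theorem E_card_shape {y₁ y₂ : ι} {p : Fin J → ι} {ε : ℤ} (hJ : 1 ≤ J) (hN : NShape S J n v y₁ y₂ p ε) {E : Finset ι}
    (hE : E ⊆ S) (hEv : ∀ ξ ∈ E, v ξ = 0) (hEg : ∀ ξ ∈ E, g ≤ h ξ) (hEn : ∀ ξ ∈ E, ∀ t : Fin J, n ξ t.val = 0) :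
    E.card ≤ 2 := by
  have hv₁ := ne_zero_of_sq hN.hv₁
  have hv₂ := ne_zero_of_sq hN.hv₂
  refine H.pair_bound hN.hy₁ hN.hy₂ hN.hy hN.hv₁ hN.hv₂ hE (fun h1 => hv₁ (hEv _ h1)) (fun h1 => hv₂ (hEv _ h1)) ?_
  intro ξ hξ
  have hξS := hE hξ
  set t₀ : Fin J := ⟨0, hJ⟩ with ht₀
  have hεne : ε ≠ 0 := by rcases hN.hε with rfl | rfl <;> norm_num
  have hpt : n (p t₀) 0 = ε := by
    have := hN.hnp t₀ t₀
    rw [if_pos rfl] at this
    exact this
  have hy₁p : y₁ ≠ p t₀ := fun h1 => hv₁ (by rw [h1]; exact hN.hvp t₀)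
  have hy₂p : y₂ ≠ p t₀ := fun h1 => hv₂ (by rw [h1]; exact hN.hvp t₀)
  have h1 := H.hXn ξ hξS 0 hJ
  rw [sum_three_of hN.hy₁ hN.hy₂ (hN.hp t₀) hN.hy hy₁p hy₂p _ (fun i hi h2 h3 h4 => by
    by_cases h5 : ∃ s, i = p s
    · obtain ⟨s, rfl⟩ := h5
      have hst : s ≠ t₀ := fun h6 => h4 (by rw [h6])
      have := hN.hnp s t₀
      rw [if_neg hst] at this
      have e : n (p s) 0 = 0 := this
      rw [e, mul_zero]
    · push Not at h5
      have := hN.hn0 t₀ i hi h2 h3 h5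
      have e : n i 0 = 0 := this
      rw [e, mul_zero])] at h1
  have e1 : n y₁ 0 = v y₁ := hN.hn₁ t₀
  have e2 : n y₂ 0 = v y₂ := hN.hn₂ t₀
  rw [e1, e2, hpt] at h1
  have hξy₁ : ξ ≠ y₁ := fun h2 => hv₁ (by rw [← h2]; exact hEv ξ hξ)
  have hξy₂ : ξ ≠ y₂ := fun h2 => hv₂ (by rw [← h2]; exact hEv ξ hξ)
  have hξp : ξ ≠ p t₀ := by
    intro h2
    have h3 := hEn ξ hξ t₀
    rw [h2] at h3
    exact hεne (by rw [← hpt]; exact h3)
  have a1 := (H.E_entry hξS (hEg ξ hξ) hN.hy₁ hv₁ hξy₁).2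
  have a2 := (H.E_entry hξS (hEg ξ hξ) hN.hy₂ hv₂ hξy₂).2
  have a3 := H.row_lt hξS (hN.hp t₀) hξp
  rw [H.hXs y₁ ξ, H.hXs y₂ ξ]
  refine sign_arith (a := v y₁ * X ξ y₁) (b := v y₂ * X ξ y₂) ?_ ?_ ?_
  · rw [mul_pow, hN.hv₁, one_mul, a1]
  · rw [mul_pow, hN.hv₂, one_mul, a2]
  · have h2 : v y₁ * X ξ y₁ + v y₂ * X ξ y₂ = -(ε * X ξ (p t₀)) := by linarith
    rw [h2, neg_sq, mul_pow]
    have : ε ^ 2 = 1 := by rcases hN.hε with rfl | rfl <;> norm_num
    rw [this, one_mul]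
    exact a3

/-- The bound on the exceptional characters, no vector. -/
theorem E_card_zero (hJ : J = 0) {E : Finset ι} (hE : E ⊆ S) (hEv : ∀ ξ ∈ E, v ξ = 0) (hEg : ∀ ξ ∈ E, g ≤ h ξ) :
    E.card ≤ 3 := by
  classical
  have hg1 : g = 1 := by
    have h1 := H.hJg
    rw [hJ] at h1
    have h2 : 2 ^ g = 2 ^ 1 := by omega
    exact Nat.pow_right_injective (le_refl 2) h2
  obtain ⟨a, ha, b, hb, c, hc, f, hf, hab, hac, haf, hbc, hbf, hcf, h1, h2, h3, h4, hr⟩ := H.exists_V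
  have va := ne_zero_of_sq h1
  have vb := ne_zero_of_sq h2
  have vc := ne_zero_of_sq h3
  have vf := ne_zero_of_sq h4
  have hU : ∀ {j : ι}, j ∈ S → a ≠ j → v j ^ 2 = 1 →
      (E.filter (fun ξ => (16 : ℤ) ≤ (v a * X a ξ - v j * X j ξ) ^ 2)).card ≤ 2 := by
    intro j hj haj hj1
    refine H.pair_bound ha hj haj h1 hj1 ((Finset.filter_subset _ _).trans hE) ?_ ?_ ?_
    · intro h5
      exact va (hEv _ (Finset.mem_filter.mp h5).1)
    · intro h5
      exact ne_zero_of_sq hj1 (hEv _ (Finset.mem_filter.mp h5).1)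
    · intro i hi
      rw [hg1]
      norm_num
      exact (Finset.mem_filter.mp hi).2
  have h5 := hU hb hab h2
  have h6 := hU hc hac h3
  have h7 := hU hf haf h4
  rw [Finset.card_filter] at h5 h6 h7
  have h8 : ∑ ξ ∈ E, 2 ≤ ∑ ξ ∈ E, ((if (16 : ℤ) ≤ (v a * X a ξ - v b * X b ξ) ^ 2 then 1 else 0) +
      (if (16 : ℤ) ≤ (v a * X a ξ - v c * X c ξ) ^ 2 then 1 else 0) +
      (if (16 : ℤ) ≤ (v a * X a ξ - v f * X f ξ) ^ 2 then 1 else 0)) := by
    refine Finset.sum_le_sum fun ξ hξ => ?_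
    have hξS := hE hξ
    have ent : ∀ {j : ι}, j ∈ S → v j ^ 2 = 1 → v j * X j ξ = 2 ∨ v j * X j ξ = -2 := by
      intro j hj hj1
      have hne : ξ ≠ j := fun h9 => ne_zero_of_sq hj1 (by rw [← h9]; exact hEv ξ hξ)
      have h9 := (H.E_entry hξS (hEg ξ hξ) hj (ne_zero_of_sq hj1) hne).2
      have h10 : (v j * X j ξ) ^ 2 = 2 ^ 2 := by
        rw [mul_pow, hj1, one_mul, H.hXs j ξ, h9, hg1]
        norm_num
      rcases sq_eq_sq_iff_eq_or_eq_neg.mp h10 with h11 | h11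
      · exact Or.inl h11
      · exact Or.inr h11
    refine two_of_three (ent ha h1) (ent hb h2) (ent hc h3) (ent hf h4) ?_
    have h9 := H.hXv ξ hξS
    rw [sum_four_of ha hb hc hf hab hac haf hbc hbf hcf _ (fun i hi h10 h11 h12 h13 => by
      rw [hr i hi h10 h11 h12 h13, mul_zero])] at h9
    rw [← h9, H.hXs a ξ, H.hXs b ξ, H.hXs c ξ, H.hXs f ξ]
    ring
  rw [Finset.sum_add_distrib, Finset.sum_add_distrib, Finset.sum_const, smul_eq_mul] at h8
  omega

omit H in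
lemma height_one {W r c o : ℤ} {k : ℕ} (hr : Odd r) (hW : W = 2 ^ k * r) (ho : Odd o) (h2 : W = 2 * (2 * c + o)) :
    k = 1 := by
  obtain ⟨a, ha⟩ := hr
  obtain ⟨b, hb⟩ := ho
  rcases k with _ | _ | k
  · rw [pow_zero, one_mul, ha] at hW
    omega
  · rfl
  · exfalso
    have h3 : W = 4 * (2 ^ k * r) := by
      rw [hW, pow_succ, pow_succ]
      ring
    generalize 2 ^ k * r = M at h3
    rw [hb] at h2
    omega

/-- **The main case.** -/
theorem main_shape {y₁ y₂ q₀ : ι} {p q : Fin J → ι} {ε ε' : ℤ} (hJ : 1 ≤ J) (hN : NShape S J n v y₁ y₂ p ε)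
    (hM : MShape S J m q₀ q ε') (hc0 : v q₀ = 0) (hc1 : ∀ t : Fin J, n q₀ t.val = 0) :
    l ≤ 3 ∧ (S.filter (fun i => h i = 0)).card = 4 ∧ (∀ i ∈ S, h i = 0 ∨ h i = 1 ∨ h i = g) ∧
      (S.filter (fun i => h i = 1)).card = 2 ^ g - 1 := by
  classical
  have hg2 : 2 ≤ g := by
    by_contra hlt
    have h1 : g = 1 := by
      have := H.hg
      omega
    have h2 := H.hJg
    rw [h1] at h2
    omega
  obtain ⟨g'', rfl⟩ : ∃ g'', g = g'' + 2 := ⟨g - 2, by omega⟩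
  have hpow : (2 : ℤ) ^ (g'' + 2) = 2 * (2 * 2 ^ g'') := by
    rw [pow_succ, pow_succ]
    ring
  have hJodd : Odd (J : ℤ) := by
    have h1 := H.hJg
    have h2 : 2 ^ (g'' + 2) = 4 * 2 ^ g'' := by
      rw [pow_succ, pow_succ]
      ring
    rw [h2] at h1
    have h3 : 1 ≤ 2 ^ g'' := Nat.one_le_two_pow
    refine ⟨((2 ^ g'' : ℕ) : ℤ) * 2 - 1 - ((2 ^ g'' : ℕ) : ℤ), ?_⟩
    omega
  have hv₁ := ne_zero_of_sq hN.hv₁
  have hv₂ := ne_zero_of_sq hN.hv₂
  have hεne : ε ≠ 0 := by rcases hN.hε with rfl | rfl <;> norm_num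
  have hεne' : ε' ≠ 0 := by rcases hM.hε with rfl | rfl <;> norm_num
  have hε2 : Odd ε := by rcases hN.hε with rfl | rfl <;> decide
  have hε2' : Odd ε' := by rcases hM.hε with rfl | rfl <;> decide
  have hvq : ∀ t, v (q t) = 0 := fun t => (hM.profile (u := v) (fun t => H.hvm _ t.isLt) t).trans hc0
  have hnq : ∀ t (r : Fin J), n (q t) r.val = 0 := fun t r =>
    (hM.profile (u := fun i => n i r.val) (fun t => H.hnm _ r.isLt _ t.isLt) t).trans (hc1 r)
  have hpp : ∀ s, n (p s) s.val = ε := by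
    intro s
    have := hN.hnp s s
    rwa [if_pos rfl] at this
  have hpq₀ : ∀ s, p s ≠ q₀ := by
    intro s h1
    have h2 := hpp s
    rw [h1, hc1] at h2
    exact hεne h2.symm
  have hpq : ∀ s r, p s ≠ q r := by
    intro s r h1
    have h2 := hpp s
    rw [h1, hnq] at h2
    exact hεne h2.symm
  have hmp : ∀ s (t : Fin J), m (p s) t.val = 0 := fun s t =>
    hM.hm0 t _ (hN.hp s) (hpq₀ s) (fun r => hpq s r)
  -- the columns
  have hYp : ∀ s, Yf (g'' + 2) J n m v e (p s) = 2 * (2 * (2 ^ g'' * e (p s)) + ε) := by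
    intro s
    have e1 : ∑ j ∈ Finset.range J, n (p s) j = ε := by
      rw [Finset.sum_range]
      simp only [hN.hnp, Finset.sum_ite_eq, Finset.mem_univ, if_true]
    have e2 : ∑ j ∈ Finset.range J, m (p s) j = 0 := by
      rw [Finset.sum_range]
      exact Finset.sum_eq_zero fun t _ => hmp s t
    unfold Yf
    rw [e1, e2, hN.hvp, hpow]
    ring
  have hYq : ∀ s, Yf (g'' + 2) J n m v e (q s) = 2 * (2 * (2 ^ g'' * e (q s)) + ε') := by
    intro s
    have e1 : ∑ j ∈ Finset.range J, n (q s) j = 0 := by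
      rw [Finset.sum_range]
      exact Finset.sum_eq_zero fun t _ => hnq s t
    have e2 : ∑ j ∈ Finset.range J, m (q s) j = -ε' := by
      rw [Finset.sum_range]
      simp only [hM.hmq, Finset.sum_ite_eq, Finset.mem_univ, if_true]
    unfold Yf
    rw [e1, e2, hvq, hpow]
    ring
  have hYq₀ : Yf (g'' + 2) J n m v e q₀ = 2 * (2 * (2 ^ g'' * e q₀) + (-((J : ℤ) * ε'))) := by
    have e1 : ∑ j ∈ Finset.range J, n q₀ j = 0 := by
      rw [Finset.sum_range]
      exact Finset.sum_eq_zero fun t _ => hc1 t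
    have e2 : ∑ j ∈ Finset.range J, m q₀ j = (J : ℤ) * ε' := by
      rw [Finset.sum_range]
      simp only [hM.hm₀, Finset.sum_const, Finset.card_univ, Fintype.card_fin, nsmul_eq_mul]
    unfold Yf
    rw [e1, e2, hc0, hpow]
    ring
  have hhp : ∀ s, h (p s) = 1 := by
    intro s
    obtain ⟨r, hr, hX⟩ := H.hY (p s) (hN.hp s)
    exact height_one hr hX hε2 (hYp s)
  have hhq : ∀ s, h (q s) = 1 := by
    intro s
    obtain ⟨r, hr, hX⟩ := H.hY (q s) (hM.hq s)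
    exact height_one hr hX hε2' (hYq s)
  have hhq₀ : h q₀ = 1 := by
    obtain ⟨r, hr, hX⟩ := H.hY q₀ hM.hq₀
    exact height_one hr hX (hJodd.mul hε2').neg hYq₀
  -- the pieces
  set V := S.filter (fun i => v i ≠ 0) with hV
  set P := Finset.univ.image p with hP
  set Q := insert q₀ (Finset.univ.image q) with hQ
  set E := S.filter (fun i => v i = 0 ∧ (∀ t : Fin J, n i t.val = 0) ∧ ∀ t : Fin J, m i t.val = 0) with hE
  have hPS : P ⊆ S := by
    intro i hi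
    obtain ⟨s, -, rfl⟩ := Finset.mem_image.mp hi
    exact hN.hp s
  have hQS : Q ⊆ S := by
    intro i hi
    rcases Finset.mem_insert.mp hi with rfl | hi
    · exact hM.hq₀
    · obtain ⟨s, -, rfl⟩ := Finset.mem_image.mp hi
      exact hM.hq s
  have hQv : ∀ i ∈ Q, v i = 0 ∧ h i = 1 ∧ ∀ r : Fin J, n i r.val = 0 := by
    intro i hi
    rcases Finset.mem_insert.mp hi with rfl | hi
    · exact ⟨hc0, hhq₀, hc1⟩
    · obtain ⟨s, -, rfl⟩ := Finset.mem_image.mp hi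
      exact ⟨hvq s, hhq s, hnq s⟩
  have hcP : P.card = J := by
    rw [hP, Finset.card_image_of_injective _ hN.hinj, Finset.card_univ, Fintype.card_fin]
  have hcQ : Q.card = J + 1 := by
    rw [hQ, Finset.card_insert_of_notMem, Finset.card_image_of_injective _ hM.hinj, Finset.card_univ, Fintype.card_fin]
    intro h1
    obtain ⟨s, -, h2⟩ := Finset.mem_image.mp h1
    exact hM.hne s h2.symm
  have hpart : ∀ i ∈ S, i ∈ V ∨ i ∈ P ∨ i ∈ Q ∨ i ∈ E := by
    intro i hi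
    by_cases h1 : v i = 0
    · by_cases h2 : ∃ s, i = p s
      · obtain ⟨s, rfl⟩ := h2
        exact Or.inr (Or.inl (Finset.mem_image_of_mem _ (Finset.mem_univ _)))
      · by_cases h3 : i ∈ Q
        · exact Or.inr (Or.inr (Or.inl h3))
        · refine Or.inr (Or.inr (Or.inr (Finset.mem_filter.mpr ⟨hi, h1, ?_, ?_⟩)))
          · intro t
            refine hN.hn0 t i hi ?_ ?_ (fun s h4 => h2 ⟨s, h4⟩)
            · rintro rfl
              exact hv₁ h1
            · rintro rfl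
              exact hv₂ h1
          · intro t
            refine hM.hm0 t i hi ?_ ?_
            · rintro rfl
              exact h3 (Finset.mem_insert_self _ _)
            · rintro s rfl
              exact h3 (Finset.mem_insert_of_mem (Finset.mem_image_of_mem _ (Finset.mem_univ _)))
    · exact Or.inl (Finset.mem_filter.mpr ⟨hi, h1⟩)
  have hEprops : ∀ i ∈ E, i ∈ S ∧ v i = 0 ∧ (∀ t : Fin J, n i t.val = 0) ∧ ∀ t : Fin J, m i t.val = 0 := by
    intro i hi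
    exact Finset.mem_filter.mp hi
  have hVE : Disjoint V (P ∪ (Q ∪ E)) := by
    rw [Finset.disjoint_left]
    intro i hi hi2
    have h1 := (Finset.mem_filter.mp hi).2
    rcases Finset.mem_union.mp hi2 with h2 | h2
    · obtain ⟨s, -, rfl⟩ := Finset.mem_image.mp h2
      exact h1 (hN.hvp s)
    · rcases Finset.mem_union.mp h2 with h3 | h3
      · exact h1 (hQv i h3).1
      · exact h1 (hEprops i h3).2.1
  have hPE : Disjoint P (Q ∪ E) := by
    rw [Finset.disjoint_left]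
    intro i hi hi2
    obtain ⟨s, -, rfl⟩ := Finset.mem_image.mp hi
    rcases Finset.mem_union.mp hi2 with h3 | h3
    · exact hεne (by rw [← hpp s]; exact (hQv _ h3).2.2 s)
    · exact hεne (by rw [← hpp s]; exact (hEprops _ h3).2.2.1 s)
  have hQE : Disjoint Q E := by
    rw [Finset.disjoint_left]
    intro i hi hi2
    have h2 := (hEprops i hi2).2.2.2
    rcases Finset.mem_insert.mp hi with rfl | hi
    · have h3 := h2 ⟨0, hJ⟩
      rw [hM.hm₀] at h3
      exact hεne' h3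
    · obtain ⟨s, -, rfl⟩ := Finset.mem_image.mp hi
      have h3 := h2 s
      rw [hM.hmq, if_pos rfl] at h3
      exact hεne' (by linarith)
  have hS : S = V ∪ (P ∪ (Q ∪ E)) := by
    ext i
    constructor
    · intro hi
      rcases hpart i hi with h1 | h1 | h1 | h1
      · exact Finset.mem_union_left _ h1
      · exact Finset.mem_union_right _ (Finset.mem_union_left _ h1)
      · exact Finset.mem_union_right _ (Finset.mem_union_right _ (Finset.mem_union_left _ h1))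
      · exact Finset.mem_union_right _ (Finset.mem_union_right _ (Finset.mem_union_right _ h1))
    · intro hi
      rcases Finset.mem_union.mp hi with h1 | h1
      · exact (Finset.mem_filter.mp h1).1
      · rcases Finset.mem_union.mp h1 with h2 | h2
        · exact hPS h2
        · rcases Finset.mem_union.mp h2 with h3 | h3
          · exact hQS h3
          · exact (hEprops i h3).1
  have hcardS : S.card = V.card + (P.card + (Q.card + E.card)) := by
    conv_lhs => rw [hS]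
    rw [Finset.card_union_of_disjoint hVE, Finset.card_union_of_disjoint hPE, Finset.card_union_of_disjoint hQE]
  have hcV : V.card = 4 := H.card_V
  have hcE : E.card ≤ 2 := H.E_card_shape hJ hN (Finset.filter_subset _ _) (fun ξ hξ => (hEprops ξ hξ).2.1)
    (fun ξ hξ => H.E_height (hEprops ξ hξ).1 (hEprops ξ hξ).2.1 (hEprops ξ hξ).2.2.1 (hEprops ξ hξ).2.2.2)
    (fun ξ hξ => (hEprops ξ hξ).2.2.1)
  have hJg := H.hJg
  have hc := H.hcard
  -- heights of the exceptional characters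
  obtain ⟨a, ha, -, -, -, -, -, -, -, -, -, -, -, -, ha1, -, -, -, -⟩ := H.exists_V
  have hEh : ∀ i ∈ E, h i = g'' + 2 := by
    intro i hi
    obtain ⟨h1, h2, h3, h4⟩ := hEprops i hi
    have hne : i ≠ a := by
      rintro rfl
      exact ne_zero_of_sq ha1 h2
    exact (H.E_entry h1 (H.E_height h1 h2 h3 h4) ha (ne_zero_of_sq ha1) hne).1
  refine ⟨by omega, ?_, ?_, ?_⟩
  · rw [← hcV, hV]
    congr 1
    exact Finset.filter_congr fun i hi => H.h_zero_iff hi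
  · intro i hi
    rcases hpart i hi with h1 | h1 | h1 | h1
    · exact Or.inl ((H.h_zero_iff hi).mpr (Finset.mem_filter.mp h1).2)
    · obtain ⟨s, -, rfl⟩ := Finset.mem_image.mp h1
      exact Or.inr (Or.inl (hhp s))
    · exact Or.inr (Or.inl (hQv i h1).2.1)
    · exact Or.inr (Or.inr (hEh i h1))
  · have hF : S.filter (fun i => h i = 1) = P ∪ Q := by
      ext i
      rw [Finset.mem_filter, Finset.mem_union]
      constructor
      · rintro ⟨hi, h1⟩
        rcases hpart i hi with h2 | h2 | h2 | h2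
        · have := (H.h_zero_iff hi).mpr (Finset.mem_filter.mp h2).2
          omega
        · exact Or.inl h2
        · exact Or.inr h2
        · have := hEh i h2
          omega
      · rintro (h1 | h1)
        · refine ⟨hPS h1, ?_⟩
          obtain ⟨s, -, rfl⟩ := Finset.mem_image.mp h1
          exact hhp s
        · exact ⟨hQS h1, (hQv i h1).2.1⟩
    have hPQ : Disjoint P Q := Finset.disjoint_of_subset_right Finset.subset_union_left hPE
    rw [hF, Finset.card_union_of_disjoint hPQ, hcP, hcQ]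
    omega

/-- The main case, no vector. -/
theorem main_zero (hJ : J = 0) :
    l ≤ 3 ∧ (S.filter (fun i => h i = 0)).card = 4 ∧ (∀ i ∈ S, h i = 0 ∨ h i = 1 ∨ h i = g) := by
  classical
  subst hJ
  have hg1 : g = 1 := by
    have h1 := H.hJg
    have h2 : 2 ^ g = 2 ^ 1 := by omega
    exact Nat.pow_right_injective (le_refl 2) h2
  obtain ⟨a, ha, -, -, -, -, -, -, -, -, -, -, -, -, ha1, -, -, -, -⟩ := H.exists_V
  set E := S.filter (fun i => ¬ v i ≠ 0) with hE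
  have hEprops : ∀ i ∈ E, i ∈ S ∧ v i = 0 := by
    intro i hi
    have := Finset.mem_filter.mp hi
    exact ⟨this.1, by simpa using this.2⟩
  have hEg : ∀ i ∈ E, g ≤ h i := fun i hi =>
    H.E_height (hEprops i hi).1 (hEprops i hi).2 (fun t => t.elim0) (fun t => t.elim0)
  have hcE : E.card ≤ 3 := H.E_card_zero rfl (Finset.filter_subset _ _) (fun ξ hξ => (hEprops ξ hξ).2) hEg
  have hc := H.hcard
  have hcS : (S.filter (fun i => v i ≠ 0)).card + E.card = S.card := Finset.card_filter_add_card_filter_not _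
  rw [H.card_V] at hcS
  rw [hg1] at hc
  refine ⟨by omega, ?_, ?_⟩
  · rw [← H.card_V]
    congr 1
    exact Finset.filter_congr fun i hi => H.h_zero_iff hi
  · intro i hi
    by_cases h1 : v i = 0
    · refine Or.inr (Or.inr ?_)
      have hne : i ≠ a := by
        rintro rfl
        exact ne_zero_of_sq ha1 h1
      exact (H.E_entry hi (H.E_height hi h1 (fun t => t.elim0) (fun t => t.elim0)) ha (ne_zero_of_sq ha1) hne).1
    · exact Or.inl ((H.h_zero_iff hi).mpr h1)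

/-- The support of a vector `n`. -/
theorem n_support {y₁ y₂ : ι} {p : Fin J → ι} {ε : ℤ} (hN : NShape S J n v y₁ y₂ p ε) {i : ι} (hi : i ∈ S) (r : Fin J)
    (h1 : n i r.val ≠ 0) : i = y₁ ∨ i = y₂ ∨ i = p r := by
  by_contra hno
  push Not at hno
  obtain ⟨h2, h3, h4⟩ := hno
  by_cases h5 : ∃ s, i = p s
  · obtain ⟨s, rfl⟩ := h5
    have hsr : s ≠ r := fun h6 => h4 (by rw [h6])
    have := hN.hnp s r
    rw [if_neg hsr] at this
    exact h1 this
  · push Not at h5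
    exact h1 (hN.hn0 r i hi h2 h3 h5)

/-- The vectors do not meet, three vectors at least. -/
theorem cross_big {y₁ y₂ q₀ : ι} {p q : Fin J → ι} {ε ε' : ℤ} (hJ : 3 ≤ J) (hN : NShape S J n v y₁ y₂ p ε)
    (hM : MShape S J m q₀ q ε') : v q₀ = 0 ∧ ∀ t : Fin J, n q₀ t.val = 0 := by
  have hv₁ := ne_zero_of_sq hN.hv₁
  have hv₂ := ne_zero_of_sq hN.hv₂
  have hnq : ∀ t (r : Fin J), n (q t) r.val = n q₀ r.val := fun t r =>
    (hM.profile (u := fun i => n i r.val) (fun t => H.hnm _ r.isLt _ t.isLt) t)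
  have hvq : ∀ t, v (q t) = v q₀ := fun t => hM.profile (u := v) (fun t => H.hvm _ t.isLt) t
  let t0 : Fin J := ⟨0, by omega⟩
  let t1 : Fin J := ⟨1, by omega⟩
  let t2 : Fin J := ⟨2, by omega⟩
  have h01 : q t0 ≠ q t1 := fun h1 => by
    have := hM.hinj h1
    simp [t0, t1, Fin.ext_iff] at this
  have h02 : q t0 ≠ q t2 := fun h1 => by
    have := hM.hinj h1
    simp [t0, t2, Fin.ext_iff] at this
  have h12 : q t1 ≠ q t2 := fun h1 => by
    have := hM.hinj h1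
    simp [t1, t2, Fin.ext_iff] at this
  have hc1 : ∀ r : Fin J, n q₀ r.val = 0 := by
    intro r
    by_contra hne
    refine four_in_three (hM.hne t0) (hM.hne t1) (hM.hne t2) h01 h02 h12 (H.n_support hN hM.hq₀ r hne)
      (H.n_support hN (hM.hq _) r ?_) (H.n_support hN (hM.hq _) r ?_) (H.n_support hN (hM.hq _) r ?_)
    all_goals
      rw [hnq]
      exact hne
  refine ⟨?_, hc1⟩
  by_contra hv
  have hyq : ∀ {y : ι}, v y ≠ 0 → (∀ t : Fin J, n y t.val = v y) → y ≠ q₀ ∧ ∀ t, y ≠ q t := by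
    intro y hy hyn
    constructor
    · rintro rfl
      exact hy ((hyn t0).symm.trans (hc1 t0))
    · rintro t rfl
      exact hy ((hyn t0).symm.trans ((hnq t t0).trans (hc1 t0)))
  have e1 := hyq hv₁ hN.hn₁
  have e2 := hyq hv₂ hN.hn₂
  have hvq0 : v (q t0) ≠ 0 := by rw [hvq]; exact hv
  have hvq1 : v (q t1) ≠ 0 := by rw [hvq]; exact hv
  have := H.v_zero_of_four hM.hq₀ (hM.hq t0) (hM.hq t1) hN.hy₁ (hM.hne t0) (hM.hne t1) e1.1.symm h01 (e1.2 t0).symm
    (e1.2 t1).symm hv hvq0 hvq1 hv₁ hN.hy₂ e2.1 (e2.2 t0) (e2.2 t1) hN.hy.symm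
  exact hv₂ this

/-- Characters of height at least one on which `X` lives. -/
theorem X_ge_four {i c : ι} (hi : i ∈ S) (hc : c ∈ S) (hvc : v c ≠ 0) (hv : v i = 0) : (4 : ℤ) ≤ X c i ^ 2 := by
  have h1 : 1 ≤ h i := by
    by_contra h2
    have h3 : h i = 0 := by omega
    exact (H.h_zero_iff hi).mp h3 hv
  have := H.X_sq_ge hi hc hvc h1
  norm_num at this
  exact this

/-- The exceptional shape does not occur. -/
theorem not_exc (hJ : J = 3) (hE : NExc S n v) : False := by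
  classical
  subst hJ
  obtain ⟨f₀, hf₀, f₁, hf₁, f₂, hf₂, c, hc, y, hy, h01, h02, h0c, h0y, h12, h1c, h1y, h2c, h2y, hcy, v0, v1, v2, vc, vy,
    hclaim⟩ := hE
  have hg3 : (2 : ℤ) ^ g = 8 := by
    have h1 := H.hJg
    have h2 : 2 ^ g = 8 := by omega
    exact_mod_cast h2
  obtain ⟨e1, e2, e3, e4⟩ := hclaim (fun i => X f₀ i) (fun t ht => H.hXn f₀ hf₀ t ht) (H.hXv f₀ hf₀)
  set T := X f₀ f₀ with hT
  have hsum := H.row_sum hf₀
  rw [hg3, ← hT] at hsum
  have hv₀ := ne_zero_of_sq v0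
  have hWdef : ({f₀, f₁, f₂, c, y} : Finset ι) ⊆ S := by
    intro i hi
    simp only [Finset.mem_insert, Finset.mem_singleton] at hi
    rcases hi with rfl | rfl | rfl | rfl | rfl <;> assumption
  have hW5 : ({f₀, f₁, f₂, c, y} : Finset ι).card = 5 := by
    rw [Finset.card_insert_of_notMem (by simp [h01, h02, h0c, h0y]), Finset.card_insert_of_notMem (by simp [h12, h1c, h1y]),
      Finset.card_insert_of_notMem (by simp [h2c, h2y]), Finset.card_pair hcy]
  set R := S \ {f₀, f₁, f₂, c, y} with hR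
  have hcR : 6 ≤ R.card := by
    have h1 := H.hcard
    have h2 := H.hl
    have h3 := H.hJg
    rw [hR, Finset.card_sdiff_of_subset hWdef, hW5]
    omega
  have hRv : ∀ i ∈ R, (4 : ℤ) ≤ X f₀ i ^ 2 := by
    intro i hi
    obtain ⟨hiS, hin⟩ := Finset.mem_sdiff.mp hi
    simp only [Finset.mem_insert, Finset.mem_singleton, not_or] at hin
    refine H.X_ge_four hiS hf₀ hv₀ ?_
    exact H.v_zero_of_four hf₀ hf₁ hf₂ hc h01 h02 h0c h12 h1c h2c hv₀ (ne_zero_of_sq v1) (ne_zero_of_sq v2) (ne_zero_of_sq vc)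
      hiS hin.1 hin.2.1 hin.2.2.1 hin.2.2.2.1
  have hge := sum_sq_ge hWdef Finset.sdiff_subset Finset.disjoint_sdiff (fun i => X f₀ i) hRv
  rw [hsum] at hge
  rw [Finset.sum_insert (by simp [h01, h02, h0c, h0y]), Finset.sum_insert (by simp [h12, h1c, h1y]),
    Finset.sum_insert (by simp [h2c, h2y]), Finset.sum_pair hcy, e1, e2, e3, e4] at hge
  have h6 : (6 : ℤ) ≤ R.card := by exact_mod_cast hcR
  nlinarith [sq_nonneg (T - 1)]

/-- Two elements of the support of `v` leave two others. -/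
theorem exists_other_two {a b : ι} (ha : a ∈ S) (hb : b ∈ S) (hab : a ≠ b) (va : v a ≠ 0) (vb : v b ≠ 0) :
    ∃ c ∈ S, ∃ c' ∈ S, c ≠ c' ∧ c ≠ a ∧ c ≠ b ∧ c' ≠ a ∧ c' ≠ b ∧ v c ^ 2 = 1 ∧ v c' ^ 2 = 1 := by
  classical
  have h1 : (((S.filter (fun i => v i ≠ 0)).erase a).erase b).card = 2 := by
    rw [Finset.card_erase_of_mem (Finset.mem_erase.mpr ⟨hab.symm, Finset.mem_filter.mpr ⟨hb, vb⟩⟩),
      Finset.card_erase_of_mem (Finset.mem_filter.mpr ⟨ha, va⟩), H.card_V]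
  obtain ⟨c, c', hcc, hW⟩ := Finset.card_eq_two.mp h1
  have hm : ∀ u, u ∈ ((S.filter (fun i => v i ≠ 0)).erase a).erase b → u ∈ S ∧ u ≠ a ∧ u ≠ b ∧ v u ^ 2 = 1 := by
    intro u hu
    obtain ⟨h2, h3⟩ := Finset.mem_erase.mp hu
    obtain ⟨h4, h5⟩ := Finset.mem_erase.mp h3
    obtain ⟨h6, h7⟩ := Finset.mem_filter.mp h5
    exact ⟨h6, h4, h2, H.v_sq_of_ne h6 h7⟩
  obtain ⟨a1, a2, a3, a4⟩ := hm c (by rw [hW]; simp)
  obtain ⟨b1, b2, b3, b4⟩ := hm c' (by rw [hW]; simp)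
  exact ⟨c, a1, c', b1, hcc, a2, a3, b2, b3, a4, b4⟩

omit H in
/-- The sums along the vectors `n`. -/
lemma n_sum {y₁ y₂ : ι} {p : Fin J → ι} {ε : ℤ} (hN : NShape S J n v y₁ y₂ p ε) (u : ι → ℤ) (t : Fin J) :
    ∑ i ∈ S, u i * n i t.val = u y₁ * v y₁ + u y₂ * v y₂ + u (p t) * ε := by
  have hv₁ := ne_zero_of_sq hN.hv₁
  have hv₂ := ne_zero_of_sq hN.hv₂
  have hy₁p : y₁ ≠ p t := fun h1 => hv₁ (by rw [h1]; exact hN.hvp t)
  have hy₂p : y₂ ≠ p t := fun h1 => hv₂ (by rw [h1]; exact hN.hvp t)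
  rw [sum_three_of hN.hy₁ hN.hy₂ (hN.hp t) hN.hy hy₁p hy₂p _ (fun i hi h2 h3 h4 => by
    by_cases h5 : ∃ s, i = p s
    · obtain ⟨s, rfl⟩ := h5
      have hst : s ≠ t := fun h6 => h4 (by rw [h6])
      have := hN.hnp s t
      rw [if_neg hst] at this
      rw [this, mul_zero]
    · push Not at h5
      rw [hN.hn0 t i hi h2 h3 h5, mul_zero])]
  rw [hN.hn₁, hN.hn₂, hN.hnp, if_pos rfl]

/-- The vectors do not meet, one vector. -/
theorem cross_one {y₁ y₂ q₀ : ι} {p q : Fin J → ι} {ε ε' : ℤ} (hJ : J = 1)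
    (hN : NShape S J n v y₁ y₂ p ε) (hM : MShape S J m q₀ q ε') : v q₀ = 0 ∧ ∀ t : Fin J, n q₀ t.val = 0 := by
  classical
  subst hJ
  have hv₁ := ne_zero_of_sq hN.hv₁
  have hv₂ := ne_zero_of_sq hN.hv₂
  have hF : ∀ t : Fin 1, t = 0 := fun t => Subsingleton.elim _ _
  have hq₀ := hM.hq₀
  set q₁ := q 0 with hq₁def
  have hq₁ : q₁ ∈ S := hM.hq 0
  set p₀ := p 0 with hp₀def
  have hp₀ : p₀ ∈ S := hN.hp 0
  have hvp₀ : v p₀ = 0 := hN.hvp 0
  have hne : q₀ ≠ q₁ := hM.hne 0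
  have hnq : n q₁ (0 : Fin 1).val = n q₀ (0 : Fin 1).val :=
    hM.profile (u := fun i => n i (0 : Fin 1).val) (fun t => H.hnm _ (0 : Fin 1).isLt _ t.isLt) 0
  have hvq : v q₁ = v q₀ := hM.profile (u := v) (fun t => H.hvm _ t.isLt) 0
  by_cases hv : v q₀ = 0
  · refine ⟨hv, ?_⟩
    intro t
    rw [hF t]
    by_contra hn
    have hn' : n q₁ (0 : Fin 1).val ≠ 0 := by rw [hnq]; exact hn
    have key : ∀ {u : ι}, u ∈ S → v u = 0 → n u (0 : Fin 1).val ≠ 0 → u = p₀ := by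
      intro u hu hvu hnu
      rcases H.n_support hN hu 0 hnu with rfl | rfl | h1
      · exact absurd hvu hv₁
      · exact absurd hvu hv₂
      · exact h1
    exact hne ((key hq₀ hv hn).trans (key hq₁ (by rw [hvq]; exact hv) hn').symm)
  · exfalso
    have hs2 : v q₀ ^ 2 = 1 := H.v_sq_of_ne hq₀ hv
    have hvq₁ : v q₁ ≠ 0 := by rw [hvq]; exact hv
    have hg4 : (2 : ℤ) ^ g = 4 := by
      have h1 := H.hJg
      have h2 : 2 ^ g = 4 := by omega
      exact_mod_cast h2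
    set T := X q₀ q₀ with hT
    have hθq : X q₀ q₁ = T := hM.profile (u := fun i => X q₀ i) (fun t => H.hXm q₀ hq₀ _ t.isLt) 0
    have hεsq : ε ^ 2 = 1 := by rcases hN.hε with rfl | rfl <;> norm_num
    have hXn := H.hXn q₀ hq₀ (0 : Fin 1).val (0 : Fin 1).isLt
    rw [n_sum hN (fun i => X q₀ i) 0] at hXn
    have hq₀p : q₀ ≠ p₀ := fun h1 => hv (by rw [h1]; exact hvp₀)
    have hq₁p : q₁ ≠ p₀ := fun h1 => hvq₁ (by rw [h1]; exact hvp₀)
    -- the entry at `p₀`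
    have hpT : X q₀ p₀ ^ 2 = 4 * T ^ 2 := by
      have hE : X q₀ p₀ * ε = - (2 * (T * v q₀)) ∨ X q₀ p₀ * ε = 2 * (T * v q₀) := by
        by_cases hn : n q₀ (0 : Fin 1).val = 0
        · right
          have e1 : y₁ ≠ q₀ := by
            rintro rfl
            exact hv₁ (by rw [← hN.hn₁ 0]; exact hn)
          have e2 : y₂ ≠ q₀ := by
            rintro rfl
            exact hv₂ (by rw [← hN.hn₂ 0]; exact hn)
          have e3 : y₁ ≠ q₁ := by
            rintro rfl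
            exact hv₁ (by rw [← hN.hn₁ 0]; exact hnq.trans hn)
          have e4 : y₂ ≠ q₁ := by
            rintro rfl
            exact hv₂ (by rw [← hN.hn₂ 0]; exact hnq.trans hn)
          have h1 := H.hXv q₀ hq₀
          rw [sum_four_of hq₀ hq₁ hN.hy₁ hN.hy₂ hne e1.symm e2.symm e3.symm e4.symm hN.hy _ (fun i hi a1 a2 a3 a4 => by
            rw [H.v_zero_of_four hq₀ hq₁ hN.hy₁ hN.hy₂ hne e1.symm e2.symm e3.symm e4.symm hN.hy hv hvq₁ hv₁ hv₂ hi a1 a2 a3 a4,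
              mul_zero])] at h1
          rw [hθq, hvq] at h1
          linarith
        · left
          have hn' : n q₁ (0 : Fin 1).val ≠ 0 := by rw [hnq]; exact hn
          have s1 := H.n_support hN hq₀ 0 hn
          have s2 := H.n_support hN hq₁ 0 hn'
          rcases s1 with s1 | s1 | s1
          · rcases s2 with s2 | s2 | s2
            · exact absurd (s1.trans s2.symm) hne
            · rw [← s1, ← s2, hθq, hvq] at hXn
              linarith
            · exact absurd s2 hq₁p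
          · rcases s2 with s2 | s2 | s2
            · rw [← s1, ← s2, hθq, hvq] at hXn
              linarith
            · exact absurd (s1.trans s2.symm) hne
            · exact absurd s2 hq₁p
          · exact absurd s1 hq₀p
      have h1 : (X q₀ p₀ * ε) ^ 2 = X q₀ p₀ ^ 2 := by rw [mul_pow, hεsq, mul_one]
      rw [← h1]
      rcases hE with hE | hE <;> rw [hE]
      · rw [neg_sq, mul_pow, mul_pow, hs2]
        ring
      · rw [mul_pow, mul_pow, hs2]
        ring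
    obtain ⟨c, hc, c', hc', hcc, hcq₀, hcq₁, hc'q₀, hc'q₁, vc, vc'⟩ := H.exists_other_two hq₀ hq₁ hne hv hvq₁
    have hvc := ne_zero_of_sq vc
    have hvc' := ne_zero_of_sq vc'
    have hVz : ∀ i ∈ S, i ≠ q₀ → i ≠ q₁ → i ≠ c → i ≠ c' → v i = 0 := fun i hi a1 a2 a3 a4 =>
      H.v_zero_of_four hq₀ hq₁ hc hc' hne hcq₀.symm hc'q₀.symm hcq₁.symm hc'q₁.symm hcc hv hvq₁ hvc hvc' hi a1 a2 a3 a4
    have hcT : 2 * T ^ 2 ≤ X q₀ c ^ 2 + X q₀ c' ^ 2 := by
      have h1 := H.hXv q₀ hq₀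
      rw [sum_four_of hq₀ hq₁ hc hc' hne hcq₀.symm hc'q₀.symm hcq₁.symm hc'q₁.symm hcc _ (fun i hi a1 a2 a3 a4 => by
        rw [hVz i hi a1 a2 a3 a4, mul_zero])] at h1
      rw [hθq, hvq] at h1
      have h2 : X q₀ c * v c + X q₀ c' * v c' = -(2 * (T * v q₀)) := by linarith
      have h3 : (X q₀ c * v c + X q₀ c' * v c') ^ 2 = 4 * T ^ 2 := by
        rw [h2, neg_sq, mul_pow, mul_pow, hs2]
        ring
      have h4 : (X q₀ c * v c) ^ 2 = X q₀ c ^ 2 := by rw [mul_pow, vc, mul_one]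
      have h5 : (X q₀ c' * v c') ^ 2 = X q₀ c' ^ 2 := by rw [mul_pow, vc', mul_one]
      nlinarith [sq_nonneg (X q₀ c * v c - X q₀ c' * v c')]
    have hp₀c : p₀ ≠ c := fun h1 => hvc (by rw [← h1]; exact hvp₀)
    have hp₀c' : p₀ ≠ c' := fun h1 => hvc' (by rw [← h1]; exact hvp₀)
    have hWdef : ({q₀, q₁, c, c', p₀} : Finset ι) ⊆ S := by
      intro i hi
      simp only [Finset.mem_insert, Finset.mem_singleton] at hi
      rcases hi with rfl | rfl | rfl | rfl | rfl <;> assumption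
    have hW5 : ({q₀, q₁, c, c', p₀} : Finset ι).card = 5 := by
      rw [Finset.card_insert_of_notMem (by simp [hne, hcq₀.symm, hc'q₀.symm, hq₀p]),
        Finset.card_insert_of_notMem (by simp [hcq₁.symm, hc'q₁.symm, hq₁p]),
        Finset.card_insert_of_notMem (by simp [hcc, hp₀c.symm]), Finset.card_pair hp₀c'.symm]
    set R := S \ {q₀, q₁, c, c', p₀} with hR
    have hcR : 1 ≤ R.card := by
      have h1 := H.hcard
      have h2 := H.hl
      have h3 := H.hJg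
      rw [hR, Finset.card_sdiff_of_subset hWdef, hW5]
      omega
    have hRv : ∀ i ∈ R, (16 : ℤ) ≤ X q₀ i ^ 2 := by
      intro i hi
      obtain ⟨hiS, hin⟩ := Finset.mem_sdiff.mp hi
      simp only [Finset.mem_insert, Finset.mem_singleton, not_or] at hin
      obtain ⟨a1, a2, a3, a4, a5⟩ := hin
      have hvi : v i = 0 := hVz i hiS a1 a2 a3 a4
      have hni : ∀ t : Fin 1, n i t.val = 0 := by
        intro t
        refine hN.hn0 t i hiS ?_ ?_ ?_
        · rintro rfl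
          exact hv₁ hvi
        · rintro rfl
          exact hv₂ hvi
        · intro s
          rw [hF s]
          exact a5
      have hmi : ∀ t : Fin 1, m i t.val = 0 := by
        intro t
        refine hM.hm0 t i hiS a1 ?_
        intro s
        rw [hF s]
        exact a2
      have h1 := H.X_sq_ge hiS hq₀ hv (H.E_height hiS hvi hni hmi)
      rw [hg4] at h1
      norm_num at h1
      exact h1
    have hge := sum_sq_ge hWdef Finset.sdiff_subset Finset.disjoint_sdiff (fun i => X q₀ i) hRv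
    rw [H.row_sum hq₀, hg4, Finset.sum_insert (by simp [hne, hcq₀.symm, hc'q₀.symm, hq₀p]),
      Finset.sum_insert (by simp [hcq₁.symm, hc'q₁.symm, hq₁p]),
      Finset.sum_insert (by simp [hcc, hp₀c.symm]), Finset.sum_pair hp₀c'.symm, hθq, hpT, ← hT] at hge
    have h6 : (1 : ℤ) ≤ R.card := by exact_mod_cast hcR
    nlinarith [sq_nonneg (T - 1)]

open Classical in
/-- **The numerical theorem.** -/
theorem main
    (hlatn : 3 ≤ J → ∃ (dd ε : ℤ) (f : Fin J → ι) (a : ι → ℤ), Function.Injective f ∧ (∀ t, f t ∈ S) ∧ (ε = 1 ∨ ε = -1) ∧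
      (∀ s t : Fin J, n (f t) s.val = dd - ε * if s = t then 1 else 0) ∧
      (∀ t : Fin J, ∀ i ∈ S, i ∉ Set.range f → n i t.val = a i) ∧
      ∑ i ∈ S.filter (· ∉ Set.range f), a i ^ 2 =
        2 - (J : ℤ) * dd ^ 2 + 2 * (dd * ε))
    (hlatm : 3 ≤ J → ∃ (dd ε : ℤ) (f : Fin J → ι) (a : ι → ℤ), Function.Injective f ∧ (∀ t, f t ∈ S) ∧ (ε = 1 ∨ ε = -1) ∧
      (∀ s t : Fin J, m (f t) s.val = dd - ε * if s = t then 1 else 0) ∧
      (∀ t : Fin J, ∀ i ∈ S, i ∉ Set.range f → m i t.val = a i) ∧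
      ∑ i ∈ S.filter (· ∉ Set.range f), a i ^ 2 =
        1 - (J : ℤ) * dd ^ 2 + 2 * (dd * ε)) :
    l ≤ 3 ∧ (S.filter (fun i => h i = 0)).card = 4 ∧ (∀ i ∈ S, h i = 0 ∨ h i = 1 ∨ h i = g) ∧
      (2 ≤ g → (S.filter (fun i => h i = 1)).card = 2 ^ g - 1) := by
  have hJg := H.hJg
  have hg := H.hg
  rcases Nat.lt_or_ge g 2 with hg1 | hg2
  · -- no vector
    have hg1' : g = 1 := by omega
    have hJ0 : J = 0 := by
      rw [hg1'] at hJg
      omega
    obtain ⟨h1, h2, h3⟩ := H.main_zero hJ0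
    exact ⟨h1, h2, h3, fun h4 => absurd h4 (by omega)⟩
  · have hJ1 : 1 ≤ J := by
      have : 4 ≤ 2 ^ g := by
        calc 4 = 2 ^ 2 := by norm_num
          _ ≤ 2 ^ g := Nat.pow_le_pow_right (by norm_num) hg2
      omega
    rcases Nat.lt_or_ge g 3 with hg3 | hg3
    · -- one vector
      have hJe : J = 1 := by
        have : g = 2 := by omega
        rw [this] at hJg
        omega
      subst hJe
      obtain ⟨y₁, y₂, p, ε, hN⟩ := H.toNCore.n_shape_one
      obtain ⟨q₀, q, ε', hM⟩ := H.toNCore.m_shape_one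
      obtain ⟨h0, h1⟩ := H.cross_one rfl hN hM
      obtain ⟨h2, h3, h4, h5⟩ := H.main_shape hJ1 hN hM h0 h1
      exact ⟨h2, h3, h4, fun _ => h5⟩
    · have hJ3 : 3 ≤ J := by
        have : 8 ≤ 2 ^ g := by
          calc 8 = 2 ^ 3 := by norm_num
            _ ≤ 2 ^ g := Nat.pow_le_pow_right (by norm_num) hg3
        omega
      have hJ' : J = 3 ∨ 7 ≤ J := by
        rcases Nat.lt_or_ge g 4 with hg4 | hg4
        · left
          have : g = 3 := by omega
          rw [this] at hJg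
          omega
        · right
          have : 16 ≤ 2 ^ g := by
            calc 16 = 2 ^ 4 := by norm_num
              _ ≤ 2 ^ g := Nat.pow_le_pow_right (by norm_num) hg4
          omega
      obtain ⟨q₀, q, ε', hM⟩ := H.toNCore.m_shape_big hJ3 (hlatm hJ3)
      rcases H.toNCore.n_shape_big hJ' (hlatn hJ3) with ⟨y₁, y₂, p, ε, hN⟩ | ⟨hJe, hE⟩
      · obtain ⟨h0, h1⟩ := H.cross_big hJ3 hN hM
        obtain ⟨h2, h3, h4, h5⟩ := H.main_shape hJ1 hN hM h0 h1
        exact ⟨h2, h3, h4, fun _ => h5⟩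
      · exact (H.not_exc hJe hE).elim

end QNum

end Num

end Cfsg.Agent.Lib.Blocks.Quat
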