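/-
Semidihedral defect groups: semidihedral groups inside a group.
-/
import Mathlib
import Cfsg.Agent.Lib.Blocks.Quat1

set_option autoImplicit false
set_option linter.style.haveILetI false

namespace Cfsg.Agent.Lib.Blocks.Semi

open Cfsg Cfsg.Agent.Lib.Blocks.Tame Cfsg.Agent.Lib.Blocks.Quat
open scoped ComplexConjugate

universe u

section Q

variable {G : Type u} [Group G]

/-- A semidihedral group inside `G`, with cyclic part `⟨x⟩` of order `2 * N`, `N` a power of two, at least four. -/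
structure SDD (D : Subgroup G) (x t : G) (N : ℕ) : Prop where
  hpow : ∃ m : ℕ, N = 2 ^ (m + 2)
  hxo : orderOf x = 2 * N
  hxD : x ∈ D
  htD : t ∈ D
  htt : t * t = 1
  htx : t * x * t⁻¹ = x ^ (N - 1)
  hcov : ∀ g ∈ D, (∃ s : ℕ, g = x ^ s) ∨ (∃ s : ℕ, g = t * x ^ s)
  hnot : ∀ s : ℕ, t ≠ x ^ s

namespace SDD

variable {D : Subgroup G} {x t : G} {N : ℕ} (h : SDD D x t N)
include h

theorem N_pos : 0 < N := by
  obtain ⟨m, rfl⟩ := h.hpow
  positivity

theorem N_four : ∃ c : ℕ, N = 4 * (c + 1) := by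
  obtain ⟨m, rfl⟩ := h.hpow
  have h1 : 1 ≤ 2 ^ m := Nat.one_le_two_pow
  refine ⟨2 ^ m - 1, ?_⟩
  rw [pow_add]
  omega

theorem four_le : 4 ≤ N := by
  obtain ⟨c, hc⟩ := h.N_four
  omega

theorem N_even : 2 ∣ N := by
  obtain ⟨c, hc⟩ := h.N_four
  exact ⟨2 * (c + 1), by omega⟩

theorem half_add : N / 2 + N / 2 = N := by
  obtain ⟨c, hc⟩ := h.N_even
  omega

theorem x_pow_two_N : x ^ (2 * N) = 1 := by
  rw [← h.hxo]
  exact pow_orderOf_eq_one x

theorem t_inv : t⁻¹ = t := inv_eq_of_mul_eq_one_left h.htt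

theorem tc (s : ℕ) : t * x ^ s * t⁻¹ = x ^ (s * (N - 1)) := by
  rw [← conj_pow, h.htx, ← pow_mul, mul_comm]

theorem x_mul_comm (s r : ℕ) : x ^ s * x ^ r = x ^ r * x ^ s := by
  rw [← pow_add, ← pow_add, add_comm]

theorem tc_mul (s : ℕ) : x ^ (s * (N - 1)) * x ^ s = x ^ (s * N) := by
  rw [← pow_add]
  congr 1
  have := h.N_pos
  obtain ⟨c, hc⟩ : ∃ c, N = c + 1 := ⟨N - 1, by omega⟩
  subst hc
  simp
  ring

/-- The square of a reflection. -/
theorem refl_sq (s : ℕ) : (t * x ^ s) * (t * x ^ s) = x ^ (s * N) := by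
  have h1 := h.tc s
  calc (t * x ^ s) * (t * x ^ s) = (t * x ^ s * t⁻¹) * (t * t) * x ^ s := by group
    _ = x ^ (s * (N - 1)) * x ^ s := by rw [h1, h.htt, mul_one]
    _ = x ^ (s * N) := h.tc_mul s

theorem zz_sq : x ^ N * x ^ N = 1 := by
  rw [← pow_add, ← two_mul, h.x_pow_two_N]

theorem zz_ne_one : x ^ N ≠ 1 := by
  intro h0
  have h1 := orderOf_dvd_of_pow_eq_one h0
  rw [h.hxo] at h1
  have := Nat.le_of_dvd h.N_pos h1
  have := h.N_pos
  omega

theorem zz_inv : (x ^ N)⁻¹ = x ^ N := inv_eq_of_mul_eq_one_left h.zz_sq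

/-- Powers with an even multiple of `N`. -/
theorem pow_even_N (c : ℕ) : x ^ (2 * c * N) = 1 := by
  rw [show 2 * c * N = 2 * N * c by ring, pow_mul, h.x_pow_two_N, one_pow]

theorem pow_odd_N (c : ℕ) : x ^ ((2 * c + 1) * N) = x ^ N := by
  rw [show (2 * c + 1) * N = 2 * N * c + N by ring, pow_add, pow_mul, h.x_pow_two_N, one_pow, one_mul]

theorem refl_fourth (s : ℕ) : (t * x ^ s) ^ 4 = 1 := by
  rw [show (4 : ℕ) = 2 + 2 by norm_num, pow_add, pow_two, h.refl_sq, ← pow_add,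
    show s * N + s * N = 2 * s * N by ring, h.pow_even_N]

theorem t_comm_zz : t * x ^ N = x ^ N * t := by
  have h1 := h.tc N
  have h2 : x ^ (N * (N - 1)) = x ^ N := by
    obtain ⟨c, hc⟩ := h.N_four
    have : N * (N - 1) = (2 * (2 * c + 1) + 1) * N := by
      rw [hc]
      have e1 : 4 * (c + 1) - 1 = 4 * c + 3 := by omega
      rw [e1]
      ring
    rw [this]
    exact h.pow_odd_N _
  rw [h2] at h1
  calc t * x ^ N = (t * x ^ N * t⁻¹) * t := by group
    _ = x ^ N * t := by rw [h1]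

theorem refl_ne (s r : ℕ) : t * x ^ s ≠ x ^ r := by
  intro he
  have h1 : t = x ^ r * (x ^ s)⁻¹ := by
    rw [← he]
    group
  have h2 : x ^ r * (x ^ s)⁻¹ = x ^ (r + (2 * N - 1) * s) := by
    have h3 : (x ^ s)⁻¹ = x ^ ((2 * N - 1) * s) := by
      apply inv_eq_of_mul_eq_one_right
      rw [← pow_add]
      have h4 : s + (2 * N - 1) * s = 2 * N * s := by
        have hN := h.N_pos
        obtain ⟨c, hc⟩ : ∃ c, 2 * N = c + 1 := ⟨2 * N - 1, by omega⟩
        rw [hc]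
        simp
        ring
      rw [h4, pow_mul, h.x_pow_two_N, one_pow]
    rw [h3, pow_add]
  exact h.hnot _ (h1.trans h2)

theorem zz_mem : x ^ N ∈ D := D.pow_mem h.hxD N

/-- `z` is central in `D`. -/
theorem zz_comm {g : G} (hg : g ∈ D) : g * x ^ N = x ^ N * g := by
  have hc : ∀ s : ℕ, x ^ s * x ^ N = x ^ N * x ^ s := fun s => h.x_mul_comm s N
  rcases h.hcov g hg with ⟨s, rfl⟩ | ⟨s, rfl⟩
  · exact hc s
  · rw [mul_assoc, hc s, ← mul_assoc, h.t_comm_zz, mul_assoc]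

theorem D_le_cen : D ≤ Subgroup.centralizer ({x ^ N} : Set G) := by
  intro g hg
  rw [Subgroup.mem_centralizer_iff]
  rintro w rfl
  exact (h.zz_comm hg).symm

/-- An involution of `⟨x⟩` is `z`. -/
theorem eq_zz_of_sq {s : ℕ} (h1 : x ^ s * x ^ s = 1) (hne : x ^ s ≠ 1) : x ^ s = x ^ N := by
  have h2 : x ^ (2 * s) = 1 := by
    rw [two_mul, pow_add, h1]
  have h3 := orderOf_dvd_of_pow_eq_one h2
  rw [h.hxo] at h3
  have h4 : N ∣ s := Nat.dvd_of_mul_dvd_mul_left (by norm_num) h3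
  obtain ⟨q, rfl⟩ := h4
  rcases Nat.even_or_odd' q with ⟨c, rfl | rfl⟩
  · exfalso
    apply hne
    rw [show N * (2 * c) = 2 * N * c by ring, pow_mul, h.x_pow_two_N, one_pow]
  · rw [show N * (2 * c + 1) = 2 * N * c + N by ring, pow_add, pow_mul, h.x_pow_two_N, one_pow, one_mul]

theorem x_order_pow : ∃ k : ℕ, orderOf x = 2 ^ k := by
  obtain ⟨m, hm⟩ := h.hpow
  exact ⟨m + 3, by rw [h.hxo, hm]; ring⟩

/-- Powers of `x` have `2`-power order. -/
theorem order_pow (s : ℕ) : ∃ r : ℕ, orderOf (x ^ s) = 2 ^ r := by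
  obtain ⟨k, hk⟩ := h.x_order_pow
  have h1 : orderOf (x ^ s) ∣ 2 ^ k := by
    apply orderOf_dvd_of_pow_eq_one
    rw [← pow_mul, mul_comm, pow_mul, ← hk, pow_orderOf_eq_one, one_pow]
  obtain ⟨r, -, hr⟩ := (Nat.dvd_prime_pow Nat.prime_two).mp h1
  exact ⟨r, hr⟩

/-- Rotations contain `z`. -/
theorem zz_mem_zpowers {s : ℕ} (hne : x ^ s ≠ 1) : x ^ N ∈ Subgroup.zpowers (x ^ s) := by
  obtain ⟨r, hr⟩ := h.order_pow s
  have hr0 : r ≠ 0 := by
    rintro rfl
    apply hne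
    rw [← orderOf_eq_one_iff, hr, pow_zero]
  obtain ⟨q, rfl⟩ : ∃ q, r = q + 1 := ⟨r - 1, by omega⟩
  have h2 : (x ^ s) ^ 2 ^ q ≠ 1 := by
    intro h0
    have h3 := orderOf_dvd_of_pow_eq_one h0
    rw [hr] at h3
    have h4 := (Nat.pow_dvd_pow_iff_le_right (by norm_num : 1 < 2)).mp h3
    omega
  have h3 : (x ^ (s * 2 ^ q)) * (x ^ (s * 2 ^ q)) = 1 := by
    rw [← pow_add, show s * 2 ^ q + s * 2 ^ q = s * 2 ^ (q + 1) by ring, pow_mul, ← hr]
    exact pow_orderOf_eq_one _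
  rw [← pow_mul] at h2
  have h4 := h.eq_zz_of_sq h3 h2
  rw [← h4, pow_mul]
  exact Subgroup.pow_mem _ (Subgroup.mem_zpowers _) _

/-- Every element of `D` which is not an involution contains `z`. -/
theorem zz_mem_zpowers_of_sq {g : G} (hg : g ∈ D) (hne : g * g ≠ 1) : x ^ N ∈ Subgroup.zpowers g := by
  rcases h.hcov g hg with ⟨s, rfl⟩ | ⟨s, rfl⟩
  · refine h.zz_mem_zpowers ?_
    intro h1
    apply hne
    rw [h1, mul_one]
  · rw [h.refl_sq] at hne
    rcases Nat.even_or_odd' s with ⟨c, rfl | rfl⟩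
    · exact absurd (h.pow_even_N c) hne
    · have h1 := h.refl_sq (2 * c + 1)
      rw [h.pow_odd_N] at h1
      rw [← h1, ← pow_two]
      exact Subgroup.pow_mem _ (Subgroup.mem_zpowers _) _

/-- The involutions of `D`. -/
theorem invol_cases {g : G} (hg : g ∈ D) (h1 : g * g = 1) (hne : g ≠ 1) :
    g = x ^ N ∨ ∃ c : ℕ, g = t * x ^ (2 * c) := by
  rcases h.hcov g hg with ⟨s, rfl⟩ | ⟨s, rfl⟩
  · exact Or.inl (h.eq_zz_of_sq h1 hne)
  · rcases Nat.even_or_odd' s with ⟨c, rfl | rfl⟩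
    · exact Or.inr ⟨c, rfl⟩
    · exfalso
      rw [h.refl_sq, h.pow_odd_N] at h1
      exact h.zz_ne_one h1

theorem ww_sq : QuatD.ww x N * QuatD.ww x N = x ^ N := by
  rw [QuatD.ww, ← pow_add, h.half_add]

theorem ww_order : orderOf (QuatD.ww x N) = 4 := by
  have hN := h.N_even
  obtain ⟨c, rfl⟩ := hN
  have hc : 0 < c := by
    have := h.N_pos
    omega
  have h1 : 2 * c / 2 = c := by omega
  rw [QuatD.ww, orderOf_pow' _ (by omega), h.hxo]
  rw [h1, show 2 * (2 * c) = 4 * c by ring, Nat.gcd_eq_right (Dvd.intro_left 4 rfl)]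
  exact Nat.mul_div_cancel _ hc

theorem ww_comm_x (s : ℕ) : QuatD.ww x N * x ^ s = x ^ s * QuatD.ww x N := h.x_mul_comm _ _

theorem t_ww : t * QuatD.ww x N * t⁻¹ = (QuatD.ww x N)⁻¹ := by
  rw [QuatD.ww, h.tc]
  symm
  apply inv_eq_of_mul_eq_one_right
  rw [← pow_add]
  obtain ⟨c, hc⟩ := h.N_four
  have : N / 2 + N / 2 * (N - 1) = 2 * (c + 1) * N := by
    rw [hc]
    have e1 : 4 * (c + 1) / 2 = 2 * (c + 1) := by omega
    have e2 : 4 * (c + 1) - 1 = 4 * c + 3 := by omega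
    rw [e1, e2]
    ring
  rw [this, h.pow_even_N]

/-- `D` normalizes `⟨w⟩`. -/
theorem D_le_norm : D ≤ Subgroup.normalizer ((Subgroup.zpowers (QuatD.ww x N) : Subgroup G) : Set G) := by
  have hgen : ∀ g ∈ D, g * QuatD.ww x N * g⁻¹ = QuatD.ww x N ∨ g * QuatD.ww x N * g⁻¹ = (QuatD.ww x N)⁻¹ := by
    intro g hg
    rcases h.hcov g hg with ⟨s, rfl⟩ | ⟨s, rfl⟩
    · left
      rw [← h.ww_comm_x]
      group
    · right
      have h1 : t * x ^ s * QuatD.ww x N * (t * x ^ s)⁻¹ = t * (x ^ s * QuatD.ww x N * (x ^ s)⁻¹) * t⁻¹ := by group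
      rw [h1, ← h.ww_comm_x s, mul_inv_cancel_right, h.t_ww]
  intro g hg
  rw [Subgroup.mem_normalizer_iff]
  intro y
  constructor
  · rintro ⟨c, rfl⟩
    show g * (QuatD.ww x N ^ c) * g⁻¹ ∈ _
    rw [← MulAut.conj_apply, map_zpow, MulAut.conj_apply]
    refine Subgroup.zpow_mem _ ?_ _
    rcases hgen g hg with e | e <;> rw [e]
    · exact Subgroup.mem_zpowers _
    · exact Subgroup.inv_mem _ (Subgroup.mem_zpowers _)
  · intro hy
    obtain ⟨c, hc⟩ := hy
    have hc' : (QuatD.ww x N) ^ c = g * y * g⁻¹ := hc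
    have hy' : y = (g⁻¹ * QuatD.ww x N * g) ^ c := by
      have h5 := conj_zpow (a := g⁻¹) (b := QuatD.ww x N) (i := c)
      rw [inv_inv] at h5
      rw [h5, hc']
      group
    rw [hy']
    refine Subgroup.zpow_mem _ ?_ _
    have hgi : g⁻¹ ∈ D := D.inv_mem hg
    have := hgen g⁻¹ hgi
    rw [inv_inv] at this
    rcases this with e | e <;> rw [e]
    · exact Subgroup.mem_zpowers _
    · exact Subgroup.inv_mem _ (Subgroup.mem_zpowers _)

/-- `w` conjugates a reflection to its product with `z`. -/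
theorem ww_refl (s : ℕ) : QuatD.ww x N * (t * x ^ s) * (QuatD.ww x N)⁻¹ = x ^ N * (t * x ^ s) := by
  have h1 : t * QuatD.ww x N = (QuatD.ww x N)⁻¹ * t := by
    have := h.t_ww
    rw [← this]
    group
  have h2 : QuatD.ww x N * t = t * (QuatD.ww x N)⁻¹ := by
    calc QuatD.ww x N * t = QuatD.ww x N * (t * QuatD.ww x N) * (QuatD.ww x N)⁻¹ := by group
      _ = QuatD.ww x N * ((QuatD.ww x N)⁻¹ * t) * (QuatD.ww x N)⁻¹ := by rw [h1]
      _ = t * (QuatD.ww x N)⁻¹ := by group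
  have h3 : (QuatD.ww x N)⁻¹ * x ^ s = x ^ s * (QuatD.ww x N)⁻¹ := by
    have := h.ww_comm_x s
    calc (QuatD.ww x N)⁻¹ * x ^ s = (QuatD.ww x N)⁻¹ * (x ^ s * QuatD.ww x N) * (QuatD.ww x N)⁻¹ := by group
      _ = (QuatD.ww x N)⁻¹ * (QuatD.ww x N * x ^ s) * (QuatD.ww x N)⁻¹ := by rw [this]
      _ = _ := by group
  have h4 : QuatD.ww x N * (t * x ^ s) * (QuatD.ww x N)⁻¹ = t * x ^ s * (QuatD.ww x N * QuatD.ww x N)⁻¹ := by
    calc QuatD.ww x N * (t * x ^ s) * (QuatD.ww x N)⁻¹ = (QuatD.ww x N * t) * x ^ s * (QuatD.ww x N)⁻¹ := by group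
      _ = t * ((QuatD.ww x N)⁻¹ * x ^ s) * (QuatD.ww x N)⁻¹ := by rw [h2]; group
      _ = t * (x ^ s * (QuatD.ww x N)⁻¹) * (QuatD.ww x N)⁻¹ := by rw [h3]
      _ = _ := by group
  rw [h4, h.ww_sq, h.zz_inv]
  exact h.zz_comm (D.mul_mem h.htD (D.pow_mem h.hxD s))

end SDD

section Finite

variable [Finite G]

namespace SDD

variable {D : Subgroup G} {x t : G} {N : ℕ} (h : SDD D x t N)
include h

/-- Rotations of order at least four contain `w`. -/
theorem ww_mem_zpowers {s : ℕ} (hne : x ^ s ≠ 1) (hne' : x ^ s ≠ x ^ N) : QuatD.ww x N ∈ Subgroup.zpowers (x ^ s) := by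
  obtain ⟨k, hk⟩ := h.x_order_pow
  obtain ⟨r, hr⟩ := h.order_pow s
  have hr0 : r ≠ 0 := by
    rintro rfl
    apply hne
    rw [← orderOf_eq_one_iff, hr, pow_zero]
  have hr1 : r ≠ 1 := by
    rintro rfl
    apply hne'
    apply h.eq_zz_of_sq _ hne
    have h2 : (x ^ s) ^ 2 = 1 := by
      rw [← orderOf_dvd_iff_pow_eq_one, hr]
      norm_num
    rwa [pow_two] at h2
  obtain ⟨q, rfl⟩ : ∃ q, r = q + 2 := ⟨r - 2, by omega⟩
  have ho : orderOf (x ^ (s * 2 ^ q)) = 4 := by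
    rw [pow_mul, orderOf_pow_of_dvd (by positivity) (by rw [hr]; exact pow_dvd_pow _ (by omega)), hr]
    rw [show q + 2 = q + 2 by rfl, pow_add]
    norm_num
  have ho' : orderOf (x ^ (s * 2 ^ q)) = orderOf (x ^ (N / 2)) := by
    rw [ho]
    exact h.ww_order.symm
  obtain ⟨c, hc⟩ := exists_pow_eq_of_orderOf_eq hk ho'
  rw [QuatD.ww, hc, pow_mul]
  exact Subgroup.pow_mem _ (Subgroup.pow_mem _ (Subgroup.mem_zpowers _) _) _

/-- An odd order element centralizing `w` and mapping a rotation into `D` fixes it. -/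
theorem conj_rot_eq {k : G} (hk : Odd (orderOf k)) (hkw : k * QuatD.ww x N = QuatD.ww x N * k) {s : ℕ}
    (hkD : k * x ^ s * k⁻¹ ∈ D) : k * x ^ s * k⁻¹ = x ^ s := by
  obtain ⟨r, hr⟩ := h.order_pow s
  by_cases hr2 : r ≤ 2
  · -- in `⟨w⟩`
    have hin : x ^ s ∈ Subgroup.zpowers (QuatD.ww x N) := by
      have h1 : (x ^ s) ^ 4 = 1 := by
        rw [← orderOf_dvd_iff_pow_eq_one, hr]
        exact (pow_dvd_pow 2 hr2).trans (by norm_num)
      exact mem_zpowers_of_pow_four (y := x) (Subgroup.pow_mem _ (Subgroup.mem_zpowers x) _) h.ww_order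
        (Subgroup.pow_mem _ (Subgroup.mem_zpowers x) _) h1
    obtain ⟨c, hc⟩ := hin
    have hc' : (QuatD.ww x N) ^ c = x ^ s := hc
    rw [← hc', ((show Commute k (QuatD.ww x N) from hkw).zpow_right c).eq]
    group
  · push Not at hr2
    -- the image is a rotation
    have hord : orderOf (k * x ^ s * k⁻¹) = orderOf (x ^ s) := (MulAut.conj k).orderOf_eq _
    rcases h.hcov _ hkD with ⟨s', hs'⟩ | ⟨s', hs'⟩
    · have ho : orderOf (x ^ s) = orderOf (x ^ s') := by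
        rw [← hs']
        exact hord.symm
      obtain ⟨k₀, hk₀⟩ := h.x_order_pow
      obtain ⟨c, hc⟩ := exists_pow_eq_of_orderOf_eq hk₀ ho
      exact conj_eq_of_odd hr hk (by rw [hs', hc])
    · exfalso
      have h1 := h.refl_fourth s'
      have h2 : orderOf (x ^ s) ∣ 4 := by
        rw [← hord, hs']
        exact orderOf_dvd_of_pow_eq_one h1
      rw [hr] at h2
      have h3 : (2 : ℕ) ^ r ∣ 2 ^ 2 := h2
      have h4 := (Nat.pow_dvd_pow_iff_le_right (by norm_num : 1 < 2)).mp h3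
      omega

/-- **An odd order element normalizing a subgroup of `D` and centralizing `w` centralizes it.** -/
theorem odd_centralizes {Q : Subgroup G} (hQ : Q ≤ D) {k : G} (hk : Odd (orderOf k))
    (hkw : k * QuatD.ww x N = QuatD.ww x N * k) (hkQ : ∀ g ∈ Q, k * g * k⁻¹ ∈ Q) (g : G) (hg : g ∈ Q) :
    k * g * k⁻¹ = g := by
  rcases h.hcov g (hQ hg) with ⟨s, rfl⟩ | ⟨s, rfl⟩
  · exact h.conj_rot_eq hk hkw (hQ (hkQ _ hg))
  · set g := t * x ^ s with hgdef
    have hc1 : k * g * k⁻¹ ∈ D := hQ (hkQ g hg)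
    rcases h.hcov _ hc1 with ⟨s₁, hs₁⟩ | ⟨s₁, hs₁⟩
    · exfalso
      have hxQ : x ^ s₁ ∈ Q := by
        rw [← hs₁]
        exact hkQ g hg
      have h2 := h.conj_rot_eq hk hkw (hQ (hkQ _ hxQ))
      rw [← hs₁] at h2
      have h3 : g = k * g * k⁻¹ := by
        have h4 : k * (k * g * k⁻¹) * k⁻¹ = k * g * k⁻¹ := h2
        exact (mul_left_cancel (mul_right_cancel h4)).symm
      rw [hs₁] at h3
      exact h.refl_ne s s₁ h3
    · have hr : ∃ c : ℕ, k * g * k⁻¹ = g * x ^ c := by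
        have h3 : (x ^ s)⁻¹ = x ^ ((2 * N - 1) * s) := by
          apply inv_eq_of_mul_eq_one_right
          rw [← pow_add]
          have h4 : s + (2 * N - 1) * s = 2 * N * s := by
            have hN := h.N_pos
            obtain ⟨c, hc⟩ : ∃ c, 2 * N = c + 1 := ⟨2 * N - 1, by omega⟩
            rw [hc]
            simp
            ring
          rw [h4, pow_mul, h.x_pow_two_N, one_pow]
        refine ⟨(2 * N - 1) * s + s₁, ?_⟩
        rw [hs₁, hgdef, pow_add, ← h3]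
        group
      obtain ⟨c, hc⟩ := hr
      have hxQ : x ^ c ∈ Q := by
        have h1 : x ^ c = g⁻¹ * (k * g * k⁻¹) := by
          rw [hc]
          group
        rw [h1]
        exact Q.mul_mem (Q.inv_mem hg) (hkQ g hg)
      have hfix := h.conj_rot_eq hk hkw (hQ (hkQ _ hxQ))
      have hit : ∀ i : ℕ, k ^ i * g * (k ^ i)⁻¹ = g * (x ^ c) ^ i := by
        intro i
        induction i with
        | zero => simp
        | succ i ih =>
          have h1 : k ^ (i + 1) * g * (k ^ (i + 1))⁻¹ = k * (k ^ i * g * (k ^ i)⁻¹) * k⁻¹ := by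
            rw [pow_succ']
            group
          rw [h1, ih]
          have h2 : k * (g * (x ^ c) ^ i) * k⁻¹ = (k * g * k⁻¹) * (k * x ^ c * k⁻¹) ^ i := by
            rw [conj_pow]
            group
          rw [h2, hfix, hc, mul_assoc, pow_succ']
      have h1 := hit (orderOf k)
      rw [pow_orderOf_eq_one] at h1
      simp only [one_mul, inv_one, mul_one] at h1
      have h2 : (x ^ c) ^ orderOf k = 1 := mul_left_cancel (a := g) (by rw [← h1, mul_one])
      have h3 : orderOf (x ^ c) ∣ orderOf k := orderOf_dvd_of_pow_eq_one h2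
      obtain ⟨r, hr⟩ := h.order_pow c
      have hcop : Nat.Coprime (orderOf k) (2 ^ r) :=
        Nat.Coprime.pow_right _ (Nat.coprime_two_right.mpr hk)
      have h5 : orderOf (x ^ c) = 1 := Nat.Coprime.eq_one_of_dvd (Nat.Coprime.coprime_dvd_left h3 hcop) (by rw [hr])
      rw [hc, orderOf_eq_one_iff.mp h5, mul_one]

/-- An odd order element normalizing `⟨w⟩` centralizes `w`. -/
theorem odd_comm_ww {k : G} (hk : Odd (orderOf k))
    (hkn : k ∈ Subgroup.normalizer ((Subgroup.zpowers (QuatD.ww x N) : Subgroup G) : Set G)) :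
    k * QuatD.ww x N = QuatD.ww x N * k := by
  have h1 : k * QuatD.ww x N * k⁻¹ ∈ Subgroup.zpowers (QuatD.ww x N) :=
    (Subgroup.mem_normalizer_iff.mp hkn _).mp (Subgroup.mem_zpowers _)
  have h2 : ∃ c : ℕ, (QuatD.ww x N) ^ c = k * QuatD.ww x N * k⁻¹ := by
    exact (Submonoid.mem_powers_iff _ _).mp ((mem_powers_iff_mem_zpowers).2 h1)
  obtain ⟨c, hc⟩ := h2
  have h3 := conj_eq_of_odd (r := 2) (s := c) (by rw [h.ww_order]; norm_num) hk hc.symm
  calc k * QuatD.ww x N = (k * QuatD.ww x N * k⁻¹) * k := by group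
    _ = QuatD.ww x N * k := by rw [h3]

end SDD

end Finite

/-- The data pass to a subgroup. -/
theorem SDD.subgroupOf {D W : Subgroup G} {x t : G} {N : ℕ} (h : SDD D x t N) (hDW : D ≤ W) :
    SDD (D.subgroupOf W) (⟨x, hDW h.hxD⟩ : W) (⟨t, hDW h.htD⟩ : W) N where
  hpow := h.hpow
  hxo := by
    rw [← h.hxo]
    exact Subgroup.orderOf_mk x _
  hxD := Subgroup.mem_subgroupOf.mpr h.hxD
  htD := Subgroup.mem_subgroupOf.mpr h.htD
  htt := Subtype.ext h.htt
  htx := Subtype.ext h.htx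
  hcov := by
    intro g hg
    rcases h.hcov g (Subgroup.mem_subgroupOf.mp hg) with ⟨s, hs⟩ | ⟨s, hs⟩
    · exact Or.inl ⟨s, Subtype.ext hs⟩
    · exact Or.inr ⟨s, Subtype.ext hs⟩
  hnot := by
    intro s hs
    exact h.hnot s (congrArg Subtype.val hs)

/-- A quasi-dihedral subgroup has the data. -/
theorem exists_sdd {D : Subgroup G} {n : ℕ} (hcard : Nat.card D = 2 ^ n) (hsd : IsQuasiDihedral D) :
    4 ≤ n ∧ ∃ x t : G, SDD D x t (2 ^ (n - 2)) := by
  obtain ⟨n', hn', hc, X, Y, hX, hY, hYX⟩ := hsd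
  haveI : Finite D := Nat.finite_of_card_ne_zero (by rw [hcard]; positivity)
  have hn : n = n' + 1 := by
    rw [hcard] at hc
    exact Nat.pow_right_injective (le_refl 2) hc
  subst hn
  refine ⟨by omega, X, Y, ?_⟩
  have e1 : n' + 1 - 2 = (n' - 3) + 2 := by omega
  have hNc : 2 ^ (n' + 1 - 2) = 2 ^ (n' - 1) := by
    congr 1
  set N := 2 ^ (n' + 1 - 2) with hNdef
  have h2N : 2 ^ n' = 2 * N := by
    rw [hNdef, ← pow_succ']
    congr 1
    omega
  have hN4 : 4 ≤ N := by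
    rw [hNdef, e1, pow_add]
    have : 1 ≤ 2 ^ (n' - 3) := Nat.one_le_two_pow
    omega
  have hYX' : Y * X * Y⁻¹ = X ^ (N - 1) := by
    rw [hYX, hNc]
  have hYnot : ∀ s : ℕ, Y ≠ X ^ s := by
    intro s hs
    have h1 : Y * X * Y⁻¹ = X := by
      rw [hs, ((Commute.refl X).pow_left s).eq]
      group
    rw [hYX'] at h1
    have h2 : X ^ (N - 2) = 1 := by
      have h3 : X ^ (N - 1) = X ^ (N - 2) * X := by
        rw [← pow_succ]
        congr 1
        omega
      rw [h3] at h1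
      exact mul_eq_right.mp h1
    have h3 := orderOf_dvd_of_pow_eq_one h2
    rw [hX, h2N] at h3
    have := Nat.le_of_dvd (by omega) h3
    omega
  have hidx : (Subgroup.zpowers X).index = 2 := by
    have h1 := Subgroup.card_mul_index (Subgroup.zpowers X)
    rw [Nat.card_zpowers, hX, hc, pow_succ] at h1
    have h2 : 0 < 2 ^ n' := by positivity
    exact Nat.eq_of_mul_eq_mul_left h2 h1
  have hYA : Y ∉ Subgroup.zpowers X := by
    intro hm
    obtain ⟨s, hs⟩ := (mem_powers_iff_mem_zpowers).mpr hm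
    exact hYnot s hs.symm
  refine ⟨⟨n' - 3, ?_⟩, ?_, X.2, Y.2, ?_, ?_, ?_, ?_⟩
  · rw [hNdef, e1]
  · rw [Subgroup.orderOf_coe, hX, h2N]
  · have hy2 : Y * Y = 1 := by
      rw [← pow_two, ← hY]
      exact pow_orderOf_eq_one Y
    exact congrArg Subtype.val hy2
  · exact congrArg Subtype.val hYX'
  · intro g hg
    by_cases hm : (⟨g, hg⟩ : D) ∈ Subgroup.zpowers X
    · left
      obtain ⟨s, hs⟩ := (mem_powers_iff_mem_zpowers).mpr hm
      refine ⟨s, ?_⟩
      exact (congrArg Subtype.val hs).symm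
    · right
      have h1 : Y⁻¹ * (⟨g, hg⟩ : D) ∈ Subgroup.zpowers X := by
        rw [Subgroup.mul_mem_iff_of_index_two hidx, inv_mem_iff]
        simp [hYA, hm]
      obtain ⟨s, hs⟩ := (mem_powers_iff_mem_zpowers).mpr h1
      refine ⟨s, ?_⟩
      have hs' : X ^ s = Y⁻¹ * (⟨g, hg⟩ : D) := hs
      have h2 : (⟨g, hg⟩ : D) = Y * X ^ s := by
        rw [hs']
        group
      exact congrArg Subtype.val h2
  · intro s hs
    exact hYnot s (Subtype.ext (by simpa using hs))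

end Q

section DGroup

variable {K : Type u} [Group K] [Fintype K] {D : Subgroup K} {x t : K} {N : ℕ}

/-- The action of the reflections on the exponents. -/
def sg (N l : ℕ) : ℕ := (l * (N - 1)) % (2 * N)

namespace SDD

variable (h : SDD D x t N)
include h

theorem pow_inj {s r : ℕ} (hs : s < 2 * N) (hr : r < 2 * N) (e : x ^ s = x ^ r) : s = r := by
  have h1 := pow_injOn_Iio_orderOf (x := x)
  rw [h.hxo] at h1
  exact h1 (Set.mem_Iio.mpr hs) (Set.mem_Iio.mpr hr) e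

theorem pow_sg (l : ℕ) : x ^ sg N l = x ^ (l * (N - 1)) := by
  rw [sg, ← h.hxo, pow_mod_orderOf]

theorem sg_lt (l : ℕ) : sg N l < 2 * N := Nat.mod_lt _ (by have := h.N_pos; omega)

theorem conj_rot (hall : ∀ g, g ∈ D) (g : K) (l : ℕ) : g * x ^ l * g⁻¹ = x ^ l ∨ g * x ^ l * g⁻¹ = x ^ (l * (N - 1)) := by
  rcases h.hcov g (hall g) with ⟨s, rfl⟩ | ⟨s, rfl⟩
  · left
    rw [h.x_mul_comm s l]
    group
  · right
    have h1 : t * x ^ s * x ^ l * (t * x ^ s)⁻¹ = t * x ^ l * t⁻¹ := by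
      have : x ^ s * x ^ l * (x ^ s)⁻¹ = x ^ l := by
        rw [h.x_mul_comm s l]
        group
      calc t * x ^ s * x ^ l * (t * x ^ s)⁻¹ = t * (x ^ s * x ^ l * (x ^ s)⁻¹) * t⁻¹ := by group
        _ = t * x ^ l * t⁻¹ := by rw [this]
    rw [h1, h.tc]

/-- A rotation fixed by the reflections is trivial or `z`. -/
theorem rot_fixed {l : ℕ} (hl : l < 2 * N) (e : x ^ (l * (N - 1)) = x ^ l) : l = 0 ∨ l = N := by
  have hN4 := h.four_le
  obtain ⟨c, hc⟩ := h.N_four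
  have h1 : x ^ (l * (N - 2)) = 1 := by
    have h2 : l * (N - 1) = l * (N - 2) + l := by
      have : N - 1 = N - 2 + 1 := by omega
      rw [this]
      ring
    rw [h2, pow_add] at e
    exact mul_eq_right.mp e
  have h3 := orderOf_dvd_of_pow_eq_one h1
  rw [h.hxo] at h3
  obtain ⟨m, hm⟩ := h.hpow
  have h4 : N - 2 = 2 * (N / 2 - 1) := by omega
  rw [h4, show l * (2 * (N / 2 - 1)) = 2 * (l * (N / 2 - 1)) by ring] at h3
  have h5 : N ∣ l * (N / 2 - 1) := Nat.dvd_of_mul_dvd_mul_left (by norm_num) h3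
  have hodd : Odd (N / 2 - 1) := ⟨N / 4 - 1, by omega⟩
  have hcop : Nat.Coprime N (N / 2 - 1) := by
    rw [hm]
    exact Nat.Coprime.pow_left _ (Nat.coprime_two_left.mpr (by rw [← hm]; exact hodd))
  have h6 : N ∣ l := hcop.dvd_of_dvd_mul_right h5
  obtain ⟨q, rfl⟩ := h6
  rcases q with _ | _ | q
  · simp
  · right
    ring
  · exfalso
    have : N * (q + 1 + 1) = N * q + 2 * N := by ring
    rw [this] at hl
    have : 0 ≤ N * q := Nat.zero_le _
    omega

theorem sq_pred : ∃ c : ℕ, (N - 1) * (N - 1) = 2 * N * c + 1 := by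
  obtain ⟨c, hc⟩ := h.N_four
  refine ⟨N / 2 - 1, ?_⟩
  subst hc
  have e1 : 4 * (c + 1) - 1 = 4 * c + 3 := by omega
  have e2 : 4 * (c + 1) / 2 - 1 = 2 * c + 1 := by omega
  rw [e1, e2]
  ring

theorem sg_sg {l : ℕ} (hl : l < 2 * N) : sg N (sg N l) = l := by
  apply h.pow_inj (h.sg_lt _) hl
  obtain ⟨c, hc⟩ := h.sq_pred
  rw [h.pow_sg, pow_mul, h.pow_sg, ← pow_mul, mul_assoc, hc, mul_add, pow_add, mul_one,
    show l * (2 * N * c) = 2 * N * (l * c) by ring, pow_mul, h.x_pow_two_N, one_pow, one_mul]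

theorem sg_pos {l : ℕ} (h0 : 0 < l) (hl : l < 2 * N) : 0 < sg N l := by
  by_contra hn
  have h1 : sg N l = 0 := by omega
  have h2 := h.sg_sg hl
  rw [h1] at h2
  have h3 : sg N 0 = 0 := by simp [sg]
  omega

theorem sg_N : sg N N = N := by
  obtain ⟨c, hc⟩ := h.N_four
  have hN := h.N_pos
  unfold sg
  have h1 : N * (N - 1) = N + 2 * N * (2 * c + 1) := by
    subst hc
    have e1 : 4 * (c + 1) - 1 = 4 * c + 3 := by omega
    rw [e1]
    ring
  rw [h1, Nat.add_mul_mod_self_left]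
  exact Nat.mod_eq_of_lt (by omega)

theorem sg_ne_N {l : ℕ} (hl : l < 2 * N) (e : l ≠ N) : sg N l ≠ N := by
  intro h1
  have h2 := h.sg_sg hl
  rw [h1, h.sg_N] at h2
  exact e h2.symm

/-- The reflections move the rotations other than `1` and `z`. -/
theorem sg_ne_self {l : ℕ} (h0 : 0 < l) (hl : l < 2 * N) (e : l ≠ N) : sg N l ≠ l := by
  intro h1
  have h2 : x ^ (l * (N - 1)) = x ^ l := by
    rw [← h.pow_sg, h1]
  rcases h.rot_fixed hl h2 with h3 | h3
  · omega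
  · exact e h3

theorem conj_t (l : ℕ) : t * x ^ l * t⁻¹ = x ^ sg N l := by
  rw [h.tc, h.pow_sg]

/-- The conjugates of the rotations. -/
theorem isConj_rot_iff (hall : ∀ g, g ∈ D) {l l' : ℕ} (hl : l < 2 * N) (hl' : l' < 2 * N) :
    IsConj (x ^ l') (x ^ l) ↔ l' = l ∨ l' = sg N l := by
  constructor
  · intro hc
    obtain ⟨g, hg⟩ := isConj_iff.mp hc
    have hg' : g⁻¹ * x ^ l * g⁻¹⁻¹ = x ^ l' := by
      rw [← hg]
      group
    rcases h.conj_rot hall g⁻¹ l with e | e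
    · rw [e] at hg'
      exact Or.inl (h.pow_inj hl hl' hg').symm
    · rw [e, ← h.pow_sg] at hg'
      exact Or.inr (h.pow_inj (h.sg_lt _) hl' hg').symm
  · rintro (rfl | rfl)
    · exact IsConj.refl _
    · apply isConj_iff.mpr
      refine ⟨t, ?_⟩
      rw [h.conj_t, h.sg_sg hl]

/-- The order of the centralizer of a rotation. -/
theorem card_cen_rot (hall : ∀ g, g ∈ D) {l : ℕ} (h0 : 0 < l) (hl : l < 2 * N) (e : l ≠ N) :
    Nat.card (Subgroup.centralizer ({x ^ l} : Set K)) = 2 * N := by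
  have h1 : Subgroup.centralizer ({x ^ l} : Set K) = Subgroup.zpowers x := by
    ext g
    rw [Subgroup.mem_centralizer_singleton_iff]
    constructor
    · intro hg
      rcases h.hcov g (hall g) with ⟨s, rfl⟩ | ⟨s, rfl⟩
      · exact Subgroup.pow_mem _ (Subgroup.mem_zpowers x) s
      · exfalso
        have h2 : (t * x ^ s) * x ^ l * (t * x ^ s)⁻¹ = x ^ l := by
          rw [hg]
          group
        have h3 : (t * x ^ s) * x ^ l * (t * x ^ s)⁻¹ = x ^ sg N l := by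
          have h4 : x ^ s * x ^ l * (x ^ s)⁻¹ = x ^ l := by
            rw [h.x_mul_comm s l]
            group
          calc (t * x ^ s) * x ^ l * (t * x ^ s)⁻¹ = t * (x ^ s * x ^ l * (x ^ s)⁻¹) * t⁻¹ := by group
            _ = t * x ^ l * t⁻¹ := by rw [h4]
            _ = x ^ sg N l := h.conj_t l
        rw [h2] at h3
        exact h.sg_ne_self h0 hl e (h.pow_inj hl (h.sg_lt _) h3).symm
    · rintro ⟨c, rfl⟩
      simp only
      exact ((Commute.refl x).zpow_left c |>.pow_right l).eq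
  rw [h1, Nat.card_zpowers, h.hxo]

/-- **Column orthogonality on the rotations.** -/
theorem gram_rot [Fintype (IrrCharacter K)] (hall : ∀ g, g ∈ D) {l l' : ℕ} (h0 : 0 < l)
    (hl : l < 2 * N) (e : l ≠ N) (h0' : 0 < l') (hl' : l' < 2 * N) (e' : l' ≠ N) :
    ∑ χ : IrrCharacter K, (χ : K → ℂ) (x ^ l') * conj ((χ : K → ℂ) (x ^ l)) =
      ((2 * N : ℕ) : ℂ) * ((if l' = l then 1 else 0) + (if l' = sg N l then 1 else 0)) := by
  by_cases hcj : IsConj (x ^ l') (x ^ l)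
  · rw [Cfsg.Agent.Lib.Char.CompleteCor.column_orth_conj hcj, h.card_cen_rot hall h0' hl' e']
    rcases (h.isConj_rot_iff hall hl hl').mp hcj with e2 | e2
    · subst e2
      rw [if_pos rfl, if_neg (h.sg_ne_self h0 hl e).symm]
      push_cast
      ring
    · rw [if_neg (by rw [e2]; exact h.sg_ne_self h0 hl e), if_pos e2]
      push_cast
      ring
  · rw [Cfsg.Agent.Lib.Char.CompleteCor.column_orth_not_conj hcj]
    have hn : ¬ (l' = l ∨ l' = sg N l) := fun hh => hcj ((h.isConj_rot_iff hall hl hl').mpr hh)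
    rw [not_or] at hn
    rw [if_neg hn.1, if_neg hn.2]
    simp

theorem inv_pow_eq {l : ℕ} (hl : l ≤ 2 * N) : (x ^ l)⁻¹ = x ^ (2 * N - l) := by
  apply inv_eq_of_mul_eq_one_left
  rw [← pow_add, Nat.sub_add_cancel hl, h.x_pow_two_N]

/-- The conjugate values on the rotations. -/
theorem irr_rot_conj (χ : IrrCharacter K) {l : ℕ} (hl : l ≤ 2 * N) :
    conj ((χ : K → ℂ) (x ^ l)) = (χ : K → ℂ) (x ^ (2 * N - l)) := by
  rw [Cfsg.Agent.Lib.Char.Ortho.conj_of_isCharacter (Cfsg.Agent.Lib.Char.Basic.isCharacter_of_isIrrCharacter χ.2),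
    h.inv_pow_eq hl]

/-- The class function property on the rotations. -/
theorem irr_rot_sg (χ : IrrCharacter K) (l : ℕ) : (χ : K → ℂ) (x ^ sg N l) = (χ : K → ℂ) (x ^ l) := by
  rw [← h.conj_t l]
  exact (Cfsg.Agent.Lib.Blocks.Central.isClassFunction_of_irr χ.2) (x ^ l) t

/-- The multiplicity of a linear character on `⟨x⟩`. -/
theorem exists_nat_mult {k : ℕ} (hk : 2 ^ k = 2 * N) {ζ : ℂ} (hζ : IsPrimitiveRoot ζ (2 ^ k)) (κ : ℕ) (χ : IrrCharacter K) :
    ∃ n : ℕ, ((2 ^ k : ℕ) : ℂ)⁻¹ * ∑ l ∈ Finset.range (2 ^ k), ζ ^ (κ * l) * (χ : K → ℂ) (x ^ l) = n := by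
  classical
  set A : Subgroup K := Subgroup.zpowers x with hA
  letI : Fintype A := Fintype.ofFinite _
  have hNpos : 0 < 2 ^ k := by positivity
  have h0 := hζ.ne_zero hNpos.ne'
  have h0c : conj ζ ≠ 0 := by
    rw [Ne, map_eq_zero]
    exact h0
  set u : ℂˣ := Units.mk0 ((conj ζ) ^ κ) (pow_ne_zero _ h0c) with hu
  set s : A := ⟨x, Subgroup.mem_zpowers x⟩ with hs
  have hgen : ∀ y : A, y ∈ Subgroup.zpowers s := by
    rintro ⟨_, z, rfl⟩
    exact ⟨z, Subtype.ext (by simp [hs])⟩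
  have hso : orderOf s = 2 ^ k := by
    rw [← Subgroup.orderOf_coe, hk]
    exact h.hxo
  have hord : orderOf u ∣ orderOf s := by
    apply orderOf_dvd_of_pow_eq_one
    rw [hso]
    apply Units.ext
    simp only [hu, Units.val_pow_eq_pow_val, Units.val_mk0, Units.val_one]
    rw [← pow_mul, mul_comm, pow_mul, ← map_pow, hζ.pow_eq_one, map_one, one_pow]
  set φ : A →* ℂˣ := monoidHomOfForallMemZpowers hgen hord with hφ
  have hφs : φ s = u := monoidHomOfForallMemZpowers_apply_gen hgen hord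
  have hpowA : ∀ l : ℕ, x ^ l ∈ A := fun l => Subgroup.pow_mem _ (Subgroup.mem_zpowers x) l
  have hφl : ∀ l : ℕ, conj ((φ ⟨x ^ l, hpowA l⟩ : ℂˣ) : ℂ) = ζ ^ (κ * l) := by
    intro l
    have h1 : (⟨x ^ l, hpowA l⟩ : A) = s ^ l := Subtype.ext (by simp [hs])
    rw [h1, map_pow, hφs]
    simp only [hu, Units.val_pow_eq_pow_val, Units.val_mk0]
    simp only [map_pow, Complex.conj_conj]
    rw [pow_mul]
  have hχc := Cfsg.Agent.Lib.Char.Basic.isCharacter_of_isIrrCharacter χ.2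
  obtain ⟨n, hn⟩ := Cfsg.Agent.Lib.Char.Ortho.exists_nat_classInner_of_isCharacter
    (Cfsg.Agent.Lib.Char.Basic.isCharacter_restrict hχc A)
    (Cfsg.Agent.Lib.Char.Basic.isCharacter_of_isIrrCharacter (Cfsg.Agent.Lib.Char.LinearChars.isIrr_of_hom φ))
  refine ⟨n, ?_⟩
  have hcardA : Nat.card A = 2 ^ k := by rw [hA, Nat.card_zpowers, h.hxo, hk]
  rw [← hn, Cfsg.Agent.Lib.Char.Induced.classInner_def, hcardA]
  congr 1
  have hfin : IsOfFinOrder x := isOfFinOrder_of_finite x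
  have hxo' : orderOf x = 2 ^ k := by rw [h.hxo, hk]
  rw [← hxo']
  rw [← Equiv.sum_comp (finEquivZPowers hfin)]
  rw [← Fin.sum_univ_eq_sum_range (fun l => ζ ^ (κ * l) * (χ : K → ℂ) (x ^ l))]
  refine Finset.sum_congr rfl fun l _ => ?_
  rw [finEquivZPowers_apply]
  have h1 := hφl (l : ℕ)
  simp only
  rw [h1, mul_comm]

end SDD

end DGroup

end Cfsg.Agent.Lib.Blocks.Semi
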