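/-
The star construction for Brauer blocks: relative traces and the induction on the `p`-subgroup.
-/
import Mathlib
import Cfsg.Agent.Lib.Blocks.StarB

set_option autoImplicit false

namespace Cfsg.Agent.Lib.Blocks.Nilp

open Cfsg Cfsg.Agent.Lib.Blocks.Local Cfsg.Agent.Lib.Blocks.Central Cfsg.Agent.Lib.Blocks.Osima
open Cfsg.Agent.Lib.Blocks.Covering Cfsg.Agent.Lib.Blocks.BlockHom Cfsg.Agent.Lib.Blocks.Pairs
open Cfsg.Agent.Lib.Blocks.Twisted Cfsg.Agent.Lib.Blocks.Necklace
open Polynomial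

universe u

section Step

variable {G : Type u} [Group G] [Fintype G] {p : ℕ} [hp : Fact p.Prime]

/-- A proper subgroup of a `p`-subgroup lies in a normal subgroup of index `p`. -/
theorem exists_step_of_lt {Q H : Subgroup G} (hQ : IsPGroup p Q) (hHQ : H ≤ Q) (hne : H ≠ Q) :
    ∃ (R : Subgroup G) (v : G), H ≤ R ∧ IsStep p Q R v := by
  classical
  obtain ⟨k, hk⟩ := (IsPGroup.iff_card (p := p) (G := Q)).mp hQ
  set H' : Subgroup Q := H.subgroupOf Q with hH'
  have hH'top : H' ≠ ⊤ := by
    intro h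
    apply hne
    rw [hH', Subgroup.subgroupOf_eq_top] at h
    exact le_antisymm hHQ h
  obtain ⟨n, hn⟩ : ∃ n, Nat.card H' = p ^ n := by
    have h1 : Nat.card H' ∣ p ^ k := by
      rw [← hk]
      exact Subgroup.card_subgroup_dvd_card H'
    obtain ⟨n, -, hn⟩ := (Nat.dvd_prime_pow hp.out).mp h1
    exact ⟨n, hn⟩
  have hnk : n < k := by
    have h1 : Nat.card H' ≠ Nat.card Q := by
      intro h
      apply hH'top
      exact Subgroup.eq_top_of_card_eq _ h
    have h2 : Nat.card H' ∣ p ^ k := by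
      rw [← hk]
      exact Subgroup.card_subgroup_dvd_card H'
    rw [hn] at h2
    have h3 := (Nat.pow_dvd_pow_iff_le_right hp.out.one_lt).mp h2
    rw [hn, hk] at h1
    have h4 : n ≠ k := fun h => h1 (by rw [h])
    omega
  obtain ⟨K, hK, hHK⟩ := Sylow.exists_subgroup_card_pow_prime_le p (m := k - 1) (n := n)
    (by rw [hk]; exact pow_dvd_pow p (Nat.sub_le _ _)) H' hn (by omega)
  have hkpos : 0 < k := by omega
  have hcardQ : Nat.card Q = p * Nat.card K := by
    rw [hk, hK]
    obtain ⟨m, rfl⟩ : ∃ m, k = m + 1 := ⟨k - 1, by omega⟩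
    simp [pow_succ, mul_comm]
  have hidx : K.index = p := by
    have h1 := K.card_mul_index
    rw [hcardQ, mul_comm] at h1
    have hK0 : 0 < Nat.card K := by rw [hK]; exact pow_pos hp.out.pos _
    exact Nat.eq_of_mul_eq_mul_right hK0 (by rw [h1])
  have hminFac : K.index = (Nat.card Q).minFac := by
    rw [hidx, hk, Nat.Prime.pow_minFac hp.out hkpos.ne']
  have hKn : K.Normal := Subgroup.normal_of_index_eq_minFac_card hminFac
  have hquot : Nat.card (Q ⧸ K) = p := by
    rw [← Subgroup.index_eq_card, hidx]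
  obtain ⟨w, hw⟩ : ∃ w : Q, w ∉ K := by
    by_contra hcon
    push Not at hcon
    have htop : K = ⊤ := by
      ext x
      simp [hcon x]
    rw [htop, Subgroup.index_top] at hidx
    exact hp.out.one_lt.ne hidx
  have hwq : (QuotientGroup.mk w : Q ⧸ K) ≠ 1 := by
    rwa [Ne, QuotientGroup.eq_one_iff]
  have hmk : ∀ j : ℕ, ((w : G) ^ j) = ((w ^ j : Q) : G) := fun j => by simp
  refine ⟨K.map Q.subtype, (w : G), ?_, ?_⟩
  · intro x hx
    have hxQ := hHQ hx
    exact ⟨⟨x, hxQ⟩, hHK (Subgroup.mem_subgroupOf.mpr hx), rfl⟩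
  · refine ⟨?_, w.2, ?_, ?_, ?_, ?_, ?_⟩
    · rintro _ ⟨x, -, rfl⟩
      exact x.2
    · rintro u hu _ ⟨x, hx, rfl⟩
      refine ⟨⟨u, hu⟩ * x * ⟨u, hu⟩⁻¹, hKn.conj_mem x hx _, ?_⟩
      simp
    · rw [hmk]
      have h0 : w ^ p ∈ K := by
        rw [← QuotientGroup.eq_one_iff, QuotientGroup.mk_pow]
        have := pow_card_eq_one' (x := (QuotientGroup.mk w : Q ⧸ K))
        rwa [hquot] at this
      exact ⟨w ^ p, h0, rfl⟩
    · intro j hj0 hjp hcon
      rw [hmk] at hcon
      obtain ⟨x, hx, hxE⟩ := hcon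
      have hxw : x = w ^ j := Subtype.ext hxE
      have hx' : w ^ j ∈ K := by
        rw [← hxw]
        exact hx
      rw [← QuotientGroup.eq_one_iff, QuotientGroup.mk_pow] at hx'
      replace hx := hx'
      have h1 : orderOf (QuotientGroup.mk w : Q ⧸ K) = p := by
        refine orderOf_eq_prime ?_ hwq
        have := pow_card_eq_one' (x := (QuotientGroup.mk w : Q ⧸ K))
        rwa [hquot] at this
      have h2 := orderOf_dvd_of_pow_eq_one hx
      rw [h1] at h2
      exact Nat.not_dvd_of_pos_of_lt hj0 hjp h2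
    · intro u hu
      have h1 := mem_powers_of_prime_card (p := p) hquot hwq (g' := (QuotientGroup.mk ⟨u, hu⟩ : Q ⧸ K))
      obtain ⟨j, hj⟩ := h1
      have hord : (QuotientGroup.mk w : Q ⧸ K) ^ p = 1 := by
        have := pow_card_eq_one' (x := (QuotientGroup.mk w : Q ⧸ K))
        rwa [hquot] at this
      refine ⟨j % p, Nat.mod_lt _ hp.out.pos, ?_⟩
      have h2 : (QuotientGroup.mk w : Q ⧸ K) ^ (j % p) = QuotientGroup.mk ⟨u, hu⟩ := by
        have hj' : (QuotientGroup.mk w : Q ⧸ K) ^ j = QuotientGroup.mk ⟨u, hu⟩ := hj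
        rw [← hj']
        conv_rhs => rw [← Nat.div_add_mod j p, pow_add, pow_mul, hord, one_pow, one_mul]
      rw [← QuotientGroup.mk_pow, QuotientGroup.eq] at h2
      refine ⟨(((w ^ (j % p))⁻¹ * ⟨u, hu⟩ : Q) : G), ⟨_, h2, rfl⟩, ?_⟩
      simp
    · rw [hcardQ]
      congr 1
      exact (Nat.card_congr (Subgroup.equivMapOfInjective K Q.subtype Q.subtype_injective).toEquiv)

end Step

section Orbit

variable {G : Type u} [Group G] [Fintype G] {M : Ideal AlgInt} [hM : M.IsPrime] {p : ℕ} [hp : Fact p.Prime]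

open Classical in
/-- The sum of a conjugacy orbit under a subgroup. -/
noncomputable def orbE (H : Subgroup G) (g : G) : MonoidAlgebra ℂ G :=
  ofFun fun c => if ∃ u ∈ H, c = u * g * u⁻¹ then 1 else 0

open Classical in
lemma coeff_orbE (H : Subgroup G) (g c : G) :
    (orbE H g).coeff c = if ∃ u ∈ H, c = u * g * u⁻¹ then 1 else 0 := coeff_ofFun _ _

lemma locCoeff_orbE (H : Subgroup G) (g : G) : LocCoeff M (orbE H g) := by
  classical
  intro c
  rw [coeff_orbE]
  split_ifs
  · exact memLocalRing_one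
  · exact memLocalRing_zero

lemma invBy_orbE (H : Subgroup G) (g : G) : InvBy H (orbE H g) := by
  classical
  intro c u hu
  rw [coeff_orbE, coeff_orbE]
  congr 1
  apply propext
  constructor
  · rintro ⟨w, hw, hE⟩
    refine ⟨u⁻¹ * w, H.mul_mem (H.inv_mem hu) hw, ?_⟩
    have : c = u⁻¹ * (u * c * u⁻¹) * u := by group
    rw [this, hE]
    group
  · rintro ⟨w, hw, rfl⟩
    exact ⟨u * w, H.mul_mem hu hw, by group⟩

lemma orbE_of_centralizes {H : Subgroup G} {g : G} (hg : g ∈ Subgroup.centralizer (H : Set G)) :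
    orbE H g = MonoidAlgebra.single g 1 := by
  classical
  apply ext_coeff
  intro c
  rw [coeff_orbE, MonoidAlgebra.coeff_single, Finsupp.single_apply]
  have hc : (∃ u ∈ H, c = u * g * u⁻¹) ↔ g = c := by
    constructor
    · rintro ⟨u, hu, rfl⟩
      have := Subgroup.mem_centralizer_iff.mp hg u hu
      rw [this]
      group
    · rintro rfl
      exact ⟨1, H.one_mem, by simp⟩
  simp only [hc]

/-- The orbit of the big group is the sum of the conjugates of the orbit of the normal subgroup. -/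
theorem sum_cj_orbE {Q R : Subgroup G} {v : G} (hS : IsStep p Q R v) {g : G}
    (hstab : ∀ u ∈ Q, u * g * u⁻¹ = g → u ∈ R) :
    ∑ i ∈ Finset.range p, cj (v ^ i) (orbE R g) = orbE Q g := by
  classical
  apply ext_coeff
  intro c
  rw [MonoidAlgebra.coeff_sum, Finsupp.finsetSum_apply, coeff_orbE]
  simp only [coeff_cj, coeff_orbE]
  split_ifs with hc
  · obtain ⟨u, hu, rfl⟩ := hc
    obtain ⟨j, hj, r, hr, rfl⟩ := hS.gen u hu
    rw [Finset.sum_eq_single j]
    · rw [if_pos]
      exact ⟨r, hr, by group⟩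
    · intro i hi hij
      have hi' := Finset.mem_range.mp hi
      rw [if_neg]
      rintro ⟨r', hr', hE⟩
      -- the ratio fixes `g`
      set w := (v ^ j * r)⁻¹ * (v ^ i * r') with hw
      have hwQ : w ∈ Q := Q.mul_mem (Q.inv_mem (Q.mul_mem (hS.pow_mem j) (hS.le hr)))
        (Q.mul_mem (hS.pow_mem i) (hS.le hr'))
      have hwg : w * g * w⁻¹ = g := by
        have h2 : (v ^ j * r) * g * (v ^ j * r)⁻¹ = v ^ i * (r' * g * r'⁻¹) * (v ^ i)⁻¹ := by
          rw [← hE]
          group
        rw [hw]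
        calc (v ^ j * r)⁻¹ * (v ^ i * r') * g * ((v ^ j * r)⁻¹ * (v ^ i * r'))⁻¹
            = (v ^ j * r)⁻¹ * (v ^ i * (r' * g * r'⁻¹) * (v ^ i)⁻¹) * (v ^ j * r) := by group
          _ = g := by rw [← h2]; group
      have hwR := hstab w hwQ hwg
      -- so a power of `v` lies in `R`
      have h3 : (v ^ j)⁻¹ * v ^ i ∈ R := by
        have h4 : (v ^ j)⁻¹ * v ^ i = r * w * r'⁻¹ := by
          rw [hw]
          group
        rw [h4]
        exact R.mul_mem (R.mul_mem hr hwR) (R.inv_mem hr')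
      rcases lt_or_gt_of_ne hij with h | h
      · apply hS.ne (j - i) (by omega) (by omega)
        have h5 : v ^ (j - i) = ((v ^ j)⁻¹ * v ^ i)⁻¹ := by
          have : v ^ j = v ^ i * v ^ (j - i) := by rw [← pow_add]; congr 1; omega
          rw [mul_inv_rev, inv_inv, this, inv_mul_cancel_left]
        rw [h5]
        exact R.inv_mem h3
      · apply hS.ne (i - j) (by omega) (by omega)
        have h5 : v ^ (i - j) = (v ^ j)⁻¹ * v ^ i := by
          have : v ^ i = v ^ j * v ^ (i - j) := by rw [← pow_add]; congr 1; omega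
          rw [this]
          group
        rw [h5]
        exact h3
    · intro h
      exact absurd (Finset.mem_range.mpr hj) h
  · rw [Finset.sum_eq_zero]
    intro i _
    rw [if_neg]
    rintro ⟨r', hr', hE⟩
    apply hc
    refine ⟨v ^ i * r', Q.mul_mem (hS.pow_mem i) (hS.le hr'), ?_⟩
    have : c = v ^ i * ((v ^ i)⁻¹ * c * v ^ i) * (v ^ i)⁻¹ := by group
    rw [this, hE]
    group

/-- Decomposition of an invariant element into orbit sums. -/
theorem exists_orbit_decomp (Q : Subgroup G) {y : MonoidAlgebra ℂ G} (hyi : InvBy Q y) :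
    ∃ S : Finset G, y = ∑ g ∈ S, (y.coeff g) • orbE Q g := by
  classical
  let r : Setoid G :=
    { r := fun c d => ∃ u ∈ Q, d = u * c * u⁻¹
      iseqv :=
        { refl := fun c => ⟨1, Q.one_mem, by simp⟩
          symm := by
            rintro c d ⟨u, hu, rfl⟩
            exact ⟨u⁻¹, Q.inv_mem hu, by group⟩
          trans := by
            rintro c d e ⟨u, hu, rfl⟩ ⟨v, hv, rfl⟩
            exact ⟨v * u, Q.mul_mem hv hu, by group⟩ } }
  let rep : G → G := fun c => (Quotient.mk r c).out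
  have hrep1 : ∀ c, ∃ u ∈ Q, c = u * rep c * u⁻¹ := fun c => Quotient.mk_out (s := r) c
  have hrep2 : ∀ c u, u ∈ Q → rep (u * c * u⁻¹) = rep c := by
    intro c u hu
    have : Quotient.mk r (u * c * u⁻¹) = Quotient.mk r c :=
      Quotient.sound (show r.r _ _ from ⟨u⁻¹, Q.inv_mem hu, by group⟩)
    show (Quotient.mk r (u * c * u⁻¹)).out = (Quotient.mk r c).out
    rw [this]
  refine ⟨Finset.univ.filter (fun g => rep g = g), ?_⟩
  apply ext_coeff
  intro c
  rw [MonoidAlgebra.coeff_sum, Finsupp.finsetSum_apply]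
  simp only [MonoidAlgebra.coeff_smul_apply, coeff_orbE, smul_eq_mul]
  obtain ⟨u, hu, huE⟩ := hrep1 c
  have hrc : rep (rep c) = rep c := by
    have := hrep2 (rep c) u hu
    rw [← huE] at this
    exact this.symm
  rw [Finset.sum_eq_single (rep c)]
  · rw [if_pos ⟨u, hu, huE⟩, mul_one]
    conv_lhs => rw [huE]
    exact hyi _ u hu
  · intro g hg hne
    rw [if_neg, mul_zero]
    rintro ⟨w, hw, hE⟩
    apply hne
    rw [hE, hrep2 g w hw]
    exact (Finset.mem_filter.mp hg).2.symm
  · intro h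
    exact absurd (Finset.mem_filter.mpr ⟨Finset.mem_univ _, hrc⟩ :
      rep c ∈ Finset.univ.filter (fun g => rep g = g)) h

lemma cj_smul_alg (s : G) (c : ℂ) (a : MonoidAlgebra ℂ G) : cj s (c • a) = c • cj s a := by
  apply ext_coeff
  intro g
  simp [MonoidAlgebra.coeff_smul_apply]

lemma coeffIn_smul_of_mem {c : ℂ} (hc : MemLocalIdeal M c) {x : MonoidAlgebra ℂ G} (hx : LocCoeff M x) :
    CoeffIn (localIdeal M) (c • x) := by
  rw [coeffIn_localIdeal_iff]
  intro g
  rw [MonoidAlgebra.coeff_smul_apply, smul_eq_mul]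
  exact memLocalIdeal_mul_right hc (hx g)

/-- **Relative traces.** A primitive idempotent of the `Q`-invariant lattice whose truncation to the
centralizer of `Q` vanishes modulo the local ideal is a relative trace from a subgroup of index `p`. -/
theorem exists_relTrace (hMp : IsPModular p M) {Q : Subgroup G} (hQ : IsPGroup p Q) {y : MonoidAlgebra ℂ G}
    (hy : IsPrimIdem M Q y) (h0 : CoeffIn (localIdeal M) (tr (Subgroup.centralizer (Q : Set G)) y)) :
    ∃ (R : Subgroup G) (v : G) (a : MonoidAlgebra ℂ G), IsStep p Q R v ∧ LocCoeff M a ∧ InvBy R a ∧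
      y * a = a ∧ a * y = a ∧ ∑ i ∈ Finset.range p, cj (v ^ i) a = y := by
  classical
  have hyy := hy.idem
  have hyl := hy.loc
  obtain ⟨S, hSy⟩ := exists_orbit_decomp Q hy.inv
  set f : G → MonoidAlgebra ℂ G := fun g => (y.coeff g) • (y * orbE Q g * y) with hf
  have hfsum : ∑ g ∈ S, f g = y := by
    have e1 : y = y * y * y := by rw [hyy, hyy]
    have e2 : y * y * y = y * (∑ g ∈ S, (y.coeff g) • orbE Q g) * y := by rw [← hSy]
    rw [e1, e2, Finset.mul_sum, Finset.sum_mul]
    refine Finset.sum_congr rfl fun g _ => ?_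
    simp only [hf, mul_smul_comm, smul_mul_assoc]
  have hfl : ∀ g, LocCoeff M (f g) := fun g =>
    LocCoeff.smul (hyl g) ((hyl.mul (locCoeff_orbE Q g)).mul hyl)
  have hfi : ∀ g, InvBy Q (f g) := fun g =>
    InvBy.smul _ ((hy.inv.mul (invBy_orbE Q g)).mul hy.inv)
  have hyf : ∀ g, y * f g = f g := by
    intro g
    simp only [hf, mul_smul_comm]
    rw [← mul_assoc, ← mul_assoc, hyy]
  have hfy : ∀ g, f g * y = f g := by
    intro g
    simp only [hf, smul_mul_assoc]
    rw [mul_assoc, hyy]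
  have hU : CornerUnit M Q y (∑ g ∈ S, f g) := by
    rw [hfsum]
    exact cornerUnit_self hyl hy.inv hyy
  obtain ⟨g, hgS, hgU⟩ := hy.exists_cornerUnit_of_sum S f (fun g _ => hfl g) (fun g _ => hfi g)
    (fun g _ => hyf g) (fun g _ => hfy g) hU
  by_cases hgc : g ∈ Subgroup.centralizer (Q : Set G)
  · exfalso
    refine not_cornerUnit_of_coeffIn hMp hyy hy.ne ?_ hgU
    have hcm : MemLocalIdeal M (y.coeff g) := by
      have := coeffIn_localIdeal_iff.mp h0 g
      rwa [coeff_tr_of_mem _ hgc] at this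
    exact coeffIn_smul_of_mem hcm ((hyl.mul (locCoeff_orbE Q g)).mul hyl)
  · set H : Subgroup G := Q ⊓ Subgroup.centralizer ({g} : Set G) with hH
    have hHne : H ≠ Q := by
      intro h
      apply hgc
      rw [Subgroup.mem_centralizer_iff]
      intro u hu
      have hu2 : u ∈ H := by rw [h]; exact hu
      have := Subgroup.mem_centralizer_iff.mp hu2.2 g rfl
      exact this.symm
    obtain ⟨R, v, hHR, hS⟩ := exists_step_of_lt hQ inf_le_left hHne
    have hstab : ∀ u ∈ Q, u * g * u⁻¹ = g → u ∈ R := by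
      intro u hu hug
      apply hHR
      refine ⟨hu, ?_⟩
      show u ∈ Subgroup.centralizer ({g} : Set G)
      rw [Subgroup.mem_centralizer_iff]
      rintro _ rfl
      rw [mul_inv_eq_iff_eq_mul] at hug
      exact hug.symm
    obtain ⟨h, hl, hi, hhy, hyh, h1, h2⟩ := hgU
    refine ⟨R, v, (y.coeff g) • (y * orbE R g * y * h), hS, ?_, ?_, ?_, ?_, ?_⟩
    · exact LocCoeff.smul (hyl g) (((hyl.mul (locCoeff_orbE R g)).mul hyl).mul hl)
    · exact InvBy.smul _ (((((hy.inv.mono hS.le).mul (invBy_orbE R g)).mul (hy.inv.mono hS.le))).mul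
        (hi.mono hS.le))
    · rw [mul_smul_comm]
      congr 1
      simp only [← mul_assoc]
      rw [hyy]
    · rw [smul_mul_assoc, mul_assoc, hhy]
    · have hcjy : ∀ i : ℕ, cj (v ^ i) y = y := fun i => cj_eq_of_invBy hy.inv (hS.pow_mem i)
      have hcjh : ∀ i : ℕ, cj (v ^ i) h = h := fun i => cj_eq_of_invBy hi (hS.pow_mem i)
      have e1 : ∀ i, cj (v ^ i) ((y.coeff g) • (y * orbE R g * y * h)) =
          (y.coeff g) • (y * cj (v ^ i) (orbE R g) * y * h) := by
        intro i
        rw [cj_smul_alg, cj_mul, cj_mul, cj_mul, hcjy, hcjh]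
      simp only [e1]
      rw [← Finset.smul_sum, ← Finset.sum_mul, ← Finset.sum_mul, ← Finset.mul_sum, sum_cj_orbE hS hstab]
      have e2 : f g * h = (y.coeff g) • (y * orbE Q g * y * h) := by
        simp only [hf, smul_mul_assoc]
      rw [← e2, h1]

end Orbit

end Cfsg.Agent.Lib.Blocks.Nilp
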