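/-
The star construction for Brauer blocks: integrality of the inner products on `p`-subgroups.
-/
import Mathlib
import Cfsg.Agent.Lib.Blocks.StarC

set_option autoImplicit false

namespace Cfsg.Agent.Lib.Blocks.Nilp

open Cfsg Cfsg.Agent.Lib.Blocks.Local Cfsg.Agent.Lib.Blocks.Central Cfsg.Agent.Lib.Blocks.Osima
open Cfsg.Agent.Lib.Blocks.Covering Cfsg.Agent.Lib.Blocks.BlockHom Cfsg.Agent.Lib.Blocks.Pairs
open Cfsg.Agent.Lib.Blocks.Twisted Cfsg.Agent.Lib.Blocks.Necklace Cfsg.Agent.Lib.Blocks.Sections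
open Polynomial

universe u

section IntAt

variable {G : Type u} [Group G] [Fintype G] {M : Ideal AlgInt} [hM : M.IsPrime] {p : ℕ} [hp : Fact p.Prime]

/-- The trace of a class function is symmetric. -/
lemma twTrace_one_comm_class {t : G → ℂ} (ht : IsClassFunction G t) (a b : MonoidAlgebra ℂ G) :
    twTrace t 1 (a * b) = twTrace t 1 (b * a) := by
  rw [twTrace_classFunction ht, twTrace_classFunction ht]
  refine Finset.sum_congr rfl fun χ _ => ?_
  rw [twTrace_one_comm (Cfsg.Agent.Lib.Char.Values.IsIrrCharacter.isCharacter χ.2)]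

lemma single_mul_eq_cj_mul (u : G) (e : MonoidAlgebra ℂ G) :
    MonoidAlgebra.single u (1 : ℂ) * e = cj u e * MonoidAlgebra.single u (1 : ℂ) := by
  apply ext_coeff
  intro g
  rw [coeff_single_one_mul, Cfsg.Agent.Lib.Blocks.WeakOrth.coeff_mul_single_one]
  simp only [coeff_cj]
  congr 1
  group

/-- The twisted trace vanishes when the idempotent is orthogonal to its conjugate. -/
lemma twTrace_eq_zero_of_orth {T : G → ℂ} (hT : IsClassFunction G T) {u : G} {e : MonoidAlgebra ℂ G}
    (he : e * e = e) (h0 : e * cj u e = 0) : twTrace T u e = 0 := by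
  have h1 : twTrace T u e = twTrace T 1 (MonoidAlgebra.single u (1 : ℂ) * e) :=
    (twTrace_single_mul hT u e).symm
  rw [h1]
  conv_lhs => rw [← he]
  rw [← mul_assoc, twTrace_one_comm_class hT, single_mul_eq_cj_mul, ← mul_assoc, h0, zero_mul]
  simp [twTrace]

/-- The integrality statement for the twisted traces on a `p`-subgroup. -/
def IntAt (T : G → ℂ) (Q : Subgroup G) (w : MonoidAlgebra ℂ G) : Prop :=
  ∀ α : Q →* ℂˣ, ∃ n : ℤ, ∑ᶠ u : Q, ((α u : ℂˣ) : ℂ) * twTrace T (u : G) w = (Nat.card Q : ℂ) * n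

lemma intAt_iff (T : G → ℂ) (Q : Subgroup G) [Fintype Q] (w : MonoidAlgebra ℂ G) :
    IntAt T Q w ↔ ∀ α : Q →* ℂˣ, ∃ n : ℤ,
      ∑ u : Q, ((α u : ℂˣ) : ℂ) * twTrace T (u : G) w = (Nat.card Q : ℂ) * n := by
  simp only [IntAt, finsum_eq_sum_of_fintype]

lemma intAt_zero (T : G → ℂ) (Q : Subgroup G) : IntAt T Q 0 := by
  classical
  letI : Fintype Q := Fintype.ofFinite _
  rw [intAt_iff]
  intro α
  refine ⟨0, ?_⟩
  simp [twTrace]

lemma intAt_add {T : G → ℂ} {Q : Subgroup G} {a b : MonoidAlgebra ℂ G} (ha : IntAt T Q a) (hb : IntAt T Q b) :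
    IntAt T Q (a + b) := by
  classical
  letI : Fintype Q := Fintype.ofFinite _
  rw [intAt_iff] at ha hb ⊢
  intro α
  obtain ⟨n, hn⟩ := ha α
  obtain ⟨m, hm⟩ := hb α
  refine ⟨n + m, ?_⟩
  simp only [twTrace_add, mul_add, Finset.sum_add_distrib, hn, hm]
  push_cast
  ring

/-- A split idempotent: reduction from `Q` to the subgroup of index `p`. -/
theorem intAt_of_split {T : G → ℂ} (hT : IsClassFunction G T) {Q R : Subgroup G} {v : G} (hS : IsStep p Q R v)
    {z : MonoidAlgebra ℂ G} (hzi : InvBy R z) (hzz : z * z = z)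
    (horth : ∀ i < p, ∀ j < p, i ≠ j → cj (v ^ i) z * cj (v ^ j) z = 0) (hzR : IntAt T R z) :
    IntAt T Q (∑ i ∈ Finset.range p, cj (v ^ i) z) := by
  classical
  letI : Fintype Q := Fintype.ofFinite _
  letI : Fintype R := Fintype.ofFinite _
  rw [intAt_iff] at hzR ⊢
  intro α
  obtain ⟨n, hn⟩ := hzR (α.comp (Subgroup.inclusion hS.le))
  refine ⟨n, ?_⟩
  -- the elements outside `R` do not contribute
  have hout : ∀ u ∈ Q, u ∉ R → ∀ i < p, twTrace T u (cj (v ^ i) z) = 0 := by
    intro u hu huR i hi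
    refine twTrace_eq_zero_of_orth hT ?_ ?_
    · rw [← cj_mul, hzz]
    · obtain ⟨j, hj, r, hr, hE⟩ := hS.gen (u * v ^ i) (Q.mul_mem hu (hS.pow_mem i))
      have hji : i ≠ j := by
        rintro rfl
        apply huR
        have h1 : u = v ^ i * r * (v ^ i)⁻¹ := by
          rw [← hE]
          group
        rw [h1]
        exact hS.norm _ (hS.pow_mem i) r hr
      rw [← cj_cj, hE, cj_cj, cj_eq_of_invBy hzi hr]
      exact horth i hi j hj hji
  have hsum1 : ∑ u : Q, ((α u : ℂˣ) : ℂ) * twTrace T (u : G) (∑ i ∈ Finset.range p, cj (v ^ i) z) =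
      ∑ r : R, ((α (Subgroup.inclusion hS.le r) : ℂˣ) : ℂ) *
        twTrace T (r : G) (∑ i ∈ Finset.range p, cj (v ^ i) z) := by
    symm
    refine Fintype.sum_of_injective (Subgroup.inclusion hS.le) (Subgroup.inclusion_injective hS.le) _ _ ?_ ?_
    · intro u hu
      have huR : (u : G) ∉ R := by
        intro h
        exact hu ⟨⟨u, h⟩, rfl⟩
      rw [twTrace_sum, Finset.sum_eq_zero, mul_zero]
      intro i hi
      exact hout u u.2 huR i (Finset.mem_range.mp hi)
    · intro r
      rfl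
  rw [hsum1]
  simp only [twTrace_sum, Finset.mul_sum]
  rw [Finset.sum_comm]
  -- each conjugate contributes the same
  have hconj : ∀ i : ℕ, ∑ r : R, ((α (Subgroup.inclusion hS.le r) : ℂˣ) : ℂ) * twTrace T (r : G) (cj (v ^ i) z) =
      ∑ r : R, ((α (Subgroup.inclusion hS.le r) : ℂˣ) : ℂ) * twTrace T (r : G) z := by
    intro i
    set x : G := v ^ i with hx
    have hxQ : x ∈ Q := hS.pow_mem i
    let φ : R ≃ R :=
      { toFun := fun r => ⟨x * r * x⁻¹, hS.norm x hxQ r r.2⟩
        invFun := fun r => ⟨x⁻¹ * r * x⁻¹⁻¹, hS.norm x⁻¹ (Q.inv_mem hxQ) r r.2⟩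
        left_inv := fun r => by
          apply Subtype.ext
          simp only
          group
        right_inv := fun r => by
          apply Subtype.ext
          simp only
          group }
    symm
    refine Fintype.sum_equiv φ _ _ fun r => ?_
    have h1 : twTrace T ((φ r : R) : G) (cj x z) = twTrace T (r : G) z := twTrace_conj hT x r z
    rw [h1]
    congr 1
    have h2 : Subgroup.inclusion hS.le (φ r) = (⟨x, hxQ⟩ : Q) * Subgroup.inclusion hS.le r * (⟨x, hxQ⟩ : Q)⁻¹ := by
      apply Subtype.ext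
      rfl
    rw [h2, map_mul, map_mul, map_inv, mul_comm, ← mul_assoc, inv_mul_cancel, one_mul]
  simp only [hconj]
  have hn' : ∑ r : R, ((α (Subgroup.inclusion hS.le r) : ℂˣ) : ℂ) * twTrace T (r : G) z = (Nat.card R : ℂ) * n := hn
  rw [hn', Finset.sum_const, Finset.card_range, nsmul_eq_mul, hS.card]
  push_cast
  ring

/-- **Reduction of integrality to local idempotents.** -/
theorem intAt_of_local {T : G → ℂ} (hT : IsClassFunction G T) (hMp : IsPModular p M)
    (hloc : ∀ Q : Subgroup G, IsPGroup p Q → ∀ y, IsPrimIdem M Q y →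
      ¬ CoeffIn (localIdeal M) (tr (Subgroup.centralizer (Q : Set G)) y) → IntAt T Q y) :
    ∀ Q : Subgroup G, IsPGroup p Q → ∀ w, LocCoeff M w → InvBy Q w → w * w = w → IntAt T Q w := by
  classical
  have key : ∀ (n : ℕ) (Q : Subgroup G), Nat.card Q = n → IsPGroup p Q → ∀ (m : ℕ) (w : MonoidAlgebra ℂ G),
      idemRank w = m → LocCoeff M w → InvBy Q w → w * w = w → IntAt T Q w := by
    intro n
    induction n using Nat.strong_induction_on with
    | _ n ihn =>
    intro Q hn hQ m
    induction m using Nat.strong_induction_on with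
    | _ m ihm =>
    intro w hm hwl hwi hww
    by_cases h0 : w = 0
    · rw [h0]
      exact intAt_zero T Q
    by_cases hprim : IsPrimIdem M Q w
    · by_cases hne : CoeffIn (localIdeal M) (tr (Subgroup.centralizer (Q : Set G)) w)
      · obtain ⟨R, v, a, hS, hal, hai, hya, hay, hsum⟩ := exists_relTrace hMp hQ hprim hne
        obtain ⟨z, hzl, hzi, hzz, hzs, hzo⟩ := green_split hMp hS hprim hal hai hya hay hsum
        rw [← hzs]
        refine intAt_of_split hT hS hzi hzz hzo ?_
        have hRQ : Nat.card R < n := by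
          rw [← hn, hS.card]
          have h1 : 0 < Nat.card R := Nat.card_pos
          have h2 := hp.out.one_lt
          nlinarith
        exact ihn _ hRQ R rfl (hQ.to_le hS.le) _ z rfl hzl hzi hzz
      · exact hloc Q hQ w hprim hne
    · -- not primitive: split
      have h1 : ∃ w₁ w₂ : MonoidAlgebra ℂ G, LocCoeff M w₁ ∧ InvBy Q w₁ ∧ LocCoeff M w₂ ∧ InvBy Q w₂ ∧
          w₁ * w₁ = w₁ ∧ w₂ * w₂ = w₂ ∧ w₁ * w₂ = 0 ∧ w₂ * w₁ = 0 ∧ w₁ + w₂ = w ∧ w₁ ≠ 0 ∧ w₂ ≠ 0 := by
        by_contra hcon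
        push Not at hcon
        apply hprim
        refine ⟨hwl, hwi, hww, h0, ?_⟩
        intro w₁ w₂ h1 h2 h3 h4 h5 h6 h7 h8 h9
        by_cases h10 : w₁ = 0
        · exact Or.inl h10
        · exact Or.inr (hcon w₁ w₂ h1 h2 h3 h4 h5 h6 h7 h8 h9 h10)
      obtain ⟨w₁, w₂, h1l, h1i, h2l, h2i, h11, h22, h12, h21, hs, hn1, hn2⟩ := h1
      have hw1 : w * w₁ = w₁ := by rw [← hs, add_mul, h11, h21, add_zero]
      have hw1' : w₁ * w = w₁ := by rw [← hs, mul_add, h11, h12, add_zero]
      have hw2 : w * w₂ = w₂ := by rw [← hs, add_mul, h22, h12, zero_add]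
      have hw2' : w₂ * w = w₂ := by rw [← hs, mul_add, h22, h21, zero_add]
      have hr1 : idemRank w₁ < m := by
        rw [← hm]
        refine idemRank_lt h11 hw1 hw1' hww ?_
        intro h
        apply hn2
        have : w₁ + w₂ = w₁ := by rw [hs, h]
        simpa using this
      have hr2 : idemRank w₂ < m := by
        rw [← hm]
        refine idemRank_lt h22 hw2 hw2' hww ?_
        intro h
        apply hn1
        have : w₁ + w₂ = w₂ := by rw [hs, h]
        simpa using this
      rw [← hs]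
      exact intAt_add (ihm _ hr1 w₁ rfl h1l h1i h11) (ihm _ hr2 w₂ rfl h2l h2i h22)
  intro Q hQ w hwl hwi hww
  exact key _ Q rfl hQ _ w rfl hwl hwi hww

end IntAt

end Cfsg.Agent.Lib.Blocks.Nilp
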