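/-
The star construction for Brauer blocks: the modified class function and its section formula.
-/
import Mathlib
import Cfsg.Agent.Lib.Blocks.StarD

set_option autoImplicit false

namespace Cfsg.Agent.Lib.Blocks.Nilp

open Cfsg Cfsg.Agent.Lib.Blocks.Local Cfsg.Agent.Lib.Blocks.Central Cfsg.Agent.Lib.Blocks.Osima
open Cfsg.Agent.Lib.Blocks.Covering Cfsg.Agent.Lib.Blocks.BlockHom Cfsg.Agent.Lib.Blocks.Pairs
open Cfsg.Agent.Lib.Blocks.Twisted Cfsg.Agent.Lib.Blocks.Necklace Cfsg.Agent.Lib.Blocks.Sections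
open Cfsg.Agent.Lib.Blocks.Regular Cfsg.Agent.Lib.Blocks.BlockCount
open Cfsg.Agent.Lib.Blocks.SecondMain
open Cfsg.Agent.Lib.Char.Ortho
open scoped ComplexConjugate
open Polynomial

universe u

section Star

variable {G : Type u} [Group G] [Fintype G] {M : Ideal AlgInt} [hM : M.IsPrime] {p : ℕ} [hp : Fact p.Prime]
variable {P : Subgroup G} {e : Set (IrrCharacter (Subgroup.centralizer (P : Set G)))}

/-- A function which is constant on the fusion of the pair `(P, e)`. -/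
def FStable (M : Ideal AlgInt) (p : ℕ) (P : Subgroup G)
    (e : Set (IrrCharacter (Subgroup.centralizer (P : Set G)))) (θ : G → ℂ) : Prop :=
  ∀ v ∈ P, ∀ x : G, x * v * x⁻¹ ∈ P → cj x (Ev M p P e v) = Ev M p P e (x * v * x⁻¹) → θ (x * v * x⁻¹) = θ v

open Classical in
/-- The multiplier attached to a subsection `(u, E)`. -/
noncomputable def LamF (M : Ideal AlgInt) (p : ℕ) (P : Subgroup G)
    (e : Set (IrrCharacter (Subgroup.centralizer (P : Set G)))) (θ : G → ℂ) (u : G)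
    (E : MonoidAlgebra ℂ G) : ℂ :=
  if h : ∃ x : G, x * u * x⁻¹ ∈ P ∧ cj x E = Ev M p P e (x * u * x⁻¹) then
    θ (h.choose * u * h.choose⁻¹) else 0

lemma LamF_eq {θ : G → ℂ} (hθ : FStable M p P e θ) {u x : G} {E : MonoidAlgebra ℂ G}
    (hx : x * u * x⁻¹ ∈ P) (hE : cj x E = Ev M p P e (x * u * x⁻¹)) :
    LamF M p P e θ u E = θ (x * u * x⁻¹) := by
  classical
  have h : ∃ x : G, x * u * x⁻¹ ∈ P ∧ cj x E = Ev M p P e (x * u * x⁻¹) := ⟨x, hx, hE⟩
  unfold LamF
  rw [dif_pos h]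
  obtain ⟨hy, hyE⟩ := h.choose_spec
  set y := h.choose with hyy
  set w := x * y⁻¹ with hw
  have hw1 : w * (y * u * y⁻¹) * w⁻¹ = x * u * x⁻¹ := by
    rw [hw]
    group
  have h1 := hθ (y * u * y⁻¹) hy w (by rw [hw1]; exact hx) (by
    rw [hw1, ← hyE, ← cj_cj, hw, inv_mul_cancel_right, hE])
  rw [hw1] at h1
  exact h1.symm

lemma LamF_of_not {θ : G → ℂ} {u : G} {E : MonoidAlgebra ℂ G}
    (h : ¬ ∃ x : G, x * u * x⁻¹ ∈ P ∧ cj x E = Ev M p P e (x * u * x⁻¹)) : LamF M p P e θ u E = 0 := by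
  classical
  unfold LamF
  rw [dif_neg h]

lemma LamF_conj {θ : G → ℂ} (hθ : FStable M p P e θ) (x u : G) (E : MonoidAlgebra ℂ G) :
    LamF M p P e θ (x * u * x⁻¹) (cj x E) = LamF M p P e θ u E := by
  classical
  by_cases h : ∃ y : G, y * u * y⁻¹ ∈ P ∧ cj y E = Ev M p P e (y * u * y⁻¹)
  · obtain ⟨y, hy, hyE⟩ := h
    have e1 : y * x⁻¹ * (x * u * x⁻¹) * (y * x⁻¹)⁻¹ = y * u * y⁻¹ := by group
    rw [LamF_eq hθ hy hyE, LamF_eq (x := y * x⁻¹) hθ (by rw [e1]; exact hy) (by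
      rw [e1, ← cj_cj, inv_mul_cancel_right, hyE]), e1]
  · rw [LamF_of_not h, LamF_of_not]
    rintro ⟨y, hy, hyE⟩
    apply h
    have e1 : y * (x * u * x⁻¹) * y⁻¹ = y * x * u * (y * x)⁻¹ := by group
    rw [e1] at hy hyE
    exact ⟨y * x, hy, by rw [cj_cj, hyE]⟩

lemma memLocalRing_LamF {θ : G → ℂ} (hθl : ∀ v ∈ P, MemLocalRing M (θ v)) (u : G) (E : MonoidAlgebra ℂ G) :
    MemLocalRing M (LamF M p P e θ u E) := by
  classical
  unfold LamF
  split_ifs with h
  · exact hθl _ h.choose_spec.1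
  · exact memLocalRing_zero

/-- The value of the star function relative to a given `p`-part. -/
noncomputable def starVal (M : Ideal AlgInt) [M.IsPrime] (p : ℕ) (P : Subgroup G)
    (e : Set (IrrCharacter (Subgroup.centralizer (P : Set G)))) (θ t : G → ℂ) (u g : G) : ℂ :=
  ∑ f : Blk M (Kz u), LamF M p P e θ u (EE (Kz u) f.1) * twTrace t g (EE (Kz u) f.1)

/-- The `p`-part of an element. -/
noncomputable def starPP (p : ℕ) [Fact p.Prime] (g : G) : G := Classical.choose (exists_isPPart p g)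

lemma starPP_spec (g : G) : IsPPart p g (starPP p g) := Classical.choose_spec (exists_isPPart p g)

lemma starPP_eq {g z : G} (h : IsPPart p g z) : starPP p g = z := isPPart_unique (starPP_spec g) h

/-- The star function. -/
noncomputable def starT (M : Ideal AlgInt) [M.IsPrime] (p : ℕ) [Fact p.Prime] (P : Subgroup G)
    (e : Set (IrrCharacter (Subgroup.centralizer (P : Set G)))) (θ t : G → ℂ) (g : G) : ℂ :=
  starVal M p P e θ t (starPP p g) g

lemma isPPart_of_mem_regC {u c : G} (hu : u ∈ pElts (G := G) p) (hc : c ∈ regC p u) : IsPPart p (u * c) u := by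
  obtain ⟨hc1, hc2⟩ := mem_regC.mp hc
  obtain ⟨k, hk⟩ := mem_pElts.mp hu
  exact ⟨c, rfl, (mem_centralizer_zpowers_iff.mp hc1).symm, ⟨k, hk⟩, hc2⟩

lemma starT_mul {θ t : G → ℂ} {u c : G} (hu : u ∈ pElts (G := G) p) (hc : c ∈ regC p u) :
    starT M p P e θ t (u * c) = starVal M p P e θ t u (u * c) := by
  unfold starT
  rw [starPP_eq (isPPart_of_mem_regC hu hc)]

/-- Reindexing the blocks under conjugation. -/
lemma sum_Blk_conj (x u : G) (Φ : MonoidAlgebra ℂ G → ℂ) :
    ∑ f : Blk M (Kz u), Φ (cj x (EE (Kz u) f.1)) = ∑ f : Blk M (Kz (x * u * x⁻¹)), Φ (EE (Kz (x * u * x⁻¹)) f.1) := by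
  classical
  have hback : (Kz (x * u * x⁻¹)).map (MulAut.conj x⁻¹).toMonoidHom = Kz u := by
    have h1 := hmapK x⁻¹ (x * u * x⁻¹)
    have e1 : x⁻¹ * (x * u * x⁻¹) * x⁻¹⁻¹ = u := by group
    rwa [e1] at h1
  refine Finset.sum_bij' (fun f _ => (⟨conjB x (hmapK x u) f.1, isPBlock_conjB f.2⟩ : Blk M (Kz (x * u * x⁻¹))))
    (fun f _ => (⟨conjB x⁻¹ hback f.1, isPBlock_conjB f.2⟩ : Blk M (Kz u)))
    (fun _ _ => Finset.mem_univ _) (fun _ _ => Finset.mem_univ _) ?_ ?_ ?_
  · intro f _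
    apply Subtype.ext
    apply eq_of_EE_eq (M := M) (isPBlock_conjB (isPBlock_conjB f.2)) f.2
    rw [← cj_EE_conjB, ← cj_EE_conjB, ← cj_cj, inv_mul_cancel, cj_one']
  · intro f _
    apply Subtype.ext
    apply eq_of_EE_eq (M := M) (isPBlock_conjB (isPBlock_conjB f.2)) f.2
    rw [← cj_EE_conjB, ← cj_EE_conjB, ← cj_cj, mul_inv_cancel, cj_one']
  · intro f _
    simp only
    rw [cj_EE_conjB (hmapK x u)]

lemma starVal_conj {θ t : G → ℂ} (hθ : FStable M p P e θ) (ht : IsClassFunction G t) (x u g : G) :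
    starVal M p P e θ t (x * u * x⁻¹) (x * g * x⁻¹) = starVal M p P e θ t u g := by
  classical
  unfold starVal
  rw [← sum_Blk_conj x u (fun E => LamF M p P e θ (x * u * x⁻¹) E * twTrace t (x * g * x⁻¹) E)]
  refine Finset.sum_congr rfl fun f _ => ?_
  rw [LamF_conj hθ, twTrace_conj ht]

theorem isClassFunction_starT {θ t : G → ℂ} (hθ : FStable M p P e θ) (ht : IsClassFunction G t) :
    IsClassFunction G (starT M p P e θ t) := by
  intro g x
  unfold starT
  rw [starPP_eq (isPPart_conj (starPP_spec g) x), starVal_conj hθ ht]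

lemma memLocalRing_starVal {θ t : G → ℂ} (hθl : ∀ v ∈ P, MemLocalRing M (θ v)) (htl : ∀ g, MemLocalRing M (t g))
    (u g : G) : MemLocalRing M (starVal M p P e θ t u g) := by
  refine memLocalRing_sum _ _ fun f _ => memLocalRing_mul (memLocalRing_LamF hθl _ _) ?_
  exact memLocalRing_sum _ _ fun h _ => memLocalRing_mul (locCoeff_EE f.2 h) (htl _)

lemma memLocalRing_starT {θ t : G → ℂ} (hθl : ∀ v ∈ P, MemLocalRing M (θ v)) (htl : ∀ g, MemLocalRing M (t g))
    (g : G) : MemLocalRing M (starT M p P e θ t g) := memLocalRing_starVal hθl htl _ _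

/-- The inner product with a block part. -/
lemma classInner_blockPart {X : Type u} [Group X] [Fintype X] (A : Set (IrrCharacter X)) (ϑ : X → ℂ)
    (ξ : IrrCharacter X) [Decidable (ξ ∈ A)] :
    classInner (blockPart A ϑ) (ξ : X → ℂ) = if ξ ∈ A then classInner ϑ (ξ : X → ℂ) else 0 := by
  classical
  have h1 : blockPart A ϑ = ∑ τ ∈ Finset.univ.filter (· ∈ A), classInner ϑ (τ : X → ℂ) • (τ : X → ℂ) := by
    funext g
    rw [blockPart_eq_sum, Finset.sum_apply]
    rfl
  rw [h1, classInner_sum_left]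
  simp only [classInner_smul_left]
  by_cases hξ : ξ ∈ A
  · rw [if_pos hξ, Finset.sum_eq_single ξ]
    · rw [classInner_irr_self ξ.2, mul_one]
    · intro τ _ hne
      rw [classInner_irr_of_ne τ.2 ξ.2 (fun h => hne (Subtype.ext h)), mul_zero]
    · intro h
      exact absurd (Finset.mem_filter.mpr ⟨Finset.mem_univ _, hξ⟩) h
  · rw [if_neg hξ]
    apply Finset.sum_eq_zero
    intro τ hτ
    have hτA := (Finset.mem_filter.mp hτ).2
    rw [classInner_irr_of_ne τ.2 ξ.2 (fun h => hξ (by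
      have : τ = ξ := Subtype.ext h
      rwa [← this])), mul_zero]

/-- Block parts of block parts. -/
lemma blockPart_blockPart {X : Type u} [Group X] [Fintype X] (A A' : Set (IrrCharacter X)) (ϑ : X → ℂ) :
    blockPart A (blockPart A' ϑ) = blockPart (A ∩ A') ϑ := by
  classical
  funext g
  rw [blockPart_eq_sum, blockPart_eq_sum, Finset.sum_filter, Finset.sum_filter]
  refine Finset.sum_congr rfl fun ξ _ => ?_
  rw [classInner_blockPart]
  by_cases h1 : ξ ∈ A
  · by_cases h2 : ξ ∈ A'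
    · rw [if_pos h1, if_pos h2, if_pos ⟨h1, h2⟩]
    · rw [if_pos h1, if_neg h2, if_neg (fun h => h2 h.2), zero_mul]
  · rw [if_neg h1, if_neg (fun h => h1 h.1)]

lemma blockPart_empty {X : Type u} [Group X] [Fintype X] (ϑ : X → ℂ) :
    blockPart (∅ : Set (IrrCharacter X)) ϑ = 0 := by
  classical
  funext g
  rw [blockPart_eq_sum]
  simp

/-- **The section formula.** -/
theorem twTrace_starT_EE (hMp : IsPModular p M) {θ t : G → ℂ} (hθ : FStable M p P e θ)
    (ht : IsClassFunction G t) {u c : G} (hu : u ∈ pElts (G := G) p) (hc : c ∈ regC p u)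
    {f : Set (IrrCharacter (Kz u))} (hf : IsPBlock M f) :
    twTrace (starT M p P e θ t) (u * c) (EE (Kz u) f) =
      LamF M p P e θ u (EE (Kz u) f) * twTrace t (u * c) (EE (Kz u) f) := by
  classical
  letI : Fintype (Kz u) := Fintype.ofFinite _
  have hK : ∀ k ∈ Kz u, k * u = u * k := fun k hk => mem_centralizer_zpowers_iff.mp hk
  have hT := isClassFunction_starT (M := M) (p := p) hθ ht
  obtain ⟨hcK, hcreg⟩ := mem_regC.mp hc
  set c' : Kz u := ⟨c, hcK⟩ with hc'
  have h1 := twTrace_EE_eq_blockPart hT hK f c'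
  have h2 := twTrace_EE_eq_blockPart ht hK f c'
  simp only [hc'] at h1 h2
  rw [h1, h2]
  set χu : Kz u → ℂ := fun k => t (u * k) with hχu
  set a : Blk M (Kz u) → ℂ := fun f' => LamF M p P e θ u (EE (Kz u) f'.1) with ha
  set ϑ₂ : Kz u → ℂ := ∑ f' : Blk M (Kz u), a f' • blockPart f'.1 χu with hϑ₂
  set ϑ₁ : Kz u → ℂ := fun k => starT M p P e θ t (u * k) with hϑ₁
  have hD0 : ∀ k : Kz u, ¬ p ∣ orderOf k → (ϑ₁ - ϑ₂) k = 0 := by
    intro k hk
    have hkr : (k : G) ∈ regC p u := mem_regC.mpr ⟨k.2, by rwa [Subgroup.orderOf_coe]⟩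
    simp only [Pi.sub_apply, hϑ₁, hϑ₂, Finset.sum_apply, Pi.smul_apply, smul_eq_mul]
    rw [starT_mul hu hkr, starVal, sub_eq_zero]
    refine Finset.sum_congr rfl fun f' _ => ?_
    rw [twTrace_EE_eq_blockPart ht hK f'.1 k]
  have h0 := blockPart_eq_zero_of_regular hMp (isClosed_of_isPBlock hf) hD0 (y := c')
    (by simpa [hc', Subgroup.orderOf_coe] using hcreg)
  have h3 : blockPart f (ϑ₁ - ϑ₂) = blockPart f ϑ₁ - blockPart f ϑ₂ := (blockPartL f).map_sub ϑ₁ ϑ₂
  rw [h3, Pi.sub_apply, sub_eq_zero] at h0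
  rw [h0]
  have h4 : blockPart f ϑ₂ = a ⟨f, hf⟩ • blockPart f χu := by
    have e1 : blockPart f ϑ₂ = ∑ f' : Blk M (Kz u), a f' • blockPart f (blockPart f'.1 χu) := by
      rw [hϑ₂, ← blockPartL_apply, map_sum]
      refine Finset.sum_congr rfl fun f' _ => ?_
      rw [map_smul, blockPartL_apply]
    rw [e1, Finset.sum_eq_single (⟨f, hf⟩ : Blk M (Kz u))]
    · simp only [blockPart_blockPart, Set.inter_self]
    · intro f' _ hne
      rw [blockPart_blockPart, Pairs.disjoint_of_isPBlock hf f'.2 (fun h => hne (Subtype.ext h.symm)),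
        blockPart_empty, smul_zero]
    · intro h
      exact absurd (Finset.mem_univ _) h
  rw [h4]
  rfl

end Star

end Cfsg.Agent.Lib.Blocks.Nilp
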