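/-
The star construction for Brauer blocks: norm, values on regular elements, and the local integrality.
-/
import Mathlib
import Cfsg.Agent.Lib.Blocks.StarE

set_option autoImplicit false

namespace Cfsg.Agent.Lib.Blocks.Nilp

open Cfsg Cfsg.Agent.Lib.Blocks.Local Cfsg.Agent.Lib.Blocks.Central Cfsg.Agent.Lib.Blocks.Osima
open Cfsg.Agent.Lib.Blocks.Covering Cfsg.Agent.Lib.Blocks.BlockHom Cfsg.Agent.Lib.Blocks.Pairs
open Cfsg.Agent.Lib.Blocks.Twisted Cfsg.Agent.Lib.Blocks.Necklace Cfsg.Agent.Lib.Blocks.Sections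
open Cfsg.Agent.Lib.Blocks.Regular Cfsg.Agent.Lib.Blocks.BlockCount
open Cfsg.Agent.Lib.Blocks.SecondMain
open Cfsg.Agent.Lib.Char.Ortho
open scoped ComplexConjugate
open Polynomial

universe u

section StarF

variable {G : Type u} [Group G] [Fintype G] {M : Ideal AlgInt} [hM : M.IsPrime] {p : ℕ} [hp : Fact p.Prime]
variable {P : Subgroup G} {e : Set (IrrCharacter (Subgroup.centralizer (P : Set G)))} {B : Set (IrrCharacter G)}

/-- A cyclic pair of the block is conjugate to a pair below the maximal pair. -/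
lemma exists_up_of_pair (hMp : IsPModular p M) (hmax : IsMaximalBrauerPair p M B P e) {u : G}
    {f : Set (IrrCharacter (Kz u))} (hQf : IsBrauerPairOf p M B (Subgroup.zpowers u) f) :
    ∃ x : G, x * u * x⁻¹ ∈ P ∧ cj x (EE (Kz u) f) = Ev M p P e (x * u * x⁻¹) := by
  have hPe := hmax.1.1
  obtain ⟨x₀, hx₀⟩ := exists_conj_subpairLE hMp hmax hQf
  have h1 := transport_pair x₀ (zpowers_map_conj x₀ u) f (fun A a => SubpairLE p M A a P e) hx₀
  have hv₀ : x₀ * u * x₀⁻¹ ∈ P := SubpairLE.le h1 (Subgroup.mem_zpowers _)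
  have h2 := eq_eBlk hMp hPe h1
  refine ⟨x₀, hv₀, ?_⟩
  rw [cj_EE_conjB (map_conj_centralizer_gen x₀ (zpowers_map_conj x₀ u)), Ev, h2]

/-- The sum of norms is unchanged. -/
theorem sum_starT_norm (hMp : IsPModular p M) (hmax : IsMaximalBrauerPair p M B P e) {θ : G → ℂ}
    (hθ : FStable M p P e θ) (hθ1 : ∀ v ∈ P, θ v * conj (θ v) = 1) {χ : IrrCharacter G} (hχ : χ ∈ B) :
    ∑ g : G, starT M p P e θ (χ : G → ℂ) g * conj (starT M p P e θ (χ : G → ℂ) g) =
      ∑ g : G, (χ : G → ℂ) g * conj ((χ : G → ℂ) g) := by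
  classical
  have h₁ : IsClassFunction G (χ : G → ℂ) := isClassFunction_of_irr χ.2
  have hT := isClassFunction_starT (M := M) (p := p) hθ h₁
  have hB := hmax.1.2.1
  rw [sum_eq_sum_secF hMp hT hT, sum_eq_sum_secF hMp h₁ h₁]
  refine Finset.sum_congr rfl fun u hu => Finset.sum_congr rfl fun f _ => ?_
  simp only [secF]
  obtain ⟨k, hk⟩ := mem_pElts.mp hu
  have huk : u ^ (p ^ k) = 1 := by rw [← hk]; exact pow_orderOf_eq_one u
  by_cases hpair : IsBrauerPairOf p M B (Subgroup.zpowers u) f.1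
  · obtain ⟨x, hx, hxE⟩ := exists_up_of_pair hMp hmax hpair
    refine Finset.sum_congr rfl fun c hc => ?_
    rw [twTrace_starT_EE hMp hθ h₁ hu hc f.2, LamF_eq hθ hx hxE, map_mul]
    have h2 := hθ1 _ hx
    calc _ = (θ (x * u * x⁻¹) * conj (θ (x * u * x⁻¹))) * (twTrace (χ : G → ℂ) (u * c) (EE (Kz u) f.1) *
          conj (twTrace (χ : G → ℂ) (u * c) (EE (Kz u) f.1))) := by ring
      _ = _ := by rw [h2, one_mul]
  · refine Finset.sum_congr rfl fun c hc => ?_
    rw [twTrace_starT_EE hMp hθ h₁ hu hc f.2,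
      twTrace_EE_eq_zero_of_not_pair hMp hB hχ huk f.2 hpair hc]
    simp

/-- The star function agrees with the character on `p`-regular elements. -/
theorem starT_of_reg (hMp : IsPModular p M) (hmax : IsMaximalBrauerPair p M B P e) {θ : G → ℂ}
    (hθ : FStable M p P e θ) (hθ0 : θ 1 = 1) {χ : IrrCharacter G} (hχ : χ ∈ B) {c : G} (hc : ¬ p ∣ orderOf c) :
    starT M p P e θ (χ : G → ℂ) c = (χ : G → ℂ) c := by
  classical
  have hB := hmax.1.2.1
  have hpp : IsPPart p c 1 := ⟨c, one_mul c, Commute.one_left c, ⟨0, by simp⟩, hc⟩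
  unfold starT
  rw [starPP_eq hpp, starVal, sum_twTrace_EE (M := M) (Kz (1 : G)) (χ : G → ℂ) c]
  refine Finset.sum_congr rfl fun f _ => ?_
  by_cases hpair : IsBrauerPairOf p M B (Subgroup.zpowers (1 : G)) f.1
  · obtain ⟨x, hx, hxE⟩ := exists_up_of_pair hMp hmax hpair
    rw [LamF_eq hθ hx hxE]
    have : x * 1 * x⁻¹ = 1 := by group
    rw [this, hθ0, one_mul]
  · have hcr : c ∈ regC p (1 : G) := mem_regC.mpr ⟨mem_centralizer_zpowers_iff.mpr (by simp), hc⟩
    have h0 := twTrace_EE_eq_zero_of_not_pair hMp hB hχ (u := 1) (k := 0) (by simp) f.2 hpair hcr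
    rw [one_mul] at h0
    rw [h0, mul_zero]

/-- A primitive idempotent lies in one block of the group, or is orthogonal to it. -/
lemma IsPrimIdem.mul_blockElt {Q : Subgroup G} {y : MonoidAlgebra ℂ G} (hy : IsPrimIdem M Q y)
    (hB : IsPBlock M B) : y * blockElt B = 0 ∨ y * blockElt B = y := by
  classical
  set ε := blockElt B with hε
  have hεd : BrDom M Q ε := brDom_blockElt hB
  have hεε : ε * ε = ε := blockElt_mul_self B
  have hεc : ∀ a : MonoidAlgebra ℂ G, Commute a ε := fun a =>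
    commute_of_suppOn (K := ⊤) (fun g hg => absurd (Subgroup.mem_top g) hg)
      (fun g x _ => isClassFunction_blockElt B g x)
  have hεl1 : LocCoeff M (1 - ε) := locCoeff_one.sub hεd.loc
  have hεi1 : InvBy Q (1 - ε) := (invBy_one _).sub hεd.invP
  have hyy := hy.idem
  have h11 : (y * ε) * (y * ε) = y * ε := by
    calc (y * ε) * (y * ε) = y * (ε * y) * ε := by noncomm_ring
      _ = y * (y * ε) * ε := by rw [(hεc y).eq]
      _ = (y * y) * (ε * ε) := by noncomm_ring
      _ = y * ε := by rw [hyy, hεε]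
  have e1 : y * (y * ε) = y * ε := by rw [← mul_assoc, hyy]
  have e2 : y * ε * y = y * ε := by
    rw [mul_assoc, ← (hεc y).eq, ← mul_assoc, hyy]
  have h22 : (y * (1 - ε)) * (y * (1 - ε)) = y * (1 - ε) := by
    rw [mul_sub, mul_one, sub_mul, mul_sub, mul_sub, h11, hyy, e1, e2]
    abel
  have h12 : (y * ε) * (y * (1 - ε)) = 0 := by
    rw [mul_sub, mul_one, mul_sub, e2, h11, sub_self]
  have h21 : (y * (1 - ε)) * (y * ε) = 0 := by
    rw [mul_sub, mul_one, sub_mul, e1, h11, sub_self]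
  have hsum : y * ε + y * (1 - ε) = y := by
    rw [mul_sub, mul_one]
    abel
  rcases hy.prim _ _ (hy.loc.mul hεd.loc) (hy.inv.mul hεd.invP) (hy.loc.mul hεl1) (hy.inv.mul hεi1)
    h11 h22 h12 h21 hsum with h0 | h0
  · exact Or.inl h0
  · right
    rw [h0, add_zero] at hsum
    exact hsum

/-- The block of the centralizer attached to a primitive idempotent lying in the block `B`. -/
lemma IsPrimIdem.isBrauerPairOf (hMp : IsPModular p M) {Q : Subgroup G} (hQ : IsPGroup p Q) {y : MonoidAlgebra ℂ G}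
    (hy : IsPrimIdem M Q y) (hB : IsPBlock M B) (hyε : y * blockElt B = y)
    {g : Set (IrrCharacter (Subgroup.centralizer (Q : Set G)))} (hg : IsPBlock M g)
    (hg1 : ¬ CoeffIn (localIdeal M) (tr (Subgroup.centralizer (Q : Set G)) y * EE (Subgroup.centralizer (Q : Set G)) g)) :
    IsBrauerPairOf p M B Q g := by
  classical
  letI : Fintype (Subgroup.centralizer (Q : Set G)) := Fintype.ofFinite _
  have hεd : BrDom M Q (blockElt B) := brDom_blockElt hB
  rw [isBrauerPairOf_iff]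
  refine ⟨⟨hQ, hg⟩, hB, bv_sub_one_of_not_coeffIn hMp hQ (brDom_blockElt hB) (blockElt_mul_self B) hg ?_⟩
  intro hcon
  apply hg1
  have h4 := (tr_mul_eqI hMp hQ hy.loc hy.inv hεd.loc hεd.invP).mul_right
    (locCoeff_EE (K := Subgroup.centralizer (Q : Set G)) hg)
  rw [hyε] at h4
  refine coeffIn_of_eqI h4 ?_
  rw [mul_assoc]
  exact coeffIn_loc_mul (locCoeff_tr _ hy.loc) hcon

/-- The coherence formula at a local idempotent. -/
theorem twTrace_starT_of_local (hMp : IsPModular p M) {θ t : G → ℂ} (hθ : FStable M p P e θ)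
    (hθl : ∀ v ∈ P, MemLocalRing M (θ v)) (ht : IsClassFunction G t) (htl : ∀ g, MemLocalRing M (t g))
    {Q : Subgroup G} (hQ : IsPGroup p Q) {y : MonoidAlgebra ℂ G} (hy : IsPrimIdem M Q y)
    (hne : ¬ CoeffIn (localIdeal M) (tr (Subgroup.centralizer (Q : Set G)) y))
    {g : Set (IrrCharacter (Subgroup.centralizer (Q : Set G)))} (hg : IsPBlock M g)
    (hg2 : CoeffIn (localIdeal M) (tr (Subgroup.centralizer (Q : Set G)) y * (1 - EE (Subgroup.centralizer (Q : Set G)) g)))
    {u : G} (hu : u ∈ Q) :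
    twTrace (starT M p P e θ t) u y = LamF M p P e θ u (Ev M p Q g u) * twTrace t u y := by
  classical
  have hQg : IsBrauerPair p M Q g := ⟨hQ, hg⟩
  have hT := isClassFunction_starT (M := M) (p := p) hθ ht
  have hbl := isPBlock_eBlk hMp hQg hu
  obtain ⟨k, hk⟩ := hQ ⟨u, hu⟩
  have huk : u ^ (p ^ k) = 1 := by simpa using congrArg Subtype.val hk
  have hupe : u ∈ pElts (G := G) p := by
    obtain ⟨j, -, hj⟩ := (Nat.dvd_prime_pow hp.out).mp (orderOf_dvd_of_pow_eq_one huk)
    exact mem_pElts.mpr ⟨j, hj⟩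
  set r := LamF M p P e θ u (Ev M p Q g u) with hr
  have hrl : MemLocalRing M r := memLocalRing_LamF hθl _ _
  have h0 := twTrace_eq_zero_of_section hMp huk hy.idem hy.loc (fun x => hy.inv x u hu)
    (t := fun x => starT M p P e θ t x - r * t x)
    (fun x => memLocalRing_sub (memLocalRing_starT hθl htl x) (memLocalRing_mul hrl (htl x)))
    (fun x a => by
      simp only
      rw [hT x a, ht x a])
    (E := Ev M p Q g u) (EE_mul_self _ _) (locCoeff_EE hbl) (invBy_EE_self _ _)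
    (fun c hc hcr => by
      have hcr' : c ∈ regC p u := mem_regC.mpr ⟨hc, hcr⟩
      rw [twTrace_sub_smul, Ev, twTrace_starT_EE hMp hθ ht hupe hcr' hbl, sub_eq_zero]
      rfl)
    (coeffIn_tr_mul_one_sub_Ev hMp hQ hy hne hQg hg2 hu)
  rw [twTrace_sub_smul, sub_eq_zero] at h0
  exact h0

end StarF

end Cfsg.Agent.Lib.Blocks.Nilp
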