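/-
The star construction for Brauer blocks: from integrality on `p`-subgroups to generalized characters.
-/
import Mathlib
import Cfsg.Agent.Lib.Blocks.StarF
import Cfsg.Agent.Lib.Blocks.RegLift
import Cfsg.Agent.Lib.Char.Induced

set_option autoImplicit false

namespace Cfsg.Agent.Lib.Blocks.Nilp

open Cfsg Cfsg.Agent.Lib.Blocks.Local Cfsg.Agent.Lib.Blocks.Central Cfsg.Agent.Lib.Blocks.Osima
open Cfsg.Agent.Lib.Blocks.Covering Cfsg.Agent.Lib.Blocks.BlockHom Cfsg.Agent.Lib.Blocks.Pairs
open Cfsg.Agent.Lib.Blocks.Twisted Cfsg.Agent.Lib.Blocks.Necklace Cfsg.Agent.Lib.Blocks.Sections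
open Cfsg.Agent.Lib.Blocks.Regular Cfsg.Agent.Lib.Blocks.BlockCount
open Cfsg.Agent.Lib.Blocks.SecondMain
open Cfsg.Agent.Lib.Char.Ortho Cfsg.Agent.Lib.Char.BrauerInd
open scoped ComplexConjugate
open Polynomial

universe u

section Elem

variable {G : Type u} [Group G] [Fintype G] {M : Ideal AlgInt} [hM : M.IsPrime] {p : ℕ} [hp : Fact p.Prime]

lemma cj_single (s g : G) (c : ℂ) : cj s (MonoidAlgebra.single g c) = MonoidAlgebra.single (s * g * s⁻¹) c := by
  classical
  apply ext_coeff
  intro x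
  rw [coeff_cj, MonoidAlgebra.coeff_single, MonoidAlgebra.coeff_single, Finsupp.single_apply, Finsupp.single_apply]
  have : g = s⁻¹ * x * s ↔ s * g * s⁻¹ = x := by
    constructor
    · rintro rfl
      group
    · rintro rfl
      group
  simp only [this]

/-- A complement in an elementary group. -/
theorem exists_complement_of_elementary {E : Type u} [Group E] [Finite E] {q : ℕ} (hq : q.Prime)
    (h : IsElementary q E) :
    ∃ H Q : Subgroup E, H.Normal ∧ ¬ p ∣ Nat.card H ∧ IsPGroup p Q ∧ Subgroup.IsComplement' H Q := by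
  obtain ⟨H, hH, hd, k, hk⟩ := Cfsg.Agent.Lib.Blocks.RegLift.exists_normal_pComplement (p := p) hq h
  obtain ⟨Q⟩ : Nonempty (Sylow p E) := inferInstance
  refine ⟨H, Q, hH, hd, Q.isPGroup', ?_⟩
  have h1 : Nat.Coprime (Nat.card H) (Nat.card Q) := by
    obtain ⟨n, hn⟩ := (IsPGroup.iff_card (p := p) (G := Q)).mp Q.isPGroup'
    rw [hn]
    exact Nat.Coprime.pow_right n ((Nat.Prime.coprime_iff_not_dvd hp.out).mpr hd).symm
  apply Subgroup.isComplement'_of_coprime _ h1
  have h2 := H.card_mul_index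
  rw [hk] at h2
  have h3 : Nat.card (Q : Subgroup E) = p ^ k := by
    rw [Sylow.card_eq_multiplicity]
    congr 1
    have h4 : (Nat.card E).factorization p = k := by
      rw [← h2, Nat.factorization_mul Nat.card_pos.ne' (pow_pos hp.out.pos k).ne']
      simp only [Finsupp.add_apply, Nat.factorization_pow]
      have h5 : (Nat.card H).factorization p = 0 := Nat.factorization_eq_zero_of_not_dvd hd
      rw [h5]
      simp [hp.out.factorization_self]
    exact h4
  rw [h3, h2]

/-- The idempotent attached to a linear character on a normal `p'`-subgroup. -/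
noncomputable def linIdem {E : Subgroup G} (H : Subgroup E) [Fintype H] (α : E →* ℂˣ) : MonoidAlgebra ℂ G :=
  ∑ s : H, MonoidAlgebra.single (((s : E) : G)) ((Nat.card H : ℂ)⁻¹ * ((α s : ℂˣ) : ℂ))

lemma linIdem_mul_self {E : Subgroup G} (H : Subgroup E) [Fintype H] (α : E →* ℂˣ) :
    linIdem H α * linIdem H α = linIdem H α := by
  classical
  set c : ℂ := (Nat.card H : ℂ)⁻¹ with hc
  have hc0 : (Nat.card H : ℂ) ≠ 0 := by exact_mod_cast Nat.card_pos.ne'
  have h1 : ∀ s : H, ∑ s' : H, MonoidAlgebra.single (((s : E) : G)) (c * ((α s : ℂˣ) : ℂ)) *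
      MonoidAlgebra.single (((s' : E) : G)) (c * ((α s' : ℂˣ) : ℂ)) = c • linIdem H α := by
    intro s
    rw [linIdem, Finset.smul_sum]
    refine Fintype.sum_equiv (Equiv.mulLeft s) _ _ fun s' => ?_
    rw [MonoidAlgebra.single_mul_single, MonoidAlgebra.smul_single]
    simp only [Equiv.coe_mulLeft, Subgroup.coe_mul, map_mul, Units.val_mul, smul_eq_mul]
    congr 1
    ring
  have h2 : linIdem H α * linIdem H α = ∑ s : H, ∑ s' : H, MonoidAlgebra.single (((s : E) : G)) (c * ((α s : ℂˣ) : ℂ)) *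
      MonoidAlgebra.single (((s' : E) : G)) (c * ((α s' : ℂˣ) : ℂ)) := by
    show (∑ s : H, MonoidAlgebra.single (((s : E) : G)) (c * ((α s : ℂˣ) : ℂ))) *
      (∑ s : H, MonoidAlgebra.single (((s : E) : G)) (c * ((α s : ℂˣ) : ℂ))) = _
    rw [Finset.sum_mul_sum]
  rw [h2]
  simp only [h1]
  rw [Finset.sum_const, Finset.card_univ, ← Nat.card_eq_fintype_card, ← Nat.cast_smul_eq_nsmul ℂ, smul_smul, hc,
    mul_inv_cancel₀ hc0, one_smul]

lemma locCoeff_single_of {g : G} {r : ℂ} (hr : MemLocalRing M r) : LocCoeff M (MonoidAlgebra.single g r) := by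
  classical
  intro x
  rw [MonoidAlgebra.coeff_single, Finsupp.single_apply]
  split_ifs
  · exact hr
  · exact memLocalRing_zero

lemma locCoeff_linIdem (hMp : IsPModular p M) {E : Subgroup G} (H : Subgroup E) [Fintype H] (α : E →* ℂˣ)
    (hd : ¬ p ∣ Nat.card H) : LocCoeff M (linIdem H α) := by
  have hc : MemLocalRing M ((Nat.card H : ℂ)⁻¹) := memLocalRing_inv_natCast hMp hd
  refine locCoeff_sum _ _ fun s _ => locCoeff_single_of (memLocalRing_mul hc ?_)
  apply Cfsg.Agent.Lib.Blocks.HeightZero.memLocalRing_of_pow_eq_one (n := orderOf (s : E)) (orderOf_pos _)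
  rw [← Units.val_pow_eq_pow_val, ← map_pow, pow_orderOf_eq_one, map_one, Units.val_one]

lemma invBy_linIdem {E : Subgroup G} (H : Subgroup E) [Fintype H] (hH : H.Normal) (α : E →* ℂˣ) :
    InvBy E (linIdem H α) := by
  classical
  apply invBy_of_cj_eq
  intro u hu
  rw [linIdem, cj_sum]
  simp only [cj_single]
  set U : E := ⟨u, hu⟩ with hU
  let φ : H ≃ H :=
    { toFun := fun s => ⟨U * s * U⁻¹, hH.conj_mem s s.2 U⟩
      invFun := fun s => ⟨U⁻¹ * s * U, by simpa using hH.conj_mem s s.2 U⁻¹⟩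
      left_inv := fun s => by
        apply Subtype.ext
        simp only
        group
      right_inv := fun s => by
        apply Subtype.ext
        simp only
        group }
  refine Fintype.sum_equiv φ _ _ fun s => ?_
  have e1 : α (φ s : E) = α (s : E) := by
    show α (U * s * U⁻¹) = α s
    rw [map_mul, map_mul, map_inv, mul_comm, ← mul_assoc, inv_mul_cancel, one_mul]
  rw [e1]
  rfl

/-- Elementary subgroups: the inner products of a function satisfying the integrality condition
with the linear characters are integers. -/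
theorem sum_elementary_of_intAt {T : G → ℂ} (hMp : IsPModular p M)
    (hInt : ∀ Q : Subgroup G, IsPGroup p Q → ∀ w, LocCoeff M w → InvBy Q w → w * w = w → IntAt T Q w)
    {E : Subgroup G} [Fintype E] {q : ℕ} (hq : q.Prime) (hE : IsElementary q E) (α : E →* ℂˣ) :
    ∃ n : ℤ, ∑ e : E, ((α e : ℂˣ) : ℂ) * T e = (Nat.card E : ℂ) * n := by
  classical
  obtain ⟨H, Q, hHn, hd, hQp, hcomp⟩ := exists_complement_of_elementary (p := p) hq hE
  letI : Fintype H := Fintype.ofFinite _
  letI : Fintype Q := Fintype.ofFinite _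
  set i := linIdem H α with hi
  set Q' : Subgroup G := Q.map E.subtype with hQ'
  letI : Fintype Q' := Fintype.ofFinite _
  have hQ'p : IsPGroup p Q' := hQp.map _
  have hQ'E : Q' ≤ E := Subgroup.map_subtype_le Q
  have hI := hInt Q' hQ'p i (locCoeff_linIdem hMp H α hd) ((invBy_linIdem H hHn α).mono hQ'E) (linIdem_mul_self H α)
  rw [intAt_iff] at hI
  obtain ⟨n, hn⟩ := hI (α.comp (Subgroup.inclusion hQ'E))
  refine ⟨n, ?_⟩
  let eQ : Q ≃ Q' := (Subgroup.equivMapOfInjective Q E.subtype Subtype.val_injective).toEquiv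
  have hcard : Nat.card Q' = Nat.card Q := (Nat.card_congr eQ).symm
  have hn2 : ∑ u : Q, ((α (u : E) : ℂˣ) : ℂ) * twTrace T ((u : E) : G) i = (Nat.card Q : ℂ) * n := by
    rw [← hcard, ← hn]
    refine Fintype.sum_equiv eQ _ _ fun u => ?_
    rfl
  have hexp : ∀ u : Q, twTrace T ((u : E) : G) i = (Nat.card H : ℂ)⁻¹ *
      ∑ s : H, ((α (s : E) : ℂˣ) : ℂ) * T (((s : E) : G) * ((u : E) : G)) := by
    intro u
    rw [hi, linIdem, twTrace_sum, Finset.mul_sum]
    refine Finset.sum_congr rfl fun s _ => ?_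
    rw [twTrace_single]
    ring
  have hc0 : (Nat.card H : ℂ) ≠ 0 := by exact_mod_cast Nat.card_pos.ne'
  have h1 : ∑ e : E, ((α e : ℂˣ) : ℂ) * T e =
      ∑ x : H × Q, ((α ((x.1 : E) * (x.2 : E)) : ℂˣ) : ℂ) * T (((x.1 : E) : G) * ((x.2 : E) : G)) := by
    symm
    exact Fintype.sum_bijective (fun x : H × Q => (x.1 : E) * (x.2 : E)) hcomp _ _ fun x => rfl
  rw [h1, Fintype.sum_prod_type_right]
  have h2 : ∀ u : Q, ∑ s : H, ((α ((s : E) * (u : E)) : ℂˣ) : ℂ) * T (((s : E) : G) * ((u : E) : G)) =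
      (Nat.card H : ℂ) * (((α (u : E) : ℂˣ) : ℂ) * twTrace T ((u : E) : G) i) := by
    intro u
    rw [hexp, ← mul_assoc, mul_comm (Nat.card H : ℂ), mul_assoc, ← mul_assoc (Nat.card H : ℂ), mul_inv_cancel₀ hc0,
      one_mul, Finset.mul_sum]
    refine Finset.sum_congr rfl fun s _ => ?_
    rw [map_mul, Units.val_mul]
    ring
  simp only [h2]
  rw [← Finset.mul_sum, hn2, ← mul_assoc]
  congr 1
  rw [← Nat.cast_mul]
  congr 1
  exact hcomp.card_mul

/-- Integrality of the inner products with all irreducible characters. -/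
theorem int_classInner_of_intAt {T : G → ℂ} (hMp : IsPModular p M) (hT : IsClassFunction G T)
    (hInt : ∀ Q : Subgroup G, IsPGroup p Q → ∀ w, LocCoeff M w → InvBy Q w → w * w = w → IntAt T Q w)
    (l : IrrCharacter G) : ∃ n : ℤ, classInner T (l : G → ℂ) = n := by
  classical
  obtain ⟨lst, hlst, heq⟩ := exists_list_of_isCharacter (Cfsg.Agent.Lib.Char.Values.IsIrrCharacter.isCharacter l.2)
  rw [heq]
  clear heq
  induction lst with
  | nil =>
    refine ⟨0, ?_⟩
    simp [classInner]
  | cons t lst ih =>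
    obtain ⟨n, hn⟩ := ih fun t' ht' => hlst t' (List.mem_cons_of_mem _ ht')
    obtain ⟨q, hq, hE⟩ := hlst t List.mem_cons_self
    letI : Fintype t.1 := Fintype.ofFinite _
    obtain ⟨m, hm⟩ := sum_elementary_of_intAt hMp hInt hq hE (t.2.1⁻¹)
    rw [List.map_cons, List.sum_cons, classInner_add_right, hn, classInner_smul_right]
    refine ⟨(t.2.2 : ℤ) * m + n, ?_⟩
    have h1 : classInner T (indFun t.1 (fun e => ((t.2.1 e : ℂˣ) : ℂ))) = m := by
      rw [← classInner_conj_symm, Cfsg.Agent.Lib.Char.Induced.frobenius_reciprocity _ _ _ hT, classInner,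
        map_mul, map_inv₀, Complex.conj_natCast, map_sum]
      have h2 : ∀ e : t.1, conj (((t.2.1 e : ℂˣ) : ℂ) * conj (T e)) = (((t.2.1⁻¹) e : ℂˣ) : ℂ) * T e := by
        intro e
        rw [map_mul, Complex.conj_conj]
        congr 1
        have h3 := Cfsg.Agent.Lib.Char.Ortho.conj_of_isCharacter
          (Cfsg.Agent.Lib.Char.Basic.isCharacter_of_isIrrCharacter
            (Cfsg.Agent.Lib.Char.LinearChars.isIrr_of_hom t.2.1)) e
        rw [h3, map_inv, MonoidHom.inv_apply]
      simp only [h2]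
      rw [hm, ← mul_assoc, inv_mul_cancel₀ (by exact_mod_cast Nat.card_pos.ne'), one_mul]
    rw [h1, map_intCast]
    push_cast
    ring

end Elem

end Cfsg.Agent.Lib.Blocks.Nilp
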