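/-
The star construction for Brauer blocks: linear characters of the defect group act on the block.
-/
import Mathlib
import Cfsg.Agent.Lib.Blocks.StarG

set_option autoImplicit false

namespace Cfsg.Agent.Lib.Blocks.Nilp

open Cfsg Cfsg.Agent.Lib.Blocks.Local Cfsg.Agent.Lib.Blocks.Central Cfsg.Agent.Lib.Blocks.Osima
open Cfsg.Agent.Lib.Blocks.Covering Cfsg.Agent.Lib.Blocks.BlockHom Cfsg.Agent.Lib.Blocks.Pairs
open Cfsg.Agent.Lib.Blocks.Twisted Cfsg.Agent.Lib.Blocks.Necklace Cfsg.Agent.Lib.Blocks.Sections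
open Cfsg.Agent.Lib.Blocks.Regular Cfsg.Agent.Lib.Blocks.BlockCount
open Cfsg.Agent.Lib.Blocks.SecondMain
open Cfsg.Agent.Lib.Char.Ortho Cfsg.Agent.Lib.Char.BrauerInd
open scoped ComplexConjugate
open Polynomial

universe u

section StarH

variable {G : Type u} [Group G] [Fintype G] {M : Ideal AlgInt} [hM : M.IsPrime] {p : ℕ} [hp : Fact p.Prime]
variable {P : Subgroup G} {e : Set (IrrCharacter (Subgroup.centralizer (P : Set G)))} {B : Set (IrrCharacter G)}

open Classical in
/-- The extension by zero of a linear character of `P`. -/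
noncomputable def extL (P : Subgroup G) (lam : P →* ℂˣ) : G → ℂ :=
  fun g => if h : g ∈ P then ((lam ⟨g, h⟩ : ℂˣ) : ℂ) else 0

lemma extL_of_mem (lam : P →* ℂˣ) {g : G} (h : g ∈ P) : extL P lam g = ((lam ⟨g, h⟩ : ℂˣ) : ℂ) := by
  classical
  unfold extL
  rw [dif_pos h]

lemma extL_one (lam : P →* ℂˣ) : extL P lam 1 = 1 := by
  rw [extL_of_mem lam P.one_mem]
  have : (⟨1, P.one_mem⟩ : P) = 1 := rfl
  rw [this, map_one, Units.val_one]

lemma extL_norm (lam : P →* ℂˣ) {v : G} (hv : v ∈ P) : extL P lam v * conj (extL P lam v) = 1 := by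
  classical
  letI : Fintype P := Fintype.ofFinite _
  rw [extL_of_mem lam hv]
  have h3 := Cfsg.Agent.Lib.Char.Ortho.conj_of_isCharacter
    (Cfsg.Agent.Lib.Char.Basic.isCharacter_of_isIrrCharacter
      (Cfsg.Agent.Lib.Char.LinearChars.isIrr_of_hom lam)) ⟨v, hv⟩
  rw [h3, map_inv, ← Units.val_mul, mul_inv_cancel, Units.val_one]

lemma memLocalRing_extL (lam : P →* ℂˣ) {v : G} (hv : v ∈ P) : MemLocalRing M (extL P lam v) := by
  rw [extL_of_mem lam hv]
  apply Cfsg.Agent.Lib.Blocks.HeightZero.memLocalRing_of_pow_eq_one (n := orderOf (⟨v, hv⟩ : P)) (orderOf_pos _)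
  rw [← Units.val_pow_eq_pow_val, ← map_pow, pow_orderOf_eq_one, map_one, Units.val_one]

/-- The sum of a linear character times a character of a finite group. -/
lemma exists_int_sum_hom_mul {X : Type*} [Group X] [Fintype X] (β : X →* ℂˣ) {ν : X → ℂ} (hν : IsCharacter X ν) :
    ∃ n : ℤ, ∑ u : X, ((β u : ℂˣ) : ℂ) * ν u = (Nat.card X : ℂ) * n := by
  have h1 : IsCharacter X ((fun u => ((β u : ℂˣ) : ℂ)) * ν) := Cfsg.Agent.Lib.Char.Basic.isCharacter_mul
    (Cfsg.Agent.Lib.Char.Basic.isCharacter_of_isIrrCharacter (Cfsg.Agent.Lib.Char.LinearChars.isIrr_of_hom β)) hν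
  obtain ⟨n, hn⟩ := Cfsg.Agent.Lib.Char.Virtual.exists_int_classInner
    (Cfsg.Agent.Lib.Char.Virtual.isGeneralized_of_isCharacter h1)
    (Cfsg.Agent.Lib.Char.Virtual.isGeneralized_of_isCharacter (Cfsg.Agent.Lib.Char.Basic.isCharacter_one (G := X)))
  refine ⟨n, ?_⟩
  rw [← hn, classInner, ← mul_assoc, mul_inv_cancel₀ (by exact_mod_cast Nat.card_pos.ne'), one_mul]
  refine Finset.sum_congr rfl fun u _ => ?_
  simp

/-- **Integrality at local idempotents.** -/
theorem intAt_starT_local (hMp : IsPModular p M) (hmax : IsMaximalBrauerPair p M B P e) (lam : P →* ℂˣ)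
    (hθ : FStable M p P e (extL P lam)) {χ : IrrCharacter G} (hχ : χ ∈ B) {Q : Subgroup G} (hQ : IsPGroup p Q)
    {y : MonoidAlgebra ℂ G} (hy : IsPrimIdem M Q y)
    (hne : ¬ CoeffIn (localIdeal M) (tr (Subgroup.centralizer (Q : Set G)) y)) :
    IntAt (starT M p P e (extL P lam) (χ : G → ℂ)) Q y := by
  classical
  letI : Fintype Q := Fintype.ofFinite _
  rw [intAt_iff]
  intro α
  have hB := hmax.1.2.1
  have hPe := hmax.1.1
  have h₁ : IsClassFunction G (χ : G → ℂ) := isClassFunction_of_irr χ.2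
  have hχc : IsCharacter G (χ : G → ℂ) := Cfsg.Agent.Lib.Char.Values.IsIrrCharacter.isCharacter χ.2
  have htl : ∀ g, MemLocalRing M ((χ : G → ℂ) g) := fun g => memLocalRing_of_isIntegral (isIntegral_irr χ.2 g)
  have hθl : ∀ v ∈ P, MemLocalRing M (extL P lam v) := fun v hv => memLocalRing_extL lam hv
  obtain ⟨g, hg, hg1, hg2⟩ := exists_block_of_primIdem hMp hQ hy hne
  have hform := fun (u : G) (hu : u ∈ Q) => twTrace_starT_of_local hMp hθ hθl h₁ htl hQ hy hne hg hg2 hu
  have hεc : ∀ a : MonoidAlgebra ℂ G, Commute a (blockElt B) := fun a =>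
    commute_of_suppOn (K := ⊤) (fun g hg => absurd (Subgroup.mem_top g) hg)
      (fun g x _ => isClassFunction_blockElt B g x)
  rcases hy.mul_blockElt hB with h0 | hyε
  · refine ⟨0, ?_⟩
    have hν : ∀ u : G, twTrace (χ : G → ℂ) u y = 0 := by
      intro u
      rw [← twTrace_blockElt_mul B hχ u y, ← (hεc y).eq, h0]
      simp [twTrace]
    rw [Finset.sum_eq_zero]
    · simp
    · intro u _
      rw [hform u u.2, hν, mul_zero, mul_zero]
  · have hpair := hy.isBrauerPairOf hMp hQ hB hyε hg hg1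
    obtain ⟨x₀, hx₀⟩ := exists_conj_subpairLE hMp hmax hpair
    have hQP : ∀ u ∈ Q, x₀ * u * x₀⁻¹ ∈ P := fun u hu => SubpairLE.le hx₀ ⟨u, hu, rfl⟩
    have hup : ∀ u ∈ Q, cj x₀ (Ev M p Q g u) = Ev M p P e (x₀ * u * x₀⁻¹) := by
      intro u hu
      have h1 := eBlk_spec hMp (⟨hQ, hg⟩ : IsBrauerPair p M Q g) hu
      have h2 := subpairLE_conj x₀ h1
      have h3 := SubpairLE.trans h2 hx₀
      have h4 := transport_pair x₀ (zpowers_map_conj x₀ u) _ (fun A a => SubpairLE p M A a P e) h3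
      have h5 := eq_eBlk hMp hPe h4
      rw [Ev, cj_EE_conjB (map_conj_centralizer_gen x₀ (zpowers_map_conj x₀ u)), Ev, h5]
    let φ : Q →* P :=
      { toFun := fun u => ⟨x₀ * u * x₀⁻¹, hQP u u.2⟩
        map_one' := by
          apply Subtype.ext
          simp
        map_mul' := fun a b => by
          apply Subtype.ext
          simp only [Subgroup.coe_mul]
          group }
    set β : Q →* ℂˣ := α * lam.comp φ with hβ
    obtain ⟨n, hn⟩ := exists_int_sum_hom_mul β (isCharacter_nu hχc hy.idem hy.inv)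
    refine ⟨n, ?_⟩
    rw [← hn]
    refine Finset.sum_congr rfl fun u _ => ?_
    rw [hform u u.2, LamF_eq hθ (hQP u u.2) (hup u u.2), extL_of_mem lam (hQP u u.2), ← mul_assoc]
    congr 1

/-- **The star construction.** The star function attached to a linear character of the defect group
which is stable under the fusion of the block sends irreducible characters of the block to irreducible
characters of the block. -/
theorem exists_star_irr (hMp : IsPModular p M) (hmax : IsMaximalBrauerPair p M B P e) (lam : P →* ℂˣ)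
    (hθ : FStable M p P e (extL P lam)) {χ : IrrCharacter G} (hχ : χ ∈ B) :
    ∃ ψ : IrrCharacter G, (ψ : G → ℂ) = starT M p P e (extL P lam) (χ : G → ℂ) ∧ ψ ∈ B := by
  classical
  have hB := hmax.1.2.1
  have h₁ : IsClassFunction G (χ : G → ℂ) := isClassFunction_of_irr χ.2
  set T := starT M p P e (extL P lam) (χ : G → ℂ) with hT'
  have hT : IsClassFunction G T := isClassFunction_starT hθ h₁
  have hInt := intAt_of_local hT hMp (fun Q hQ y hy hne => intAt_starT_local hMp hmax lam hθ hχ hQ hy hne)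
  have hint := int_classInner_of_intAt hMp hT hInt
  have hn : classInner T T = 1 := by
    rw [classInner, sum_starT_norm hMp hmax hθ (fun v hv => extL_norm lam hv) hχ, ← classInner,
      classInner_irr_self χ.2]
  obtain ⟨d, hd0, hd⟩ := Cfsg.Agent.Lib.Char.Virtual.exists_degree_of_isIrr χ.2
  have hreg : ∀ c : G, ¬ p ∣ orderOf c → T c = (χ : G → ℂ) c := fun c hc =>
    starT_of_reg hMp hmax hθ (extL_one lam) hχ hc
  have hone : ¬ p ∣ orderOf (1 : G) := by
    rw [orderOf_one]
    exact fun h => hp.out.one_lt.ne' (Nat.dvd_one.mp h)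
  obtain ⟨ψ, hψ⟩ := exists_irr_of_int_norm_one hT hint hn (d := d) (by rw [hreg 1 hone, hd]) hd0
  refine ⟨ψ, hψ.symm, ?_⟩
  -- the block of `ψ`
  by_contra hψB
  have h2 : twTrace (ψ : G → ℂ) 1 (blockElt B) = twTrace (χ : G → ℂ) 1 (blockElt B) := by
    simp only [twTrace, mul_one]
    refine Finset.sum_congr rfl fun g _ => ?_
    by_cases hg : p ∣ orderOf g
    · rw [coeff_blockElt, blockCoeff_eq_zero_of_dvd hMp hB hg, zero_mul, zero_mul]
    · rw [← hψ, hreg g hg]
  rw [twTrace_blockElt, twTrace_blockElt, omega_blockElt_of_notMem hψB, omega_blockElt_of_mem hχ, zero_mul, one_mul] at h2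
  exact Cfsg.Agent.Lib.Char.Ortho.irr_apply_one_ne_zero χ.2 h2.symm

end StarH

end Cfsg.Agent.Lib.Blocks.Nilp
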