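/-
The star construction for Brauer blocks: the action of the linear characters, and counting.
-/
import Mathlib
import Cfsg.Agent.Lib.Blocks.StarH
import Cfsg.Agent.Lib.Blocks.Pairs6
import Cfsg.Agent.Lib.Blocks.HeightZero

set_option autoImplicit false

namespace Cfsg.Agent.Lib.Blocks.Nilp

open Cfsg Cfsg.Agent.Lib.Blocks.Local Cfsg.Agent.Lib.Blocks.Central Cfsg.Agent.Lib.Blocks.Osima
open Cfsg.Agent.Lib.Blocks.Covering Cfsg.Agent.Lib.Blocks.BlockHom Cfsg.Agent.Lib.Blocks.Pairs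
open Cfsg.Agent.Lib.Blocks.Twisted Cfsg.Agent.Lib.Blocks.Necklace Cfsg.Agent.Lib.Blocks.Sections
open Cfsg.Agent.Lib.Blocks.Regular Cfsg.Agent.Lib.Blocks.BlockCount
open Cfsg.Agent.Lib.Blocks.SecondMain
open Cfsg.Agent.Lib.Char.Ortho Cfsg.Agent.Lib.Char.BrauerInd
open scoped ComplexConjugate
open Polynomial

universe u

section Count

/-- An orbit count: if all stabilizers lie in a subgroup, its index divides the size of the set. -/
theorem index_dvd_card_of_stabilizer_le {X S : Type*} [Group X] [Finite X] [MulAction X S] [Finite S]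
    (X₁ : Subgroup X) (h : ∀ (s : S) (x : X), x • s = s → x ∈ X₁) : X₁.index ∣ Nat.card S := by
  classical
  letI : Fintype S := Fintype.ofFinite _
  letI : Fintype (MulAction.orbitRel.Quotient X S) := Fintype.ofFinite _
  rw [Nat.card_congr (MulAction.selfEquivSigmaOrbits X S), Nat.card_sigma]
  apply Finset.dvd_sum
  intro ω _
  set s := Quotient.out ω with hs
  have h1 : X₁.index ∣ (MulAction.stabilizer X s).index :=
    Subgroup.index_dvd_of_le (fun x hx => h s x hx)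
  have h2 : (MulAction.stabilizer X s).index = Nat.card (MulAction.orbit X s) :=
    MulAction.index_stabilizer X s
  rw [h2] at h1
  exact h1

end Count

section StarI

variable {G : Type u} [Group G] [Fintype G] {M : Ideal AlgInt} [hM : M.IsPrime] {p : ℕ} [hp : Fact p.Prime]
variable {P : Subgroup G} {e : Set (IrrCharacter (Subgroup.centralizer (P : Set G)))} {B : Set (IrrCharacter G)}

lemma LamF_mul {θ₁ θ₂ θ₃ : G → ℂ} (h₁ : FStable M p P e θ₁) (h₂ : FStable M p P e θ₂) (h₃ : FStable M p P e θ₃)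
    (hmul : ∀ v ∈ P, θ₃ v = θ₁ v * θ₂ v) (u : G) (E : MonoidAlgebra ℂ G) :
    LamF M p P e θ₃ u E = LamF M p P e θ₁ u E * LamF M p P e θ₂ u E := by
  by_cases h : ∃ x : G, x * u * x⁻¹ ∈ P ∧ cj x E = Ev M p P e (x * u * x⁻¹)
  · obtain ⟨x, hx, hE⟩ := h
    rw [LamF_eq h₁ hx hE, LamF_eq h₂ hx hE, LamF_eq h₃ hx hE, hmul _ hx]
  · rw [LamF_of_not h, LamF_of_not h, zero_mul]

lemma exists_mem_regC_of_starPP (g : G) :
    starPP p g ∈ pElts (G := G) p ∧ ∃ c ∈ regC p (starPP p g), g = starPP p g * c := by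
  obtain ⟨y, hy, hcomm, hk, hreg⟩ := starPP_spec (p := p) g
  refine ⟨mem_pElts.mpr hk, y, mem_regC.mpr ⟨mem_centralizer_zpowers_iff.mpr hcomm.symm, hreg⟩, hy.symm⟩

/-- Composition of star functions. -/
theorem starT_starT (hMp : IsPModular p M) {θ₁ θ₂ θ₃ t : G → ℂ} (h₁ : FStable M p P e θ₁) (h₂ : FStable M p P e θ₂)
    (h₃ : FStable M p P e θ₃) (hmul : ∀ v ∈ P, θ₃ v = θ₁ v * θ₂ v) (ht : IsClassFunction G t) :
    starT M p P e θ₁ (starT M p P e θ₂ t) = starT M p P e θ₃ t := by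
  funext g
  show starVal M p P e θ₁ (starT M p P e θ₂ t) (starPP p g) g = starVal M p P e θ₃ t (starPP p g) g
  obtain ⟨hu, c, hc, hg⟩ := exists_mem_regC_of_starPP (p := p) g
  set u := starPP p g with hu'
  unfold starVal
  refine Finset.sum_congr rfl fun f _ => ?_
  rw [hg, twTrace_starT_EE hMp h₂ ht hu hc f.2, LamF_mul h₁ h₂ h₃ hmul, mul_assoc]

/-- The trivial multiplier. -/
theorem starT_of_forall_one (hMp : IsPModular p M) (hmax : IsMaximalBrauerPair p M B P e) {θ : G → ℂ}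
    (hθ : FStable M p P e θ) (hθ1 : ∀ v ∈ P, θ v = 1) {χ : IrrCharacter G} (hχ : χ ∈ B) :
    starT M p P e θ (χ : G → ℂ) = (χ : G → ℂ) := by
  classical
  funext g
  have hB := hmax.1.2.1
  unfold starT
  obtain ⟨hu, c, hc, hg⟩ := exists_mem_regC_of_starPP (p := p) g
  set u := starPP p g with hu'
  rw [starVal, sum_twTrace_EE (M := M) (Kz u) (χ : G → ℂ) g]
  refine Finset.sum_congr rfl fun f _ => ?_
  obtain ⟨k, hk⟩ := mem_pElts.mp hu
  have huk : u ^ (p ^ k) = 1 := by rw [← hk]; exact pow_orderOf_eq_one u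
  by_cases hpair : IsBrauerPairOf p M B (Subgroup.zpowers u) f.1
  · obtain ⟨x, hx, hxE⟩ := exists_up_of_pair hMp hmax hpair
    rw [LamF_eq hθ hx hxE, hθ1 _ hx, one_mul]
  · have h0 := twTrace_EE_eq_zero_of_not_pair hMp hB hχ huk f.2 hpair hc
    rw [← hg] at h0
    rw [h0, mul_zero]

lemma extL_mul (lam₁ lam₂ : P →* ℂˣ) {v : G} (hv : v ∈ P) :
    extL P (lam₁ * lam₂) v = extL P lam₁ v * extL P lam₂ v := by
  rw [extL_of_mem _ hv, extL_of_mem _ hv, extL_of_mem _ hv, MonoidHom.mul_apply, Units.val_mul]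

/-- The conjugate of a pair below `(Q, g)`. -/
lemma cj_Ev_of_conj_pair (hMp : IsPModular p M) (hPe : IsBrauerPair p M P e) {Q : Subgroup G}
    {g : Set (IrrCharacter (Subgroup.centralizer (Q : Set G)))} (hQg : IsBrauerPair p M Q g) {x₀ : G}
    (hx₀ : SubpairLE p M (Q.map (MulAut.conj x₀).toMonoidHom) (conjBlock Q x₀ g) P e) {u : G} (hu : u ∈ Q) :
    cj x₀ (Ev M p Q g u) = Ev M p P e (x₀ * u * x₀⁻¹) := by
  have h1 := eBlk_spec hMp hQg hu
  have h2 := subpairLE_conj x₀ h1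
  have h3 := SubpairLE.trans h2 hx₀
  have h4 := transport_pair x₀ (zpowers_map_conj x₀ u) _ (fun A a => SubpairLE p M A a P e) h3
  have h5 := eq_eBlk hMp hPe h4
  rw [Ev, cj_EE_conjB (map_conj_centralizer_gen x₀ (zpowers_map_conj x₀ u)), Ev, h5]

/-- **Freeness at height zero.** -/
theorem star_fixed_height_zero (hMp : IsPModular p M) (hmax : IsMaximalBrauerPair p M B P e) (lam : P →* ℂˣ)
    (hθ : FStable M p P e (extL P lam)) {χ : IrrCharacter G} (hχ : χ ∈ B)
    (h0 : blockHeight p B (χ : G → ℂ) = 0)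
    (hfix : starT M p P e (extL P lam) (χ : G → ℂ) = (χ : G → ℂ)) : ∀ v : P, lam v = 1 := by
  classical
  have hB := hmax.1.2.1
  have hPe := hmax.1.1
  have hP : IsPGroup p P := hPe.1
  have h₁ : IsClassFunction G (χ : G → ℂ) := isClassFunction_of_irr χ.2
  have hχc : IsCharacter G (χ : G → ℂ) := Cfsg.Agent.Lib.Char.Values.IsIrrCharacter.isCharacter χ.2
  have htl : ∀ g, MemLocalRing M ((χ : G → ℂ) g) := fun g => memLocalRing_of_isIntegral (isIntegral_irr χ.2 g)
  have hθl : ∀ v ∈ P, MemLocalRing M (extL P lam v) := fun v hv => memLocalRing_extL lam hv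
  obtain ⟨g₀, hdc, S, hPS⟩ := isDefectGroup_of_maximal hMp hmax
  have hcomm : ∀ u ∈ P, u * g₀ = g₀ * u := by
    intro u hu
    rw [hPS] at hu
    obtain ⟨w, -, rfl⟩ := hu
    exact Subgroup.mem_centralizer_iff.mp w.2 g₀ rfl |>.symm
  have hc₀l : LocCoeff M (MonoidAlgebra.single g₀ (1 : ℂ)) := locCoeff_single_of memLocalRing_one
  have hc₀i : InvBy P (MonoidAlgebra.single g₀ (1 : ℂ)) := by
    apply invBy_of_cj_eq
    intro u hu
    rw [cj_single, hcomm u hu, mul_inv_cancel_right]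
  have hT0 : ¬ MemLocalIdeal M (twTrace (χ : G → ℂ) 1 (MonoidAlgebra.single g₀ (1 : ℂ))) := by
    rw [twTrace_single, one_mul, mul_one]
    have := Cfsg.Agent.Lib.Blocks.HeightZero.not_memLocalIdeal_of_defect_class hMp hB hdc hχ h0
      (x := 1) (Commute.one_left g₀) (k := 0) (by simp)
    rwa [one_mul] at this
  obtain ⟨y, e', hy, hT1, hne, hbp, h1⟩ := exists_source hMp hB hP hχ hc₀l hc₀i hT0
  obtain ⟨x₀, hx₀⟩ := exists_conj_subpairLE hMp hmax hbp
  have hPP : ∀ u ∈ P, x₀ * u * x₀⁻¹ ∈ P := fun u hu => SubpairLE.le hx₀ ⟨u, hu, rfl⟩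
  have hform := fun (u : G) (hu : u ∈ P) => twTrace_starT_of_local hMp hθ hθl h₁ htl hP hy hne hbp.1.2 h1 hu
  have hone : ∀ u : P, (lam ⟨x₀ * u * x₀⁻¹, hPP u u.2⟩ : ℂˣ) = 1 := by
    intro u
    have h2 := hform u u.2
    rw [hfix, LamF_eq hθ (hPP u u.2) (cj_Ev_of_conj_pair hMp hPe hbp.1 hx₀ u.2), extL_of_mem lam (hPP u u.2)] at h2
    have h3 : twTrace (χ : G → ℂ) (u : G) y ≠ 0 := by
      intro h4
      apply not_mem_nu hMp hP hχc htl hy.loc hy.idem hy.inv hT1 u.2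
      rw [h4]
      exact memLocalIdeal_zero
    have h4 : ((lam ⟨x₀ * u * x₀⁻¹, hPP u u.2⟩ : ℂˣ) : ℂ) = 1 := by
      apply mul_right_cancel₀ h3
      rw [one_mul]
      exact h2.symm
    exact Units.ext h4
  -- conjugation permutes `P`
  let c : P → P := fun u => ⟨x₀ * u * x₀⁻¹, hPP u u.2⟩
  have hinj : Function.Injective c := by
    intro a b hab
    have h2 : x₀ * (a : G) * x₀⁻¹ = x₀ * (b : G) * x₀⁻¹ := congrArg Subtype.val hab
    exact Subtype.ext (conj_inj' h2)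
  have hsurj : Function.Surjective c := Finite.surjective_of_injective hinj
  intro v
  obtain ⟨u, rfl⟩ := hsurj v
  exact hone u

end StarI

end Cfsg.Agent.Lib.Blocks.Nilp
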