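/-
The star construction for Brauer blocks: the linear characters of the focal quotient act on the block.
-/
import Mathlib
import Cfsg.Agent.Lib.Blocks.StarI
import Cfsg.Agent.Lib.Blocks.Pairs10
import Cfsg.Agent.Lib.Blocks.Pairs20

set_option autoImplicit false

namespace Cfsg.Agent.Lib.Blocks.Nilp

open Cfsg Cfsg.Agent.Lib.Blocks.Local Cfsg.Agent.Lib.Blocks.Central Cfsg.Agent.Lib.Blocks.Osima
open Cfsg.Agent.Lib.Blocks.Covering Cfsg.Agent.Lib.Blocks.BlockHom Cfsg.Agent.Lib.Blocks.Pairs
open Cfsg.Agent.Lib.Blocks.Twisted Cfsg.Agent.Lib.Blocks.Necklace Cfsg.Agent.Lib.Blocks.Sections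
open Cfsg.Agent.Lib.Blocks.Regular Cfsg.Agent.Lib.Blocks.BlockCount
open Cfsg.Agent.Lib.Blocks.SecondMain
open Cfsg.Agent.Lib.Char.Ortho Cfsg.Agent.Lib.Char.BrauerInd
open scoped ComplexConjugate
open Polynomial

universe u

section Foc

variable {Ω : Type*} [Group Ω] {S : Subgroup Ω} (F : FusionSystem S)

lemma inv_mul_conj_mem_focal {a b : Ω} (ha : a ∈ S) (hb : b ∈ S) : a⁻¹ * (b * a * b⁻¹) ∈ F.focalSubgroup := by
  apply Subgroup.subset_closure
  exact ⟨S, conjHom S b, ⟨a, ha⟩, F.conj_mem le_rfl hb, rfl⟩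

lemma focal_normal : (F.focalSubgroup.subgroupOf S).Normal := by
  constructor
  intro n hn b
  rw [Subgroup.mem_subgroupOf] at hn ⊢
  have h1 := inv_mul_conj_mem_focal F n.2 b.2
  have h2 := F.focalSubgroup.mul_mem hn h1
  simpa using h2

lemma commutator_mem_focal (a b : S) : a * b * a⁻¹ * b⁻¹ ∈ F.focalSubgroup.subgroupOf S := by
  rw [Subgroup.mem_subgroupOf]
  have h1 := inv_mul_conj_mem_focal F a⁻¹.2 b.2
  have e1 : ((a * b * a⁻¹ * b⁻¹ : S) : Ω) = (a⁻¹ : S)⁻¹ * ((b : Ω) * ((a⁻¹ : S) : Ω) * (b : Ω)⁻¹) := by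
    simp only [Subgroup.coe_mul, InvMemClass.coe_inv, inv_inv]
    group
  rw [e1]
  exact h1

/-- The commutative group structure on a quotient by a subgroup containing the commutators. -/
@[reducible] noncomputable def quotCommGroup {A : Type*} [Group A] (N : Subgroup A) [N.Normal]
    (hc : ∀ a b : A, a * b * a⁻¹ * b⁻¹ ∈ N) : CommGroup (A ⧸ N) :=
  { (inferInstance : Group (A ⧸ N)) with
    mul_comm := by
      rintro ⟨a⟩ ⟨b⟩
      show (QuotientGroup.mk a : A ⧸ N) * QuotientGroup.mk b = QuotientGroup.mk b * QuotientGroup.mk a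
      rw [← QuotientGroup.mk_mul, ← QuotientGroup.mk_mul, QuotientGroup.eq]
      have h := hc b⁻¹ a⁻¹
      simpa [mul_assoc] using h }

/-- The number of linear characters of the quotient. -/
theorem card_hom_quot {A : Type*} [Group A] [Finite A] (N : Subgroup A) [N.Normal]
    (hc : ∀ a b : A, a * b * a⁻¹ * b⁻¹ ∈ N) : Nat.card ((A ⧸ N) →* ℂˣ) = N.index := by
  letI := quotCommGroup N hc
  have hfin : Finite (A ⧸ N) := inferInstance
  haveI : NeZero ((Monoid.exponent (A ⧸ N) : ℕ) : ℂ) := by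
    constructor
    exact_mod_cast (Monoid.exponent_ne_zero_of_finite)
  have h1 := CommGroup.card_monoidHom_of_hasEnoughRootsOfUnity (A ⧸ N) ℂ
  rw [Subgroup.index_eq_card]
  exact h1

end Foc

section StarJ

variable {G : Type u} [Group G] [Fintype G] {M : Ideal AlgInt} [hM : M.IsPrime] {p : ℕ} [hp : Fact p.Prime]
variable {P : Subgroup G} {e : Set (IrrCharacter (Subgroup.centralizer (P : Set G)))} {B : Set (IrrCharacter G)}
  {F : FusionSystem P}

/-- A linear character trivial on the focal subgroup is stable under the fusion of the block. -/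
theorem fstable_of_focal (hMp : IsPModular p M) (hF : IsBlockFusionSystemOn p M B P e F) (lam : P →* ℂˣ)
    (hlam : ∀ v : P, (v : G) ∈ F.focalSubgroup → lam v = 1) : FStable M p P e (extL P lam) := by
  intro v hv x hxv hE
  have hPe := hF.1.1.1
  have hQP : Subgroup.zpowers v ≤ P := (Subgroup.zpowers_le).mpr hv
  have hle := eBlk_spec hMp hPe hv
  have hb : eBlk M p P e (x * v * x⁻¹) = conjB x (hmapK x v) (eBlk M p P e v) := by
    apply eq_of_EE_eq (isPBlock_eBlk hMp hPe hxv) (isPBlock_conjB (isPBlock_eBlk hMp hPe hv))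
    rw [← cj_EE_conjB]
    exact hE.symm
  have hle' : SubpairLE p M ((Subgroup.zpowers v).map (MulAut.conj x).toMonoidHom)
      (conjBlock (Subgroup.zpowers v) x (eBlk M p P e v)) P e := by
    have key : ∀ (Y : Subgroup G) (hY : (Subgroup.zpowers v).map (MulAut.conj x).toMonoidHom = Y),
        SubpairLE p M Y (conjB x (map_conj_centralizer_gen x hY) (eBlk M p P e v)) P e →
        SubpairLE p M ((Subgroup.zpowers v).map (MulAut.conj x).toMonoidHom)
          (conjBlock (Subgroup.zpowers v) x (eBlk M p P e v)) P e := by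
      rintro Y rfl h
      rwa [conjBlock_eq_conjB]
    apply key _ (zpowers_map_conj x v)
    have h3 := eBlk_spec hMp hPe hxv
    rwa [hb] at h3
  have hmem := conjHom_mem_of_block hF hQP hle x hle'
  have hfoc : v⁻¹ * (x * v * x⁻¹) ∈ F.focalSubgroup := by
    apply Subgroup.subset_closure
    exact ⟨Subgroup.zpowers v, conjHom _ x, ⟨v, Subgroup.mem_zpowers v⟩, hmem, rfl⟩
  have h1 := hlam (⟨v, hv⟩⁻¹ * ⟨x * v * x⁻¹, hxv⟩) hfoc
  rw [map_mul, map_inv, inv_mul_eq_one] at h1
  rw [extL_of_mem lam hv, extL_of_mem lam hxv, h1]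

/-- The height is determined by the degree. -/
lemma blockHeight_eq_of_apply_one {χ ψ : IrrCharacter G} (h : (χ : G → ℂ) 1 = (ψ : G → ℂ) 1) :
    blockHeight p B (χ : G → ℂ) = blockHeight p B (ψ : G → ℂ) := by
  have h1 : charDegree (χ : G → ℂ) = charDegree (ψ : G → ℂ) := by
    have e1 := Cfsg.Agent.Lib.Char.Values.IsCharacter.charDegree_cast
      (Cfsg.Agent.Lib.Char.Values.IsIrrCharacter.isCharacter χ.2)
    have e2 := Cfsg.Agent.Lib.Char.Values.IsCharacter.charDegree_cast
      (Cfsg.Agent.Lib.Char.Values.IsIrrCharacter.isCharacter ψ.2)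
    rw [h, ← e2] at e1
    exact_mod_cast e1
  unfold blockHeight
  rw [h1]

/-- The action of the linear characters of the focal quotient, and counting. -/
theorem index_dvd_card_star (hMp : IsPModular p M) (hF : IsBlockFusionSystemOn p M B P e F)
    [hN : (F.focalSubgroup.subgroupOf P).Normal] (X₁ : Subgroup ((P ⧸ F.focalSubgroup.subgroupOf P) →* ℂˣ)) (h : ℕ)
    (hfix : ∀ (x : (P ⧸ F.focalSubgroup.subgroupOf P) →* ℂˣ) (χ : IrrCharacter G), χ ∈ B →
      blockHeight p B (χ : G → ℂ) = h →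
      starT M p P e (extL P (x.comp (QuotientGroup.mk' _))) (χ : G → ℂ) = (χ : G → ℂ) → x ∈ X₁) :
    X₁.index ∣ Nat.card {χ : IrrCharacter G // χ ∈ B ∧ blockHeight p B (χ : G → ℂ) = h} := by
  classical
  have hmax := hF.1
  set N := F.focalSubgroup.subgroupOf P with hNdef
  set X := (P ⧸ N) →* ℂˣ with hX
  let lamOf : X → (P →* ℂˣ) := fun x => x.comp (QuotientGroup.mk' N)
  have hstable : ∀ x : X, FStable M p P e (extL P (lamOf x)) := by
    intro x
    refine fstable_of_focal hMp hF _ fun v hv => ?_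
    have h1 : (QuotientGroup.mk' N v) = 1 := by
      rw [QuotientGroup.mk'_apply, QuotientGroup.eq_one_iff]
      exact hv
    simp only [lamOf, MonoidHom.comp_apply]
    rw [h1, map_one]
  have hex : ∀ (x : X) (χ : {χ : IrrCharacter G // χ ∈ B ∧ blockHeight p B (χ : G → ℂ) = h}),
      ∃ ψ : {χ : IrrCharacter G // χ ∈ B ∧ blockHeight p B (χ : G → ℂ) = h},
        ((ψ : IrrCharacter G) : G → ℂ) = starT M p P e (extL P (lamOf x)) ((χ : IrrCharacter G) : G → ℂ) := by
    intro x χ
    obtain ⟨ψ, hψ, hψB⟩ := exists_star_irr hMp hmax (lamOf x) (hstable x) χ.2.1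
    refine ⟨⟨ψ, hψB, ?_⟩, hψ⟩
    rw [← χ.2.2]
    apply blockHeight_eq_of_apply_one
    rw [hψ]
    apply starT_of_reg hMp hmax (hstable x) (extL_one _) χ.2.1
    rw [orderOf_one]
    exact fun h => hp.out.one_lt.ne' (Nat.dvd_one.mp h)
  choose act hact using hex
  letI : MulAction X {χ : IrrCharacter G // χ ∈ B ∧ blockHeight p B (χ : G → ℂ) = h} :=
    { smul := act
      one_smul := by
        intro χ
        apply Subtype.ext
        apply Subtype.ext
        show ((act 1 χ : {χ : IrrCharacter G // χ ∈ B ∧ blockHeight p B (χ : G → ℂ) = h}) : IrrCharacter G).1 = _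
        rw [hact]
        refine starT_of_forall_one hMp hmax (hstable 1) (fun v hv => ?_) χ.2.1
        rw [extL_of_mem _ hv]
        simp [lamOf]
      mul_smul := by
        intro x y χ
        apply Subtype.ext
        apply Subtype.ext
        show ((act (x * y) χ : {χ : IrrCharacter G // χ ∈ B ∧ blockHeight p B (χ : G → ℂ) = h}) : IrrCharacter G).1 =
          ((act x (act y χ) : {χ : IrrCharacter G // χ ∈ B ∧ blockHeight p B (χ : G → ℂ) = h}) : IrrCharacter G).1
        rw [hact, hact, hact]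
        symm
        refine starT_starT hMp (hstable x) (hstable y) (hstable (x * y)) (fun v hv => ?_)
          (isClassFunction_of_irr (χ : IrrCharacter G).2)
        rw [← extL_mul _ _ hv]
        rfl }
  refine index_dvd_card_of_stabilizer_le X₁ ?_
  intro χ x hx
  refine hfix x χ χ.2.1 χ.2.2 ?_
  have h1 : act x χ = χ := hx
  have h2 := hact x χ
  rw [h1] at h2
  exact h2.symm

end StarJ

end Cfsg.Agent.Lib.Blocks.Nilp
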