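/-
The star construction for Brauer blocks: a fixed character forces the linear character to be trivial on the centre.
-/
import Mathlib
import Cfsg.Agent.Lib.Blocks.StarJ
import Cfsg.Agent.Lib.Blocks.MajorSub2
import Cfsg.Agent.Lib.Blocks.Pairs21
import Cfsg.Agent.Lib.Blocks.CenBlocks
import Cfsg.Agent.S0908

set_option autoImplicit false

namespace Cfsg.Agent.Lib.Blocks.Nilp

open Cfsg Cfsg.Agent.Lib.Blocks.Local Cfsg.Agent.Lib.Blocks.Central Cfsg.Agent.Lib.Blocks.Osima
open Cfsg.Agent.Lib.Blocks.Covering Cfsg.Agent.Lib.Blocks.BlockHom Cfsg.Agent.Lib.Blocks.Pairs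
open Cfsg.Agent.Lib.Blocks.Twisted Cfsg.Agent.Lib.Blocks.Necklace Cfsg.Agent.Lib.Blocks.Sections
open Cfsg.Agent.Lib.Blocks.Regular Cfsg.Agent.Lib.Blocks.BlockCount
open Cfsg.Agent.Lib.Blocks.SecondMain
open Cfsg.Agent.Lib.Char.Ortho Cfsg.Agent.Lib.Char.BrauerInd
open scoped ComplexConjugate
open Polynomial

universe u

section StarK

variable {G : Type u} [Group G] [Fintype G] {M : Ideal AlgInt} [hM : M.IsPrime] {p : ℕ} [hp : Fact p.Prime]
variable {P : Subgroup G} {e : Set (IrrCharacter (Subgroup.centralizer (P : Set G)))} {B : Set (IrrCharacter G)}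

/-- Non-vanishing on a major subsection. -/
theorem exists_twTrace_major (hMp : IsPModular p M) {z : G} {k : ℕ} (hk : orderOf z = p ^ k) {H : Subgroup G}
    (hH : H = Cfsg.Agent.Lib.Blocks.Sections.Cen z) {b : Set (IrrCharacter H)} (hind : IsInducedBlock M H b B)
    (hd : blockDefect p b = blockDefect p B) {χ : IrrCharacter G} (hχ : χ ∈ B) :
    ∃ c : H, ¬ p ∣ orderOf c ∧ twTrace (χ : G → ℂ) (z * c) (EE H b) ≠ 0 := by
  classical
  subst hH
  haveI : Fintype (Cfsg.Agent.Lib.Blocks.Sections.Cen z) := Fintype.ofFinite _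
  obtain ⟨χ', hχ', h0'⟩ := Cfsg.Agent.Lib.Blocks.HeightZero.exists_height_zero (p := p)
    (Cfsg.Agent.Lib.Blocks.Pairs.isPBlock_nonempty hind.2.1)
  have hne := Cfsg.Agent.Lib.Blocks.MajorSub2.XX_ne_of_height_zero hMp hk hind hd hχ hχ' h0'
  by_contra hno
  push Not at hno
  apply hne
  have hg : Cfsg.Agent.Lib.Blocks.MajorSub.gg p b χ = 0 := by
    funext c
    unfold Cfsg.Agent.Lib.Blocks.MajorSub.gg
    by_cases hc : p ∣ orderOf c
    · rw [reg_of_dvd _ hc]
      rfl
    · rw [reg_of_not_dvd _ hc, ← twTrace_EE_eq_blockPart (isClassFunction_of_irr χ.2) _ b c]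
      · exact hno c hc
      · intro k hk
        have := Subgroup.mem_centralizer_iff.mp hk z (Set.mem_singleton z)
        exact this.symm
  unfold Cfsg.Agent.Lib.Blocks.MajorSub.XX
  rw [hg, classInner_zero_left, mul_zero]

/-- The pair below `(P, e)` at a central element of `P` is major. -/
theorem major_eBlk (hMp : IsPModular p M) (hmax : IsMaximalBrauerPair p M B P e) {z : G} (hz : z ∈ P)
    (hzc : z ∈ Subgroup.centralizer (P : Set G)) :
    IsInducedBlock M (Kz z) (eBlk M p P e z) B ∧ blockDefect p (eBlk M p P e z) = blockDefect p B := by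
  classical
  haveI : Fintype (Kz z) := Fintype.ofFinite _
  have hPe : IsBrauerPair p M P e := hmax.1.1
  have hle := eBlk_spec hMp hPe hz
  have hQf := (isBrauerPairOf_iff_of_subpairLE hMp (isBrauerPair_of_subpairLE hPe hle) hle).mp hmax.1
  have hind := isInducedBlock_of_brauerPair hMp hQf
  refine ⟨hind, le_antisymm (Cfsg.Agent.Lib.Blocks.CenBlocks.blockDefect_le_of_isInducedBlock hMp _ hind) ?_⟩
  have hcomm : ∀ a ∈ P, a * z = z * a := fun a ha => Subgroup.mem_centralizer_iff.mp hzc a ha
  have hQP : Subgroup.zpowers z ≤ P := (Subgroup.zpowers_le).mpr hz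
  have hPK : P ≤ Kz z := fun a ha => mem_centralizer_zpowers_iff.mpr (hcomm a ha)
  have hPN : P ≤ Subgroup.normalizer ((Subgroup.zpowers z : Subgroup G) : Set G) := by
    intro a ha
    rw [Subgroup.mem_normalizer_iff]
    intro b
    constructor
    · rintro ⟨n, rfl⟩
      refine ⟨n, ?_⟩
      have h1 : Commute a (z ^ n) := Commute.zpow_right (hcomm a ha) n
      show z ^ n = a * z ^ n * a⁻¹
      rw [h1.eq, mul_inv_cancel_right]
    · rintro ⟨n, hn⟩
      have hn' : z ^ n = a * b * a⁻¹ := hn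
      have h1 : Commute a (z ^ n) := Commute.zpow_right (hcomm a ha) n
      refine ⟨n, ?_⟩
      have h2 : b = a⁻¹ * z ^ n * a := by rw [hn']; group
      show z ^ n = b
      rw [h2, mul_assoc, ← h1.eq, inv_mul_cancel_left]
  obtain ⟨f', hf', -⟩ := existsUnique_normal_subpair hMp hPe hQP hPN
  have hle' : SubpairLE p M (Subgroup.zpowers z) f' P e := Relation.ReflTransGen.single hf'
  have hff : f' = eBlk M p P e z := eq_of_subpairLE hMp hPe hle' hle
  rw [hff] at hf'
  obtain ⟨x, hx, hxc⟩ := exists_coeff_of_normal_subpair hf'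
  have hxK : x ∈ Kz z := mem_centralizer_zpowers_iff.mpr (Subgroup.mem_centralizer_iff.mp hx z hz).symm
  rw [coeff_EE, subgroupBlockCoeff_of_mem _ hxK] at hxc
  obtain ⟨y, S, -, hD⟩ := exists_isDefectGroup hMp hind.1
  have hDp := Cfsg.Agent.S0908.result p M hMp _ hind.1 _ hD
  have hPp := Cfsg.Agent.S0908.result p M hMp B hmax.1.2.1 P (isDefectGroup_of_maximal hMp hmax)
  have hR : IsPGroup p (P.subgroupOf (Kz z)) := by
    intro g
    obtain ⟨n, hn⟩ := hPe.1 ⟨(g : G), Subgroup.mem_subgroupOf.mp g.2⟩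
    refine ⟨n, ?_⟩
    apply Subtype.ext
    apply Subtype.ext
    have h1 := congrArg (Subtype.val) hn
    simpa using h1
  have hRx : P.subgroupOf (Kz z) ≤ Subgroup.centralizer ({⟨x, hxK⟩} : Set (Kz z)) := by
    intro g hg
    rw [Subgroup.mem_centralizer_iff]
    rintro w rfl
    apply Subtype.ext
    have h1 := Subgroup.mem_centralizer_iff.mp hx (g : G) (Subgroup.mem_subgroupOf.mp hg)
    exact h1.symm
  obtain ⟨w, hw⟩ := exists_le_conj_of_coeff hMp hind.1 hD hxc hR hRx
  have hc1 : Nat.card (P.subgroupOf (Kz z)) = Nat.card P :=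
    Nat.card_congr (Subgroup.subgroupOfEquivOfLe hPK).toEquiv
  have hc2 : Nat.card (P.subgroupOf (Kz z)) ≤ Nat.card ((_ : Subgroup (Kz z)).map (MulAut.conj w).toMonoidHom) :=
    Subgroup.card_le_of_le hw
  have hc3 : ∀ D : Subgroup (Kz z), Nat.card (D.map (MulAut.conj w).toMonoidHom) = Nat.card D := fun D =>
    Nat.card_congr (D.equivMapOfInjective _ (MulAut.conj w).injective).symm.toEquiv
  rw [hc3, hc1, hDp, hPp] at hc2
  exact (Nat.pow_le_pow_iff_right hp.out.one_lt).mp hc2

/-- A fixed character forces a stable linear character to be trivial on the centre. -/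
theorem star_fixed_center (hMp : IsPModular p M) (hmax : IsMaximalBrauerPair p M B P e) (lam : P →* ℂˣ)
    (hst : FStable M p P e (extL P lam)) {χ : IrrCharacter G} (hχ : χ ∈ B)
    (hfix : starT M p P e (extL P lam) (χ : G → ℂ) = (χ : G → ℂ)) (z : P)
    (hzc : (z : G) ∈ Subgroup.centralizer (P : Set G)) : lam z = 1 := by
  classical
  haveI : Fintype (Kz (z : G)) := Fintype.ofFinite _
  have hPe : IsBrauerPair p M P e := hmax.1.1
  obtain ⟨hind, hd⟩ := major_eBlk hMp hmax z.2 hzc
  obtain ⟨n, hn⟩ := hPe.1 z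
  have hzn : (z : G) ^ p ^ n = 1 := by
    have h1 := congrArg Subtype.val hn
    simpa using h1
  obtain ⟨k, -, hk⟩ := (Nat.dvd_prime_pow hp.out).mp (orderOf_dvd_of_pow_eq_one hzn)
  have hKC : Kz (z : G) = Cfsg.Agent.Lib.Blocks.Sections.Cen (z : G) := by
    ext a
    rw [mem_centralizer_zpowers_iff, Subgroup.mem_centralizer_iff]
    constructor
    · rintro h w rfl
      exact h.symm
    · intro h
      exact (h _ rfl).symm
  obtain ⟨c, hc, hne⟩ := exists_twTrace_major hMp hk hKC hind hd hχ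
  have hc' : (c : G) ∈ regC p (z : G) := by
    rw [mem_regC]
    refine ⟨c.2, ?_⟩
    rwa [Subgroup.orderOf_coe]
  have hu : (z : G) ∈ pElts (G := G) p := mem_pElts.mpr ⟨k, hk⟩
  have h1 := twTrace_starT_EE hMp hst (isClassFunction_of_irr χ.2) hu hc' hind.1
  rw [hfix] at h1
  have h2 : LamF M p P e (extL P lam) (z : G) (EE (Kz (z : G)) (eBlk M p P e (z : G))) = extL P lam (z : G) := by
    have h3 := LamF_eq (u := (z : G)) (x := 1) (E := EE (Kz (z : G)) (eBlk M p P e (z : G))) hst
      (by simpa using z.2) (by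
        have e1 : (1 : G) * (z : G) * (1 : G)⁻¹ = (z : G) := by group
        rw [e1, cj_one']
        rfl)
    have e1 : (1 : G) * (z : G) * (1 : G)⁻¹ = (z : G) := by group
    rw [e1] at h3
    exact h3
  rw [h2, extL_of_mem lam z.2] at h1
  have h4 : ((lam ⟨(z : G), z.2⟩ : ℂˣ) : ℂ) = 1 := by
    have h5 : (((lam ⟨(z : G), z.2⟩ : ℂˣ) : ℂ) - 1) * twTrace (χ : G → ℂ) ((z : G) * c) (EE (Kz (z : G)) (eBlk M p P e (z : G))) = 0 := by
      rw [sub_mul, one_mul, ← h1, sub_self]
    rcases mul_eq_zero.mp h5 with h6 | h6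
    · exact sub_eq_zero.mp h6
    · exact absurd h6 hne
  apply Units.ext
  simpa using h4

end StarK

section Annih

/-- The linear characters trivial on a subgroup. -/
def annih {A : Type*} [Group A] (H : Subgroup A) : Subgroup (A →* ℂˣ) where
  carrier := {x | ∀ a ∈ H, x a = 1}
  mul_mem' := by
    intro x y hx hy a ha
    rw [MonoidHom.mul_apply, hx a ha, hy a ha, one_mul]
  one_mem' := by
    intro a _
    rfl
  inv_mem' := by
    intro x hx a ha
    rw [MonoidHom.inv_apply, hx a ha, inv_one]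

/-- The number of characters trivial on a subgroup. -/
theorem index_annih {A : Type*} [Group A] [Finite A] (N : Subgroup A) [N.Normal]
    (hc : ∀ a b : A, a * b * a⁻¹ * b⁻¹ ∈ N) (H : Subgroup (A ⧸ N)) : (annih H).index = Nat.card H := by
  letI := quotCommGroup N hc
  have hfin : Finite (A ⧸ N) := inferInstance
  haveI : NeZero ((Monoid.exponent (A ⧸ N) : ℕ) : ℂ) := by
    constructor
    exact_mod_cast (Monoid.exponent_ne_zero_of_finite)
  haveI : NeZero ((Monoid.exponent H : ℕ) : ℂ) := by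
    constructor
    exact_mod_cast (Monoid.exponent_ne_zero_of_finite)
  have h1 : annih H = (MonoidHom.domRestrictHom H ℂˣ).ker := by
    ext x
    rw [MonoidHom.mem_ker]
    constructor
    · intro hx
      ext a
      simp only [MonoidHom.domRestrictHom_apply, MonoidHom.domRestrict_apply]
      rw [hx a a.2]
      rfl
    · intro hx a ha
      have h2 := congrArg (fun f : H →* ℂˣ => f ⟨a, ha⟩) hx
      simpa using h2
  rw [h1, Subgroup.index_ker, MonoidHom.range_eq_top.mpr (MonoidHom.domRestrict_surjective ℂ H), Subgroup.card_top]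
  exact CommGroup.card_monoidHom_of_hasEnoughRootsOfUnity H ℂ

end Annih

section Main

variable {G : Type*} [Group G] [Fintype G] {M : Ideal AlgInt} {p : ℕ} [hp : Fact p.Prime]
variable {P : Subgroup G} {e : Set (IrrCharacter (Subgroup.centralizer (P : Set G)))} {B : Set (IrrCharacter G)}
  {F : FusionSystem P}

theorem center_index_dvd_card (hMp : IsPModular p M) (hF : IsBlockFusionSystemOn p M B P e F) (h : ℕ) :
    ((P ⊓ Subgroup.centralizer (P : Set G) ⊓ F.focalSubgroup).subgroupOf (P ⊓ Subgroup.centralizer (P : Set G))).index ∣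
      Nat.card {χ : IrrCharacter G // χ ∈ B ∧ blockHeight p B (χ : G → ℂ) = h} := by
  classical
  haveI hMprime : M.IsPrime := isPrime_of_isPModular hMp
  haveI hN : (F.focalSubgroup.subgroupOf P).Normal := focal_normal F
  set N := F.focalSubgroup.subgroupOf P with hNdef
  let f : ↥(P ⊓ Subgroup.centralizer (P : Set G)) →* (P ⧸ N) :=
    (QuotientGroup.mk' N).comp (Subgroup.inclusion inf_le_left)
  have hker : f.ker = (P ⊓ Subgroup.centralizer (P : Set G) ⊓ F.focalSubgroup).subgroupOf (P ⊓ Subgroup.centralizer (P : Set G)) := by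
    ext z
    rw [MonoidHom.mem_ker, Subgroup.mem_subgroupOf, Subgroup.mem_inf]
    constructor
    · intro hz
      refine ⟨z.2, ?_⟩
      have h1 : (QuotientGroup.mk' N) (Subgroup.inclusion inf_le_left z) = 1 := hz
      rw [QuotientGroup.mk'_apply, QuotientGroup.eq_one_iff] at h1
      exact h1
    · rintro ⟨-, hz⟩
      show (QuotientGroup.mk' N) (Subgroup.inclusion inf_le_left z) = 1
      rw [QuotientGroup.mk'_apply, QuotientGroup.eq_one_iff]
      exact hz
  have hfix : ∀ (x : (P ⧸ N) →* ℂˣ) (χ : IrrCharacter G), χ ∈ B →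
      blockHeight p B (χ : G → ℂ) = h →
      starT M p P e (extL P (x.comp (QuotientGroup.mk' _))) (χ : G → ℂ) = (χ : G → ℂ) → x ∈ annih f.range := by
    intro x χ hχ _ hfx a ha
    obtain ⟨z, rfl⟩ := ha
    have hst : FStable M p P e (extL P (x.comp (QuotientGroup.mk' N))) := by
      refine fstable_of_focal hMp hF _ fun v hv => ?_
      have h1 : (QuotientGroup.mk' N v) = 1 := by
        rw [QuotientGroup.mk'_apply, QuotientGroup.eq_one_iff]
        exact hv
      simp only [MonoidHom.comp_apply]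
      rw [h1, map_one]
    exact star_fixed_center hMp hF.1 _ hst hχ hfx (Subgroup.inclusion inf_le_left z) (z.2.2)
  have h1 := index_dvd_card_star hMp hF (annih f.range) h hfix
  rw [index_annih N (commutator_mem_focal F)] at h1
  rw [← hker, Subgroup.index_ker]
  exact h1

end Main

end Cfsg.Agent.Lib.Blocks.Nilp
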