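import Mathlib
import Cfsg.Agent.Lib.Blocks.SymCom

/-!
# Symmetric local algebras whose commutator quotient has dimension at most five: basic tools

Levels `I ^ n`, separating linear forms, one-dimensional top levels and chains.
-/

set_option autoImplicit false
set_option linter.unusedSectionVars false
set_option linter.unusedVariables false
set_option linter.style.haveILetI false

namespace Cfsg.Agent.Lib.Blocks.Sym5

open Module Cfsg.Agent.Lib.Blocks.SymLocal Cfsg.Agent.Lib.Blocks.SymCom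

section Basic

variable {k A : Type*} [Field k] [Ring A] [Algebra k A] {t : A →ₗ[k] k} {I : Submodule k A}

/-- Products along the levels. -/
lemma mm {m n r : ℕ} (hr : m + n = r) {u v : A} (hu : u ∈ I ^ m) (hv : v ∈ I ^ n) : u * v ∈ I ^ r := by
  rw [← hr, pow_add]
  exact Submodule.mul_mem_mul hu hv

lemma one_mem {u : A} (hu : u ∈ I) : u ∈ I ^ 1 := by simpa using hu

lemma pow_succ_le (h : LocSym t I) (n : ℕ) : I ^ (n + 2) ≤ I ^ (n + 1) := by
  rw [pow_succ I (n + 1), pow_succ I n, mul_assoc]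
  exact mul_le_mul' le_rfl h.II

lemma pow_anti (h : LocSym t I) {m n : ℕ} (hm : 1 ≤ m) (hmn : m ≤ n) : I ^ n ≤ I ^ m := by
  obtain ⟨d, rfl⟩ := Nat.exists_eq_add_of_le hmn
  obtain ⟨e, rfl⟩ := Nat.exists_eq_add_of_le hm
  induction d with
  | zero => simp
  | succ d ih =>
    refine le_trans ?_ (ih (by omega))
    have := pow_succ_le h (1 + e + d - 1)
    have e1 : 1 + e + d - 1 + 2 = 1 + e + (d + 1) := by omega
    have e2 : 1 + e + d - 1 + 1 = 1 + e + d := by omega
    rwa [e1, e2] at this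

lemma StL_pow (h : LocSym t I) (n : ℕ) : StL (I ^ (n + 1)) := by
  induction n with
  | zero =>
    intro a x hx
    rw [zero_add, pow_one] at hx ⊢
    exact h.mem_left a hx
  | succ n ih =>
    rw [pow_succ]
    exact ih.mul I

lemma StR_pow (h : LocSym t I) (n : ℕ) : StR (I ^ (n + 1)) := by
  induction n with
  | zero =>
    intro a x hx
    rw [zero_add, pow_one] at hx ⊢
    exact h.mem_right a hx
  | succ n ih =>
    rw [pow_succ']
    exact ih.mul I

lemma exists_t_ne_pow (h : LocSym t I) {n : ℕ} (hne : I ^ (n + 1) ≠ ⊥) : ∃ w ∈ I ^ (n + 1), t w ≠ 0 :=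
  h.exists_t_ne (StR_pow h n) hne

lemma eq_bot_of_pow_le (h : LocSym t I) {n : ℕ} (hle : I ^ n ≤ I ^ (n + 1)) : I ^ n = ⊥ := by
  apply h.eq_bot_of_le_mul
  rwa [← pow_succ]

lemma pow_eq_bot_of_le (h : LocSym t I) {m n : ℕ} (hmn : m ≤ n) (hm : I ^ m = ⊥) : I ^ n = ⊥ := by
  obtain ⟨d, rfl⟩ := Nat.exists_eq_add_of_le hmn
  rw [pow_add, hm, Submodule.bot_mul]

/-- A separating linear form. -/
lemma exists_form {Y : Submodule k A} {u : A} (hu : u ∉ Y) : ∃ F : A →ₗ[k] k, (∀ y ∈ Y, F y = 0) ∧ F u ≠ 0 := by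
  obtain ⟨f, hf, hY⟩ := Submodule.exists_dual_map_eq_bot_of_notMem hu inferInstance
  refine ⟨f, fun y hy => ?_, hf⟩
  have : f y ∈ Y.map f := Submodule.mem_map_of_mem hy
  rw [hY] at this
  simpa using this

/-- A vector all of whose forms vanish, modulo a subspace. -/
lemma mem_of_forms {Y : Submodule k A} {u : A} (h : ∀ F : A →ₗ[k] k, (∀ y ∈ Y, F y = 0) → F u = 0) : u ∈ Y := by
  by_contra hu
  obtain ⟨F, hF, hne⟩ := exists_form hu
  exact hne (h F hF)

/-- Spanning modulo a subspace, tested on forms. -/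
lemma le_sup_of_forms {U Y : Submodule k A} {S : Set A}
    (h : ∀ F : A →ₗ[k] k, (∀ y ∈ Y, F y = 0) → (∀ s ∈ S, F s = 0) → ∀ u ∈ U, F u = 0) :
    U ≤ Submodule.span k S ⊔ Y := by
  intro u hu
  apply mem_of_forms
  intro F hF
  refine h F (fun y hy => hF y (Submodule.mem_sup_right hy))
    (fun s hs => hF s (Submodule.mem_sup_left (Submodule.subset_span hs))) u hu

lemma form_span {F : A →ₗ[k] k} {S : Set A} (hS : ∀ s ∈ S, F s = 0) {u : A} (hu : u ∈ Submodule.span k S) : F u = 0 := by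
  induction hu using Submodule.span_induction with
  | mem x hx => exact hS x hx
  | zero => simp
  | add x y _ _ hx hy => rw [map_add, hx, hy, add_zero]
  | smul c x _ hx => rw [map_smul, hx, smul_zero]

lemma exists_one {a : A} {Y : Submodule k A} {u : A} (hu : u ∈ Submodule.span k {a} ⊔ Y) :
    ∃ c : k, u - c • a ∈ Y := by
  obtain ⟨e, he, j, hj, rfl⟩ := Submodule.mem_sup.1 hu
  obtain ⟨c, rfl⟩ := Submodule.mem_span_singleton.1 he
  exact ⟨c, by simpa using hj⟩

lemma exists_two {a b : A} {Y : Submodule k A} {u : A} (hu : u ∈ Submodule.span k {a, b} ⊔ Y) :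
    ∃ c₁ c₂ : k, u - (c₁ • a + c₂ • b) ∈ Y := by
  obtain ⟨e, he, j, hj, rfl⟩ := Submodule.mem_sup.1 hu
  obtain ⟨c₁, c₂, rfl⟩ := Submodule.mem_span_pair.1 he
  exact ⟨c₁, c₂, by simpa using hj⟩

lemma exists_three {a b c : A} {Y : Submodule k A} {u : A} (hu : u ∈ Submodule.span k {a, b, c} ⊔ Y) :
    ∃ c₁ c₂ c₃ : k, u - (c₁ • a + c₂ • b + c₃ • c) ∈ Y := by
  obtain ⟨e, he, j, hj, rfl⟩ := Submodule.mem_sup.1 hu
  obtain ⟨c₁, c₂, c₃, rfl⟩ := Submodule.mem_span_triple.1 he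
  exact ⟨c₁, c₂, c₃, by simpa [add_assoc] using hj⟩

/-- The generation step on forms. -/
lemma vanish_mul (h : LocSym t I) {n : ℕ} {S E : Set A} (hS : ∀ s ∈ S, s ∈ I ^ n)
    (hSp : I ^ n ≤ Submodule.span k S ⊔ I ^ (n + 1)) (hEp : I ≤ Submodule.span k E ⊔ I ^ 2)
    {F : A →ₗ[k] k} (hF : ∀ y ∈ I ^ (n + 2), F y = 0) (hSE : ∀ s ∈ S, ∀ e ∈ E, F (s * e) = 0) :
    ∀ y ∈ I ^ (n + 1), F y = 0 := by
  have h1 : ∀ s ∈ Submodule.span k S, ∀ e ∈ E, F (s * e) = 0 := by
    intro s hs e he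
    induction hs using Submodule.span_induction with
    | mem x hx => exact hSE x hx e he
    | zero => simp
    | add x y _ _ hx hy => rw [add_mul, map_add, hx, hy, add_zero]
    | smul c x _ hx => rw [smul_mul_assoc, map_smul, hx, smul_zero]
  have hSS : Submodule.span k S ≤ I ^ n := Submodule.span_le.2 hS
  have h2 : ∀ s ∈ Submodule.span k S, ∀ e ∈ Submodule.span k E, F (s * e) = 0 := by
    intro s hs e he
    induction he using Submodule.span_induction with
    | mem x hx => exact h1 s hs x hx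
    | zero => simp
    | add x y _ _ hx hy => rw [mul_add, map_add, hx, hy, add_zero]
    | smul c x _ hx => rw [mul_smul_comm, map_smul, hx, smul_zero]
  intro y hy
  rw [pow_succ] at hy
  induction hy using Submodule.mul_induction_on' with
  | mem_mul_mem u hu v hv =>
    obtain ⟨s, hs, j, hj, rfl⟩ := Submodule.mem_sup.1 (hSp hu)
    obtain ⟨e, he, j', hj', rfl⟩ := Submodule.mem_sup.1 (hEp hv)
    have e1 : (s + j) * (e + j') = s * e + (s * j' + j * (e + j')) := by noncomm_ring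
    rw [e1, map_add, map_add, h2 s hs e he, hF _ (mm (by omega) (hSS hs) hj'),
      hF _ (mm (by omega) hj (one_mem hv)), add_zero, add_zero]
  | add x _ y _ hx hy => rw [map_add, hx, hy, add_zero]

/-- The element `u` spans the third level modulo the fourth, and the second is spanned by commutators:
the fourth level is zero. -/
theorem top_of_line (h : LocSym t I) {u : A} (hu : u ∈ I ^ 3) (hsp : I ^ 3 ≤ Submodule.span k {u} ⊔ I ^ 4)
    (hV : I ^ 2 ≤ commSpan k A ⊔ I ^ 3) : I ^ 4 = ⊥ := by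
  classical
  by_contra hne
  have h45 : ¬ I ^ 4 ≤ I ^ 5 := fun hle => hne (eq_bot_of_pow_le h hle)
  obtain ⟨v₄, hv₄, hv₅⟩ := SetLike.not_le_iff_exists.1 h45
  obtain ⟨φ, hφ, hφne⟩ := exists_form hv₅
  -- a coordinate on the third level
  have hcoord : ∀ v ∈ I ^ 3, ∃ c : k, v - c • u ∈ I ^ 4 := fun v hv => exists_one (hsp hv)
  choose! κ hκ using hcoord
  -- the fourth level, tested
  have hval1 : ∀ v ∈ I ^ 3, ∀ d ∈ I, φ (v * d) = κ v * φ (u * d) := by
    intro v hv d hd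
    have h1 := hφ _ (mm (by omega) (hκ v hv) (one_mem hd) : (v - κ v • u) * d ∈ I ^ 5)
    rw [sub_mul, map_sub, smul_mul_assoc, map_smul, smul_eq_mul, sub_eq_zero] at h1
    exact h1
  have hval2 : ∀ v ∈ I ^ 3, ∀ d ∈ I, φ (d * v) = κ v * φ (d * u) := by
    intro v hv d hd
    have h1 := hφ _ (mm (by omega) (one_mem hd) (hκ v hv) : d * (v - κ v • u) ∈ I ^ 5)
    rw [mul_sub, map_sub, mul_smul_comm, map_smul, smul_eq_mul, sub_eq_zero] at h1
    exact h1
  -- some value is nonzero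
  have hex : ∃ d₀ ∈ I, φ (u * d₀) ≠ 0 := by
    by_contra hno
    push Not at hno
    have hall : ∀ v ∈ I ^ 3 * I, φ v = 0 := by
      intro v hv
      induction hv using Submodule.mul_induction_on' with
      | mem_mul_mem a ha b hb => rw [hval1 a ha b hb, hno b hb, mul_zero]
      | add x _ y _ hx hy => rw [map_add, hx, hy, add_zero]
    exact hφne (hall v₄ (by rwa [← pow_succ]))
  obtain ⟨d₀, hd₀, hg⟩ := hex
  have hm3 : ∀ {a b c : A}, a ∈ I → b ∈ I → c ∈ I → a * b * c ∈ I ^ 3 := fun ha hb hc =>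
    mm (by omega) (mm (r := 2) (by omega) (one_mem ha) (one_mem hb)) (one_mem hc)
  -- the key relation
  have hrel : ∀ {a b c d : A}, a ∈ I → b ∈ I → c ∈ I → d ∈ I →
      κ (a * b * c) * φ (u * d) = κ (b * c * d) * φ (a * u) := by
    intro a b c d ha hb hc hd
    rw [← hval1 _ (hm3 ha hb hc) d hd, ← hval2 _ (hm3 hb hc hd) a ha]
    congr 1
    noncomm_ring
  have hsw : ∀ {a b c : A}, a ∈ I → b ∈ I → c ∈ I → κ (a * b * c) = κ (b * a * c) := by
    intro a b c ha hb hc
    have e1 := hrel ha hb hc hd₀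
    have e2 := hrel hb hc hd₀ hd₀
    have e3 := hrel hb ha hc hd₀
    have e4 := hrel ha hc hd₀ hd₀
    have : (κ (a * b * c) - κ (b * a * c)) * (φ (u * d₀) * φ (u * d₀)) = 0 := by
      linear_combination (φ (u * d₀)) * e1 + (φ (a * u)) * e2 - (φ (u * d₀)) * e3 - (φ (b * u)) * e4
    have h0 := (mul_eq_zero.1 this).resolve_right (mul_ne_zero hg hg)
    exact sub_eq_zero.1 h0
  -- commutators times generators lie in the fourth level
  have hcom : ∀ {a b c : A}, a ∈ I → b ∈ I → c ∈ I → (a * b - b * a) * c ∈ I ^ 4 := by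
    intro a b c ha hb hc
    have e1 := hκ _ (hm3 ha hb hc)
    have e2 := hκ _ (hm3 hb ha hc)
    rw [hsw ha hb hc] at e1
    have := (I ^ 4).sub_mem e1 e2
    convert this using 1
    noncomm_ring
  have hcom2 : ∀ s ∈ commSpan k A, ∀ c ∈ I, s * c ∈ I ^ 4 := by
    intro s hs c hc
    induction hs using Submodule.span_induction with
    | mem x hx =>
      obtain ⟨a, b, rfl⟩ := hx
      obtain ⟨α, hα⟩ := h.dec a
      obtain ⟨β, hβ⟩ := h.dec b
      have e1 : a * b - b * a = (a - α • 1) * (b - β • 1) - (b - β • 1) * (a - α • 1) := by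
        simp only [mul_sub, sub_mul, smul_mul_assoc, mul_smul_comm, smul_smul, mul_one, one_mul, smul_sub]
        rw [mul_comm β α]
        abel
      rw [e1]
      exact hcom hα hβ hc
    | zero => simp
    | add x y _ _ hx hy =>
      rw [add_mul]
      exact (I ^ 4).add_mem hx hy
    | smul r x _ hx =>
      rw [smul_mul_assoc]
      exact (I ^ 4).smul_mem r hx
  have hle : I ^ 3 ≤ I ^ 4 := by
    have : I ^ 3 = I ^ 2 * I := pow_succ _ _
    rw [this, Submodule.mul_le]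
    intro v hv c hc
    obtain ⟨s, hs, j, hj, rfl⟩ := Submodule.mem_sup.1 (hV hv)
    rw [add_mul]
    exact (I ^ 4).add_mem (hcom2 s hs c hc) (mm (by omega) hj (one_mem hc))
  have h30 := eq_bot_of_pow_le h hle
  exact hne (pow_eq_bot_of_le h (by omega) h30)

/-- A chain at the top of the fourth level. -/
theorem chain_top (h : LocSym t I) {T : A} (hT : T ∈ I ^ 4) (hsp : I ^ 4 ≤ Submodule.span k {T} ⊔ I ^ 5)
    (hl : ∀ d ∈ I, d * T ∈ I ^ 6) (ht : I ^ 5 = ⊥ → t T = 0) : I ^ 4 = ⊥ := by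
  have h56 : I ^ 5 ≤ I ^ 6 := by
    have e : I ^ 5 = I * I ^ 4 := pow_succ' _ _
    rw [e, Submodule.mul_le]
    intro d hd v hv
    obtain ⟨c, hc⟩ := exists_one (hsp hv)
    have e1 : d * v = c • (d * T) + d * (v - c • T) := by noncomm_ring
    rw [e1]
    exact (I ^ 6).add_mem ((I ^ 6).smul_mem _ (hl d hd)) (mm (by omega) (one_mem hd) hc)
  have h5 := eq_bot_of_pow_le h h56
  have ht0 := ht h5
  by_contra hne
  obtain ⟨w, hw, htw⟩ := exists_t_ne_pow h hne
  obtain ⟨c, hc⟩ := exists_one (hsp hw)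
  rw [h5] at hc
  have : w = c • T := by
    have := (Submodule.mem_bot k).1 hc
    exact sub_eq_zero.1 this
  apply htw
  rw [this, map_smul, ht0, smul_zero]

/-- Two generators, the second one invisible. -/
theorem chain_two (h : LocSym t I) {x y : A} (hx : x ∈ I) (hy : y ∈ I) (hgen : I ≤ Submodule.span k {x, y} ⊔ I ^ 2)
    {α β : k} (hαβ : α ≠ β)
    (h1 : ∀ v ∈ I ^ 3, y * v ∈ I ^ 5) (h2 : ∀ v ∈ I ^ 3, v * y ∈ I ^ 5)
    (h3 : ∀ v ∈ I ^ 3, α • (x * v) - β • (v * x) ∈ I ^ 5) : I ^ 4 = ⊥ := by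
  classical
  -- right and left decompositions
  have hx' := one_mem hx
  have hy' := one_mem hy
  have hdec : ∀ (n : ℕ), 3 ≤ n → (∀ v ∈ I ^ n, y * v ∈ I ^ (n + 2)) → (∀ v ∈ I ^ n, v * y ∈ I ^ (n + 2)) →
      ∀ v ∈ I ^ (n + 1), (∃ v₁ ∈ I ^ n, v - x * v₁ ∈ I ^ (n + 2)) ∧ (∃ v₂ ∈ I ^ n, v - v₂ * x ∈ I ^ (n + 2)) := by
    intro n hn hl hr v hv
    constructor
    · rw [pow_succ'] at hv
      induction hv using Submodule.mul_induction_on' with
      | mem_mul_mem d hd u hu =>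
        obtain ⟨c₁, c₂, hj⟩ := exists_two (hgen hd)
        refine ⟨c₁ • u, (I ^ n).smul_mem _ hu, ?_⟩
        have e1 : d * u - x * (c₁ • u) = (d - (c₁ • x + c₂ • y)) * u + c₂ • (y * u) := by noncomm_ring
        rw [e1]
        exact (I ^ (n + 2)).add_mem (mm (by omega) hj hu) ((I ^ (n + 2)).smul_mem _ (hl u hu))
      | add a _ b _ ha hb =>
        obtain ⟨v₁, hv₁, hv₁'⟩ := ha
        obtain ⟨v₂, hv₂, hv₂'⟩ := hb
        refine ⟨v₁ + v₂, (I ^ n).add_mem hv₁ hv₂, ?_⟩
        have e1 : a + b - x * (v₁ + v₂) = (a - x * v₁) + (b - x * v₂) := by noncomm_ring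
        rw [e1]
        exact (I ^ (n + 2)).add_mem hv₁' hv₂'
    · rw [pow_succ] at hv
      induction hv using Submodule.mul_induction_on' with
      | mem_mul_mem u hu d hd =>
        obtain ⟨c₁, c₂, hj⟩ := exists_two (hgen hd)
        refine ⟨c₁ • u, (I ^ n).smul_mem _ hu, ?_⟩
        have e1 : u * d - (c₁ • u) * x = u * (d - (c₁ • x + c₂ • y)) + c₂ • (u * y) := by noncomm_ring
        rw [e1]
        exact (I ^ (n + 2)).add_mem (mm (by omega) hu hj) ((I ^ (n + 2)).smul_mem _ (hr u hu))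
      | add a _ b _ ha hb =>
        obtain ⟨v₁, hv₁, hv₁'⟩ := ha
        obtain ⟨v₂, hv₂, hv₂'⟩ := hb
        refine ⟨v₁ + v₂, (I ^ n).add_mem hv₁ hv₂, ?_⟩
        have e1 : a + b - (v₁ + v₂) * x = (a - v₁ * x) + (b - v₂ * x) := by noncomm_ring
        rw [e1]
        exact (I ^ (n + 2)).add_mem hv₁' hv₂'
  have hind : ∀ (n : ℕ), 3 ≤ n → (∀ v ∈ I ^ n, y * v ∈ I ^ (n + 2)) ∧ (∀ v ∈ I ^ n, v * y ∈ I ^ (n + 2)) ∧
      (∀ v ∈ I ^ n, α • (x * v) - β • (v * x) ∈ I ^ (n + 2)) := by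
    intro n hn
    induction n, hn using Nat.le_induction with
    | base => exact ⟨h1, h2, h3⟩
    | succ n hn ih =>
      obtain ⟨il, ir, i3⟩ := ih
      have hd := hdec n hn il ir
      refine ⟨fun v hv => ?_, fun v hv => ?_, fun v hv => ?_⟩
      · obtain ⟨-, v₂, hv₂, hj⟩ := hd v hv
        have e1 : y * v = (y * v₂) * x + y * (v - v₂ * x) := by noncomm_ring
        rw [e1]
        exact (I ^ (n + 1 + 2)).add_mem (mm (by omega) (il v₂ hv₂) hx') (mm (by omega) hy' hj)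
      · obtain ⟨v₁, hv₁, hj⟩ := (hd v hv).1
        have e1 : v * y = x * (v₁ * y) + (v - x * v₁) * y := by noncomm_ring
        rw [e1]
        exact (I ^ (n + 1 + 2)).add_mem (mm (by omega) hx' (ir v₁ hv₁)) (mm (by omega) hj hy')
      · obtain ⟨-, v₂, hv₂, hj⟩ := hd v hv
        have e1 : α • (x * v) - β • (v * x) = (α • (x * v₂) - β • (v₂ * x)) * x +
            (α • (x * (v - v₂ * x)) - β • ((v - v₂ * x) * x)) := by
          simp only [mul_sub, sub_mul, smul_mul_assoc, mul_smul_comm, smul_sub, mul_assoc]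
          abel
        rw [e1]
        refine (I ^ (n + 1 + 2)).add_mem (mm (by omega) (i3 v₂ hv₂) hx') ?_
        exact (I ^ (n + 1 + 2)).sub_mem ((I ^ (n + 1 + 2)).smul_mem _ (mm (by omega) hx' hj))
          ((I ^ (n + 1 + 2)).smul_mem _ (mm (by omega) hj hx'))
  -- the top
  by_contra hne
  obtain ⟨N, hN⟩ := h.nil
  have hfind : ∃ n, I ^ (n + 4) = ⊥ := ⟨N, pow_eq_bot_of_le h (by omega) hN⟩
  classical
  have hN0 := Nat.find_spec hfind
  set n := Nat.find hfind with hn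
  have hn0 : n ≠ 0 := by
    intro h0
    rw [h0] at hN0
    exact hne hN0
  obtain ⟨m, hm⟩ := Nat.exists_eq_succ_of_ne_zero hn0
  have hmin : I ^ (m + 4) ≠ ⊥ := by
    have := Nat.find_min hfind (m := m) (by omega)
    exact this
  obtain ⟨w, hw, htw⟩ := exists_t_ne_pow h (n := m + 3) hmin
  have hbot : I ^ (m + 3 + 2) = ⊥ := by
    have : m + 3 + 2 = n + 4 := by omega
    rw [this, hN0]
  obtain ⟨-, v₂, hv₂, hj⟩ := hdec (m + 3) (by omega) (hind _ (by omega)).1 (hind _ (by omega)).2.1 w hw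
  rw [hbot] at hj
  have e1 : w = v₂ * x := sub_eq_zero.1 ((Submodule.mem_bot k).1 hj)
  have e2 := (hind (m + 3) (by omega)).2.2 v₂ hv₂
  rw [hbot] at e2
  have e3 : α • (x * v₂) = β • (v₂ * x) := sub_eq_zero.1 ((Submodule.mem_bot k).1 e2)
  have e4 := congrArg t e3
  rw [map_smul, map_smul, h.sym x v₂, smul_eq_mul, smul_eq_mul] at e4
  have e5 : (α - β) * t (v₂ * x) = 0 := by linear_combination e4
  have e6 := (mul_eq_zero.1 e5).resolve_left (sub_ne_zero.2 hαβ)
  exact htw (by rw [e1, e6])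

end Basic

end Cfsg.Agent.Lib.Blocks.Sym5
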