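import Mathlib
import Cfsg.Agent.Lib.Blocks.Sym5A

/-!
# Symmetric local algebras: opposite algebra, associativity on forms, second level of dimension one or two
-/

set_option autoImplicit false
set_option linter.unusedSectionVars false
set_option linter.unusedVariables false
set_option linter.style.haveILetI false

namespace Cfsg.Agent.Lib.Blocks.Sym5

open Module MulOpposite Cfsg.Agent.Lib.Blocks.SymLocal Cfsg.Agent.Lib.Blocks.SymCom

section Op

variable {k A : Type*} [Field k] [Ring A] [Algebra k A] {t : A →ₗ[k] k} {I : Submodule k A}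

/-- The subspace of the opposite algebra. -/
def opI (I : Submodule k A) : Submodule k Aᵐᵒᵖ := I.map (opLinearEquiv k : A ≃ₗ[k] Aᵐᵒᵖ).toLinearMap

/-- The form on the opposite algebra. -/
def opT (t : A →ₗ[k] k) : Aᵐᵒᵖ →ₗ[k] k := t ∘ₗ (opLinearEquiv k : A ≃ₗ[k] Aᵐᵒᵖ).symm.toLinearMap

@[simp] lemma opT_op (u : A) : opT t (op u) = t u := rfl

lemma op_mem_opI {u : A} : op u ∈ opI I ↔ u ∈ I := by
  constructor
  · rintro ⟨v, hv, he⟩
    have : v = u := op_injective he
    exact this ▸ hv
  · intro hu
    exact ⟨u, hu, rfl⟩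

lemma opI_pow (n : ℕ) : opI I ^ n = opI (I ^ n) := by
  have := Submodule.map_op_pow (R := k) (A := A) n (M := I)
  exact this.symm

lemma op_mem_pow {n : ℕ} {u : A} : op u ∈ opI I ^ n ↔ u ∈ I ^ n := by
  rw [opI_pow, op_mem_opI]

lemma opI_mul (M N : Submodule k A) : opI M * opI N = opI (N * M) := by
  have := Submodule.map_op_mul (R := k) (A := A) N M
  exact this.symm

/-- The opposite algebra is again symmetric local. -/
theorem LocSym.opp (h : LocSym t I) : LocSym (opT t) (opI I) where
  sym x y := by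
    induction x using MulOpposite.rec' with | _ a => ?_
    induction y using MulOpposite.rec' with | _ b => ?_
    change t (b * a) = t (a * b)
    exact h.sym _ _
  nd x hx := by
    induction x using MulOpposite.rec' with | _ a => ?_
    have : a = 0 := by
      apply h.nd
      intro y
      rw [h.sym]
      exact hx (op y)
    rw [this]
    rfl
  II := by
    rw [opI_mul]
    intro x hx
    obtain ⟨v, hv, rfl⟩ := hx
    exact ⟨v, h.II hv, rfl⟩
  dec a := by
    induction a using MulOpposite.rec' with | _ a => ?_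
    obtain ⟨c, hc⟩ := h.dec a
    exact ⟨c, op_mem_opI.2 hc⟩
  one h1 := h.one (op_mem_opI.1 h1)
  nil := by
    obtain ⟨N, hN⟩ := h.nil
    refine ⟨N, ?_⟩
    rw [opI_pow, hN]
    exact Submodule.map_bot _

lemma op_mem_comm {u : A} (hu : u ∈ commSpan k A) : op u ∈ commSpan k Aᵐᵒᵖ := by
  induction hu using Submodule.span_induction with
  | mem x hx =>
    obtain ⟨a, b, rfl⟩ := hx
    refine Submodule.subset_span ⟨op b, op a, ?_⟩
    rw [op_sub, op_mul, op_mul]
  | zero => exact Submodule.zero_mem _
  | add x y _ _ hx hy => exact Submodule.add_mem _ hx hy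
  | smul c x _ hx => exact Submodule.smul_mem _ c hx

/-- Transport of the spanning condition. -/
lemma op_hV {m n : ℕ} (hV : I ^ m ≤ commSpan k A ⊔ I ^ n) : opI I ^ m ≤ commSpan k Aᵐᵒᵖ ⊔ opI I ^ n := by
  intro x hx
  induction x using MulOpposite.rec' with | _ a => ?_
  obtain ⟨s, hs, j, hj, rfl⟩ := Submodule.mem_sup.1 (hV (op_mem_pow.1 hx))
  rw [op_add]
  exact Submodule.add_mem_sup (op_mem_comm hs) (op_mem_pow.2 hj)

/-- The span of the images. -/
lemma op_span_le {S : Set A} {S' : Set Aᵐᵒᵖ} (hS : ∀ s ∈ S, op s ∈ Submodule.span k S') {u : A}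
    (hu : u ∈ Submodule.span k S) : op u ∈ Submodule.span k S' := by
  induction hu using Submodule.span_induction with
  | mem x hx => exact hS x hx
  | zero => exact Submodule.zero_mem _
  | add x y _ _ hx hy => exact Submodule.add_mem _ hx hy
  | smul c x _ hx => exact Submodule.smul_mem _ c hx

lemma op_le_sup {m n : ℕ} {S : Set A} {S' : Set Aᵐᵒᵖ} (hS : ∀ s ∈ S, op s ∈ Submodule.span k S')
    (hV : I ^ m ≤ Submodule.span k S ⊔ I ^ n) : opI I ^ m ≤ Submodule.span k S' ⊔ opI I ^ n := by
  intro x hx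
  induction x using MulOpposite.rec' with | _ a => ?_
  obtain ⟨s, hs, j, hj, rfl⟩ := Submodule.mem_sup.1 (hV (op_mem_pow.1 hx))
  rw [op_add]
  exact Submodule.add_mem_sup (op_span_le hS hs) (op_mem_pow.2 hj)

end Op

section Forms

variable {k A : Type*} [Field k] [Ring A] [Algebra k A] {t : A →ₗ[k] k} {I : Submodule k A}

/-- Associativity on forms. -/
lemma rel3 {F : A →ₗ[k] k} (hF : ∀ y ∈ I ^ 4, F y = 0) {a b d p q : A} (ha : a ∈ I) (hd : d ∈ I)
    (hab : a * b - p ∈ I ^ 3) (hbd : b * d - q ∈ I ^ 3) : F (p * d) = F (a * q) := by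
  have h1 := hF _ (mm (by omega) hab (one_mem hd))
  have h2 := hF _ (mm (by omega) (one_mem ha) hbd)
  rw [sub_mul, map_sub] at h1
  rw [mul_sub, map_sub] at h2
  rw [mul_assoc] at h1
  linear_combination h2 - h1

/-- A form vanishes on the products with a third level element. -/
lemma zero_right {F : A →ₗ[k] k} (hF : ∀ y ∈ I ^ 4, F y = 0) {u d : A} (hu : u ∈ I ^ 3) (hd : d ∈ I) :
    F (u * d) = 0 := hF _ (mm (by omega) hu (one_mem hd))

lemma zero_left {F : A →ₗ[k] k} (hF : ∀ y ∈ I ^ 4, F y = 0) {u d : A} (hu : u ∈ I ^ 3) (hd : d ∈ I) :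
    F (d * u) = 0 := hF _ (mm (by omega) (one_mem hd) hu)

/-- If the second level is spanned by one commutator, the third level vanishes. -/
theorem line_comm (h : LocSym t I) {a b : A} (ha : a ∈ I) (hb : b ∈ I)
    (hV : I ^ 2 ≤ Submodule.span k {a * b - b * a} ⊔ I ^ 3) : I ^ 3 = ⊥ := by
  classical
  set c := a * b - b * a with hc
  by_cases hc3 : c ∈ I ^ 3
  · have hle : I ^ 2 ≤ I ^ 3 := by
      intro u hu
      obtain ⟨r, hr⟩ := exists_one (hV hu)
      have e1 : u = (u - r • c) + r • c := by abel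
      rw [e1]
      exact (I ^ 3).add_mem hr ((I ^ 3).smul_mem _ hc3)
    exact pow_eq_bot_of_le h (by omega) (eq_bot_of_pow_le h hle)
  have h2 : ∀ d ∈ I, ∀ e ∈ I, ∃ r : k, d * e - r • c ∈ I ^ 3 := fun d hd e he =>
    exists_one (hV (mm (by omega) (one_mem hd) (one_mem he)))
  choose! μ hμ using h2
  have hδ : μ a b - μ b a = 1 := by
    by_contra hne
    have h1 := (I ^ 3).sub_mem (hμ a ha b hb) (hμ b hb a ha)
    have e1 : a * b - μ a b • c - (b * a - μ b a • c) = (1 - (μ a b - μ b a)) • c := by
      rw [sub_smul, sub_smul, one_smul]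
      rw [hc]
      abel
    rw [e1] at h1
    have hne' : 1 - (μ a b - μ b a) ≠ 0 := fun h0 => hne (by linear_combination -h0)
    apply hc3
    have := (I ^ 3).smul_mem (1 - (μ a b - μ b a))⁻¹ h1
    rwa [smul_smul, inv_mul_cancel₀ hne', one_smul] at this
  have hle : I ^ 3 ≤ I ^ 4 := by
    intro v hv
    apply mem_of_forms
    intro F hF
    have hrel : ∀ {d e f : A}, d ∈ I → e ∈ I → f ∈ I → μ d e * F (c * f) = μ e f * F (d * c) := by
      intro d e f hd he hf
      have := rel3 hF hd hf (hμ d hd e he) (hμ e he f hf)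
      simpa [smul_mul_assoc, mul_smul_comm, map_smul, smul_eq_mul] using this
    obtain ⟨hX, hY, hX', hY'⟩ := solve8 (V := k) (p := μ a a) (q := μ a b) (r := μ b a) (s := μ b b) hδ
      (X := F (a * c)) (Y := F (b * c)) (X' := F (c * a)) (Y' := F (c * b))
      (by simpa using hrel ha ha ha) (by simpa using hrel ha ha hb) (by simpa using hrel ha hb ha)
      (by simpa using hrel ha hb hb) (by simpa using hrel hb ha ha) (by simpa using hrel hb ha hb)
      (by simpa using hrel hb hb ha) (by simpa using hrel hb hb hb)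
    have hcf : ∀ f ∈ I, F (c * f) = 0 := by
      intro f hf
      have e1 := hrel ha hb hf
      have e2 := hrel hb ha hf
      rw [hX, mul_zero] at e1
      rw [hY, mul_zero] at e2
      have : (μ a b - μ b a) * F (c * f) = 0 := by linear_combination e1 - e2
      rwa [hδ, one_mul] at this
    have hall : ∀ y ∈ I ^ 2 * I, F y = 0 := by
      intro y hy
      induction hy using Submodule.mul_induction_on' with
      | mem_mul_mem u hu f hf =>
        obtain ⟨r, hr⟩ := exists_one (hV hu)
        have e1 : u * f = r • (c * f) + (u - r • c) * f := by noncomm_ring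
        rw [e1, map_add, map_smul, hcf f hf, smul_zero, zero_add, zero_right hF hr hf]
      | add x _ y _ hx hy => rw [map_add, hx, hy, add_zero]
    exact hall v (by rwa [← pow_succ])
  exact eq_bot_of_pow_le h hle

/-- Second level of dimension two, the map `α - 1` surjective. -/
theorem V2_leafA (h : LocSym t I) {P : Type*} [AddCommGroup P] [Module k P]
    (ι c : P →ₗ[k] A) (α' H : P →ₗ[k] P) (β : P → P → P) (ε : P) {w : A}
    (hι : ∀ a, ι a ∈ I) (hw : w ∈ I) (hc : ∀ a, c a ∈ I ^ 2)
    (htab1 : ∀ a, ι a * w - c (α' a + a) ∈ I ^ 3)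
    (htab2 : ∀ a, w * ι a - c (α' a) ∈ I ^ 3)
    (htab3 : ∀ a b, ι a * ι b - c (β a b) ∈ I ^ 3)
    (hww : w * w - c ε ∈ I ^ 3)
    (hH : ∀ a, α' (H a) = a)
    (hP : ∀ v : P, v ≠ 0 → ∃ d₀ : P, ∀ p : P, ∃ r s : k, p = r • v + s • d₀)
    (hV' : I ^ 2 ≤ Submodule.span k (Set.range c) ⊔ I ^ 3)
    (hgen : I ≤ Submodule.span k (insert w (Set.range ι)) ⊔ I ^ 2)
    (hV : I ^ 2 ≤ commSpan k A ⊔ I ^ 3) : I ^ 4 = ⊥ := by
  classical
  have hi' : ∀ a, ι a ∈ I ^ 1 := fun a => one_mem (hι a)
  -- the relations
  have hrels : ∀ F : A →ₗ[k] k, (∀ y ∈ I ^ 4, F y = 0) → (∀ d, F (c ε * ι d) = 0) →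
      ∀ y ∈ I ^ 3, F y = 0 := by
    intro F hF hf
    have r7 : ∀ a, F (c ε * ι a) = F (w * c (α' a)) := fun a => rel3 hF hw (hι a) hww (htab2 a)
    have r4 : ∀ a b, F (c (α' a) * ι b) = F (w * c (β a b)) := fun a b =>
      rel3 hF hw (hι b) (htab2 a) (htab3 a b)
    have r6 : ∀ a, F (c (α' a) * w) = F (w * c (α' a + a)) := fun a => rel3 hF hw hw (htab2 a) (htab1 a)
    have hC : ∀ v, F (w * c v) = 0 := by
      intro v
      have := r7 (H v)
      rw [hH, hf] at this
      exact this.symm
    refine vanish_mul h (n := 2) (S := Set.range c) (E := insert w (Set.range ι)) ?_ hV' hgen hF ?_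
    · rintro _ ⟨a, rfl⟩
      exact hc a
    · rintro _ ⟨u, rfl⟩ e he
      rcases he with rfl | ⟨b, rfl⟩
      · have := r6 (H u)
        rw [hH, hC] at this
        exact this
      · have := r4 (H u) b
        rw [hH, hC] at this
        exact this
  -- the relation from the top
  have hf2 : ∀ F : A →ₗ[k] k, (∀ y ∈ I ^ 4, F y = 0) → F (c ε * ι (H (H ε))) = 0 := by
    intro F hF
    have r8 := rel3 hF hw hw hww hww
    have r6 := rel3 hF hw hw (htab2 (H ε)) (htab1 (H ε))
    rw [hH, map_add, mul_add, map_add, r8] at r6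
    have r7 := rel3 hF hw (hι (H (H ε))) hww (htab2 (H (H ε)))
    rw [hH] at r7
    rw [r7]
    linear_combination -r6
  have hsp : ∃ u ∈ I ^ 3, I ^ 3 ≤ Submodule.span k {u} ⊔ I ^ 4 := by
    by_cases hv₀ : H (H ε) = 0
    · have h1 : H ε = 0 := by
        have := hH (H ε)
        rw [hv₀, map_zero] at this
        exact this.symm
      have h2 : ε = 0 := by
        have := hH ε
        rw [h1, map_zero] at this
        exact this.symm
      refine ⟨0, (I ^ 3).zero_mem, ?_⟩
      refine le_sup_of_forms fun F hF _ => hrels F hF ?_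
      intro d
      rw [h2, map_zero, zero_mul, map_zero]
    · obtain ⟨d₀, hd₀⟩ := hP _ hv₀
      refine ⟨c ε * ι d₀, mm (by omega) (hc ε) (hi' d₀), ?_⟩
      refine le_sup_of_forms fun F hF hS => hrels F hF ?_
      intro d
      obtain ⟨r, s, rfl⟩ := hd₀ d
      have h0 := hS _ (Set.mem_singleton _)
      rw [map_add, map_smul, map_smul, mul_add, mul_smul_comm, mul_smul_comm, map_add, map_smul, map_smul,
        hf2 F hF, h0]
      simp
  obtain ⟨u, hu, hsp⟩ := hsp
  exact top_of_line h hu hsp hV

/-- Second level of dimension two, the idempotent case. -/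
theorem V2_leafB (h : LocSym t I) {x y w : A} {k₁ k₂ k₃ k₄ k₅ k₆ e₁ e₂ : k}
    (hx : x ∈ I) (hy : y ∈ I) (hw : w ∈ I)
    (hxw : x * w ∈ I ^ 3) (hwy : w * y ∈ I ^ 3)
    (hxx : x * x - (k₁ • (y * w) + k₂ • (w * x)) ∈ I ^ 3)
    (hxy : x * y - (k₃ • (y * w) + k₄ • (w * x)) ∈ I ^ 3)
    (hyx : y * x - (k₃ • (y * w) + k₄ • (w * x)) ∈ I ^ 3)
    (hyy : y * y - (k₅ • (y * w) + k₆ • (w * x)) ∈ I ^ 3)
    (hww : w * w - (e₁ • (y * w) + e₂ • (w * x)) ∈ I ^ 3)
    (hV' : I ^ 2 ≤ Submodule.span k {y * w, w * x} ⊔ I ^ 3)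
    (hgen : I ≤ Submodule.span k {x, y, w} ⊔ I ^ 2)
    (hV : I ^ 2 ≤ commSpan k A ⊔ I ^ 3) : I ^ 4 = ⊥ := by
  classical
  have hx' := one_mem hx
  have hy' := one_mem hy
  have hw' := one_mem hw
  have hyw2 : y * w ∈ I ^ 2 := mm (by omega) hy' hw'
  have hwx2 : w * x ∈ I ^ 2 := mm (by omega) hw' hx'
  have hxw0 : x * w - 0 ∈ I ^ 3 := by simpa using hxw
  have hwy0 : w * y - 0 ∈ I ^ 3 := by simpa using hwy
  have hyw1 : y * w - (1 : k) • (y * w) ∈ I ^ 3 := by simp
  have hwx1 : w * x - (1 : k) • (w * x) ∈ I ^ 3 := by simp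
  -- the relations
  have hrels : ∀ F : A →ₗ[k] k, (∀ y' ∈ I ^ 4, F y' = 0) →
      F (w * x * y) = 0 ∧ F (w * x * x) = k₂ * F (w * w * x) ∧
      F (y * w * w) = e₁ * (k₅ * F (y * w * w)) + e₂ * F (y * w * x) ∧
      F (w * w * x) = e₁ * F (y * w * x) + e₂ * F (w * x * x) ∧
      e₁ * F (y * w * w) = e₂ * F (w * w * x) ∧ k₂ * F (y * w * x) = 0 ∧ k₅ * F (y * w * x) = 0 := by
    intro F hF
    have z1 : F (y * w * y) = 0 := by
      rw [mul_assoc]
      exact zero_left hF hwy hy
    have z2 : F (w * x * w) = 0 := by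
      rw [mul_assoc]
      exact zero_left hF hxw hw
    have z3 : F (w * (y * w)) = 0 := by
      rw [← mul_assoc]
      exact zero_right hF hwy hw
    have z4 : F (x * (w * x)) = 0 := by
      rw [← mul_assoc]
      exact zero_right hF hxw hx
    -- `x y w`
    have P5 : F (x * (y * w)) = 0 := by
      have := rel3 hF hy hw hyx hxw0
      simp only [add_mul, smul_mul_assoc, map_add, map_smul, smul_eq_mul, mul_zero, map_zero, z2] at this
      have e2 := rel3 hF hx hw hxy hyw1
      simp only [add_mul, smul_mul_assoc, mul_smul_comm, one_smul, map_add, map_smul, smul_eq_mul, z2] at e2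
      linear_combination -e2 + this
    -- `w x y`
    have hw7 : F (w * x * y) = k₄ * F (w * (w * x)) := by
      have := rel3 hF hw hy hwx1 hxy
      simp only [one_smul, mul_add, mul_smul_comm, map_add, map_smul, smul_eq_mul, z3] at this
      linear_combination this
    have hk4 : k₄ * F (w * (w * x)) = 0 := by
      have := rel3 hF hw hx hwy0 hyx
      simp only [zero_mul, mul_add, mul_smul_comm, map_add, map_smul, smul_eq_mul, z3, map_zero] at this
      linear_combination -this
    have hk6 : k₆ * F (w * (w * x)) = 0 := by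
      have := rel3 hF hw hy hwy0 hyy
      simp only [zero_mul, mul_add, mul_smul_comm, map_add, map_smul, smul_eq_mul, z3, map_zero] at this
      linear_combination -this
    have hP4 : F (w * x * x) = k₂ * F (w * (w * x)) := by
      have := rel3 hF hw hx hwx1 hxx
      simp only [one_smul, mul_add, mul_smul_comm, map_add, map_smul, smul_eq_mul, z3] at this
      linear_combination this
    have hP6 : F (y * (y * w)) = k₅ * F (y * w * w) := by
      have := rel3 hF hy hw hyy hyw1
      simp only [add_mul, smul_mul_assoc, one_smul, map_add, map_smul, smul_eq_mul, z2] at this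
      linear_combination -this
    have hP3 : F (y * w * w) = e₁ * F (y * (y * w)) + e₂ * F (y * (w * x)) := by
      have := rel3 hF hy hw hyw1 hww
      simpa only [one_smul, mul_add, mul_smul_comm, map_add, map_smul, smul_eq_mul] using this
    have hP7 : F (w * (w * x)) = e₁ * F (y * w * x) + e₂ * F (w * x * x) := by
      have := rel3 hF hw hx hww hwx1
      simp only [add_mul, smul_mul_assoc, one_smul, map_add, map_smul, smul_eq_mul] at this
      linear_combination -this
    have hG : e₁ * F (y * w * w) = e₂ * F (w * (w * x)) := by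
      have := rel3 hF hw hw hww hww
      simp only [add_mul, smul_mul_assoc, mul_add, mul_smul_comm, map_add, map_smul, smul_eq_mul, z2, z3] at this
      linear_combination this
    have hk1 : k₁ * F (y * w * w) = 0 := by
      have := rel3 hF hx hw hxx hxw0
      simp only [add_mul, smul_mul_assoc, mul_zero, map_add, map_smul, smul_eq_mul, z2, map_zero] at this
      linear_combination this
    have hassoc : F (y * (w * x)) = F (y * w * x) := by rw [mul_assoc]
    -- `k₂ U = 0` and `k₅ U = 0`
    have hA : k₁ * F (y * (y * w)) + k₂ * F (y * w * x) = k₃ * F (y * w * x) + k₄ * F (w * x * x) := by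
      have := rel3 hF hy hx hyx hxx
      simp only [add_mul, smul_mul_assoc, mul_add, mul_smul_comm, map_add, map_smul, smul_eq_mul, hassoc] at this
      linear_combination -this
    have hB : k₃ * F (y * w * x) + k₄ * F (w * x * x) = k₃ * F (x * (y * w)) + k₄ * F (x * (w * x)) := by
      have := rel3 hF hx hx hxy hyx
      simpa only [add_mul, smul_mul_assoc, mul_add, mul_smul_comm, map_add, map_smul, smul_eq_mul] using this
    have hC : k₅ * F (y * w * x) + k₆ * F (w * x * x) = k₃ * F (y * (y * w)) + k₄ * F (y * w * x) := by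
      have := rel3 hF hy hx hyy hyx
      simp only [add_mul, smul_mul_assoc, mul_add, mul_smul_comm, map_add, map_smul, smul_eq_mul, hassoc] at this
      linear_combination this
    have hD : k₃ * F (y * (y * w)) + k₄ * F (y * w * x) = k₄ * F (w * x * y) := by
      have := rel3 hF hy hy hyx hxy
      simp only [add_mul, smul_mul_assoc, mul_add, mul_smul_comm, map_add, map_smul, smul_eq_mul, hassoc, z1] at this
      linear_combination -this
    have hP2 : F (w * x * y) = 0 := by rw [hw7, hk4]
    have hB' : k₃ * F (y * w * x) + k₄ * F (w * x * x) = 0 := by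
      rw [hB, P5, z4]
      ring
    have hk2 : k₂ * F (y * w * x) = 0 := by
      have e1 : k₁ * F (y * (y * w)) = 0 := by
        rw [hP6]
        linear_combination k₅ * hk1
      linear_combination hA + hB' - e1
    have hk5 : k₅ * F (y * w * x) = 0 := by
      have e1 : k₆ * F (w * x * x) = 0 := by
        rw [hP4]
        linear_combination k₂ * hk6
      rw [hD, hP2] at hC
      linear_combination hC - e1
    refine ⟨hP2, ?_, ?_, ?_, ?_, hk2, hk5⟩
    · rw [hP4, mul_assoc]
    · have := hP3
      rw [hP6, hassoc] at this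
      exact this
    · rw [mul_assoc, hP7]
    · rw [hG, mul_assoc]
  have hfin : ∀ F : A →ₗ[k] k, (∀ y' ∈ I ^ 4, F y' = 0) → F (y * w * x) = 0 → F (y * w * w) = 0 →
      F (w * w * x) = 0 → ∀ u ∈ I ^ 3, F u = 0 := by
    intro F hF h1 h3 h7
    obtain ⟨r2, r4, -, -, -, -, -⟩ := hrels F hF
    rw [h7, mul_zero] at r4
    refine vanish_mul h (n := 2) (S := {y * w, w * x}) (E := {x, y, w}) ?_ hV' hgen hF ?_
    · intro s hs
      rcases hs with rfl | rfl
      · exact hyw2
      · exact hwx2
    · intro s hs e he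
      rcases hs with rfl | rfl <;> rcases he with rfl | rfl | rfl
      · exact h1
      · rw [mul_assoc]
        exact zero_left hF hwy hy
      · exact h3
      · exact r4
      · exact r2
      · rw [mul_assoc]
        exact zero_left hF hxw hw
  have hsp : ∃ u ∈ I ^ 3, I ^ 3 ≤ Submodule.span k {u} ⊔ I ^ 4 := by
    by_cases hc1 : e₁ * k₅ = 1
    · refine ⟨w * w * x, mm (by omega) (mm (r := 2) (by omega) hw' hw') hx', ?_⟩
      refine le_sup_of_forms fun F hF hS => ?_
      have h0 := hS _ (Set.mem_singleton _)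
      obtain ⟨-, -, -, -, r5, -, r7⟩ := hrels F hF
      have hk5 : k₅ ≠ 0 := fun h0 => by simp [h0] at hc1
      have he1 : e₁ ≠ 0 := fun h0 => by simp [h0] at hc1
      have h1 := (mul_eq_zero.1 r7).resolve_left hk5
      rw [h0, mul_zero] at r5
      have h3 := (mul_eq_zero.1 r5).resolve_left he1
      exact hfin F hF h1 h3 h0
    by_cases hc2 : e₂ * k₂ = 1
    · refine ⟨y * w * w, mm (by omega) hyw2 hw', ?_⟩
      refine le_sup_of_forms fun F hF hS => ?_
      have h0 := hS _ (Set.mem_singleton _)
      obtain ⟨-, -, -, -, r5, r6, -⟩ := hrels F hF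
      have hk2 : k₂ ≠ 0 := fun h0 => by simp [h0] at hc2
      have he2 : e₂ ≠ 0 := fun h0 => by simp [h0] at hc2
      have h1 := (mul_eq_zero.1 r6).resolve_left hk2
      rw [h0, mul_zero] at r5
      have h7 := (mul_eq_zero.1 r5.symm).resolve_left he2
      exact hfin F hF h1 h0 h7
    · refine ⟨y * w * x, mm (by omega) hyw2 hx', ?_⟩
      refine le_sup_of_forms fun F hF hS => ?_
      have h0 := hS _ (Set.mem_singleton _)
      obtain ⟨-, r2, r3, r4, -, -, -⟩ := hrels F hF
      rw [h0] at r3 r4
      have h3 : F (y * w * w) = 0 := by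
        have : (1 - e₁ * k₅) * F (y * w * w) = 0 := by linear_combination r3
        exact (mul_eq_zero.1 this).resolve_left (fun h' => hc1 (by linear_combination -h'))
      have h7 : F (w * w * x) = 0 := by
        have : (1 - e₂ * k₂) * F (w * w * x) = 0 := by
          rw [r2] at r4
          linear_combination r4
        exact (mul_eq_zero.1 this).resolve_left (fun h' => hc2 (by linear_combination -h'))
      exact hfin F hF h0 h3 h7
  obtain ⟨u, hu, hsp⟩ := hsp
  exact top_of_line h hu hsp hV

end Forms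

end Cfsg.Agent.Lib.Blocks.Sym5
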