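import Mathlib
import Cfsg.Agent.Lib.Blocks.Sym5B

/-!
# Symmetric local algebras: second level of dimension three, first tables
-/

set_option autoImplicit false
set_option linter.unusedSectionVars false
set_option linter.unusedVariables false
set_option linter.style.haveILetI false

namespace Cfsg.Agent.Lib.Blocks.Sym5

open Module MulOpposite Cfsg.Agent.Lib.Blocks.SymLocal Cfsg.Agent.Lib.Blocks.SymCom

section Forms

variable {k A : Type*} [Field k] [Ring A] [Algebra k A] {t : A →ₗ[k] k} {I : Submodule k A}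

lemma fl {F : A →ₗ[k] k} (hF : ∀ y ∈ I ^ 4, F y = 0) {d u p : A} (hd : d ∈ I) (h : u - p ∈ I ^ 3) :
    F (d * u) = F (d * p) := by
  have := zero_left hF h hd
  rw [mul_sub, map_sub] at this
  exact sub_eq_zero.1 this

lemma fr {F : A →ₗ[k] k} (hF : ∀ y ∈ I ^ 4, F y = 0) {d u p : A} (hd : d ∈ I) (h : u - p ∈ I ^ 3) :
    F (u * d) = F (p * d) := by
  have := zero_right hF h hd
  rw [sub_mul, map_sub] at this
  exact sub_eq_zero.1 this

/-- The rank lemma. -/
lemma rank_lemma {P : Type*} (n : P → P → k) (R S : P → k) (hrel : ∀ b c d, n b c * R d = n c d * S b)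
    {b₀ c₀ : P} (hn : n b₀ c₀ ≠ n c₀ b₀) (d : P) : R d = 0 := by
  have h1 : (n b₀ c₀ - n c₀ b₀) * (R d * R d) = 0 := by
    linear_combination R d * (hrel b₀ c₀ d - hrel c₀ b₀ d) + S b₀ * hrel c₀ d d - S c₀ * hrel b₀ d d
  have h2 := (mul_eq_zero.1 h1).resolve_left (sub_ne_zero.2 hn)
  exact mul_self_eq_zero.1 h2

/-- The commutators of generators with the second level. -/
def KK (I : Submodule k A) : Submodule k A :=
  Submodule.span k {u | ∃ d ∈ I, ∃ v ∈ I ^ 2, u = d * v - v * d}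

lemma form_KK (h : LocSym t I) {E S : Set A} (hEp : I ≤ Submodule.span k E ⊔ I ^ 2)
    (hSp : I ^ 2 ≤ Submodule.span k S ⊔ I ^ 3)
    (hE : ∀ e ∈ E, e ∈ I) (hS : ∀ s ∈ S, s ∈ I ^ 2) {F : A →ₗ[k] k} (hF : ∀ y ∈ I ^ 4, F y = 0)
    (hSE : ∀ e ∈ E, ∀ s ∈ S, F (e * s) = F (s * e)) : ∀ u ∈ KK I, F u = 0 := by
  have hES : Submodule.span k E ≤ I := Submodule.span_le.2 hE
  have hSS : Submodule.span k S ≤ I ^ 2 := Submodule.span_le.2 hS
  have h1 : ∀ e ∈ E, ∀ s ∈ Submodule.span k S, F (e * s) = F (s * e) := by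
    intro e he s hs
    induction hs using Submodule.span_induction with
    | mem x hx => exact hSE e he x hx
    | zero => simp
    | add x y _ _ hx hy => rw [mul_add, add_mul, map_add, map_add, hx, hy]
    | smul c x _ hx => rw [mul_smul_comm, smul_mul_assoc, map_smul, map_smul, hx]
  have h2 : ∀ e ∈ Submodule.span k E, ∀ s ∈ Submodule.span k S, F (e * s) = F (s * e) := by
    intro e he s hs
    induction he using Submodule.span_induction with
    | mem x hx => exact h1 x hx s hs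
    | zero => simp
    | add x y _ _ hx hy => rw [mul_add, add_mul, map_add, map_add, hx, hy]
    | smul c x _ hx => rw [mul_smul_comm, smul_mul_assoc, map_smul, map_smul, hx]
  intro u hu
  refine form_span ?_ hu
  rintro _ ⟨d, hd, v, hv, rfl⟩
  obtain ⟨e, he, j, hj, rfl⟩ := Submodule.mem_sup.1 (hEp hd)
  obtain ⟨s, hs, j', hj', rfl⟩ := Submodule.mem_sup.1 (hSp hv)
  have he1 : e ∈ I ^ 1 := one_mem (hES he)
  have hs2 := hSS hs
  have hj4 : ∀ {a b : A}, a ∈ I ^ 2 → b ∈ I ^ 2 → F (a * b) = 0 := fun ha hb => hF _ (mm (by omega) ha hb)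
  have hj'2 : j' ∈ I ^ 2 := pow_succ_le h 1 hj'
  have e1 : (e + j) * (s + j') - (s + j') * (e + j) = (e * s - s * e) + (e * j' - j' * e) +
      (j * s - s * j) + (j * j' - j' * j) := by noncomm_ring
  rw [e1]
  simp only [map_add, map_sub]
  rw [h2 e he s hs, hj4 hj hs2, hj4 hs2 hj, hj4 hj hj'2, hj4 hj'2 hj, hF _ (mm (by omega) he1 hj'),
    hF _ (mm (by omega) hj' he1)]
  ring

/-- Second level of dimension three: `x Z = 0`-type table. -/
theorem V3_leaf1 (h : LocSym t I) {P : Type*} (ι z : P → A) (α α' : P → P) (γ : P → P → P) (n : P → P → k)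
    {x z₃ : A} (hx : x ∈ I) (hι : ∀ b, ι b ∈ I) (hz : ∀ b, z b ∈ I ^ 2) (hz₃ : z₃ ∈ I ^ 2)
    (hxx : x * x ∈ I ^ 3)
    (hxb : ∀ b, x * ι b - z (α b) ∈ I ^ 3) (hbx : ∀ b, ι b * x - z (α' b) ∈ I ^ 3)
    (hbc : ∀ b c, ι b * ι c - (z (γ b c) + n b c • z₃) ∈ I ^ 3)
    (hα : ∀ b, ∃ b', α b' = b) {b₀ c₀ : P} (hn : n b₀ c₀ ≠ n c₀ b₀)
    (hV' : I ^ 2 ≤ Submodule.span k (insert z₃ (Set.range z)) ⊔ I ^ 3)
    (hgen : I ≤ Submodule.span k (insert x (Set.range ι)) ⊔ I ^ 2)
    (hV : I ^ 2 ≤ commSpan k A ⊔ I ^ 3) : I ^ 4 = ⊥ := by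
  have hx' := one_mem hx
  refine top_of_line h (u := x * z₃) (mm (by omega) hx' hz₃) ?_ hV
  refine le_sup_of_forms fun F hF hS => ?_
  have h0 : F (x * z₃) = 0 := hS _ (Set.mem_singleton _)
  have hxx0 : x * x - 0 ∈ I ^ 3 := by simpa using hxx
  have a1 : ∀ b, F (x * z b) = 0 := by
    intro b
    obtain ⟨b', rfl⟩ := hα b
    have := rel3 hF hx (hι b') hxx0 (hxb b')
    rw [zero_mul, map_zero] at this
    exact this.symm
  have a2 : ∀ b, F (z b * x) = 0 := by
    intro b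
    obtain ⟨b', rfl⟩ := hα b
    have := rel3 hF hx hx (hxb b') (hbx b')
    rw [a1] at this
    exact this
  have a3 : ∀ b c, F (z b * ι c) = 0 := by
    intro b c
    obtain ⟨b', rfl⟩ := hα b
    have := rel3 hF hx (hι c) (hxb b') (hbc b' c)
    rw [mul_add, map_add, a1, mul_smul_comm, map_smul, h0] at this
    simpa using this
  have a4 : ∀ b c, F (ι b * z c) = 0 := by
    intro b c
    obtain ⟨c', rfl⟩ := hα c
    have := rel3 hF (hι b) (hι c') (hbx b) (hxb c')
    rw [a3] at this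
    exact this.symm
  have a5 : F (z₃ * x) = 0 := by
    have key : ∀ b c, n b c * F (z₃ * x) = 0 := by
      intro b c
      have := rel3 hF (hι b) hx (hbc b c) (hbx c)
      rw [add_mul, map_add, a2, a4, smul_mul_assoc, map_smul, zero_add, smul_eq_mul] at this
      exact this
    by_cases h1 : n b₀ c₀ = 0
    · have h2 : n c₀ b₀ ≠ 0 := fun h2 => hn (h1.trans h2.symm)
      exact (mul_eq_zero.1 (key c₀ b₀)).resolve_left h2
    · exact (mul_eq_zero.1 (key b₀ c₀)).resolve_left h1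
  have a6 : ∀ d, F (z₃ * ι d) = 0 := by
    refine rank_lemma n _ (fun b => F (ι b * z₃)) ?_ hn
    intro b c d
    have := rel3 hF (hι b) (hι d) (hbc b c) (hbc c d)
    simp only [add_mul, mul_add, map_add, a3, a4, zero_add, smul_mul_assoc, mul_smul_comm, map_smul, smul_eq_mul] at this
    exact this
  refine vanish_mul h (n := 2) (S := insert z₃ (Set.range z)) (E := insert x (Set.range ι)) ?_ hV' hgen hF ?_
  · rintro s (rfl | ⟨b, rfl⟩)
    · exact hz₃
    · exact hz b
  · rintro s (hs | ⟨b, rfl⟩) e (he | ⟨c, rfl⟩)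
    · rw [hs, he]
      exact a5
    · rw [hs]
      exact a6 c
    · rw [he]
      exact a2 b
    · exact a3 b c

/-- Second level of dimension three: the idempotent table, `r ≠ 0`. -/
theorem V3_leaf2 (h : LocSym t I) {x y w Z : A} {γ₁ γ₂ q r g₁ g₂ p g₅ g₆ s : k}
    (hx : x ∈ I) (hy : y ∈ I) (hw : w ∈ I) (hZ : Z = y * w - w * y) (hqr : q - r = 1) (hr : r ≠ 0)
    (hxx : x * x ∈ I ^ 3) (hyx : y * x ∈ I ^ 3) (hxw : x * w ∈ I ^ 3)
    (hyw : y * w - (γ₁ • (x * y) + γ₂ • (w * x) + q • Z) ∈ I ^ 3)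
    (hwy : w * y - (γ₁ • (x * y) + γ₂ • (w * x) + r • Z) ∈ I ^ 3)
    (hyy : y * y - (g₁ • (x * y) + g₂ • (w * x) + p • Z) ∈ I ^ 3)
    (hww : w * w - (g₅ • (x * y) + g₆ • (w * x) + s • Z) ∈ I ^ 3)
    (hV' : I ^ 2 ≤ Submodule.span k {x * y, w * x, Z} ⊔ I ^ 3)
    (hgen : I ≤ Submodule.span k {x, y, w} ⊔ I ^ 2)
    (hV : I ^ 2 ≤ commSpan k A ⊔ I ^ 3) : I ^ 4 = ⊥ := by
  have hx' := one_mem hx
  have hy' := one_mem hy
  have hw' := one_mem hw
  have hxy2 : x * y ∈ I ^ 2 := mm (by omega) hx' hy'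
  have hwx2 : w * x ∈ I ^ 2 := mm (by omega) hw' hx'
  have hyw2 : y * w ∈ I ^ 2 := mm (by omega) hy' hw'
  have hwy2 : w * y ∈ I ^ 2 := mm (by omega) hw' hy'
  have hZ2 : Z ∈ I ^ 2 := hZ ▸ (I ^ 2).sub_mem hyw2 hwy2
  refine top_of_line h (u := w * x * y) (mm (by omega) hwx2 hy') ?_ hV
  refine le_sup_of_forms fun F hF hS => ?_
  have hC : F (w * x * y) = 0 := hS _ (Set.mem_singleton _)
  -- the vanishing products
  have hzr : ∀ {a b d : A}, a * b ∈ I ^ 3 → d ∈ I → F (a * b * d) = 0 := fun hab hd => zero_right hF hab hd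
  have hzl : ∀ {a b d : A}, a * b ∈ I ^ 3 → d ∈ I → F (d * a * b) = 0 := fun hab hd => by
    rw [mul_assoc]
    exact zero_left hF hab hd
  have hZr : ∀ d, F (Z * d) = F (y * w * d) - F (w * y * d) := fun d => by
    rw [hZ, sub_mul, map_sub]
  have hZl : ∀ d, F (d * Z) = F (d * y * w) - F (d * w * y) := fun d => by
    rw [hZ, mul_sub, map_sub, mul_assoc, mul_assoc]
  have hq : q = r + 1 := by linear_combination hqr
  -- with `x` at the ends
  have hA : F (x * y * w) = 0 := by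
    have e := fl hF hx hyw
    simp only [mul_add, mul_smul_comm, map_add, map_smul, smul_eq_mul, hZl, ← mul_assoc] at e
    rw [hzr hxx hy, hzr hxw hx, hzr hxw hy, hq] at e
    have e1 : r * F (x * y * w) = 0 := by linear_combination -e
    exact (mul_eq_zero.1 e1).resolve_left hr
  have hA' : F (x * y * y) = 0 := by
    have e := fl hF hx hyy
    simp only [mul_add, mul_smul_comm, map_add, map_smul, smul_eq_mul, hZl, ← mul_assoc] at e
    rw [hzr hxx hy, hzr hxw hx, hzr hxw hy, hA] at e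
    simpa using e
  have hB : F (y * w * x) = 0 := by
    have e := fr hF hx hyw
    simp only [add_mul, smul_mul_assoc, map_add, map_smul, smul_eq_mul, hZr] at e
    rw [hzl hyx hx, hzl hxx hw, hzl hyx hw, hq] at e
    have e1 : r * F (y * w * x) = 0 := by linear_combination -e
    exact (mul_eq_zero.1 e1).resolve_left hr
  have hB' : F (w * w * x) = 0 := by
    have e := fr hF hx hww
    simp only [add_mul, smul_mul_assoc, map_add, map_smul, smul_eq_mul, hZr] at e
    rw [hzl hyx hx, hzl hxx hw, hzl hyx hw, hB] at e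
    simpa using e
  -- the rest
  have tri : ∀ {b c d : A} {a₁ a₂ a₃ e₁ e₂ e₃ : k}, b ∈ I → d ∈ I →
      b * c - (a₁ • (x * y) + a₂ • (w * x) + a₃ • Z) ∈ I ^ 3 →
      c * d - (e₁ • (x * y) + e₂ • (w * x) + e₃ • Z) ∈ I ^ 3 →
      F (x * y * d) = 0 → F (w * x * d) = 0 → F (b * x * y) = 0 → F (b * w * x) = 0 →
      a₃ * F (Z * d) = e₃ * F (b * Z) := by
    intro b c d a₁ a₂ a₃ e₁ e₂ e₃ hb hd h1 h2 h3 h4 h5 h6
    have := rel3 hF hb hd h1 h2
    simp only [add_mul, mul_add, smul_mul_assoc, mul_smul_comm, map_add, map_smul, smul_eq_mul, h3, h4,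
      ← mul_assoc, h5, h6] at this
    simpa using this
  have e1 : F (w * x * w) = 0 := hzl hxw hw
  have e2 : F (y * x * y) = 0 := hzr hyx hy
  have hyw' : y * w - (γ₁ • (x * y) + γ₂ • (w * x) + q • Z) ∈ I ^ 3 := hyw
  obtain ⟨hX, hY, hX', hY'⟩ := solve8 (V := k) (p := p) (q := q) (r := r) (s := s) hqr
    (X := F (y * Z)) (Y := F (w * Z)) (X' := F (Z * y)) (Y' := F (Z * w))
    (by simpa using tri hy hy hyy hyy hA' hC e2 hB)
    (by simpa using tri hy hw hyy hyw hA e1 e2 hB)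
    (by simpa using tri hy hy hyw hwy hA' hC e2 hB)
    (by simpa using tri hy hw hyw hww hA e1 e2 hB)
    (by simpa using tri hw hy hwy hyy hA' hC hC hB')
    (by simpa using tri hw hw hwy hyw hA e1 hC hB')
    (by simpa using tri hw hy hww hwy hA' hC hC hB')
    (by simpa using tri hw hw hww hww hA e1 hC hB')
  refine vanish_mul h (n := 2) (S := {x * y, w * x, Z}) (E := {x, y, w}) ?_ hV' hgen hF ?_
  · rintro s (rfl | rfl | rfl)
    · exact hxy2
    · exact hwx2
    · exact hZ2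
  · intro s₀ hs e he
    rcases hs with rfl | rfl | hs
    · rcases he with rfl | rfl | rfl
      · exact hzl hyx hx
      · exact hA'
      · exact hA
    · rcases he with rfl | rfl | rfl
      · exact hzl hxx hw
      · exact hC
      · exact e1
    · rw [Set.mem_singleton_iff] at hs
      rw [hs]
      rcases he with rfl | rfl | rfl
      · rw [hZr, hB, hzl hyx hw]
        simp
      · exact hX'
      · exact hY'

end Forms

end Cfsg.Agent.Lib.Blocks.Sym5
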