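import Mathlib
import Cfsg.Agent.Lib.Blocks.Sym5C

/-!
# Symmetric local algebras: second level of dimension three, the cyclic normal form
`x² = y x = x w = w y = 0` modulo the third level, with basis `x y, y w, w x` of the second level.
-/

set_option autoImplicit false
set_option linter.unusedSectionVars false
set_option linter.unusedVariables false
set_option linter.style.haveILetI false

namespace Cfsg.Agent.Lib.Blocks.Sym5

open Module MulOpposite Cfsg.Agent.Lib.Blocks.SymLocal Cfsg.Agent.Lib.Blocks.SymCom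

section N

variable {k A : Type*} [Field k] [Ring A] [Algebra k A] {t : A →ₗ[k] k} {I : Submodule k A}

lemma fl5 {φ : A →ₗ[k] k} (hφ : ∀ y ∈ I ^ 5, φ y = 0) {u v p : A} (hu : u ∈ I ^ 2) (h : v - p ∈ I ^ 3) :
    φ (u * v) = φ (u * p) := by
  have := hφ _ (mm (by omega) hu h : u * (v - p) ∈ I ^ 5)
  rw [mul_sub, map_sub] at this
  exact sub_eq_zero.1 this

lemma left_gen {x y w T : A} (hgen : I ≤ Submodule.span k {x, y, w} ⊔ I ^ 2) (hT : T ∈ I ^ 4)
    (h1 : x * T ∈ I ^ 6) (h2 : y * T ∈ I ^ 6) (h3 : w * T ∈ I ^ 6) : ∀ d ∈ I, d * T ∈ I ^ 6 := by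
  intro d hd
  obtain ⟨c₁, c₂, c₃, hj⟩ := exists_three (hgen hd)
  have e : d * T = c₁ • (x * T) + c₂ • (y * T) + c₃ • (w * T) + (d - (c₁ • x + c₂ • y + c₃ • w)) * T := by
    noncomm_ring
  rw [e]
  exact (I ^ 6).add_mem ((I ^ 6).add_mem ((I ^ 6).add_mem ((I ^ 6).smul_mem _ h1) ((I ^ 6).smul_mem _ h2))
    ((I ^ 6).smul_mem _ h3)) (mm (by omega) hj hT)

variable {x y w : A} {g₁ p g₂ g₅ s g₆ : k}

/-- The relations of the normal form. -/
lemma N_rels (hx : x ∈ I) (hy : y ∈ I) (hw : w ∈ I)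
    (hxx : x * x ∈ I ^ 3) (hyx : y * x ∈ I ^ 3) (hxw : x * w ∈ I ^ 3) (hwy : w * y ∈ I ^ 3)
    (hyy : y * y - (g₁ • (x * y) + p • (y * w) + g₂ • (w * x)) ∈ I ^ 3)
    (hww : w * w - (g₅ • (x * y) + s • (y * w) + g₆ • (w * x)) ∈ I ^ 3)
    {F : A →ₗ[k] k} (hF : ∀ y ∈ I ^ 4, F y = 0) :
    F (x * y * y) = p * F (x * y * w) ∧ s * F (x * y * w) = 0 ∧ p * F (y * w * x) = 0 ∧
    F (y * w * w) = s * F (y * y * w) + g₆ * F (y * w * x) ∧
    g₁ * (p * F (x * y * w)) + g₂ * F (w * x * y) = p * F (y * y * w) + g₂ * F (y * w * x) ∧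
    g₁ * F (w * x * y) + g₂ * (s * F (y * w * x)) = 0 ∧
    g₅ * (p * F (x * y * w)) + g₆ * F (w * x * y) = 0 := by
  have hzr : ∀ {a b d : A}, a * b ∈ I ^ 3 → d ∈ I → F (a * b * d) = 0 := fun hab hd => zero_right hF hab hd
  have hzl : ∀ {a b d : A}, a * b ∈ I ^ 3 → d ∈ I → F (d * a * b) = 0 := fun hab hd => by
    rw [mul_assoc]
    exact zero_left hF hab hd
  have e1 := fl hF hx hyy
  have e2 := fl hF hx hww
  have e3 := fr hF hx hyy
  have e4 := fr hF hx hww
  have e5 := fl hF hy hww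
  have e6 := fr hF hy hyy
  have e7 := fl hF hy hyy
  have e8 := fl hF hw hyy
  have e9 := fr hF hy hww
  simp only [mul_add, mul_smul_comm, map_add, map_smul, smul_eq_mul, ← mul_assoc] at e1 e2 e5 e7 e8
  simp only [add_mul, smul_mul_assoc, map_add, map_smul, smul_eq_mul] at e3 e4 e6 e9
  rw [hzr hxx hy, hzr hxw hx] at e1
  rw [hzr hxw hw, hzr hxx hy, hzr hxw hx] at e2
  rw [hzl hyx hy, hzl hyx hx, hzl hxx hw] at e3
  rw [hzr hyx hy] at e5
  rw [hzl hwy hy] at e6
  rw [hzr hyx hy] at e7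
  rw [hzr hwy hy, hzr hwy hw] at e8
  rw [hzl hwy hw, hzl hwy hy] at e9
  have e1' : F (x * y * y) = p * F (x * y * w) := by linear_combination e1
  refine ⟨e1', by linear_combination -e2, by linear_combination -e3, by linear_combination e5, ?_, ?_, ?_⟩
  · rw [e1'] at e6
    linear_combination e7 - e6
  · rw [hzl hyx hx, hzl hxx hw] at e4
    have e4' : F (w * w * x) = s * F (y * w * x) := by
      simp only [mul_zero, add_zero, zero_add] at e4
      exact e4
    rw [e4'] at e8
    linear_combination -e8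
  · rw [e1'] at e9
    linear_combination -e9

lemma N_van (h : LocSym t I) (hx : x ∈ I) (hy : y ∈ I) (hw : w ∈ I)
    (hxx : x * x ∈ I ^ 3) (hyx : y * x ∈ I ^ 3) (hxw : x * w ∈ I ^ 3) (hwy : w * y ∈ I ^ 3)
    (hV' : I ^ 2 ≤ Submodule.span k {x * y, y * w, w * x} ⊔ I ^ 3)
    (hgen : I ≤ Submodule.span k {x, y, w} ⊔ I ^ 2)
    {F : A →ₗ[k] k} (hF : ∀ y ∈ I ^ 4, F y = 0)
    (h1 : F (x * y * y) = 0) (h2 : F (x * y * w) = 0) (h3 : F (y * w * x) = 0) (h4 : F (y * w * w) = 0)
    (h5 : F (w * x * y) = 0) : ∀ u ∈ I ^ 3, F u = 0 := by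
  have hx' := one_mem hx
  have hy' := one_mem hy
  have hw' := one_mem hw
  have hzl : ∀ {a b d : A}, a * b ∈ I ^ 3 → d ∈ I → F (d * a * b) = 0 := fun hab hd => by
    rw [mul_assoc]
    exact zero_left hF hab hd
  refine vanish_mul h (n := 2) (S := {x * y, y * w, w * x}) (E := {x, y, w}) ?_ hV' hgen hF ?_
  · rintro s (rfl | rfl | rfl)
    · exact mm (by omega) hx' hy'
    · exact mm (by omega) hy' hw'
    · exact mm (by omega) hw' hx'
  · intro s₀ hs e he
    rcases hs with rfl | rfl | rfl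
    · rcases he with rfl | rfl | rfl
      · exact hzl hyx hx
      · exact h1
      · exact h2
    · rcases he with rfl | rfl | rfl
      · exact h3
      · exact hzl hwy hy
      · exact h4
    · rcases he with rfl | rfl | rfl
      · exact hzl hxx hw
      · exact h5
      · exact hzl hxw hw

/-- Case `p, s ≠ 0`. -/
theorem N_i (h : LocSym t I) (hx : x ∈ I) (hy : y ∈ I) (hw : w ∈ I)
    (hxx : x * x ∈ I ^ 3) (hyx : y * x ∈ I ^ 3) (hxw : x * w ∈ I ^ 3) (hwy : w * y ∈ I ^ 3)
    (hyy : y * y - (g₁ • (x * y) + p • (y * w) + g₂ • (w * x)) ∈ I ^ 3)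
    (hww : w * w - (g₅ • (x * y) + s • (y * w) + g₆ • (w * x)) ∈ I ^ 3)
    (hV' : I ^ 2 ≤ Submodule.span k {x * y, y * w, w * x} ⊔ I ^ 3)
    (hgen : I ≤ Submodule.span k {x, y, w} ⊔ I ^ 2)
    (hV : I ^ 2 ≤ commSpan k A ⊔ I ^ 3) (hp : p ≠ 0) (hs : s ≠ 0) : I ^ 4 = ⊥ := by
  have hx' := one_mem hx
  have hy' := one_mem hy
  have hw' := one_mem hw
  refine top_of_line h (u := w * x * y) (mm (by omega) (mm (r := 2) (by omega) hw' hx') hy') ?_ hV
  refine le_sup_of_forms fun F hF hS => ?_
  have hC : F (w * x * y) = 0 := hS _ (Set.mem_singleton _)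
  obtain ⟨r1, r2, r3, r4, r5, -, -⟩ := N_rels hx hy hw hxx hyx hxw hwy hyy hww hF
  have hA := (mul_eq_zero.1 r2).resolve_left hs
  have hB := (mul_eq_zero.1 r3).resolve_left hp
  rw [hA, hB, hC] at r5
  have hE : F (y * y * w) = 0 := by
    have : p * F (y * y * w) = 0 := by linear_combination -r5
    exact (mul_eq_zero.1 this).resolve_left hp
  rw [hE, hB] at r4
  rw [hA] at r1
  exact N_van h hx hy hw hxx hyx hxw hwy hV' hgen hF (by simpa using r1) hA hB (by simpa using r4) hC

/-- Case `s = 0` and `y w x` vanishes at the third level. -/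
theorem N_ii (h : LocSym t I) (hx : x ∈ I) (hy : y ∈ I) (hw : w ∈ I)
    (hxx : x * x ∈ I ^ 3) (hyx : y * x ∈ I ^ 3) (hxw : x * w ∈ I ^ 3) (hwy : w * y ∈ I ^ 3)
    (hyy : y * y - (g₁ • (x * y) + p • (y * w) + g₂ • (w * x)) ∈ I ^ 3)
    (hww : w * w - (g₅ • (x * y) + g₆ • (w * x)) ∈ I ^ 3)
    (hV' : I ^ 2 ≤ Submodule.span k {x * y, y * w, w * x} ⊔ I ^ 3)
    (hgen : I ≤ Submodule.span k {x, y, w} ⊔ I ^ 2)
    (hB : y * w * x ∈ I ^ 4) : I ^ 4 = ⊥ := by
  have hx' := one_mem hx
  have hy' := one_mem hy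
  have hw' := one_mem hw
  have hxy2 : x * y ∈ I ^ 2 := mm (by omega) hx' hy'
  have hwx2 : w * x ∈ I ^ 2 := mm (by omega) hw' hx'
  have hww' : w * w - (g₅ • (x * y) + (0 : k) • (y * w) + g₆ • (w * x)) ∈ I ^ 3 := by simpa using hww
  have hsp3 : I ^ 3 ≤ Submodule.span k {x * y * w, w * x * y} ⊔ I ^ 4 := by
    refine le_sup_of_forms fun F hF hS => ?_
    have hA : F (x * y * w) = 0 := hS _ (by simp)
    have hC : F (w * x * y) = 0 := hS _ (by simp)
    obtain ⟨r1, -, -, r4, -, -, -⟩ := N_rels hx hy hw hxx hyx hxw hwy hyy hww' hF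
    rw [hF _ hB] at r4
    rw [hA] at r1
    exact N_van h hx hy hw hxx hyx hxw hwy hV' hgen hF (by simpa using r1) hA (hF _ hB) (by simpa using r4) hC
  have hAw : ∀ φ : A →ₗ[k] k, (∀ y ∈ I ^ 5, φ y = 0) → φ (x * y * (w * w)) = 0 := by
    intro φ hφ
    rw [fl5 hφ hxy2 hww]
    simp only [mul_add, mul_smul_comm, map_add, map_smul, smul_eq_mul]
    have e1 : x * y * (x * y) = x * (y * x) * y := by simp only [mul_assoc]
    have e2 : x * y * (w * x) = x * (y * w * x) := by simp only [mul_assoc]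
    rw [e1, e2, hφ _ (mm (by omega) (mm (r := 4) (by omega) hx' hyx) hy'), hφ _ (mm (by omega) hx' hB)]
    ring
  set T := w * x * y * w with hTdef
  have hT4 : T ∈ I ^ 4 := mm (by omega) (mm (r := 3) (by omega) hwx2 hy') hw'
  have hsp4 : I ^ 4 ≤ Submodule.span k {T} ⊔ I ^ 5 := by
    refine le_sup_of_forms fun φ hφ hS => ?_
    have hT0 : φ T = 0 := hS _ (by simp)
    refine vanish_mul h (n := 3) (S := {x * y * w, w * x * y}) (E := {x, y, w}) ?_ hsp3 hgen hφ ?_
    · rintro s (rfl | rfl)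
      · exact mm (by omega) hxy2 hw'
      · exact mm (by omega) hwx2 hy'
    · intro s₀ hs e he
      rcases hs with rfl | rfl
      · rcases he with rfl | rfl | rfl
        · have e1 : e * y * w * e = e * (y * w * e) := by simp only [mul_assoc]
          rw [e1]
          exact hφ _ (mm (by omega) hx' hB)
        · have e1 : x * e * w * e = x * e * (w * e) := by simp only [mul_assoc]
          rw [e1]
          exact hφ _ (mm (by omega) hxy2 hwy)
        · have e1 : x * y * e * e = x * y * (e * e) := by simp only [mul_assoc]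
          rw [e1]
          exact hAw φ hφ
      · rcases he with rfl | rfl | rfl
        · have e1 : w * e * y * e = w * e * (y * e) := by simp only [mul_assoc]
          rw [e1]
          exact hφ _ (mm (by omega) hwx2 hyx)
        · have e1 : w * x * e * e = w * x * (e * e) := by simp only [mul_assoc]
          rw [e1, fl5 hφ hwx2 hyy]
          simp only [mul_add, mul_smul_comm, map_add, map_smul, smul_eq_mul]
          have e2 : w * x * (x * e) = w * (x * x) * e := by simp only [mul_assoc]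
          have e3 : w * x * (w * x) = w * (x * w) * x := by simp only [mul_assoc]
          have e4 : w * x * (e * w) = T := by simp only [hTdef, mul_assoc]
          rw [e2, e3, e4, hT0, hφ _ (mm (by omega) (mm (r := 4) (by omega) hw' hxx) hy'),
            hφ _ (mm (by omega) (mm (r := 4) (by omega) hw' hxw) hx')]
          ring
        · exact hT0
  refine chain_top h hT4 hsp4 ?_ ?_
  · refine left_gen hgen hT4 ?_ ?_ ?_
    · have e : x * T = x * w * (x * y * w) := by simp only [hTdef, mul_assoc]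
      rw [e]
      exact mm (by omega) hxw (mm (r := 3) (by omega) hxy2 hw')
    · have e : y * T = y * w * x * (y * w) := by simp only [hTdef, mul_assoc]
      rw [e]
      exact mm (by omega) hB (mm (r := 2) (by omega) hy' hw')
    · have e : w * T = (w * w - (g₅ • (x * y) + g₆ • (w * x))) * (x * y * w) +
          (g₅ • (x * (y * x) * (y * w)) + g₆ • (w * (x * x) * (y * w))) := by
        simp only [hTdef, sub_mul, add_mul, smul_mul_assoc, mul_assoc]
        abel
      rw [e]
      refine (I ^ 6).add_mem (mm (by omega) hww (mm (r := 3) (by omega) hxy2 hw')) ?_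
      refine (I ^ 6).add_mem ((I ^ 6).smul_mem _ ?_) ((I ^ 6).smul_mem _ ?_)
      · exact mm (by omega) (mm (r := 4) (by omega) hx' hyx) (mm (r := 2) (by omega) hy' hw')
      · exact mm (by omega) (mm (r := 4) (by omega) hw' hxx) (mm (r := 2) (by omega) hy' hw')
  · intro h5
    have hφ : ∀ y ∈ I ^ 5, t y = 0 := by
      intro y hy5
      rw [h5] at hy5
      rw [(Submodule.mem_bot k).1 hy5, map_zero]
    have e : T = w * (x * y * w) := by simp only [hTdef, mul_assoc]
    rw [e, h.sym]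
    have e2 : x * y * w * w = x * y * (w * w) := by simp only [mul_assoc]
    rw [e2]
    exact hAw t hφ

/-- Case `p = s = 0` and `w x y` vanishes at the third level. -/
theorem N_iii (h : LocSym t I) (hx : x ∈ I) (hy : y ∈ I) (hw : w ∈ I)
    (hxx : x * x ∈ I ^ 3) (hyx : y * x ∈ I ^ 3) (hxw : x * w ∈ I ^ 3) (hwy : w * y ∈ I ^ 3)
    (hyy : y * y - (g₁ • (x * y) + g₂ • (w * x)) ∈ I ^ 3)
    (hww : w * w - (g₅ • (x * y) + g₆ • (w * x)) ∈ I ^ 3)
    (hV' : I ^ 2 ≤ Submodule.span k {x * y, y * w, w * x} ⊔ I ^ 3)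
    (hgen : I ≤ Submodule.span k {x, y, w} ⊔ I ^ 2)
    (hC : w * x * y ∈ I ^ 4) : I ^ 4 = ⊥ := by
  have hx' := one_mem hx
  have hy' := one_mem hy
  have hw' := one_mem hw
  have hxy2 : x * y ∈ I ^ 2 := mm (by omega) hx' hy'
  have hyw2 : y * w ∈ I ^ 2 := mm (by omega) hy' hw'
  have hww' : w * w - (g₅ • (x * y) + (0 : k) • (y * w) + g₆ • (w * x)) ∈ I ^ 3 := by simpa using hww
  have hyy' : y * y - (g₁ • (x * y) + (0 : k) • (y * w) + g₂ • (w * x)) ∈ I ^ 3 := by simpa using hyy
  have hsp3 : I ^ 3 ≤ Submodule.span k {x * y * w, y * w * x} ⊔ I ^ 4 := by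
    refine le_sup_of_forms fun F hF hS => ?_
    have hA : F (x * y * w) = 0 := hS _ (by simp)
    have hB : F (y * w * x) = 0 := hS _ (by simp)
    obtain ⟨r1, -, -, r4, -, -, -⟩ := N_rels hx hy hw hxx hyx hxw hwy hyy' hww' hF
    rw [hB] at r4
    rw [hA] at r1
    exact N_van h hx hy hw hxx hyx hxw hwy hV' hgen hF (by simpa using r1) hA hB (by simpa using r4) (hF _ hC)
  set T := x * y * w * x with hTdef
  have hT4 : T ∈ I ^ 4 := mm (by omega) (mm (r := 3) (by omega) hxy2 hw') hx'
  have hsp4 : I ^ 4 ≤ Submodule.span k {T} ⊔ I ^ 5 := by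
    refine le_sup_of_forms fun φ hφ hS => ?_
    have hT0 : φ T = 0 := hS _ (by simp)
    refine vanish_mul h (n := 3) (S := {x * y * w, y * w * x}) (E := {x, y, w}) ?_ hsp3 hgen hφ ?_
    · rintro s (rfl | rfl)
      · exact mm (by omega) hxy2 hw'
      · exact mm (by omega) hyw2 hx'
    · intro s₀ hs e he
      rcases hs with rfl | rfl
      · rcases he with rfl | rfl | rfl
        · exact hT0
        · have e1 : x * e * w * e = x * e * (w * e) := by simp only [mul_assoc]
          rw [e1]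
          exact hφ _ (mm (by omega) hxy2 hwy)
        · have e1 : x * y * e * e = x * y * (e * e) := by simp only [mul_assoc]
          rw [e1, fl5 hφ hxy2 hww]
          simp only [mul_add, mul_smul_comm, map_add, map_smul, smul_eq_mul]
          have e2 : x * y * (x * y) = x * (y * x) * y := by simp only [mul_assoc]
          have e3 : x * y * (e * x) = T := by simp only [hTdef, mul_assoc]
          rw [e2, e3, hT0, hφ _ (mm (by omega) (mm (r := 4) (by omega) hx' hyx) hy')]
          ring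
      · rcases he with rfl | rfl | rfl
        · have e1 : y * w * e * e = y * w * (e * e) := by simp only [mul_assoc]
          rw [e1]
          exact hφ _ (mm (by omega) hyw2 hxx)
        · have e1 : e * w * x * e = e * (w * x * e) := by simp only [mul_assoc]
          rw [e1]
          exact hφ _ (mm (by omega) hy' hC)
        · have e1 : y * e * x * e = y * e * (x * e) := by simp only [mul_assoc]
          rw [e1]
          exact hφ _ (mm (by omega) hyw2 hxw)
  refine chain_top h hT4 hsp4 ?_ ?_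
  · refine left_gen hgen hT4 ?_ ?_ ?_
    · have e : x * T = x * x * (y * w * x) := by simp only [hTdef, mul_assoc]
      rw [e]
      exact mm (by omega) hxx (mm (r := 3) (by omega) hyw2 hx')
    · have e : y * T = y * x * (y * w * x) := by simp only [hTdef, mul_assoc]
      rw [e]
      exact mm (by omega) hyx (mm (r := 3) (by omega) hyw2 hx')
    · have e : w * T = w * x * y * (w * x) := by simp only [hTdef, mul_assoc]
      rw [e]
      exact mm (by omega) hC (mm (r := 2) (by omega) hw' hx')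
  · intro h5
    have e : T = x * (y * w * x) := by simp only [hTdef, mul_assoc]
    rw [e, h.sym]
    have e2 : y * w * x * x = y * w * (x * x) := by simp only [mul_assoc]
    rw [e2]
    have : y * w * (x * x) ∈ I ^ 5 := mm (by omega) hyw2 hxx
    rw [h5] at this
    rw [(Submodule.mem_bot k).1 this, map_zero]

end N

end Cfsg.Agent.Lib.Blocks.Sym5
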