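import Mathlib
import Cfsg.Agent.Lib.Blocks.Sym5D

/-!
# Symmetric local algebras: second level of dimension three, the cyclic normal form, end
-/

set_option autoImplicit false
set_option linter.unusedSectionVars false
set_option linter.unusedVariables false
set_option linter.style.haveILetI false

namespace Cfsg.Agent.Lib.Blocks.Sym5

open Module MulOpposite Cfsg.Agent.Lib.Blocks.SymLocal Cfsg.Agent.Lib.Blocks.SymCom

section N

variable {k A : Type*} [Field k] [Ring A] [Algebra k A] {t : A →ₗ[k] k} {I : Submodule k A}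

lemma op_gen {S : Set A} {S' : Set Aᵐᵒᵖ} (hS : ∀ s ∈ S, op s ∈ Submodule.span k S')
    (hV : I ≤ Submodule.span k S ⊔ I ^ 2) : opI I ≤ Submodule.span k S' ⊔ opI I ^ 2 := by
  have h1 : I ^ 1 ≤ Submodule.span k S ⊔ I ^ 2 := by simpa using hV
  have := op_le_sup hS h1
  simpa using this

lemma bot_of_op {n : ℕ} (h : opI I ^ n = ⊥) : I ^ n = ⊥ := by
  rw [eq_bot_iff]
  intro u hu
  have h1 : op u ∈ opI I ^ n := op_mem_pow.2 hu
  rw [h] at h1
  have h2 : op u = 0 := (Submodule.mem_bot k).1 h1
  exact (Submodule.mem_bot k).2 (op_injective (by simpa using h2))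

lemma op_mm {n : ℕ} {a b : A} (h : b * a ∈ I ^ n) : op a * op b ∈ opI I ^ n := by
  rw [← op_mul]
  exact op_mem_pow.2 h

variable {x y w : A} {g₁ p g₂ g₅ s g₆ : k}

lemma N_rels2 (hx : x ∈ I) (hy : y ∈ I) (hw : w ∈ I)
    (hxx : x * x ∈ I ^ 3) (hyx : y * x ∈ I ^ 3) (hxw : x * w ∈ I ^ 3) (hwy : w * y ∈ I ^ 3)
    (hyy : y * y - (g₁ • (x * y) + p • (y * w) + g₂ • (w * x)) ∈ I ^ 3)
    (hww : w * w - (g₅ • (x * y) + s • (y * w) + g₆ • (w * x)) ∈ I ^ 3)
    {F : A →ₗ[k] k} (hF : ∀ y ∈ I ^ 4, F y = 0) :
    F (y * y * w) = g₁ * F (x * y * w) + p * F (y * w * w) ∧ F (w * w * x) = s * F (y * w * x) := by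
  have hzl : ∀ {a b d : A}, a * b ∈ I ^ 3 → d ∈ I → F (d * a * b) = 0 := fun hab hd => by
    rw [mul_assoc]
    exact zero_left hF hab hd
  have e1 := fr hF hw hyy
  have e2 := fr hF hx hww
  simp only [add_mul, smul_mul_assoc, map_add, map_smul, smul_eq_mul] at e1 e2
  rw [hzl hxw hw] at e1
  rw [hzl hyx hx, hzl hxx hw] at e2
  constructor
  · linear_combination e1
  · linear_combination e2

/-- The mirror of `N_ii`. -/
theorem N_ii' (h : LocSym t I) (hx : x ∈ I) (hy : y ∈ I) (hw : w ∈ I)
    (hxx : x * x ∈ I ^ 3) (hyx : y * x ∈ I ^ 3) (hxw : x * w ∈ I ^ 3) (hwy : w * y ∈ I ^ 3)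
    (hyy : y * y - (g₁ • (x * y) + g₂ • (w * x)) ∈ I ^ 3)
    (hww : w * w - (g₅ • (x * y) + s • (y * w) + g₆ • (w * x)) ∈ I ^ 3)
    (hV' : I ^ 2 ≤ Submodule.span k {x * y, y * w, w * x} ⊔ I ^ 3)
    (hgen : I ≤ Submodule.span k {x, y, w} ⊔ I ^ 2)
    (hA : x * y * w ∈ I ^ 4) : I ^ 4 = ⊥ := by
  apply bot_of_op
  refine N_ii (LocSym.opp h) (x := op x) (y := op w) (w := op y) (g₁ := g₆) (p := s) (g₂ := g₅) (g₅ := g₂) (g₆ := g₁)
    (op_mem_opI.2 hx) (op_mem_opI.2 hw) (op_mem_opI.2 hy) (op_mm hxx) (op_mm hxw) (op_mm hyx) (op_mm hwy)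
    ?_ ?_ ?_ ?_ ?_
  · have h1 := (op_mem_pow (I := I) (n := 3)).2 hww
    simp only [op_sub, op_add, op_smul, op_mul] at h1
    convert h1 using 2
    abel
  · have h1 := (op_mem_pow (I := I) (n := 3)).2 hyy
    simp only [op_sub, op_add, op_smul, op_mul] at h1
    convert h1 using 2
    abel
  · refine op_le_sup ?_ hV'
    rintro _ (rfl | rfl | rfl)
    · rw [op_mul]
      exact Submodule.subset_span (by simp)
    · rw [op_mul]
      exact Submodule.subset_span (by simp)
    · rw [op_mul]
      exact Submodule.subset_span (by simp)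
  · refine op_gen ?_ hgen
    rintro _ (rfl | rfl | rfl) <;> exact Submodule.subset_span (by simp)
  · have h1 := (op_mem_pow (I := I) (n := 4)).2 hA
    simp only [op_mul] at h1
    convert h1 using 1
    simp only [mul_assoc]

/-- Two of the `λ` are nonzero. -/
theorem N_iv (h : LocSym t I) (hx : x ∈ I) (hy : y ∈ I) (hw : w ∈ I)
    (hxx : x * x ∈ I ^ 3) (hyx : y * x ∈ I ^ 3) (hxw : x * w ∈ I ^ 3) (hwy : w * y ∈ I ^ 3)
    (hyy : y * y - g₂ • (w * x) ∈ I ^ 3)
    (hww : w * w - g₅ • (x * y) ∈ I ^ 3)
    (hV' : I ^ 2 ≤ Submodule.span k {x * y, y * w, w * x} ⊔ I ^ 3)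
    (hgen : I ≤ Submodule.span k {x, y, w} ⊔ I ^ 2) {l₁ l₂ l₃ : k}
    (hl : l₁ • (x * y * w) + l₂ • (y * w * x) + l₃ • (w * x * y) ∈ I ^ 4)
    (h1 : l₁ ≠ 0 ∨ l₂ ≠ 0) (h2 : l₂ ≠ 0 ∨ l₃ ≠ 0) (h3 : l₃ ≠ 0 ∨ l₁ ≠ 0) : I ^ 4 = ⊥ := by
  have hx' := one_mem hx
  have hy' := one_mem hy
  have hw' := one_mem hw
  have hxy2 : x * y ∈ I ^ 2 := mm (by omega) hx' hy'
  have hwx2 : w * x ∈ I ^ 2 := mm (by omega) hw' hx'
  have hyw2 : y * w ∈ I ^ 2 := mm (by omega) hy' hw'
  have hww' : w * w - (g₅ • (x * y) + (0 : k) • (y * w) + (0 : k) • (w * x)) ∈ I ^ 3 := by simpa using hww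
  have hyy' : y * y - ((0 : k) • (x * y) + (0 : k) • (y * w) + g₂ • (w * x)) ∈ I ^ 3 := by simpa using hyy
  have hsp3 : I ^ 3 ≤ Submodule.span k {x * y * w, y * w * x, w * x * y} ⊔ I ^ 4 := by
    refine le_sup_of_forms fun F hF hS => ?_
    have hA : F (x * y * w) = 0 := hS _ (by simp)
    have hB : F (y * w * x) = 0 := hS _ (by simp)
    have hC : F (w * x * y) = 0 := hS _ (by simp)
    obtain ⟨r1, -, -, r4, -, -, -⟩ := N_rels hx hy hw hxx hyx hxw hwy hyy' hww' hF
    rw [hB] at r4
    rw [hA] at r1
    exact N_van h hx hy hw hxx hyx hxw hwy hV' hgen hF (by simpa using r1) hA hB (by simpa using r4) hC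
  have hle : I ^ 4 ≤ I ^ 5 := by
    intro u hu
    apply mem_of_forms
    intro φ hφ
    have hA3 : x * y * w ∈ I ^ 3 := mm (by omega) hxy2 hw'
    have hB3 : y * w * x ∈ I ^ 3 := mm (by omega) hyw2 hx'
    have hC3 : w * x * y ∈ I ^ 3 := mm (by omega) hwx2 hy'
    -- right multiplication
    have a1 : φ (x * y * w * y) = 0 := by
      rw [mul_assoc (x * y)]
      exact hφ _ (mm (by omega) hxy2 hwy)
    have a2 : φ (x * y * w * w) = 0 := by
      rw [mul_assoc (x * y), fl5 hφ hxy2 hww, mul_smul_comm, map_smul]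
      have e : x * y * (x * y) = x * (y * x) * y := by simp only [mul_assoc]
      rw [e, hφ _ (mm (by omega) (mm (r := 4) (by omega) hx' hyx) hy'), smul_zero]
    have b1 : φ (y * w * x * x) = 0 := by
      rw [mul_assoc (y * w)]
      exact hφ _ (mm (by omega) hyw2 hxx)
    have b2 : φ (y * w * x * w) = 0 := by
      rw [mul_assoc (y * w)]
      exact hφ _ (mm (by omega) hyw2 hxw)
    have c1 : φ (w * x * y * x) = 0 := by
      rw [mul_assoc (w * x)]
      exact hφ _ (mm (by omega) hwx2 hyx)
    have c2 : φ (w * x * y * y) = 0 := by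
      rw [mul_assoc (w * x), fl5 hφ hwx2 hyy, mul_smul_comm, map_smul]
      have e : w * x * (w * x) = w * (x * w) * x := by simp only [mul_assoc]
      rw [e, hφ _ (mm (by omega) (mm (r := 4) (by omega) hw' hxw) hx'), smul_zero]
    -- left multiplication
    have a3 : φ (x * (x * y * w)) = 0 := by
      have e : x * (x * y * w) = x * x * (y * w) := by simp only [mul_assoc]
      rw [e]
      exact hφ _ (mm (by omega) hxx hyw2)
    have a4 : φ (y * (x * y * w)) = 0 := by
      have e : y * (x * y * w) = y * x * (y * w) := by simp only [mul_assoc]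
      rw [e]
      exact hφ _ (mm (by omega) hyx hyw2)
    have b3 : φ (y * (y * w * x)) = 0 := by
      have e : y * (y * w * x) = y * y * (w * x) := by simp only [mul_assoc]
      have e' : w * x * (w * x) = w * (x * w) * x := by simp only [mul_assoc]
      have e2 := hφ _ (mm (by omega) hyy hwx2 : (y * y - g₂ • (w * x)) * (w * x) ∈ I ^ 5)
      rw [sub_mul, smul_mul_assoc, map_sub, map_smul, e', hφ _ (mm (by omega) (mm (r := 4) (by omega) hw' hxw) hx'),
        smul_zero, sub_zero] at e2
      rw [e]
      exact e2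
    have b4 : φ (w * (y * w * x)) = 0 := by
      have e : w * (y * w * x) = w * y * (w * x) := by simp only [mul_assoc]
      rw [e]
      exact hφ _ (mm (by omega) hwy hwx2)
    have c3 : φ (x * (w * x * y)) = 0 := by
      have e : x * (w * x * y) = x * w * (x * y) := by simp only [mul_assoc]
      rw [e]
      exact hφ _ (mm (by omega) hxw hxy2)
    have c4 : φ (w * (w * x * y)) = 0 := by
      have e : w * (w * x * y) = w * w * (x * y) := by simp only [mul_assoc]
      have e' : x * y * (x * y) = x * (y * x) * y := by simp only [mul_assoc]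
      have e2 := hφ _ (mm (by omega) hww hxy2 : (w * w - g₅ • (x * y)) * (x * y) ∈ I ^ 5)
      rw [sub_mul, smul_mul_assoc, map_sub, map_smul, e', hφ _ (mm (by omega) (mm (r := 4) (by omega) hx' hyx) hy'),
        smul_zero, sub_zero] at e2
      rw [e]
      exact e2
    -- the relation
    have hR := fun d (hd : d ∈ I ^ 1) => hφ _ (mm (by omega) hl hd)
    have hL := fun d (hd : d ∈ I ^ 1) => hφ _ (mm (by omega) hd hl)
    have r1 := hR x hx'
    have r2 := hR y hy'
    have r3 := hR w hw'
    have l1 := hL x hx'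
    have l2 := hL y hy'
    have l3 := hL w hw'
    simp only [add_mul, smul_mul_assoc, map_add, map_smul, smul_eq_mul, b1, c1, a1, c2, a2, b2] at r1 r2 r3
    simp only [mul_add, mul_smul_comm, map_add, map_smul, smul_eq_mul, a3, c3, a4, b3, b4, c4] at l1 l2 l3
    have eA : φ (x * (y * w * x)) = φ (x * y * w * x) := by simp only [mul_assoc]
    have eB : φ (y * (w * x * y)) = φ (y * w * x * y) := by simp only [mul_assoc]
    have eC : φ (w * (x * y * w)) = φ (w * x * y * w) := by simp only [mul_assoc]
    rw [eA] at l1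
    rw [eB] at l2
    rw [eC] at l3
    simp only [mul_zero, zero_add, add_zero] at r1 r2 r3 l1 l2 l3
    have hA4 : φ (x * y * w * x) = 0 := by
      rcases h1 with h1 | h1
      · exact (mul_eq_zero.1 r1).resolve_left h1
      · exact (mul_eq_zero.1 l1).resolve_left h1
    have hB4 : φ (y * w * x * y) = 0 := by
      rcases h2 with h2 | h2
      · exact (mul_eq_zero.1 r2).resolve_left h2
      · exact (mul_eq_zero.1 l2).resolve_left h2
    have hC4 : φ (w * x * y * w) = 0 := by
      rcases h3 with h3 | h3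
      · exact (mul_eq_zero.1 r3).resolve_left h3
      · exact (mul_eq_zero.1 l3).resolve_left h3
    refine vanish_mul h (n := 3) (S := {x * y * w, y * w * x, w * x * y}) (E := {x, y, w}) ?_ hsp3 hgen hφ ?_ u hu
    · intro s₀ hs
      rcases hs with rfl | rfl | hs
      · exact hA3
      · exact hB3
      · rw [Set.mem_singleton_iff] at hs
        rw [hs]
        exact hC3
    · intro s₀ hs e he
      have he' : e = x ∨ e = y ∨ e = w := by simpa using he
      have hs' : s₀ = x * y * w ∨ s₀ = y * w * x ∨ s₀ = w * x * y := by simpa using hs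
      rcases hs' with hs | hs | hs <;> rcases he' with he | he | he <;> rw [hs, he]
      · exact hA4
      · exact a1
      · exact a2
      · exact b1
      · exact hB4
      · exact b2
      · exact c1
      · exact c2
      · exact hC4
  exact eq_bot_of_pow_le h hle

/-- The cyclic normal form. -/
theorem N_main (h : LocSym t I) (hx : x ∈ I) (hy : y ∈ I) (hw : w ∈ I)
    (hxx : x * x ∈ I ^ 3) (hyx : y * x ∈ I ^ 3) (hxw : x * w ∈ I ^ 3) (hwy : w * y ∈ I ^ 3)
    (hyy : y * y - (g₁ • (x * y) + p • (y * w) + g₂ • (w * x)) ∈ I ^ 3)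
    (hww : w * w - (g₅ • (x * y) + s • (y * w) + g₆ • (w * x)) ∈ I ^ 3)
    (hV' : I ^ 2 ≤ Submodule.span k {x * y, y * w, w * x} ⊔ I ^ 3)
    (hgen : I ≤ Submodule.span k {x, y, w} ⊔ I ^ 2)
    (hV : I ^ 2 ≤ commSpan k A ⊔ I ^ 3) (hK : I ^ 3 ≤ KK I ⊔ I ^ 4) : I ^ 4 = ⊥ := by
  have hx' := one_mem hx
  have hy' := one_mem hy
  have hw' := one_mem hw
  have hxy2 : x * y ∈ I ^ 2 := mm (by omega) hx' hy'
  have hwx2 : w * x ∈ I ^ 2 := mm (by omega) hw' hx'
  have hyw2 : y * w ∈ I ^ 2 := mm (by omega) hy' hw'
  have hrels := fun {F : A →ₗ[k] k} (hF : ∀ y ∈ I ^ 4, F y = 0) =>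
    N_rels hx hy hw hxx hyx hxw hwy hyy hww hF
  by_cases hp : p = 0
  · subst hp
    have hyy' : y * y - (g₁ • (x * y) + g₂ • (w * x)) ∈ I ^ 3 := by simpa using hyy
    by_cases hs : s = 0
    · subst hs
      have hww' : w * w - (g₅ • (x * y) + g₆ • (w * x)) ∈ I ^ 3 := by simpa using hww
      by_cases hg₁ : g₁ = 0
      · by_cases hg₆ : g₆ = 0
        · subst hg₁ hg₆
          have hyy2 : y * y - g₂ • (w * x) ∈ I ^ 3 := by simpa using hyy'
          have hww2 : w * w - g₅ • (x * y) ∈ I ^ 3 := by simpa using hww'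
          -- the cyclic form
          have hmem : x * y * w ∈ Submodule.span k {x * y * w - y * w * x, y * w * x - w * x * y} ⊔ I ^ 4 := by
            apply mem_of_forms
            intro F hF'
            have hF : ∀ y ∈ I ^ 4, F y = 0 := fun y hy => hF' y (Submodule.mem_sup_right hy)
            have h1 : F (x * y * w) = F (y * w * x) := by
              have := hF' (x * y * w - y * w * x) (Submodule.mem_sup_left (Submodule.subset_span (by simp)))
              rwa [map_sub, sub_eq_zero] at this
            have h2 : F (y * w * x) = F (w * x * y) := by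
              have := hF' (y * w * x - w * x * y) (Submodule.mem_sup_left (Submodule.subset_span (by simp)))
              rwa [map_sub, sub_eq_zero] at this
            obtain ⟨r1, -, -, r4, -, -, -⟩ := hrels hF
            obtain ⟨r5, r6⟩ := N_rels2 hx hy hw hxx hyx hxw hwy hyy hww hF
            have hzl : ∀ {a b d : A}, a * b ∈ I ^ 3 → d ∈ I → F (d * a * b) = 0 := fun hab hd => by
              rw [mul_assoc]
              exact zero_left hF hab hd
            have hzr : ∀ {a b d : A}, a * b ∈ I ^ 3 → d ∈ I → F (a * b * d) = 0 := fun hab hd =>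
              zero_right hF hab hd
            simp only [zero_mul, add_zero] at r1 r4 r5 r6
            have hKv := form_KK h (E := {x, y, w}) (S := {x * y, y * w, w * x}) hgen hV'
              (by
                rintro e (rfl | rfl | rfl)
                · exact hx
                · exact hy
                · exact hw)
              (by
                rintro e (rfl | rfl | rfl)
                · exact hxy2
                · exact hyw2
                · exact hwx2) hF (by
                intro e he s₀ hs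
                have he' : e = x ∨ e = y ∨ e = w := by simpa using he
                have hs' : s₀ = x * y ∨ s₀ = y * w ∨ s₀ = w * x := by simpa using hs
                rcases he' with he | he | he <;> rcases hs' with hs | hs | hs <;> rw [he, hs] <;>
                  simp only [← mul_assoc]
                · rw [hzr hxx hy, hzl hyx hx]
                · exact h1
                · rw [hzr hxw hx, hzl hxx hw]
                · rw [hzr hyx hy, r1]
                · rw [r5, hzl hwy hy]
                · rw [h2]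
                · rw [← h2, ← h1]
                · rw [hzr hwy hw, r4]
                · rw [r6, hzl hxw hw])
            have : x * y * w ∈ KK I ⊔ I ^ 4 := hK (mm (by omega) hxy2 hw')
            obtain ⟨a, ha, b, hb, hab⟩ := Submodule.mem_sup.1 this
            rw [← hab, map_add, hKv a ha, hF b hb, add_zero]
          obtain ⟨c₁, c₂, hj⟩ := exists_two hmem
          have hl : (1 - c₁) • (x * y * w) + (c₁ - c₂) • (y * w * x) + c₂ • (w * x * y) ∈ I ^ 4 := by
            convert hj using 1
            simp only [sub_smul, smul_sub, one_smul]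
            abel
          by_cases h1 : 1 - c₁ ≠ 0 ∨ c₁ - c₂ ≠ 0
          · by_cases h2 : c₁ - c₂ ≠ 0 ∨ c₂ ≠ 0
            · by_cases h3 : c₂ ≠ 0 ∨ 1 - c₁ ≠ 0
              · exact N_iv h hx hy hw hxx hyx hxw hwy hyy2 hww2 hV' hgen hl h1 h2 h3
              · push Not at h3
                obtain ⟨h4, h5⟩ := h3
                have h6 : c₁ = 1 := by linear_combination -h5
                have hB : y * w * x ∈ I ^ 4 := by
                  rw [h4, h5, h6] at hl
                  simpa using hl
                exact N_ii h hx hy hw hxx hyx hxw hwy hyy hww' hV' hgen hB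
            · push Not at h2
              obtain ⟨h4, h5⟩ := h2
              have hA : x * y * w ∈ I ^ 4 := by
                have h6 : c₁ = 0 := by linear_combination h4 + h5
                rw [h5, h6] at hl
                simpa using hl
              exact N_ii' h hx hy hw hxx hyx hxw hwy hyy' hww hV' hgen hA
          · push Not at h1
            obtain ⟨h4, h5⟩ := h1
            have h6 : c₁ = 1 := by linear_combination -h4
            have h7 : c₂ = 1 := by linear_combination h6 - h5
            have hC : w * x * y ∈ I ^ 4 := by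
              rw [h6, h7] at hl
              simpa using hl
            exact N_iii h hx hy hw hxx hyx hxw hwy hyy' hww' hV' hgen hC
        · refine N_iii h hx hy hw hxx hyx hxw hwy hyy' hww' hV' hgen ?_
          apply mem_of_forms
          intro F hF
          obtain ⟨-, -, -, -, -, -, r⟩ := hrels hF
          simp only [zero_mul, mul_zero, zero_add] at r
          exact (mul_eq_zero.1 r).resolve_left hg₆
      · refine N_iii h hx hy hw hxx hyx hxw hwy hyy' hww' hV' hgen ?_
        apply mem_of_forms
        intro F hF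
        obtain ⟨-, -, -, -, -, r, -⟩ := hrels hF
        simp only [zero_mul, mul_zero, add_zero] at r
        exact (mul_eq_zero.1 r).resolve_left hg₁
    · refine N_ii' h hx hy hw hxx hyx hxw hwy hyy' hww hV' hgen ?_
      apply mem_of_forms
      intro F hF
      obtain ⟨-, r, -, -, -, -, -⟩ := hrels hF
      exact (mul_eq_zero.1 r).resolve_left hs
  · by_cases hs : s = 0
    · subst hs
      have hww' : w * w - (g₅ • (x * y) + g₆ • (w * x)) ∈ I ^ 3 := by simpa using hww
      refine N_ii h hx hy hw hxx hyx hxw hwy hyy hww' hV' hgen ?_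
      apply mem_of_forms
      intro F hF
      obtain ⟨-, -, r, -, -, -, -⟩ := hrels hF
      exact (mul_eq_zero.1 r).resolve_left hp
    · exact N_i h hx hy hw hxx hyx hxw hwy hyy hww hV' hgen hV hp hs

end N

end Cfsg.Agent.Lib.Blocks.Sym5
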