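import Mathlib
import Cfsg.Agent.Lib.Blocks.Sym5E

/-!
# Symmetric local algebras: second level of dimension three, the normal form with `x w` outside `[x, X]`
-/

set_option autoImplicit false
set_option linter.unusedSectionVars false
set_option linter.unusedVariables false
set_option linter.style.haveILetI false

namespace Cfsg.Agent.Lib.Blocks.Sym5

open Module MulOpposite Cfsg.Agent.Lib.Blocks.SymLocal Cfsg.Agent.Lib.Blocks.SymCom

section Hne

variable {k A : Type*} [Field k] [Ring A] [Algebra k A] {t : A →ₗ[k] k} {I : Submodule k A}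
variable {x y w : A}

lemma hne_base {a₁ a₂ : k} (hx : x ∈ I) (hy : y ∈ I) (hw : w ∈ I) (hxx : x * x ∈ I ^ 3)
    (hxy : x * y - (a₁ • (x * y - y * x) + a₂ • (x * w - w * x)) ∈ I ^ 3)
    {F : A →ₗ[k] k} (hF : ∀ y ∈ I ^ 4, F y = 0) : F (x * y * x) = 0 ∧ a₂ * F (x * w * x) = 0 := by
  have hzr : ∀ {a b d : A}, a * b ∈ I ^ 3 → d ∈ I → F (a * b * d) = 0 := fun hab hd => zero_right hF hab hd
  have hzl : ∀ {a b d : A}, a * b ∈ I ^ 3 → d ∈ I → F (d * a * b) = 0 := fun hab hd => by
    rw [mul_assoc]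
    exact zero_left hF hab hd
  have e1 := fl hF hx hxy
  have e2 := fr hF hx hxy
  simp only [mul_add, mul_sub, mul_smul_comm, map_add, map_sub, map_smul, smul_eq_mul, ← mul_assoc] at e1
  simp only [add_mul, sub_mul, smul_mul_assoc, map_add, map_sub, map_smul, smul_eq_mul] at e2
  rw [hzr hxx hy, hzr hxx hw] at e1
  rw [hzl hxx hy, hzl hxx hw] at e2
  have hu : F (x * y * x) = 0 := by linear_combination e2 + e1
  refine ⟨hu, ?_⟩
  rw [hu] at e1
  linear_combination e1

lemma hne_ends {b c : A} {e f g : k} (hx : x ∈ I) (hy : y ∈ I) (hw : w ∈ I) (hxx : x * x ∈ I ^ 3)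
    (ht : b * c - (e • (x * y - y * x) + f • (x * w - w * x) + g • (x * w)) ∈ I ^ 3)
    {F : A →ₗ[k] k} (hF : ∀ y ∈ I ^ 4, F y = 0) :
    F (x * b * c) = -(e * F (x * y * x)) - f * F (x * w * x) ∧
    F (b * c * x) = e * F (x * y * x) + (f + g) * F (x * w * x) := by
  have hzr : ∀ {a b d : A}, a * b ∈ I ^ 3 → d ∈ I → F (a * b * d) = 0 := fun hab hd => zero_right hF hab hd
  have hzl : ∀ {a b d : A}, a * b ∈ I ^ 3 → d ∈ I → F (d * a * b) = 0 := fun hab hd => by
    rw [mul_assoc]
    exact zero_left hF hab hd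
  have e1 := fl hF hx ht
  have e2 := fr hF hx ht
  simp only [mul_add, mul_sub, mul_smul_comm, map_add, map_sub, map_smul, smul_eq_mul, ← mul_assoc] at e1
  simp only [add_mul, sub_mul, smul_mul_assoc, map_add, map_sub, map_smul, smul_eq_mul] at e2
  rw [hzr hxx hy, hzr hxx hw] at e1
  rw [hzl hxx hy, hzl hxx hw] at e2
  constructor
  · linear_combination e1
  · linear_combination e2

lemma hne_van (h : LocSym t I) (hx : x ∈ I) (hy : y ∈ I) (hw : w ∈ I) (hxx : x * x ∈ I ^ 3)
    (hV' : I ^ 2 ≤ Submodule.span k {x * y - y * x, x * w - w * x, x * w} ⊔ I ^ 3)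
    (hgen : I ≤ Submodule.span k {x, y, w} ⊔ I ^ 2)
    {F : A →ₗ[k] k} (hF : ∀ y ∈ I ^ 4, F y = 0) (hu : F (x * y * x) = 0) (hΘ : F (x * w * x) = 0)
    (m1 : F (x * y * y) = 0) (m2 : F (x * y * w) = 0) (m3 : F (x * w * y) = 0) (m4 : F (x * w * w) = 0)
    (n1 : F (y * x * y) = 0) (n2 : F (y * x * w) = 0) (n3 : F (w * x * y) = 0) (n4 : F (w * x * w) = 0) :
    ∀ u ∈ I ^ 3, F u = 0 := by
  have hx' := one_mem hx
  have hy' := one_mem hy
  have hw' := one_mem hw
  have hzl : ∀ {a b d : A}, a * b ∈ I ^ 3 → d ∈ I → F (d * a * b) = 0 := fun hab hd => by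
    rw [mul_assoc]
    exact zero_left hF hab hd
  refine vanish_mul h (n := 2) (S := {x * y - y * x, x * w - w * x, x * w}) (E := {x, y, w}) ?_ hV' hgen hF ?_
  · intro s₀ hs
    have hs' : s₀ = x * y - y * x ∨ s₀ = x * w - w * x ∨ s₀ = x * w := by simpa using hs
    have hxw : x * w ∈ I ^ 2 := mm (by omega) hx' hw'
    rcases hs' with rfl | rfl | rfl
    · exact (I ^ 2).sub_mem (mm (by omega) hx' hy') (mm (by omega) hy' hx')
    · exact (I ^ 2).sub_mem hxw (mm (by omega) hw' hx')
    · exact hxw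
  · intro s₀ hs e he
    have he' : e = x ∨ e = y ∨ e = w := by simpa using he
    have hs' : s₀ = x * y - y * x ∨ s₀ = x * w - w * x ∨ s₀ = x * w := by simpa using hs
    rcases hs' with hs | hs | hs <;> rcases he' with he | he | he <;> rw [hs, he] <;>
      try simp only [sub_mul, map_sub]
    · rw [hu, hzl hxx hy]
      simp
    · rw [m1, n1]
      simp
    · rw [m2, n2]
      simp
    · rw [hΘ, hzl hxx hw]
      simp
    · rw [m3, n3]
      simp
    · rw [m4, n4]
      simp
    · exact hΘ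
    · exact m3
    · exact m4

/-- The second level table from spanning. -/
lemma hne_tables {e₂ f₂ g₂ : k} (hnorm : y * w - w * y - x * w ∈ I ^ 3)
    (hyw : y * w - (e₂ • (x * y - y * x) + f₂ • (x * w - w * x) + g₂ • (x * w)) ∈ I ^ 3) :
    w * y - (e₂ • (x * y - y * x) + f₂ • (x * w - w * x) + (g₂ - 1) • (x * w)) ∈ I ^ 3 := by
  have := (I ^ 3).sub_mem hyw hnorm
  convert this using 1
  simp only [sub_smul, one_smul]
  abel

/-- `a₂ ≠ 0`. -/
theorem hne_B1 (h : LocSym t I) (hx : x ∈ I) (hy : y ∈ I) (hw : w ∈ I) (hxx : x * x ∈ I ^ 3) {a₁ a₂ : k}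
    (hxy : x * y - (a₁ • (x * y - y * x) + a₂ • (x * w - w * x)) ∈ I ^ 3)
    (hnorm : y * w - w * y - x * w ∈ I ^ 3)
    (hV' : I ^ 2 ≤ Submodule.span k {x * y - y * x, x * w - w * x, x * w} ⊔ I ^ 3)
    (hgen : I ≤ Submodule.span k {x, y, w} ⊔ I ^ 2)
    (hV : I ^ 2 ≤ commSpan k A ⊔ I ^ 3) (ha₂ : a₂ ≠ 0) : I ^ 4 = ⊥ := by
  have hx' := one_mem hx
  have hy' := one_mem hy
  have hw' := one_mem hw
  obtain ⟨e₁, f₁, g₁, hyy⟩ := exists_three (hV' (mm (by omega) hy' hy'))
  obtain ⟨e₂, f₂, g₂, hyw⟩ := exists_three (hV' (mm (by omega) hy' hw'))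
  obtain ⟨e₄, f₄, g₄, hww⟩ := exists_three (hV' (mm (by omega) hw' hw'))
  have hwy := hne_tables hnorm hyw
  refine top_of_line h (u := y * x * y) (mm (by omega) (mm (r := 2) (by omega) hy' hx') hy') ?_ hV
  refine le_sup_of_forms fun F hF hS => ?_
  have hM : F (y * x * y) = 0 := hS _ (Set.mem_singleton _)
  obtain ⟨hu, hΘ'⟩ := hne_base hx hy hw hxx hxy hF
  have hΘ := (mul_eq_zero.1 hΘ').resolve_left ha₂
  obtain ⟨m1, -⟩ := hne_ends hx hy hw hxx hyy hF
  obtain ⟨m2, n2⟩ := hne_ends hx hy hw hxx hyw hF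
  obtain ⟨m3, -⟩ := hne_ends hx hy hw hxx hwy hF
  obtain ⟨m4, -⟩ := hne_ends hx hy hw hxx hww hF
  rw [hu, hΘ] at m1 m2 m3 m4 n2
  simp only [mul_zero, neg_zero, sub_zero] at m1 m2 m3 m4 n2
  have e1 := fr hF hy hxy
  have e2 := fr hF hw hxy
  have e3 := fl hF hy hxy
  simp only [add_mul, sub_mul, smul_mul_assoc, map_add, map_sub, map_smul, smul_eq_mul] at e1 e2
  simp only [mul_add, mul_sub, mul_smul_comm, map_add, map_sub, map_smul, smul_eq_mul, ← mul_assoc] at e3
  rw [m1, m3, hM] at e1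
  rw [m2, m4] at e2
  rw [hM, n2] at e3
  have n3 : F (w * x * y) = 0 := by
    have : a₂ * F (w * x * y) = 0 := by linear_combination e1
    exact (mul_eq_zero.1 this).resolve_left ha₂
  have hzl : ∀ {a b d : A}, a * b ∈ I ^ 3 → d ∈ I → F (d * a * b) = 0 := fun hab hd => by
    rw [mul_assoc]
    exact zero_left hF hab hd
  have n2' : F (y * x * w) = 0 := by
    have e0 : F (y * y * x) = 0 := by
      obtain ⟨-, n1⟩ := hne_ends hx hy hw hxx hyy hF
      rw [hu, hΘ] at n1
      simpa using n1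
    rw [e0] at e3
    have : a₂ * F (y * x * w) = 0 := by linear_combination -e3
    exact (mul_eq_zero.1 this).resolve_left ha₂
  have n4 : F (w * x * w) = 0 := by
    rw [n2'] at e2
    have : a₂ * F (w * x * w) = 0 := by linear_combination e2
    exact (mul_eq_zero.1 this).resolve_left ha₂
  exact hne_van h hx hy hw hxx hV' hgen hF hu hΘ m1 m2 m3 m4 hM n2' n3 n4

/-- `a₂ = 0`, `a₁ ≠ 0, 1`. -/
theorem hne_B2a (h : LocSym t I) (hx : x ∈ I) (hy : y ∈ I) (hw : w ∈ I) (hxx : x * x ∈ I ^ 3) {a₁ : k}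
    (hxy : x * y - a₁ • (x * y - y * x) ∈ I ^ 3)
    (hnorm : y * w - w * y - x * w ∈ I ^ 3)
    (hV' : I ^ 2 ≤ Submodule.span k {x * y - y * x, x * w - w * x, x * w} ⊔ I ^ 3)
    (hgen : I ≤ Submodule.span k {x, y, w} ⊔ I ^ 2)
    (hV : I ^ 2 ≤ commSpan k A ⊔ I ^ 3) (ha₀ : a₁ ≠ 0) (ha₁ : a₁ ≠ 1) : I ^ 4 = ⊥ := by
  have hx' := one_mem hx
  have hy' := one_mem hy
  have hw' := one_mem hw
  have hxy' : x * y - (a₁ • (x * y - y * x) + (0 : k) • (x * w - w * x)) ∈ I ^ 3 := by simpa using hxy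
  obtain ⟨e₁, f₁, g₁, hyy⟩ := exists_three (hV' (mm (by omega) hy' hy'))
  obtain ⟨e₂, f₂, g₂, hyw⟩ := exists_three (hV' (mm (by omega) hy' hw'))
  obtain ⟨e₄, f₄, g₄, hww⟩ := exists_three (hV' (mm (by omega) hw' hw'))
  have hwy := hne_tables hnorm hyw
  refine top_of_line h (u := x * w * x) (mm (by omega) (mm (r := 2) (by omega) hx' hw') hx') ?_ hV
  refine le_sup_of_forms fun F hF hS => ?_
  have hΘ : F (x * w * x) = 0 := hS _ (Set.mem_singleton _)
  obtain ⟨hu, -⟩ := hne_base hx hy hw hxx hxy' hF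
  obtain ⟨m1, z1⟩ := hne_ends hx hy hw hxx hyy hF
  obtain ⟨m2, z2⟩ := hne_ends hx hy hw hxx hyw hF
  obtain ⟨m3, z3⟩ := hne_ends hx hy hw hxx hwy hF
  obtain ⟨m4, z4⟩ := hne_ends hx hy hw hxx hww hF
  rw [hu, hΘ] at m1 m2 m3 m4 z1 z2 z3 z4
  simp only [mul_zero, neg_zero, sub_zero, add_zero] at m1 m2 m3 m4 z1 z2 z3 z4
  have hxyd : ∀ {d : A}, d ∈ I → F (x * y * d) = 0 → F (y * x * d) = 0 := by
    intro d hd h0
    have e1 := fr hF hd hxy
    simp only [sub_mul, smul_mul_assoc, map_sub, map_smul, smul_eq_mul, h0] at e1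
    have : a₁ * F (y * x * d) = 0 := by linear_combination e1
    exact (mul_eq_zero.1 this).resolve_left ha₀
  have hbxy : ∀ {b : A}, b ∈ I → F (b * y * x) = 0 → F (b * x * y) = 0 := by
    intro b hb h0
    have e1 := fl hF hb hxy
    simp only [mul_sub, mul_smul_comm, map_sub, map_smul, smul_eq_mul, ← mul_assoc, h0] at e1
    have : (1 - a₁) * F (b * x * y) = 0 := by linear_combination e1
    exact (mul_eq_zero.1 this).resolve_left (fun h' => ha₁ (by linear_combination -h'))
  have n1 := hxyd hy m1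
  have n2 := hxyd hw m2
  have n3 := hbxy hw z3
  have hzl : ∀ {a b d : A}, a * b ∈ I ^ 3 → d ∈ I → F (d * a * b) = 0 := fun hab hd => by
    rw [mul_assoc]
    exact zero_left hF hab hd
  have r1 := rel3 hF hy hw hyw hww
  have r2 := rel3 hF hw hw hwy hyw
  have r3 := rel3 hF hw hy hww hwy
  simp only [add_mul, sub_mul, mul_add, mul_sub, smul_mul_assoc, mul_smul_comm, map_add, map_sub, map_smul,
    smul_eq_mul, ← mul_assoc] at r1 r2 r3
  rw [m2, n2, m4, n1, z1, z2] at r1
  rw [m2, n2, m4, n3, z3, z4] at r2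
  rw [m1, n1, m3, n3, z3, z4] at r3
  simp only [sub_zero, zero_sub, mul_zero, add_zero, zero_add, sub_self] at r1 r2 r3
  have n4 : F (w * x * w) = 0 := by
    linear_combination r3 - r2 + r1
  exact hne_van h hx hy hw hxx hV' hgen hF hu hΘ m1 m2 m3 m4 n1 n2 n3 n4

/-- `x y` vanishes at the second level. -/
theorem hne_B2b (h : LocSym t I) (hx : x ∈ I) (hy : y ∈ I) (hw : w ∈ I) (hxx : x * x ∈ I ^ 3)
    (hxy : x * y ∈ I ^ 3) (hnorm : y * w - w * y - x * w ∈ I ^ 3)
    (hV' : I ^ 2 ≤ Submodule.span k {y * x, w * x, x * w} ⊔ I ^ 3)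
    (hgen : I ≤ Submodule.span k {x, y, w} ⊔ I ^ 2)
    (hV : I ^ 2 ≤ commSpan k A ⊔ I ^ 3) : I ^ 4 = ⊥ := by
  have hx' := one_mem hx
  have hy' := one_mem hy
  have hw' := one_mem hw
  have hyx2 : y * x ∈ I ^ 2 := mm (by omega) hy' hx'
  have hwx2 : w * x ∈ I ^ 2 := mm (by omega) hw' hx'
  have hxw2 : x * w ∈ I ^ 2 := mm (by omega) hx' hw'
  obtain ⟨e₁, f₁, g₁, hyy⟩ := exists_three (hV' (mm (by omega) hy' hy'))
  obtain ⟨e₂, f₂, g₂, hyw⟩ := exists_three (hV' (mm (by omega) hy' hw'))
  obtain ⟨e₄, f₄, g₄, hww⟩ := exists_three (hV' (mm (by omega) hw' hw'))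
  have hwy : w * y - (e₂ • (y * x) + f₂ • (w * x) + (g₂ - 1) • (x * w)) ∈ I ^ 3 := by
    have := (I ^ 3).sub_mem hyw hnorm
    convert this using 1
    simp only [sub_smul, one_smul]
    abel
  -- the relations on forms
  have hrels : ∀ F : A →ₗ[k] k, (∀ y ∈ I ^ 4, F y = 0) →
      F (x * w * y) = 0 ∧ F (x * w * w) = f₄ * F (x * w * x) ∧
      g₁ * F (y * x * w) = -(e₁ * g₁ * F (x * w * x)) ∧
      (g₂ - 1) * F (y * x * w) = -(e₂ * g₁ * F (x * w * x)) ∧
      g₁ * F (w * x * w) = -(e₁ * (g₂ - 1) * F (x * w * x)) ∧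
      (g₂ - 1) * F (w * x * w) = -(e₂ * (g₂ - 1) * F (x * w * x)) ∧
      e₂ * F (y * x * w) + f₂ * F (w * x * w) + g₂ * (f₄ * F (x * w * x)) =
        e₄ * (g₁ * F (x * w * x)) + f₄ * (g₂ * F (x * w * x)) + g₄ * F (y * x * w) ∧
      e₂ * F (y * x * w) + f₂ * F (w * x * w) + (g₂ - 1) * (f₄ * F (x * w * x)) =
        e₂ * ((g₂ - 1) * F (x * w * x)) + f₂ * (g₄ * F (x * w * x)) + g₂ * F (w * x * w) ∧
      f₂ * F (x * w * x) = 0 := by
    intro F hF
    have hzr : ∀ {a b d : A}, a * b ∈ I ^ 3 → d ∈ I → F (a * b * d) = 0 := fun hab hd => zero_right hF hab hd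
    have hzl : ∀ {a b d : A}, a * b ∈ I ^ 3 → d ∈ I → F (d * a * b) = 0 := fun hab hd => by
      rw [mul_assoc]
      exact zero_left hF hab hd
    -- `x` first
    have hfirst : ∀ {b c : A} {e f g : k}, b * c - (e • (y * x) + f • (w * x) + g • (x * w)) ∈ I ^ 3 →
        F (x * b * c) = f * F (x * w * x) := by
      intro b c e f g ht
      have e1 := fl hF hx ht
      simp only [mul_add, mul_smul_comm, map_add, map_smul, smul_eq_mul, ← mul_assoc] at e1
      rw [hzr hxy hx, hzr hxx hw] at e1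
      linear_combination e1
    -- `x` last
    have hlast : ∀ {b c : A} {e f g : k}, b * c - (e • (y * x) + f • (w * x) + g • (x * w)) ∈ I ^ 3 →
        F (b * c * x) = g * F (x * w * x) := by
      intro b c e f g ht
      have e1 := fr hF hx ht
      simp only [add_mul, smul_mul_assoc, map_add, map_smul, smul_eq_mul] at e1
      rw [hzl hxx hy, hzl hxx hw] at e1
      linear_combination e1
    -- right multiplication by `y`
    have hf2 : f₂ * F (x * w * x) = 0 := by
      have := hfirst hyw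
      rw [hzr hxy hw] at this
      exact this.symm
    have hf1 : f₁ * F (x * w * x) = 0 := by
      have := hfirst hyy
      rw [hzr hxy hy] at this
      exact this.symm
    have hxwy : F (x * w * y) = 0 := by
      rw [hfirst hwy, hf2]
    have hxww : F (x * w * w) = f₄ * F (x * w * x) := hfirst hww
    have hy0 : ∀ {b c : A} {e f g : k}, b * c - (e • (y * x) + f • (w * x) + g • (x * w)) ∈ I ^ 3 →
        F (b * c * y) = 0 := by
      intro b c e f g ht
      have e1 := fr hF hy ht
      simp only [add_mul, smul_mul_assoc, map_add, map_smul, smul_eq_mul] at e1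
      rw [hzl hxy hy, hzl hxy hw, hxwy] at e1
      simpa using e1
    have hw0 : ∀ {b c : A} {e f g : k}, b * c - (e • (y * x) + f • (w * x) + g • (x * w)) ∈ I ^ 3 →
        F (b * c * w) = e * F (y * x * w) + f * F (w * x * w) + g * (f₄ * F (x * w * x)) := by
      intro b c e f g ht
      have e1 := fr hF hw ht
      simp only [add_mul, smul_mul_assoc, map_add, map_smul, smul_eq_mul, hxww] at e1
      exact e1
    have hl : ∀ {b c d : A} {e f g : k}, b ∈ I → c * d - (e • (y * x) + f • (w * x) + g • (x * w)) ∈ I ^ 3 →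
        F (b * c * d) = e * F (b * y * x) + f * F (b * w * x) + g * F (b * x * w) := by
      intro b c d e f g hb ht
      have e1 := fl hF hb ht
      simp only [mul_add, mul_smul_comm, map_add, map_smul, smul_eq_mul, ← mul_assoc] at e1
      exact e1
    have t1 := hl hy hyy
    have t2 := hl hy hwy
    have t3 := hl hw hyy
    have t4 := hl hw hwy
    have t5 := hl hy hww
    have t6 := hl hw hyw
    rw [hy0 hyy, hlast hyy, hlast hyw] at t1
    rw [hy0 hyw, hlast hyy, hlast hyw] at t2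
    rw [hy0 hwy, hlast hwy, hlast hww] at t3
    rw [hy0 hww, hlast hwy, hlast hww] at t4
    rw [hw0 hyw, hlast hyy, hlast hyw] at t5
    rw [hw0 hwy, hlast hwy, hlast hww] at t6
    refine ⟨hxwy, hxww, ?_, ?_, ?_, ?_, t5, t6, hf2⟩
    · linear_combination -t1 - g₂ * hf1
    · linear_combination -t2 - g₂ * hf2
    · linear_combination -t3 - g₄ * hf1
    · linear_combination -t4 - g₄ * hf2
  by_cases hcase : g₁ = 0 ∧ g₂ = 1
  · -- the chain
    obtain ⟨hg₁, hg₂⟩ := hcase
    subst hg₁ hg₂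
    have hwy' : w * y - (e₂ • (y * x) + f₂ • (w * x)) ∈ I ^ 3 := by simpa using hwy
    have hyy' : y * y - (e₁ • (y * x) + f₁ • (w * x)) ∈ I ^ 3 := by simpa using hyy
    have hu2 : w * x * w - g₄ • (y * x * w) ∈ I ^ 4 := by
      apply mem_of_forms
      intro F hF
      obtain ⟨-, -, -, -, -, -, r1, r2, r3⟩ := hrels F hF
      rw [map_sub, map_smul, smul_eq_mul]
      have r4 : f₂ * (g₄ * F (x * w * x)) = 0 := by linear_combination g₄ * r3
      rw [r4] at r2
      simp only [sub_self, zero_mul, mul_zero, add_zero, one_mul, zero_add] at r1 r2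
      linear_combination r1 * 1 - r2 * 1 + 0 * r3
    have hsp3 : I ^ 3 ≤ Submodule.span k {y * x * w, x * w * x} ⊔ I ^ 4 := by
      refine le_sup_of_forms fun F hF hS => ?_
      have hA : F (y * x * w) = 0 := hS _ (by simp)
      have hΘ : F (x * w * x) = 0 := hS _ (by simp)
      obtain ⟨r1, r2, -⟩ := hrels F hF
      have hu2' : F (w * x * w) = 0 := by
        have := hF _ hu2
        rw [map_sub, map_smul, hA, smul_zero, sub_zero] at this
        exact this
      refine vanish_mul h (n := 2) (S := {y * x, w * x, x * w}) (E := {x, y, w}) ?_ hV' hgen hF ?_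
      · rintro s₀ (rfl | rfl | rfl)
        · exact hyx2
        · exact hwx2
        · exact hxw2
      · intro s₀ hs e he
        have he' : e = x ∨ e = y ∨ e = w := by simpa using he
        have hs' : s₀ = y * x ∨ s₀ = w * x ∨ s₀ = x * w := by simpa using hs
        have hzl : ∀ {a b d : A}, a * b ∈ I ^ 3 → d ∈ I → F (d * a * b) = 0 := fun hab hd => by
          rw [mul_assoc]
          exact zero_left hF hab hd
        rcases hs' with hs | hs | hs <;> rcases he' with he | he | he <;> rw [hs, he]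
        · exact hzl hxx hy
        · exact hzl hxy hy
        · exact hA
        · exact hzl hxx hw
        · exact hzl hxy hw
        · exact hu2'
        · exact hΘ
        · exact r1
        · rw [r2, hΘ, mul_zero]
    set T := y * x * w * x with hTdef
    have hT4 : T ∈ I ^ 4 := mm (by omega) (mm (r := 3) (by omega) hyx2 hw') hx'
    have hA3 : y * x * w ∈ I ^ 3 := mm (by omega) hyx2 hw'
    have hΘ3 : x * w * x ∈ I ^ 3 := mm (by omega) hxw2 hx'
    have hsp4 : I ^ 4 ≤ Submodule.span k {T} ⊔ I ^ 5 := by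
      refine le_sup_of_forms fun φ hφ hS => ?_
      have hT0 : φ T = 0 := hS _ (by simp)
      have hyxT : φ (y * x * (y * x)) = 0 := by
        have e : y * x * (y * x) = y * (x * y) * x := by simp only [mul_assoc]
        rw [e]
        exact hφ _ (mm (by omega) (mm (r := 4) (by omega) hy' hxy) hx')
      have hyxw : φ (y * x * (w * x)) = 0 := by
        have e : y * x * (w * x) = T := by simp only [hTdef, mul_assoc]
        rw [e, hT0]
      have hyxx : φ (y * x * (x * w)) = 0 := by
        have e : y * x * (x * w) = y * (x * x) * w := by simp only [mul_assoc]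
        rw [e]
        exact hφ _ (mm (by omega) (mm (r := 4) (by omega) hy' hxx) hw')
      refine vanish_mul h (n := 3) (S := {y * x * w, x * w * x}) (E := {x, y, w}) ?_ hsp3 hgen hφ ?_
      · rintro s₀ (rfl | rfl)
        · exact hA3
        · exact hΘ3
      · intro s₀ hs e he
        have he' : e = x ∨ e = y ∨ e = w := by simpa using he
        have hs' : s₀ = y * x * w ∨ s₀ = x * w * x := by simpa using hs
        rcases hs' with hs | hs <;> rcases he' with he | he | he <;> rw [hs, he]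
        · exact hT0
        · rw [mul_assoc (y * x), fl5 hφ hyx2 hwy']
          simp only [mul_add, mul_smul_comm, map_add, map_smul, hyxT, hyxw, smul_zero, add_zero]
        · rw [mul_assoc (y * x), fl5 hφ hyx2 hww]
          simp only [mul_add, mul_smul_comm, map_add, map_smul, hyxT, hyxw, hyxx, smul_zero, add_zero]
        · rw [mul_assoc (x * w)]
          exact hφ _ (mm (by omega) hxw2 hxx)
        · rw [mul_assoc (x * w)]
          exact hφ _ (mm (by omega) hxw2 hxy)
        · have e : x * w * x * w = x * (w * x * w) := by simp only [mul_assoc]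
          rw [e]
          have e2 : φ (x * (w * x * w)) = φ (x * (w * x * w - g₄ • (y * x * w))) + g₄ * φ (x * y * (x * w)) := by
            have e3 : x * (y * x * w) = x * y * (x * w) := by simp only [mul_assoc]
            rw [mul_sub, mul_smul_comm, map_sub, map_smul, e3, smul_eq_mul]
            ring
          rw [e2, hφ _ (mm (by omega) hx' hu2), hφ _ (mm (by omega) hxy hxw2)]
          simp
    refine chain_top h hT4 hsp4 ?_ ?_
    · have hkey : ∀ {v e f : A} {c₁ c₂ : k}, v - (c₁ • (y * x) + c₂ • (w * x)) ∈ I ^ 3 →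
          v * (x * w * x) ∈ I ^ 6 := by
        intro v e f c₁ c₂ hv
        have e1 : v * (x * w * x) = (v - (c₁ • (y * x) + c₂ • (w * x))) * (x * w * x) +
            (c₁ • (y * (x * x) * (w * x)) + c₂ • (w * (x * x) * (w * x))) := by
          simp only [sub_mul, add_mul, smul_mul_assoc, mul_assoc]
          abel
        rw [e1]
        refine (I ^ 6).add_mem (mm (by omega) hv hΘ3) ?_
        refine (I ^ 6).add_mem ((I ^ 6).smul_mem _ ?_) ((I ^ 6).smul_mem _ ?_)
        · exact mm (by omega) (mm (r := 4) (by omega) hy' hxx) hwx2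
        · exact mm (by omega) (mm (r := 4) (by omega) hw' hxx) hwx2
      refine left_gen hgen hT4 ?_ ?_ ?_
      · have e : x * T = x * y * (x * w * x) := by simp only [hTdef, mul_assoc]
        rw [e]
        exact mm (by omega) hxy hΘ3
      · have e : y * T = y * y * (x * w * x) := by simp only [hTdef, mul_assoc]
        rw [e]
        exact hkey (e := x) (f := x) hyy'
      · have e : w * T = w * y * (x * w * x) := by simp only [hTdef, mul_assoc]
        rw [e]
        exact hkey (e := x) (f := x) hwy'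
    · intro h5
      have e : T = (y * x * w) * x := rfl
      rw [e, h.sym]
      have e2 : x * (y * x * w) = x * y * (x * w) := by simp only [mul_assoc]
      rw [e2]
      have : x * y * (x * w) ∈ I ^ 5 := mm (by omega) hxy hxw2
      rw [h5] at this
      rw [(Submodule.mem_bot k).1 this, map_zero]
  · -- one line
    refine top_of_line h (u := x * w * x) (mm (by omega) hxw2 hx') ?_ hV
    refine le_sup_of_forms fun F hF hS => ?_
    have hΘ : F (x * w * x) = 0 := hS _ (Set.mem_singleton _)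
    obtain ⟨r1, r2, r3, r4, r5, r6, -⟩ := hrels F hF
    rw [hΘ] at r2 r3 r4 r5 r6
    simp only [mul_zero, neg_zero] at r2 r3 r4 r5 r6
    have hA : F (y * x * w) = 0 := by
      by_cases hg₁ : g₁ = 0
      · have hg₂ : g₂ - 1 ≠ 0 := fun h' => hcase ⟨hg₁, by linear_combination h'⟩
        exact (mul_eq_zero.1 r4).resolve_left hg₂
      · exact (mul_eq_zero.1 r3).resolve_left hg₁
    have hB : F (w * x * w) = 0 := by
      by_cases hg₁ : g₁ = 0
      · have hg₂ : g₂ - 1 ≠ 0 := fun h' => hcase ⟨hg₁, by linear_combination h'⟩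
        exact (mul_eq_zero.1 r6).resolve_left hg₂
      · exact (mul_eq_zero.1 r5).resolve_left hg₁
    refine vanish_mul h (n := 2) (S := {y * x, w * x, x * w}) (E := {x, y, w}) ?_ hV' hgen hF ?_
    · rintro s₀ (rfl | rfl | rfl)
      · exact hyx2
      · exact hwx2
      · exact hxw2
    · intro s₀ hs e he
      have he' : e = x ∨ e = y ∨ e = w := by simpa using he
      have hs' : s₀ = y * x ∨ s₀ = w * x ∨ s₀ = x * w := by simpa using hs
      have hzl : ∀ {a b d : A}, a * b ∈ I ^ 3 → d ∈ I → F (d * a * b) = 0 := fun hab hd => by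
        rw [mul_assoc]
        exact zero_left hF hab hd
      rcases hs' with hs | hs | hs <;> rcases he' with he | he | he <;> rw [hs, he]
      · exact hzl hxx hy
      · exact hzl hxy hy
      · exact hA
      · exact hzl hxx hw
      · exact hzl hxy hw
      · exact hB
      · exact hΘ
      · exact r1
      · exact r2

end Hne

end Cfsg.Agent.Lib.Blocks.Sym5
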