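import Mathlib
import Cfsg.Agent.Lib.Blocks.Sym5F

/-!
# Symmetric local algebras: second level of dimension three, normalizing the tables
-/

set_option autoImplicit false
set_option linter.unusedSectionVars false
set_option linter.unusedVariables false
set_option linter.style.haveILetI false

namespace Cfsg.Agent.Lib.Blocks.Sym5

open Module MulOpposite Cfsg.Agent.Lib.Blocks.SymLocal Cfsg.Agent.Lib.Blocks.SymCom

section Entry

variable {k A : Type*} [Field k] [Ring A] [Algebra k A] {t : A →ₗ[k] k} {I : Submodule k A}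
variable {x y w : A}

lemma mem_sup3 {p q r u : A} {Y : Submodule k A} (b₁ b₂ b₃ : k) (h : u - (b₁ • p + b₂ • q + b₃ • r) ∈ Y) :
    u ∈ Submodule.span k {p, q, r} ⊔ Y := by
  have e : u = (b₁ • p + b₂ • q + b₃ • r) + (u - (b₁ • p + b₂ • q + b₃ • r)) := by abel
  rw [e]
  refine Submodule.add_mem_sup ?_ h
  exact Submodule.mem_span_triple.2 ⟨b₁, b₂, b₃, rfl⟩

/-- `x y` vanishes at the second level: normalization. -/
theorem hne_B2b_entry (h : LocSym t I) (hx : x ∈ I) (hy : y ∈ I) (hw : w ∈ I) (hxx : x * x ∈ I ^ 3)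
    (hxy : x * y ∈ I ^ 3)
    (hV0 : I ^ 2 ≤ Submodule.span k {y * x, w * x, x * w} ⊔ I ^ 3)
    (hgen : I ≤ Submodule.span k {x, y, w} ⊔ I ^ 2)
    (hV : I ^ 2 ≤ commSpan k A ⊔ I ^ 3) {c₁ c₂ c₃ : k}
    (hc : y * w - w * y - (c₁ • (y * x) + c₂ • (w * x) + c₃ • (x * w)) ∈ I ^ 3) (hne : c₂ + c₃ ≠ 0) :
    I ^ 4 = ⊥ := by
  set c := c₂ + c₃ with hcdef
  obtain ⟨y', hy'⟩ : ∃ y' : A, y = c • y' - c₂ • x :=
    ⟨c⁻¹ • (y + c₂ • x), by rw [smul_smul, mul_inv_cancel₀ hne, one_smul]; abel⟩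
  obtain ⟨w', hw'⟩ : ∃ w' : A, w = w' + c₁ • x := ⟨w - c₁ • x, by abel⟩
  subst hy' hw'
  have hxI := one_mem hx
  have hy'I : y' ∈ I := by
    have : y' = c⁻¹ • ((c • y' - c₂ • x) + c₂ • x) := by
      rw [sub_add_cancel, smul_smul, inv_mul_cancel₀ hne, one_smul]
    rw [this]
    exact I.smul_mem _ (I.add_mem hy (I.smul_mem _ hx))
  have hw'I : w' ∈ I := by
    have : w' = (w' + c₁ • x) - c₁ • x := by abel
    rw [this]
    exact I.sub_mem hw (I.smul_mem _ hx)
  have hxy' : x * y' ∈ I ^ 3 := by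
    have e : x * y' = c⁻¹ • (x * (c • y' - c₂ • x) + c₂ • (x * x)) := by
      rw [mul_sub, mul_smul_comm, mul_smul_comm, sub_add_cancel, smul_smul, inv_mul_cancel₀ hne, one_smul]
    rw [e]
    exact (I ^ 3).smul_mem _ ((I ^ 3).add_mem hxy ((I ^ 3).smul_mem _ hxx))
  refine hne_B2b h hx hy'I hw'I hxx hxy' ?_ ?_ ?_ hV
  · -- normalization
    have e : c • (y' * w' - w' * y' - x * w') =
        ((c • y' - c₂ • x) * (w' + c₁ • x) - (w' + c₁ • x) * (c • y' - c₂ • x) -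
          (c₁ • ((c • y' - c₂ • x) * x) + c₂ • ((w' + c₁ • x) * x) + c₃ • (x * (w' + c₁ • x)))) +
        (c * c₁) • (x * y') + (c₃ * c₁) • (x * x) := by
      simp only [mul_add, add_mul, mul_sub, sub_mul, smul_mul_assoc, mul_smul_comm, smul_add, smul_sub, smul_smul,
        hcdef]
      module
    have h1 : c • (y' * w' - w' * y' - x * w') ∈ I ^ 3 := by
      rw [e]
      exact (I ^ 3).add_mem ((I ^ 3).add_mem hc ((I ^ 3).smul_mem _ hxy')) ((I ^ 3).smul_mem _ hxx)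
    exact (Submodule.smul_mem_iff _ hne).1 h1
  · intro u hu
    obtain ⟨a₁, a₂, a₃, hj⟩ := exists_three (hV0 hu)
    refine mem_sup3 (a₁ * c) a₂ a₃ ?_
    have := (I ^ 3).add_mem hj ((I ^ 3).smul_mem (-(a₁ * c₂) + a₂ * c₁ + a₃ * c₁) hxx)
    convert this using 1
    simp only [mul_add, add_mul, mul_sub, sub_mul, smul_mul_assoc, mul_smul_comm, smul_add, smul_sub, smul_smul]
    module
  · intro u hu
    obtain ⟨a₁, a₂, a₃, hj⟩ := exists_three (hgen hu)
    refine mem_sup3 (a₁ - a₂ * c₂ + a₃ * c₁) (a₂ * c) a₃ ?_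
    convert hj using 1
    simp only [smul_add, smul_sub, smul_smul]
    module

/-- The normalized table with `x w` outside `[x, X]`. -/
theorem hne_norm (h : LocSym t I) (hx : x ∈ I) (hy : y ∈ I) (hw : w ∈ I) (hxx : x * x ∈ I ^ 3) {a₁ a₂ : k}
    (hxy : x * y - (a₁ • (x * y - y * x) + a₂ • (x * w - w * x)) ∈ I ^ 3)
    (hnorm : y * w - w * y - x * w ∈ I ^ 3)
    (hV' : I ^ 2 ≤ Submodule.span k {x * y - y * x, x * w - w * x, x * w} ⊔ I ^ 3)
    (hgen : I ≤ Submodule.span k {x, y, w} ⊔ I ^ 2)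
    (hV : I ^ 2 ≤ commSpan k A ⊔ I ^ 3) : I ^ 4 = ⊥ := by
  by_cases ha₂ : a₂ = 0
  · subst ha₂
    have hxy0 : x * y - a₁ • (x * y - y * x) ∈ I ^ 3 := by simpa using hxy
    by_cases ha₀ : a₁ = 0
    · subst ha₀
      have hxy1 : x * y ∈ I ^ 3 := by simpa using hxy0
      refine hne_B2b h hx hy hw hxx hxy1 hnorm ?_ hgen hV
      intro u hu
      obtain ⟨c₁, c₂, c₃, hj⟩ := exists_three (hV' hu)
      refine mem_sup3 (-c₁) (-c₂) (c₂ + c₃) ?_
      have := (I ^ 3).add_mem hj ((I ^ 3).smul_mem c₁ hxy1)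
      convert this using 1
      simp only [smul_sub, add_smul, neg_smul]
      abel
    by_cases ha₁ : a₁ = 1
    · subst ha₁
      have hyx : y * x ∈ I ^ 3 := by
        have e : y * x = x * y - (1 : k) • (x * y - y * x) := by simp
        rw [e]
        exact hxy0
      apply bot_of_op
      have hV1 : I ^ 2 ≤ Submodule.span k {x * y, x * w, w * x} ⊔ I ^ 3 := by
        intro u hu
        obtain ⟨c₁, c₂, c₃, hj⟩ := exists_three (hV' hu)
        refine mem_sup3 c₁ (c₂ + c₃) (-c₂) ?_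
        have := (I ^ 3).sub_mem hj ((I ^ 3).smul_mem c₁ hyx)
        convert this using 1
        simp only [smul_sub, add_smul, neg_smul]
        abel
      refine hne_B2b_entry (LocSym.opp h) (x := op x) (y := op y) (w := op w) (c₁ := 0) (c₂ := -1) (c₃ := 0)
        (op_mem_opI.2 hx) (op_mem_opI.2 hy) (op_mem_opI.2 hw) (op_mm hxx) (op_mm hyx) ?_ ?_ (op_hV hV) ?_ (by simp)
      · refine op_le_sup ?_ hV1
        rintro _ (rfl | rfl | rfl)
        · rw [op_mul]
          exact Submodule.subset_span (by simp)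
        · rw [op_mul]
          exact Submodule.subset_span (by simp)
        · rw [op_mul]
          exact Submodule.subset_span (by simp)
      · refine op_gen ?_ hgen
        rintro _ (rfl | rfl | rfl) <;> exact Submodule.subset_span (by simp)
      · have h1 := (op_mem_pow (I := I) (n := 3)).2 hnorm
        have h2 := (opI I ^ 3).neg_mem h1
        convert h2 using 1
        simp only [op_sub, op_mul, neg_sub, zero_smul, neg_smul, one_smul, add_zero, zero_add]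
        abel
    · exact hne_B2a h hx hy hw hxx hxy0 hnorm hV' hgen hV ha₀ ha₁
  · exact hne_B1 h hx hy hw hxx hxy hnorm hV' hgen hV ha₂

/-- The coefficient of `[y, w]` in `x w` is one. -/
theorem hne_entry1 (h : LocSym t I) (hx : x ∈ I) (hy : y ∈ I) (hw : w ∈ I) (hxx : x * x ∈ I ^ 3) {a₁ a₂ b₁ b₂ : k}
    (hxy : x * y - (a₁ • (x * y - y * x) + a₂ • (x * w - w * x)) ∈ I ^ 3)
    (hxw : x * w - (b₁ • (x * y - y * x) + b₂ • (x * w - w * x) + (y * w - w * y)) ∈ I ^ 3)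
    (hV3 : I ^ 2 ≤ Submodule.span k {x * y - y * x, x * w - w * x, y * w - w * y} ⊔ I ^ 3)
    (hgen : I ≤ Submodule.span k {x, y, w} ⊔ I ^ 2)
    (hV : I ^ 2 ≤ commSpan k A ⊔ I ^ 3) : I ^ 4 = ⊥ := by
  obtain ⟨y', hy'⟩ : ∃ y' : A, y = y' - b₂ • x := ⟨y + b₂ • x, by abel⟩
  obtain ⟨w', hw'⟩ : ∃ w' : A, w = w' + b₁ • x := ⟨w - b₁ • x, by abel⟩
  subst hy' hw'
  have hy'I : y' ∈ I := by
    have : y' = (y' - b₂ • x) + b₂ • x := by abel
    rw [this]
    exact I.add_mem hy (I.smul_mem _ hx)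
  have hw'I : w' ∈ I := by
    have : w' = (w' + b₁ • x) - b₁ • x := by abel
    rw [this]
    exact I.sub_mem hw (I.smul_mem _ hx)
  refine hne_norm h hx hy'I hw'I hxx (a₁ := a₁) (a₂ := a₂) ?_ ?_ ?_ ?_ hV
  · have := (I ^ 3).add_mem hxy ((I ^ 3).smul_mem b₂ hxx)
    convert this using 1
    simp only [mul_add, add_mul, mul_sub, sub_mul, smul_mul_assoc, mul_smul_comm, smul_add, smul_sub, smul_smul]
    module
  · have := (I ^ 3).add_mem ((I ^ 3).neg_mem hxw) ((I ^ 3).smul_mem b₁ hxx)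
    convert this using 1
    simp only [mul_add, add_mul, mul_sub, sub_mul, smul_mul_assoc, mul_smul_comm, smul_add, smul_sub, smul_smul]
    module
  · intro u hu
    obtain ⟨c₁, c₂, c₃, hj⟩ := exists_three (hV3 hu)
    refine mem_sup3 (c₁ - c₃ * b₁) (c₂ - c₃ * b₂) c₃ ?_
    have := (I ^ 3).add_mem ((I ^ 3).add_mem hj ((I ^ 3).smul_mem (-c₃) hxw)) ((I ^ 3).smul_mem (c₃ * b₁) hxx)
    convert this using 1
    simp only [mul_add, add_mul, mul_sub, sub_mul, smul_mul_assoc, mul_smul_comm, smul_add, smul_sub, smul_smul]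
    module
  · intro u hu
    obtain ⟨a, b, c, hj⟩ := exists_three (hgen hu)
    refine mem_sup3 (a - b * b₂ + c * b₁) b c ?_
    convert hj using 1
    simp only [smul_add, smul_sub, smul_smul]
    module

/-- The coefficient of `[y, w]` in `x w` is nonzero. -/
theorem hne_entry (h : LocSym t I) (hx : x ∈ I) (hy : y ∈ I) (hw : w ∈ I) (hxx : x * x ∈ I ^ 3)
    {a₁ a₂ b₁ b₂ h₂ : k} (hh₂ : h₂ ≠ 0)
    (hxy : x * y - (a₁ • (x * y - y * x) + a₂ • (x * w - w * x)) ∈ I ^ 3)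
    (hxw : x * w - (b₁ • (x * y - y * x) + b₂ • (x * w - w * x) + h₂ • (y * w - w * y)) ∈ I ^ 3)
    (hV3 : I ^ 2 ≤ Submodule.span k {x * y - y * x, x * w - w * x, y * w - w * y} ⊔ I ^ 3)
    (hgen : I ≤ Submodule.span k {x, y, w} ⊔ I ^ 2)
    (hV : I ^ 2 ≤ commSpan k A ⊔ I ^ 3) : I ^ 4 = ⊥ := by
  obtain ⟨x', hx'⟩ : ∃ x' : A, x = h₂ • x' := ⟨h₂⁻¹ • x, by rw [smul_smul, mul_inv_cancel₀ hh₂, one_smul]⟩
  subst hx'
  have hx'I : x' ∈ I := by
    have : x' = h₂⁻¹ • (h₂ • x') := by rw [smul_smul, inv_mul_cancel₀ hh₂, one_smul]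
    rw [this]
    exact I.smul_mem _ hx
  refine hne_entry1 h hx'I hy hw ?_ (a₁ := a₁) (a₂ := a₂) (b₁ := b₁) (b₂ := b₂) ?_ ?_ ?_ ?_ hV
  · have e : h₂ • h₂ • (x' * x') = h₂ • x' * (h₂ • x') := by
      simp only [smul_mul_assoc, mul_smul_comm]
    rw [← e] at hxx
    exact (Submodule.smul_mem_iff _ hh₂).1 ((Submodule.smul_mem_iff _ hh₂).1 hxx)
  · refine (Submodule.smul_mem_iff _ hh₂).1 ?_
    convert hxy using 1
    simp only [mul_smul_comm, smul_mul_assoc, smul_sub, smul_add, ← sub_smul, smul_smul]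
    module
  · refine (Submodule.smul_mem_iff _ hh₂).1 ?_
    convert hxw using 1
    simp only [mul_smul_comm, smul_mul_assoc, smul_sub, smul_add, smul_smul]
    module
  · intro u hu
    obtain ⟨c₁, c₂, c₃, hj⟩ := exists_three (hV3 hu)
    refine mem_sup3 (c₁ * h₂) (c₂ * h₂) c₃ ?_
    convert hj using 1
    simp only [mul_smul_comm, smul_mul_assoc, smul_sub, smul_add, smul_smul]
  · intro u hu
    obtain ⟨a, b, c, hj⟩ := exists_three (hgen hu)
    refine mem_sup3 (a * h₂) b c ?_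
    convert hj using 1
    simp only [smul_smul]

end Entry

end Cfsg.Agent.Lib.Blocks.Sym5
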