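import Mathlib
import Cfsg.Agent.Lib.Blocks.SymCom2

/-!
# Symmetric algebras with simple head and a centre of dimension at most five

`R` is a finite-dimensional algebra over an algebraically closed field with a nondegenerate symmetric linear form and
`R / J(R) ≅ M_n(k)`.  If `dim Z(R) ≤ 5` and the local symmetric algebras with five-dimensional commutator quotient have
dimension at most eleven (the hypothesis `SymFiveBound`), then `dim R ≤ 11 n²`.
-/

set_option autoImplicit false
set_option linter.unusedSectionVars false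
set_option linter.style.haveILetI false

namespace Cfsg.Agent.Lib.Blocks.Sym5Glue

open Module Cfsg.Agent.Lib.Blocks.SymLocal Cfsg.Agent.Lib.Blocks.SymCom

universe v w

/-- The bound on the dimension of symmetric local algebras: the pure algebra input. -/
def SymFiveBound : Prop :=
  ∀ {k : Type v} {A : Type w} [Field k] [Ring A] [Algebra k A] [IsAlgClosed k] [FiniteDimensional k A]
    (t : A →ₗ[k] k) (I : Submodule k A), LocSym t I →
    (∀ u : Fin 6 → A, ∃ c : Fin 6 → k, c ≠ 0 ∧ ∑ i, c i • u i ∈ commSpan k A) → finrank k A ≤ 11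

section Dep

variable {k R : Type*} [Field k] [Ring R] [Algebra k R] [FiniteDimensional k R]

/-- The dependence of any six elements modulo commutators. -/
theorem dep6_of_center (t : R →ₗ[k] k) (ht : ∀ x y, t (x * y) = t (y * x))
    (hnd : ∀ x, (∀ y, t (x * y) = 0) → x = 0) (hZ : finrank k (Subalgebra.center k R) ≤ 5)
    (v : Fin 6 → R) : ∃ c : Fin 6 → k, c ≠ 0 ∧ ∑ i, c i • v i ∈ commSpan k R := by
  classical
  let B : LinearMap.BilinForm k R := LinearMap.mk₂ k (fun x y => t (x * y))
    (fun x y z => by rw [add_mul, map_add]) (fun c x y => by rw [smul_mul_assoc, map_smul])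
    (fun x y z => by rw [mul_add, map_add]) (fun c x y => by rw [mul_smul_comm, map_smul])
  have hB : ∀ x y, B x y = t (x * y) := fun x y => rfl
  have hBn : B.Nondegenerate := by
    constructor
    · intro x hx
      exact hnd x (fun y => hx y)
    · intro x hx
      refine hnd x (fun y => ?_)
      rw [ht]
      exact hx y
  set W := commSpan k R with hW
  have h1 := LinearMap.BilinForm.finrank_orthogonal hBn W
  have h2 : B.orthogonal W ≤ Subalgebra.toSubmodule (Subalgebra.center k R) := by
    intro x hx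
    rw [Subalgebra.mem_toSubmodule, Subalgebra.mem_center_iff]
    intro a
    rw [← sub_eq_zero]
    apply hnd
    intro b
    have h3 : B (b * a - a * b) x = 0 := by
      apply hx
      exact Submodule.subset_span ⟨_, _, rfl⟩
    rw [hB] at h3
    have h4 : t ((a * x - x * a) * b) = t ((b * a - a * b) * x) := by
      simp only [sub_mul, map_sub, mul_assoc]
      rw [ht a (x * b), ht x (a * b), mul_assoc x b a, ht x (b * a)]
      rw [sub_eq_sub_iff_add_eq_add]
      simp only [mul_assoc]
    rw [h4, h3]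
  have h5 : finrank k (B.orthogonal W) ≤ 5 :=
    (Submodule.finrank_mono h2).trans hZ
  have h6 := Submodule.finrank_quotient_add_finrank W
  have h7 : finrank k W ≤ finrank k R := Submodule.finrank_le W
  have h8 : finrank k (R ⧸ W) ≤ 5 := by omega
  let b : Fin 6 → R ⧸ W := fun i => Submodule.Quotient.mk (v i)
  have h9 : ¬ LinearIndependent k b := by
    intro hb
    have := hb.fintype_card_le_finrank
    simp only [Fintype.card_fin] at this
    omega
  rw [Fintype.not_linearIndependent_iff] at h9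
  obtain ⟨g, hg, i, hi⟩ := h9
  refine ⟨g, fun h0 => hi (congrFun h0 i), ?_⟩
  have : (Submodule.Quotient.mk (∑ i, g i • v i) : R ⧸ W) = 0 := by
    have h10 : (Submodule.Quotient.mk (∑ i, g i • v i) : R ⧸ W) = ∑ i, g i • b i := by
      rw [← Submodule.mkQ_apply, map_sum]
      simp [b]
    rw [h10, hg]
  exact (Submodule.Quotient.mk_eq_zero W).1 this

end Dep

section Main

variable {k : Type v} {R : Type w} [Field k] [Ring R] [Algebra k R] [FiniteDimensional k R]

/-- The corner of the matrix units has dimension at most eleven if the centre is small. -/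
theorem corner_finrank_le (hA : SymFiveBound.{v, w}) [IsAlgClosed k] {n : ℕ} [NeZero n] (t : R →ₗ[k] k)
    (ht : ∀ x y, t (x * y) = t (y * x))
    (hnd : ∀ x, (∀ y, t (x * y) = 0) → x = 0) (hZ : finrank k (Subalgebra.center k R) ≤ 5)
    (f : R →ₐ[k] Matrix (Fin n) (Fin n) k) {J : Ideal R} [J.IsTwoSided] (hJ : IsNilpotent J)
    (hker : ∀ x, f x = 0 ↔ x ∈ J)
    {ε : R} {u v : Fin n → R} (hε : IsIdempotentElem ε) (huε : ∀ i, u i * ε = u i) (hvε : ∀ i, ε * v i = v i)
    (hsum : ∑ i, u i * v i = 1) (hvu : ∀ i j, v i * u j = if i = j then ε else 0)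
    (hfε : f ε = Matrix.single 0 0 (1 : k)) :
    finrank k (corner k ε) ≤ 11 := by
  classical
  set A : Submodule k R := corner k ε with hA'
  letI iR : Ring A := cornerRing k hε
  letI iA : Algebra k A := Algebra.ofModule
    (fun c x y => Subtype.ext (by
      change (c • x.1) * y.1 = c • (x.1 * y.1)
      rw [smul_mul_assoc]))
    (fun c x y => Subtype.ext (by
      change x.1 * (c • y.1) = c • (x.1 * y.1)
      rw [mul_smul_comm]))
  have hmul : ∀ x y : A, ((x * y : A) : R) = x.1 * y.1 := fun _ _ => rfl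
  have hone : ((1 : A) : R) = ε := rfl
  let t₀ : A →ₗ[k] k := t ∘ₗ A.subtype
  let I₀ : Submodule k A := (Submodule.restrictScalars k J).comap A.subtype
  have hmemI : ∀ x : A, x ∈ I₀ ↔ x.1 ∈ J := fun x => Iff.rfl
  have hεA : ε ∈ A := ⟨hε.eq, hε.eq⟩
  have hfE : ∀ M : Matrix (Fin n) (Fin n) k,
      Matrix.single 0 0 (1 : k) * M * Matrix.single 0 0 (1 : k) = M 0 0 • Matrix.single 0 0 (1 : k) := by
    intro M
    ext i j
    by_cases hi : i = 0
    · subst hi
      by_cases hj : j = 0
      · subst hj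
        simp [Matrix.mul_apply, Matrix.single_apply]
      · simp [Matrix.mul_apply, Matrix.single_apply, Ne.symm hj]
    · simp [Matrix.mul_apply, Matrix.single_apply, Ne.symm hi]
  have hloc : LocSym t₀ I₀ := by
    refine ⟨fun x y => ht x.1 y.1, ?_, ?_, ?_, ?_, ?_⟩
    · intro x hx
      apply Subtype.ext
      apply hnd
      intro r
      have hr : ε * r * ε ∈ A := ⟨by rw [← mul_assoc, ← mul_assoc, hε.eq], by rw [mul_assoc, hε.eq]⟩
      have h1 := hx ⟨ε * r * ε, hr⟩
      have h2 : t₀ (x * ⟨ε * r * ε, hr⟩) = t (x.1 * (ε * r * ε)) := rfl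
      rw [h2] at h1
      have h3 : t (x.1 * r) = t (x.1 * (ε * r * ε)) := by
        have e1 : x.1 * (ε * r * ε) = (x.1 * ε) * r * ε := by noncomm_ring
        rw [e1, x.2.2]
        calc t (x.1 * r) = t (ε * (x.1 * r)) := by rw [← mul_assoc, x.2.1]
          _ = t (x.1 * r * ε) := ht _ _
      rw [h3, h1]
    · rw [Submodule.mul_le]
      intro x hx y hy
      exact J.mul_mem_left _ hy
    · intro x
      refine ⟨f x.1 0 0, ?_⟩
      change x.1 - f x.1 0 0 • ε ∈ J
      rw [← hker, map_sub, map_smul, hfε]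
      have h1 : f x.1 = f ε * f x.1 * f ε := by
        rw [← map_mul, ← map_mul, x.2.1, x.2.2]
      rw [hfε, hfE] at h1
      conv_lhs => rw [h1]
      simp
    · intro h1
      have h2 : f ε = 0 := (hker _).2 h1
      rw [hfε] at h2
      have h3 := congrFun (congrFun h2 0) 0
      simp at h3
    · obtain ⟨s₀, hs₀⟩ := hJ
      refine ⟨s₀ + 1, ?_⟩
      have hIpow : ∀ s : ℕ, ∀ x ∈ I₀ ^ (s + 1), x.1 ∈ J ^ (s + 1) := by
        intro s
        induction s with
        | zero =>
          intro x hx
          rw [pow_one] at hx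
          rw [Submodule.pow_one]
          exact hx
        | succ s ih =>
          intro x hx
          rw [pow_succ'] at hx
          rw [Ideal.IsTwoSided.pow_succ]
          refine Submodule.mul_induction_on hx (fun a ha b hb => ?_) (fun a b h1 h2 => ?_)
          · exact Ideal.mul_mem_mul ha (ih b hb)
          · exact Ideal.add_mem _ h1 h2
      rw [eq_bot_iff]
      intro x hx
      have h1 := hIpow s₀ x hx
      have h2 : J ^ (s₀ + 1) ≤ J ^ s₀ := Ideal.pow_le_pow_right (Nat.le_succ s₀)
      rw [hs₀] at h2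
      have h3 := h2 h1
      rw [Submodule.mem_bot]
      apply Subtype.ext
      simpa using h3
  -- the transfer from `R` to the corner
  have hvAu : ∀ (r : R) i j, v i * r * u j ∈ A := fun r i j =>
    ⟨by rw [← mul_assoc, ← mul_assoc, hvε], by rw [mul_assoc, huε]⟩
  let T : R →ₗ[k] R := ∑ i, (LinearMap.mulLeft k (v i)) ∘ₗ (LinearMap.mulRight k (u i))
  have hT : ∀ x, T x = ∑ i, v i * (x * u i) := by
    intro x
    simp [T, LinearMap.sum_apply]
  set S : Submodule k R := Submodule.span k {x | ∃ a ∈ A, ∃ b ∈ A, x = a * b - b * a} with hS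
  have hTmul : ∀ c d : R, T (c * d) = ∑ i, ∑ j, (v i * c * u j) * (v j * d * u i) := by
    intro c d
    rw [hT]
    refine Finset.sum_congr rfl fun i _ => ?_
    calc v i * (c * d * u i) = v i * c * 1 * d * u i := by noncomm_ring
      _ = v i * c * (∑ j, u j * v j) * d * u i := by rw [hsum]
      _ = ∑ j, (v i * c * u j) * (v j * d * u i) := by
        simp only [Finset.mul_sum, Finset.sum_mul]
        refine Finset.sum_congr rfl fun j _ => ?_
        noncomm_ring
  have hTcomm : commSpan k R ≤ S.comap T := by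
    apply Submodule.span_le.2
    rintro _ ⟨a, b, rfl⟩
    change T (a * b - b * a) ∈ S
    rw [map_sub, hTmul, hTmul]
    have h1 : ∑ i, ∑ j, (v i * b * u j) * (v j * a * u i) =
        ∑ i, ∑ j, (v j * b * u i) * (v i * a * u j) := Finset.sum_comm
    rw [h1, ← Finset.sum_sub_distrib]
    refine S.sum_mem fun i _ => ?_
    rw [← Finset.sum_sub_distrib]
    refine S.sum_mem fun j _ => ?_
    exact Submodule.subset_span ⟨_, hvAu a i j, _, hvAu b j i, rfl⟩
  have hTA : ∀ a ∈ A, T a - a ∈ S := by
    intro a ha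
    have h1 : a = ∑ i, (a * u i) * (v i * ε) := by
      have : ∑ i, (a * u i) * (v i * ε) = a * (∑ i, u i * v i) * ε := by
        simp only [Finset.mul_sum, Finset.sum_mul]
        refine Finset.sum_congr rfl fun i _ => ?_
        noncomm_ring
      rw [this, hsum, mul_one, ha.2]
    have h2 : T a = ∑ i, (v i * ε) * (a * u i) := by
      rw [hT]
      refine Finset.sum_congr rfl fun i _ => ?_
      rw [mul_assoc (v i) ε, ← mul_assoc ε, ha.1]
    have h3 : T a - a = ∑ i, ((v i * ε) * (a * u i) - (a * u i) * (v i * ε)) := by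
      rw [Finset.sum_sub_distrib, ← h1, ← h2]
    rw [h3]
    refine S.sum_mem fun i _ => Submodule.subset_span ⟨_, ?_, _, ?_, rfl⟩
    · exact ⟨by rw [← mul_assoc, hvε], by rw [mul_assoc, hε.eq]⟩
    · exact ⟨by rw [← mul_assoc, ha.1], by rw [mul_assoc, huε]⟩
  have hcommA : ∀ a ∈ A, a ∈ commSpan k R → a ∈ S := by
    intro a ha hac
    have h1 : T a ∈ S := hTcomm hac
    have h2 := S.sub_mem h1 (hTA a ha)
    simpa using h2
  have hSmap : S ≤ (commSpan k A).map A.subtype := by
    apply Submodule.span_le.2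
    rintro _ ⟨a, ha, b, hb, rfl⟩
    exact ⟨(⟨a, ha⟩ : A) * ⟨b, hb⟩ - (⟨b, hb⟩ : A) * ⟨a, ha⟩, Submodule.subset_span ⟨_, _, rfl⟩, rfl⟩
  have hdep : ∀ w : Fin 6 → A, ∃ c : Fin 6 → k, c ≠ 0 ∧ ∑ i, c i • w i ∈ commSpan k A := by
    intro w
    obtain ⟨c, hc, hmem⟩ := dep6_of_center t ht hnd hZ (fun i => (w i).1)
    refine ⟨c, hc, ?_⟩
    set y : A := ∑ i, c i • w i with hy
    have hy1 : y.1 = ∑ i, c i • (w i).1 := by
      rw [hy]
      simp
    have h1 : y.1 ∈ S := hcommA _ y.2 (by rw [hy1]; exact hmem)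
    obtain ⟨y', hy', he⟩ := hSmap h1
    have : y' = y := Subtype.ext he
    rwa [← this]
  exact hA t₀ I₀ hloc hdep

open Classical in
/-- **Structure theorem.** -/
theorem exists_structure5 (hA : SymFiveBound.{v, w}) [IsAlgClosed k] (t : R →ₗ[k] k) (ht : ∀ x y, t (x * y) = t (y * x))
    (hnd : ∀ x, (∀ y, t (x * y) = 0) → x = 0) (hZ : finrank k (Subalgebra.center k R) ≤ 5) [Nontrivial R]
    (hfac : ∀ (m : ℕ) (d : Fin m → ℕ) (f : R →ₐ[k] (Π i, Matrix (Fin (d i)) (Fin (d i)) k)),
      (∀ i, NeZero (d i)) → Function.Surjective f → m ≤ 1) :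
    ∃ (n : ℕ) (g : R →ₐ[k] Matrix (Fin n) (Fin n) k), 0 < n ∧ Function.Surjective g ∧
      finrank k R ≤ n * n * 11 := by
  haveI : IsArtinianRing R := IsArtinianRing.of_finite k R
  set J := Ring.jacobson R with hJdef
  have hn : IsNilpotent J := IsSemiprimaryRing.isNilpotent
  let q : R →ₐ[k] R ⧸ J := Ideal.Quotient.mkₐ k J
  have hqs : Function.Surjective q := Ideal.Quotient.mk_surjective
  haveI : FiniteDimensional k (R ⧸ J) := Module.Finite.of_surjective q.toLinearMap hqs
  obtain ⟨m, d, hd, ⟨e⟩⟩ := IsSemisimpleRing.exists_algEquiv_pi_matrix_of_isAlgClosed (F := k) (R := R ⧸ J)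
  let f : R →ₐ[k] (Π i, Matrix (Fin (d i)) (Fin (d i)) k) := (e : (R ⧸ J) →ₐ[k] _).comp q
  have hfs : Function.Surjective f := e.surjective.comp hqs
  have hfk : ∀ x, f x = 0 ↔ x ∈ J := by
    intro x
    change e (q x) = 0 ↔ _
    rw [EmbeddingLike.map_eq_zero_iff]
    exact Ideal.Quotient.eq_zero_iff_mem
  have hm0 : m ≠ 0 := by
    rintro rfl
    have h1 : (1 : R) ∈ J := by
      rw [← hfk]
      exact Subsingleton.elim _ _
    have h2 := Ring.jacobson_lt_top R
    exact h2.ne ((Ideal.eq_top_iff_one J).2 h1)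
  have hm1 : m = 1 := by
    have := hfac m d f hd hfs
    omega
  subst hm1
  haveI := hd 0
  let g : R →ₐ[k] Matrix (Fin (d 0)) (Fin (d 0)) k := (Pi.evalAlgHom k _ (0 : Fin 1)).comp f
  have hgs : Function.Surjective g := by
    intro M
    obtain ⟨x, hx⟩ := hfs (Pi.single (0 : Fin 1) M)
    refine ⟨x, ?_⟩
    change f x 0 = M
    rw [hx, Pi.single_eq_same]
  have hgk : ∀ x, g x = 0 ↔ x ∈ J := by
    intro x
    rw [← hfk]
    constructor
    · intro h
      funext i
      have : i = 0 := Subsingleton.elim _ _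
      subst this
      exact h
    · intro h
      change f x 0 = 0
      rw [h]
      rfl
  obtain ⟨ε, u, v, hε, huε, hvε, hsum, hvu, hfε⟩ := exists_matrix_units g hgs hn hgk
  have hcorner : finrank k (corner k ε) ≤ 11 :=
    corner_finrank_le hA t ht hnd hZ g hn hgk hε huε hvε hsum hvu hfε
  have hvAu : ∀ (r : R) i j, v i * r * u j ∈ corner k ε := fun r i j =>
    ⟨by rw [← mul_assoc, ← mul_assoc, hvε], by rw [mul_assoc, huε]⟩
  have hexp : ∀ r : R, r = ∑ i, ∑ j, u i * (v i * r * u j) * v j := by
    intro r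
    calc r = 1 * r * 1 := by simp
      _ = (∑ i, u i * v i) * r * (∑ j, u j * v j) := by rw [hsum]
      _ = _ := by
        simp only [Finset.mul_sum, Finset.sum_mul]
        rw [Finset.sum_comm]
        refine Finset.sum_congr rfl fun i _ => Finset.sum_congr rfl fun j _ => ?_
        noncomm_ring
  refine ⟨d 0, g, Nat.pos_of_ne_zero (NeZero.ne _), hgs, ?_⟩
  -- the dimension
  let Φ : (Fin (d 0) × Fin (d 0) → corner k ε) →ₗ[k] R :=
    { toFun := fun c => ∑ x, u x.1 * (c x : R) * v x.2
      map_add' := by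
        intro a b
        simp [mul_add, add_mul, Finset.sum_add_distrib]
      map_smul' := by
        intro c a
        simp [Finset.smul_sum] }
  have hΦ : Function.Surjective Φ := by
    intro r
    refine ⟨fun x => ⟨v x.1 * r * u x.2, hvAu r x.1 x.2⟩, ?_⟩
    change ∑ x : Fin (d 0) × Fin (d 0), u x.1 * (v x.1 * r * u x.2) * v x.2 = r
    rw [Fintype.sum_prod_type]
    exact (hexp r).symm
  have h1 := LinearMap.finrank_le_finrank_of_surjective hΦ
  have h2 : finrank k (Fin (d 0) × Fin (d 0) → corner k ε) = d 0 * d 0 * finrank k (corner k ε) := by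
    rw [Module.finrank_pi_fintype]
    simp [Finset.sum_const]
  rw [h2] at h1
  exact h1.trans (Nat.mul_le_mul_left _ hcorner)

end Main

section Cut

variable {k : Type v} {A : Type w} [Field k] [Ring A] [Algebra k A] (e : A)

variable [IsAlgClosed k] [FiniteDimensional k A]

/-- The structure theorem, for the direct factor `eA`. -/
theorem exists_structure5_cut (hA : SymFiveBound.{v, w}) (he : e * e = e) (hc : ∀ x, e * x = x * e) (he0 : e ≠ 0)
    (t : A →ₗ[k] k)
    (ht : ∀ x y, t (x * y) = t (y * x)) (hnd : ∀ x, (∀ y, t (x * y) = 0) → x = 0)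
    (Zs : Submodule k A) (hZs : finrank k Zs ≤ 5)
    (hZ : ∀ x, e * x = x → (∀ y, x * y = y * x) → x ∈ Zs)
    (hfac : ∀ (m : ℕ) (d : Fin m → ℕ) (φ : A →ₐ[k] (Π i, Matrix (Fin (d i)) (Fin (d i)) k)),
      (∀ i, NeZero (d i)) → Function.Surjective φ → φ e = 1 → m ≤ 1) :
    ∃ (n : ℕ) (φ : A →ₐ[k] Matrix (Fin n) (Fin n) k), 0 < n ∧ Function.Surjective φ ∧ φ e = 1 ∧
      finrank k (cut k e) ≤ n * n * 11 := by
  classical
  letI iR : Ring (cut k e) := cutRing e he hc
  have hmul : ∀ x y : cut k e, ((x * y : cut k e) : A) = x.1 * y.1 := fun _ _ => rfl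
  have hone : ((1 : cut k e) : A) = e := rfl
  letI iA : Algebra k (cut k e) := Algebra.ofModule
    (fun c x y => Subtype.ext (by
      change (c • x.1) * y.1 = c • (x.1 * y.1)
      rw [smul_mul_assoc]))
    (fun c x y => Subtype.ext (by
      change x.1 * (c • y.1) = c • (x.1 * y.1)
      rw [mul_smul_comm]))
  have hcut : ∀ x : cut k e, e * x.1 = x.1 := fun x => x.2
  have hmemcut : ∀ y : A, e * y ∈ cut k e := fun y => by
    change e * (e * y) = e * y
    rw [← mul_assoc, he]
  -- the form
  let t' : cut k e →ₗ[k] k := t ∘ₗ (cut k e).subtype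
  have ht' : ∀ x y : cut k e, t' (x * y) = t' (y * x) := fun x y => ht x.1 y.1
  have hnd' : ∀ x : cut k e, (∀ y, t' (x * y) = 0) → x = 0 := by
    intro x hx
    apply Subtype.ext
    apply hnd
    intro y
    have h2 := hx ⟨e * y, hmemcut y⟩
    have h3 : x.1 * (e * y) = x.1 * y := by
      rw [← mul_assoc, ← hc, hcut]
    have h4 : t' (x * ⟨e * y, hmemcut y⟩) = t (x.1 * (e * y)) := rfl
    rw [h4, h3] at h2
    exact h2
  -- the centre
  have hcentral : ∀ x : cut k e, x ∈ Subalgebra.center k (cut k e) → ∀ y, x.1 * y = y * x.1 := by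
    intro x hx y
    have h2 : x * ⟨e * y, hmemcut y⟩ = ⟨e * y, hmemcut y⟩ * x :=
      (Subalgebra.mem_center_iff.1 hx ⟨e * y, hmemcut y⟩).symm
    have h3 : x.1 * (e * y) = (e * y) * x.1 := congrArg Subtype.val h2
    calc x.1 * y = x.1 * (e * y) := by rw [← mul_assoc, ← hc, hcut]
      _ = (e * y) * x.1 := h3
      _ = y * x.1 := by rw [hc y, mul_assoc, hcut]
  have hcen : finrank k (Subalgebra.center k (cut k e)) ≤ 5 := by
    let f : Subalgebra.center k (cut k e) →ₗ[k] Zs :=
      { toFun := fun x => ⟨x.1.1, hZ _ x.1.2 (hcentral x.1 x.2)⟩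
        map_add' := fun _ _ => rfl
        map_smul' := fun _ _ => rfl }
    have hf : Function.Injective f := by
      intro x y h
      have h1 := congrArg (fun u : Zs => u.1) h
      exact Subtype.ext (Subtype.ext h1)
    exact (LinearMap.finrank_le_finrank_of_injective hf).trans hZs
  haveI : Nontrivial (cut k e) := ⟨⟨1, 0, fun h => he0 (congrArg Subtype.val h)⟩⟩
  -- the map from `A`
  let π : A →ₐ[k] cut k e :=
    { toFun := fun x => ⟨e * x, hmemcut x⟩
      map_one' := Subtype.ext (mul_one e)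
      map_mul' := fun x y => Subtype.ext (by
        change e * (x * y) = (e * x) * (e * y)
        calc e * (x * y) = (e * e) * (x * y) := by rw [he]
          _ = e * (e * x) * y := by noncomm_ring
          _ = e * (x * e) * y := by rw [hc x]
          _ = (e * x) * (e * y) := by noncomm_ring)
      map_zero' := Subtype.ext (mul_zero e)
      map_add' := fun x y => Subtype.ext (mul_add e x y)
      commutes' := fun c => Subtype.ext (by
        change e * algebraMap k A c = (algebraMap k (cut k e) c).1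
        rw [Algebra.algebraMap_eq_smul_one, Algebra.algebraMap_eq_smul_one, mul_smul_comm, mul_one]
        rfl) }
  have hπs : Function.Surjective π := fun x => ⟨x.1, Subtype.ext (hcut x)⟩
  have hπe : π e = 1 := Subtype.ext he
  have hfac' : ∀ (m : ℕ) (d : Fin m → ℕ) (f : cut k e →ₐ[k] (Π i, Matrix (Fin (d i)) (Fin (d i)) k)),
      (∀ i, NeZero (d i)) → Function.Surjective f → m ≤ 1 := by
    intro m d f hd hf
    refine hfac m d (f.comp π) hd (hf.comp hπs) ?_
    change f (π e) = 1
    rw [hπe, map_one]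
  haveI : FiniteDimensional k (cut k e) := inferInstance
  obtain ⟨n, g, hn, hgs, hdim⟩ := exists_structure5 hA t' ht' hnd' hcen hfac'
  refine ⟨n, g.comp π, hn, hgs.comp hπs, ?_, hdim⟩
  change g (π e) = 1
  rw [hπe, map_one]

end Cut

end Cfsg.Agent.Lib.Blocks.Sym5Glue
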