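import Mathlib
import Cfsg.Agent.Lib.Blocks.Sym5Glue1
import Cfsg.Agent.Lib.Blocks.SymCom3
import Cfsg.Agent.Lib.Blocks.Pim5
import Cfsg.Agent.S4675

/-!
# Blocks with `l(B) = 1` and `k(B) = 5`: the order of the defect group

Granted the bound `SymFiveBound` on symmetric local algebras, `|D| ≤ 11`:

* `sum_sq_le_finrank_cut`: the sum of the squares of the degrees is at most the dimension of the block factor;
* `le_card_of_dec`: the degree of the simple module is at most the number of primitive idempotents of the block;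
* `exists_single_class`: for `l(B) = 1` all these idempotents are conjugate;
* `card_defect_le`: the numerical conclusion.
-/

set_option autoImplicit false
set_option linter.unusedSectionVars false
set_option linter.style.haveILetI false

namespace Cfsg.Agent.Lib.Blocks.Sym5Glue

open Module Cfsg Cfsg.Agent.Lib.Blocks.Local Cfsg.Agent.Lib.Blocks.Central Cfsg.Agent.Lib.Blocks.Osima
open Cfsg.Agent.Lib.Blocks.ModRank Cfsg.Agent.Lib.Blocks.BlockHom Cfsg.Agent.Lib.Blocks.SymLocal
open Cfsg.Agent.Lib.Blocks.ModBlock Cfsg.Agent.Lib.Blocks.SymCom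
open Cfsg.Agent.Lib.Blocks.Covering Cfsg.Agent.Lib.Blocks.Pairs
open Cfsg.Agent.Lib.Blocks.Twisted Cfsg.Agent.Lib.Blocks.Nilp Cfsg.Agent.Lib.Blocks.Sections
open Cfsg.Agent.Lib.Blocks.Regular Cfsg.Agent.Lib.Blocks.SecondMain
open Cfsg.Agent.Lib.Blocks.Pim
open Cfsg.Agent.Lib.Char.Ortho
open scoped ComplexConjugate Cfsg.Agent.Lib.Blocks.Central

universe u

section Mat

variable {k : Type*} [Field k] {n : ℕ}

/-- An idempotent matrix whose corner has no nontrivial idempotents has rank at most one. -/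
lemma exists_gen_of_local (g : Matrix (Fin n) (Fin n) k) (hg : g * g = g)
    (hloc : ∀ x : Matrix (Fin n) (Fin n) k, x * x = x → g * x = x → x * g = x → x = 0 ∨ x = g) :
    ∃ v : Fin n → k, ∀ w, g.mulVec w ∈ Submodule.span k {v} := by
  classical
  by_cases h0 : ∀ w, g.mulVec w = 0
  · exact ⟨0, fun w => by rw [h0 w]; exact Submodule.zero_mem _⟩
  push Not at h0
  obtain ⟨w₀, hw₀⟩ := h0
  set v := g.mulVec w₀ with hv
  refine ⟨v, fun w => ?_⟩
  by_contra hw
  set v' := g.mulVec w with hv'
  have hgg : ∀ u, g.mulVec (g.mulVec u) = g.mulVec u := fun u => by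
    rw [Matrix.mulVec_mulVec, hg]
  have hgv : g.mulVec v = v := hgg w₀
  have hgv' : g.mulVec v' = v' := hgg w
  have hv'0 : v' ≠ 0 := by
    intro h
    apply hw
    rw [h]
    exact Submodule.zero_mem _
  have hnot : v ∉ Submodule.span k {v'} := by
    intro h
    obtain ⟨c, hc⟩ := Submodule.mem_span_singleton.mp h
    have hc0 : c ≠ 0 := by
      rintro rfl
      rw [zero_smul] at hc
      exact hw₀ hc.symm
    apply hw
    refine Submodule.mem_span_singleton.mpr ⟨c⁻¹, ?_⟩
    rw [← hc, smul_smul, inv_mul_cancel₀ hc0, one_smul]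
  obtain ⟨f, hf1, hf2⟩ := Submodule.exists_le_ker_of_notMem hnot
  have hfv' : f v' = 0 := hf2 (Submodule.mem_span_singleton_self v')
  set ψ : (Fin n → k) →ₗ[k] k := (f v)⁻¹ • f with hψ
  have hψv : ψ v = 1 := by
    simp [hψ, inv_mul_cancel₀ hf1]
  have hψv' : ψ v' = 0 := by
    simp [hψ, hfv']
  let X : (Fin n → k) →ₗ[k] (Fin n → k) := (ψ ∘ₗ Matrix.mulVecLin g).smulRight v
  let x : Matrix (Fin n) (Fin n) k := LinearMap.toMatrix' X
  have hx : ∀ u, x.mulVec u = ψ (g.mulVec u) • v := fun u => by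
    simp [x, X, LinearMap.toMatrix'_mulVec]
  have hinj : ∀ A B : Matrix (Fin n) (Fin n) k, (∀ u, A.mulVec u = B.mulVec u) → A = B := fun A B h =>
    Matrix.mulVec_injective (funext h)
  have h1 : x * x = x := hinj _ _ fun u => by
    rw [← Matrix.mulVec_mulVec, hx u, Matrix.mulVec_smul, hx v, hgv, hψv, one_smul]
  have h2 : g * x = x := hinj _ _ fun u => by
    rw [← Matrix.mulVec_mulVec, hx u, Matrix.mulVec_smul, hgv]
  have h3 : x * g = x := hinj _ _ fun u => by
    rw [← Matrix.mulVec_mulVec, hx, hgg, hx]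
  rcases hloc x h1 h2 h3 with h | h
  · have h4 := hx v
    rw [h, hgv, hψv, one_smul, Matrix.zero_mulVec] at h4
    exact hw₀ h4.symm
  · have h4 := hx v'
    rw [h, hgv', hψv', zero_smul] at h4
    exact hv'0 h4

lemma sum_mulVec_aux {ι : Type*} [DecidableEq ι] (s : Finset ι) (g : ι → Matrix (Fin n) (Fin n) k) (w : Fin n → k) :
    (∑ j ∈ s, g j).mulVec w = ∑ j ∈ s, (g j).mulVec w := by
  induction s using Finset.induction_on with
  | empty => simp
  | insert j s hjs ih => rw [Finset.sum_insert hjs, Finset.sum_insert hjs, Matrix.add_mulVec, ih]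

end Mat

variable {G : Type u} [Group G] [Fintype G] {M : Ideal AlgInt} [hM : M.IsPrime]
variable {p : ℕ} [hp : Fact p.Prime] {B : Set (IrrCharacter G)} {a : MonoidAlgebra (localRing M) G}

local notation "kk" => (localRing M ⧸ localIdeal M)

lemma exists_lift_local {y : MonoidAlgebra ℂ G} (hy : LocCoeff M y) :
    ∃ z : MonoidAlgebra (localRing M) G, iota G M z = y :=
  ⟨liftLocal y hy, mapRingHom_liftLocal _ _⟩

lemma locCoeff_iota (x : MonoidAlgebra (localRing M) G) : LocCoeff M (iota G M x) := fun g => by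
  rw [coeff_iota]
  exact (x.coeff g).2

section Nakayama

open Classical in
/-- The sum of the squares of the degrees is at most the dimension of the block factor. -/
theorem sum_sq_le_finrank_cut (ha : iota G M a = blockElt B) :
    ∑ χ ∈ Finset.univ.filter (· ∈ B), (charDegree (χ : G → ℂ)) ^ 2 ≤ finrank kk (cut kk (piR G M a)) := by
  set e := piR G M a with hedef
  let b := Module.finBasis kk (cut kk e)
  choose y₀ hy₀ using fun i => piR_surjective (b i : MonoidAlgebra kk G)
  let u : Fin (finrank kk (cut kk e)) → MonoidAlgebra (localRing M) G := fun i => a * y₀ i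
  have hu : ∀ i, piR G M (u i) = b i := by
    intro i
    simp only [u]
    rw [map_mul, hy₀]
    exact (b i).2
  let N : Submodule (localRing M) (MonoidAlgebra (localRing M) G) :=
    Submodule.span (localRing M) (Set.range u)
  let P : Submodule (localRing M) (MonoidAlgebra (localRing M) G) :=
    Submodule.span (localRing M) (Set.range fun g : G => a * MonoidAlgebra.single g (1 : localRing M))
  have hNa : ∀ y ∈ N, a * y = y := by
    intro y hy
    induction hy using Submodule.span_induction with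
    | mem x hx =>
      obtain ⟨i, rfl⟩ := hx
      simp only [u]
      rw [← mul_assoc, lift_mul_self ha]
    | zero => simp
    | add x y _ _ hx hy => rw [mul_add, hx, hy]
    | smul c x _ hx => rw [mul_smul_comm, hx]
  have hlift : ∀ r, e * r = r → ∃ y ∈ N, piR G M y = r := by
    intro r hr
    have h1 := b.sum_repr ⟨r, hr⟩
    choose d hd using fun i => residue_surjective (M := M) (b.repr ⟨r, hr⟩ i)
    refine ⟨∑ i, d i • u i, N.sum_mem fun i _ => N.smul_mem _ (Submodule.subset_span ⟨i, rfl⟩), ?_⟩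
    rw [map_sum]
    simp only [piR_smul, hu, hd]
    have h2 := congrArg (cut kk e).subtype h1
    simp only [map_sum, map_smul, Submodule.subtype_apply] at h2
    exact h2
  have hnak : P ≤ N := by
    refine Submodule.le_of_le_smul_of_le_jacobson_bot (I := localIdeal M) (Submodule.fg_span (Set.finite_range _))
      localIdeal_le_jacobson ?_
    apply Submodule.span_le.2
    rintro _ ⟨g, rfl⟩
    set x := a * MonoidAlgebra.single g (1 : localRing M) with hx
    have hxa : a * x = x := by
      rw [hx, ← mul_assoc, lift_mul_self ha]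
    have hr : e * piR G M x = piR G M x := by
      rw [hedef, ← map_mul, hxa]
    obtain ⟨y, hyN, hy⟩ := hlift _ hr
    have hd : x - y ∈ (localIdeal M) • P := by
      apply mem_smul_of_piR_eq_zero
      · rw [mul_sub, hxa, hNa y hyN]
      · rw [map_sub, hy, sub_self]
    have : x = y + (x - y) := by abel
    change x ∈ _
    rw [this]
    exact Submodule.add_mem_sup hyN hd
  -- passing to `ℂ`
  let W : Submodule ℂ (MonoidAlgebra ℂ G) := Submodule.span ℂ (Set.range fun i => iota G M (u i))
  have hW : ∀ y ∈ N, iota G M y ∈ W := by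
    intro y hy
    induction hy using Submodule.span_induction with
    | mem x hx =>
      obtain ⟨i, rfl⟩ := hx
      exact Submodule.subset_span ⟨i, rfl⟩
    | zero => simp
    | add x y _ _ hx hy =>
      rw [map_add]
      exact W.add_mem hx hy
    | smul c x _ hx =>
      rw [iota_smul]
      exact W.smul_mem _ hx
  have hle : Submodule.span ℂ (Set.range (fun g : G => blockElt B * MonoidAlgebra.single g (1 : ℂ))) ≤ W := by
    apply Submodule.span_le.2
    rintro _ ⟨g, rfl⟩
    have h1 := hW _ (hnak (Submodule.subset_span ⟨g, rfl⟩ : a * MonoidAlgebra.single g (1 : localRing M) ∈ P))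
    rw [map_mul, ha, iota_single] at h1
    exact h1
  have h1 := Submodule.finrank_mono hle
  rw [finrank_span_blockElt] at h1
  have h2 : finrank ℂ W ≤ finrank kk (cut kk e) := by
    refine (finrank_range_le_card _).trans ?_
    simp
  exact h1.trans h2

end Nakayama

section Rank

open Classical in
/-- The size of the matrix algebra is at most the number of primitive idempotents. -/
theorem le_card_of_dec (hMp : IsPModular p M) (ha : iota G M a = blockElt B) {n : ℕ}
    (φ : MonoidAlgebra kk G →ₐ[kk] Matrix (Fin n) (Fin n) kk) (hφ : Function.Surjective φ)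
    (he : φ (piR G M a) = 1) {J : Finset (MonoidAlgebra ℂ G)} (hJ : Dec M ⊥ (blockElt B) J) : n ≤ J.card := by
  have hex : ∀ j ∈ J, ∃ z : MonoidAlgebra (localRing M) G, iota G M z = j := fun j hj =>
    exists_lift_local (hJ.prim j hj).loc
  choose! l hl using hex
  let g : MonoidAlgebra ℂ G → Matrix (Fin n) (Fin n) kk := fun j => φ (piR G M (l j))
  have hlidem : ∀ j ∈ J, l j * l j = l j := fun j hj => iota_injective (by
    rw [map_mul, hl j hj, (hJ.prim j hj).idem])
  have hgidem : ∀ j ∈ J, g j * g j = g j := fun j hj => by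
    simp only [g]
    rw [← map_mul, ← map_mul, hlidem j hj]
  have hlsum : ∑ j ∈ J, l j = a := iota_injective (by
    rw [map_sum, ha, ← hJ.sum]
    exact Finset.sum_congr rfl fun j hj => hl j hj)
  have hgsum : ∑ j ∈ J, g j = 1 := by
    simp only [g]
    rw [← map_sum, ← map_sum, hlsum, he]
  have hloc : ∀ j ∈ J, ∀ x : Matrix (Fin n) (Fin n) kk, x * x = x → g j * x = x → x * g j = x →
      x = 0 ∨ x = g j := by
    intro j hj x hx1 hx2 hx3
    obtain ⟨y, rfl⟩ := hφ x
    obtain ⟨z, rfl⟩ := piR_surjective y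
    set x := φ (piR G M z) with hxdef
    have hjp := hJ.prim j hj
    set c := l j * z * l j with hc
    have hcc : iota G M c = j * iota G M z * j := by
      rw [hc, map_mul, map_mul, hl j hj]
    have hbc : Cor M ⊥ j (iota G M c) := by
      rw [hcc]
      exact hjp.cor_sandwich (locCoeff_iota z) (invBy_bot _)
    have hφc : φ (piR G M c) = x := by
      rw [hc, map_mul, map_mul, map_mul, map_mul]
      change g j * x * g j = x
      rw [hx2, hx3]
    by_cases hr : rsd M j (iota G M c) = 0
    · have h1 : rsd M j (j - iota G M c) = 1 := by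
        have h2 := hjp.rsd_add hMp (hjp.loc.sub hbc.loc) (invBy_bot _) hbc.loc hbc.inv
        rw [sub_add_cancel, hjp.rsd_self hMp, hr, add_zero] at h2
        exact h2.symm
      obtain ⟨v, hv, hv1, -⟩ := hjp.exists_inv_of_rsd hMp (hjp.cor_self.sub hbc) (by rw [h1]; exact one_ne_zero)
      obtain ⟨w, hw⟩ := exists_lift_local hv.loc
      have e1 : (l j - c) * w = l j := iota_injective (by
        rw [map_mul, map_sub, hl j hj, hw, hv1])
      have e2 : (g j - x) * φ (piR G M w) = g j := by
        have h3 := congrArg (fun t => φ (piR G M t)) e1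
        simp only [map_mul, map_sub, hφc] at h3
        exact h3
      left
      calc x = x * g j := hx3.symm
        _ = x * ((g j - x) * φ (piR G M w)) := by rw [e2]
        _ = (x * g j - x * x) * φ (piR G M w) := by noncomm_ring
        _ = 0 := by rw [hx3, hx1, sub_self, zero_mul]
    · obtain ⟨v, hv, hv1, -⟩ := hjp.exists_inv_of_rsd hMp hbc hr
      obtain ⟨w, hw⟩ := exists_lift_local hv.loc
      have e1 : c * w = l j := iota_injective (by
        rw [map_mul, hl j hj, hw, hv1])
      have e2 : x * φ (piR G M w) = g j := by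
        have h3 := congrArg (fun t => φ (piR G M t)) e1
        simp only [map_mul, hφc] at h3
        exact h3
      right
      have h4 : g j - x = 0 := by
        calc g j - x = (g j - x) * g j := by rw [sub_mul, hgidem j hj, hx3]
          _ = (g j - x) * (x * φ (piR G M w)) := by rw [e2]
          _ = (g j * x - x * x) * φ (piR G M w) := by noncomm_ring
          _ = 0 := by rw [hx2, hx1, sub_self, zero_mul]
      exact (sub_eq_zero.mp h4).symm
  have hgen : ∀ j ∈ J, ∃ v : Fin n → kk, ∀ w, (g j).mulVec w ∈ Submodule.span kk {v} := fun j hj =>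
    exists_gen_of_local (g j) (hgidem j hj) (hloc j hj)
  choose! v hv using hgen
  have htop : (⊤ : Submodule kk (Fin n → kk)) ≤ Submodule.span kk ((J.image v : Finset _) : Set (Fin n → kk)) := by
    intro w _
    have h1 : w = ∑ j ∈ J, (g j).mulVec w := by
      have h2 : (∑ j ∈ J, g j).mulVec w = w := by rw [hgsum, Matrix.one_mulVec]
      rw [← sum_mulVec_aux J g w, h2]
    rw [h1]
    refine Submodule.sum_mem _ fun j hj => ?_
    refine Submodule.span_mono ?_ (hv j hj w)
    intro t ht
    rw [Set.mem_singleton_iff] at ht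
    rw [ht]
    exact Finset.mem_coe.mpr (Finset.mem_image_of_mem v hj)
  have h1 := Submodule.finrank_mono htop
  rw [finrank_top, Module.finrank_fin_fun] at h1
  calc n ≤ _ := h1
    _ ≤ (J.image v).card := by
      have := finrank_span_finset_le_card (R := kk) (J.image v)
      exact this
    _ ≤ J.card := Finset.card_image_le

end Rank

section Single

open Classical in
lemma classInner_sum_nat (f : IrrCharacter G → ℕ) {ψ : IrrCharacter G} (hψ : ψ ∈ B) :
    classInner (ψ : G → ℂ) (∑ χ ∈ (Finset.univ : Finset (IrrCharacter G)).filter (· ∈ B), (f χ : ℂ) • (χ : G → ℂ)) =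
      (f ψ : ℂ) := by
  rw [classInner_sum_right]
  rw [Finset.sum_eq_single ψ]
  · rw [classInner_smul_right, classInner_irr_self ψ.2, mul_one, Complex.conj_natCast]
  · intro χ _ hne
    rw [classInner_smul_right, classInner_irr_of_ne ψ.2 χ.2 (fun h => hne (Subtype.ext h.symm)), mul_zero]
  · intro h
    exact absurd (Finset.mem_filter.mpr ⟨Finset.mem_univ _, hψ⟩) h

open Classical in
/-- For `l(B) = 1` all primitive idempotents of the block are conjugate. -/
theorem exists_single_class (hMp : IsPModular p M) (hB : IsPBlock M B) {D : Subgroup G}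
    (hD : IsDefectGroup p M B D) (hl : blockRank p B = 1) :
    ∃ (J : Finset (MonoidAlgebra ℂ G)) (r : MonoidAlgebra ℂ G), Dec M ⊥ (blockElt B) J ∧ r ∈ J ∧
      ∀ j ∈ J, PEquiv M j r := by
  obtain ⟨J, R, hJ, hRs, hRJ, hR⟩ := exists_blockDec hB
  obtain ⟨φ, d, -, hφ, -⟩ := Cfsg.Agent.S4675.result p M hMp B hB D hD hl
  have hrp : ∀ r ∈ R, IsPrimIdem M ⊥ r := fun r hr => hJ.prim r (hRs hr)
  have hnat : ∀ (χ : IrrCharacter G) (r : MonoidAlgebra ℂ G), ∃ n : ℕ, r ∈ R → twTrace (χ : G → ℂ) 1 r = n := by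
    intro χ r
    by_cases hr : r ∈ R
    · obtain ⟨n, hn⟩ := exists_nat_twTrace_idem
        (Cfsg.Agent.Lib.Char.Basic.isCharacter_of_isIrrCharacter χ.2) (hrp r hr).idem
      exact ⟨n, fun _ => hn⟩
    · exact ⟨0, fun h => absurd h hr⟩
  choose dd hdd using hnat
  set F := (Finset.univ : Finset (IrrCharacter G)).filter (· ∈ B) with hF
  let c : MonoidAlgebra ℂ G → ℕ := fun r => ∑ χ ∈ F, dd χ r * d χ
  have hreg1 : IsPRegular p (1 : G) := by
    show ¬ p ∣ orderOf (1 : G)
    rw [orderOf_one]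
    exact fun h => hp.out.one_lt.ne' (Nat.dvd_one.mp h)
  have hd0 : ∀ χ ∈ B, d χ ≠ 0 := by
    intro χ hχ h0
    have h1 := hφ χ hχ 1 hreg1
    rw [h0] at h1
    simp only [Nat.cast_zero, zero_mul] at h1
    exact Cfsg.Agent.Lib.Char.Ortho.irr_apply_one_ne_zero χ.2 h1
  have hcpos : ∀ r ∈ R, c r ≠ 0 := by
    intro r hr h0
    obtain ⟨χ, hχ, hne⟩ := exists_char_ne hMp hB hJ hRs hR hr
    have h1 := (Finset.sum_eq_zero_iff.mp h0) χ (Finset.mem_filter.mpr ⟨Finset.mem_univ _, hχ⟩)
    rcases Nat.mul_eq_zero.mp h1 with h2 | h2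
    · apply hne
      rw [hdd χ r hr, h2]
      simp
    · exact hd0 χ hχ h2
  have hval : ∀ r ∈ R, ∀ x, (∑ χ ∈ F, (dd χ r : ℂ) • (χ : G → ℂ)) x = (c r : ℂ) * reg p φ x := by
    intro r hr x
    rw [Finset.sum_apply]
    simp only [Pi.smul_apply, smul_eq_mul]
    by_cases hx : p ∣ orderOf x
    · rw [reg_of_dvd _ hx, mul_zero]
      have h1 := sum_conj_twTrace x r
      rw [Cfsg.Agent.Lib.Blocks.Hattori.classTrace_eq_zero_of_idempotent hMp r (hrp r hr).idem (hrp r hr).loc x hx,
        mul_zero] at h1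
      have h2 : conj (∑ χ ∈ F, (dd χ r : ℂ) * (χ : G → ℂ) x) = 0 := by
        rw [map_sum, ← h1, hF, Finset.sum_filter]
        refine Finset.sum_congr rfl fun χ _ => ?_
        by_cases hχ : χ ∈ B
        · rw [if_pos hχ, map_mul, Complex.conj_natCast, hdd χ r hr, mul_comm]
        · rw [if_neg hχ, twTrace_of_notMem hχ (hJ.mul_left (hRs hr)), mul_zero]
      exact (map_eq_zero _).mp h2
    · rw [reg_of_not_dvd _ hx]
      simp only [c]
      push_cast
      rw [Finset.sum_mul]
      refine Finset.sum_congr rfl fun χ hχ => ?_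
      rw [hφ χ (Finset.mem_filter.mp hχ).2 x hx]
      ring
  have huniq : ∀ r ∈ R, ∀ s ∈ R, r = s := by
    intro r hr s hs
    by_contra hne
    have hfun : (c s : ℂ) • (∑ χ ∈ F, (dd χ r : ℂ) • (χ : G → ℂ)) = (c r : ℂ) • (∑ χ ∈ F, (dd χ s : ℂ) • (χ : G → ℂ)) := by
      funext x
      rw [Pi.smul_apply, Pi.smul_apply, hval r hr, hval s hs]
      simp only [smul_eq_mul]
      ring
    have hrel : ∀ ψ ∈ B, (c s : ℂ) * dd ψ r = (c r : ℂ) * dd ψ s := by
      intro ψ hψ
      have h1 := congrArg (fun t => classInner (ψ : G → ℂ) t) hfun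
      have e1 : classInner (ψ : G → ℂ) (∑ χ ∈ F, (dd χ r : ℂ) • (χ : G → ℂ)) = dd ψ r :=
        classInner_sum_nat (fun χ => dd χ r) hψ
      have e2 : classInner (ψ : G → ℂ) (∑ χ ∈ F, (dd χ s : ℂ) • (χ : G → ℂ)) = dd ψ s :=
        classInner_sum_nat (fun χ => dd χ s) hψ
      simp only [classInner_smul_right, Complex.conj_natCast] at h1
      rw [e1, e2] at h1
      exact h1
    have hsub : ({r, s} : Finset (MonoidAlgebra ℂ G)) ⊆ J := by
      intro t ht
      rcases Finset.mem_insert.mp ht with rfl | ht'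
      · exact hRs hr
      · rw [Finset.mem_singleton] at ht'
        rw [ht']
        exact hRs hs
    have hR' : ∀ t ∈ ({r, s} : Finset (MonoidAlgebra ℂ G)), ∀ t' ∈ ({r, s} : Finset (MonoidAlgebra ℂ G)),
        PEquiv M t t' → t = t' := by
      have hsub' : ∀ t ∈ ({r, s} : Finset (MonoidAlgebra ℂ G)), t ∈ R := by
        intro t ht
        rcases Finset.mem_insert.mp ht with rfl | ht'
        · exact hr
        · rw [Finset.mem_singleton] at ht'
          rw [ht']
          exact hs
      exact fun t ht t' ht' => hR t (hsub' t ht) t' (hsub' t' ht')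
    have h0 := eq_zero_of_sum_eq_zero hMp hJ (E_loc hB) E_idem E_comm hsub hR'
      (fun t => if t = r then (c s : ℤ) else -(c r : ℤ)) ?_ (Finset.mem_insert_self r _)
    · simp only [if_true] at h0
      exact hcpos s hs (by exact_mod_cast h0)
    · intro χ
      rw [Finset.sum_pair hne]
      simp only [if_true, if_neg (Ne.symm hne)]
      by_cases hχ : χ ∈ B
      · rw [hdd χ r hr, hdd χ s hs]
        push_cast
        rw [hrel χ hχ]
        ring
      · rw [twTrace_of_notMem hχ (hJ.mul_left (hRs hr)), twTrace_of_notMem hχ (hJ.mul_left (hRs hs))]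
        simp
  have hRne : R.Nonempty := by
    by_contra h
    rw [Finset.not_nonempty_iff_eq_empty] at h
    obtain ⟨χ₀, hχ₀⟩ := isPBlock_nonempty hB
    have h1 := twTrace_sum_Nm hJ hRs hRJ hR (isClassFunction_of_irr χ₀.2)
    rw [twTrace_blockElt, omega_blockElt_of_mem hχ₀, one_mul, h] at h1
    simp only [Finset.sum_empty] at h1
    exact Cfsg.Agent.Lib.Char.Ortho.irr_apply_one_ne_zero χ₀.2 h1
  obtain ⟨r, hr⟩ := hRne
  refine ⟨J, r, hJ, hRs hr, fun j hj => ?_⟩
  obtain ⟨t, ht, hjt⟩ := hRJ j hj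
  rwa [huniq t ht r hr] at hjt

end Single

section Main

/-- Five positive squares with a sum at most eleven. -/
lemma five_squares {X : Type*} (F : Finset X) (d : X → ℕ) {N : ℕ} (hF : F.card = 5) (hd : ∀ χ ∈ F, d χ ≠ 0)
    (hsum : ∑ χ ∈ F, d χ ^ 2 = N) (hN : N ≤ 11) : N = 5 ∨ N = 8 ∨ N = 11 := by
  classical
  have hpos : ∀ χ ∈ F, 1 ≤ d χ ^ 2 := fun χ hχ => Nat.one_le_pow _ _ (Nat.pos_of_ne_zero (hd χ hχ))
  have hbig : ∀ χ ∈ F, d χ ≠ 1 → 4 ≤ d χ ^ 2 := fun χ hχ h1 => by
    have h2 : 2 ≤ d χ := by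
      have := hd χ hχ
      omega
    nlinarith
  set T := F.filter (fun χ => d χ ≠ 1) with hT
  have hsplit : N = ∑ χ ∈ T, d χ ^ 2 + ∑ χ ∈ F.filter (fun χ => ¬ d χ ≠ 1), d χ ^ 2 := by
    rw [hT, Finset.sum_filter_add_sum_filter_not, hsum]
  have hone : ∑ χ ∈ F.filter (fun χ => ¬ d χ ≠ 1), d χ ^ 2 = (F.filter (fun χ => ¬ d χ ≠ 1)).card := by
    rw [Finset.card_eq_sum_ones]
    refine Finset.sum_congr rfl fun χ hχ => ?_
    have h1 := (Finset.mem_filter.mp hχ).2
    push Not at h1
    rw [h1]
    rfl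
  have hcards : T.card + (F.filter (fun χ => ¬ d χ ≠ 1)).card = 5 := by
    rw [hT, Finset.card_filter_add_card_filter_not, hF]
  have hge : T.card * 4 ≤ ∑ χ ∈ T, d χ ^ 2 := by
    rw [Finset.card_eq_sum_ones, Finset.sum_mul]
    refine Finset.sum_le_sum fun χ hχ => ?_
    have h1 := Finset.mem_filter.mp hχ
    simpa using hbig χ h1.1 h1.2
  rcases Nat.lt_or_ge 2 T.card with h3 | h3
  · exfalso
    omega
  · have hT2 : T.card = 0 ∨ T.card = 1 ∨ T.card = 2 := by omega
    rcases hT2 with h0 | h1 | h2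
    · left
      rw [Finset.card_eq_zero] at h0
      rw [h0] at hsplit hcards
      simp only [Finset.sum_empty, Finset.card_empty] at hsplit hcards
      omega
    · -- one large square: it is four
      right
      left
      obtain ⟨χ, hχ⟩ := Finset.card_eq_one.mp h1
      rw [hχ, Finset.sum_singleton] at hsplit
      have hχT : χ ∈ T := by rw [hχ]; exact Finset.mem_singleton_self χ
      have h4 := Finset.mem_filter.mp hχT
      have h5 := hbig χ h4.1 h4.2
      have h6 : d χ ^ 2 ≤ 7 := by omega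
      have h7 : d χ < 3 := by
        by_contra hc
        push Not at hc
        nlinarith
      have h8 : d χ = 2 := by
        have := hd χ h4.1
        have := h4.2
        omega
      rw [h8] at hsplit
      omega
    · right
      right
      omega

open Classical in
/-- **The numerical conclusion.** -/
theorem card_defect_le (hA : SymFiveBound.{0, u}) (hMp : IsPModular p M) (hB : IsPBlock M B) {D : Subgroup G}
    (hD : IsDefectGroup p M B D) (hl : blockRank p B = 1) (hk : (Finset.univ.filter (· ∈ B)).card = 5) :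
    Nat.card D = 5 ∨ Nat.card D = 8 ∨ Nat.card D = 11 := by
  have hBc : blockElt B ∈ localCenter G M := blockElt_mem_localCenter hB
  let a : MonoidAlgebra (localRing M) G := lcL (blockElt B) hBc
  have ha : iota G M a = blockElt B := iota_lcL _ _
  haveI : IsAlgClosed kk := isAlgClosed_residue
  set Zs := Submodule.span kk (Set.range fun K : ConjClasses G => piR G M a * piR G M (csL K.out)) with hZs
  have hZs5 : finrank kk Zs ≤ 5 := (finrank_span_mul_csL_le B a ha).trans hk.le
  have hkZ : (Finset.univ.filter (· ∈ B)).card ≤ finrank kk Zs := card_le_finrank_span_mul_csL ha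
  have hZ : ∀ x, piR G M a * x = x → (∀ y, x * y = y * x) → x ∈ Zs := by
    intro x hx hxc
    rw [← hx, eq_sum_piR_csL hxc, Finset.mul_sum]
    refine Submodule.sum_mem _ fun K _ => ?_
    rw [mul_smul_comm]
    exact Submodule.smul_mem _ _ (Submodule.subset_span ⟨K, rfl⟩)
  have he0 : piR G M a ≠ 0 := by
    intro h0
    have h1 : Zs = ⊥ := by
      rw [hZs, h0]
      simp
    rw [h1, finrank_bot, hk] at hkZ
    omega
  obtain ⟨n, φ, hn, hφs, hφe, hdim⟩ := exists_structure5_cut (piR G M a) hA (piR_mul_self ha) (piR_comm ha) he0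
    (tr1 _) (tr1_comm _) (tr1_nondeg _) Zs hZs5 hZ (fun m d φ hd hφ he => by
      have := card_le_blockRank hMp ha φ hd hφ he
      omega)
  have hsq := sum_sq_le_finrank_cut ha
  obtain ⟨J, r, hJ, hrJ, hJr⟩ := exists_single_class hMp hB hD hl
  have hnJ : n ≤ J.card := le_card_of_dec hMp ha φ hφs hφe hJ
  obtain ⟨ψ, d, ⟨nn, hnn⟩, hψ, hsumd⟩ := Cfsg.Agent.S4675.result p M hMp B hB D hD hl
  have hreg1 : IsPRegular p (1 : G) := by
    show ¬ p ∣ orderOf (1 : G)
    rw [orderOf_one]
    exact fun h => hp.out.one_lt.ne' (Nat.dvd_one.mp h)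
  rw [Cfsg.Agent.Lib.Blocks.Osima.finsum_mem_eq_sum_filter] at hsumd
  -- the multiplicities
  have hrp := hJ.prim r hrJ
  have htr : ∀ χ : IrrCharacter G, ∃ t : ℕ, twTrace (χ : G → ℂ) 1 r = t := fun χ =>
    exists_nat_twTrace_idem (Cfsg.Agent.Lib.Char.Basic.isCharacter_of_isIrrCharacter χ.2) hrp.idem
  choose t ht using htr
  have hdeg : ∀ χ ∈ B, (χ : G → ℂ) 1 = (J.card : ℂ) * t χ := by
    intro χ hχ
    have hcl := isClassFunction_of_irr χ.2
    have h1 : twTrace (χ : G → ℂ) 1 (blockElt B) = ∑ j ∈ J, twTrace (χ : G → ℂ) 1 j := by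
      rw [← hJ.sum, twTrace_sum]
    rw [twTrace_blockElt, omega_blockElt_of_mem hχ, one_mul] at h1
    rw [h1, Finset.sum_congr rfl (fun j hj => (hJr j hj).twTrace_eq hcl), Finset.sum_const, nsmul_eq_mul, ht]
  obtain ⟨χ₀, hχ₀⟩ := isPBlock_nonempty hB
  -- the degree of `ψ`
  set m : ℤ := ∑ η ∈ (Finset.univ : Finset (IrrCharacter G)).filter (· ∈ B), nn η * (t η : ℤ) with hm
  have hψ1 : ψ 1 = (J.card : ℂ) * (m : ℂ) := by
    rw [hnn 1 hreg1, Cfsg.Agent.Lib.Blocks.Osima.finsum_mem_eq_sum_filter, hm]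
    push_cast
    rw [Finset.mul_sum]
    refine Finset.sum_congr rfl fun η hη => ?_
    rw [hdeg η (Finset.mem_filter.mp hη).2]
    ring
  have hJ0 : (J.card : ℂ) ≠ 0 := by
    intro h0
    have h1 := hdeg χ₀ hχ₀
    rw [h0, zero_mul] at h1
    exact Cfsg.Agent.Lib.Char.Ortho.irr_apply_one_ne_zero χ₀.2 h1
  have hJpos : 0 < J.card := by
    rcases Nat.eq_zero_or_pos J.card with h | h
    · exact absurd (by rw [h]; simp) hJ0
    · exact h
  have hrel : ∀ χ ∈ B, ((t χ : ℤ) : ℂ) = ((d χ : ℤ) * m : ℤ) := by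
    intro χ hχ
    have h1 := hψ χ hχ 1 hreg1
    rw [hdeg χ hχ, hψ1] at h1
    have h2 : (J.card : ℂ) * (t χ : ℂ) = (J.card : ℂ) * ((d χ : ℂ) * (m : ℂ)) := by
      rw [h1]
      ring
    have h3 := mul_left_cancel₀ hJ0 h2
    push_cast
    exact h3
  have hrelZ : ∀ χ ∈ B, (t χ : ℤ) = (d χ : ℤ) * m := fun χ hχ => by exact_mod_cast hrel χ hχ
  have ht0 : ∀ χ ∈ B, t χ ≠ 0 := by
    intro χ hχ h0
    have h1 := hdeg χ hχ
    rw [h0] at h1
    simp only [Nat.cast_zero, mul_zero] at h1
    exact Cfsg.Agent.Lib.Char.Ortho.irr_apply_one_ne_zero χ.2 h1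
  have hmpos : 0 < m := by
    have h1 := hrelZ χ₀ hχ₀
    have h2 : (0 : ℤ) < t χ₀ := by exact_mod_cast Nat.pos_of_ne_zero (ht0 χ₀ hχ₀)
    have h3 : (0 : ℤ) ≤ d χ₀ := by positivity
    by_contra hn'
    push Not at hn'
    have h4 : (d χ₀ : ℤ) * m ≤ 0 := mul_nonpos_of_nonneg_of_nonpos h3 hn'
    omega
  obtain ⟨m', hm'⟩ := Int.eq_ofNat_of_zero_le hmpos.le
  have hm'pos : 0 < m' := by
    rw [hm'] at hmpos
    exact_mod_cast hmpos
  -- the degrees
  have hdg : ∀ χ ∈ B, charDegree (χ : G → ℂ) = d χ * (J.card * m') := by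
    intro χ hχ
    have h1 := hψ χ hχ 1 hreg1
    rw [charDegree_cast_irr, hψ1, hm'] at h1
    have h2 : (charDegree (χ : G → ℂ) : ℂ) = ((d χ * (J.card * m') : ℕ) : ℂ) := by
      rw [h1]
      push_cast
      ring
    exact_mod_cast h2
  have hsum : ∑ χ ∈ Finset.univ.filter (· ∈ B), (charDegree (χ : G → ℂ)) ^ 2 =
      (J.card * m') ^ 2 * Nat.card D := by
    rw [← hsumd, Finset.mul_sum]
    refine Finset.sum_congr rfl fun χ hχ => ?_
    rw [hdg χ (Finset.mem_filter.mp hχ).2]
    ring
  rw [hsum] at hsq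
  have hle11 : Nat.card D ≤ 11 := by
    have h1 : (J.card * m') ^ 2 * Nat.card D ≤ (J.card * m') ^ 2 * 11 := by
      calc (J.card * m') ^ 2 * Nat.card D ≤ n * n * 11 := hsq.trans hdim
        _ ≤ J.card * J.card * 11 := by
          exact Nat.mul_le_mul_right _ (Nat.mul_le_mul hnJ hnJ)
        _ ≤ (J.card * m') ^ 2 * 11 := by
          refine Nat.mul_le_mul_right _ ?_
          rw [sq]
          exact Nat.mul_le_mul (Nat.le_mul_of_pos_right _ hm'pos) (Nat.le_mul_of_pos_right _ hm'pos)
    exact Nat.le_of_mul_le_mul_left h1 (by positivity)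
  -- the five squares
  have hdpos : ∀ χ ∈ Finset.univ.filter (· ∈ B), d χ ≠ 0 := by
    intro χ hχ h0
    have h2 := hrelZ χ (Finset.mem_filter.mp hχ).2
    rw [h0] at h2
    have := ht0 χ (Finset.mem_filter.mp hχ).2
    simp at h2
    exact this h2
  exact five_squares _ _ hk hdpos hsumd hle11

end Main

end Cfsg.Agent.Lib.Blocks.Sym5Glue
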