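import Mathlib
import Cfsg.Agent.S4648
import Cfsg.Agent.S4637
import Cfsg.Agent.S4733
import Cfsg.Agent.S4494
import Cfsg.Agent.Lib.Dade.DU
import Cfsg.Agent.Lib.Blocks.Pim17

/-!
# Blocks with `l(B) = 1` and `k(B) = 5`: abelian defect groups of order eight do not occur

`k(B) = l(B) + ∑_{y ∈ D#/T} l(f_y)`; the number of orbits of the odd order inertial group on `D#` is odd, and each
`l(f_y)` is odd since `f_y` has a central involution whose quotient block has defect at most two.
-/

set_option autoImplicit false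
set_option linter.unusedSectionVars false
set_option linter.style.haveILetI false

namespace Cfsg.Agent.Lib.Blocks.Sym5Glue

open Cfsg
open Cfsg.Agent.Lib.Blocks.Pairs Cfsg.Agent.Lib.Blocks.AbelianCount Cfsg.Agent.Lib.Blocks.KleinFour
  Cfsg.Agent.Lib.Blocks.CentralQuot Cfsg.Agent.Lib.Blocks.Sections Cfsg.Agent.Lib.Blocks.Regular
open Cfsg.Agent.Lib.Blocks.Local Cfsg.Agent.Lib.Blocks.Central Cfsg.Agent.Lib.Blocks.RegInt
open Cfsg.Agent.Lib.Blocks.BrauerFeit Cfsg.Agent.Lib.Blocks.RegNorm
open Cfsg.Agent.Lib.Blocks.BlockCount Cfsg.Agent.Lib.Blocks.Cartan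

universe u

section Quot

variable {H : Type u} [Group H] [Fintype H] {M : Ideal AlgInt} [hMp : M.IsPrime] {p : ℕ} [hp : Fact p.Prime]

lemma apply_eq_zero_of_regSpan {A : Set (IrrCharacter H)} {f : H → ℂ} (hf : f ∈ regSpan p A) {l : H}
    (hl : p ∣ orderOf l) : f l = 0 := by
  induction hf using Submodule.span_induction with
  | mem x hx =>
    obtain ⟨χ, -, rfl⟩ := hx
    show pRegularPart p (χ : H → ℂ) l = 0
    rw [pRegularPart_eq_reg, reg_of_dvd _ hl]
  | zero => rfl
  | add x y _ _ hx hy => rw [Pi.add_apply, hx, hy, add_zero]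
  | smul c x _ hx => rw [Pi.smul_apply, hx, smul_zero]

/-- **The rank does not drop on passing to the quotient.** -/
theorem blockRank_quot_le (Z : Subgroup H) [hZn : Z.Normal] [Fintype (H ⧸ Z)] (b : Set (IrrCharacter H)) :
    blockRank p (quotBlock Z b) ≤ blockRank p b := by
  classical
  let Φ : (H ⧸ Z → ℂ) →ₗ[ℂ] (H → ℂ) :=
    { toFun := fun g y => reg p (g ∘ QuotientGroup.mk) y
      map_add' := by
        intro f g
        funext y
        by_cases hy : p ∣ orderOf y
        · simp [reg_of_dvd _ hy]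
        · simp [reg_of_not_dvd _ hy]
      map_smul' := by
        intro c f
        funext y
        by_cases hy : p ∣ orderOf y
        · simp [reg_of_dvd _ hy]
        · simp [reg_of_not_dvd _ hy] }
  have hval : ∀ (g : H ⧸ Z → ℂ) (y : H), ¬ p ∣ orderOf y → Φ g y = g (y : H ⧸ Z) := fun g y hy => by
    show reg p (g ∘ QuotientGroup.mk) y = _
    rw [reg_of_not_dvd _ hy]
    rfl
  have hle : ∀ f ∈ regSpan p (quotBlock Z b), Φ f ∈ regSpan p b := by
    intro f hf
    have h1 : regSpan p (quotBlock Z b) ≤ (regSpan p b).comap Φ := by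
      rw [regSpan, Submodule.span_le]
      rintro _ ⟨η, hη, rfl⟩
      refine Submodule.subset_span ⟨infl Z η, hη, ?_⟩
      funext y
      simp only [pRegularPart_eq_reg]
      by_cases hy : p ∣ orderOf y
      · show _ = reg p _ y
        rw [reg_of_dvd _ hy, reg_of_dvd _ hy]
      · show _ = reg p _ y
        rw [reg_of_not_dvd _ hy, reg_of_not_dvd _ hy]
        show (η : H ⧸ Z → ℂ) (y : H ⧸ Z) = reg p (η : H ⧸ Z → ℂ) (y : H ⧸ Z)
        rw [reg_of_not_dvd]
        intro h
        exact hy (h.trans (orderOf_map_dvd (QuotientGroup.mk' Z) y))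
    exact h1 hf
  let Ψ : regSpan p (quotBlock Z b) →ₗ[ℂ] regSpan p b :=
    (Φ.domRestrict _).codRestrict _ (fun x => hle _ x.2)
  have hΨ : Function.Injective Ψ := by
    rw [← LinearMap.ker_eq_bot, LinearMap.ker_eq_bot']
    intro f hf
    apply Subtype.ext
    have hf0 : Φ f.1 = 0 := congrArg Subtype.val hf
    funext l
    show f.1 l = 0
    by_cases hl : p ∣ orderOf l
    · exact apply_eq_zero_of_regSpan f.2 hl
    · obtain ⟨y, hy, rfl⟩ := Cfsg.Agent.Lib.Blocks.Pim.exists_regular_lift (p := p) Z hl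
      rw [← hval f.1 y hy, hf0]
      rfl
  rw [blockRank_eq, blockRank_eq]
  exact LinearMap.finrank_le_finrank_of_injective hΨ

end Quot

section Odd

variable {H : Type u} [Group H] [Fintype H] {M : Ideal AlgInt} [hMp : M.IsPrime]

/-- A `2`-block of defect at most two has rank one or three. -/
theorem odd_blockRank_of_defect_le_two (hM : IsPModular 2 M) {b : Set (IrrCharacter H)} (hb : IsPBlock M b)
    (hd : blockDefect 2 b ≤ 2) : Odd (blockRank 2 b) := by
  classical
  haveI : Fact (Nat.Prime 2) := ⟨Nat.prime_two⟩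
  by_cases hd1 : blockDefect 2 b ≤ 1
  · have hB := Cfsg.Agent.S4494.result 2 M hM _ hb
    obtain ⟨h1, -, h3⟩ := Cfsg.Agent.S4733.result 2 M hM _ hb
    have hpos := blockRank_pos (p := 2) hb
    have hk : blockRank 2 b ≤ 1 := by
      have hd01 : blockDefect 2 b = 0 ∨ blockDefect 2 b = 1 := by omega
      rcases hd01 with h0 | h0
      · rw [h0] at hB
        have e2 : (2 : ℕ) ^ (2 * 0) = 1 := rfl
        rw [e2] at hB
        omega
      · rw [h0] at hB
        have e2 : (2 : ℕ) ^ (2 * 1) = 4 := rfl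
        rw [e2] at hB
        have h4 : Nat.card ↑b ≠ blockRank 2 b := by
          intro h5
          have := h3.mpr h5
          omega
        omega
    have h5 : blockRank 2 b = 1 := by omega
    rw [h5]
    exact odd_one
  · have hd2 : blockDefect 2 b = 2 := by omega
    obtain ⟨x, S, -, hP⟩ := exists_isDefectGroup hM hb
    set P : Subgroup H := (S : Subgroup (Subgroup.centralizer ({x} : Set H))).map
      (Subgroup.centralizer ({x} : Set H)).subtype with hPdef
    have hcard := Cfsg.Agent.S0908.result 2 M hM b hb P hP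
    rw [hd2] at hcard
    have hcard4 : Nat.card P = 4 := hcard
    obtain ⟨e, hmax⟩ := Cfsg.Agent.S4648.exists_maximal_on_defect hM hb hP
    have hind := isInducedBlock_of_brauerPair hM hmax.1
    set T : Subgroup H := Subgroup.normalizer (P : Set H) ⊓
      blockStabilizer (Subgroup.centralizer (P : Set H)) e with hTdef
    have hT : ∀ g : H, g ∈ T ↔ g ∈ Subgroup.normalizer (P : Set H) ∧
        StabilizesBlock (Subgroup.centralizer (P : Set H)) e g := fun g => Iff.rfl
    by_cases hcyc : IsCyclic P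
    · obtain ⟨h1, h2, -⟩ := Cfsg.Agent.Lib.Dade.cyclic_main hM hcyc (a := 2) (by norm_num) hcard hb hP hind hT rfl
      have h3 : (Subgroup.centralizer (P : Set H)).relIndex T = 1 := by
        simpa using h1
      rw [h2, h3]
      exact odd_one
    · have hcomm : IsMulCommutative P := IsPGroup.isMulCommutative_of_card_eq_prime_sq hcard
      letI : CommGroup P := { (inferInstance : Group P) with mul_comm := fun a b => hcomm.is_comm.comm a b }
      have hexp : Monoid.exponent P = 2 := by
        have h1 : Monoid.exponent P ∣ 2 ^ 2 := by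
          rw [← hcard]
          exact Group.exponent_dvd_nat_card
        obtain ⟨k, hk, h2⟩ := (Nat.dvd_prime_pow Nat.prime_two).mp h1
        interval_cases k
        · exfalso
          have h3 : Monoid.exponent P = 1 := by simpa using h2
          rw [Monoid.exp_eq_one_iff] at h3
          have := Finite.card_le_one_iff_subsingleton.mpr h3
          omega
        · simpa using h2
        · exfalso
          apply hcyc
          rw [IsCyclic.iff_exponent_eq_card, h2, hcard]
      have hV : IsKleinFour P := ⟨hcard4, hexp⟩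
      obtain ⟨h1, -, h3⟩ := Cfsg.Agent.S4637.result M hM b hb P hP hV e hind T hT _ rfl
      rw [h3]
      rcases h1 with h | h <;> rw [h]
      · exact odd_one
      · exact ⟨1, rfl⟩

/-- **A `2`-block of defect at most three with a central involution has odd rank.** -/
theorem odd_blockRank_of_central_involution (hM : IsPModular 2 M) {x : H} (hx : orderOf x = 2)
    (hc : ∀ g : H, g * x = x * g) {b : Set (IrrCharacter H)} (hb : IsPBlock M b)
    (hd : blockDefect 2 b ≤ 3) : Odd (blockRank 2 b) := by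
  classical
  haveI : Fact (Nat.Prime 2) := ⟨Nat.prime_two⟩
  set Z := Subgroup.zpowers x with hZ
  have hZc : ∀ z ∈ Z, ∀ g : H, g * z = z * g := by
    rintro _ ⟨n, rfl⟩ g
    exact ((Commute.zpow_right (show Commute g x from hc g) n))
  haveI hZn : Z.Normal := ⟨fun z hz g => by
    have := hZc z hz g
    rw [this]
    simpa using hz⟩
  letI : Fintype Z := Fintype.ofFinite _
  letI : Fintype (H ⧸ Z) := Fintype.ofFinite _
  have hZp : IsPGroup 2 Z := by
    intro z
    refine ⟨1, ?_⟩
    apply Subtype.ext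
    obtain ⟨n, hn⟩ := z.2
    show ((z : H)) ^ 2 ^ 1 = 1
    rw [← hn, pow_one, ← zpow_natCast, ← zpow_mul, mul_comm, zpow_mul, zpow_natCast]
    show (x ^ 2) ^ _ = 1
    rw [← hx, pow_orderOf_eq_one, one_zpow]
  have hZcard : Nat.card Z = 2 := by
    rw [hZ, Nat.card_zpowers, hx]
  have hqb := isPBlock_quotBlock hM Z hZc hZp hb
  have hle := blockRank_le_quot hM Z hZc hZp hb
  have hge := blockRank_quot_le (p := 2) Z b
  have hne : (quotBlock Z b).Nonempty := by
    obtain ⟨χ, hχ⟩ := id hqb
    rw [hχ]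
    exact ⟨χ, Cfsg.Agent.Lib.Blocks.Osima.mem_blockOf_self χ⟩
  have hcardq : Nat.card (H ⧸ Z) * 2 = Nat.card H := by
    have := Subgroup.card_eq_card_quotient_mul_card_subgroup Z
    rw [hZcard] at this
    exact this.symm
  have hval : (Nat.card (H ⧸ Z)).factorization 2 + 1 = (Nat.card H).factorization 2 := by
    rw [← hcardq, Nat.factorization_mul Nat.card_pos.ne' (by norm_num)]
    simp [Nat.prime_two.factorization_self]
  have hdq : blockDefect 2 (quotBlock Z b) ≤ 2 := by
    have h1 := sInf_le_quot (p := 2) Z hne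
    rw [blockDefect] at hd ⊢
    omega
  have h := odd_blockRank_of_defect_le_two hM hqb hdq
  have heq : blockRank 2 b = blockRank 2 (quotBlock Z b) := le_antisymm hle hge
  rw [heq]
  exact h

end Odd

section Orbits

variable {G : Type u} [Group G] [Fintype G]

open Classical in
/-- The number of orbits of an odd order group on a set of odd order is odd. -/
theorem odd_card_reps (T D C : Subgroup G) (hTD : ∀ t ∈ T, ∀ y ∈ D, t * y * t⁻¹ ∈ D)
    (hCD : ∀ c ∈ C, ∀ y ∈ D, c * y * c⁻¹ = y) (hodd : ¬ 2 ∣ C.relIndex T)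
    (hD : Odd (Nat.card D - 1)) (R : Finset G) (hR : ∀ y ∈ R, y ∈ D ∧ y ≠ 1)
    (hR' : ∀ y ∈ D, y ≠ 1 → ∃! r, r ∈ R ∧ ∃ t ∈ T, t * y * t⁻¹ = r) : Odd R.card := by
  letI act : MulAction T D :=
    { smul := fun t y => ⟨(t : G) * y * (t : G)⁻¹, hTD t t.2 y y.2⟩
      one_smul := fun y => Subtype.ext (by
        show ((1 : T) : G) * y * ((1 : T) : G)⁻¹ = y
        simp)
      mul_smul := fun a b y => Subtype.ext (by
        show ((a * b : T) : G) * y * ((a * b : T) : G)⁻¹ = (a : G) * ((b : G) * y * (b : G)⁻¹) * (a : G)⁻¹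
        simp only [Subgroup.coe_mul]
        group) }
  have hsmul : ∀ (t : T) (y : D), ((t • y : D) : G) = (t : G) * y * (t : G)⁻¹ := fun _ _ => rfl
  set S : Finset G := Finset.univ.filter (fun y => y ∈ D ∧ y ≠ 1) with hS
  have hSc : S.card + 1 = Nat.card D := by
    have h1 : (Finset.univ.filter (fun y => y ∈ D)).card = Nat.card D := by
      rw [Nat.card_eq_fintype_card, Fintype.card_subtype]
    have h2 : S = (Finset.univ.filter (fun y => y ∈ D)).erase 1 := by
      ext y
      simp only [hS, Finset.mem_filter, Finset.mem_univ, true_and, Finset.mem_erase]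
      tauto
    rw [h2, Finset.card_erase_add_one (by simp [D.one_mem]), h1]
  have hex : ∀ y : G, ∃ r : G, y ∈ S → (r ∈ R ∧ ∃ t ∈ T, t * y * t⁻¹ = r) := by
    intro y
    by_cases hy : y ∈ S
    · have hy' := (Finset.mem_filter.mp hy).2
      obtain ⟨r, hr, -⟩ := hR' y hy'.1 hy'.2
      exact ⟨r, fun _ => hr⟩
    · exact ⟨1, fun h => absurd h hy⟩
  choose f hf using hex
  have hfR : ∀ y ∈ S, f y ∈ R := fun y hy => (hf y hy).1
  have hcard : S.card = ∑ r ∈ R, (S.filter (fun y => f y = r)).card := Finset.card_eq_sum_card_fiberwise hfR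
  have hfib : ∀ r ∈ R, Odd (S.filter (fun y => f y = r)).card := by
    intro r hr
    obtain ⟨hrD, hr1⟩ := hR r hr
    set r' : D := ⟨r, hrD⟩ with hr'
    have hset : ((S.filter (fun y => f y = r) : Finset G) : Set G) =
        Subtype.val '' (MulAction.orbit T r') := by
      ext y
      simp only [Finset.coe_filter, Set.mem_ofPred_eq, Set.mem_image, MulAction.mem_orbit_iff]
      constructor
      · rintro ⟨hy, rfl⟩
        obtain ⟨-, t, ht, hty⟩ := hf y hy
        refine ⟨⟨y, (Finset.mem_filter.mp hy).2.1⟩, ⟨⟨t, ht⟩⁻¹, ?_⟩, rfl⟩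
        apply Subtype.ext
        rw [hsmul]
        simp only [Subgroup.coe_inv, hr', ← hty]
        group
      · rintro ⟨z, ⟨t, ht⟩, rfl⟩
        have hzD : (z : G) ∈ D := z.2
        have hz1 : (z : G) ≠ 1 := by
          rw [← ht, hsmul]
          intro h
          apply hr1
          have : (t : G) * r * (t : G)⁻¹ * t = 1 * t := by rw [h]
          simpa using this
        have hyS : (z : G) ∈ S := Finset.mem_filter.mpr ⟨Finset.mem_univ _, hzD, hz1⟩
        refine ⟨hyS, ?_⟩
        obtain ⟨r₀, -, huniq⟩ := hR' z hzD hz1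
        have e1 := huniq _ (hf z hyS)
        have e2 : r = r₀ := huniq r ⟨hr, (t : G)⁻¹, T.inv_mem t.2, by
          rw [← ht, hsmul]
          simp only [hr']
          group⟩
        rw [e1, e2]
    have hcard1 : (S.filter (fun y => f y = r)).card = (MulAction.orbit T r').ncard := by
      rw [← Set.ncard_coe_finset, hset, Set.ncard_image_of_injective _ Subtype.val_injective]
    rw [hcard1, ← MulAction.index_stabilizer]
    rw [Nat.odd_iff]
    have h1 : (C.subgroupOf T) ≤ MulAction.stabilizer T r' := by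
      intro c hc
      rw [MulAction.mem_stabilizer_iff]
      apply Subtype.ext
      rw [hsmul]
      exact hCD c (Subgroup.mem_subgroupOf.mp hc) r hrD
    have h2 : (MulAction.stabilizer T r').index ∣ C.relIndex T := Subgroup.index_dvd_of_le h1
    have h3 : ¬ 2 ∣ (MulAction.stabilizer T r').index := fun h => hodd (h.trans h2)
    omega
  have hSodd : Odd S.card := by
    have : S.card = Nat.card D - 1 := by omega
    rw [this]
    exact hD
  rw [hcard, Finset.odd_sum_iff_odd_card_odd, Finset.filter_true_of_mem hfib] at hSodd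
  exact hSodd

end Orbits

section Main

variable {G : Type u} [Group G] [Fintype G] {p : ℕ} [hp : Fact p.Prime] {M : Ideal AlgInt}

/-- **No abelian defect group of order eight for `l(B) = 1`, `k(B) = 5`.** -/
theorem false_of_abelian_eight (hM : IsPModular p M) {B : Set (IrrCharacter G)} (hB : IsPBlock M B) {D : Subgroup G}
    (hD : IsDefectGroup p M B D) (hl : blockRank p B = 1) (hk : Nat.card B = 5) (hcD8 : Nat.card D = 8)
    (hab : ∀ x ∈ D, ∀ y ∈ D, x * y = y * x) : False := by
  classical
  haveI : M.IsPrime := hM.2.1.isPrime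
  have hpp : p.Prime := Fact.out
  have hcD := Cfsg.Agent.S0908.result p M hM B hB D hD
  have hp2 : p = 2 := by
    have h1 : p ∣ 2 ^ 3 := by
      have h2 : p ∣ p ^ blockDefect p B := by
        refine dvd_pow_self p ?_
        intro h
        rw [h, pow_zero] at hcD
        omega
      rw [← hcD, hcD8] at h2
      simpa using h2
    exact (Nat.prime_dvd_prime_iff_eq hpp Nat.prime_two).1 (hpp.dvd_of_dvd_pow h1)
  subst hp2
  have hDp : IsPGroup 2 D := IsPGroup.of_card hcD
  obtain ⟨e, hmax⟩ := Cfsg.Agent.S4648.exists_maximal_on_defect hM hB hD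
  have hDe := hmax.1.1
  have hex : ∀ y : G, ∃ f : Set (Cfsg.IrrCharacter (CZ y)), y ∈ D →
      Cfsg.IsPBlock M f ∧ Cfsg.SubpairLE 2 M (Subgroup.zpowers y) f D e := by
    intro y
    by_cases hy : y ∈ D
    · obtain ⟨f, hf, hle⟩ := exists_subpairLE hM hDe (Subgroup.zpowers_le.mpr hy)
      exact ⟨f, fun _ => ⟨hf, hle⟩⟩
    · exact ⟨∅, fun h => absurd h hy⟩
  choose F hF using hex
  have hdefF : ∀ y ∈ D, Cfsg.IsDefectGroup 2 M (F y) (D.subgroupOf (CZ y)) := fun y hy =>
    isDefectGroup_of_abelian hM hmax hab (Subgroup.zpowers_le.mpr hy) (hF y hy).1 (hF y hy).2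
  have hPCZ : ∀ y ∈ D, D ≤ CZ y := fun y hy u hu =>
    Subgroup.mem_centralizer_iff.mpr fun q hq => hab q (Subgroup.zpowers_le.mpr hy hq) u hu
  have hcardF : ∀ y ∈ D, Nat.card (D.subgroupOf (CZ y)) = Nat.card D := fun y hy =>
    Nat.card_congr (Subgroup.subgroupOfEquivOfLe (hPCZ y hy)).toEquiv
  have hoddF : ∀ y ∈ D, y ≠ 1 → Odd (Cfsg.blockRank 2 (F y)) := by
    intro y hy hy1
    letI : Fintype (CZ y) := Fintype.ofFinite _
    have hmemy : y ∈ CZ y := by
      rw [cz_eq_cen, Subgroup.mem_centralizer_singleton_iff]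
    have hcen : ∀ g : CZ y, g * (⟨y, hmemy⟩ : CZ y) = (⟨y, hmemy⟩ : CZ y) * g := by
      intro g
      apply Subtype.ext
      exact (Subgroup.mem_centralizer_iff.mp g.2 y (Subgroup.mem_zpowers y)).symm
    have hdefy : Cfsg.blockDefect 2 (F y) ≤ 3 := by
      have h1 := Cfsg.Agent.S0908.result 2 M hM (F y) (hF y hy).1 _ (hdefF y hy)
      rw [hcardF y hy, hcD8] at h1
      have h2 : (2 : ℕ) ^ 3 = 2 ^ Cfsg.blockDefect 2 (F y) := h1
      exact (Nat.pow_right_injective le_rfl h2).symm.le
    set yy : CZ y := ⟨y, hmemy⟩ with hyy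
    have hyy1 : orderOf yy = orderOf y := Subgroup.orderOf_mk _ _
    have hdvd : 2 ∣ orderOf yy := by
      rw [hyy1]
      obtain ⟨k, hk⟩ := (IsPGroup.iff_orderOf.mp hDp) ⟨y, hy⟩
      have hk' : orderOf y = 2 ^ k := by rwa [Subgroup.orderOf_mk] at hk
      rw [hk']
      refine dvd_pow_self 2 ?_
      rintro rfl
      rw [pow_zero, orderOf_eq_one_iff] at hk'
      exact hy1 hk'
    have hord0 : orderOf yy ≠ 0 := (orderOf_pos yy).ne'
    have hox : orderOf (yy ^ (orderOf yy / 2)) = 2 := orderOf_pow_orderOf_div hord0 hdvd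
    refine odd_blockRank_of_central_involution hM hox ?_ (hF y hy).1 hdefy
    intro g
    exact ((show Commute g yy from hcen g).pow_right _)
  -- the counting argument
  set T : Subgroup G := Subgroup.normalizer (D : Set G) ⊓
    blockStabilizer (Subgroup.centralizer (D : Set G)) e with hTdef
  have hT : ∀ g : G, g ∈ T ↔ g ∈ Subgroup.normalizer (D : Set G) ∧
      StabilizesBlock (Subgroup.centralizer (D : Set G)) e g := fun g => Iff.rfl
  have hTD : ∀ t ∈ T, ∀ y ∈ D, t * y * t⁻¹ ∈ D := fun t ht y hy =>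
    (Subgroup.mem_normalizer_iff.mp ((hT t).mp ht).1 y).mp hy
  obtain ⟨R, hR, hR', -⟩ := Cfsg.Agent.S4648.exists_orbit_reps T D hTD
  have hodd : ¬ 2 ∣ (Subgroup.centralizer (D : Set G)).relIndex T := by
    obtain ⟨S⟩ : Nonempty (Sylow 2 T) := inferInstance
    have h1 := S.not_dvd_index
    intro h2
    apply h1
    refine h2.trans ?_
    rw [Subgroup.relIndex]
    apply Subgroup.index_dvd_of_le
    intro s hs
    rw [Subgroup.mem_subgroupOf]
    obtain ⟨k, hk⟩ := Cfsg.Agent.Lib.Blocks.Regular.exists_orderOf_eq_of_mem (p := 2) S.isPGroup' hs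
    obtain ⟨hsN, hss⟩ := (hT s).mp s.2
    have h3 := mem_sup_of_isMaximal hM hmax hsN hss ⟨k, by rw [Subgroup.orderOf_coe, hk]⟩
    have hPC : D ≤ Subgroup.centralizer (D : Set G) := fun u hu =>
      Subgroup.mem_centralizer_iff.mpr fun v hv => hab v hv u hu
    rwa [sup_eq_right.mpr hPC] at h3
  have hRodd : Odd R.card := by
    refine odd_card_reps T D (Subgroup.centralizer (D : Set G)) hTD ?_ hodd ?_ R hR hR'
    · intro c hc y hy
      rw [← Subgroup.mem_centralizer_iff.mp hc y hy]
      group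
    · rw [hcD8]
      exact ⟨3, rfl⟩
  obtain ⟨χ₀, rfl⟩ := id hB
  have hcount := card_eq_rank_add_sum (p := 2) hM χ₀ hmax hab hT R hR hR' F
    (fun y hy => hF y (hR y hy).1)
  rw [hk, hl] at hcount
  have hsum : Odd (∑ y ∈ R, Cfsg.blockRank 2 (F y)) := by
    rw [Finset.odd_sum_iff_odd_card_odd, Finset.filter_true_of_mem
      (fun y hy => hoddF y (hR y hy).1 (hR y hy).2)]
    exact hRodd
  have h4 : ∑ y ∈ R, Cfsg.blockRank 2 (F y) = 4 := by omega
  rw [h4] at hsum
  exact absurd hsum (by decide)

end Main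

end Cfsg.Agent.Lib.Blocks.Sym5Glue
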