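import Mathlib
import Cfsg.Agent.Lib.Blocks.Sym5Glue2
import Cfsg.Agent.Lib.Blocks.Sym5Glue3

/-!
# Blocks with `l(B) = 1` and `k(B) = 5`

The statement on the defect group, granted the bound `SymFiveBound` on symmetric local algebras.
-/

set_option autoImplicit false
set_option linter.unusedSectionVars false
set_option linter.style.haveILetI false

namespace Cfsg.Agent.Lib.Blocks.Sym5Glue

open Cfsg Cfsg.Agent.Lib.Blocks.Pairs

universe u

/-- **The defect group of a block with `l(B) = 1`, `k(B) = 5`.** -/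
theorem card_defect_of_bound (hA : SymFiveBound.{0, u}) {G : Type u} [Group G] [Finite G] (p : ℕ) [Fact p.Prime]
    (M : Ideal Cfsg.AlgInt) (hM : Cfsg.IsPModular p M) (B : Set (Cfsg.IrrCharacter G)) (hB : Cfsg.IsPBlock M B)
    (D : Subgroup G) (hD : Cfsg.IsDefectGroup p M B D) (hl : Cfsg.blockRank p B = 1) (hk : Nat.card B = 5) :
    (Nat.card D = 5) ∨ (Nat.card D = 8 ∧ ¬ IsMulCommutative D) := by
  classical
  cases nonempty_fintype G
  haveI : M.IsPrime := hM.2.1.isPrime
  have hpp : p.Prime := Fact.out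
  have hfil : Nat.card B = (Finset.univ.filter (· ∈ B)).card := by
    rw [Nat.card_eq_fintype_card, Fintype.card_subtype]
  have hk' : (Finset.univ.filter (· ∈ B)).card = 5 := by rw [← hfil]; exact hk
  rcases card_defect_le hA hM hB hD hl hk' with h5 | h8 | h11
  · exact Or.inl h5
  · refine Or.inr ⟨h8, fun hc => ?_⟩
    refine false_of_abelian_eight hM hB hD hl hk h8 fun x hx y hy => ?_
    have : (⟨x, hx⟩ : D) * ⟨y, hy⟩ = ⟨y, hy⟩ * ⟨x, hx⟩ := hc.is_comm.comm _ _
    exact congrArg Subtype.val this
  · exfalso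
    have hcD := Cfsg.Agent.S0908.result p M hM B hB D hD
    have hp11 : p = 11 := by
      have h1 : p ∣ 11 := by
        have h2 : p ∣ p ^ blockDefect p B := by
          refine dvd_pow_self p ?_
          intro h
          rw [h, pow_zero] at hcD
          omega
        rwa [← hcD, h11] at h2
      exact (Nat.prime_dvd_prime_iff_eq hpp (by norm_num)).1 h1
    subst hp11
    haveI : Fact (Nat.card D).Prime := ⟨by rw [h11]; norm_num⟩
    have hcyc : IsCyclic D := isCyclic_of_prime_card rfl
    obtain ⟨e, hmax⟩ := Cfsg.Agent.S4648.exists_maximal_on_defect hM hB hD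
    have hind := Cfsg.Agent.Lib.Blocks.Pairs.isInducedBlock_of_brauerPair hM hmax.1
    set T : Subgroup G := Subgroup.normalizer (D : Set G) ⊓
      blockStabilizer (Subgroup.centralizer (D : Set G)) e with hTdef
    have hT : ∀ g : G, g ∈ T ↔ g ∈ Subgroup.normalizer (D : Set G) ∧
        StabilizesBlock (Subgroup.centralizer (D : Set G)) e g := fun g => Iff.rfl
    obtain ⟨-, h2, -, r₀, X, Y, hr, hXY, hdis, hX, hY, -⟩ := Cfsg.Agent.Lib.Dade.cyclic_main hM hcyc (a := 1)
      (by norm_num) (by rw [h11]; norm_num) hB hD hind hT rfl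
    have he1 : (Subgroup.centralizer (D : Set G)).relIndex T = 1 := by rw [← h2]; exact hl
    rw [he1, mul_one] at hr
    have hset : (Finset.univ.filter (· ∈ B)) = X ∪ Y := by
      ext χ
      simp only [Finset.mem_filter, Finset.mem_univ, true_and, Finset.mem_union]
      exact hXY χ
    rw [hset, Finset.card_union_of_disjoint hdis, hX, hY, he1, hr] at hk'
    norm_num at hk'

end Cfsg.Agent.Lib.Blocks.Sym5Glue
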