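import Mathlib
import Cfsg.Agent.Lib.Blocks.Sym5G

/-!
# Symmetric local algebras: the entry points with a square-zero generator
-/

set_option autoImplicit false
set_option linter.unusedSectionVars false
set_option linter.unusedVariables false
set_option linter.style.haveILetI false
set_option linter.unusedSimpArgs false

namespace Cfsg.Agent.Lib.Blocks.Sym5

open Module MulOpposite Cfsg.Agent.Lib.Blocks.SymLocal Cfsg.Agent.Lib.Blocks.SymCom

section Entry

variable {k A : Type*} [Field k] [Ring A] [Algebra k A] {t : A →ₗ[k] k} {I : Submodule k A}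
variable {x y w : A}

theorem N_main' (h : LocSym t I) (hx : x ∈ I) (hy : y ∈ I) (hw : w ∈ I)
    (hxx : x * x ∈ I ^ 3) (hyx : y * x ∈ I ^ 3) (hxw : x * w ∈ I ^ 3) (hwy : w * y ∈ I ^ 3)
    (hV' : I ^ 2 ≤ Submodule.span k {x * y, y * w, w * x} ⊔ I ^ 3)
    (hgen : I ≤ Submodule.span k {x, y, w} ⊔ I ^ 2)
    (hV : I ^ 2 ≤ commSpan k A ⊔ I ^ 3) (hK : I ^ 3 ≤ KK I ⊔ I ^ 4) : I ^ 4 = ⊥ := by
  obtain ⟨g₁, p, g₂, hyy⟩ := exists_three (hV' (mm (by omega) (one_mem hy) (one_mem hy)))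
  obtain ⟨g₅, s, g₆, hww⟩ := exists_three (hV' (mm (by omega) (one_mem hw) (one_mem hw)))
  exact N_main h hx hy hw hxx hyx hxw hwy hyy hww hV' hgen hV hK

theorem idem_entry (h : LocSym t I) (hx : x ∈ I) (hy : y ∈ I) (hw : w ∈ I)
    (hxx : x * x ∈ I ^ 3) (hyx : y * x ∈ I ^ 3) (hxw : x * w ∈ I ^ 3)
    (hV4 : I ^ 2 ≤ Submodule.span k {x * y, w * x, y * w - w * y} ⊔ I ^ 3)
    (hgen : I ≤ Submodule.span k {x, y, w} ⊔ I ^ 2)
    (hV : I ^ 2 ≤ commSpan k A ⊔ I ^ 3) (hK : I ^ 3 ≤ KK I ⊔ I ^ 4) : I ^ 4 = ⊥ := by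
  obtain ⟨γ₁, γ₂, q, hyw⟩ := exists_three (hV4 (mm (by omega) (one_mem hy) (one_mem hw)))
  obtain ⟨g₁, g₂, p, hyy⟩ := exists_three (hV4 (mm (by omega) (one_mem hy) (one_mem hy)))
  obtain ⟨g₅, g₆, s, hww⟩ := exists_three (hV4 (mm (by omega) (one_mem hw) (one_mem hw)))
  by_cases hr : q - 1 = 0
  · have hq : q = 1 := sub_eq_zero.1 hr
    subst hq
    have hwy : w * y - (γ₁ • (x * y) + γ₂ • (w * x)) ∈ I ^ 3 := by
      convert hyw using 1
      simp only [one_smul]
      abel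
    obtain ⟨y', hy'⟩ : ∃ y' : A, y = y' + γ₂ • x := ⟨y - γ₂ • x, by abel⟩
    obtain ⟨w', hw'⟩ : ∃ w' : A, w = w' + γ₁ • x := ⟨w - γ₁ • x, by abel⟩
    subst hy' hw'
    have hy'I : y' ∈ I := by
      have : y' = (y' + γ₂ • x) - γ₂ • x := by abel
      rw [this]
      exact I.sub_mem hy (I.smul_mem _ hx)
    have hw'I : w' ∈ I := by
      have : w' = (w' + γ₁ • x) - γ₁ • x := by abel
      rw [this]
      exact I.sub_mem hw (I.smul_mem _ hx)
    have hyx' : y' * x ∈ I ^ 3 := by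
      have := (I ^ 3).sub_mem hyx ((I ^ 3).smul_mem γ₂ hxx)
      convert this using 1
      simp only [add_mul, smul_mul_assoc]
      abel
    have hxw' : x * w' ∈ I ^ 3 := by
      have := (I ^ 3).sub_mem hxw ((I ^ 3).smul_mem γ₁ hxx)
      convert this using 1
      simp only [mul_add, mul_smul_comm]
      abel
    have hwy' : w' * y' ∈ I ^ 3 := by
      have := (I ^ 3).add_mem hwy ((I ^ 3).smul_mem (γ₁ * γ₂) hxx)
      convert this using 1
      simp only [mul_add, add_mul, smul_mul_assoc, mul_smul_comm, smul_add, smul_smul]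
      module
    refine N_main' h hx hy'I hw'I hxx hyx' hxw' hwy' ?_ ?_ hV hK
    · intro u hu
      obtain ⟨c₁, c₂, c₃, hj⟩ := exists_three (hV4 hu)
      refine mem_sup3 (c₁ - c₃ * γ₁) c₃ (c₂ - c₃ * γ₂) ?_
      have := (I ^ 3).add_mem ((I ^ 3).add_mem ((I ^ 3).add_mem ((I ^ 3).add_mem hj
        ((I ^ 3).smul_mem (c₁ * γ₂ + c₂ * γ₁ - c₃ * (γ₁ * γ₂)) hxx)) ((I ^ 3).smul_mem (c₃ * γ₁) hyx'))
        ((I ^ 3).smul_mem (c₃ * γ₂) hxw')) ((I ^ 3).smul_mem (-c₃) hwy)
      convert this using 1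
      simp only [mul_add, add_mul, sub_eq_add_neg, neg_add, smul_mul_assoc, mul_smul_comm, smul_add, smul_smul,
        smul_neg, neg_neg]
      module
    · intro u hu
      obtain ⟨a, b, c, hj⟩ := exists_three (hgen hu)
      refine mem_sup3 (a + b * γ₂ + c * γ₁) b c ?_
      convert hj using 1
      simp only [smul_add, smul_smul]
      module
  · refine V3_leaf2 h hx hy hw rfl (q := q) (r := q - 1) (by ring) hr hxx hyx hxw hyw ?_ hyy hww hV4 hgen hV
    convert hyw using 1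
    simp only [sub_smul, one_smul]
    abel

/-- The two-dimensional linear algebra used for changes of generators. -/
lemma lin2 {M : Type*} [AddCommGroup M] [Module k M] {p q : M} {v₁ v₂ v₁' v₂' : k}
    (hδ : v₁ * v₂' - v₂ * v₁' ≠ 0) {S : Submodule k M} (h1 : v₁ • p + v₂ • q ∈ S)
    (h2 : v₁' • p + v₂' • q ∈ S) : p ∈ S ∧ q ∈ S := by
  constructor
  · refine (Submodule.smul_mem_iff _ hδ).1 ?_
    have := S.sub_mem (S.smul_mem v₂' h1) (S.smul_mem v₂ h2)
    convert this using 1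
    simp only [smul_add, smul_smul, sub_smul]
    module
  · refine (Submodule.smul_mem_iff _ hδ).1 ?_
    have := S.sub_mem (S.smul_mem v₁ h2) (S.smul_mem v₁' h1)
    convert this using 1
    simp only [smul_add, smul_smul, sub_smul]
    module

theorem h0_idem (h : LocSym t I) (hx : x ∈ I) (hy : y ∈ I) (hw : w ∈ I) (hxx : x * x ∈ I ^ 3) {a₁ a₂ b₁ b₂ : k}
    (hxy : x * y - (a₁ • (x * y - y * x) + a₂ • (x * w - w * x)) ∈ I ^ 3)
    (hxw : x * w - (b₁ • (x * y - y * x) + b₂ • (x * w - w * x)) ∈ I ^ 3)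
    (hV3 : I ^ 2 ≤ Submodule.span k {x * y - y * x, x * w - w * x, y * w - w * y} ⊔ I ^ 3)
    (hgen : I ≤ Submodule.span k {x, y, w} ⊔ I ^ 2)
    (hV : I ^ 2 ≤ commSpan k A ⊔ I ^ 3) (hK : I ^ 3 ≤ KK I ⊔ I ^ 4) {v₁ v₂ v₁' v₂' : k}
    (hδ : v₁ * v₂' - v₂ * v₁' ≠ 0) (hv1 : v₁ * a₁ + v₂ * b₁ = v₁) (hv2 : v₁ * a₂ + v₂ * b₂ = v₂)
    (hv'1 : v₁' * a₁ + v₂' * b₁ = 0) (hv'2 : v₁' * a₂ + v₂' * b₂ = 0) : I ^ 4 = ⊥ := by
  have hy' : v₁ • y + v₂ • w ∈ I := I.add_mem (I.smul_mem _ hy) (I.smul_mem _ hw)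
  have hw' : v₁' • y + v₂' • w ∈ I := I.add_mem (I.smul_mem _ hy) (I.smul_mem _ hw)
  have hyx' : (v₁ • y + v₂ • w) * x ∈ I ^ 3 := by
    have := (I ^ 3).add_mem ((I ^ 3).smul_mem v₁ hxy) ((I ^ 3).smul_mem v₂ hxw)
    convert this using 1
    have e1 : ((v₁ * a₁ + v₂ * b₁) • (x * y - y * x)) = v₁ • (x * y - y * x) := by rw [hv1]
    have e2 : ((v₁ * a₂ + v₂ * b₂) • (x * w - w * x)) = v₂ • (x * w - w * x) := by rw [hv2]
    have e3 : v₁ • (x * y - (a₁ • (x * y - y * x) + a₂ • (x * w - w * x))) +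
        v₂ • (x * w - (b₁ • (x * y - y * x) + b₂ • (x * w - w * x))) =
        v₁ • (x * y) + v₂ • (x * w) - ((v₁ * a₁ + v₂ * b₁) • (x * y - y * x)) -
          ((v₁ * a₂ + v₂ * b₂) • (x * w - w * x)) := by
      module
    rw [e3, e1, e2, add_mul, smul_mul_assoc, smul_mul_assoc]
    module
  have hxw' : x * (v₁' • y + v₂' • w) ∈ I ^ 3 := by
    have := (I ^ 3).add_mem ((I ^ 3).smul_mem v₁' hxy) ((I ^ 3).smul_mem v₂' hxw)
    convert this using 1
    have e1 : ((v₁' * a₁ + v₂' * b₁) • (x * y - y * x)) = 0 := by rw [hv'1, zero_smul]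
    have e2 : ((v₁' * a₂ + v₂' * b₂) • (x * w - w * x)) = 0 := by rw [hv'2, zero_smul]
    have e3 : v₁' • (x * y - (a₁ • (x * y - y * x) + a₂ • (x * w - w * x))) +
        v₂' • (x * w - (b₁ • (x * y - y * x) + b₂ • (x * w - w * x))) =
        v₁' • (x * y) + v₂' • (x * w) - ((v₁' * a₁ + v₂' * b₁) • (x * y - y * x)) -
          ((v₁' * a₂ + v₂' * b₂) • (x * w - w * x)) := by
      module
    rw [e3, e1, e2, mul_add, mul_smul_comm, mul_smul_comm]
    module
  refine idem_entry h hx hy' hw' hxx hyx' hxw' ?_ ?_ hV hK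
  · set S := Submodule.span k {x * (v₁ • y + v₂ • w), (v₁' • y + v₂' • w) * x,
      (v₁ • y + v₂ • w) * (v₁' • y + v₂' • w) - (v₁' • y + v₂' • w) * (v₁ • y + v₂ • w)} ⊔ I ^ 3 with hS
    have m1 : x * (v₁ • y + v₂ • w) ∈ S := Submodule.mem_sup_left (Submodule.subset_span (by simp))
    have m2 : (v₁' • y + v₂' • w) * x ∈ S := Submodule.mem_sup_left (Submodule.subset_span (by simp))
    have m3 : (v₁ • y + v₂ • w) * (v₁' • y + v₂' • w) - (v₁' • y + v₂' • w) * (v₁ • y + v₂ • w) ∈ S :=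
      Submodule.mem_sup_left (Submodule.subset_span (by simp))
    have m4 : (v₁ • y + v₂ • w) * x ∈ S := Submodule.mem_sup_right hyx'
    have m5 : x * (v₁' • y + v₂' • w) ∈ S := Submodule.mem_sup_right hxw'
    have m6 := lin2 (p := x * y - y * x) (q := x * w - w * x) hδ (S := S)
      (by
        have := S.sub_mem m1 m4
        convert this using 1
        simp only [mul_add, add_mul, smul_mul_assoc, mul_smul_comm, smul_sub]
        abel)
      (by
        have := S.sub_mem m5 m2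
        convert this using 1
        simp only [mul_add, add_mul, smul_mul_assoc, mul_smul_comm, smul_sub]
        abel)
    have m7 : y * w - w * y ∈ S := by
      refine (Submodule.smul_mem_iff _ hδ).1 ?_
      convert m3 using 1
      simp only [mul_add, add_mul, smul_mul_assoc, mul_smul_comm, smul_sub, smul_add, smul_smul, sub_smul]
      module
    refine hV3.trans (sup_le (Submodule.span_le.2 ?_) le_sup_right)
    rintro _ (rfl | rfl | rfl)
    · exact m6.1
    · exact m6.2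
    · exact m7
  · set S := Submodule.span k {x, v₁ • y + v₂ • w, v₁' • y + v₂' • w} ⊔ I ^ 2 with hS
    have m1 : v₁ • y + v₂ • w ∈ S := Submodule.mem_sup_left (Submodule.subset_span (by simp))
    have m2 : v₁' • y + v₂' • w ∈ S := Submodule.mem_sup_left (Submodule.subset_span (by simp))
    have m3 := lin2 hδ m1 m2
    refine hgen.trans (sup_le (Submodule.span_le.2 ?_) le_sup_right)
    rintro _ (rfl | rfl | rfl)
    · exact Submodule.mem_sup_left (Submodule.subset_span (by simp))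
    · exact m3.1
    · exact m3.2

/-- A variant of `V3_leaf1` through the opposite algebra. -/
theorem V3_leaf1' (h : LocSym t I) {P : Type*} (ι z : P → A) (α α' : P → P) (γ : P → P → P) (n : P → P → k)
    {x z₃ : A} (hx : x ∈ I) (hι : ∀ b, ι b ∈ I) (hz : ∀ b, z b ∈ I ^ 2) (hz₃ : z₃ ∈ I ^ 2)
    (hxx : x * x ∈ I ^ 3)
    (hxb : ∀ b, x * ι b - z (α b) ∈ I ^ 3) (hbx : ∀ b, ι b * x - z (α' b) ∈ I ^ 3)
    (hbc : ∀ b c, ι b * ι c - (z (γ b c) + n b c • z₃) ∈ I ^ 3)
    (hα : ∀ b, ∃ b', α' b' = b) {b₀ c₀ : P} (hn : n b₀ c₀ ≠ n c₀ b₀)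
    (hV' : I ^ 2 ≤ Submodule.span k (insert z₃ (Set.range z)) ⊔ I ^ 3)
    (hgen : I ≤ Submodule.span k (insert x (Set.range ι)) ⊔ I ^ 2)
    (hV : I ^ 2 ≤ commSpan k A ⊔ I ^ 3) : I ^ 4 = ⊥ := by
  apply bot_of_op
  refine V3_leaf1 (LocSym.opp h) (fun b => op (ι b)) (fun b => op (z b)) α' α (fun b c => γ c b) (fun b c => n c b)
    (x := op x) (z₃ := op z₃) (op_mem_opI.2 hx) (fun b => op_mem_opI.2 (hι b))
    (fun b => (op_mem_pow (n := 2)).2 (hz b)) ((op_mem_pow (n := 2)).2 hz₃) (op_mm hxx) ?_ ?_ ?_ hα (b₀ := c₀) (c₀ := b₀)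
    hn ?_ ?_ (op_hV hV)
  · intro b
    have := (op_mem_pow (I := I) (n := 3)).2 (hbx b)
    simpa only [op_sub, op_mul] using this
  · intro b
    have := (op_mem_pow (I := I) (n := 3)).2 (hxb b)
    simpa only [op_sub, op_mul] using this
  · intro b c
    have := (op_mem_pow (I := I) (n := 3)).2 (hbc c b)
    simpa only [op_sub, op_mul, op_add, op_smul] using this
  · refine op_le_sup ?_ hV'
    rintro _ (rfl | ⟨b, rfl⟩)
    · exact Submodule.subset_span (Set.mem_insert _ _)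
    · exact Submodule.subset_span (Set.mem_insert_of_mem _ ⟨b, rfl⟩)
  · refine op_gen ?_ hgen
    rintro _ (rfl | ⟨b, rfl⟩)
    · exact Submodule.subset_span (Set.mem_insert _ _)
    · exact Submodule.subset_span (Set.mem_insert_of_mem _ ⟨b, rfl⟩)

theorem h0_entry (h : LocSym t I) (hx : x ∈ I) (hy : y ∈ I) (hw : w ∈ I) (hxx : x * x ∈ I ^ 3) {a₁ a₂ b₁ b₂ : k}
    (hxy : x * y - (a₁ • (x * y - y * x) + a₂ • (x * w - w * x)) ∈ I ^ 3)
    (hxw : x * w - (b₁ • (x * y - y * x) + b₂ • (x * w - w * x)) ∈ I ^ 3)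
    (hInd : ∀ r₁ r₂ r₃ : k, r₁ • (x * y - y * x) + r₂ • (x * w - w * x) + r₃ • (y * w - w * y) ∈ I ^ 3 →
      r₁ = 0 ∧ r₂ = 0 ∧ r₃ = 0)
    (hV3 : I ^ 2 ≤ Submodule.span k {x * y - y * x, x * w - w * x, y * w - w * y} ⊔ I ^ 3)
    (hgen : I ≤ Submodule.span k {x, y, w} ⊔ I ^ 2)
    (hV : I ^ 2 ≤ commSpan k A ⊔ I ^ 3) (hK : I ^ 3 ≤ KK I ⊔ I ^ 4) : I ^ 4 = ⊥ := by
  set zy := x * y - y * x with hzy
  set zw := x * w - w * x with hzw
  set z₃ := y * w - w * y with hz₃
  have hxI := one_mem hx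
  have hyI := one_mem hy
  have hwI := one_mem hw
  have hzy2 : zy ∈ I ^ 2 := (I ^ 2).sub_mem (mm (by omega) hxI hyI) (mm (by omega) hyI hxI)
  have hzw2 : zw ∈ I ^ 2 := (I ^ 2).sub_mem (mm (by omega) hxI hwI) (mm (by omega) hwI hxI)
  have hz32 : z₃ ∈ I ^ 2 := (I ^ 2).sub_mem (mm (by omega) hyI hwI) (mm (by omega) hwI hyI)
  let ι : k × k → A := fun b => b.1 • y + b.2 • w
  let z : k × k → A := fun b => b.1 • zy + b.2 • zw
  let α : k × k → k × k := fun b => (b.1 * a₁ + b.2 * b₁, b.1 * a₂ + b.2 * b₂)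
  let α' : k × k → k × k := fun b => (b.1 * a₁ + b.2 * b₁ - b.1, b.1 * a₂ + b.2 * b₂ - b.2)
  have hι : ∀ b, ι b ∈ I := fun b => I.add_mem (I.smul_mem _ hy) (I.smul_mem _ hw)
  have hz : ∀ b, z b ∈ I ^ 2 := fun b => (I ^ 2).add_mem ((I ^ 2).smul_mem _ hzy2) ((I ^ 2).smul_mem _ hzw2)
  have hxb : ∀ b, x * ι b - z (α b) ∈ I ^ 3 := by
    intro b
    have := (I ^ 3).add_mem ((I ^ 3).smul_mem b.1 hxy) ((I ^ 3).smul_mem b.2 hxw)
    convert this using 1
    simp only [ι, z, α, mul_add, mul_smul_comm, add_smul, smul_smul, smul_sub, smul_add]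
    module
  have hbx : ∀ b, ι b * x - z (α' b) ∈ I ^ 3 := by
    intro b
    have := (I ^ 3).add_mem ((I ^ 3).smul_mem b.1 hxy) ((I ^ 3).smul_mem b.2 hxw)
    convert this using 1
    simp only [ι, z, α', hzy, hzw, add_mul, mul_add, smul_mul_assoc, mul_smul_comm, add_smul, sub_smul, smul_smul,
      smul_sub, smul_add]
    module
  have hb : ∀ b c : k × k, ∃ r₁ r₂ r₃ : k, ι b * ι c - (r₁ • zy + r₂ • zw + r₃ • z₃) ∈ I ^ 3 :=
    fun b c => exists_three (hV3 (mm (by omega) (one_mem (hι b)) (one_mem (hι c))))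
  choose r₁ r₂ r₃ hr using hb
  have hbc : ∀ b c, ι b * ι c - (z (r₁ b c, r₂ b c) + r₃ b c • z₃) ∈ I ^ 3 := fun b c => hr b c
  have hn : r₃ (1, 0) (0, 1) ≠ r₃ (0, 1) (1, 0) := by
    intro hne
    have h1 := hr (1, 0) (0, 1)
    have h2 := hr (0, 1) (1, 0)
    have := (I ^ 3).sub_mem h1 h2
    have h3 := hInd (r₁ (0, 1) (1, 0) - r₁ (1, 0) (0, 1)) (r₂ (0, 1) (1, 0) - r₂ (1, 0) (0, 1)) 1 (by
      convert this using 1
      simp only [ι, one_smul, zero_smul, add_zero, zero_add, hne, sub_smul, hz₃]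
      abel)
    exact one_ne_zero h3.2.2
  have hV' : I ^ 2 ≤ Submodule.span k (insert z₃ (Set.range z)) ⊔ I ^ 3 := by
    refine hV3.trans (sup_le_sup_right (Submodule.span_le.2 ?_) _)
    rintro _ (rfl | rfl | rfl)
    · refine Submodule.subset_span (Set.mem_insert_of_mem _ ⟨(1, 0), ?_⟩)
      simp [z]
    · refine Submodule.subset_span (Set.mem_insert_of_mem _ ⟨(0, 1), ?_⟩)
      simp [z]
    · exact Submodule.subset_span (Set.mem_insert _ _)
  have hgen' : I ≤ Submodule.span k (insert x (Set.range ι)) ⊔ I ^ 2 := by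
    refine hgen.trans (sup_le_sup_right (Submodule.span_le.2 ?_) _)
    rintro _ (rfl | rfl | rfl)
    · exact Submodule.subset_span (Set.mem_insert _ _)
    · refine Submodule.subset_span (Set.mem_insert_of_mem _ ⟨(1, 0), ?_⟩)
      simp [ι]
    · refine Submodule.subset_span (Set.mem_insert_of_mem _ ⟨(0, 1), ?_⟩)
      simp [ι]
  by_cases hd : a₁ * b₂ - a₂ * b₁ = 0
  · by_cases hd' : (a₁ - 1) * (b₂ - 1) - a₂ * b₁ = 0
    · have ht : a₁ + b₂ = 1 := by linear_combination hd - hd'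
      have hdd : a₂ * b₁ = a₁ * b₂ := by linear_combination -hd
      by_cases ha₁ : a₁ = 0
      · subst ha₁
        have hb₂ : b₂ = 1 := by linear_combination ht
        subst hb₂
        have ha₂b₁ : a₂ * b₁ = 0 := by linear_combination hdd
        refine h0_idem h hx hy hw hxx hxy hxw hV3 hgen hV hK (v₁ := b₁) (v₂ := 1) (v₁' := 1) (v₂' := -a₂) ?_ ?_ ?_ ?_ ?_
        · intro he
          have : b₁ * a₂ = -1 := by linear_combination -he
          have h0 : (1 : k) = 0 := by linear_combination this - ha₂b₁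
          exact one_ne_zero h0
        · ring
        · linear_combination ha₂b₁
        · linear_combination -ha₂b₁
        · ring
      · refine h0_idem h hx hy hw hxx hxy hxw hV3 hgen hV hK (v₁ := a₁) (v₂ := a₂) (v₁' := b₁) (v₂' := -a₁) ?_ ?_ ?_ ?_ ?_
        · have : a₁ * -a₁ - a₂ * b₁ = -a₁ := by linear_combination (-a₁) * ht - hdd
          rw [this]
          exact neg_ne_zero.2 ha₁
        · linear_combination a₁ * ht + hdd
        · linear_combination a₂ * ht
        · ring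
        · linear_combination hdd
    · refine V3_leaf1' h ι z α α' (fun b c => (r₁ b c, r₂ b c)) r₃ hx hι hz hz32 hxx hxb hbx hbc ?_ hn hV' hgen' hV
      intro c
      set e := (a₁ - 1) * (b₂ - 1) - a₂ * b₁ with he
      refine ⟨((c.1 * (b₂ - 1) - c.2 * b₁) / e, (c.2 * (a₁ - 1) - c.1 * a₂) / e), ?_⟩
      ext
      · simp only [α']
        field_simp
        rw [he]
        ring
      · simp only [α']
        field_simp
        rw [he]
        ring
  · refine V3_leaf1 h ι z α α' (fun b c => (r₁ b c, r₂ b c)) r₃ hx hι hz hz32 hxx hxb hbx hbc ?_ hn hV' hgen' hV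
    intro c
    set e := a₁ * b₂ - a₂ * b₁ with he
    refine ⟨((c.1 * b₂ - c.2 * b₁) / e, (c.2 * a₁ - c.1 * a₂) / e), ?_⟩
    ext
    · simp only [α]
      field_simp
      rw [he]
      ring
    · simp only [α]
      field_simp
      rw [he]
      ring

/-- Three generators whose commutators are independent modulo the third level and span the second level. -/
structure Good (I : Submodule k A) (x y w : A) : Prop where
  hx : x ∈ I
  hy : y ∈ I
  hw : w ∈ I
  hgen : I ≤ Submodule.span k {x, y, w} ⊔ I ^ 2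
  hV3 : I ^ 2 ≤ Submodule.span k {y * w - w * y, w * x - x * w, x * y - y * x} ⊔ I ^ 3
  hInd : ∀ r₁ r₂ r₃ : k, r₁ • (y * w - w * y) + r₂ • (w * x - x * w) + r₃ • (x * y - y * x) ∈ I ^ 3 →
    r₁ = 0 ∧ r₂ = 0 ∧ r₃ = 0

theorem Good.cycle (hG : Good I x y w) : Good I y w x where
  hx := hG.hy
  hy := hG.hw
  hw := hG.hx
  hgen := hG.hgen.trans (sup_le_sup_right (Submodule.span_mono (by
    rintro _ (rfl | rfl | rfl) <;> simp)) _)
  hV3 := hG.hV3.trans (sup_le_sup_right (Submodule.span_mono (by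
    rintro _ (rfl | rfl | rfl) <;> simp)) _)
  hInd := by
    intro r₁ r₂ r₃ hm
    obtain ⟨e₁, e₂, e₃⟩ := hG.hInd r₃ r₁ r₂ (by
      convert hm using 1
      abel)
    exact ⟨e₂, e₃, e₁⟩

theorem Good.replace (hG : Good I x y w) {c₁ c₂ c₃ : k} (hc : c₁ ≠ 0) : Good I (c₁ • x + c₂ • y + c₃ • w) y w where
  hx := I.add_mem (I.add_mem (I.smul_mem _ hG.hx) (I.smul_mem _ hG.hy)) (I.smul_mem _ hG.hw)
  hy := hG.hy
  hw := hG.hw
  hgen := by
    refine hG.hgen.trans (sup_le (Submodule.span_le.2 ?_) le_sup_right)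
    have m1 : c₁ • x + c₂ • y + c₃ • w ∈ Submodule.span k {c₁ • x + c₂ • y + c₃ • w, y, w} ⊔ I ^ 2 :=
      Submodule.mem_sup_left (Submodule.subset_span (by simp))
    have m2 : y ∈ Submodule.span k {c₁ • x + c₂ • y + c₃ • w, y, w} ⊔ I ^ 2 :=
      Submodule.mem_sup_left (Submodule.subset_span (by simp))
    have m3 : w ∈ Submodule.span k {c₁ • x + c₂ • y + c₃ • w, y, w} ⊔ I ^ 2 :=
      Submodule.mem_sup_left (Submodule.subset_span (by simp))
    rintro _ (rfl | rfl | rfl)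
    · refine (Submodule.smul_mem_iff _ hc).1 ?_
      have := Submodule.sub_mem _ (Submodule.sub_mem _ m1 (Submodule.smul_mem _ c₂ m2)) (Submodule.smul_mem _ c₃ m3)
      convert this using 1
      abel
    · exact m2
    · exact m3
  hV3 := by
    refine hG.hV3.trans (sup_le (Submodule.span_le.2 ?_) le_sup_right)
    set S := Submodule.span k {y * w - w * y, w * (c₁ • x + c₂ • y + c₃ • w) - (c₁ • x + c₂ • y + c₃ • w) * w,
      (c₁ • x + c₂ • y + c₃ • w) * y - y * (c₁ • x + c₂ • y + c₃ • w)} ⊔ I ^ 3 with hS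
    have m1 : y * w - w * y ∈ S := Submodule.mem_sup_left (Submodule.subset_span (by simp))
    have m2 : w * (c₁ • x + c₂ • y + c₃ • w) - (c₁ • x + c₂ • y + c₃ • w) * w ∈ S :=
      Submodule.mem_sup_left (Submodule.subset_span (by simp))
    have m3 : (c₁ • x + c₂ • y + c₃ • w) * y - y * (c₁ • x + c₂ • y + c₃ • w) ∈ S :=
      Submodule.mem_sup_left (Submodule.subset_span (by simp))
    rintro _ (rfl | rfl | rfl)
    · exact m1
    · refine (Submodule.smul_mem_iff _ hc).1 ?_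
      have := S.add_mem m2 (S.smul_mem c₂ m1)
      convert this using 1
      simp only [mul_add, add_mul, smul_mul_assoc, mul_smul_comm, smul_sub]
      module
    · refine (Submodule.smul_mem_iff _ hc).1 ?_
      have := S.add_mem m3 (S.smul_mem c₃ m1)
      convert this using 1
      simp only [mul_add, add_mul, smul_mul_assoc, mul_smul_comm, smul_sub]
      module
  hInd := by
    intro r₁ r₂ r₃ hm
    obtain ⟨e₁, e₂, e₃⟩ := hG.hInd (r₁ - r₂ * c₂ - r₃ * c₃) (r₂ * c₁) (r₃ * c₁) (by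
      convert hm using 1
      simp only [mul_add, add_mul, smul_mul_assoc, mul_smul_comm, smul_sub, smul_add, smul_smul, sub_smul]
      module)
    have h2 : r₂ = 0 := (mul_eq_zero.1 e₂).resolve_right hc
    have h3 : r₃ = 0 := (mul_eq_zero.1 e₃).resolve_right hc
    subst h2 h3
    exact ⟨by simpa using e₁, rfl, rfl⟩

/-- Any nonzero combination of the generators starts a good triple. -/
theorem Good.of_combo (hG : Good I x y w) {c₁ c₂ c₃ : k} (hc : ¬ (c₁ = 0 ∧ c₂ = 0 ∧ c₃ = 0)) :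
    ∃ y' w', Good I (c₁ • x + c₂ • y + c₃ • w) y' w' := by
  by_cases h1 : c₁ = 0
  · by_cases h2 : c₂ = 0
    · have h3 : c₃ ≠ 0 := fun h3 => hc ⟨h1, h2, h3⟩
      have := (hG.cycle.cycle).replace (c₁ := c₃) (c₂ := c₁) (c₃ := c₂) h3
      refine ⟨x, y, ?_⟩
      convert this using 1
      abel
    · have := (hG.cycle).replace (c₁ := c₂) (c₂ := c₃) (c₃ := c₁) h2
      refine ⟨w, x, ?_⟩
      convert this using 1
      abel
  · exact ⟨y, w, hG.replace h1⟩

theorem base_entry (h : LocSym t I) (hG : Good I x y w) (hxx : x * x ∈ I ^ 3)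
    (hV : I ^ 2 ≤ commSpan k A ⊔ I ^ 3) (hK : I ^ 3 ≤ KK I ⊔ I ^ 4) : I ^ 4 = ⊥ := by
  have hx := hG.hx
  have hy := hG.hy
  have hw := hG.hw
  have hgen := hG.hgen
  have hV3 : I ^ 2 ≤ Submodule.span k {x * y - y * x, x * w - w * x, y * w - w * y} ⊔ I ^ 3 := by
    refine hG.hV3.trans (sup_le (Submodule.span_le.2 ?_) le_sup_right)
    rintro _ (rfl | rfl | rfl)
    · exact Submodule.mem_sup_left (Submodule.subset_span (by simp))
    · have : x * w - w * x ∈ Submodule.span k {x * y - y * x, x * w - w * x, y * w - w * y} ⊔ I ^ 3 :=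
        Submodule.mem_sup_left (Submodule.subset_span (by simp))
      have := Submodule.neg_mem _ this
      rwa [neg_sub] at this
    · exact Submodule.mem_sup_left (Submodule.subset_span (by simp))
  have hInd : ∀ r₁ r₂ r₃ : k, r₁ • (x * y - y * x) + r₂ • (x * w - w * x) + r₃ • (y * w - w * y) ∈ I ^ 3 →
      r₁ = 0 ∧ r₂ = 0 ∧ r₃ = 0 := by
    intro r₁ r₂ r₃ hm
    obtain ⟨e₁, e₂, e₃⟩ := hG.hInd r₃ (-r₂) r₁ (by
      convert hm using 1
      simp only [neg_smul, smul_sub]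
      abel)
    exact ⟨e₃, neg_eq_zero.1 e₂, e₁⟩
  have hxI := one_mem hx
  obtain ⟨a₁, a₂, h₁, hxy⟩ := exists_three (hV3 (mm (by omega) hxI (one_mem hy)))
  obtain ⟨b₁, b₂, h₂, hxw⟩ := exists_three (hV3 (mm (by omega) hxI (one_mem hw)))
  by_cases hh₂ : h₂ = 0
  · subst hh₂
    by_cases hh₁ : h₁ = 0
    · subst hh₁
      refine h0_entry h hx hy hw hxx (a₁ := a₁) (a₂ := a₂) (b₁ := b₁) (b₂ := b₂) ?_ ?_ hInd hV3 hgen hV hK
      · simpa using hxy
      · simpa using hxw
    · refine hne_entry h hx hw hy hxx (a₁ := b₂) (a₂ := b₁) (b₁ := a₂) (b₂ := a₁) (h₂ := -h₁)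
        (neg_ne_zero.2 hh₁) ?_ ?_ ?_ ?_ hV
      · convert hxw using 1
        simp only [zero_smul, add_zero]
        abel
      · convert hxy using 1
        simp only [neg_smul, smul_sub]
        abel
      · refine hV3.trans (sup_le (Submodule.span_le.2 ?_) le_sup_right)
        have m : y * w - w * y ∈ Submodule.span k {x * w - w * x, x * y - y * x, w * y - y * w} ⊔ I ^ 3 := by
          have : w * y - y * w ∈ Submodule.span k {x * w - w * x, x * y - y * x, w * y - y * w} ⊔ I ^ 3 :=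
            Submodule.mem_sup_left (Submodule.subset_span (by simp))
          have := Submodule.neg_mem _ this
          rwa [neg_sub] at this
        rintro _ (rfl | rfl | rfl)
        · exact Submodule.mem_sup_left (Submodule.subset_span (by simp))
        · exact Submodule.mem_sup_left (Submodule.subset_span (by simp))
        · exact m
      · exact hgen.trans (sup_le_sup_right (Submodule.span_mono (by
          rintro _ (rfl | rfl | rfl) <;> simp)) _)
  · -- the generator `y` is adjusted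
    obtain ⟨τ, hτ'⟩ : ∃ τ : k, h₁ = τ * h₂ := ⟨h₁ / h₂, by field_simp⟩
    obtain ⟨y₁, hy₁⟩ : ∃ y₁ : A, y = y₁ + τ • w := ⟨y - τ • w, by abel⟩
    subst hy₁
    have hy₁I : y₁ ∈ I := by
      have : y₁ = (y₁ + τ • w) - τ • w := by abel
      rw [this]
      exact I.sub_mem hy (I.smul_mem _ hw)
    subst hτ'
    refine hne_entry h hx hy₁I hw hxx (a₁ := a₁ - τ * b₁) (a₂ := (a₂ - τ * b₂) + τ * (a₁ - τ * b₁))
      (b₁ := b₁) (b₂ := b₂ + τ * b₁) (h₂ := h₂) hh₂ ?_ ?_ ?_ ?_ hV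
    · have := (I ^ 3).sub_mem hxy ((I ^ 3).smul_mem τ hxw)
      convert this using 1
      simp only [mul_add, add_mul, smul_mul_assoc, mul_smul_comm, smul_sub, smul_add, smul_smul, sub_smul, add_smul]
      module
    · convert hxw using 1
      simp only [mul_add, add_mul, smul_mul_assoc, mul_smul_comm, smul_sub, smul_add, smul_smul, sub_smul, add_smul]
      module
    · intro u hu
      obtain ⟨c₁, c₂, c₃, hj⟩ := exists_three (hV3 hu)
      refine mem_sup3 c₁ (c₂ + c₁ * τ) c₃ ?_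
      convert hj using 1
      simp only [mul_add, add_mul, smul_mul_assoc, mul_smul_comm, smul_sub, smul_add, smul_smul, sub_smul, add_smul]
      module
    · intro u hu
      obtain ⟨a, b, c, hj⟩ := exists_three (hgen hu)
      refine mem_sup3 a b (c + b * τ) ?_
      convert hj using 1
      simp only [smul_add, smul_smul, add_smul]
      module

end Entry

end Cfsg.Agent.Lib.Blocks.Sym5
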