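import Mathlib
import Cfsg.Agent.Lib.Blocks.Sym5H

/-!
# Symmetric local algebras: a generator with square in the third level exists
-/

set_option autoImplicit false
set_option linter.unusedSectionVars false
set_option linter.unusedVariables false
set_option linter.style.haveILetI false
set_option linter.unusedSimpArgs false

namespace Cfsg.Agent.Lib.Blocks.Sym5

open Module MulOpposite Cfsg.Agent.Lib.Blocks.SymLocal Cfsg.Agent.Lib.Blocks.SymCom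

section Pure

variable {k : Type*} [Field k] [IsAlgClosed k]

open Polynomial in
lemma binary_zero (r₀ r₁ r₂ r₃ r₄ : k) : ∃ X Y : k, ¬(X = 0 ∧ Y = 0) ∧
    r₄ * X ^ 4 + r₃ * X ^ 3 * Y + r₂ * X ^ 2 * Y ^ 2 + r₁ * X * Y ^ 3 + r₀ * Y ^ 4 = 0 := by
  by_cases h : r₄ = 0
  · exact ⟨1, 0, by simp, by simp [h]⟩
  · have hd : (C r₄ * X ^ 4 + C r₃ * X ^ 3 + C r₂ * X ^ 2 + C r₁ * X + C r₀ : k[X]).natDegree = 4 := by
      compute_degree!
    obtain ⟨x, hx⟩ := IsAlgClosed.exists_root (C r₄ * X ^ 4 + C r₃ * X ^ 3 + C r₂ * X ^ 2 + C r₁ * X + C r₀ : k[X]) (by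
      intro h0
      have := Polynomial.natDegree_eq_zero_iff_degree_le_zero.2 (le_of_eq h0)
      omega)
    refine ⟨x, 1, by simp, ?_⟩
    simpa [IsRoot] using hx

open Polynomial in
lemma quad_root {a b c : k} (ha : a ≠ 0) : ∃ Z : k, a * Z ^ 2 + b * Z + c = 0 := by
  obtain ⟨x, hx⟩ := IsAlgClosed.exists_root (C a * X ^ 2 + C b * X + C c : k[X]) (by
    rw [degree_quadratic ha]
    decide)
  exact ⟨x, by simpa [IsRoot] using hx⟩

lemma conics₁ {a₁ a₂ a₃ a₄ a₅ a₆ b₁ b₂ b₄ b₅ b₆ : k} (ha : a₃ ≠ 0) :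
    ∃ X Y Z : k, ¬(X = 0 ∧ Y = 0 ∧ Z = 0) ∧
      a₁ * X ^ 2 + a₂ * Y ^ 2 + a₃ * Z ^ 2 + a₄ * (X * Y) + a₅ * (X * Z) + a₆ * (Y * Z) = 0 ∧
      b₁ * X ^ 2 + b₂ * Y ^ 2 + b₄ * (X * Y) + b₅ * (X * Z) + b₆ * (Y * Z) = 0 := by
  obtain ⟨X, Y, hne, hR⟩ := binary_zero
    (a₃ * b₂ ^ 2 - a₆ * b₆ * b₂ + a₂ * b₆ ^ 2)
    (2 * a₃ * b₄ * b₂ - ((a₅ * b₆ + a₆ * b₅) * b₂ + a₆ * b₆ * b₄) + (a₄ * b₆ ^ 2 + 2 * a₂ * b₅ * b₆))
    (a₃ * (b₄ ^ 2 + 2 * b₁ * b₂) - (a₅ * b₅ * b₂ + (a₅ * b₆ + a₆ * b₅) * b₄ + a₆ * b₆ * b₁) +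
      (a₁ * b₆ ^ 2 + 2 * a₄ * b₅ * b₆ + a₂ * b₅ ^ 2))
    (2 * a₃ * b₁ * b₄ - (a₅ * b₅ * b₄ + (a₅ * b₆ + a₆ * b₅) * b₁) + (2 * a₁ * b₅ * b₆ + a₄ * b₅ ^ 2))
    (a₃ * b₁ ^ 2 - a₅ * b₅ * b₁ + a₁ * b₅ ^ 2)
  have hR' : a₃ * (b₁ * X ^ 2 + b₄ * (X * Y) + b₂ * Y ^ 2) ^ 2 -
      (a₅ * X + a₆ * Y) * (b₁ * X ^ 2 + b₄ * (X * Y) + b₂ * Y ^ 2) * (b₅ * X + b₆ * Y) +
      (a₁ * X ^ 2 + a₄ * (X * Y) + a₂ * Y ^ 2) * (b₅ * X + b₆ * Y) ^ 2 = 0 := by
    linear_combination hR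
  by_cases hB : b₅ * X + b₆ * Y = 0
  · rw [hB] at hR'
    have hB0 : b₁ * X ^ 2 + b₄ * (X * Y) + b₂ * Y ^ 2 = 0 := by
      have : a₃ * (b₁ * X ^ 2 + b₄ * (X * Y) + b₂ * Y ^ 2) ^ 2 = 0 := by linear_combination hR'
      exact pow_eq_zero_iff (two_ne_zero) |>.1 ((mul_eq_zero.1 this).resolve_left ha)
    obtain ⟨Z, hZ⟩ := quad_root (a := a₃) (b := a₅ * X + a₆ * Y) (c := a₁ * X ^ 2 + a₄ * (X * Y) + a₂ * Y ^ 2) ha
    refine ⟨X, Y, Z, fun h => hne ⟨h.1, h.2.1⟩, by linear_combination hZ, ?_⟩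
    linear_combination hB0 + Z * hB
  · obtain ⟨Z, hZ⟩ : ∃ Z : k, Z * (b₅ * X + b₆ * Y) = -(b₁ * X ^ 2 + b₄ * (X * Y) + b₂ * Y ^ 2) :=
      ⟨-(b₁ * X ^ 2 + b₄ * (X * Y) + b₂ * Y ^ 2) / (b₅ * X + b₆ * Y), div_mul_cancel₀ _ hB⟩
    refine ⟨X, Y, Z, fun h => hne ⟨h.1, h.2.1⟩, ?_, ?_⟩
    · apply mul_left_cancel₀ (pow_ne_zero 2 hB)
      linear_combination hR' + (a₃ * (Z * (b₅ * X + b₆ * Y) - (b₁ * X ^ 2 + b₄ * (X * Y) + b₂ * Y ^ 2)) +
        (a₅ * X + a₆ * Y) * (b₅ * X + b₆ * Y)) * hZ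
    · linear_combination hZ

lemma conics₀ (a₁ a₂ a₃ a₄ a₅ a₆ b₁ b₂ b₃ b₄ b₅ b₆ : k) :
    ∃ X Y Z : k, ¬(X = 0 ∧ Y = 0 ∧ Z = 0) ∧
      a₁ * X ^ 2 + a₂ * Y ^ 2 + a₃ * Z ^ 2 + a₄ * (X * Y) + a₅ * (X * Z) + a₆ * (Y * Z) = 0 ∧
      b₁ * X ^ 2 + b₂ * Y ^ 2 + b₃ * Z ^ 2 + b₄ * (X * Y) + b₅ * (X * Z) + b₆ * (Y * Z) = 0 := by
  by_cases ha : a₃ = 0
  · by_cases hb : b₃ = 0
    · exact ⟨0, 0, 1, by simp, by simp [ha], by simp [hb]⟩
    · obtain ⟨X, Y, Z, hne, h1, h2⟩ := conics₁ (a₁ := b₁) (a₂ := b₂) (a₄ := b₄) (a₅ := b₅) (a₆ := b₆)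
        (b₁ := a₁) (b₂ := a₂) (b₄ := a₄) (b₅ := a₅) (b₆ := a₆) hb
      refine ⟨X, Y, Z, hne, ?_, h1⟩
      subst ha
      linear_combination h2
  · obtain ⟨X, Y, Z, hne, h1, h2⟩ := conics₁ (a₁ := a₁) (a₂ := a₂) (a₄ := a₄) (a₅ := a₅) (a₆ := a₆)
      (b₁ := a₃ * b₁ - b₃ * a₁) (b₂ := a₃ * b₂ - b₃ * a₂) (b₄ := a₃ * b₄ - b₃ * a₄) (b₅ := a₃ * b₅ - b₃ * a₅)
      (b₆ := a₃ * b₆ - b₃ * a₆) ha
    refine ⟨X, Y, Z, hne, h1, ?_⟩
    apply mul_left_cancel₀ ha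
    linear_combination h2 + b₃ * h1

/-- The quadratic form with a given coefficient table. -/
def qf (m : Fin 3 → Fin 3 → k) (α : Fin 3 → k) : k := ∑ i, ∑ j, α i * α j * m i j

theorem conics (m n : Fin 3 → Fin 3 → k) : ∃ α : Fin 3 → k, α ≠ 0 ∧ qf m α = 0 ∧ qf n α = 0 := by
  obtain ⟨X, Y, Z, hne, h1, h2⟩ := conics₀ (m 0 0) (m 1 1) (m 2 2) (m 0 1 + m 1 0) (m 0 2 + m 2 0) (m 1 2 + m 2 1)
    (n 0 0) (n 1 1) (n 2 2) (n 0 1 + n 1 0) (n 0 2 + n 2 0) (n 1 2 + n 2 1)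
  refine ⟨![X, Y, Z], ?_, ?_, ?_⟩
  · intro h0
    refine hne ⟨?_, ?_, ?_⟩
    · simpa using congrFun h0 0
    · simpa using congrFun h0 1
    · simpa using congrFun h0 2
  · simp only [qf, Fin.sum_univ_three, Matrix.cons_val_zero, Matrix.cons_val_one, Matrix.cons_val]
    linear_combination h1
  · simp only [qf, Fin.sum_univ_three, Matrix.cons_val_zero, Matrix.cons_val_one, Matrix.cons_val]
    linear_combination h2

/-- The vector of quadratic forms. -/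
def Qf (m : Fin 3 → Fin 3 → Fin 3 → k) (α : Fin 3 → k) (s : Fin 3) : k := qf (fun i j => m i j s) α

/-- The linear map in coordinates. -/
def Tf (τ : Fin 3 → Fin 3 → k) (α : Fin 3 → k) (s : Fin 3) : k := ∑ i, α i * τ i s

/-- The relations between the squares and the commutators. -/
structure Rel (m : Fin 3 → Fin 3 → Fin 3 → k) (D τ : Fin 3 → Fin 3 → k) : Prop where
  R0 : ∀ α, ∑ s, Qf m α s * D s 0 = Tf τ α 1 * α 2 - Tf τ α 2 * α 1
  R1 : ∀ α, ∑ s, Qf m α s * D s 1 = Tf τ α 2 * α 0 - Tf τ α 0 * α 2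
  R2 : ∀ α, ∑ s, Qf m α s * D s 2 = Tf τ α 0 * α 1 - Tf τ α 1 * α 0

variable {m : Fin 3 → Fin 3 → Fin 3 → k} {D τ : Fin 3 → Fin 3 → k}

theorem point_A (hR : Rel m D τ) (hD : ∀ c : Fin 3 → k, (∀ s, ∑ c', D s c' * c c' = 0) → c = 0) :
    ∃ α : Fin 3 → k, α ≠ 0 ∧ ∀ s, Qf m α s = 0 := by
  let M : Matrix (Fin 3) (Fin 3) k := fun s i => τ i s
  obtain ⟨μ, hμ⟩ := Module.End.exists_eigenvalue (Matrix.toLin' M)
  obtain ⟨v, hv⟩ := hμ.exists_hasEigenvector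
  have hT : ∀ s, Tf τ v s = μ * v s := by
    intro s
    have := congrFun hv.apply_eq_smul s
    simp only [Matrix.toLin'_apply, Matrix.mulVec, dotProduct, Pi.smul_apply, smul_eq_mul] at this
    rw [← this]
    simp [Tf, M, mul_comm]
  refine ⟨v, hv.2, ?_⟩
  have h0 := hR.R0 v
  have h1 := hR.R1 v
  have h2 := hR.R2 v
  simp only [hT] at h0 h1 h2
  let DM : Matrix (Fin 3) (Fin 3) k := fun s c => D s c
  by_contra hne
  push_neg at hne
  have hdet : DM.det = 0 := by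
    refine Matrix.exists_vecMul_eq_zero_iff.1 ⟨fun s => Qf m v s, ?_, ?_⟩
    · intro h
      obtain ⟨s, hs⟩ := hne
      exact hs (congrFun h s)
    · ext c
      fin_cases c
      · simp only [Matrix.vecMul, dotProduct, DM]
        simpa [mul_comm, mul_assoc, mul_left_comm] using h0
      · simp only [Matrix.vecMul, dotProduct, DM]
        simpa [mul_comm, mul_assoc, mul_left_comm] using h1
      · simp only [Matrix.vecMul, dotProduct, DM]
        simpa [mul_comm, mul_assoc, mul_left_comm] using h2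
  obtain ⟨c, hc0, hc⟩ := Matrix.exists_mulVec_eq_zero_iff.2 hdet
  refine hc0 (hD c fun s => ?_)
  exact congrFun hc s

lemma T_normal (hR : Rel m D τ) (hD : ∀ s, D s 2 = 0) (α : Fin 3 → k) :
    Tf τ α 0 = τ 0 0 * α 0 ∧ Tf τ α 1 = τ 0 0 * α 1 := by
  have key : ∀ α : Fin 3 → k, Tf τ α 0 * α 1 = Tf τ α 1 * α 0 := by
    intro α
    have := hR.R2 α
    simp only [hD, mul_zero, Finset.sum_const_zero] at this
    linear_combination -this
  have e1 : τ 0 1 = 0 := by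
    have e := key ![1, 0, 0]
    simp [Tf, Fin.sum_univ_three] at e
    linear_combination -e
  have e2 : τ 1 0 = 0 := by
    have e := key ![0, 1, 0]
    simp [Tf, Fin.sum_univ_three] at e
    linear_combination e
  have e3 : τ 0 0 + τ 1 0 = τ 0 1 + τ 1 1 := by
    have e := key ![1, 1, 0]
    simp [Tf, Fin.sum_univ_three] at e
    linear_combination e
  have e4 : τ 0 1 + τ 2 1 = 0 := by
    have e := key ![1, 0, 1]
    simp [Tf, Fin.sum_univ_three] at e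
    linear_combination -e
  have e5 : τ 1 0 + τ 2 0 = 0 := by
    have e := key ![0, 1, 1]
    simp [Tf, Fin.sum_univ_three] at e
    linear_combination e
  simp only [Tf, Fin.sum_univ_three]
  constructor
  · linear_combination α 1 * e2 + α 2 * (e5 - e2)
  · linear_combination α 0 * e1 + α 1 * (-e3 + e2 - e1) + α 2 * (e4 - e1)

theorem point_B (hR : Rel m D τ) (hD : ∀ s, D s 2 = 0)
    (hmin : ¬ (D 1 0 * D 2 1 - D 2 0 * D 1 1 = 0 ∧ D 2 0 * D 0 1 - D 0 0 * D 2 1 = 0 ∧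
      D 0 0 * D 1 1 - D 1 0 * D 0 1 = 0)) :
    ∃ α : Fin 3 → k, α ≠ 0 ∧ ∀ s, Qf m α s = 0 := by
  -- the common zero
  have main : ∀ s₀ : Fin 3, ∃ α : Fin 3 → k, α ≠ 0 ∧ Qf m α s₀ = 0 ∧
      (∑ s, Qf m α s * D s 0 = 0) ∧ ∑ s, Qf m α s * D s 1 = 0 := by
    intro s₀
    let f : Fin 3 → k := ![τ 0 2, τ 1 2, τ 2 2 - τ 0 0]
    obtain ⟨α, hα, h1, h2⟩ := conics (fun i j => f i * f j) (fun i j => m i j s₀)
    have hf : α 0 * τ 0 2 + α 1 * τ 1 2 + α 2 * (τ 2 2 - τ 0 0) = 0 := by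
      have : (α 0 * τ 0 2 + α 1 * τ 1 2 + α 2 * (τ 2 2 - τ 0 0)) ^ 2 = 0 := by
        simp only [qf, Fin.sum_univ_three, f, Matrix.cons_val_zero, Matrix.cons_val_one, Matrix.cons_val] at h1
        linear_combination h1
      exact pow_eq_zero_iff two_ne_zero |>.1 this
    have hT2 : Tf τ α 2 = τ 0 0 * α 2 := by
      simp only [Tf, Fin.sum_univ_three]
      linear_combination hf
    obtain ⟨hT0, hT1⟩ := T_normal hR hD α
    refine ⟨α, hα, h2, ?_, ?_⟩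
    · rw [hR.R0 α, hT1, hT2]
      ring
    · rw [hR.R1 α, hT0, hT2]
      ring
  by_cases h0 : D 0 0 * D 1 1 - D 1 0 * D 0 1 = 0
  · by_cases h1 : D 2 0 * D 0 1 - D 0 0 * D 2 1 = 0
    · have h2 : D 1 0 * D 2 1 - D 2 0 * D 1 1 ≠ 0 := fun h => hmin ⟨h, h1, h0⟩
      obtain ⟨α, hα, hs, hp, hr⟩ := main 0
      simp only [Fin.sum_univ_three, hs, zero_mul, zero_add] at hp hr
      refine ⟨α, hα, ?_⟩
      have e1 : Qf m α 1 = 0 := by
        apply mul_left_cancel₀ h2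
        linear_combination D 2 1 * hp - D 2 0 * hr
      have e2 : Qf m α 2 = 0 := by
        apply mul_left_cancel₀ h2
        linear_combination -D 1 1 * hp + D 1 0 * hr
      intro s
      fin_cases s
      · exact hs
      · exact e1
      · exact e2
    · obtain ⟨α, hα, hs, hp, hr⟩ := main 1
      simp only [Fin.sum_univ_three, hs, zero_mul, add_zero] at hp hr
      refine ⟨α, hα, ?_⟩
      have e1 : Qf m α 0 = 0 := by
        apply mul_left_cancel₀ h1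
        linear_combination -D 2 1 * hp + D 2 0 * hr
      have e2 : Qf m α 2 = 0 := by
        apply mul_left_cancel₀ h1
        linear_combination D 0 1 * hp - D 0 0 * hr
      intro s
      fin_cases s
      · exact e1
      · exact hs
      · exact e2
  · obtain ⟨α, hα, hs, hp, hr⟩ := main 2
    simp only [Fin.sum_univ_three, hs, zero_mul, add_zero] at hp hr
    refine ⟨α, hα, ?_⟩
    have e1 : Qf m α 0 = 0 := by
      apply mul_left_cancel₀ h0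
      linear_combination D 1 1 * hp - D 1 0 * hr
    have e2 : Qf m α 1 = 0 := by
      apply mul_left_cancel₀ h0
      linear_combination -D 0 1 * hp + D 0 0 * hr
    intro s
    fin_cases s
    · exact e1
    · exact e2
    · exact hs

theorem point_C (hR : Rel m D τ) (hD1 : ∀ s, D s 1 = 0) (hD : ∀ s, D s 2 = 0) (hp : ∃ s, D s 0 ≠ 0) :
    ∃ α : Fin 3 → k, α ≠ 0 ∧ ∀ s, Qf m α s = 0 := by
  have hT2 : ∀ α : Fin 3 → k, Tf τ α 2 = τ 0 0 * α 2 := by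
    have key : ∀ α : Fin 3 → k, Tf τ α 2 * α 0 = Tf τ α 0 * α 2 := by
      intro α
      have := hR.R1 α
      simp only [hD1, mul_zero, Finset.sum_const_zero] at this
      linear_combination -this
    have e1 : τ 0 2 = 0 := by
      have e := key ![1, 0, 0]
      simp [Tf, Fin.sum_univ_three] at e
      linear_combination e
    have e2 : τ 0 2 + τ 1 2 = 0 := by
      have e := key ![1, 1, 0]
      simp [Tf, Fin.sum_univ_three] at e
      linear_combination e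
    have e3 : τ 0 2 + τ 2 2 = τ 0 0 + τ 2 0 := by
      have e := key ![1, 0, 1]
      simp [Tf, Fin.sum_univ_three] at e
      linear_combination e
    have e4 : τ 2 0 = 0 := by
      have e := (T_normal hR hD ![1, 0, 1]).1
      simp [Tf, Fin.sum_univ_three] at e
      linear_combination e
    intro α
    simp only [Tf, Fin.sum_univ_three]
    linear_combination (α 0) * e1 + (α 1) * (e2 - e1) + (α 2) * (e3 - e1 + e4)
  have hmain : ∀ α : Fin 3 → k, ∑ s, Qf m α s * D s 0 = 0 := by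
    intro α
    rw [hR.R0 α, (T_normal hR hD α).2, hT2]
    ring
  obtain ⟨s₀, hs₀⟩ := hp
  fin_cases s₀
  · obtain ⟨α, hα, h1, h2⟩ := conics (fun i j => m i j 1) (fun i j => m i j 2)
    refine ⟨α, hα, ?_⟩
    have e1 : Qf m α 1 = 0 := h1
    have e2 : Qf m α 2 = 0 := h2
    have e0 : Qf m α 0 = 0 := by
      have := hmain α
      simp only [Fin.sum_univ_three, e1, e2, zero_mul, add_zero] at this
      exact (mul_eq_zero.1 this).resolve_right hs₀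
    intro s
    fin_cases s
    · exact e0
    · exact e1
    · exact e2
  · obtain ⟨α, hα, h1, h2⟩ := conics (fun i j => m i j 0) (fun i j => m i j 2)
    refine ⟨α, hα, ?_⟩
    have e1 : Qf m α 0 = 0 := h1
    have e2 : Qf m α 2 = 0 := h2
    have e0 : Qf m α 1 = 0 := by
      have := hmain α
      simp only [Fin.sum_univ_three, e1, e2, zero_mul, add_zero, zero_add] at this
      exact (mul_eq_zero.1 this).resolve_right hs₀
    intro s
    fin_cases s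
    · exact e1
    · exact e0
    · exact e2
  · obtain ⟨α, hα, h1, h2⟩ := conics (fun i j => m i j 0) (fun i j => m i j 1)
    refine ⟨α, hα, ?_⟩
    have e1 : Qf m α 0 = 0 := h1
    have e2 : Qf m α 1 = 0 := h2
    have e0 : Qf m α 2 = 0 := by
      have := hmain α
      simp only [Fin.sum_univ_three, e1, e2, zero_mul, add_zero, zero_add] at this
      exact (mul_eq_zero.1 this).resolve_right hs₀
    intro s
    fin_cases s
    · exact e1
    · exact e2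
    · exact e0

end Pure

end Cfsg.Agent.Lib.Blocks.Sym5
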