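import Mathlib
import Cfsg.Agent.Lib.Blocks.Sym5I

/-!
# Symmetric local algebras: independent commutators of three generators force `I ^ 4 = 0`
-/

set_option autoImplicit false
set_option linter.unusedSectionVars false
set_option linter.unusedVariables false
set_option linter.style.haveILetI false
set_option linter.unusedSimpArgs false

namespace Cfsg.Agent.Lib.Blocks.Sym5

open Module MulOpposite Cfsg.Agent.Lib.Blocks.SymLocal Cfsg.Agent.Lib.Blocks.SymCom

section Level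

variable {k A : Type*} [Field k] [Ring A] [Algebra k A] {t : A →ₗ[k] k} {I : Submodule k A}
variable {x y w : A} {F : A →ₗ[k] k}

/-- The elements of the algebra commuting with the second level under the form. -/
def annS (F : A →ₗ[k] k) (I : Submodule k A) : Submodule k A where
  carrier := {c | ∀ v ∈ I ^ 2, F (v * c) = F (c * v)}
  add_mem' := by
    intro a b ha hb v hv
    simp only [Set.mem_setOf_eq] at ha hb
    rw [mul_add, add_mul, map_add, map_add, ha v hv, hb v hv]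
  zero_mem' := by
    intro v hv
    simp
  smul_mem' := by
    intro c a ha v hv
    simp only [Set.mem_setOf_eq] at ha
    rw [mul_smul_comm, smul_mul_assoc, map_smul, map_smul, ha v hv]

lemma sq_le_annS (hF : ∀ u ∈ I ^ 4, F u = 0) : I ^ 2 ≤ annS F I := by
  intro c hc v hv
  rw [hF _ (mm (r := 4) (by omega) hv hc), hF _ (mm (r := 4) (by omega) hc hv)]

lemma mem_annS_of_z (hG : Good I x y w) (hF : ∀ u ∈ I ^ 4, F u = 0) {c : A} (hc : c ∈ I)
    (h1 : F ((y * w - w * y) * c) = F (c * (y * w - w * y)))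
    (h2 : F ((w * x - x * w) * c) = F (c * (w * x - x * w)))
    (h3 : F ((x * y - y * x) * c) = F (c * (x * y - y * x))) : c ∈ annS F I := by
  intro v hv
  obtain ⟨r₁, r₂, r₃, hj⟩ := exists_three (hG.hV3 hv)
  have e1 := hF _ (mm (r := 4) (by omega) hj (one_mem hc))
  have e2 := hF _ (mm (r := 4) (by omega) (one_mem hc) hj)
  rw [sub_mul, add_mul, add_mul, smul_mul_assoc, smul_mul_assoc, smul_mul_assoc, map_sub, map_add, map_add,
    map_smul, map_smul, map_smul, smul_eq_mul, smul_eq_mul, smul_eq_mul] at e1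
  rw [mul_sub, mul_add, mul_add, mul_smul_comm, mul_smul_comm, mul_smul_comm, map_sub, map_add, map_add,
    map_smul, map_smul, map_smul, smul_eq_mul, smul_eq_mul, smul_eq_mul] at e2
  linear_combination e1 - e2 + r₁ * h1 + r₂ * h2 + r₃ * h3

lemma rel_core (hF : ∀ u ∈ I ^ 4, F u = 0) {U c z₀ z₁ z₂ : A} {Q₀ Q₁ Q₂ a₀ a₁ a₂ : k} (hc : c ∈ I)
    (hE : U * U - (Q₀ • z₀ + Q₁ • z₁ + Q₂ • z₂) ∈ I ^ 3)
    (hcomm : U * c - c * U = a₀ • z₀ + a₁ • z₁ + a₂ • z₂) :
    Q₀ * F (z₀ * c - c * z₀) + Q₁ * F (z₁ * c - c * z₁) + Q₂ * F (z₂ * c - c * z₂) =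
      a₀ * F (U * z₀ + z₀ * U) + a₁ * F (U * z₁ + z₁ * U) + a₂ * F (U * z₂ + z₂ * U) := by
  have e1 := hF _ (mm (r := 4) (by omega) hE (one_mem hc))
  have e2 := hF _ (mm (r := 4) (by omega) (one_mem hc) hE)
  have e3 : U * U * c - c * (U * U) = U * (U * c - c * U) + (U * c - c * U) * U := by noncomm_ring
  have e4 := congrArg F e3
  rw [hcomm] at e4
  simp only [sub_mul, add_mul, mul_sub, mul_add, smul_mul_assoc, mul_smul_comm, map_sub, map_add, map_smul,
    smul_eq_mul] at e1 e2 e4 ⊢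
  linear_combination e4 - e1 + e2

/-- The commutator values. -/
def Dm (F : A →ₗ[k] k) (x y w : A) (s c : Fin 3) : k :=
  F ((![y * w - w * y, w * x - x * w, x * y - y * x] : Fin 3 → A) s * (![x, y, w] : Fin 3 → A) c -
    (![x, y, w] : Fin 3 → A) c * (![y * w - w * y, w * x - x * w, x * y - y * x] : Fin 3 → A) s)

/-- The symmetrized values. -/
def τm (F : A →ₗ[k] k) (x y w : A) (i s : Fin 3) : k :=
  F ((![x, y, w] : Fin 3 → A) i * (![y * w - w * y, w * x - x * w, x * y - y * x] : Fin 3 → A) s +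
    (![y * w - w * y, w * x - x * w, x * y - y * x] : Fin 3 → A) s * (![x, y, w] : Fin 3 → A) i)

variable [IsAlgClosed k]

theorem good_rel (hG : Good I x y w) (hF : ∀ u ∈ I ^ 4, F u = 0) :
    ∃ m : Fin 3 → Fin 3 → Fin 3 → k,
      (∀ α : Fin 3 → k, (α 0 • x + α 1 • y + α 2 • w) * (α 0 • x + α 1 • y + α 2 • w) -
        (Qf m α 0 • (y * w - w * y) + Qf m α 1 • (w * x - x * w) + Qf m α 2 • (x * y - y * x)) ∈ I ^ 3) ∧
      Rel m (Dm F x y w) (τm F x y w) := by
  have hx := one_mem hG.hx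
  have hy := one_mem hG.hy
  have hw := one_mem hG.hw
  have hX : ∀ i : Fin 3, (![x, y, w] : Fin 3 → A) i ∈ I ^ 1 := by
    intro i
    fin_cases i
    · exact hx
    · exact hy
    · exact hw
  have hm : ∀ i j : Fin 3, ∃ r₁ r₂ r₃ : k, (![x, y, w] : Fin 3 → A) i * (![x, y, w] : Fin 3 → A) j -
      (r₁ • (y * w - w * y) + r₂ • (w * x - x * w) + r₃ • (x * y - y * x)) ∈ I ^ 3 :=
    fun i j => exists_three (hG.hV3 (mm (by omega) (hX i) (hX j)))
  choose r₁ r₂ r₃ hr using hm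
  let m : Fin 3 → Fin 3 → Fin 3 → k := fun i j => ![r₁ i j, r₂ i j, r₃ i j]
  have hE : ∀ α : Fin 3 → k, (α 0 • x + α 1 • y + α 2 • w) * (α 0 • x + α 1 • y + α 2 • w) -
      (Qf m α 0 • (y * w - w * y) + Qf m α 1 • (w * x - x * w) + Qf m α 2 • (x * y - y * x)) ∈ I ^ 3 := by
    intro α
    have E00 := (I ^ 3).smul_mem (α 0 * α 0) (hr 0 0)
    have E01 := (I ^ 3).smul_mem (α 0 * α 1) (hr 0 1)
    have E02 := (I ^ 3).smul_mem (α 0 * α 2) (hr 0 2)
    have E10 := (I ^ 3).smul_mem (α 1 * α 0) (hr 1 0)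
    have E11 := (I ^ 3).smul_mem (α 1 * α 1) (hr 1 1)
    have E12 := (I ^ 3).smul_mem (α 1 * α 2) (hr 1 2)
    have E20 := (I ^ 3).smul_mem (α 2 * α 0) (hr 2 0)
    have E21 := (I ^ 3).smul_mem (α 2 * α 1) (hr 2 1)
    have E22 := (I ^ 3).smul_mem (α 2 * α 2) (hr 2 2)
    have := (I ^ 3).add_mem ((I ^ 3).add_mem ((I ^ 3).add_mem ((I ^ 3).add_mem ((I ^ 3).add_mem ((I ^ 3).add_mem
      ((I ^ 3).add_mem ((I ^ 3).add_mem E00 E01) E02) E10) E11) E12) E20) E21) E22
    convert this using 1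
    simp only [Qf, qf, m, Fin.sum_univ_three, Matrix.cons_val_zero, Matrix.cons_val_one, Matrix.cons_val,
      add_mul, mul_add, smul_mul_assoc, mul_smul_comm, smul_smul, add_smul]
    module
  refine ⟨m, hE, ?_⟩
  have hT : ∀ (α : Fin 3 → k) (s : Fin 3),
      F ((α 0 • x + α 1 • y + α 2 • w) * (![y * w - w * y, w * x - x * w, x * y - y * x] : Fin 3 → A) s +
        (![y * w - w * y, w * x - x * w, x * y - y * x] : Fin 3 → A) s * (α 0 • x + α 1 • y + α 2 • w)) =
      Tf (τm F x y w) α s := by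
    intro α s
    simp only [Tf, τm, Fin.sum_univ_three, Matrix.cons_val_zero, Matrix.cons_val_one, Matrix.cons_val]
    simp only [add_mul, mul_add, smul_mul_assoc, mul_smul_comm, map_add, map_smul, smul_eq_mul]
    ring
  have hT0 := fun α => hT α 0
  have hT1 := fun α => hT α 1
  have hT2 := fun α => hT α 2
  simp only [Matrix.cons_val_zero, Matrix.cons_val_one, Matrix.cons_val] at hT0 hT1 hT2
  refine ⟨fun α => ?_, fun α => ?_, fun α => ?_⟩
  · have := rel_core hF (c := x) hG.hx (hE α) (a₀ := 0) (a₁ := α 2) (a₂ := -α 1) (by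
      simp only [add_mul, mul_add, smul_mul_assoc, mul_smul_comm, smul_sub]
      module)
    rw [hT0, hT1, hT2] at this
    simp only [Fin.sum_univ_three, Dm, Matrix.cons_val_zero, Matrix.cons_val_one, Matrix.cons_val]
    linear_combination this
  · have := rel_core hF (c := y) hG.hy (hE α) (a₀ := -α 2) (a₁ := 0) (a₂ := α 0) (by
      simp only [add_mul, mul_add, smul_mul_assoc, mul_smul_comm, smul_sub]
      module)
    rw [hT0, hT1, hT2] at this
    simp only [Fin.sum_univ_three, Dm, Matrix.cons_val_zero, Matrix.cons_val_one, Matrix.cons_val]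
    linear_combination this
  · have := rel_core hF (c := w) hG.hw (hE α) (a₀ := α 1) (a₁ := -α 0) (a₂ := 0) (by
      simp only [add_mul, mul_add, smul_mul_assoc, mul_smul_comm, smul_sub]
      module)
    rw [hT0, hT1, hT2] at this
    simp only [Fin.sum_univ_three, Dm, Matrix.cons_val_zero, Matrix.cons_val_one, Matrix.cons_val]
    linear_combination this

lemma mem_annS_of_D (hG : Good I x y w) (hF : ∀ u ∈ I ^ 4, F u = 0) {c₁ c₂ c₃ : k}
    (hD : ∀ s, Dm F x y w s 0 * c₁ + Dm F x y w s 1 * c₂ + Dm F x y w s 2 * c₃ = 0) :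
    c₁ • x + c₂ • y + c₃ • w ∈ annS F I := by
  have hc : c₁ • x + c₂ • y + c₃ • w ∈ I :=
    I.add_mem (I.add_mem (I.smul_mem _ hG.hx) (I.smul_mem _ hG.hy)) (I.smul_mem _ hG.hw)
  have h0 := hD 0
  have h1 := hD 1
  have h2 := hD 2
  simp only [Dm, Matrix.cons_val_zero, Matrix.cons_val_one, Matrix.cons_val, map_sub] at h0 h1 h2
  refine mem_annS_of_z hG hF hc ?_ ?_ ?_
  · simp only [mul_add, add_mul, smul_mul_assoc, mul_smul_comm, map_add, map_smul, smul_eq_mul, map_sub]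
    linear_combination h0
  · simp only [mul_add, add_mul, smul_mul_assoc, mul_smul_comm, map_add, map_smul, smul_eq_mul, map_sub]
    linear_combination h1
  · simp only [mul_add, add_mul, smul_mul_assoc, mul_smul_comm, map_add, map_smul, smul_eq_mul, map_sub]
    linear_combination h2

lemma Dm_of_mem (hG : Good I x y w) {c : A} (hc : c ∈ annS F I) {i : Fin 3} (hi : (![x, y, w] : Fin 3 → A) i = c)
    (s : Fin 3) : Dm F x y w s i = 0 := by
  have hz : (![y * w - w * y, w * x - x * w, x * y - y * x] : Fin 3 → A) s ∈ I ^ 2 := by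
    have hx := one_mem hG.hx
    have hy := one_mem hG.hy
    have hw := one_mem hG.hw
    fin_cases s
    · exact (I ^ 2).sub_mem (mm (by omega) hy hw) (mm (by omega) hw hy)
    · exact (I ^ 2).sub_mem (mm (by omega) hw hx) (mm (by omega) hx hw)
    · exact (I ^ 2).sub_mem (mm (by omega) hx hy) (mm (by omega) hy hx)
  simp only [Dm, map_sub, hi]
  rw [hc _ hz, sub_self]

/-- The result of the three cases: the form of the answer. -/
lemma answer (hG : Good I x y w) {m : Fin 3 → Fin 3 → Fin 3 → k}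
    (hE : ∀ α : Fin 3 → k, (α 0 • x + α 1 • y + α 2 • w) * (α 0 • x + α 1 • y + α 2 • w) -
        (Qf m α 0 • (y * w - w * y) + Qf m α 1 • (w * x - x * w) + Qf m α 2 • (x * y - y * x)) ∈ I ^ 3)
    (hα : ∃ α : Fin 3 → k, α ≠ 0 ∧ ∀ s, Qf m α s = 0) :
    ∃ x' y' w', Good I x' y' w' ∧ x' * x' ∈ I ^ 3 := by
  obtain ⟨α, hα, hQ⟩ := hα
  have h0 : ¬ (α 0 = 0 ∧ α 1 = 0 ∧ α 2 = 0) := by
    rintro ⟨h0, h1, h2⟩
    apply hα
    ext s
    fin_cases s
    · exact h0
    · exact h1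
    · exact h2
  obtain ⟨y', w', hG'⟩ := hG.of_combo h0
  refine ⟨_, y', w', hG', ?_⟩
  have := hE α
  simpa [hQ] using this

theorem base_point_C (hG : Good I x y w) (hF : ∀ u ∈ I ^ 4, F u = 0) (h2 : y ∈ annS F I) (h3 : w ∈ annS F I)
    (hne : ¬ I ≤ annS F I) : ∃ x' y' w', Good I x' y' w' ∧ x' * x' ∈ I ^ 3 := by
  obtain ⟨m, hE, hR⟩ := good_rel hG hF
  refine answer hG hE (point_C hR (Dm_of_mem hG h2 (i := 1) rfl) (Dm_of_mem hG h3 (i := 2) rfl) ?_)
  by_contra hp
  push_neg at hp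
  have h1 : x ∈ annS F I := by
    have := mem_annS_of_D hG hF (c₁ := 1) (c₂ := 0) (c₃ := 0) (fun s => by simp [hp s])
    simpa using this
  refine hne (hG.hgen.trans (sup_le (Submodule.span_le.2 ?_) (sq_le_annS hF)))
  rintro _ (rfl | rfl | rfl)
  · exact h1
  · exact h2
  · exact h3

lemma fin3_cases (i : Fin 3) : i = 0 ∨ i = 1 ∨ i = 2 := by
  fin_cases i <;> simp

lemma minor_pure (D : Fin 3 → Fin 3 → k) (h1 : D 1 0 * D 2 1 - D 2 0 * D 1 1 = 0)
    (h2 : D 2 0 * D 0 1 - D 0 0 * D 2 1 = 0) (h0 : D 0 0 * D 1 1 - D 1 0 * D 0 1 = 0)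
    (key : ∀ c₁ c₂ : k, (∀ s, D s 0 * c₁ + D s 1 * c₂ = 0) → c₁ = 0 ∧ c₂ = 0) : False := by
  have hm : ∀ i j : Fin 3, D i 0 * D j 1 - D i 1 * D j 0 = 0 := by
    intro i j
    rcases fin3_cases i with rfl | rfl | rfl <;> rcases fin3_cases j with rfl | rfl | rfl <;>
      first
        | ring1
        | (linear_combination h0)
        | (linear_combination -h0)
        | (linear_combination h1)
        | (linear_combination -h1)
        | (linear_combination h2)
        | (linear_combination -h2)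
  by_cases hp : ∀ s, D s 0 = 0
  · have := key 1 0 (fun s => by simp [hp s])
    exact one_ne_zero this.1
  · push_neg at hp
    obtain ⟨s, hs⟩ := hp
    have := key (D s 1) (-D s 0) (fun s' => by
      have := hm s' s
      linear_combination this)
    exact hs (neg_eq_zero.1 this.2)

theorem base_point_B (hG : Good I x y w) (hF : ∀ u ∈ I ^ 4, F u = 0) (h3 : w ∈ annS F I)
    (hB : ∀ c₁ c₂ : k, c₁ • x + c₂ • y ∈ annS F I → c₁ = 0 ∧ c₂ = 0) :
    ∃ x' y' w', Good I x' y' w' ∧ x' * x' ∈ I ^ 3 := by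
  obtain ⟨m, hE, hR⟩ := good_rel hG hF
  have hD := Dm_of_mem hG h3 (i := 2) rfl
  refine answer hG hE (point_B hR hD ?_)
  rintro ⟨h1, h2, h0⟩
  refine minor_pure _ h1 h2 h0 fun c₁ c₂ hc => ?_
  refine hB c₁ c₂ ?_
  have := mem_annS_of_D hG hF (c₁ := c₁) (c₂ := c₂) (c₃ := 0) (fun s => by
    rw [hD s]
    simpa using hc s)
  simpa using this

theorem base_point_A (hG : Good I x y w) (hF : ∀ u ∈ I ^ 4, F u = 0)
    (hA : ∀ c₁ c₂ c₃ : k, c₁ • x + c₂ • y + c₃ • w ∈ annS F I → c₁ = 0 ∧ c₂ = 0 ∧ c₃ = 0) :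
    ∃ x' y' w', Good I x' y' w' ∧ x' * x' ∈ I ^ 3 := by
  obtain ⟨m, hE, hR⟩ := good_rel hG hF
  refine answer hG hE (point_A hR ?_)
  intro c hc
  have := hA (c 0) (c 1) (c 2) (mem_annS_of_D hG hF (fun s => by
    have := hc s
    rw [Fin.sum_univ_three] at this
    exact this))
  ext s
  fin_cases s
  · exact this.1
  · exact this.2.1
  · exact this.2.2

theorem base_point (hG : Good I x y w) (hF : ∀ u ∈ I ^ 4, F u = 0) (hne : ¬ I ≤ annS F I) :
    ∃ x' y' w', Good I x' y' w' ∧ x' * x' ∈ I ^ 3 := by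
  by_cases hA : ∃ c₁ c₂ c₃ : k, ¬ (c₁ = 0 ∧ c₂ = 0 ∧ c₃ = 0) ∧ c₁ • x + c₂ • y + c₃ • w ∈ annS F I
  · obtain ⟨c₁, c₂, c₃, hc, hm⟩ := hA
    obtain ⟨u₁, u₂, hG₀⟩ := hG.of_combo hc
    have hG' := hG₀.cycle
    set u₃ := c₁ • x + c₂ • y + c₃ • w with hu₃
    by_cases hB : ∃ d₁ d₂ : k, ¬ (d₁ = 0 ∧ d₂ = 0) ∧ d₁ • u₁ + d₂ • u₂ ∈ annS F I
    · obtain ⟨d₁, d₂, hd, hmd⟩ := hB
      by_cases hd₁ : d₁ = 0
      · subst hd₁
        have hd₂ : d₂ ≠ 0 := fun h => hd ⟨rfl, h⟩
        have h2 := (hG'.cycle.replace (c₁ := d₂) (c₂ := 0) (c₃ := 0) hd₂).cycle.cycle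
        refine base_point_C h2 hF ?_ hm hne
        simpa using hmd
      · have h2 := (hG'.replace (c₁ := d₁) (c₂ := d₂) (c₃ := 0) hd₁).cycle
        refine base_point_C h2 hF hm ?_ hne
        simpa using hmd
    · refine base_point_B hG' hF hm fun d₁ d₂ hd => ?_
      by_contra hd'
      exact hB ⟨d₁, d₂, hd', hd⟩
  · refine base_point_A hG hF fun c₁ c₂ c₃ hc => ?_
    by_contra hc'
    exact hA ⟨c₁, c₂, c₃, hc', hc⟩

/-- Independent commutators of three generators force the fourth level to vanish. -/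
theorem rank3 (h : LocSym t I) (hG : Good I x y w) (hV : I ^ 2 ≤ commSpan k A ⊔ I ^ 3)
    (hK : I ^ 3 ≤ KK I ⊔ I ^ 4) : I ^ 4 = ⊥ := by
  by_cases hle : I ^ 3 ≤ I ^ 4
  · exact pow_eq_bot_of_le h (m := 3) (by omega) (eq_bot_of_pow_le h hle)
  · obtain ⟨u, hu, hu4⟩ := SetLike.not_le_iff_exists.1 hle
    obtain ⟨F, hF, hFu⟩ := exists_form hu4
    have hne : ¬ I ≤ annS F I := by
      intro hI
      apply hFu
      obtain ⟨a, ha, b, hb, hab⟩ := Submodule.mem_sup.1 (hK hu)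
      rw [← hab, map_add, hF b hb, add_zero]
      have : KK I ≤ LinearMap.ker F := by
        refine Submodule.span_le.2 ?_
        rintro _ ⟨d, hd, v, hv, rfl⟩
        simp only [SetLike.mem_coe, LinearMap.mem_ker, map_sub]
        rw [hI hd v hv]
        simp
      exact this ha
    obtain ⟨x', y', w', hG', hxx⟩ := base_point hG hF hne
    exact base_entry h hG' hxx hV hK

end Level

end Cfsg.Agent.Lib.Blocks.Sym5
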