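import Mathlib
import Cfsg.Agent.Lib.Blocks.Sym5J

/-!
# Symmetric local algebras: three generators
-/

set_option autoImplicit false
set_option linter.unusedSectionVars false
set_option linter.unusedVariables false
set_option linter.style.haveILetI false
set_option linter.unusedSimpArgs false

namespace Cfsg.Agent.Lib.Blocks.Sym5

open Module MulOpposite Cfsg.Agent.Lib.Blocks.SymLocal Cfsg.Agent.Lib.Blocks.SymCom

section Three

variable {k A : Type*} [Field k] [Ring A] [Algebra k A] {t : A →ₗ[k] k} {I : Submodule k A}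
variable {x y w : A}

/-- A variant of `V2_leafA` through the opposite algebra. -/
theorem V2_leafA' (h : LocSym t I) {P : Type*} [AddCommGroup P] [Module k P]
    (ι c : P →ₗ[k] A) (α' H : P →ₗ[k] P) (β : P → P → P) (ε : P) {w : A}
    (hι : ∀ a, ι a ∈ I) (hw : w ∈ I) (hc : ∀ a, c a ∈ I ^ 2)
    (htab1 : ∀ a, ι a * w - c (α' a + a) ∈ I ^ 3)
    (htab2 : ∀ a, w * ι a - c (α' a) ∈ I ^ 3)
    (htab3 : ∀ a b, ι a * ι b - c (β a b) ∈ I ^ 3)
    (hww : w * w - c ε ∈ I ^ 3)
    (hH : ∀ a, α' (H a) + H a = a)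
    (hP : ∀ v : P, v ≠ 0 → ∃ d₀ : P, ∀ p : P, ∃ r s : k, p = r • v + s • d₀)
    (hV' : I ^ 2 ≤ Submodule.span k (Set.range c) ⊔ I ^ 3)
    (hgen : I ≤ Submodule.span k (insert w (Set.range ι)) ⊔ I ^ 2)
    (hV : I ^ 2 ≤ commSpan k A ⊔ I ^ 3) : I ^ 4 = ⊥ := by
  apply bot_of_op
  let opL : A →ₗ[k] Aᵐᵒᵖ := (MulOpposite.opLinearEquiv k : A ≃ₗ[k] Aᵐᵒᵖ).toLinearMap
  have hopL : ∀ u, opL u = op u := fun u => rfl
  refine V2_leafA (LocSym.opp h) (opL ∘ₗ ι) (-(opL ∘ₗ c)) (-(α' + LinearMap.id)) (-H) (fun a b => -β b a) (-ε)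
    (w := op w) (fun a => op_mem_opI.2 (hι a)) (op_mem_opI.2 hw) ?_ ?_ ?_ ?_ ?_ ?_ hP ?_ ?_ (op_hV hV)
  · intro a
    have := (op_mem_pow (I := I) (n := 2)).2 (hc a)
    have := Submodule.neg_mem _ this
    simpa [hopL] using this
  · intro a
    have := (op_mem_pow (I := I) (n := 3)).2 (htab2 a)
    simpa [hopL, op_sub, op_mul, sub_eq_add_neg, add_comm, add_left_comm, add_assoc] using this
  · intro a
    have := (op_mem_pow (I := I) (n := 3)).2 (htab1 a)
    simpa [hopL, op_sub, op_mul, sub_eq_add_neg, add_comm, add_left_comm, add_assoc] using this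
  · intro a b
    have := (op_mem_pow (I := I) (n := 3)).2 (htab3 b a)
    simpa [hopL, op_sub, op_mul] using this
  · have := (op_mem_pow (I := I) (n := 3)).2 hww
    simpa [hopL, op_sub, op_mul] using this
  · intro a
    have := hH a
    simp only [LinearMap.neg_apply, LinearMap.add_apply, LinearMap.id_apply, map_neg, neg_add_rev, neg_neg]
    exact this
  · refine op_le_sup ?_ hV'
    rintro _ ⟨a, rfl⟩
    refine Submodule.subset_span ⟨-a, ?_⟩
    simp [hopL]
  · refine op_gen ?_ hgen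
    rintro _ (rfl | ⟨a, rfl⟩)
    · exact Submodule.subset_span (Set.mem_insert _ _)
    · exact Submodule.subset_span (Set.mem_insert_of_mem _ ⟨a, rfl⟩)

lemma hP_prod : ∀ v : k × k, v ≠ 0 → ∃ d₀ : k × k, ∀ p : k × k, ∃ r s : k, p = r • v + s • d₀ := by
  rintro ⟨v₁, v₂⟩ hv
  by_cases h1 : v₁ = 0
  · subst h1
    have h2 : v₂ ≠ 0 := fun h => hv (by simp [h])
    refine ⟨(1, 0), fun p => ⟨p.2 / v₂, p.1, ?_⟩⟩
    ext
    · simp
    · simp only [Prod.smul_mk, smul_eq_mul, Prod.mk_add_mk, mul_zero, add_zero]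
      field_simp
  · refine ⟨(0, 1), fun p => ⟨p.1 / v₁, p.2 - p.1 / v₁ * v₂, ?_⟩⟩
    ext
    · simp only [Prod.smul_mk, smul_eq_mul, Prod.mk_add_mk, mul_zero, add_zero]
      field_simp
    · simp

/-- The eigenvector case. -/
theorem V2_idem (h : LocSym t I) (hx : x ∈ I) (hy : y ∈ I) (hw : w ∈ I) (hxy0 : x * y - y * x ∈ I ^ 3)
    {p₁ p₂ r₁ r₂ : k}
    (hwx : w * x - (p₁ • (x * w - w * x) + p₂ • (y * w - w * y)) ∈ I ^ 3)
    (hwy : w * y - (r₁ • (x * w - w * x) + r₂ • (y * w - w * y)) ∈ I ^ 3)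
    (hV2 : I ^ 2 ≤ Submodule.span k {x * w - w * x, y * w - w * y} ⊔ I ^ 3)
    (hgen : I ≤ Submodule.span k {x, y, w} ⊔ I ^ 2)
    (hV : I ^ 2 ≤ commSpan k A ⊔ I ^ 3) {v₁ v₂ v₁' v₂' : k} (hδ : v₁' * v₂ - v₂' * v₁ ≠ 0)
    (hv1 : v₁ * p₁ + v₂ * r₁ = 0) (hv2 : v₁ * p₂ + v₂ * r₂ = 0)
    (hv'1 : v₁' * (p₁ + 1) + v₂' * r₁ = 0) (hv'2 : v₁' * p₂ + v₂' * (r₂ + 1) = 0) : I ^ 4 = ⊥ := by
  set x' := v₁' • x + v₂' • y with hx'
  set y' := v₁ • x + v₂ • y with hy'
  have hx'I : x' ∈ I := I.add_mem (I.smul_mem _ hx) (I.smul_mem _ hy)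
  have hy'I : y' ∈ I := I.add_mem (I.smul_mem _ hx) (I.smul_mem _ hy)
  have hx'1 := one_mem hx'I
  have hy'1 := one_mem hy'I
  have hw1 := one_mem hw
  have e1 : (v₁' * (p₁ + 1) + v₂' * r₁) • (x * w - w * x) = 0 := by rw [hv'1, zero_smul]
  have e2 : (v₁' * p₂ + v₂' * (r₂ + 1)) • (y * w - w * y) = 0 := by rw [hv'2, zero_smul]
  have e3 : (v₁ * p₁ + v₂ * r₁) • (x * w - w * x) = 0 := by rw [hv1, zero_smul]
  have e4 : (v₁ * p₂ + v₂ * r₂) • (y * w - w * y) = 0 := by rw [hv2, zero_smul]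
  have hxw' : x' * w ∈ I ^ 3 := by
    have := (I ^ 3).add_mem ((I ^ 3).smul_mem v₁' hwx) ((I ^ 3).smul_mem v₂' hwy)
    have e5 : x' * w = v₁' • (w * x - (p₁ • (x * w - w * x) + p₂ • (y * w - w * y))) +
        v₂' • (w * y - (r₁ • (x * w - w * x) + r₂ • (y * w - w * y))) +
        (v₁' * (p₁ + 1) + v₂' * r₁) • (x * w - w * x) + (v₁' * p₂ + v₂' * (r₂ + 1)) • (y * w - w * y) := by
      rw [hx']
      simp only [add_mul, smul_mul_assoc]
      module
    rw [e5, e1, e2, add_zero, add_zero]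
    exact this
  have hwy' : w * y' ∈ I ^ 3 := by
    have := (I ^ 3).add_mem ((I ^ 3).smul_mem v₁ hwx) ((I ^ 3).smul_mem v₂ hwy)
    have e5 : w * y' = v₁ • (w * x - (p₁ • (x * w - w * x) + p₂ • (y * w - w * y))) +
        v₂ • (w * y - (r₁ • (x * w - w * x) + r₂ • (y * w - w * y))) +
        (v₁ * p₁ + v₂ * r₁) • (x * w - w * x) + (v₁ * p₂ + v₂ * r₂) • (y * w - w * y) := by
      rw [hy']
      simp only [mul_add, mul_smul_comm]
      module
    rw [e5, e3, e4, add_zero, add_zero]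
    exact this
  have hV' : I ^ 2 ≤ Submodule.span k {y' * w, w * x'} ⊔ I ^ 3 := by
    set S := Submodule.span k {y' * w, w * x'} ⊔ I ^ 3 with hS
    have m1 : y' * w ∈ S := Submodule.mem_sup_left (Submodule.subset_span (by simp))
    have m2 : w * x' ∈ S := Submodule.mem_sup_left (Submodule.subset_span (by simp))
    have m3 : x' * w ∈ S := Submodule.mem_sup_right hxw'
    have m4 : w * y' ∈ S := Submodule.mem_sup_right hwy'
    have m5 := lin2 (p := x * w - w * x) (q := y * w - w * y) (S := S) hδ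
      (by
        have := S.sub_mem m3 m2
        convert this using 1
        simp only [hx', add_mul, mul_add, smul_mul_assoc, mul_smul_comm, smul_sub]
        abel)
      (by
        have := S.sub_mem m1 m4
        convert this using 1
        simp only [hy', add_mul, mul_add, smul_mul_assoc, mul_smul_comm, smul_sub]
        abel)
    refine hV2.trans (sup_le (Submodule.span_le.2 ?_) le_sup_right)
    rintro _ (rfl | rfl)
    · exact m5.1
    · exact m5.2
  have hcomm : x' * y' - y' * x' ∈ I ^ 3 := by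
    have := (I ^ 3).smul_mem (v₁' * v₂ - v₂' * v₁) hxy0
    convert this using 1
    simp only [hx', hy', add_mul, mul_add, smul_mul_assoc, mul_smul_comm, smul_sub, smul_add, smul_smul, sub_smul]
    module
  obtain ⟨k₁, k₂, hxx⟩ := exists_two (hV' (mm (by omega) hx'1 hx'1))
  obtain ⟨k₃, k₄, hxy⟩ := exists_two (hV' (mm (by omega) hx'1 hy'1))
  obtain ⟨k₅, k₆, hyy⟩ := exists_two (hV' (mm (by omega) hy'1 hy'1))
  obtain ⟨e₁, e₂, hww⟩ := exists_two (hV' (mm (by omega) hw1 hw1))
  refine V2_leafB h hx'I hy'I hw hxw' hwy' hxx hxy ?_ hyy hww hV' ?_ hV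
  · have := (I ^ 3).sub_mem hxy hcomm
    convert this using 1
    abel
  · set S := Submodule.span k {x', y', w} ⊔ I ^ 2 with hS
    have m1 : x' ∈ S := Submodule.mem_sup_left (Submodule.subset_span (by simp))
    have m2 : y' ∈ S := Submodule.mem_sup_left (Submodule.subset_span (by simp))
    have m5 := lin2 (p := x) (q := y) (S := S) hδ m1 m2
    refine hgen.trans (sup_le (Submodule.span_le.2 ?_) le_sup_right)
    rintro _ (rfl | rfl | rfl)
    · exact m5.1
    · exact m5.2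
    · exact Submodule.mem_sup_left (Submodule.subset_span (by simp))

/-- The second level spanned by the commutators with one generator. -/
theorem V2_flow (h : LocSym t I) (hx : x ∈ I) (hy : y ∈ I) (hw : w ∈ I) (hxy0 : x * y - y * x ∈ I ^ 3)
    (hV2 : I ^ 2 ≤ Submodule.span k {x * w - w * x, y * w - w * y} ⊔ I ^ 3)
    (hgen : I ≤ Submodule.span k {x, y, w} ⊔ I ^ 2)
    (hV : I ^ 2 ≤ commSpan k A ⊔ I ^ 3) : I ^ 4 = ⊥ := by
  have hx1 := one_mem hx
  have hy1 := one_mem hy
  have hw1 := one_mem hw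
  set c₁ := x * w - w * x with hc₁
  set c₂ := y * w - w * y with hc₂
  have hc₁2 : c₁ ∈ I ^ 2 := (I ^ 2).sub_mem (mm (by omega) hx1 hw1) (mm (by omega) hw1 hx1)
  have hc₂2 : c₂ ∈ I ^ 2 := (I ^ 2).sub_mem (mm (by omega) hy1 hw1) (mm (by omega) hw1 hy1)
  obtain ⟨p₁, p₂, hwx⟩ := exists_two (hV2 (mm (by omega) hw1 hx1))
  obtain ⟨r₁, r₂, hwy⟩ := exists_two (hV2 (mm (by omega) hw1 hy1))
  obtain ⟨ε₁, ε₂, hww⟩ := exists_two (hV2 (mm (by omega) hw1 hw1))
  let ι : k × k →ₗ[k] A := (LinearMap.fst k k k).smulRight x + (LinearMap.snd k k k).smulRight y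
  let c : k × k →ₗ[k] A := (LinearMap.fst k k k).smulRight c₁ + (LinearMap.snd k k k).smulRight c₂
  let α' : k × k →ₗ[k] k × k :=
    { toFun := fun a => (a.1 * p₁ + a.2 * r₁, a.1 * p₂ + a.2 * r₂)
      map_add' := by
        intro a b
        ext <;> simp <;> ring
      map_smul' := by
        intro r a
        ext <;> simp <;> ring }
  have hιa : ∀ a, ι a = a.1 • x + a.2 • y := fun a => rfl
  have hca : ∀ a, c a = a.1 • c₁ + a.2 • c₂ := fun a => rfl
  have hαa : ∀ a, α' a = (a.1 * p₁ + a.2 * r₁, a.1 * p₂ + a.2 * r₂) := fun a => rfl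
  have hι : ∀ a, ι a ∈ I := fun a => I.add_mem (I.smul_mem _ hx) (I.smul_mem _ hy)
  have hc : ∀ a, c a ∈ I ^ 2 := fun a => (I ^ 2).add_mem ((I ^ 2).smul_mem _ hc₁2) ((I ^ 2).smul_mem _ hc₂2)
  have htab2 : ∀ a, w * ι a - c (α' a) ∈ I ^ 3 := by
    intro a
    have := (I ^ 3).add_mem ((I ^ 3).smul_mem a.1 hwx) ((I ^ 3).smul_mem a.2 hwy)
    convert this using 1
    simp only [hιa, hca, hαa, mul_add, mul_smul_comm, add_smul, smul_smul, smul_sub, smul_add]
    module
  have htab1 : ∀ a, ι a * w - c (α' a + a) ∈ I ^ 3 := by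
    intro a
    convert htab2 a using 1
    simp only [hιa, hca, hαa, Prod.fst_add, Prod.snd_add, add_mul, mul_add, smul_mul_assoc, mul_smul_comm, add_smul,
      smul_sub, hc₁, hc₂]
    module
  have hb : ∀ a b : k × k, ∃ r s : k, ι a * ι b - (r • c₁ + s • c₂) ∈ I ^ 3 :=
    fun a b => exists_two (hV2 (mm (by omega) (one_mem (hι a)) (one_mem (hι b))))
  choose r s hrs using hb
  have htab3 : ∀ a b, ι a * ι b - c (r a b, s a b) ∈ I ^ 3 := fun a b => hrs a b
  have hV' : I ^ 2 ≤ Submodule.span k (Set.range c) ⊔ I ^ 3 := by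
    refine hV2.trans (sup_le_sup_right (Submodule.span_le.2 ?_) _)
    rintro _ (rfl | rfl)
    · exact Submodule.subset_span ⟨(1, 0), by simp [hca]⟩
    · exact Submodule.subset_span ⟨(0, 1), by simp [hca]⟩
  have hgen' : I ≤ Submodule.span k (insert w (Set.range ι)) ⊔ I ^ 2 := by
    refine hgen.trans (sup_le_sup_right (Submodule.span_le.2 ?_) _)
    rintro _ (rfl | rfl | rfl)
    · exact Submodule.subset_span (Set.mem_insert_of_mem _ ⟨(1, 0), by simp [hιa]⟩)
    · exact Submodule.subset_span (Set.mem_insert_of_mem _ ⟨(0, 1), by simp [hιa]⟩)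
    · exact Submodule.subset_span (Set.mem_insert _ _)
  by_cases hd : p₁ * r₂ - p₂ * r₁ = 0
  · by_cases hd₁ : (p₁ + 1) * (r₂ + 1) - p₂ * r₁ = 0
    · have htr : p₁ + r₂ = -1 := by linear_combination hd₁ - hd
      by_cases hr₂ : r₂ = 0
      · have hp₁ : p₁ = -1 := by rw [hr₂] at htr; linear_combination htr
        subst hr₂ hp₁
        have hpr : p₂ * r₁ = 0 := by linear_combination -hd
        -- `p₁ ≠ 0` here
        refine V2_idem h hx hy hw hxy0 hwx hwy hV2 hgen hV (v₁ := r₁) (v₂ := 1) (v₁' := -1) (v₂' := p₂) ?_ ?_ ?_ ?_ ?_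
        · have : (-1 : k) * 1 - p₂ * r₁ = -1 := by rw [hpr]; ring
          rw [this]
          exact neg_ne_zero.2 one_ne_zero
        · ring
        · linear_combination hpr
        · linear_combination hpr
        · ring
      · refine V2_idem h hx hy hw hxy0 hwx hwy hV2 hgen hV (v₁ := -r₂) (v₂ := p₂) (v₁' := r₁) (v₂' := r₂) ?_ ?_ ?_ ?_ ?_
        · have : r₁ * p₂ - r₂ * -r₂ = -r₂ := by linear_combination (-1 : k) * hd + r₂ * htr
          rw [this]
          exact neg_ne_zero.2 hr₂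
        · linear_combination -hd
        · ring
        · linear_combination r₁ * htr
        · linear_combination -hd + r₂ * htr
    · have hH : ∃ H : k × k →ₗ[k] k × k, ∀ a, α' (H a) + H a = a := by
        set e := (p₁ + 1) * (r₂ + 1) - p₂ * r₁ with he
        refine ⟨{ toFun := fun a => ((a.1 * (r₂ + 1) - a.2 * r₁) / e, (a.2 * (p₁ + 1) - a.1 * p₂) / e)
                  map_add' := ?_
                  map_smul' := ?_ }, ?_⟩
        · intro a b
          ext <;> simp <;> ring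
        · intro r a
          ext <;> simp <;> ring
        · intro a
          ext
          · simp only [hαa, Prod.fst_add, LinearMap.coe_mk, AddHom.coe_mk]
            field_simp
            rw [he]
            ring
          · simp only [hαa, Prod.snd_add, LinearMap.coe_mk, AddHom.coe_mk]
            field_simp
            rw [he]
            ring
      obtain ⟨H, hH⟩ := hH
      exact V2_leafA' h ι c α' H (fun a b => (r a b, s a b)) (ε₁, ε₂) hι hw hc htab1 htab2 htab3 hww hH hP_prod hV' hgen' hV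
  · have hH : ∃ H : k × k →ₗ[k] k × k, ∀ a, α' (H a) = a := by
      set e := p₁ * r₂ - p₂ * r₁ with he
      refine ⟨{ toFun := fun a => ((a.1 * r₂ - a.2 * r₁) / e, (a.2 * p₁ - a.1 * p₂) / e)
                map_add' := ?_
                map_smul' := ?_ }, ?_⟩
      · intro a b
        ext <;> simp <;> ring
      · intro r a
        ext <;> simp <;> ring
      · intro a
        ext
        · simp only [hαa, LinearMap.coe_mk, AddHom.coe_mk]
          field_simp
          rw [he]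
          ring
        · simp only [hαa, LinearMap.coe_mk, AddHom.coe_mk]
          field_simp
          rw [he]
          ring
    obtain ⟨H, hH⟩ := hH
    exact V2_leafA h ι c α' H (fun a b => (r a b, s a b)) (ε₁, ε₂) hι hw hc htab1 htab2 htab3 hww hH hP_prod hV' hgen' hV

end Three

end Cfsg.Agent.Lib.Blocks.Sym5
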