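import Mathlib
import Cfsg.Agent.Lib.Blocks.Sym5K

/-!
# Symmetric local algebras: dependence modulo commutators, three generators, dimension bounds
-/

set_option autoImplicit false
set_option linter.unusedSectionVars false
set_option linter.unusedVariables false
set_option linter.style.haveILetI false
set_option linter.unusedSimpArgs false

namespace Cfsg.Agent.Lib.Blocks.Sym5

open Module MulOpposite Cfsg.Agent.Lib.Blocks.SymLocal Cfsg.Agent.Lib.Blocks.SymCom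

section General

variable {k A : Type*} [Field k] [Ring A] [Algebra k A] {t : A →ₗ[k] k} {I : Submodule k A}
variable {x y w : A}

lemma mem_sup2 {p q u : A} {Y : Submodule k A} (b₁ b₂ : k) (h : u - (b₁ • p + b₂ • q) ∈ Y) :
    u ∈ Submodule.span k {p, q} ⊔ Y := by
  have e : u = (b₁ • p + b₂ • q) + (u - (b₁ • p + b₂ • q)) := by abel
  rw [e]
  exact Submodule.add_mem_sup (Submodule.mem_span_pair.2 ⟨b₁, b₂, rfl⟩) h

lemma decomp3 (h : LocSym t I) (hgen : I ≤ Submodule.span k {x, y, w} ⊔ I ^ 2) (a : A) :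
    ∃ c α₁ α₂ α₃ : k, ∃ a₂ ∈ I ^ 2, a = c • (1 : A) + (α₁ • x + α₂ • y + α₃ • w) + a₂ := by
  obtain ⟨c, hc⟩ := h.dec a
  obtain ⟨α₁, α₂, α₃, hj⟩ := exists_three (hgen hc)
  exact ⟨c, α₁, α₂, α₃, _, hj, by abel⟩

lemma decomp2 (h : LocSym t I) (hgen : I ≤ Submodule.span k {x, y} ⊔ I ^ 2) (a : A) :
    ∃ c α₁ α₂ : k, ∃ a₂ ∈ I ^ 2, a = c • (1 : A) + (α₁ • x + α₂ • y) + a₂ := by
  obtain ⟨c, hc⟩ := h.dec a
  obtain ⟨α₁, α₂, hj⟩ := exists_two (hgen hc)
  exact ⟨c, α₁, α₂, _, hj, by abel⟩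

lemma pow2_le (h : LocSym t I) {u : A} (hu : u ∈ I ^ 2) : u ∈ I := by
  have := pow_anti h (m := 1) (n := 2) (by omega) (by omega) hu
  simpa using this

lemma comm_le_pow2 (h : LocSym t I) : commSpan k A ≤ I ^ 2 := by
  rw [pow_two]
  exact h.comm_le

lemma KK_le (h : LocSym t I) : KK I ≤ I ^ 3 := by
  refine Submodule.span_le.2 ?_
  rintro _ ⟨d, hd, v, hv, rfl⟩
  exact (I ^ 3).sub_mem (mm (by omega) (one_mem hd) hv) (mm (by omega) hv (one_mem hd))

lemma comm_le_sup3 (h : LocSym t I) (hx : x ∈ I) (hy : y ∈ I) (hw : w ∈ I)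
    (hgen : I ≤ Submodule.span k {x, y, w} ⊔ I ^ 2) :
    commSpan k A ≤ Submodule.span k {y * w - w * y, w * x - x * w, x * y - y * x} ⊔ KK I := by
  refine Submodule.span_le.2 ?_
  rintro _ ⟨a, b, rfl⟩
  obtain ⟨c, α₁, α₂, α₃, a₂, ha₂, rfl⟩ := decomp3 h hgen a
  obtain ⟨d, β₁, β₂, β₃, b₂, hb₂, rfl⟩ := decomp3 h hgen b
  have hLa : α₁ • x + α₂ • y + α₃ • w ∈ I :=
    I.add_mem (I.add_mem (I.smul_mem _ hx) (I.smul_mem _ hy)) (I.smul_mem _ hw)
  have hLb : β₁ • x + β₂ • y + β₃ • w ∈ I :=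
    I.add_mem (I.add_mem (I.smul_mem _ hx) (I.smul_mem _ hy)) (I.smul_mem _ hw)
  generalize hLa' : α₁ • x + α₂ • y + α₃ • w = La at hLa
  generalize hLb' : β₁ • x + β₂ • y + β₃ • w = Lb at hLb
  have m1 : La * b₂ - b₂ * La ∈ KK I := Submodule.subset_span ⟨La, hLa, b₂, hb₂, rfl⟩
  have m2 : Lb * a₂ - a₂ * Lb ∈ KK I := Submodule.subset_span ⟨Lb, hLb, a₂, ha₂, rfl⟩
  have m3 : a₂ * b₂ - b₂ * a₂ ∈ KK I := Submodule.subset_span ⟨a₂, pow2_le h ha₂, b₂, hb₂, rfl⟩
  have e0 : La * Lb - Lb * La = (α₂ * β₃ - α₃ * β₂) • (y * w - w * y) + (α₃ * β₁ - α₁ * β₃) • (w * x - x * w) +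
      (α₁ * β₂ - α₂ * β₁) • (x * y - y * x) := by
    rw [← hLa', ← hLb']
    simp only [add_mul, mul_add, smul_mul_assoc, mul_smul_comm, smul_add, smul_smul, smul_sub, sub_smul]
    module
  have e : (c • (1 : A) + La + a₂) * (d • (1 : A) + Lb + b₂) - (d • (1 : A) + Lb + b₂) * (c • (1 : A) + La + a₂) =
      (La * Lb - Lb * La) + ((La * b₂ - b₂ * La) - (Lb * a₂ - a₂ * Lb) + (a₂ * b₂ - b₂ * a₂)) := by
    simp only [add_mul, mul_add, smul_mul_assoc, mul_smul_comm, smul_add, smul_smul, smul_sub, one_mul, mul_one]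
    module
  show _ ∈ (_ : Submodule k A)
  rw [e, e0]
  refine Submodule.add_mem_sup (Submodule.mem_span_triple.2 ⟨_, _, _, rfl⟩)
    (Submodule.add_mem _ (Submodule.sub_mem _ m1 m2) m3)

variable (hdep : ∀ v : Fin 6 → A, ∃ c : Fin 6 → k, c ≠ 0 ∧ ∑ i, c i • v i ∈ commSpan k A)
include hdep

lemma six3 (h : LocSym t I) (hx : x ∈ I) (hy : y ∈ I) (hw : w ∈ I)
    (hind : ∀ c₁ c₂ c₃ : k, c₁ • x + c₂ • y + c₃ • w ∈ I ^ 2 → c₁ = 0 ∧ c₂ = 0 ∧ c₃ = 0) {w₀ u : A}
    (hw₀ : w₀ ∈ I ^ 2) (ht : t w₀ ≠ 0) (hu : u ∈ I ^ 2) : ∃ s ∈ commSpan k A, ∃ r : k, u = s + r • w₀ := by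
  obtain ⟨c, hc, hm⟩ := hdep ![1, x, y, w, w₀, u]
  simp only [Fin.sum_univ_six] at hm
  simp only [Matrix.cons_val_zero, Matrix.cons_val_one, Matrix.cons_val] at hm
  have hw₀I := pow2_le h hw₀
  have huI := pow2_le h hu
  have hmI := pow2_le h (comm_le_pow2 h hm)
  have hL : c 1 • x + c 2 • y + c 3 • w ∈ I := I.add_mem (I.add_mem (I.smul_mem _ hx) (I.smul_mem _ hy)) (I.smul_mem _ hw)
  have h0 : c 0 = 0 := by
    by_contra h0
    apply h.one
    have e : c 0 • (1 : A) = (c 0 • 1 + c 1 • x + c 2 • y + c 3 • w + c 4 • w₀ + c 5 • u) -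
        ((c 1 • x + c 2 • y + c 3 • w) + c 4 • w₀ + c 5 • u) := by abel
    have : c 0 • (1 : A) ∈ I := by
      rw [e]
      exact I.sub_mem hmI (I.add_mem (I.add_mem hL (I.smul_mem _ hw₀I)) (I.smul_mem _ huI))
    exact (Submodule.smul_mem_iff _ h0).1 this
  rw [h0, zero_smul, zero_add] at hm
  have hmm := comm_le_pow2 h hm
  have hL2 : c 1 • x + c 2 • y + c 3 • w ∈ I ^ 2 := by
    have e : c 1 • x + c 2 • y + c 3 • w = (c 1 • x + c 2 • y + c 3 • w + c 4 • w₀ + c 5 • u) - (c 4 • w₀ + c 5 • u) := by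
      abel
    rw [e]
    exact (I ^ 2).sub_mem hmm ((I ^ 2).add_mem ((I ^ 2).smul_mem _ hw₀) ((I ^ 2).smul_mem _ hu))
  obtain ⟨h1, h2, h3⟩ := hind _ _ _ hL2
  rw [h1, h2, h3, zero_smul, zero_smul, zero_smul, zero_add, zero_add, zero_add] at hm
  by_cases h5 : c 5 = 0
  · exfalso
    rw [h5, zero_smul, add_zero] at hm
    have := h.t_comm hm
    rw [map_smul, smul_eq_mul] at this
    have h4 : c 4 = 0 := (mul_eq_zero.1 this).resolve_right ht
    apply hc
    ext i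
    fin_cases i
    · exact h0
    · exact h1
    · exact h2
    · exact h3
    · exact h4
    · exact h5
  · refine ⟨(c 5)⁻¹ • (c 4 • w₀ + c 5 • u), Submodule.smul_mem _ _ hm, -((c 5)⁻¹ * c 4), ?_⟩
    rw [smul_add, smul_smul, smul_smul, inv_mul_cancel₀ h5, one_smul, neg_smul]
    abel

lemma six2 (h : LocSym t I) (hx : x ∈ I) (hy : y ∈ I)
    (hind : ∀ c₁ c₂ : k, c₁ • x + c₂ • y ∈ I ^ 2 → c₁ = 0 ∧ c₂ = 0) {w₀ w₁ u : A}
    (hw₀ : w₀ ∈ I ^ 2) (hw₁ : w₁ ∈ I ^ 2) (hu : u ∈ I ^ 2) :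
    ∃ c₀ c₁ c₂ : k, ¬ (c₀ = 0 ∧ c₁ = 0 ∧ c₂ = 0) ∧ c₀ • w₀ + c₁ • w₁ + c₂ • u ∈ commSpan k A := by
  obtain ⟨c, hc, hm⟩ := hdep ![1, x, y, w₀, w₁, u]
  simp only [Fin.sum_univ_six] at hm
  simp only [Matrix.cons_val_zero, Matrix.cons_val_one, Matrix.cons_val] at hm
  have hw₀I := pow2_le h hw₀
  have hw₁I := pow2_le h hw₁
  have huI := pow2_le h hu
  have hmI := pow2_le h (comm_le_pow2 h hm)
  have hL : c 1 • x + c 2 • y ∈ I := I.add_mem (I.smul_mem _ hx) (I.smul_mem _ hy)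
  have h0 : c 0 = 0 := by
    by_contra h0
    apply h.one
    have e : c 0 • (1 : A) = (c 0 • 1 + c 1 • x + c 2 • y + c 3 • w₀ + c 4 • w₁ + c 5 • u) -
        ((c 1 • x + c 2 • y) + c 3 • w₀ + c 4 • w₁ + c 5 • u) := by abel
    have : c 0 • (1 : A) ∈ I := by
      rw [e]
      exact I.sub_mem hmI (I.add_mem (I.add_mem (I.add_mem hL (I.smul_mem _ hw₀I)) (I.smul_mem _ hw₁I)) (I.smul_mem _ huI))
    exact (Submodule.smul_mem_iff _ h0).1 this
  rw [h0, zero_smul, zero_add] at hm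
  have hmm := comm_le_pow2 h hm
  have hL2 : c 1 • x + c 2 • y ∈ I ^ 2 := by
    have e : c 1 • x + c 2 • y = (c 1 • x + c 2 • y + c 3 • w₀ + c 4 • w₁ + c 5 • u) - (c 3 • w₀ + c 4 • w₁ + c 5 • u) := by
      abel
    rw [e]
    exact (I ^ 2).sub_mem hmm ((I ^ 2).add_mem ((I ^ 2).add_mem ((I ^ 2).smul_mem _ hw₀) ((I ^ 2).smul_mem _ hw₁))
      ((I ^ 2).smul_mem _ hu))
  obtain ⟨h1, h2⟩ := hind _ _ hL2
  rw [h1, h2, zero_smul, zero_smul, zero_add, zero_add] at hm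
  refine ⟨c 3, c 4, c 5, ?_, hm⟩
  rintro ⟨h3, h4, h5⟩
  apply hc
  ext i
  fin_cases i
  · exact h0
  · exact h1
  · exact h2
  · exact h3
  · exact h4
  · exact h5

omit hdep

/-- Dependent commutators. -/
theorem dep_flow (h : LocSym t I) (hx : x ∈ I) (hy : y ∈ I) (hw : w ∈ I)
    (hgen : I ≤ Submodule.span k {x, y, w} ⊔ I ^ 2)
    (hV3 : I ^ 2 ≤ Submodule.span k {y * w - w * y, w * x - x * w, x * y - y * x} ⊔ I ^ 3)
    (hV : I ^ 2 ≤ commSpan k A ⊔ I ^ 3) {c₁ c₂ c₃ : k}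
    (hm : c₁ • (y * w - w * y) + c₂ • (w * x - x * w) + c₃ • (x * y - y * x) ∈ I ^ 3) (hc₃ : c₃ ≠ 0) : I ^ 4 = ⊥ := by
  obtain ⟨α, hα⟩ : ∃ α : k, c₁ = c₃ * α := ⟨c₃⁻¹ * c₁, by rw [mul_inv_cancel_left₀ hc₃]⟩
  obtain ⟨β, hβ⟩ : ∃ β : k, c₂ = c₃ * β := ⟨c₃⁻¹ * c₂, by rw [mul_inv_cancel_left₀ hc₃]⟩
  subst hα hβ
  obtain ⟨x', hx'⟩ : ∃ x' : A, x = x' + α • w := ⟨x - α • w, by abel⟩
  obtain ⟨y', hy'⟩ : ∃ y' : A, y = y' + β • w := ⟨y - β • w, by abel⟩
  subst hx' hy'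
  have hx'I : x' ∈ I := by
    have : x' = (x' + α • w) - α • w := by abel
    rw [this]
    exact I.sub_mem hx (I.smul_mem _ hw)
  have hy'I : y' ∈ I := by
    have : y' = (y' + β • w) - β • w := by abel
    rw [this]
    exact I.sub_mem hy (I.smul_mem _ hw)
  have hxy0 : x' * y' - y' * x' ∈ I ^ 3 := by
    refine (Submodule.smul_mem_iff _ hc₃).1 ?_
    convert hm using 1
    simp only [add_mul, mul_add, smul_mul_assoc, mul_smul_comm, smul_add, smul_smul, smul_sub]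
    module
  refine V2_flow h hx'I hy'I hw hxy0 ?_ ?_ hV
  · intro u hu
    obtain ⟨r₁, r₂, r₃, hj⟩ := exists_three (hV3 hu)
    refine mem_sup2 (-r₂ + r₃ * β) (r₁ - r₃ * α) ?_
    have := (I ^ 3).add_mem hj ((I ^ 3).smul_mem r₃ hxy0)
    convert this using 1
    simp only [add_mul, mul_add, smul_mul_assoc, mul_smul_comm, smul_add, smul_smul, smul_sub]
    module
  · intro u hu
    obtain ⟨a, b, c, hj⟩ := exists_three (hgen hu)
    refine mem_sup3 a b (c + a * α + b * β) ?_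
    convert hj using 1
    simp only [smul_add, smul_smul, add_smul]
    module

include hdep

/-- Three independent generators: the fourth level vanishes. -/
theorem master3 [IsAlgClosed k] (h : LocSym t I) (hx : x ∈ I) (hy : y ∈ I) (hw : w ∈ I)
    (hgen : I ≤ Submodule.span k {x, y, w} ⊔ I ^ 2)
    (hind : ∀ c₁ c₂ c₃ : k, c₁ • x + c₂ • y + c₃ • w ∈ I ^ 2 → c₁ = 0 ∧ c₂ = 0 ∧ c₃ = 0) : I ^ 4 = ⊥ := by
  by_contra hne
  obtain ⟨w₀, hw₀4, ht⟩ := exists_t_ne_pow h (n := 3) hne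
  have hw₀3 : w₀ ∈ I ^ 3 := pow_anti h (m := 3) (n := 4) (by omega) (by omega) hw₀4
  have hw₀2 : w₀ ∈ I ^ 2 := pow_anti h (m := 2) (n := 4) (by omega) (by omega) hw₀4
  have hkey := fun (u : A) (hu : u ∈ I ^ 2) => six3 hdep h hx hy hw hind hw₀2 ht hu
  have hV : I ^ 2 ≤ commSpan k A ⊔ I ^ 3 := by
    intro u hu
    obtain ⟨s, hs, r, rfl⟩ := hkey u hu
    exact Submodule.add_mem_sup hs ((I ^ 3).smul_mem _ hw₀3)
  have hS := comm_le_sup3 h hx hy hw hgen
  have hV3 : I ^ 2 ≤ Submodule.span k {y * w - w * y, w * x - x * w, x * y - y * x} ⊔ I ^ 3 :=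
    hV.trans (sup_le (hS.trans (sup_le_sup_left (KK_le h) _)) le_sup_right)
  by_cases hInd : ∀ r₁ r₂ r₃ : k, r₁ • (y * w - w * y) + r₂ • (w * x - x * w) + r₃ • (x * y - y * x) ∈ I ^ 3 →
      r₁ = 0 ∧ r₂ = 0 ∧ r₃ = 0
  · have hG : Good I x y w := ⟨hx, hy, hw, hgen, hV3, hInd⟩
    refine hne (rank3 h hG hV ?_)
    intro u hu
    obtain ⟨s, hs, r, rfl⟩ := hkey u (pow_anti h (m := 2) (n := 3) (by omega) (by omega) hu)
    obtain ⟨r₁, r₂, r₃, hj⟩ := exists_three (hS hs)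
    have hσ : r₁ • (y * w - w * y) + r₂ • (w * x - x * w) + r₃ • (x * y - y * x) ∈ I ^ 3 := by
      have e : r₁ • (y * w - w * y) + r₂ • (w * x - x * w) + r₃ • (x * y - y * x) =
          (s + r • w₀) - r • w₀ - (s - (r₁ • (y * w - w * y) + r₂ • (w * x - x * w) + r₃ • (x * y - y * x))) := by abel
      rw [e]
      exact (I ^ 3).sub_mem ((I ^ 3).sub_mem hu ((I ^ 3).smul_mem _ hw₀3)) (KK_le h hj)
    obtain ⟨e1, e2, e3⟩ := hInd _ _ _ hσ
    rw [e1, e2, e3] at hj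
    simp only [zero_smul, add_zero, sub_zero] at hj
    exact Submodule.add_mem_sup hj ((I ^ 4).smul_mem _ hw₀4)
  · push_neg at hInd
    obtain ⟨r₁, r₂, r₃, hm, hnz⟩ := hInd
    by_cases h3 : r₃ = 0
    · by_cases h2 : r₂ = 0
      · have h1 : r₁ ≠ 0 := fun h1 => hnz h1 h2 h3
        refine hne (dep_flow h hy hw hx ?_ ?_ hV (c₁ := r₂) (c₂ := r₃) (c₃ := r₁) ?_ h1)
        · exact hgen.trans (sup_le_sup_right (Submodule.span_mono (by
            rintro _ (rfl | rfl | rfl) <;> simp)) _)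
        · exact hV3.trans (sup_le_sup_right (Submodule.span_mono (by
            rintro _ (rfl | rfl | rfl) <;> simp)) _)
        · convert hm using 1
          abel
      · refine hne (dep_flow h hw hx hy ?_ ?_ hV (c₁ := r₃) (c₂ := r₁) (c₃ := r₂) ?_ h2)
        · exact hgen.trans (sup_le_sup_right (Submodule.span_mono (by
            rintro _ (rfl | rfl | rfl) <;> simp)) _)
        · exact hV3.trans (sup_le_sup_right (Submodule.span_mono (by
            rintro _ (rfl | rfl | rfl) <;> simp)) _)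
        · convert hm using 1
          abel
    · exact hne (dep_flow h hx hy hw hgen hV3 hV hm h3)

end General

section Bounds

variable {k A : Type*} [Field k] [Ring A] [Algebra k A] [FiniteDimensional k A] {t : A →ₗ[k] k} {I : Submodule k A}
variable {x y w : A}

lemma finrank_le_of_test {W : Submodule k A} {l : ℕ} (C : Fin l → A)
    (hinj : ∀ u ∈ W, (∀ j, t (u * C j) = 0) → u = 0) : finrank k W ≤ l := by
  let L : W →ₗ[k] (Fin l → k) := LinearMap.pi fun j => t ∘ₗ LinearMap.mulRight k (C j) ∘ₗ W.subtype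
  have hL : Function.Injective L := by
    rw [← LinearMap.ker_eq_bot, LinearMap.ker_eq_bot']
    intro u hu
    have := hinj u u.2 (fun j => by
      have := congrFun hu j
      simpa [L] using this)
    exact Subtype.ext this
  have := LinearMap.finrank_le_finrank_of_injective hL
  simpa using this

lemma finrank_span_fin_le {l : ℕ} (C : Fin l → A) : finrank k (Submodule.span k (Set.range C)) ≤ l := by
  have := finrank_range_le_card (R := k) C
  simp only [Fintype.card_fin] at this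
  exact this

theorem bound3 (h : LocSym t I) (hgen : I ≤ Submodule.span k {x, y, w} ⊔ I ^ 2) (h4 : I ^ 4 = ⊥) :
    finrank k A ≤ 8 := by
  have h1 : finrank k (I ^ 2 : Submodule k A) ≤ 4 := by
    refine finrank_le_of_test (t := t) ![1, x, y, w] fun u hu hj => h.nd u fun a => ?_
    have j0 := hj 0
    have j1 := hj 1
    have j2 := hj 2
    have j3 := hj 3
    simp only [Matrix.cons_val_zero, Matrix.cons_val_one, Matrix.cons_val, mul_one] at j0 j1 j2 j3
    obtain ⟨c, α₁, α₂, α₃, a₂, ha₂, rfl⟩ := decomp3 h hgen a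
    have h0 : u * a₂ = 0 := by
      have : u * a₂ ∈ I ^ 4 := mm (by omega) hu ha₂
      rw [h4] at this
      simpa using this
    simp only [mul_add, mul_smul_comm, mul_one, map_add, map_smul, h0, map_zero, j0, j1, j2, j3, smul_zero, add_zero]
  have h2 : (⊤ : Submodule k A) ≤ Submodule.span k (Set.range ![1, x, y, w]) ⊔ I ^ 2 := by
    intro a _
    obtain ⟨c, α₁, α₂, α₃, a₂, ha₂, rfl⟩ := decomp3 h hgen a
    refine Submodule.add_mem_sup ?_ ha₂
    have m0 : (1 : A) ∈ Submodule.span k (Set.range ![1, x, y, w]) := Submodule.subset_span ⟨0, rfl⟩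
    have m1 : x ∈ Submodule.span k (Set.range ![1, x, y, w]) := Submodule.subset_span ⟨1, rfl⟩
    have m2 : y ∈ Submodule.span k (Set.range ![1, x, y, w]) := Submodule.subset_span ⟨2, rfl⟩
    have m3 : w ∈ Submodule.span k (Set.range ![1, x, y, w]) := Submodule.subset_span ⟨3, rfl⟩
    exact Submodule.add_mem _ (Submodule.smul_mem _ _ m0) (Submodule.add_mem _ (Submodule.add_mem _
      (Submodule.smul_mem _ _ m1) (Submodule.smul_mem _ _ m2)) (Submodule.smul_mem _ _ m3))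
  have h3 := Submodule.finrank_mono h2
  rw [finrank_top] at h3
  have h5 := Submodule.finrank_add_le_finrank_add_finrank (Submodule.span k (Set.range ![1, x, y, w])) (I ^ 2)
  have h6 := finrank_span_fin_le (k := k) ![1, x, y, w]
  omega

theorem bound2 (h : LocSym t I) (hgen : I ≤ Submodule.span k {x, y} ⊔ I ^ 2) {p q : A}
    (hV : I ^ 2 ≤ Submodule.span k {p, q} ⊔ I ^ 3) (h5 : I ^ 5 = ⊥) : finrank k A ≤ 8 := by
  have h1 : finrank k (I ^ 3 : Submodule k A) ≤ 3 := by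
    refine finrank_le_of_test (t := t) ![1, x, y] fun u hu hj => h.nd u fun a => ?_
    have j0 := hj 0
    have j1 := hj 1
    have j2 := hj 2
    simp only [Matrix.cons_val_zero, Matrix.cons_val_one, Matrix.cons_val, mul_one] at j0 j1 j2
    obtain ⟨c, α₁, α₂, a₂, ha₂, rfl⟩ := decomp2 h hgen a
    have h0 : u * a₂ = 0 := by
      have : u * a₂ ∈ I ^ 5 := mm (by omega) hu ha₂
      rw [h5] at this
      simpa using this
    simp only [mul_add, mul_smul_comm, mul_one, map_add, map_smul, h0, map_zero, j0, j1, j2, smul_zero, add_zero]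
  have h2 : (⊤ : Submodule k A) ≤ Submodule.span k (Set.range ![1, x, y]) ⊔ I ^ 2 := by
    intro a _
    obtain ⟨c, α₁, α₂, a₂, ha₂, rfl⟩ := decomp2 h hgen a
    refine Submodule.add_mem_sup ?_ ha₂
    have m0 : (1 : A) ∈ Submodule.span k (Set.range ![1, x, y]) := Submodule.subset_span ⟨0, rfl⟩
    have m1 : x ∈ Submodule.span k (Set.range ![1, x, y]) := Submodule.subset_span ⟨1, rfl⟩
    have m2 : y ∈ Submodule.span k (Set.range ![1, x, y]) := Submodule.subset_span ⟨2, rfl⟩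
    exact Submodule.add_mem _ (Submodule.smul_mem _ _ m0) (Submodule.add_mem _
      (Submodule.smul_mem _ _ m1) (Submodule.smul_mem _ _ m2))
  have h3 := Submodule.finrank_mono h2
  rw [finrank_top] at h3
  have h5' := Submodule.finrank_add_le_finrank_add_finrank (Submodule.span k (Set.range ![1, x, y])) (I ^ 2)
  have h6 := finrank_span_fin_le (k := k) ![1, x, y]
  have h7 : I ^ 2 ≤ Submodule.span k (Set.range ![p, q]) ⊔ I ^ 3 := by
    refine hV.trans (sup_le_sup_right (Submodule.span_mono ?_) _)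
    rintro _ (rfl | rfl)
    · exact ⟨0, rfl⟩
    · exact ⟨1, rfl⟩
  have h8 := Submodule.finrank_mono h7
  have h9 := Submodule.finrank_add_le_finrank_add_finrank (Submodule.span k (Set.range ![p, q])) (I ^ 3)
  have h10 := finrank_span_fin_le (k := k) ![p, q]
  omega

theorem bound2' (h : LocSym t I) (hx : x ∈ I) (hy : y ∈ I) (hgen : I ≤ Submodule.span k {x, y} ⊔ I ^ 2)
    (h3 : I ^ 3 = ⊥) : finrank k A ≤ 8 := by
  have h1 : finrank k (I ^ 2 : Submodule k A) ≤ 1 := by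
    refine finrank_le_of_test (t := t) ![1] fun u hu hj => h.nd u fun a => ?_
    have j0 := hj 0
    simp only [Matrix.cons_val_zero, mul_one] at j0
    obtain ⟨c, α₁, α₂, a₂, ha₂, rfl⟩ := decomp2 h hgen a
    have hzero : ∀ d ∈ I, u * d = 0 := by
      intro d hd
      have : u * d ∈ I ^ 3 := mm (by omega) hu (one_mem hd)
      rw [h3] at this
      simpa using this
    simp only [mul_add, mul_smul_comm, mul_one, map_add, map_smul, hzero x hx, hzero y hy, hzero a₂ (pow2_le h ha₂),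
      map_zero, j0, smul_zero, add_zero]
  have h2 : (⊤ : Submodule k A) ≤ Submodule.span k (Set.range ![1, x, y]) ⊔ I ^ 2 := by
    intro a _
    obtain ⟨c, α₁, α₂, a₂, ha₂, rfl⟩ := decomp2 h hgen a
    refine Submodule.add_mem_sup ?_ ha₂
    have m0 : (1 : A) ∈ Submodule.span k (Set.range ![1, x, y]) := Submodule.subset_span ⟨0, rfl⟩
    have m1 : x ∈ Submodule.span k (Set.range ![1, x, y]) := Submodule.subset_span ⟨1, rfl⟩
    have m2 : y ∈ Submodule.span k (Set.range ![1, x, y]) := Submodule.subset_span ⟨2, rfl⟩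
    exact Submodule.add_mem _ (Submodule.smul_mem _ _ m0) (Submodule.add_mem _
      (Submodule.smul_mem _ _ m1) (Submodule.smul_mem _ _ m2))
  have h3' := Submodule.finrank_mono h2
  rw [finrank_top] at h3'
  have h5' := Submodule.finrank_add_le_finrank_add_finrank (Submodule.span k (Set.range ![1, x, y])) (I ^ 2)
  have h6 := finrank_span_fin_le (k := k) ![1, x, y]
  omega

/-- The commutative case. -/
theorem bound_comm (h : LocSym t I) (hdep : ∀ v : Fin 6 → A, ∃ c : Fin 6 → k, c ≠ 0 ∧ ∑ i, c i • v i ∈ commSpan k A)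
    (hc : ∀ a ∈ I, ∀ b ∈ I, a * b = b * a) : finrank k A ≤ 8 := by
  have hS : commSpan k A = ⊥ := by
    refine le_bot_iff.1 (Submodule.span_le.2 ?_)
    rintro _ ⟨a, b, rfl⟩
    obtain ⟨c, hc₁⟩ := h.dec a
    obtain ⟨d, hd₁⟩ := h.dec b
    have h1 : a * b - b * a = (a - c • 1) * (b - d • 1) - (b - d • 1) * (a - c • 1) := by
      simp only [mul_sub, sub_mul, smul_mul_assoc, mul_smul_comm, smul_smul, mul_one, one_mul, smul_sub]
      rw [mul_comm d c]
      abel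
    rw [h1, hc _ hc₁ _ hd₁, sub_self]
    exact Submodule.zero_mem _
  by_contra hlt
  have h6 : 6 ≤ finrank k A := by omega
  obtain ⟨f, hf⟩ := exists_linearIndependent_of_le_finrank (R := k) h6
  obtain ⟨c, hc0, hm⟩ := hdep f
  rw [hS, Submodule.mem_bot] at hm
  exact hc0 (funext (Fintype.linearIndependent_iff.1 hf c hm))

end Bounds

end Cfsg.Agent.Lib.Blocks.Sym5
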