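import Mathlib
import Cfsg.Agent.Lib.Blocks.Sym5L

/-!
# Symmetric local algebras: two generators, second level of dimension two, the quick normal forms
-/

set_option autoImplicit false
set_option linter.unusedSectionVars false
set_option linter.unusedVariables false
set_option linter.style.haveILetI false
set_option linter.unusedSimpArgs false

namespace Cfsg.Agent.Lib.Blocks.Sym5

open Module MulOpposite Cfsg.Agent.Lib.Blocks.SymLocal Cfsg.Agent.Lib.Blocks.SymCom

section Two

variable {k A : Type*} [Field k] [Ring A] [Algebra k A] {t : A →ₗ[k] k} {I : Submodule k A}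
variable {x y : A}

/-- The normal form with `x ^ 2` a nonzero multiple of the commutator. -/
theorem N1_a (h : LocSym t I) (hx : x ∈ I) (hy : y ∈ I) (hgen : I ≤ Submodule.span k {x, y} ⊔ I ^ 2) {a e : k}
    (hxx : x * x - a • (x * y - y * x) ∈ I ^ 3) (hyy : y * y - e • (x * y - y * x) ∈ I ^ 3)
    (hV : I ^ 2 ≤ Submodule.span k {x * y - y * x, x * y} ⊔ I ^ 3) (ha : a ≠ 0) (h2 : (2 : k) ≠ 0) : I ^ 4 = ⊥ := by
  obtain ⟨z, hz⟩ : ∃ z, z = x * y - y * x := ⟨_, rfl⟩
  rw [← hz] at hxx hyy hV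
  have hx1 := one_mem hx
  have hy1 := one_mem hy
  have hxy2 : x * y ∈ I ^ 2 := mm (by omega) hx1 hy1
  have hz2 : z ∈ I ^ 2 := by
    rw [hz]
    exact (I ^ 2).sub_mem hxy2 (mm (by omega) hy1 hx1)
  have hyx : y * x = x * y - z := by rw [hz]; abel
  have hxy0 : x * y - x * y ∈ I ^ 3 := by simp
  have hyx0 : y * x - (x * y - z) ∈ I ^ 3 := by
    rw [hyx, sub_self]
    exact Submodule.zero_mem _
  -- level three
  have hrels : ∀ F : A →ₗ[k] k, (∀ u ∈ I ^ 4, F u = 0) →
      F (z * x) = F (x * z) ∧ F (z * y) = - F (y * z) ∧ F (x * z) = - (a * F (y * z)) ∧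
      F (x * y * x) = 0 ∧ F (x * y * y) = - (a * e * F (y * z)) := by
    intro F hF
    have r1 := rel3 hF hx hx hxx hxx
    have r2 := rel3 hF hy hy hyy hyy
    have r3 := rel3 hF hy hx hyx0 hxx
    have r4 := rel3 hF hx hx hxy0 hyx0
    have r5 := rel3 hF hx hy hxx hxy0
    have r6 := rel3 hF hx hy hxy0 hyy
    have r7 := rel3 hF hy hy hyx0 hxy0
    have r8 := rel3 hF hy hx hyy hyx0
    simp only [smul_mul_assoc, mul_smul_comm, sub_mul, mul_sub, map_smul, map_sub, smul_eq_mul] at r1 r2 r3 r4 r5 r6 r7 r8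
    have e1 : F (z * x) = F (x * z) := mul_left_cancel₀ ha r1
    have e2 : F (z * y) = - F (y * z) := by
      linear_combination r8 - r7 + r6 - e * e1
    have e3 : F (x * z) = - (a * F (y * z)) := by
      apply mul_left_cancel₀ h2
      linear_combination -r3 + r4 - r5 + a * e2 - e1
    refine ⟨e1, e2, e3, ?_, ?_⟩
    · linear_combination r4 - r5 + a * e2 - e3
    · linear_combination r6 + e * e3
  have m1 : z * x - x * z ∈ I ^ 4 := mem_of_forms fun F hF => by
    rw [map_sub, (hrels F hF).1, sub_self]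
  have m2 : z * y + y * z ∈ I ^ 4 := mem_of_forms fun F hF => by
    rw [map_add, (hrels F hF).2.1, neg_add_cancel]
  have m3 : x * z + a • (y * z) ∈ I ^ 4 := mem_of_forms fun F hF => by
    rw [map_add, map_smul, (hrels F hF).2.2.1, smul_eq_mul, neg_add_cancel]
  have hS2 : ∀ s ∈ ({z, x * y} : Set A), s ∈ I ^ 2 := by
    rintro _ (rfl | rfl)
    · exact hz2
    · exact hxy2
  have hI3 : I ^ 3 ≤ Submodule.span k {y * z} ⊔ I ^ 4 := by
    refine le_sup_of_forms fun F hF hS => ?_
    have hB : F (y * z) = 0 := hS _ (Set.mem_singleton _)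
    obtain ⟨r1, r2, r3, r4, r5⟩ := hrels F hF
    refine vanish_mul h (n := 2) hS2 hV hgen hF ?_
    rintro _ (rfl | rfl) _ (rfl | rfl)
    · rw [r1, r3, hB]
      ring
    · rw [r2, hB, neg_zero]
    · exact r4
    · rw [r5, hB]
      ring
  have hB3 : y * z ∈ I ^ 3 := mm (by omega) hy1 hz2
  apply eq_bot_of_pow_le h
  intro u hu
  refine mem_of_forms (Y := I ^ (4 + 1)) (fun G hG => ?_)
  have hG' : ∀ u ∈ I ^ 5, G u = 0 := hG
  -- level four
  have f1 := hG' _ (mm (r := 5) (by omega) hx1 m3)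
  have f2 := hG' _ (mm (r := 5) (by omega) hxx hz2)
  have f3 := hG' _ (mm (r := 5) (by omega) m1 hy1)
  have f4 := hG' _ (mm (r := 5) (by omega) hx1 m2)
  have f5 := hG' _ (mm (r := 5) (by omega) m2 hx1)
  have f6 := hG' _ (mm (r := 5) (by omega) hy1 m1)
  have f7 := hG' _ (mm (r := 5) (by omega) hy1 m2)
  have f8 := hG' _ (mm (r := 5) (by omega) hyy hz2)
  have ez : z * z = z * (x * y) - z * (y * x) := by
    nth_rw 2 [hz]
    rw [mul_sub]
  have ey : y * (x * z) = x * (y * z) - z * z := by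
    rw [← mul_assoc, hyx, sub_mul, mul_assoc]
  have f9 := congrArg G ez
  have f10 := congrArg G ey
  simp only [mul_add, add_mul, mul_sub, sub_mul, smul_mul_assoc, mul_smul_comm, map_add, map_sub, map_smul, smul_eq_mul,
    mul_assoc] at f1 f2 f3 f4 f5 f6 f7 f8 f9 f10
  have e1 : G (z * z) + G (x * (y * z)) = 0 := by
    apply mul_left_cancel₀ ha
    linear_combination f1 - f2
  have e2 : (2 : k) * G (z * z) = 2 * 0 := by
    linear_combination f9 + f3 + f4 - f5 + f6 + f10
  have e3 : G (z * z) = 0 := by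
    have := mul_left_cancel₀ h2 e2
    exact this
  have e4 : G (x * (y * z)) = 0 := by linear_combination e1 - e3
  have hBx : G (y * z * x) = 0 := by
    rw [mul_assoc]
    linear_combination f6 + f10 + e4 - e3
  have hBy : G (y * z * y) = 0 := by
    rw [mul_assoc]
    linear_combination f7 - f8 - e * e3
  refine vanish_mul h (n := 3) (S := {y * z}) (E := {x, y}) ?_ hI3 hgen hG' ?_ u hu
  · rintro _ rfl
    exact hB3
  · rintro _ rfl _ (rfl | rfl)
    · exact hBx
    · exact hBy

/-- The normal form with `x y` a multiple of the commutator. -/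
theorem N2 (h : LocSym t I) (hx : x ∈ I) (hy : y ∈ I) (hgen : I ≤ Submodule.span k {x, y} ⊔ I ^ 2) {b e : k}
    (hxy : x * y - b • (x * y - y * x) ∈ I ^ 3) (hyy : y * y - e • (x * y - y * x) ∈ I ^ 3)
    (hV : I ^ 2 ≤ Submodule.span k {x * y - y * x, x * x} ⊔ I ^ 3)
    (hstar : I ^ 4 ≠ ⊥ → I ^ 3 ≤ KK I ⊔ I ^ 4) : I ^ 4 = ⊥ := by
  by_contra hne
  have hK := hstar hne
  obtain ⟨z, hz⟩ : ∃ z, z = x * y - y * x := ⟨_, rfl⟩
  rw [← hz] at hxy hyy hV
  have hx1 := one_mem hx
  have hy1 := one_mem hy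
  have hxx2 : x * x ∈ I ^ 2 := mm (by omega) hx1 hx1
  have hz2 : z ∈ I ^ 2 := by
    rw [hz]
    exact (I ^ 2).sub_mem (mm (by omega) hx1 hy1) (mm (by omega) hy1 hx1)
  have hyx : y * x = x * y - z := by rw [hz]; abel
  have hxx0 : x * x - x * x ∈ I ^ 3 := by simp
  have hyx0 : y * x - (b - 1) • z ∈ I ^ 3 := by
    convert hxy using 1
    rw [hyx, sub_smul, one_smul]
    abel
  have raw : ∀ F : A →ₗ[k] k, (∀ u ∈ I ^ 4, F u = 0) →
      F (x * x * x) = F (x * (x * x)) ∧ F (x * x * y) = b * F (x * z) ∧ b * F (z * x) = (b - 1) * F (x * z) ∧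
      b * F (z * y) = e * F (x * z) ∧ (b - 1) * F (z * x) = F (y * (x * x)) ∧ (b - 1) * F (z * y) = b * F (y * z) ∧
      e * F (z * x) = (b - 1) * F (y * z) ∧ e * F (z * y) = e * F (y * z) := by
    intro F hF
    have r1 := rel3 hF hx hx hxx0 hxx0
    have r2 := rel3 hF hx hy hxx0 hxy
    have r3 := rel3 hF hx hx hxy hyx0
    have r4 := rel3 hF hx hy hxy hyy
    have r5 := rel3 hF hy hx hyx0 hxx0
    have r6 := rel3 hF hy hy hyx0 hxy
    have r7 := rel3 hF hy hx hyy hyx0
    have r8 := rel3 hF hy hy hyy hyy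
    simp only [smul_mul_assoc, mul_smul_comm, map_smul, smul_eq_mul] at r1 r2 r3 r4 r5 r6 r7 r8
    exact ⟨r1, r2, r3, r4, r5, r6, r7, r8⟩
  have hS2 : ∀ s ∈ ({z, x * x} : Set A), s ∈ I ^ 2 := by
    rintro _ (rfl | rfl)
    · exact hz2
    · exact hxx2
  have hKF : ∀ F : A →ₗ[k] k, (∀ u ∈ I ^ 4, F u = 0) → F (x * z) = F (z * x) → F (y * z) = F (z * y) →
      F (y * (x * x)) = F (x * x * y) → ∀ u ∈ I ^ 3, F u = 0 := by
    intro F hF h1 h2 h3 u hu
    have hKK := form_KK h (E := {x, y}) (S := {z, x * x}) hgen hV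
      (by
        rintro _ (rfl | rfl)
        · exact hx
        · exact hy) hS2 hF
      (by
        rintro _ (rfl | rfl) _ (rfl | rfl)
        · exact h1
        · exact (raw F hF).1.symm
        · exact h2
        · exact h3)
    obtain ⟨a, ha, j, hj, rfl⟩ := Submodule.mem_sup.1 (hK hu)
    rw [map_add, hKK a ha, hF j hj, add_zero]
  by_cases he : e = 0
  · subst he
    have hB : ∀ F : A →ₗ[k] k, (∀ u ∈ I ^ 4, F u = 0) → F (y * z) = 0 ∧ F (z * y) = 0 := by
      intro F hF
      obtain ⟨r1, r2, r3, r4, r5, r6, r7, r8⟩ := raw F hF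
      simp only [zero_mul] at r4 r7
      have e1 : F (y * z) = 0 := by
        have e2 : b * (b * F (y * z)) = 0 := by
          rw [← r6]
          linear_combination (b - 1) * r4
        linear_combination e2 + (b + 1) * r7
      refine ⟨e1, ?_⟩
      rw [e1, mul_zero] at r6
      linear_combination r4 - r6
    obtain ⟨u, hu⟩ : ∃ u, u = x * z - z * x := ⟨_, rfl⟩
    have hA : ∀ F : A →ₗ[k] k, (∀ u ∈ I ^ 4, F u = 0) → F (x * z) = b * F u ∧ F (z * x) = (b - 1) * F u := by
      intro F hF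
      obtain ⟨r1, r2, r3, r4, r5, r6, r7, r8⟩ := raw F hF
      rw [hu, map_sub]
      constructor
      · linear_combination r3
      · linear_combination r3
    have hI3 : I ^ 3 ≤ Submodule.span k {u} ⊔ I ^ 4 := by
      refine le_sup_of_forms fun F hF hS => ?_
      have h0 : F u = 0 := hS _ (Set.mem_singleton _)
      obtain ⟨a1, a2⟩ := hA F hF
      obtain ⟨b1, b2⟩ := hB F hF
      obtain ⟨r1, r2, r3, r4, r5, r6, r7, r8⟩ := raw F hF
      rw [h0, mul_zero] at a1 a2
      refine hKF F hF (by rw [a1, a2]) (by rw [b1, b2]) ?_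
      rw [← r5, r2, a1, a2]
      ring
    have m1 : y * z ∈ I ^ 4 := mem_of_forms fun F hF => (hB F hF).1
    have m2 : z * y ∈ I ^ 4 := mem_of_forms fun F hF => (hB F hF).2
    have m3 : x * z - b • u ∈ I ^ 4 := mem_of_forms fun F hF => by
      rw [map_sub, map_smul, (hA F hF).1, smul_eq_mul, sub_self]
    have m4 : z * x - (b - 1) • u ∈ I ^ 4 := mem_of_forms fun F hF => by
      rw [map_sub, map_smul, (hA F hF).2, smul_eq_mul, sub_self]
    have hzz : z * z ∈ I ^ 5 := mem_of_forms fun G hG => by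
      have f1 := hG _ (mm (r := 5) (by omega) m2 hx1)
      have f2 := hG _ (mm (r := 5) (by omega) hz2 hxy)
      have f3 := hG _ (mm (r := 5) (by omega) hx1 m1)
      have f4 := hG _ (mm (r := 5) (by omega) hyx0 hz2)
      have ez : z * z = z * (x * y) - z * (y * x) := by
        nth_rw 2 [hz]
        rw [mul_sub]
      have ez' : z * z = (x * y) * z - (y * x) * z := by
        nth_rw 1 [hz]
        rw [sub_mul]
      have f5 := congrArg G ez
      have f6 := congrArg G ez'
      simp only [mul_add, add_mul, mul_sub, sub_mul, smul_mul_assoc, mul_smul_comm, map_add, map_sub, map_smul,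
        smul_eq_mul, mul_assoc] at f1 f2 f3 f4 f5 f6
      linear_combination f5 + f2 - f1 + f6 + f3 - f4
    have hyu : y * u ∈ I ^ 5 := by
      have e1 : y * u = (y * x - (b - 1) • z) * z + (b - 1) • (z * z) - (y * z) * x := by
        rw [hu]
        simp only [mul_sub, sub_mul, smul_mul_assoc, mul_assoc]
        abel
      rw [e1]
      exact (I ^ 5).sub_mem ((I ^ 5).add_mem (mm (r := 5) (by omega) hyx0 hz2) ((I ^ 5).smul_mem _ hzz))
        (mm (r := 5) (by omega) m1 hx1)
    have huy : u * y ∈ I ^ 5 := by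
      have e1 : u * y = x * (z * y) - (z * (x * y - b • z) + b • (z * z)) := by
        rw [hu]
        simp only [mul_sub, sub_mul, mul_smul_comm, mul_assoc]
        abel
      rw [e1]
      exact (I ^ 5).sub_mem (mm (r := 5) (by omega) hx1 m2) ((I ^ 5).add_mem (mm (r := 5) (by omega) hz2 hxy)
        ((I ^ 5).smul_mem _ hzz))
    have hxu : (b - 1) • (x * u) - b • (u * x) ∈ I ^ 5 := by
      have e1 : (b - 1) • (x * u) - b • (u * x) = (x * z - b • u) * x - x * (z * x - (b - 1) • u) := by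
        simp only [mul_sub, sub_mul, smul_mul_assoc, mul_smul_comm, mul_assoc]
        abel
      rw [e1]
      exact (I ^ 5).sub_mem (mm (r := 5) (by omega) m3 hx1) (mm (r := 5) (by omega) hx1 m4)
    refine hne (chain_two h hx hy hgen (α := b - 1) (β := b) (by
      intro hh
      have : (1 : k) = 0 := by linear_combination -hh
      exact one_ne_zero this) ?_ ?_ ?_)
    · intro v hv
      obtain ⟨c, hc⟩ := exists_one (hI3 hv)
      have e1 : y * v = y * (v - c • u) + c • (y * u) := by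
        simp only [mul_sub, mul_smul_comm]
        abel
      rw [e1]
      exact (I ^ 5).add_mem (mm (r := 5) (by omega) hy1 hc) ((I ^ 5).smul_mem _ hyu)
    · intro v hv
      obtain ⟨c, hc⟩ := exists_one (hI3 hv)
      have e1 : v * y = (v - c • u) * y + c • (u * y) := by
        simp only [sub_mul, smul_mul_assoc]
        abel
      rw [e1]
      exact (I ^ 5).add_mem (mm (r := 5) (by omega) hc hy1) ((I ^ 5).smul_mem _ huy)
    · intro v hv
      obtain ⟨c, hc⟩ := exists_one (hI3 hv)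
      have e1 : (b - 1) • (x * v) - b • (v * x) = (b - 1) • (x * (v - c • u)) - b • ((v - c • u) * x) +
          c • ((b - 1) • (x * u) - b • (u * x)) := by
        simp only [mul_sub, sub_mul, smul_mul_assoc, mul_smul_comm, smul_sub, smul_smul]
        module
      rw [e1]
      exact (I ^ 5).add_mem ((I ^ 5).sub_mem ((I ^ 5).smul_mem _ (mm (r := 5) (by omega) hx1 hc))
        ((I ^ 5).smul_mem _ (mm (r := 5) (by omega) hc hx1))) ((I ^ 5).smul_mem _ hxu)
  · have hall : ∀ F : A →ₗ[k] k, (∀ u ∈ I ^ 4, F u = 0) → ∀ u ∈ I ^ 3, F u = 0 := by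
      intro F hF
      obtain ⟨r1, r2, r3, r4, r5, r6, r7, r8⟩ := raw F hF
      have e1 : F (z * y) = F (y * z) := mul_left_cancel₀ he r8
      have e2 : F (y * z) = 0 := by
        rw [e1] at r6
        linear_combination -r6
      have e3 : F (z * y) = 0 := by rw [e1, e2]
      have e4 : F (x * z) = 0 := by
        rw [e3, mul_zero] at r4
        exact ((mul_eq_zero.1 r4.symm).resolve_left he)
      have e5 : F (z * x) = 0 := by
        rw [e2, mul_zero] at r7
        exact ((mul_eq_zero.1 r7).resolve_left he)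
      refine hKF F hF (by rw [e4, e5]) (by rw [e2, e3]) ?_
      rw [← r5, r2, e4, e5]
      ring
    have hle : I ^ 3 ≤ I ^ 4 := by
      intro u hu
      exact mem_of_forms fun F hF => hall F hF u hu
    exact hne (pow_eq_bot_of_le h (m := 3) (by omega) (eq_bot_of_pow_le h hle))

/-- The normal form with `x y` congruent to `x ^ 2`. -/
theorem N3 (h : LocSym t I) (hx : x ∈ I) (hy : y ∈ I) (hgen : I ≤ Submodule.span k {x, y} ⊔ I ^ 2) {e : k}
    (hxy : x * y - x * x ∈ I ^ 3) (hyy : y * y - e • (x * y - y * x) ∈ I ^ 3)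
    (hV : I ^ 2 ≤ Submodule.span k {x * y - y * x, x * x} ⊔ I ^ 3)
    (he : e = 0 ∨ e * (2 + e) ≠ 0) : I ^ 4 = ⊥ := by
  obtain ⟨z, hz⟩ : ∃ z, z = x * y - y * x := ⟨_, rfl⟩
  rw [← hz] at hyy hV
  have hx1 := one_mem hx
  have hy1 := one_mem hy
  have hxx2 : x * x ∈ I ^ 2 := mm (by omega) hx1 hx1
  have hz2 : z ∈ I ^ 2 := by
    rw [hz]
    exact (I ^ 2).sub_mem (mm (by omega) hx1 hy1) (mm (by omega) hy1 hx1)
  have hxx0 : x * x - x * x ∈ I ^ 3 := by simp
  have hyx0 : y * x - (x * x - z) ∈ I ^ 3 := by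
    convert hxy using 1
    rw [hz]
    abel
  have raw : ∀ F : A →ₗ[k] k, (∀ u ∈ I ^ 4, F u = 0) →
      F (x * z) = 0 ∧ F (x * x * y) = 0 ∧ F (x * x * x) = 0 ∧ F (z * y) = F (z * x) ∧
      F (y * (x * x)) = - F (z * x) ∧ F (y * z) = - (F (z * x) + e * F (z * x)) ∧ e * (2 + e) * F (z * x) = 0 := by
    intro F hF
    have r1 := rel3 hF hx hx hxx0 hxx0
    have r2 := rel3 hF hx hy hxx0 hxy
    have r3 := rel3 hF hx hx hxy hyx0
    have r4 := rel3 hF hx hy hxy hyy
    have r5 := rel3 hF hy hx hyx0 hxx0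
    have r6 := rel3 hF hy hy hyx0 hxy
    have r7 := rel3 hF hy hx hyy hyx0
    have r8 := rel3 hF hy hy hyy hyy
    simp only [smul_mul_assoc, mul_smul_comm, sub_mul, mul_sub, map_sub, map_smul, smul_eq_mul] at r1 r2 r3 r4 r5 r6 r7 r8
    have e1 : F (x * z) = 0 := by linear_combination r3 - r1
    have e2 : F (x * x * y) = 0 := by rw [r4, e1, mul_zero]
    have e3 : F (x * x * x) = 0 := by rw [r1, ← r2, e2]
    have e4 : F (z * y) = F (z * x) := by linear_combination e2 - e3 + r5 - r6
    have e5 : F (y * (x * x)) = - F (z * x) := by linear_combination -r5 + e3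
    have e6 : F (y * z) = - (F (z * x) + e * F (z * x)) := by linear_combination r7 + e5
    refine ⟨e1, e2, e3, e4, e5, e6, ?_⟩
    rw [e4, e6] at r8
    linear_combination r8
  have hS2 : ∀ s ∈ ({z, x * x} : Set A), s ∈ I ^ 2 := by
    rintro _ (rfl | rfl)
    · exact hz2
    · exact hxx2
  have hI3 : I ^ 3 ≤ Submodule.span k {z * x} ⊔ I ^ 4 := by
    refine le_sup_of_forms fun F hF hS => ?_
    have h0 : F (z * x) = 0 := hS _ (Set.mem_singleton _)
    obtain ⟨r1, r2, r3, r4, r5, r6, r7⟩ := raw F hF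
    refine vanish_mul h (n := 2) hS2 hV hgen hF ?_
    rintro _ (rfl | rfl) _ (rfl | rfl)
    · exact h0
    · rw [r4, h0]
    · exact r3
    · exact r2
  rcases he with he | he
  · subst he
    have hyy0 : y * y ∈ I ^ 3 := by simpa using hyy
    have m1 : x * z ∈ I ^ 4 := mem_of_forms fun F hF => (raw F hF).1
    have m2 : z * y - z * x ∈ I ^ 4 := mem_of_forms fun F hF => by
      rw [map_sub, (raw F hF).2.2.2.1, sub_self]
    have m3 : y * z + z * x ∈ I ^ 4 := mem_of_forms fun F hF => by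
      rw [map_add, (raw F hF).2.2.2.2.2.1]
      ring
    have h1 : y * (z * x) ∈ I ^ 5 := by
      have e1 : y * (z * x) = y * (y * z + z * x) - (y * y) * z := by
        simp only [mul_add, mul_assoc]
        abel
      rw [e1]
      exact (I ^ 5).sub_mem (mm (r := 5) (by omega) hy1 m3) (mm (r := 5) (by omega) hyy0 hz2)
    have h2 : z * x * y ∈ I ^ 5 := by
      have e1 : z * x * y = z * (y * y) - (z * y - z * x) * y := by
        simp only [sub_mul, mul_assoc]
        abel
      rw [e1]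
      exact (I ^ 5).sub_mem (mm (r := 5) (by omega) hz2 hyy0) (mm (r := 5) (by omega) m2 hy1)
    have h3 : x * (z * x) ∈ I ^ 5 := by
      rw [← mul_assoc]
      exact mm (r := 5) (by omega) m1 hx1
    refine chain_two h hx hy hgen (α := 1) (β := 0) one_ne_zero ?_ ?_ ?_
    · intro v hv
      obtain ⟨c, hc⟩ := exists_one (hI3 hv)
      have e1 : y * v = y * (v - c • (z * x)) + c • (y * (z * x)) := by
        simp only [mul_sub, mul_smul_comm]
        abel
      rw [e1]
      exact (I ^ 5).add_mem (mm (r := 5) (by omega) hy1 hc) ((I ^ 5).smul_mem _ h1)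
    · intro v hv
      obtain ⟨c, hc⟩ := exists_one (hI3 hv)
      have e1 : v * y = (v - c • (z * x)) * y + c • (z * x * y) := by
        simp only [sub_mul, smul_mul_assoc]
        abel
      rw [e1]
      exact (I ^ 5).add_mem (mm (r := 5) (by omega) hc hy1) ((I ^ 5).smul_mem _ h2)
    · intro v hv
      obtain ⟨c, hc⟩ := exists_one (hI3 hv)
      have e1 : (1 : k) • (x * v) - (0 : k) • (v * x) = x * (v - c • (z * x)) + c • (x * (z * x)) := by
        simp only [mul_sub, mul_smul_comm, one_smul, zero_smul, sub_zero]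
        abel
      rw [e1]
      exact (I ^ 5).add_mem (mm (r := 5) (by omega) hx1 hc) ((I ^ 5).smul_mem _ h3)
  · have hle : I ^ 3 ≤ I ^ 4 := by
      intro u hu
      obtain ⟨c, hc⟩ := exists_one (hI3 hu)
      have hzx : z * x ∈ I ^ 4 := mem_of_forms fun F hF =>
        (mul_eq_zero.1 (raw F hF).2.2.2.2.2.2).resolve_left he
      have e1 : u = (u - c • (z * x)) + c • (z * x) := by abel
      rw [e1]
      exact (I ^ 4).add_mem hc ((I ^ 4).smul_mem _ hzx)
    exact pow_eq_bot_of_le h (m := 3) (by omega) (eq_bot_of_pow_le h hle)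

end Two

end Cfsg.Agent.Lib.Blocks.Sym5
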