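import Mathlib
import Cfsg.Agent.Lib.Blocks.Sym5M

/-!
# Symmetric local algebras: two generators with squares in the third level
-/

set_option autoImplicit false
set_option linter.unusedSectionVars false
set_option linter.unusedVariables false
set_option linter.style.haveILetI false
set_option linter.unusedSimpArgs false

namespace Cfsg.Agent.Lib.Blocks.Sym5

open Module MulOpposite Cfsg.Agent.Lib.Blocks.SymLocal Cfsg.Agent.Lib.Blocks.SymCom

section Squares

variable {k A : Type*} [Field k] [Ring A] [Algebra k A] {t : A →ₗ[k] k} {I : Submodule k A}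
variable {x y : A}

/-- The commutators lying deeper. -/
def K3 (I : Submodule k A) : Submodule k A :=
  Submodule.span k {u | (∃ d ∈ I, ∃ v ∈ I ^ 3, u = d * v - v * d) ∨ (∃ d ∈ I ^ 2, ∃ v ∈ I ^ 2, u = d * v - v * d)}

lemma KK_dec (h : LocSym t I) (hx : x ∈ I) (hy : y ∈ I) (hgen : I ≤ Submodule.span k {x, y} ⊔ I ^ 2)
    (hV : I ^ 2 ≤ Submodule.span k {x * y, y * x} ⊔ I ^ 3) {s : A} (hs : s ∈ KK I) :
    ∃ c₁ c₂ c₃ c₄ : k, s - (c₁ • (x * (x * y) - (x * y) * x) + c₂ • (x * (y * x) - (y * x) * x) +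
      c₃ • (y * (x * y) - (x * y) * y) + c₄ • (y * (y * x) - (y * x) * y)) ∈ K3 I := by
  induction hs using Submodule.span_induction with
  | mem u hu =>
    obtain ⟨d, hd, v, hv, rfl⟩ := hu
    obtain ⟨α, β, hd₂⟩ := exists_two (hgen hd)
    obtain ⟨γ, δ, hv₃⟩ := exists_two (hV hv)
    have hL : α • x + β • y ∈ I := I.add_mem (I.smul_mem _ hx) (I.smul_mem _ hy)
    have m1 : (d - (α • x + β • y)) * v - v * (d - (α • x + β • y)) ∈ K3 I :=
      Submodule.subset_span (Or.inr ⟨_, hd₂, v, hv, rfl⟩)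
    have m2 : (α • x + β • y) * (v - (γ • (x * y) + δ • (y * x))) - (v - (γ • (x * y) + δ • (y * x))) * (α • x + β • y) ∈
        K3 I := Submodule.subset_span (Or.inl ⟨_, hL, _, hv₃, rfl⟩)
    refine ⟨α * γ, α * δ, β * γ, β * δ, ?_⟩
    have := Submodule.add_mem _ m1 m2
    convert this using 1
    simp only [add_mul, mul_add, sub_mul, mul_sub, smul_mul_assoc, mul_smul_comm, smul_add, smul_sub, smul_smul]
    module
  | zero => exact ⟨0, 0, 0, 0, by simp⟩
  | add a b _ _ ha hb =>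
    obtain ⟨a₁, a₂, a₃, a₄, ha⟩ := ha
    obtain ⟨b₁, b₂, b₃, b₄, hb⟩ := hb
    refine ⟨a₁ + b₁, a₂ + b₂, a₃ + b₃, a₄ + b₄, ?_⟩
    convert Submodule.add_mem _ ha hb using 1
    simp only [add_smul]
    abel
  | smul r a _ ha =>
    obtain ⟨a₁, a₂, a₃, a₄, ha⟩ := ha
    refine ⟨r * a₁, r * a₂, r * a₃, r * a₄, ?_⟩
    convert Submodule.smul_mem _ r ha using 1
    simp only [smul_sub, smul_add, smul_smul]

theorem N10 (h : LocSym t I) (hx : x ∈ I) (hy : y ∈ I) (hgen : I ≤ Submodule.span k {x, y} ⊔ I ^ 2)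
    (hxx : x * x ∈ I ^ 3) (hyy : y * y ∈ I ^ 3)
    (hV : I ^ 2 ≤ Submodule.span k {x * y, y * x} ⊔ I ^ 3)
    (hstar2 : I ^ 5 ≠ ⊥ → ∀ u ∈ I ^ 4, ∃ s ∈ KK I, u - s ∈ I ^ 5) : I ^ 5 = ⊥ := by
  have hx1 := one_mem hx
  have hy1 := one_mem hy
  have hp2 : x * y ∈ I ^ 2 := mm (by omega) hx1 hy1
  have hq2 : y * x ∈ I ^ 2 := mm (by omega) hy1 hx1
  obtain ⟨a₃, ha₃⟩ : ∃ a₃, a₃ = x * y * x := ⟨_, rfl⟩
  obtain ⟨b₃, hb₃⟩ : ∃ b₃, b₃ = y * x * y := ⟨_, rfl⟩
  have ha3 : a₃ ∈ I ^ 3 := ha₃ ▸ mm (by omega) hp2 hx1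
  have hb3 : b₃ ∈ I ^ 3 := hb₃ ▸ mm (by omega) hq2 hy1
  obtain ⟨P, hP⟩ : ∃ P, P = a₃ * y := ⟨_, rfl⟩
  obtain ⟨Q, hQ⟩ : ∃ Q, Q = b₃ * x := ⟨_, rfl⟩
  have hP4 : P ∈ I ^ 4 := hP ▸ mm (by omega) ha3 hy1
  have hQ4 : Q ∈ I ^ 4 := hQ ▸ mm (by omega) hb3 hx1
  -- products
  have hax : a₃ * x ∈ I ^ 5 := by
    rw [ha₃, mul_assoc]
    exact mm (by omega) hp2 hxx
  have hby : b₃ * y ∈ I ^ 5 := by
    rw [hb₃, mul_assoc]
    exact mm (by omega) hq2 hyy
  have hxa : x * a₃ ∈ I ^ 5 := by
    have e : x * a₃ = (x * x) * (y * x) := by rw [ha₃]; simp only [mul_assoc]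
    rw [e]
    exact mm (by omega) hxx hq2
  have hyb : y * b₃ ∈ I ^ 5 := by
    have e : y * b₃ = (y * y) * (x * y) := by rw [hb₃]; simp only [mul_assoc]
    rw [e]
    exact mm (by omega) hyy hp2
  have hya : y * a₃ = Q := by rw [hQ, ha₃, hb₃]; simp only [mul_assoc]
  have hxb : x * b₃ = P := by rw [hP, ha₃, hb₃]; simp only [mul_assoc]
  have hPy : P * y ∈ I ^ 6 := by
    rw [hP, mul_assoc]
    exact mm (by omega) ha3 hyy
  have hQx : Q * x ∈ I ^ 6 := by
    rw [hQ, mul_assoc]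
    exact mm (by omega) hb3 hxx
  have hxP : x * P ∈ I ^ 6 := by
    rw [hP, ← mul_assoc]
    exact mm (by omega) hxa hy1
  have hyQ : y * Q ∈ I ^ 6 := by
    rw [hQ, ← mul_assoc]
    exact mm (by omega) hyb hx1
  have hxQ : x * Q = P * x := by
    rw [hQ, ← mul_assoc, hxb]
  have hyP : y * P = Q * y := by
    rw [hP, ← mul_assoc, hya]
  -- the levels
  have hW2 : I ^ 3 ≤ Submodule.span k {a₃, b₃} ⊔ I ^ 4 := by
    refine le_sup_of_forms fun F hF hS => ?_
    refine vanish_mul h (n := 2) (S := {x * y, y * x}) (E := {x, y}) ?_ hV hgen hF ?_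
    · rintro _ (rfl | rfl)
      · exact hp2
      · exact hq2
    · rintro _ (rfl | rfl) _ (rfl | rfl)
      · rw [← ha₃]
        exact hS _ (by simp)
      · rw [mul_assoc]
        exact hF _ (mm (by omega) hx1 hyy)
      · rw [mul_assoc]
        exact hF _ (mm (by omega) hy1 hxx)
      · rw [← hb₃]
        exact hS _ (by simp)
  have hW3 : I ^ 4 ≤ Submodule.span k {P, Q} ⊔ I ^ 5 := by
    refine le_sup_of_forms fun F hF hS => ?_
    refine vanish_mul h (n := 3) (S := {a₃, b₃}) (E := {x, y}) ?_ hW2 hgen hF ?_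
    · rintro _ (rfl | rfl)
      · exact ha3
      · exact hb3
    · rintro _ (rfl | rfl) _ (rfl | rfl)
      · exact hF _ hax
      · rw [← hP]
        exact hS _ (by simp)
      · rw [← hQ]
        exact hS _ (by simp)
      · exact hF _ hby
  have hW4 : I ^ 5 ≤ Submodule.span k {P * x, Q * y} ⊔ I ^ 6 := by
    refine le_sup_of_forms fun F hF hS => ?_
    refine vanish_mul h (n := 4) (S := {P, Q}) (E := {x, y}) ?_ hW3 hgen hF ?_
    · rintro _ (rfl | rfl)
      · exact hP4
      · exact hQ4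
    · rintro _ (rfl | rfl) _ (rfl | rfl)
      · exact hS _ (by simp)
      · exact hF _ hPy
      · exact hF _ hQx
      · exact hS _ (by simp)
  have hPQ : P ∈ I ^ 5 → Q ∈ I ^ 5 → I ^ 5 = ⊥ := by
    intro h1 h2
    have hle : I ^ 4 ≤ I ^ 5 := by
      refine hW3.trans (sup_le (Submodule.span_le.2 ?_) le_rfl)
      rintro _ (rfl | rfl)
      · exact h1
      · exact h2
    exact pow_eq_bot_of_le h (m := 4) (by omega) (eq_bot_of_pow_le h hle)
  by_cases hdp : ∃ c₁ c₂ : k, ¬ (c₁ = 0 ∧ c₂ = 0) ∧ c₁ • a₃ + c₂ • b₃ ∈ I ^ 4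
  · obtain ⟨c₁, c₂, hc, hm⟩ := hdp
    have e1 : c₁ • P ∈ I ^ 5 := by
      have := (I ^ 5).sub_mem (mm (r := 5) (by omega) hm hy1) ((I ^ 5).smul_mem c₂ hby)
      convert this using 1
      rw [hP]
      simp only [add_mul, smul_mul_assoc]
      abel
    have e2 : c₂ • Q ∈ I ^ 5 := by
      have := (I ^ 5).sub_mem (mm (r := 5) (by omega) hm hx1) ((I ^ 5).smul_mem c₁ hax)
      convert this using 1
      rw [hQ]
      simp only [add_mul, smul_mul_assoc]
      abel
    have e3 : c₁ • Q ∈ I ^ 5 := by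
      have := (I ^ 5).sub_mem (mm (r := 5) (by omega) hy1 hm) ((I ^ 5).smul_mem c₂ hyb)
      convert this using 1
      simp only [mul_add, mul_smul_comm, hya]
      abel
    have e4 : c₂ • P ∈ I ^ 5 := by
      have := (I ^ 5).sub_mem (mm (r := 5) (by omega) hx1 hm) ((I ^ 5).smul_mem c₁ hxa)
      convert this using 1
      simp only [mul_add, mul_smul_comm, hxb]
      abel
    by_cases hc₁ : c₁ = 0
    · have hc₂ : c₂ ≠ 0 := fun h2 => hc ⟨hc₁, h2⟩
      exact hPQ ((Submodule.smul_mem_iff _ hc₂).1 e4) ((Submodule.smul_mem_iff _ hc₂).1 e2)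
    · exact hPQ ((Submodule.smul_mem_iff _ hc₁).1 e1) ((Submodule.smul_mem_iff _ hc₁).1 e3)
  · have hind : ∀ c₁ c₂ : k, c₁ • a₃ + c₂ • b₃ ∈ I ^ 4 → c₁ = 0 ∧ c₂ = 0 := by
      intro c₁ c₂ hm
      by_contra hc
      exact hdp ⟨c₁, c₂, hc, hm⟩
    by_contra hne
    have hkey := hstar2 hne
    have h54 : ∀ {u : A}, u ∈ I ^ 5 → u ∈ I ^ 4 := fun hu => pow_anti h (m := 4) (n := 5) (by omega) (by omega) hu
    have hI4 : I ^ 4 ≤ Submodule.span k {P - Q} ⊔ I ^ 5 := by
      refine le_sup_of_forms fun G hG hS => ?_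
      have hν : G P = G Q := by
        have := hS _ (Set.mem_singleton _)
        rw [map_sub] at this
        exact sub_eq_zero.1 this
      -- the commutators of level four
      have hv1 : ∀ d ∈ I, ∀ v ∈ I ^ 3, G (d * v) = G (v * d) := by
        intro d hd v hv
        obtain ⟨α, β, hd₂⟩ := exists_two (hgen hd)
        obtain ⟨γ, δ, hv₄⟩ := exists_two (hW2 hv)
        have hL : α • x + β • y ∈ I ^ 1 :=
          (I ^ 1).add_mem ((I ^ 1).smul_mem _ hx1) ((I ^ 1).smul_mem _ hy1)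
        have f1 := hG _ (mm (r := 5) (by omega) hd₂ hv)
        have f2 := hG _ (mm (r := 5) (by omega) hL hv₄)
        have f3 := hG _ (mm (r := 5) (by omega) hv hd₂)
        have f4 := hG _ (mm (r := 5) (by omega) hv₄ hL)
        rw [sub_mul, map_sub, sub_eq_zero] at f1
        rw [mul_sub, map_sub, sub_eq_zero] at f2
        rw [mul_sub, map_sub, sub_eq_zero] at f3
        rw [sub_mul, map_sub, sub_eq_zero] at f4
        rw [f1, f2, f3, f4]
        simp only [add_mul, mul_add, smul_mul_assoc, mul_smul_comm, map_add, map_smul, smul_eq_mul, hxb, hya, ← hP, ← hQ]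
        rw [hG _ hax, hG _ hby, hG _ hxa, hG _ hyb, hν]
        ring
      have hv2 : ∀ d ∈ I ^ 2, ∀ v ∈ I ^ 2, G (d * v) = G (v * d) := by
        intro d hd v hv
        obtain ⟨α, β, hd₃⟩ := exists_two (hV hd)
        obtain ⟨γ, δ, hv₃⟩ := exists_two (hV hv)
        have hL : α • (x * y) + β • (y * x) ∈ I ^ 2 :=
          (I ^ 2).add_mem ((I ^ 2).smul_mem _ hp2) ((I ^ 2).smul_mem _ hq2)
        have f1 := hG _ (mm (r := 5) (by omega) hd₃ hv)
        have f2 := hG _ (mm (r := 5) (by omega) hL hv₃)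
        have f3 := hG _ (mm (r := 5) (by omega) hv hd₃)
        have f4 := hG _ (mm (r := 5) (by omega) hv₃ hL)
        rw [sub_mul, map_sub, sub_eq_zero] at f1
        rw [mul_sub, map_sub, sub_eq_zero] at f2
        rw [mul_sub, map_sub, sub_eq_zero] at f3
        rw [sub_mul, map_sub, sub_eq_zero] at f4
        rw [f1, f2, f3, f4]
        have g1 : G (x * y * (y * x)) = 0 := by
          apply hG
          have e : x * y * (y * x) = x * ((y * y) * x) := by simp only [mul_assoc]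
          rw [e]
          exact mm (r := 5) (by omega) hx1 (mm (r := 4) (by omega) hyy hx1)
        have g2 : G (y * x * (x * y)) = 0 := by
          apply hG
          have e : y * x * (x * y) = y * ((x * x) * y) := by simp only [mul_assoc]
          rw [e]
          exact mm (r := 5) (by omega) hy1 (mm (r := 4) (by omega) hxx hy1)
        simp only [add_mul, mul_add, smul_mul_assoc, mul_smul_comm, map_add, map_smul, smul_eq_mul, g1, g2]
        ring
      have hK3G : ∀ κ ∈ K3 I, G κ = 0 := by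
        intro κ hκ
        refine form_span ?_ hκ
        rintro _ (⟨d, hd, v, hv, rfl⟩ | ⟨d, hd, v, hv, rfl⟩)
        · rw [map_sub, hv1 d hd v hv, sub_self]
        · rw [map_sub, hv2 d hd v hv, sub_self]
      have hK3I : K3 I ≤ I ^ 4 := by
        refine Submodule.span_le.2 ?_
        rintro _ (⟨d, hd, v, hv, rfl⟩ | ⟨d, hd, v, hv, rfl⟩)
        · exact (I ^ 4).sub_mem (mm (by omega) (one_mem hd) hv) (mm (by omega) hv (one_mem hd))
        · exact (I ^ 4).sub_mem (mm (by omega) hd hv) (mm (by omega) hv hd)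
      intro u hu
      obtain ⟨s, hs, hus⟩ := hkey u hu
      have hs4 : s ∈ I ^ 4 := by
        have e : s = u - (u - s) := by abel
        rw [e]
        exact (I ^ 4).sub_mem hu (h54 hus)
      have hGu : G u = G s := by
        have := hG _ hus
        rw [map_sub] at this
        exact sub_eq_zero.1 this
      rw [hGu]
      obtain ⟨c₁, c₂, c₃, c₄, hκ⟩ := KK_dec h hx hy hgen hV hs
      have f1 : (x * x) * y ∈ I ^ 4 := mm (by omega) hxx hy1
      have f2 : y * (x * x) ∈ I ^ 4 := mm (by omega) hy1 hxx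
      have f3 : (y * y) * x ∈ I ^ 4 := mm (by omega) hyy hx1
      have f4 : x * (y * y) ∈ I ^ 4 := mm (by omega) hx1 hyy
      have e0 : c₁ • (x * (x * y) - (x * y) * x) + c₂ • (x * (y * x) - (y * x) * x) +
          c₃ • (y * (x * y) - (x * y) * y) + c₄ • (y * (y * x) - (y * x) * y) =
          ((c₂ - c₁) • a₃ + (c₃ - c₄) • b₃) + (c₁ • ((x * x) * y) - c₂ • (y * (x * x)) - c₃ • (x * (y * y)) +
            c₄ • ((y * y) * x)) := by
        rw [ha₃, hb₃]
        have e1 : x * (x * y) = x * x * y := by rw [mul_assoc]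
        have e2 : x * (y * x) = x * y * x := by rw [mul_assoc]
        have e3 : (y * x) * x = y * (x * x) := by rw [mul_assoc]
        have e4 : y * (x * y) = y * x * y := by rw [mul_assoc]
        have e5 : (x * y) * y = x * (y * y) := by rw [mul_assoc]
        have e6 : y * (y * x) = y * y * x := by rw [mul_assoc]
        rw [e1, e2, e3, e4, e5, e6]
        module
      rw [e0] at hκ
      have hmem : (c₂ - c₁) • a₃ + (c₃ - c₄) • b₃ ∈ I ^ 4 := by
        have e : (c₂ - c₁) • a₃ + (c₃ - c₄) • b₃ = s - (s - (((c₂ - c₁) • a₃ + (c₃ - c₄) • b₃) + (c₁ • ((x * x) * y) -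
            c₂ • (y * (x * x)) - c₃ • (x * (y * y)) + c₄ • ((y * y) * x)))) - (c₁ • ((x * x) * y) -
            c₂ • (y * (x * x)) - c₃ • (x * (y * y)) + c₄ • ((y * y) * x)) := by abel
        rw [e]
        exact (I ^ 4).sub_mem ((I ^ 4).sub_mem hs4 (hK3I hκ)) ((I ^ 4).add_mem ((I ^ 4).sub_mem ((I ^ 4).sub_mem
          ((I ^ 4).smul_mem _ f1) ((I ^ 4).smul_mem _ f2)) ((I ^ 4).smul_mem _ f4)) ((I ^ 4).smul_mem _ f3))
      obtain ⟨h1, h2⟩ := hind _ _ hmem
      have h3 := hG _ (show (0 : A) ∈ I ^ 5 from Submodule.zero_mem _)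
      have g := hK3G _ hκ
      have h1' : c₂ = c₁ := sub_eq_zero.1 h1
      have h2' : c₃ = c₄ := sub_eq_zero.1 h2
      rw [h1, h2, zero_smul, zero_smul, zero_add] at g
      simp only [map_sub, map_add, map_smul, smul_eq_mul] at g
      have g1 := hv1 y hy _ hxx
      have g2 := hv1 x hx _ hyy
      rw [h1', h2'] at g
      rw [g1, ← g2] at g
      linear_combination g + h3
    obtain ⟨μ, hμ⟩ := exists_one (hI4 hP4)
    obtain ⟨μ', hμ'⟩ := exists_one (hI4 hQ4)
    by_cases hc : 1 - (μ - μ') = 0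
    · have hρ : μ' • P - μ • Q ∈ I ^ 5 := by
        have := (I ^ 5).sub_mem ((I ^ 5).smul_mem μ' hμ) ((I ^ 5).smul_mem μ hμ')
        convert this using 1
        simp only [smul_sub, smul_smul, mul_comm μ' μ]
        abel
      have t1 : μ • (P * x) ∈ I ^ 6 := by
        have := (I ^ 6).sub_mem ((I ^ 6).smul_mem μ' hxP) (mm (r := 6) (by omega) hx1 hρ)
        convert this using 1
        simp only [mul_sub, mul_smul_comm, hxQ]
        abel
      have t2 : μ' • (P * x) ∈ I ^ 6 := by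
        have := (I ^ 6).add_mem (mm (r := 6) (by omega) hρ hx1) ((I ^ 6).smul_mem μ hQx)
        convert this using 1
        simp only [sub_mul, smul_mul_assoc]
        abel
      have t3 : μ' • (Q * y) ∈ I ^ 6 := by
        have := (I ^ 6).add_mem (mm (r := 6) (by omega) hy1 hρ) ((I ^ 6).smul_mem μ hyQ)
        convert this using 1
        simp only [mul_sub, mul_smul_comm, hyP]
        abel
      have t4 : μ • (Q * y) ∈ I ^ 6 := by
        have := (I ^ 6).sub_mem ((I ^ 6).smul_mem μ' hPy) (mm (r := 6) (by omega) hρ hy1)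
        convert this using 1
        simp only [sub_mul, smul_mul_assoc]
        abel
      have hone : μ - μ' = 1 := by linear_combination -hc
      have t5 : P * x ∈ I ^ 6 := by
        have := (I ^ 6).sub_mem t1 t2
        rwa [← sub_smul, hone, one_smul] at this
      have t6 : Q * y ∈ I ^ 6 := by
        have := (I ^ 6).sub_mem t4 t3
        rwa [← sub_smul, hone, one_smul] at this
      have hle : I ^ 5 ≤ I ^ 6 := by
        refine hW4.trans (sup_le (Submodule.span_le.2 ?_) le_rfl)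
        rintro _ (rfl | rfl)
        · exact t5
        · exact t6
      exact hne (eq_bot_of_pow_le h hle)
    · have hν5 : P - Q ∈ I ^ 5 := by
        refine (Submodule.smul_mem_iff _ hc).1 ?_
        have := (I ^ 5).sub_mem hμ hμ'
        convert this using 1
        simp only [sub_smul, one_smul]
        abel
      have hle : I ^ 4 ≤ I ^ 5 := by
        refine hI4.trans (sup_le (Submodule.span_le.2 ?_) le_rfl)
        rintro _ rfl
        exact hν5
      exact hne (pow_eq_bot_of_le h (m := 4) (by omega) (eq_bot_of_pow_le h hle))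

end Squares

end Cfsg.Agent.Lib.Blocks.Sym5
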