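import Mathlib
import Cfsg.Agent.Lib.Blocks.Sym5N

/-!
# Symmetric local algebras: two generators, second level of dimension two, normalizing the quadratic form
-/

set_option autoImplicit false
set_option linter.unusedSectionVars false
set_option linter.unusedVariables false
set_option linter.style.haveILetI false
set_option linter.unusedSimpArgs false

namespace Cfsg.Agent.Lib.Blocks.Sym5

open Module MulOpposite Cfsg.Agent.Lib.Blocks.SymLocal Cfsg.Agent.Lib.Blocks.SymCom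

section Norm

variable {k A : Type*} [Field k] [Ring A] [Algebra k A] {t : A →ₗ[k] k} {I : Submodule k A}
variable {x y w : A} {a₁ a₂ b₁ b₂ e₁ e₂ : k}

/-- A table of the products of two generators. -/
structure T2 (I : Submodule k A) (x y w : A) (a₁ a₂ b₁ b₂ e₁ e₂ : k) : Prop where
  hx : x ∈ I
  hy : y ∈ I
  hgen : I ≤ Submodule.span k {x, y} ⊔ I ^ 2
  hVC : I ^ 2 ≤ Submodule.span k {x * y - y * x, w} ⊔ I ^ 3
  hxx : x * x - (a₁ • (x * y - y * x) + a₂ • w) ∈ I ^ 3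
  hxy : x * y - (b₁ • (x * y - y * x) + b₂ • w) ∈ I ^ 3
  hyy : y * y - (e₁ • (x * y - y * x) + e₂ • w) ∈ I ^ 3

theorem T2.swap (T : T2 I x y w a₁ a₂ b₁ b₂ e₁ e₂) : T2 I y x w (-e₁) e₂ (1 - b₁) b₂ (-a₁) a₂ where
  hx := T.hy
  hy := T.hx
  hgen := T.hgen.trans (sup_le_sup_right (Submodule.span_mono (by
    rintro _ (rfl | rfl) <;> simp)) _)
  hVC := by
    intro u hu
    obtain ⟨r, s, hj⟩ := exists_two (T.hVC hu)
    refine mem_sup2 (-r) s ?_
    convert hj using 1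
    module
  hxx := by
    convert T.hyy using 1
    module
  hxy := by
    convert T.hxy using 1
    module
  hyy := by
    convert T.hxx using 1
    module

theorem T2.move (T : T2 I x y w a₁ a₂ b₁ b₂ e₁ e₂) (μ : k) :
    T2 I (x + μ • y) y w (a₁ + μ * (2 * b₁ - 1) + μ ^ 2 * e₁) (a₂ + 2 * μ * b₂ + μ ^ 2 * e₂)
      (b₁ + μ * e₁) (b₂ + μ * e₂) e₁ e₂ := by
  have e : (x + μ • y) * y - y * (x + μ • y) = x * y - y * x := by
    simp only [add_mul, mul_add, smul_mul_assoc, mul_smul_comm]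
    abel
  refine ⟨I.add_mem T.hx (I.smul_mem _ T.hy), T.hy, ?_, ?_, ?_, ?_, ?_⟩
  · intro u hu
    obtain ⟨a, b, hj⟩ := exists_two (T.hgen hu)
    refine mem_sup2 a (b - a * μ) ?_
    convert hj using 1
    module
  · rw [e]
    exact T.hVC
  · rw [e]
    have := (I ^ 3).add_mem ((I ^ 3).add_mem T.hxx ((I ^ 3).smul_mem (2 * μ) T.hxy)) ((I ^ 3).smul_mem (μ ^ 2) T.hyy)
    convert this using 1
    simp only [add_mul, mul_add, smul_mul_assoc, mul_smul_comm, smul_add, smul_sub, smul_smul]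
    module
  · rw [e]
    have := (I ^ 3).add_mem T.hxy ((I ^ 3).smul_mem μ T.hyy)
    convert this using 1
    simp only [add_mul, mul_add, smul_mul_assoc, mul_smul_comm, smul_add, smul_sub, smul_smul]
    module
  · rw [e]
    exact T.hyy

theorem T2.scale (T : T2 I x y w a₁ a₂ b₁ b₂ e₁ e₂) {c : k} (hc : c ≠ 0) :
    T2 I x (c • y) w (a₁ / c) a₂ b₁ (c * b₂) (c * e₁) (c ^ 2 * e₂) := by
  have e : x * (c • y) - (c • y) * x = c • (x * y - y * x) := by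
    simp only [smul_mul_assoc, mul_smul_comm, smul_sub]
  refine ⟨T.hx, I.smul_mem _ T.hy, ?_, ?_, ?_, ?_, ?_⟩
  · intro u hu
    obtain ⟨a, b, hj⟩ := exists_two (T.hgen hu)
    refine mem_sup2 a (b / c) ?_
    convert hj using 1
    rw [smul_smul, div_mul_cancel₀ _ hc]
  · rw [e]
    intro u hu
    obtain ⟨r, s, hj⟩ := exists_two (T.hVC hu)
    refine mem_sup2 (r / c) s ?_
    convert hj using 1
    rw [smul_smul, div_mul_cancel₀ _ hc]
  · rw [e, smul_smul, div_mul_cancel₀ _ hc]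
    exact T.hxx
  · have := (I ^ 3).smul_mem c T.hxy
    convert this using 1
    rw [e]
    simp only [mul_smul_comm, smul_add, smul_sub, smul_smul]
    module
  · have := (I ^ 3).smul_mem (c ^ 2) T.hyy
    convert this using 1
    rw [e]
    simp only [mul_smul_comm, smul_mul_assoc, smul_add, smul_sub, smul_smul]
    module

/-- A nonzero coefficient of `w` in `x y`. -/
lemma T2.hV1 (T : T2 I x y w a₁ a₂ b₁ b₂ e₁ e₂) (hb : b₂ ≠ 0) :
    I ^ 2 ≤ Submodule.span k {x * y - y * x, x * y} ⊔ I ^ 3 := by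
  intro u hu
  obtain ⟨r, s, hj⟩ := exists_two (T.hVC hu)
  refine mem_sup2 (r - s / b₂ * b₁) (s / b₂) ?_
  have := (I ^ 3).sub_mem hj ((I ^ 3).smul_mem (s / b₂) T.hxy)
  convert this using 1
  have e : s • w = (s / b₂) • (b₂ • w) := by rw [smul_smul, div_mul_cancel₀ _ hb]
  rw [e]
  module

/-- A nonzero coefficient of `w` in `x x`. -/
lemma T2.hV2 (T : T2 I x y w a₁ a₂ b₁ b₂ e₁ e₂) (ha : a₂ ≠ 0) :
    I ^ 2 ≤ Submodule.span k {x * y - y * x, x * x} ⊔ I ^ 3 := by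
  intro u hu
  obtain ⟨r, s, hj⟩ := exists_two (T.hVC hu)
  refine mem_sup2 (r - s / a₂ * a₁) (s / a₂) ?_
  have := (I ^ 3).sub_mem hj ((I ^ 3).smul_mem (s / a₂) T.hxx)
  convert this using 1
  have e : s • w = (s / a₂) • (a₂ • w) := by rw [smul_smul, div_mul_cancel₀ _ ha]
  rw [e]
  module

/-- Both squares are in the third level. -/
theorem T2.squares (T : T2 I x y w 0 0 b₁ b₂ 0 0) (h : LocSym t I) (hb : b₂ ≠ 0)
    (hstar2 : I ^ 5 ≠ ⊥ → ∀ u ∈ I ^ 4, ∃ s ∈ KK I, u - s ∈ I ^ 5) : I ^ 5 = ⊥ := by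
  refine N10 h T.hx T.hy T.hgen (by simpa using T.hxx) (by simpa using T.hyy) ?_ hstar2
  intro u hu
  obtain ⟨r, s, hj⟩ := exists_two (T.hV1 hb hu)
  refine mem_sup2 (r + s) (-r) ?_
  convert hj using 1
  module

/-- The form with isotropic generators. -/
theorem T2.leaf1 [IsAlgClosed k] (T : T2 I x y w a₁ 0 b₁ b₂ e₁ 0) (h : LocSym t I) (hb : b₂ ≠ 0)
    (hstar2 : I ^ 5 ≠ ⊥ → ∀ u ∈ I ^ 4, ∃ s ∈ KK I, u - s ∈ I ^ 5) : I ^ 5 = ⊥ := by
  by_cases h2 : (2 : k) = 0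
  · -- characteristic two
    obtain ⟨μ, hμ⟩ : ∃ μ : k, a₁ - μ + μ ^ 2 * e₁ = 0 := by
      by_cases he : e₁ = 0
      · exact ⟨a₁, by rw [he]; ring⟩
      · obtain ⟨Z, hZ⟩ := quad_root (a := e₁) (b := -1) (c := a₁) he
        exact ⟨Z, by linear_combination hZ⟩
    have T₁ := T.move μ
    have e1 : a₁ + μ * (2 * b₁ - 1) + μ ^ 2 * e₁ = 0 := by rw [h2]; linear_combination hμ
    have e2 : (0 : k) + 2 * μ * b₂ + μ ^ 2 * 0 = 0 := by rw [h2]; ring
    have e3 : b₂ + μ * 0 = b₂ := by ring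
    rw [e1, e2, e3] at T₁
    have T₂ := T₁.swap.move (-e₁)
    have e4 : -e₁ + -e₁ * (2 * (1 - (b₁ + μ * e₁)) - 1) + (-e₁) ^ 2 * -0 = 0 := by rw [h2]; ring
    have e5 : (0 : k) + 2 * -e₁ * b₂ + (-e₁) ^ 2 * 0 = 0 := by rw [h2]; ring
    have e6 : b₂ + -e₁ * 0 = b₂ := by ring
    rw [e4, e5, e6, neg_zero] at T₂
    exact T₂.squares h hb hstar2
  · by_cases ha : a₁ = 0
    · subst ha
      by_cases he : e₁ = 0
      · subst he
        exact T.squares h hb hstar2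
      · have T' := T.swap
        have := N1_a h T'.hx T'.hy T'.hgen (a := -e₁) (e := -0) (by simpa using T'.hxx) (by simpa using T'.hyy)
          (T'.hV1 hb) (neg_ne_zero.2 he) h2
        exact pow_eq_bot_of_le h (by omega) this
    · have := N1_a h T.hx T.hy T.hgen (a := a₁) (e := e₁) (by simpa using T.hxx) (by simpa using T.hyy)
        (T.hV1 hb) ha h2
      exact pow_eq_bot_of_le h (by omega) this

/-- The third form in characteristic two. -/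
theorem T2.leaf3 [IsAlgClosed k] (T : T2 I x y w a₁ 0 b₁ b₂ e₁ e₂) (h : LocSym t I) (hb : b₂ ≠ 0) (he : e₂ ≠ 0)
    (h2 : (2 : k) = 0) : I ^ 4 = ⊥ := by
  have hc : e₂ / b₂ ≠ 0 := div_ne_zero he hb
  have T₁ := T.swap.scale hc
  have e1 : e₂ / b₂ * b₂ = e₂ := div_mul_cancel₀ _ hb
  have e2 : (e₂ / b₂) ^ 2 * (0 : k) = 0 := by ring
  rw [e1, e2] at T₁
  obtain ⟨E, hE⟩ : ∃ E : k, E = e₂ / b₂ * -a₁ := ⟨_, rfl⟩
  rw [← hE] at T₁
  obtain ⟨A₁, hA₁⟩ : ∃ A₁ : k, A₁ = -e₁ / (e₂ / b₂) := ⟨_, rfl⟩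
  rw [← hA₁] at T₁
  obtain ⟨μ, hμ⟩ : ∃ μ : k, E * μ ^ 2 + (-(1 + E)) * μ + (A₁ - (1 - b₁)) = 0 := by
    by_cases hE0 : E = 0
    · exact ⟨A₁ - (1 - b₁), by rw [hE0]; ring⟩
    · exact quad_root hE0
  have T₂ := T₁.move μ
  have e3 : e₂ + 2 * μ * e₂ + μ ^ 2 * 0 = e₂ := by rw [h2]; ring
  have e4 : e₂ + μ * 0 = e₂ := by ring
  have e5 : A₁ + μ * (2 * (1 - b₁) - 1) + μ ^ 2 * E = 1 - b₁ + μ * E := by
    rw [h2]
    linear_combination hμ
  rw [e3, e4, e5] at T₂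
  refine N3 h T₂.hx T₂.hy T₂.hgen (e := E) ?_ ?_ (T₂.hV2 he) ?_
  · have := (I ^ 3).sub_mem T₂.hxy T₂.hxx
    convert this using 1
    abel
  · simpa using T₂.hyy
  · by_cases hE0 : E = 0
    · exact Or.inl hE0
    · refine Or.inr ?_
      rw [h2]
      simpa using hE0

/-- The second form. -/
theorem T2.leaf2 (T : T2 I x y w a₁ 0 b₁ 0 e₁ e₂) (h : LocSym t I) (he : e₂ ≠ 0)
    (hstar : I ^ 4 ≠ ⊥ → I ^ 3 ≤ KK I ⊔ I ^ 4) : I ^ 4 = ⊥ := by
  have T' := T.swap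
  exact N2 h T'.hx T'.hy T'.hgen (b := 1 - b₁) (e := -a₁) (by simpa using T'.hxy) (by simpa using T'.hyy) (T'.hV2 he) hstar

/-- The isotropic generator. -/
theorem T2.iso [IsAlgClosed k] (T : T2 I x y w a₁ 0 b₁ b₂ e₁ e₂) (h : LocSym t I) (hq : ¬ (b₂ = 0 ∧ e₂ = 0))
    (hstar : I ^ 4 ≠ ⊥ → I ^ 3 ≤ KK I ⊔ I ^ 4)
    (hstar2 : I ^ 5 ≠ ⊥ → ∀ u ∈ I ^ 4, ∃ s ∈ KK I, u - s ∈ I ^ 5) : I ^ 5 = ⊥ := by
  by_cases hb : b₂ = 0
  · subst hb
    have he : e₂ ≠ 0 := fun he => hq ⟨rfl, he⟩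
    exact pow_eq_bot_of_le h (by omega) (T.leaf2 h he hstar)
  · by_cases h2 : (2 : k) = 0
    · by_cases he : e₂ = 0
      · subst he
        exact T.leaf1 h hb hstar2
      · exact pow_eq_bot_of_le h (by omega) (T.leaf3 h hb he h2)
    · have T₁ := T.swap.move (-e₂ / (2 * b₂))
      have e1 : e₂ + 2 * (-e₂ / (2 * b₂)) * b₂ + (-e₂ / (2 * b₂)) ^ 2 * 0 = 0 := by
        field_simp
        ring
      have e2 : b₂ + -e₂ / (2 * b₂) * 0 = b₂ := by ring
      rw [e1, e2] at T₁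
      exact T₁.leaf1 h hb hstar2

/-- Two generators whose commutator and another element span the second level independently. -/
theorem C_main [IsAlgClosed k] (h : LocSym t I) (hx : x ∈ I) (hy : y ∈ I) (hw2 : w ∈ I ^ 2)
    (hgen : I ≤ Submodule.span k {x, y} ⊔ I ^ 2)
    (hVC : I ^ 2 ≤ Submodule.span k {x * y - y * x, w} ⊔ I ^ 3)
    (hInd : ∀ r s : k, r • (x * y - y * x) + s • w ∈ I ^ 3 → r = 0 ∧ s = 0)
    (hstar : I ^ 4 ≠ ⊥ → I ^ 3 ≤ KK I ⊔ I ^ 4)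
    (hstar2 : I ^ 5 ≠ ⊥ → ∀ u ∈ I ^ 4, ∃ s ∈ KK I, u - s ∈ I ^ 5) : I ^ 5 = ⊥ := by
  have hx1 := one_mem hx
  have hy1 := one_mem hy
  obtain ⟨a₁, a₂, hxx⟩ := exists_two (hVC (mm (by omega) hx1 hx1))
  obtain ⟨b₁, b₂, hxy⟩ := exists_two (hVC (mm (by omega) hx1 hy1))
  obtain ⟨e₁, e₂, hyy⟩ := exists_two (hVC (mm (by omega) hy1 hy1))
  have T : T2 I x y w a₁ a₂ b₁ b₂ e₁ e₂ := ⟨hx, hy, hgen, hVC, hxx, hxy, hyy⟩
  have hq : ¬ (a₂ = 0 ∧ b₂ = 0 ∧ e₂ = 0) := by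
    rintro ⟨rfl, rfl, rfl⟩
    have hz : I ^ 2 ≤ Submodule.span k {x * y - y * x} ⊔ I ^ 3 := by
      refine le_sup_of_forms fun F hF hS => ?_
      have h0 : F (x * y - y * x) = 0 := hS _ (Set.mem_singleton _)
      have f1 := hF _ hxx
      have f2 := hF _ hxy
      have f3 := hF _ hyy
      simp only [zero_smul, add_zero, map_sub, map_smul, h0, smul_zero, sub_zero] at f1 f2 f3
      refine vanish_mul h (n := 1) (S := {x, y}) (E := {x, y}) ?_ ?_ hgen hF ?_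
      · rintro _ (rfl | rfl)
        · exact hx1
        · exact hy1
      · simpa using hgen
      · rintro _ (rfl | rfl) _ (rfl | rfl)
        · exact f1
        · exact f2
        · rw [map_sub, sub_eq_zero] at h0
          rw [← h0]
          exact f2
        · exact f3
    obtain ⟨c, hc⟩ := exists_one (hz hw2)
    have := hInd (-c) 1 (by
      convert hc using 1
      simp only [neg_smul, one_smul]
      abel)
    exact one_ne_zero this.2
  by_cases ha : a₂ = 0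
  · subst ha
    exact T.iso h (fun hh => hq ⟨rfl, hh.1, hh.2⟩) hstar hstar2
  · obtain ⟨u, hu⟩ := quad_root (a := a₂) (b := 2 * b₂) (c := e₂) ha
    have T₁ := T.swap.move u
    have e1 : e₂ + 2 * u * b₂ + u ^ 2 * a₂ = 0 := by linear_combination hu
    rw [e1] at T₁
    refine T₁.iso h ?_ hstar hstar2
    rintro ⟨-, h2⟩
    exact ha h2

end Norm

end Cfsg.Agent.Lib.Blocks.Sym5
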