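import Mathlib
import Cfsg.Agent.Lib.Blocks.Sym5O

/-!
# Symmetric local algebras: two generators, second level of dimension one
-/

set_option autoImplicit false
set_option linter.unusedSectionVars false
set_option linter.unusedVariables false
set_option linter.style.haveILetI false
set_option linter.unusedSimpArgs false

namespace Cfsg.Agent.Lib.Blocks.Sym5

open Module MulOpposite Cfsg.Agent.Lib.Blocks.SymLocal Cfsg.Agent.Lib.Blocks.SymCom

section One

variable {k A : Type*} [Field k] [Ring A] [Algebra k A] {t : A →ₗ[k] k} {I : Submodule k A}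
variable {x y w : A}

/-- Only powers of `x` survive: the algebra is commutative. -/
theorem comm_leaf (h : LocSym t I) (hx : x ∈ I) (hy : y ∈ I) (hgen : I ≤ Submodule.span k {x, y} ⊔ I ^ 2)
    (hxy : x * y ∈ I ^ 3) (hyx : y * x ∈ I ^ 3) (hyy : y * y ∈ I ^ 3) : ∀ a ∈ I, ∀ b ∈ I, a * b = b * a := by
  have hx1 := one_mem hx
  have hy1 := one_mem hy
  have hpow : ∀ n : ℕ, x ^ n ∈ I ^ n := by
    intro n
    induction n with
    | zero =>
      rw [pow_zero, pow_zero]
      exact Submodule.mem_one.2 ⟨1, map_one _⟩
    | succ n ih =>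
      rw [pow_succ x n]
      exact mm (r := n + 1) rfl ih hx1
  have hstep : ∀ n : ℕ, I ^ (n + 2) ≤ Submodule.span k {x ^ (n + 2)} ⊔ I ^ (n + 3) := by
    intro n
    induction n with
    | zero =>
      refine le_sup_of_forms fun F hF hS => ?_
      refine vanish_mul h (n := 1) (S := {x, y}) (E := {x, y}) ?_ (by simpa using hgen) hgen hF ?_
      · rintro _ (rfl | rfl)
        · exact hx1
        · exact hy1
      · rintro _ (rfl | rfl) _ (rfl | rfl)
        · have := hS _ (Set.mem_singleton _)
          rwa [zero_add, pow_two] at this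
        · exact hF _ hxy
        · exact hF _ hyx
        · exact hF _ hyy
    | succ n ih =>
      refine le_sup_of_forms fun F hF hS => ?_
      refine vanish_mul h (n := n + 2) (S := {x ^ (n + 2)}) (E := {x, y}) ?_ ih hgen hF ?_
      · rintro _ rfl
        exact hpow _
      · rintro _ rfl _ (rfl | rfl)
        · have := hS _ (Set.mem_singleton _)
          rwa [show n + 1 + 2 = n + 2 + 1 by omega, pow_succ] at this
        · apply hF
          rw [pow_succ x (n + 1), mul_assoc]
          exact mm (by omega) (hpow _) hxy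
  set N := Submodule.span k (Set.range fun n : ℕ => x ^ (n + 2)) with hNdef
  have hN : ∀ m : ℕ, I ^ 2 ≤ N ⊔ I ^ (m + 2) := by
    intro m
    induction m with
    | zero => exact le_sup_right
    | succ m ih =>
      refine ih.trans (sup_le le_sup_left ((hstep m).trans (sup_le ?_ le_sup_right)))
      refine le_sup_of_le_left (Submodule.span_le.2 ?_)
      rintro _ rfl
      exact Submodule.subset_span ⟨m, rfl⟩
  have hIN : I ^ 2 ≤ N := by
    obtain ⟨s, hs⟩ := h.nil
    have h1 := hN s
    have h2 : I ^ (s + 2) = ⊥ := by rw [pow_add, hs, Submodule.bot_mul]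
    rwa [h2, sup_bot_eq] at h1
  -- the commutator vanishes
  have hb : ∀ b : A, b * x = x * b → t ((x * y - y * x) * b) = 0 := by
    intro b hb
    rw [sub_mul, map_sub, mul_assoc, mul_assoc, h.sym x (y * b), mul_assoc, hb, sub_self]
  have hzN : ∀ b ∈ N, t ((x * y - y * x) * b) = 0 := by
    intro b hb'
    have := form_span (F := t ∘ₗ LinearMap.mulLeft k (x * y - y * x))
      (S := Set.range fun n : ℕ => x ^ (n + 2)) (by
        rintro _ ⟨n, rfl⟩
        exact hb _ (by rw [← pow_succ, pow_succ'])) hb'
    simpa using this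
  have hzy : t ((x * y - y * x) * y) = 0 := by
    rw [sub_mul, map_sub, mul_assoc x y y, mul_assoc y x y, h.sym y (x * y), mul_assoc, sub_self]
  have hz0 : x * y - y * x = 0 := by
    refine h.nd _ fun a => ?_
    obtain ⟨c, α₁, α₂, a₂, ha₂, rfl⟩ := decomp2 h hgen a
    have e1 := hb 1 (by simp)
    have e2 := hb x rfl
    have e3 := hzN a₂ (hIN ha₂)
    simp only [mul_add, mul_smul_comm, map_add, map_smul, e1, e2, e3, hzy, smul_zero, add_zero]
  have hcomm : x * y = y * x := sub_eq_zero.1 hz0
  set W := Algebra.adjoin k ({x, y} : Set A) with hW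
  have hxW : x ∈ W := Algebra.subset_adjoin (by simp)
  have hyW : y ∈ W := Algebra.subset_adjoin (by simp)
  have hNW : N ≤ Subalgebra.toSubmodule W := by
    refine Submodule.span_le.2 ?_
    rintro _ ⟨n, rfl⟩
    exact Subalgebra.pow_mem _ hxW _
  have hIW : I ≤ Subalgebra.toSubmodule W := by
    refine hgen.trans (sup_le (Submodule.span_le.2 ?_) (hIN.trans hNW))
    rintro _ (rfl | rfl)
    · exact hxW
    · exact hyW
  intro a ha b hb'
  haveI : IsMulCommutative W := Algebra.isMulCommutative_adjoin k (by
    rintro _ (rfl | rfl) _ (rfl | rfl)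
    · rfl
    · exact hcomm
    · exact hcomm.symm
    · rfl)
  have := mul_comm' (⟨a, hIW ha⟩ : W) ⟨b, hIW hb'⟩
  exact congrArg Subtype.val this

/-- The second level is a line and the commutator lies deeper. -/
theorem B_flow (h : LocSym t I) (hx : x ∈ I) (hy : y ∈ I) (hw : w ∈ I ^ 2)
    (hgen : I ≤ Submodule.span k {x, y} ⊔ I ^ 2) (hz : x * y - y * x ∈ I ^ 3)
    (hVw : I ^ 2 ≤ Submodule.span k {w} ⊔ I ^ 3) : I ^ 3 = ⊥ ∨ ∀ a ∈ I, ∀ b ∈ I, a * b = b * a := by
  have hx1 := one_mem hx
  have hy1 := one_mem hy
  obtain ⟨μ₁, hxx⟩ := exists_one (hVw (mm (by omega) hx1 hx1))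
  obtain ⟨μ₂, hxy⟩ := exists_one (hVw (mm (by omega) hx1 hy1))
  obtain ⟨μ₃, hyy⟩ := exists_one (hVw (mm (by omega) hy1 hy1))
  have hyx : y * x - μ₂ • w ∈ I ^ 3 := by
    convert (I ^ 3).sub_mem hxy hz using 1
    abel
  by_cases hΔ : μ₁ * μ₃ - μ₂ * μ₂ = 0
  · by_cases h1 : μ₁ = 0
    · subst h1
      have h2 : μ₂ = 0 := by
        have : μ₂ * μ₂ = 0 := by linear_combination -hΔ
        exact mul_self_eq_zero.1 this
      subst h2
      simp only [zero_smul, sub_zero] at hxx hxy hyy hyx
      by_cases h3 : μ₃ = 0
      · subst h3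
        simp only [zero_smul, sub_zero] at hyy
        left
        have hle : I ^ 2 ≤ I ^ 3 := by
          intro u hu
          refine mem_of_forms fun F hF => ?_
          refine vanish_mul h (n := 1) (S := {x, y}) (E := {x, y}) ?_ (by simpa using hgen) hgen hF ?_ u hu
          · rintro _ (rfl | rfl)
            · exact hx1
            · exact hy1
          · rintro _ (rfl | rfl) _ (rfl | rfl)
            · exact hF _ hxx
            · exact hF _ hxy
            · exact hF _ hyx
            · exact hF _ hyy
        exact pow_eq_bot_of_le h (m := 2) (by omega) (eq_bot_of_pow_le h hle)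
      · right
        refine comm_leaf h hy hx ?_ hyx hxy hxx
        exact hgen.trans (sup_le_sup_right (Submodule.span_mono (by
          rintro _ (rfl | rfl) <;> simp)) _)
    · right
      obtain ⟨τ, hτ⟩ : ∃ τ : k, μ₂ = τ * μ₁ := ⟨μ₂ / μ₁, by field_simp⟩
      subst hτ
      have h3 : μ₃ = τ * τ * μ₁ := by
        apply mul_left_cancel₀ h1
        linear_combination hΔ
      subst h3
      obtain ⟨y', hy'⟩ : ∃ y' : A, y = y' + τ • x := ⟨y - τ • x, by abel⟩
      subst hy'
      have hy'I : y' ∈ I := by
        have : y' = (y' + τ • x) - τ • x := by abel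
        rw [this]
        exact I.sub_mem hy (I.smul_mem _ hx)
      have e1 : x * y' ∈ I ^ 3 := by
        have := (I ^ 3).sub_mem hxy ((I ^ 3).smul_mem τ hxx)
        convert this using 1
        simp only [mul_add, mul_smul_comm, smul_sub, smul_smul]
        module
      have e2 : y' * x ∈ I ^ 3 := by
        have := (I ^ 3).sub_mem hyx ((I ^ 3).smul_mem τ hxx)
        convert this using 1
        simp only [add_mul, smul_mul_assoc, smul_sub, smul_smul]
        module
      have e3 : y' * y' ∈ I ^ 3 := by
        have := (I ^ 3).add_mem ((I ^ 3).sub_mem ((I ^ 3).sub_mem hyy ((I ^ 3).smul_mem τ e1))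
          ((I ^ 3).smul_mem τ hyx)) ((I ^ 3).smul_mem 0 hxx)
        convert this using 1
        simp only [mul_add, add_mul, smul_mul_assoc, mul_smul_comm, smul_sub, smul_add, smul_smul]
        module
      refine comm_leaf h hx hy'I ?_ e1 e2 e3
      intro u hu
      obtain ⟨a, b, hj⟩ := exists_two (hgen hu)
      refine mem_sup2 (a + b * τ) b ?_
      convert hj using 1
      simp only [smul_add, smul_smul, add_smul]
      module
  · left
    have hle : I ^ 3 ≤ I ^ 4 := by
      intro u hu
      refine mem_of_forms fun F hF => ?_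
      have r1 := rel3 hF hx hx hxx hxx
      have r2 := rel3 hF hx hy hxx hxy
      have r3 := rel3 hF hx hx hxy hyx
      have r4 := rel3 hF hx hy hxy hyy
      have r5 := rel3 hF hy hx hyx hxx
      have r6 := rel3 hF hy hy hyx hxy
      have r7 := rel3 hF hy hx hyy hyx
      have r8 := rel3 hF hy hy hyy hyy
      simp only [smul_mul_assoc, mul_smul_comm, map_smul, smul_eq_mul] at r1 r2 r3 r4 r5 r6 r7 r8
      have e1 : F (x * w) = 0 := by
        apply mul_left_cancel₀ hΔ
        linear_combination μ₂ * r2 - μ₁ * r4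
      have e2 : F (y * w) = 0 := by
        apply mul_left_cancel₀ hΔ
        linear_combination μ₃ * (-r5) + μ₂ * r7
      have e3 : F (w * x) = 0 := by
        apply mul_left_cancel₀ hΔ
        rw [e1, mul_zero] at r1
        rw [e2, mul_zero] at r5
        linear_combination μ₃ * r1 - μ₂ * r5
      have e4 : F (w * y) = 0 := by
        apply mul_left_cancel₀ hΔ
        rw [e2, mul_zero] at r8
        rw [e1, mul_zero] at r4
        linear_combination μ₁ * r8 - μ₂ * r4
      refine vanish_mul h (n := 2) (S := {w}) (E := {x, y}) ?_ hVw hgen hF ?_ u hu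
      · rintro _ rfl
        exact hw
      · rintro _ rfl _ (rfl | rfl)
        · exact e3
        · exact e4
    exact eq_bot_of_pow_le h hle

end One

end Cfsg.Agent.Lib.Blocks.Sym5
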