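import Mathlib
import Cfsg.Agent.Lib.Blocks.Sym5P

/-!
# Symmetric local algebras in which any six elements are dependent modulo commutators have dimension at most eight
-/

set_option autoImplicit false
set_option linter.unusedSectionVars false
set_option linter.unusedVariables false
set_option linter.style.haveILetI false
set_option linter.unusedSimpArgs false

namespace Cfsg.Agent.Lib.Blocks.Sym5Main

open Module Cfsg.Agent.Lib.Blocks.SymLocal Cfsg.Agent.Lib.Blocks.SymCom Cfsg.Agent.Lib.Blocks.Sym5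

section Main

variable {k A : Type*} [Field k] [IsAlgClosed k] [Ring A] [Algebra k A] [FiniteDimensional k A]
variable {t : A →ₗ[k] k} {I : Submodule k A} {x y : A}

theorem g2_main (h : LocSym t I) (hdep : ∀ v : Fin 6 → A, ∃ c : Fin 6 → k, c ≠ 0 ∧ ∑ i, c i • v i ∈ commSpan k A)
    (hx : x ∈ I) (hy : y ∈ I) (hgen : I ≤ Submodule.span k {x, y} ⊔ I ^ 2)
    (hind : ∀ c₁ c₂ : k, c₁ • x + c₂ • y ∈ I ^ 2 → c₁ = 0 ∧ c₂ = 0) : finrank k A ≤ 8 := by
  by_cases hI3 : I ^ 3 = ⊥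
  · exact bound2' h hx hy hgen hI3
  obtain ⟨w₀, hw₀3, ht⟩ := exists_t_ne_pow h (n := 2) hI3
  have hle32 : ∀ {u : A}, u ∈ I ^ 3 → u ∈ I ^ 2 := fun hu => pow_anti h (m := 2) (n := 3) (by omega) (by omega) hu
  obtain ⟨z, hz⟩ : ∃ z, z = x * y - y * x := ⟨_, rfl⟩
  have hz2 : z ∈ I ^ 2 := by
    rw [hz]
    exact (I ^ 2).sub_mem (mm (by omega) (one_mem hx) (one_mem hy)) (mm (by omega) (one_mem hy) (one_mem hx))
  have hSz : commSpan k A ≤ Submodule.span k {z} ⊔ KK I := by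
    have hgen' : I ≤ Submodule.span k {x, y, 0} ⊔ I ^ 2 := hgen.trans (sup_le_sup_right (Submodule.span_mono (by
      rintro _ (rfl | rfl) <;> simp)) _)
    refine (comm_le_sup3 h hx hy I.zero_mem hgen').trans (sup_le_sup_right ?_ _)
    refine Submodule.span_le.2 ?_
    rintro _ (rfl | rfl | rfl)
    · simp
    · simp
    · rw [← hz]
      exact Submodule.subset_span rfl
  have hS3 : commSpan k A ≤ Submodule.span k {z} ⊔ I ^ 3 := hSz.trans (sup_le_sup_left (KK_le h) _)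
  by_cases hA : I ^ 2 ≤ Submodule.span k {z} ⊔ I ^ 3
  · exact absurd (line_comm h hx hy (by rwa [← hz])) hI3
  obtain ⟨w, hw, hwn⟩ := SetLike.not_le_iff_exists.1 hA
  have hVC : I ^ 2 ≤ Submodule.span k {z, w} ⊔ I ^ 3 := by
    intro u hu
    obtain ⟨c₀, c₁, c₂, hc, hm⟩ := six2 hdep h hx hy hind (hle32 hw₀3) hw hu
    obtain ⟨σ, hσ⟩ := exists_one (hS3 hm)
    have hc₁ : c₁ = 0 ∨ c₂ ≠ 0 := by
      by_contra hcon
      push_neg at hcon
      obtain ⟨hc₁, hc₂⟩ := hcon
      subst hc₂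
      apply hwn
      refine (Submodule.smul_mem_iff _ hc₁).1 ?_
      have e : c₁ • w = σ • z + ((c₀ • w₀ + c₁ • w + (0 : k) • u - σ • z) - c₀ • w₀) := by
        simp only [zero_smul, add_zero]
        abel
      rw [e]
      exact Submodule.add_mem_sup (Submodule.smul_mem _ _ (Submodule.mem_span_singleton_self z))
        ((I ^ 3).sub_mem hσ ((I ^ 3).smul_mem _ hw₀3))
    by_cases hc₂ : c₂ = 0
    · exfalso
      subst hc₂
      have hc₁0 := hc₁.resolve_right (by simp)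
      subst hc₁0
      simp only [zero_smul, add_zero] at hm
      have := h.t_comm hm
      rw [map_smul, smul_eq_mul] at this
      have hc₀ : c₀ = 0 := (mul_eq_zero.1 this).resolve_right ht
      exact hc ⟨hc₀, rfl, rfl⟩
    · refine (Submodule.smul_mem_iff _ hc₂).1 ?_
      have e : c₂ • u = σ • z + c₁⁻¹ • (0 : A) - c₁ • w + ((c₀ • w₀ + c₁ • w + c₂ • u - σ • z) - c₀ • w₀) := by
        simp only [smul_zero, add_zero]
        abel
      have m1 : z ∈ Submodule.span k {z, w} ⊔ I ^ 3 := Submodule.mem_sup_left (Submodule.subset_span (by simp))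
      have m2 : w ∈ Submodule.span k {z, w} ⊔ I ^ 3 := Submodule.mem_sup_left (Submodule.subset_span (by simp))
      have m3 : (c₀ • w₀ + c₁ • w + c₂ • u - σ • z) - c₀ • w₀ ∈ Submodule.span k {z, w} ⊔ I ^ 3 :=
        Submodule.mem_sup_right ((I ^ 3).sub_mem hσ ((I ^ 3).smul_mem _ hw₀3))
      rw [e]
      simp only [smul_zero, add_zero]
      exact Submodule.add_mem _ (Submodule.sub_mem _ (Submodule.smul_mem _ _ m1) (Submodule.smul_mem _ _ m2)) m3
  by_cases hz3 : z ∈ I ^ 3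
  · have hVw : I ^ 2 ≤ Submodule.span k {w} ⊔ I ^ 3 := by
      intro u hu
      obtain ⟨r, s, hj⟩ := exists_two (hVC hu)
      have e : u = s • w + (u - (r • z + s • w) + r • z) := by abel
      rw [e]
      exact Submodule.add_mem_sup (Submodule.smul_mem _ _ (Submodule.mem_span_singleton_self w))
        ((I ^ 3).add_mem hj ((I ^ 3).smul_mem _ hz3))
    rcases B_flow h hx hy hw hgen (by rwa [← hz]) hVw with h3 | hc
    · exact absurd h3 hI3
    · exact bound_comm h hdep hc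
  · have hInd : ∀ r s : k, r • z + s • w ∈ I ^ 3 → r = 0 ∧ s = 0 := by
      intro r s hm
      have hs : s = 0 := by
        by_contra hs
        apply hwn
        refine (Submodule.smul_mem_iff _ hs).1 ?_
        have e : s • w = (-r) • z + (r • z + s • w) := by
          simp only [neg_smul]
          abel
        rw [e]
        exact Submodule.add_mem_sup (Submodule.smul_mem _ _ (Submodule.mem_span_singleton_self z)) hm
      subst hs
      simp only [zero_smul, add_zero] at hm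
      refine ⟨?_, rfl⟩
      by_contra hr
      exact hz3 ((Submodule.smul_mem_iff _ hr).1 hm)
    have hcore : ∀ w₁ ∈ I ^ 3, t w₁ ≠ 0 → ∀ u ∈ I ^ 3, ∃ κ ∈ KK I, ∃ r : k, u = κ + r • w₁ := by
      intro w₁ hw₁ ht₁ u hu
      obtain ⟨c₀, c₁, c₂, hc, hm⟩ := six2 hdep h hx hy hind (hle32 hw₁) hw (hle32 hu)
      obtain ⟨σ, hσ⟩ := exists_one (hSz hm)
      have hσ3 : (-σ) • z + c₁ • w ∈ I ^ 3 := by
        have e : (-σ) • z + c₁ • w = (c₀ • w₁ + c₁ • w + c₂ • u - σ • z) - c₀ • w₁ - c₂ • u := by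
          simp only [neg_smul]
          abel
        rw [e]
        exact (I ^ 3).sub_mem ((I ^ 3).sub_mem (KK_le h hσ) ((I ^ 3).smul_mem _ hw₁)) ((I ^ 3).smul_mem _ hu)
      obtain ⟨h1, h2⟩ := hInd _ _ hσ3
      have hσ0 : σ = 0 := neg_eq_zero.1 h1
      subst hσ0 h2
      simp only [zero_smul, add_zero, sub_zero] at hσ hm
      by_cases hc₂ : c₂ = 0
      · exfalso
        subst hc₂
        simp only [zero_smul, add_zero] at hm
        have := h.t_comm hm
        rw [map_smul, smul_eq_mul] at this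
        have hc₀ : c₀ = 0 := (mul_eq_zero.1 this).resolve_right ht₁
        exact hc ⟨hc₀, rfl, rfl⟩
      · refine ⟨c₂⁻¹ • (c₀ • w₁ + c₂ • u), Submodule.smul_mem _ _ hσ, -(c₂⁻¹ * c₀), ?_⟩
        rw [smul_add, smul_smul, smul_smul, inv_mul_cancel₀ hc₂, one_smul, neg_smul]
        abel
    have hstar : I ^ 4 ≠ ⊥ → I ^ 3 ≤ KK I ⊔ I ^ 4 := by
      intro hne u hu
      obtain ⟨w₁, hw₁, ht₁⟩ := exists_t_ne_pow h (n := 3) hne
      obtain ⟨κ, hκ, r, rfl⟩ := hcore w₁ (pow_anti h (m := 3) (n := 4) (by omega) (by omega) hw₁) ht₁ u hu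
      exact Submodule.add_mem_sup hκ ((I ^ 4).smul_mem _ hw₁)
    have hstar2 : I ^ 5 ≠ ⊥ → ∀ u ∈ I ^ 4, ∃ s ∈ KK I, u - s ∈ I ^ 5 := by
      intro hne u hu
      obtain ⟨w₁, hw₁, ht₁⟩ := exists_t_ne_pow h (n := 4) hne
      obtain ⟨κ, hκ, r, hr⟩ := hcore w₁ (pow_anti h (m := 3) (n := 5) (by omega) (by omega) hw₁) ht₁ u
        (pow_anti h (m := 3) (n := 4) (by omega) (by omega) hu)
      refine ⟨κ, hκ, ?_⟩
      rw [hr, add_sub_cancel_left]
      exact (I ^ 5).smul_mem _ hw₁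
    rw [hz] at hVC hInd
    have h5 := C_main h hx hy hw hgen hVC hInd hstar hstar2
    exact bound2 h hgen hVC h5

/-- **Theorem.** A symmetric local algebra in which any six elements are dependent modulo commutators
has dimension at most eight. -/
theorem finrank_le_eight (h : LocSym t I)
    (hdep : ∀ v : Fin 6 → A, ∃ c : Fin 6 → k, c ≠ 0 ∧ ∑ i, c i • v i ∈ commSpan k A) : finrank k A ≤ 8 := by
  by_cases hI2 : I ^ 2 = ⊥
  · refine bound_comm h hdep fun a ha b hb => ?_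
    have e1 : a * b ∈ I ^ 2 := mm (by omega) (one_mem ha) (one_mem hb)
    have e2 : b * a ∈ I ^ 2 := mm (by omega) (one_mem hb) (one_mem ha)
    rw [hI2, Submodule.mem_bot] at e1 e2
    rw [e1, e2]
  obtain ⟨w₀, hw₀, ht⟩ := exists_t_ne_pow h (n := 1) hI2
  by_cases h1 : I ≤ I ^ 2
  · refine bound_comm h hdep (h.comm_of_one_gen (w := 0) I.zero_mem fun u hu => ⟨0, ?_⟩)
    rw [zero_smul, sub_zero, ← pow_two]
    exact h1 hu
  obtain ⟨x, hx, hxn⟩ := SetLike.not_le_iff_exists.1 h1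
  by_cases h2 : I ≤ Submodule.span k {x} ⊔ I ^ 2
  · refine bound_comm h hdep (h.comm_of_one_gen (w := x) hx fun u hu => ?_)
    obtain ⟨c, hc⟩ := exists_one (h2 hu)
    exact ⟨c, by rwa [← pow_two]⟩
  obtain ⟨y, hy, hyn⟩ := SetLike.not_le_iff_exists.1 h2
  have hind2 : ∀ c₁ c₂ : k, c₁ • x + c₂ • y ∈ I ^ 2 → c₁ = 0 ∧ c₂ = 0 := by
    intro c₁ c₂ hm
    have hc₂ : c₂ = 0 := by
      by_contra hc₂
      apply hyn
      refine (Submodule.smul_mem_iff _ hc₂).1 ?_
      have e : c₂ • y = (-c₁) • x + (c₁ • x + c₂ • y) := by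
        simp only [neg_smul]
        abel
      rw [e]
      exact Submodule.add_mem_sup (Submodule.smul_mem _ _ (Submodule.mem_span_singleton_self x)) hm
    subst hc₂
    simp only [zero_smul, add_zero] at hm
    refine ⟨?_, rfl⟩
    by_contra hc₁
    exact hxn ((Submodule.smul_mem_iff _ hc₁).1 hm)
  by_cases h3 : I ≤ Submodule.span k {x, y} ⊔ I ^ 2
  · exact g2_main h hdep hx hy h3 hind2
  obtain ⟨w, hw, hwn⟩ := SetLike.not_le_iff_exists.1 h3
  have hind3 : ∀ c₁ c₂ c₃ : k, c₁ • x + c₂ • y + c₃ • w ∈ I ^ 2 → c₁ = 0 ∧ c₂ = 0 ∧ c₃ = 0 := by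
    intro c₁ c₂ c₃ hm
    have hc₃ : c₃ = 0 := by
      by_contra hc₃
      apply hwn
      refine (Submodule.smul_mem_iff _ hc₃).1 ?_
      have e : c₃ • w = ((-c₁) • x + (-c₂) • y) + (c₁ • x + c₂ • y + c₃ • w) := by
        simp only [neg_smul]
        abel
      rw [e]
      exact Submodule.add_mem_sup (Submodule.mem_span_pair.2 ⟨_, _, rfl⟩) hm
    subst hc₃
    simp only [zero_smul, add_zero] at hm
    obtain ⟨e1, e2⟩ := hind2 _ _ hm
    exact ⟨e1, e2, rfl⟩
  by_cases h4 : I ≤ Submodule.span k {x, y, w} ⊔ I ^ 2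
  · exact bound3 h h4 (master3 hdep h hx hy hw h4 hind3)
  exfalso
  obtain ⟨v, hv, hvn⟩ := SetLike.not_le_iff_exists.1 h4
  obtain ⟨c, hc, hm⟩ := hdep ![1, x, y, w, v, w₀]
  simp only [Fin.sum_univ_six] at hm
  simp only [Matrix.cons_val_zero, Matrix.cons_val_one, Matrix.cons_val] at hm
  have hw₀I := pow2_le h hw₀
  have hmI := pow2_le h (comm_le_pow2 h hm)
  have h0 : c 0 = 0 := by
    by_contra h0
    apply h.one
    have e : c 0 • (1 : A) = (c 0 • 1 + c 1 • x + c 2 • y + c 3 • w + c 4 • v + c 5 • w₀) -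
        (c 1 • x + c 2 • y + c 3 • w + c 4 • v + c 5 • w₀) := by abel
    have : c 0 • (1 : A) ∈ I := by
      rw [e]
      exact I.sub_mem hmI (I.add_mem (I.add_mem (I.add_mem (I.add_mem (I.smul_mem _ hx) (I.smul_mem _ hy))
        (I.smul_mem _ hw)) (I.smul_mem _ hv)) (I.smul_mem _ hw₀I))
    exact (Submodule.smul_mem_iff _ h0).1 this
  rw [h0, zero_smul, zero_add] at hm
  have hmm := comm_le_pow2 h hm
  have h45 : c 1 • x + c 2 • y + c 3 • w + c 4 • v ∈ I ^ 2 := by
    have e : c 1 • x + c 2 • y + c 3 • w + c 4 • v = (c 1 • x + c 2 • y + c 3 • w + c 4 • v + c 5 • w₀) - c 5 • w₀ := by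
      abel
    rw [e]
    exact (I ^ 2).sub_mem hmm ((I ^ 2).smul_mem _ hw₀)
  have hc4 : c 4 = 0 := by
    by_contra hc4
    apply hvn
    refine (Submodule.smul_mem_iff _ hc4).1 ?_
    have e : c 4 • v = ((-c 1) • x + (-c 2) • y + (-c 3) • w) + (c 1 • x + c 2 • y + c 3 • w + c 4 • v) := by
      simp only [neg_smul]
      abel
    rw [e]
    exact Submodule.add_mem_sup (Submodule.mem_span_triple.2 ⟨_, _, _, rfl⟩) h45
  rw [hc4, zero_smul, add_zero] at h45
  obtain ⟨h1', h2', h3'⟩ := hind3 _ _ _ h45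
  rw [h1', h2', h3', hc4, zero_smul, zero_smul, zero_smul, zero_smul, zero_add, zero_add, zero_add, zero_add] at hm
  have := h.t_comm hm
  rw [map_smul, smul_eq_mul] at this
  have h5 : c 5 = 0 := (mul_eq_zero.1 this).resolve_right ht
  apply hc
  ext i
  fin_cases i
  · exact h0
  · exact h1'
  · exact h2'
  · exact h3'
  · exact hc4
  · exact h5

end Main

end Cfsg.Agent.Lib.Blocks.Sym5Main
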