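import Mathlib

/-!
# Recognising `S₆` from `A₆` of index two with `3`-cycles preserved
-/

set_option autoImplicit false

namespace Cfsg.Agent.Lib.Blocks.TID8

open Equiv Equiv.Perm MulAction
open scoped Pointwise

/-- The alternating group of degree six. -/
abbrev A6 := alternatingGroup (Fin 6)

theorem card_A6 : Nat.card A6 = 360 := by
  have h := Subgroup.card_mul_index (alternatingGroup (Fin 6))
  rw [alternatingGroup.index_eq_two, Nat.card_perm, Nat.card_fin] at h
  have h6 : Nat.factorial 6 = 720 := rfl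
  rw [h6] at h
  have h7 : Nat.card A6 * 2 = 720 := h
  omega

/-- A three-cycle fixing `p` and moving `q`. -/
theorem exists_three_cycle (p q : Fin 6) (hpq : p ≠ q) :
    ∃ σ : A6, IsThreeCycle (σ : Perm (Fin 6)) ∧ (σ : Perm (Fin 6)) p = p ∧ (σ : Perm (Fin 6)) q ≠ q := by
  have h : ∀ p q : Fin 6, p ≠ q → ∃ a b : Fin 6, a ≠ p ∧ a ≠ q ∧ b ≠ p ∧ b ≠ q ∧ a ≠ b := by decide
  obtain ⟨a, b, h1, h2, h3, h4, h5⟩ := h p q hpq
  have h3c : IsThreeCycle (swap q a * swap q b) := isThreeCycle_swap_mul_swap_same h2.symm h4.symm h5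
  refine ⟨⟨_, h3c.mem_alternatingGroup⟩, h3c, ?_, ?_⟩
  · show (swap q a * swap q b) p = p
    rw [Perm.mul_apply, swap_apply_of_ne_of_ne hpq h3.symm, swap_apply_of_ne_of_ne hpq h1.symm]
  · show (swap q a * swap q b) q ≠ q
    rw [Perm.mul_apply, swap_apply_left, swap_apply_of_ne_of_ne h4 h5.symm]
    exact h4

theorem transitive_A6 (p q : Fin 6) : ∃ σ : A6, (σ : Perm (Fin 6)) p = q := by
  by_cases hpq : p = q
  · exact ⟨1, hpq⟩
  have h : ∀ p q : Fin 6, p ≠ q → ∃ a b : Fin 6, a ≠ p ∧ a ≠ q ∧ b ≠ p ∧ b ≠ q ∧ a ≠ b := by decide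
  obtain ⟨a, b, h1, h2, h3, h4, h5⟩ := h p q hpq
  have hm : swap p q * swap a b ∈ alternatingGroup (Fin 6) := by
    rw [Perm.mem_alternatingGroup, map_mul, sign_swap hpq, sign_swap h5]
    rfl
  refine ⟨⟨_, hm⟩, ?_⟩
  show (swap p q * swap a b) p = q
  rw [Perm.mul_apply, swap_apply_of_ne_of_ne h1.symm h3.symm, swap_apply_left]

/-- The stabilizers have order `60`. -/
theorem card_stab (p : Fin 6) : Nat.card (stabilizer A6 p) = 60 := by
  haveI : IsPretransitive A6 (Fin 6) := ⟨fun x y => by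
    obtain ⟨σ, hσ⟩ := transitive_A6 x y
    exact ⟨σ, hσ⟩⟩
  have h := Subgroup.card_mul_index (stabilizer A6 p)
  rw [index_stabilizer, orbit_eq_univ, Set.ncard_univ, card_A6, Nat.card_eq_fintype_card (α := Fin 6),
    Fintype.card_fin] at h
  omega

/-- A subgroup of `A₆` of order `60` containing a `3`-cycle fixes a point. -/
theorem exists_fixed_point (Y : Subgroup A6) (hcard : Nat.card Y = 60) (c : A6)
    (hc : IsThreeCycle (c : Perm (Fin 6))) (hcY : c ∈ Y) :
    ∃ p : Fin 6, ∀ y ∈ Y, (y : Perm (Fin 6)) p = p := by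
  classical
  haveI : Fact (Nat.Prime 5) := ⟨by norm_num⟩
  obtain ⟨c₅, hc₅⟩ := exists_prime_orderOf_dvd_card' (G := Y) 5 (by rw [hcard]; norm_num)
  obtain ⟨σ, hσ⟩ : ∃ σ : Perm (Fin 6), σ = ((c₅ : A6) : Perm (Fin 6)) := ⟨_, rfl⟩
  have hσY : σ ∈ Y.map (alternatingGroup (Fin 6)).subtype := by
    rw [hσ]
    exact ⟨c₅, c₅.2, rfl⟩
  have hord : orderOf σ = 5 := by
    rw [hσ]
    rw [show orderOf ((c₅ : A6) : Perm (Fin 6)) = orderOf c₅ from by
      rw [Subgroup.orderOf_coe, Subgroup.orderOf_coe]]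
    exact hc₅
  obtain ⟨n, hn⟩ := cycleType_prime_order (σ := σ) (by rw [hord]; norm_num)
  have hsum : σ.cycleType.sum = 5 * (n + 1) := by
    rw [hn, hord]
    simp
    ring
  have hle : σ.cycleType.sum ≤ 6 := by
    rw [sum_cycleType]
    simpa using σ.support.card_le_univ
  have hn0 : n = 0 := by omega
  subst hn0
  have hsupp : σ.support.card = 5 := by
    rw [← sum_cycleType, hsum]
  have hcyc : σ.IsCycle := by
    rw [← card_cycleType_eq_one, hn]
    simp
  -- the unique fixed point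
  obtain ⟨p, hp⟩ : ∃ p, p ∉ σ.support := by
    by_contra hall
    push Not at hall
    have : σ.support = Finset.univ := Finset.eq_univ_iff_forall.2 hall
    rw [this] at hsupp
    simp at hsupp
  have hσp : σ p = p := by
    rwa [Perm.notMem_support] at hp
  have hmove : ∀ q, q ≠ p → σ q ≠ q := by
    intro q hq
    by_contra hqq
    have h1 : q ∉ σ.support := by rwa [Perm.notMem_support]
    have h2 : σ.support ⊆ (Finset.univ.erase p).erase q := by
      intro x hx
      rw [Finset.mem_erase, Finset.mem_erase]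
      refine ⟨?_, ?_, Finset.mem_univ _⟩
      · rintro rfl
        exact h1 hx
      · rintro rfl
        exact hp hx
    have h3 := Finset.card_le_card h2
    rw [Finset.card_erase_of_mem (by simp [hq]), Finset.card_erase_of_mem (Finset.mem_univ _), hsupp] at h3
    simp at h3
  refine ⟨p, ?_⟩
  by_contra hall
  push Not at hall
  obtain ⟨y, hyY, hyp⟩ := hall
  obtain ⟨H, hH⟩ : ∃ H : Subgroup (Perm (Fin 6)), H = Y.map (alternatingGroup (Fin 6)).subtype := ⟨_, rfl⟩
  rw [← hH] at hσY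
  have hyH : (y : Perm (Fin 6)) ∈ H := by
    rw [hH]
    exact ⟨y, hyY, rfl⟩
  have hσk : ∀ k : ℕ, ((σ ^ k : Perm (Fin 6))) ∈ H := fun k => H.pow_mem hσY k
  haveI hpt : IsPretransitive H (Fin 6) := by
    rw [isPretransitive_iff_base p]
    intro q
    by_cases hq : q = p
    · exact ⟨1, by rw [hq]; rfl⟩
    obtain ⟨k, hk⟩ := hcyc.exists_pow_eq (hmove _ hyp) (hmove _ hq)
    refine ⟨⟨σ ^ k * y, H.mul_mem (hσk k) hyH⟩, ?_⟩
    exact hk
  have hprim : IsPreprimitive H (Fin 6) := by
    apply IsPreprimitive.of_isTrivialBlock_base p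
    intro B hpB hB
    by_cases hsub : B.Subsingleton
    · exact Or.inl hsub
    right
    obtain ⟨q, hqB, hqp⟩ : ∃ q ∈ B, q ≠ p := by
      by_contra hall
      push Not at hall
      apply hsub
      intro a ha b hb
      rw [hall a ha, hall b hb]
    rw [Set.eq_univ_iff_forall]
    intro s
    by_cases hs : s = p
    · rw [hs]; exact hpB
    obtain ⟨k, hk⟩ := hcyc.exists_pow_eq (hmove _ hqp) (hmove _ hs)
    have hg : (⟨σ ^ k, hσk k⟩ : H) • B = B := by
      apply hB.smul_eq_of_mem (a := p) hpB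
      have h1 : (σ ^ k) p = p := by
        have : Function.IsFixedPt σ p := hσp
        exact (this.perm_pow k)
      show (σ ^ k) p ∈ B
      rw [h1]
      exact hpB
    rw [← hg, ← hk]
    exact ⟨q, hqB, rfl⟩
  have hA := alternatingGroup_le_of_isPreprimitive_of_isThreeCycle_mem hprim hc (by
    rw [hH]
    exact ⟨c, hcY, rfl⟩)
  have h1 : Nat.card (alternatingGroup (Fin 6)) ≤ Nat.card H := Subgroup.card_le_of_le hA
  have h2 : Nat.card H = 60 := by
    rw [hH, ← hcard]
    exact Nat.card_congr (Subgroup.equivMapOfInjective _ _ (alternatingGroup (Fin 6)).subtype_injective).symm.toEquiv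
  rw [card_A6, h2] at h1
  omega

/-- The automorphisms preserving `3`-cycles. -/
def Good3 (α : MulAut A6) : Prop :=
  ∀ σ : A6, IsThreeCycle (σ : Perm (Fin 6)) → IsThreeCycle ((α σ : A6) : Perm (Fin 6))

/-- The image of the stabilizer of `p` fixes `q`. -/
def Fixes (α : MulAut A6) (p q : Fin 6) : Prop :=
  ∀ σ : A6, (σ : Perm (Fin 6)) p = p → ((α σ : A6) : Perm (Fin 6)) q = q

theorem exists_fixes (α : MulAut A6) (hα : Good3 α) (p : Fin 6) : ∃ q, Fixes α p q := by
  obtain ⟨σ, h1, h2, -⟩ := exists_three_cycle p (p + 1) (by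
    revert p
    decide)
  obtain ⟨q, hq⟩ := exists_fixed_point ((stabilizer A6 p).map α.toMonoidHom) (by
    rw [← card_stab p]
    exact Nat.card_congr (Subgroup.equivMapOfInjective _ _ α.injective).symm.toEquiv) (α σ) (hα σ h1)
      ⟨σ, h2, rfl⟩
  exact ⟨q, fun τ hτ => hq _ ⟨τ, hτ, rfl⟩⟩

theorem Fixes.exists_preimage {α : MulAut A6} {p q : Fin 6} (h : Fixes α p q) (τ : A6)
    (hτ : (τ : Perm (Fin 6)) q = q) : ∃ σ : A6, (σ : Perm (Fin 6)) p = p ∧ α σ = τ := by
  have hle : (stabilizer A6 p).map α.toMonoidHom ≤ stabilizer A6 q := by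
    rintro _ ⟨σ, hσ, rfl⟩
    exact h σ hσ
  have heq : (stabilizer A6 p).map α.toMonoidHom = stabilizer A6 q := by
    apply Subgroup.eq_of_le_of_card_ge hle
    rw [card_stab q, ← card_stab p]
    exact le_of_eq (Nat.card_congr (Subgroup.equivMapOfInjective _ _ α.injective).toEquiv)
  have hτ' : τ ∈ (stabilizer A6 p).map α.toMonoidHom := by
    rw [heq]
    exact hτ
  obtain ⟨σ, hσ, rfl⟩ := hτ'
  exact ⟨σ, hσ, rfl⟩

theorem Fixes.unique {α : MulAut A6} {p q q' : Fin 6} (h : Fixes α p q) (h' : Fixes α p q') : q = q' := by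
  by_contra hne
  obtain ⟨τ, -, hτ, hτ'⟩ := exists_three_cycle q q' hne
  obtain ⟨σ, hσ, rfl⟩ := h.exists_preimage τ hτ
  exact hτ' (h' σ hσ)

/-- **Recognition of `S₆`.** -/
theorem nonempty_mulEquiv_perm_six {G : Type*} [Group G] [Finite G] (L : Subgroup G) [hL : L.Normal]
    (hidx : L.index = 2) (ι : L ≃* A6)
    (hpres : ∀ (g : G) (x : L), IsThreeCycle ((ι x : A6) : Perm (Fin 6)) →
      IsThreeCycle ((ι (MulAut.conjNormal g x) : A6) : Perm (Fin 6)))
    (hcen : ∀ g : G, (∀ l ∈ L, g * l * g⁻¹ = l) → g ∈ L) :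
    Nonempty (G ≃* Perm (Fin 6)) := by
  classical
  obtain ⟨β, hβ⟩ : ∃ β : G →* MulAut A6, β = (MulAut.congr ι).toMonoidHom.comp MulAut.conjNormal := ⟨_, rfl⟩
  have hβa : ∀ (g : G) (σ : A6), β g σ = ι (MulAut.conjNormal g (ι.symm σ)) := by
    intro g σ
    rw [hβ]
    rfl
  have hgood : ∀ g, Good3 (β g) := by
    intro g σ hσ
    rw [hβa]
    apply hpres
    rwa [MulEquiv.apply_symm_apply]
  -- the action on the points
  have hex : ∀ g p, ∃ q, Fixes (β g) p q := fun g p => exists_fixes _ (hgood g) p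
  choose f hf using hex
  have hf1 : ∀ p, f 1 p = p := by
    intro p
    refine (hf 1 p).unique ?_
    intro σ hσ
    rw [map_one]
    exact hσ
  have hfm : ∀ g h p, f (g * h) p = f g (f h p) := by
    intro g h p
    refine (hf (g * h) p).unique ?_
    intro σ hσ
    rw [map_mul]
    exact hf g (f h p) _ (hf h p σ hσ)
  let π₀ : G →* Function.End (Fin 6) :=
    { toFun := f
      map_one' := funext hf1
      map_mul' := fun g h => funext (hfm g h) }
  let π : G →* Perm (Fin 6) := π₀.toHomPerm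
  have hπ : ∀ g p, π g p = f g p := fun g p => rfl
  -- the kernel inside `L` is trivial
  have hker1 : ∀ x : L, π x = 1 → x = 1 := by
    intro x hx
    obtain ⟨s, hs⟩ : ∃ s : A6, s = ι x := ⟨_, rfl⟩
    have hconj : ∀ σ : A6, β x σ = s * σ * s⁻¹ := by
      intro σ
      rw [hβa, hs]
      have h1 : MulAut.conjNormal (x : G) (ι.symm σ) = x * ι.symm σ * x⁻¹ := by
        apply Subtype.ext
        rw [MulAut.conjNormal_apply]
        rfl
      rw [h1, map_mul, map_mul, map_inv, MulEquiv.apply_symm_apply]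
    have hfix : ∀ p, (s⁻¹ : A6).1 p = p := by
      intro p
      by_contra hne
      obtain ⟨τ, -, hτ, hτ'⟩ := exists_three_cycle p ((s⁻¹ : A6).1 p) (Ne.symm hne)
      apply hτ'
      have h2 : f x p = p := by
        rw [← hπ, hx]
        rfl
      have h1 := hf x p τ hτ
      rw [h2, hconj] at h1
      have h3 : (s : Perm (Fin 6)) (τ.1 ((s⁻¹ : A6).1 p)) = p := h1
      have h4 : (s : Perm (Fin 6)) ((s⁻¹ : A6).1 p) = p := by
        show ((s * s⁻¹ : A6) : Perm (Fin 6)) p = p
        rw [mul_inv_cancel]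
        rfl
      exact (s : Perm (Fin 6)).injective (h3.trans h4.symm)
    have hs1 : s⁻¹ = 1 := by
      apply Subtype.ext
      ext p
      rw [hfix p]
      rfl
    have hs2 : s = 1 := inv_eq_one.1 hs1
    rw [hs] at hs2
    apply ι.injective
    rw [hs2, map_one]
  have hinj : Function.Injective π := by
    rw [injective_iff_map_eq_one]
    intro g hg
    have hcom : ∀ l ∈ L, g * l * g⁻¹ = l := by
      intro l hl
      have h1 : π (g * l * g⁻¹ * l⁻¹) = 1 := by
        rw [map_mul, map_mul, map_mul, map_inv, map_inv, hg]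
        group
      have h2 : g * l * g⁻¹ * l⁻¹ ∈ L := L.mul_mem (hL.conj_mem l hl g) (L.inv_mem hl)
      have h3 := hker1 ⟨_, h2⟩ h1
      have h4 : g * l * g⁻¹ * l⁻¹ = 1 := congrArg Subtype.val h3
      exact mul_inv_eq_one.1 h4
    have hgL := hcen g hcom
    exact congrArg Subtype.val (hker1 ⟨g, hgL⟩ hg)
  have hcard : Nat.card G = 720 := by
    have h1 := Subgroup.card_mul_index L
    rw [hidx, Nat.card_congr ι.toEquiv, card_A6] at h1
    omega
  have hbij : Function.Bijective π := by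
    refine hinj.bijective_of_nat_card_le ?_
    rw [hcard, Nat.card_perm, Nat.card_fin]
    exact le_of_eq rfl
  exact ⟨MulEquiv.ofBijective π hbij⟩

end Cfsg.Agent.Lib.Blocks.TID8
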