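import Mathlib
import Cfsg.Prelude.Def_Blocks
import Cfsg.Agent.Lib.Char.CliffordCorr
import Cfsg.Agent.Lib.Char.Monomial
import Cfsg.Agent.Lib.Char.ItoMichler
import Cfsg.Agent.Lib.Char.GlaubOver
import Cfsg.Agent.Lib.Char.CoprimeCount
import Cfsg.Agent.Lib.Char.IndRep

/-!
# Two primes and the principal blocks: character lemmas

`QPdeg p q X`: every irreducible character of `X` of degree prime to `q` has degree prime to `p`.
A character of a normal subgroup with a suitable extension to an overgroup of `q'`-index is then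
of `p'`-degree with an inertia group of `p'`-index.
-/

set_option autoImplicit false
set_option linter.unusedSectionVars false
set_option linter.unusedVariables false
set_option linter.style.haveILetI false

namespace Cfsg.Agent.Lib.Blocks.TPB

open Cfsg Cfsg.Agent.Lib.Char.Basic Cfsg.Agent.Lib.Char.Ortho Cfsg.Agent.Lib.Char.Clifford
  Cfsg.Agent.Lib.Char.CliffordCorr Cfsg.Agent.Lib.Char.Monomial Cfsg.Agent.Lib.Char.Induced
open scoped ComplexConjugate

universe u

/-- Every irreducible character of degree prime to `q` has degree prime to `p`. -/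
def QPdeg (p q : ℕ) (X : Type*) [Group X] : Prop :=
  ∀ χ : IrrCharacter X, ¬ q ∣ charDegree (χ : X → ℂ) → ¬ p ∣ charDegree (χ : X → ℂ)

theorem charDegree_eq {X : Type*} [Group X] [Finite X] {χ : X → ℂ} (hχ : IsIrrCharacter X χ) :
    χ 1 = (charDegree χ : ℂ) := by
  obtain ⟨n, -, hn⟩ := irr_degree_pos hχ
  have h : charDegree χ = n := by
    unfold charDegree
    rw [hn]
    simp
  rw [hn, h]

theorem QPdeg.quotient {p q : ℕ} {X : Type*} [Group X] (h : QPdeg p q X) (N : Subgroup X) [N.Normal] :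
    QPdeg p q (X ⧸ N) := by
  intro χ hq
  have := h ⟨fun g => (χ : X ⧸ N → ℂ) (g : X ⧸ N),
    isIrrCharacter_comp_surjective χ.2 (QuotientGroup.mk' N) (QuotientGroup.mk'_surjective N)⟩
  exact this (by simpa [charDegree] using hq)

variable {X : Type u} [Group X] [Finite X]

/-- A constituent of degree prime to `q` of an induced character of degree prime to `q`. -/
theorem exists_not_dvd_constituent {q : ℕ} (hq : q.Prime) (W : Subgroup X) [Fintype W] (hW : ¬ q ∣ W.index)
    {l : W → ℂ} (hl : IsIrrCharacter W l) (hd : ¬ q ∣ charDegree l) :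
    ∃ χ : IrrCharacter X, ¬ q ∣ charDegree (χ : X → ℂ) ∧ classInner (fun w : W => (χ : X → ℂ) w) l ≠ 0 := by
  classical
  cases nonempty_fintype X
  by_contra hcon
  push Not at hcon
  have hc := isCharacter_of_isIrrCharacter hl
  have hI : IsCharacter X (indFun W l) := Cfsg.Agent.Lib.Char.IndRep.isCharacter_indFun W hc
  have hdec := decomp_eq_sum_classInner hI
  have h1 := congrFun hdec 1
  rw [indFun_one, charDegree_eq hl, Finset.sum_apply] at h1
  choose m hm using fun ψ : IrrCharacter X => exists_nat_classInner hI ψ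
  have h2 : ((W.index * charDegree l : ℕ) : ℂ) =
      ((∑ ψ : IrrCharacter X, m ψ * charDegree (ψ : X → ℂ) : ℕ) : ℂ) := by
    push_cast
    rw [h1]
    refine Finset.sum_congr rfl fun ψ _ => ?_
    simp only [Pi.smul_apply, smul_eq_mul, hm ψ, charDegree_eq ψ.2]
  have h3 : W.index * charDegree l = ∑ ψ : IrrCharacter X, m ψ * charDegree (ψ : X → ℂ) := by
    exact_mod_cast h2
  have h4 : q ∣ W.index * charDegree l := by
    rw [h3]
    refine Finset.dvd_sum fun ψ _ => ?_
    by_cases hψ : q ∣ charDegree (ψ : X → ℂ)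
    · exact Dvd.dvd.mul_left hψ _
    · have h5 := hcon ψ hψ
      have h6 : classInner (indFun W l) (ψ : X → ℂ) = 0 := by
        rw [frobenius_reciprocity W l ψ (isClassFunction_of_isCharacter (isCharacter_of_isIrrCharacter ψ.2)),
          ← classInner_conj_symm, h5]
        simp
      have h7 : m ψ = 0 := by
        have := hm ψ
        rw [h6] at this
        exact_mod_cast this.symm
      simp [h7]
  rcases hq.dvd_mul.1 h4 with h | h
  · exact hW h
  · exact hd h

/-- A constituent over an extension lies over the restriction. -/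
theorem classInner_res_ne_zero {K W : Subgroup X} [Fintype K] [Fintype W] (hKW : K ≤ W) {l : W → ℂ} (hl : IsIrrCharacter W l)
    {t : K → ℂ} (hlt : ∀ k : K, l ⟨k, hKW k.2⟩ = t k) (ht : IsIrrCharacter K t) {χ : X → ℂ}
    (hχ : IsCharacter X χ) (h : classInner (fun w : W => χ w) l ≠ 0) :
    classInner (fun k : K => χ k) t ≠ 0 := by
  classical
  obtain ⟨Ξ, hΞ, hadd⟩ := exists_char_add (isCharacter_restrict hχ W) hl h
  have hinc : IsCharacter K (fun k : K => Ξ ⟨k, hKW k.2⟩) :=
    isCharacter_comp_hom hΞ (Subgroup.inclusion hKW)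
  have h1 : (fun k : K => χ k) = t + fun k : K => Ξ ⟨k, hKW k.2⟩ := by
    funext k
    have := congrFun hadd ⟨k, hKW k.2⟩
    simpa [hlt k] using this
  rw [h1, classInner_add_left, classInner_irr_self ht]
  obtain ⟨n, hn⟩ := exists_nat_classInner hinc ⟨t, ht⟩
  simp only at hn
  rw [hn]
  intro h0
  have h2 : ((1 + n : ℕ) : ℂ) = 0 := by
    push_cast
    exact h0
  have h3 := Nat.cast_eq_zero.1 h2
  omega

/-- Clifford: the degree formula in the naturals. -/
theorem exists_degree_formula (K : Subgroup X) [hK : K.Normal] [Fintype K] {t : K → ℂ} (ht : IsIrrCharacter K t)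
    {χ : X → ℂ} (hχ : IsIrrCharacter X χ) (h : classInner (fun k : K => χ k) t ≠ 0) :
    ∃ e : ℕ, charDegree χ = e * ((inertiaOf K t).index * charDegree t) := by
  classical
  cases nonempty_fintype X
  have h1 := apply_one_eq K t (inertiaOf K t) ht (mem_inertiaOf K t) hχ h
  obtain ⟨e, he⟩ := exists_nat_classInner (isCharacter_restrict (isCharacter_of_isIrrCharacter hχ) K) ⟨t, ht⟩
  simp only at he
  refine ⟨e, ?_⟩
  have h2 : ((charDegree χ : ℕ) : ℂ) = ((e * ((inertiaOf K t).index * charDegree t) : ℕ) : ℂ) := by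
    rw [← charDegree_eq hχ, h1]
    have h3 : classInner (fun n : K => χ n) t = (e : ℂ) := he
    rw [h3, charDegree_eq ht]
    push_cast
    ring
  exact_mod_cast h2

/-- **Main character lemma.** A character of a normal subgroup which extends to an overgroup of `q'`-index
with a `q'`-degree extension has `p'`-degree and `p'`-index inertia group. -/
theorem not_dvd_of_ext {p q : ℕ} (hq : q.Prime) (hp : p.Prime) (H : QPdeg p q X) (K : Subgroup X) [K.Normal]
    {W : Subgroup X} (hKW : K ≤ W) (hW : ¬ q ∣ W.index) {l : W → ℂ} (hl : IsIrrCharacter W l)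
    (hd : ¬ q ∣ charDegree l) {t : K → ℂ} (ht : IsIrrCharacter K t) (hlt : ∀ k : K, l ⟨k, hKW k.2⟩ = t k) :
    ¬ p ∣ charDegree t ∧ ¬ p ∣ (inertiaOf K t).index := by
  classical
  haveI : Fintype W := Fintype.ofFinite _
  haveI : Fintype K := Fintype.ofFinite _
  obtain ⟨χ, hχq, hχ⟩ := exists_not_dvd_constituent hq W hW hl hd
  have hχp := H χ hχq
  have h1 := classInner_res_ne_zero hKW hl hlt ht (isCharacter_of_isIrrCharacter χ.2) hχ
  obtain ⟨e, he⟩ := exists_degree_formula K ht χ.2 h1
  rw [he] at hχp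
  exact ⟨fun h => hχp (Dvd.dvd.mul_left (Dvd.dvd.mul_left h _) _),
    fun h => hχp (Dvd.dvd.mul_left (Dvd.dvd.mul_right h _) _)⟩

/-- A character of a normal `q'`-subgroup invariant under a Sylow `q`-subgroup has `p'`-degree and
`p'`-index inertia group. -/
theorem not_dvd_of_inv {p q : ℕ} [hqf : Fact q.Prime] (hp : p.Prime) (H : QPdeg p q X) (K : Subgroup X)
    [hK : K.Normal] (hKq : ¬ q ∣ Nat.card K) (Q : Sylow q X) {t : K → ℂ} (ht : IsIrrCharacter K t)
    (hinv : ∀ s ∈ (Q : Subgroup X), ∀ n : K, t ⟨s * n * s⁻¹, hK.conj_mem (n : X) n.2 s⟩ = t n) :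
    ¬ p ∣ charDegree t ∧ ¬ p ∣ (inertiaOf K t).index := by
  classical
  have hq : q.Prime := hqf.out
  set W : Subgroup X := K ⊔ (Q : Subgroup X) with hWdef
  have hKW : K ≤ W := le_sup_left
  have hQW : (Q : Subgroup X) ≤ W := le_sup_right
  have hW : ¬ q ∣ W.index := by
    intro h
    have h1 : W.index ∣ (Q : Subgroup X).index := Subgroup.index_dvd_of_le hQW
    exact (Sylow.not_dvd_index Q) (h.trans h1)
  let K' : Subgroup W := K.subgroupOf W
  haveI : K'.Normal := inferInstance
  let e : K' ≃* K := Subgroup.subgroupOfEquivOfLe hKW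
  let t' : K' → ℂ := fun n => t (e n)
  have ht' : IsIrrCharacter K' t' :=
    isIrrCharacter_comp_surjective ht e.toMonoidHom e.surjective
  have hcardK' : Nat.card K' = Nat.card K := Nat.card_congr e.toEquiv
  have hidx : K'.index = K.relIndex (Q : Subgroup X) := by
    show K.relIndex W = _
    rw [hWdef]
    exact Subgroup.relIndex_sup_left (Q : Subgroup X) K
  have hQp : ∃ n : ℕ, Nat.card (Q : Subgroup X) = q ^ n := IsPGroup.iff_card.1 Q.isPGroup'
  obtain ⟨n, hn⟩ := hQp
  have hcop : Nat.Coprime (Nat.card K') K'.index := by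
    rw [hcardK', hidx]
    have h1 : K.relIndex (Q : Subgroup X) ∣ q ^ n := by
      rw [← hn]
      exact Subgroup.relIndex_dvd_card K (Q : Subgroup X)
    have h2 : Nat.Coprime (Nat.card K) (q ^ n) :=
      Nat.Coprime.pow_right n ((Nat.Prime.coprime_iff_not_dvd hq).2 hKq).symm
    exact Nat.Coprime.coprime_dvd_right h1 h2
  have hclass : ∀ (k n : K), t (k * n * k⁻¹) = t n :=
    fun k n => (isClassFunction_of_isCharacter (isCharacter_of_isIrrCharacter ht)) n k ▸ rfl
  have hinv' : ∀ (g : W) (n : K'), t' ⟨g * n * g⁻¹, (inferInstance : K'.Normal).conj_mem (n : W) n.2 g⟩ = t' n := by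
    rintro ⟨g, hg⟩ n
    have hg' : g ∈ ((K ⊔ (Q : Subgroup X) : Subgroup X) : Set X) := hg
    rw [Subgroup.normal_mul] at hg'
    obtain ⟨k, hk, s, hs, rfl⟩ := Set.mem_mul.1 hg'
    have hn' : ((n : W) : X) ∈ K := n.2
    have h1 : t' ⟨(⟨k * s, hg⟩ : W) * n * (⟨k * s, hg⟩ : W)⁻¹, (inferInstance : K'.Normal).conj_mem (n : W) n.2 _⟩ =
        t (⟨k, hk⟩ * ⟨s * ((n : W) : X) * s⁻¹, hK.conj_mem _ hn' s⟩ * (⟨k, hk⟩ : K)⁻¹) := by
      show t _ = t _
      congr 1
      apply Subtype.ext
      show (k * s) * ((n : W) : X) * (k * s)⁻¹ = k * (s * ((n : W) : X) * s⁻¹) * k⁻¹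
      group
    rw [h1, hclass]
    have h2 := hinv s hs ⟨((n : W) : X), hn'⟩
    exact h2
  obtain ⟨l, hl, hlt⟩ := Cfsg.Agent.Lib.Char.CoprimeCount.exists_ext_of_coprime K' hcop ht' hinv'
  have hone : l 1 = t 1 := by
    have := hlt 1
    simpa [t', e] using this
  have hdeg : charDegree l = charDegree t := by
    unfold charDegree
    rw [hone]
  have hd : ¬ q ∣ charDegree l := by
    rw [hdeg]
    intro h
    obtain ⟨d, hd1, -, hd3⟩ := Cfsg.Agent.Lib.Char.GlaubOver.exists_degree_dvd ht
    have h5 : charDegree t = d := by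
      unfold charDegree
      rw [hd1]
      simp
    rw [h5] at h
    exact hKq (h.trans hd3)
  refine not_dvd_of_ext hq hp H K hKW hW hl hd ht ?_
  intro k
  have := hlt ⟨⟨k, hKW k.2⟩, k.2⟩
  exact this

end Cfsg.Agent.Lib.Blocks.TPB
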