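import Mathlib
import Cfsg.Agent.Lib.Blocks.TPB1
import Cfsg.Agent.Lib.Char.GlaubSolv
import Cfsg.Agent.Lib.Char.CompleteCor
import Cfsg.Agent.Lib.Solvable.PSeries
import Cfsg.Agent.Lib.Basic.PCore
import Cfsg.Agent.Lib.Basic.JordanCover

/-!
# Two primes and the principal blocks: commuting Sylow subgroups and counting

* `le_pPrimeCore_of_commute`: an `r'`-subgroup centralising a Sylow `r`-subgroup of an `r`-solvable group
  lies in `O_{r'}(G)`.
* `centralizes_of_inv`: if every `Q`-invariant character of `U` is `P`-invariant (`P`, `Q` commuting and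
  coprime to `U`) then `P` centralises `C_U(Q)`.
-/

set_option autoImplicit false
set_option linter.unusedSectionVars false
set_option linter.unusedVariables false
set_option linter.style.haveILetI false

namespace Cfsg.Agent.Lib.Blocks.TPB

open Cfsg Cfsg.Agent.Lib.Char.Basic Cfsg.Agent.Lib.Char.Ortho Cfsg.Agent.Lib.Char.Monomial
  Cfsg.Agent.Lib.Char.GlaubP Cfsg.Agent.Lib.Char.GlaubSolv Cfsg.Agent.Lib.Solvable.PSeries
  Cfsg.Agent.Lib.Basic.PCore

universe u

section HH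

variable {G : Type u} [Group G] [Finite G] {r : ℕ} [Fact r.Prime]

/-- **Hall-Higman, commuting form.** -/
theorem le_pPrimeCore_of_commute (hG : IsPSolvable r G) (A : Subgroup G) (hA : (Nat.card A).Coprime r)
    (R : Sylow r G) (hc : ∀ a ∈ A, ∀ x ∈ (R : Subgroup G), a * x = x * a) : A ≤ pPrimeCore r G := by
  classical
  set N := pPrimeCore r G with hN
  haveI : N.Normal := pPrimeCore_normal r G
  have hC := centralizer_pCore_le (isPSolvable_quotient hG N) (pPrimeCore_quotient r)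
  intro a ha
  have h1 : (QuotientGroup.mk' N) a ∈ pCore r (G ⧸ N) := by
    apply hC
    rw [Subgroup.mem_centralizer_iff]
    intro y hy
    let R' : Sylow r (G ⧸ N) := R.mapSurjective (QuotientGroup.mk'_surjective N)
    have hy' : y ∈ (R' : Subgroup (G ⧸ N)) := pCore_le_sylow R' hy
    have hy2 : y ∈ (R : Subgroup G).map (QuotientGroup.mk' N) := by
      simpa [R'] using hy'
    obtain ⟨x, hx, rfl⟩ := hy2
    rw [← map_mul, ← map_mul, hc a ha x hx]
  have h2 : IsPGroup r (pCore r (G ⧸ N)) := pCore_isPGroup r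
  obtain ⟨k, hk⟩ := h2 ⟨_, h1⟩
  have h3 : ((QuotientGroup.mk' N) a) ^ (r ^ k) = 1 := by
    have := congrArg Subtype.val hk
    simpa using this
  have h4 : orderOf ((QuotientGroup.mk' N) a) ∣ r ^ k := orderOf_dvd_of_pow_eq_one h3
  have h5 : orderOf ((QuotientGroup.mk' N) a) ∣ Nat.card A := by
    have h6 : orderOf ((QuotientGroup.mk' N) a) ∣ orderOf a := orderOf_map_dvd _ _
    have h7 : orderOf a ∣ Nat.card A := Subgroup.orderOf_dvd_natCard A ha
    exact h6.trans h7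
  have h8 : Nat.Coprime (Nat.card A) (r ^ k) := Nat.Coprime.pow_right k hA
  have h9 : orderOf ((QuotientGroup.mk' N) a) = 1 := Nat.eq_one_of_dvd_coprimes h8 h5 h4
  rw [orderOf_eq_one_iff] at h9
  exact (QuotientGroup.eq_one_iff a).1 h9

end HH

section Count

variable {Γ : Type u} [Group Γ] [Finite Γ]

theorem sinv_iff_le_inertia {U : Subgroup Γ} [hU : U.Normal] (S : Subgroup Γ) (ν : U → ℂ) :
    SInv S ν ↔ S ≤ inertiaOf U ν := by
  constructor
  · intro h s hs n
    exact h s hs n ⟨s * n * s⁻¹, hU.conj_mem (n : Γ) n.2 s⟩ rfl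
  · intro h s hs g g' hg
    have h1 := h hs g
    rw [← h1]
    congr 1
    exact Subtype.ext hg

/-- If every `Q`-invariant character of `U` is `P`-invariant then `P` centralises `C_U(Q)`. -/
theorem centralizes_of_inv {p q : ℕ} [hpf : Fact p.Prime] [hqf : Fact q.Prime] {U Q P : Subgroup Γ} [hU : U.Normal]
    (hQp : IsPGroup q Q) (hPp : IsPGroup p P) (hc : ∀ x ∈ P, ∀ y ∈ Q, x * y = y * x)
    (hcQ : (Nat.card U).Coprime (Nat.card Q)) (hcP : (Nat.card U).Coprime (Nat.card P))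
    (H : ∀ ν : IrrCharacter U, SInv Q (ν : U → ℂ) → SInv P (ν : U → ℂ)) :
    ∀ u ∈ U, (∀ s ∈ Q, s * u = u * s) → ∀ x ∈ P, x * u = u * x := by
  classical
  -- the group `A = QP`
  have hcomm : ∀ (a : Q) (b : P), Commute (Q.subtype a) (P.subtype b) := fun a b => (hc b b.2 a a.2).symm
  let f : Q × P →* Γ := MonoidHom.noncommCoprod Q.subtype P.subtype hcomm
  set A : Subgroup Γ := Q ⊔ P with hA
  have hrange : f.range = A := by
    have h := MonoidHom.noncommCoprod_range (f := Q.subtype) (g := P.subtype) hcomm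
    rw [Subgroup.range_subtype, Subgroup.range_subtype] at h
    exact h
  haveI : Group.IsNilpotent Q := hQp.isNilpotent
  haveI : Group.IsNilpotent P := hPp.isNilpotent
  have hAsolv : Group.IsSolvable A := by
    rw [← hrange]
    exact Group.isSolvable_of_surjective f.rangeRestrict_surjective
  have hAdvd : Nat.card A ∣ Nat.card Q * Nat.card P := by
    rw [← hrange, ← Nat.card_prod]
    exact Subgroup.card_dvd_of_surjective f.rangeRestrict f.rangeRestrict_surjective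
  have hcA : (Nat.card U).Coprime (Nat.card A) :=
    Nat.Coprime.coprime_dvd_right hAdvd (Nat.Coprime.mul_right hcQ hcP)
  set U₁ : Subgroup Γ := U ⊓ Subgroup.centralizer (Q : Set Γ) with hU₁
  set U₂ : Subgroup Γ := U₁ ⊓ Subgroup.centralizer (P : Set Γ) with hU₂
  have hU₂' : U₂ = U ⊓ Subgroup.centralizer (A : Set Γ) := by
    ext x
    simp only [hU₂, hU₁, Subgroup.mem_inf, Subgroup.mem_centralizer_iff, hA]
    constructor
    · rintro ⟨⟨h1, h2⟩, h3⟩
      refine ⟨h1, ?_⟩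
      have hle : Q ⊔ P ≤ Subgroup.centralizer ({x} : Set Γ) := by
        refine sup_le ?_ ?_
        · intro a ha
          rw [Subgroup.mem_centralizer_singleton_iff]
          exact (h2 a ha)
        · intro a ha
          rw [Subgroup.mem_centralizer_singleton_iff]
          exact (h3 a ha)
      intro h hh
      have := hle hh
      rw [Subgroup.mem_centralizer_singleton_iff] at this
      exact this
    · rintro ⟨h1, h2⟩
      exact ⟨⟨h1, fun h hh => h2 h (le_sup_left (a := Q) hh)⟩, fun h hh => h2 h (le_sup_right (a := Q) hh)⟩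
  have hnormQ : ∀ s ∈ Q, ∀ g ∈ U, s * g * s⁻¹ ∈ U := fun s _ g hg => hU.conj_mem g hg s
  have hnormA : ∀ s ∈ A, ∀ g ∈ U, s * g * s⁻¹ ∈ U := fun s _ g hg => hU.conj_mem g hg s
  have hQsolv : Group.IsSolvable Q := inferInstance
  have c1 := card_sinv_eq hnormQ hcQ hQsolv (C := U₁) rfl
  have c2 := card_sinv_eq hnormA hcA hAsolv (C := U₂) hU₂'
  have hiff : ∀ ν : IrrCharacter U, SInv Q (ν : U → ℂ) ↔ SInv A (ν : U → ℂ) := by
    intro ν
    rw [sinv_iff_le_inertia, sinv_iff_le_inertia]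
    constructor
    · intro h
      have h2 := H ν ((sinv_iff_le_inertia Q _).2 h)
      rw [sinv_iff_le_inertia] at h2
      exact sup_le h h2
    · intro h
      exact le_sup_left.trans h
  have c3 : Nat.card (IrrCharacter U₁) = Nat.card (IrrCharacter U₂) := by
    rw [← c1, ← c2]
    exact Nat.card_congr (Equiv.subtypeEquivRight hiff)
  have c4 : Nat.card (ConjClasses U₁) = Nat.card (ConjClasses U₂) := by
    rw [← Cfsg.Agent.Lib.Char.CompleteCor.card_irr_eq_card_conjClasses,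
      ← Cfsg.Agent.Lib.Char.CompleteCor.card_irr_eq_card_conjClasses]
    exact c3
  have hnormP : ∀ s ∈ P, ∀ g ∈ U₁, s * g * s⁻¹ ∈ U₁ := by
    intro s hs g hg
    refine Subgroup.mem_inf.2 ⟨hU.conj_mem g hg.1 s, Subgroup.mem_centralizer_iff.2 ?_⟩
    intro y hy
    have h1 := (Subgroup.mem_centralizer_iff.1 hg.2) y hy
    have h2 := hc s hs y hy
    have h3 : y * s = s * y := h2.symm
    calc y * (s * g * s⁻¹) = (y * s) * g * s⁻¹ := by group
      _ = s * (y * g) * s⁻¹ := by rw [h3]; group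
      _ = s * (g * y) * s⁻¹ := by rw [h1]
      _ = s * g * s⁻¹ * y := by
          have h4 : s⁻¹ * y = y * s⁻¹ := by
            rw [inv_mul_eq_iff_eq_mul, ← mul_assoc, ← h3]
            group
          simp only [mul_assoc, h4]
  have hcP₁ : (Nat.card U₁).Coprime (Nat.card P) :=
    Nat.Coprime.coprime_dvd_left (Subgroup.card_dvd_of_le (inf_le_left : U₁ ≤ U)) hcP
  have hPsolv : Group.IsSolvable P := inferInstance
  have c5 := card_fixed_classes hnormP hcP₁ hPsolv (C := U₂) rfl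
  rw [← c4] at c5
  -- all classes of `U₁` are fixed
  have hall : ∀ K : ConjClasses U₁, ∀ s ∈ P, ∀ g g' : U₁, (g' : Γ) = s * g * s⁻¹ →
      ConjClasses.mk g = K → ConjClasses.mk g' = K := by
    intro K
    by_contra hK
    let S : Set (ConjClasses U₁) := {K | ∀ s ∈ P, ∀ g g' : U₁, (g' : Γ) = s * g * s⁻¹ →
      ConjClasses.mk g = K → ConjClasses.mk g' = K}
    have h1 : S ≠ Set.univ := fun h => hK (by
      have : K ∈ S := h ▸ Set.mem_univ K
      exact this)
    have h2 : S.ncard < (Set.univ : Set (ConjClasses U₁)).ncard :=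
      Set.ncard_lt_ncard (Set.ssubset_univ_iff.2 h1) (Set.toFinite _)
    have h3 : S.ncard = Nat.card (ConjClasses U₁) := by
      rw [← Nat.card_coe_set_eq]
      exact c5
    rw [Set.ncard_univ, h3] at h2
    exact lt_irrefl _ h2
  intro u hu huQ x hx
  have hu₁ : u ∈ U₁ := Subgroup.mem_inf.2 ⟨hu, Subgroup.mem_centralizer_iff.2 huQ⟩
  -- every element of `U₁` is conjugate into `U₂`
  have hconj : ∀ v : U₁, ∃ w : U₁, w * v * w⁻¹ ∈ U₂.subgroupOf U₁ := by
    intro v
    let Y : Set Γ := {y | ∃ g ∈ U₁, y = g * (v : Γ) * g⁻¹}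
    have hY1 : Y.Nonempty := ⟨v, 1, U₁.one_mem, by simp⟩
    have hY2 : ∀ g ∈ U₁, ∀ y ∈ Y, g * y * g⁻¹ ∈ Y := by
      rintro g hg y ⟨h, hh, rfl⟩
      exact ⟨g * h, U₁.mul_mem hg hh, by group⟩
    have hY3 : ∀ s ∈ P, ∀ y ∈ Y, s * y * s⁻¹ ∈ Y := by
      rintro s hs y ⟨h, hh, rfl⟩
      have hsv := hnormP s hs v v.2
      have h1 := hall (ConjClasses.mk v) s hs v ⟨_, hsv⟩ rfl rfl
      obtain ⟨c, hc'⟩ := ConjClasses.mk_eq_mk_iff_isConj.1 h1 |>.symm |> isConj_iff.1
      have h2 : (c : Γ) * (v : Γ) * (c : Γ)⁻¹ = s * v * s⁻¹ := congrArg Subtype.val hc'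
      refine ⟨s * h * s⁻¹ * (c : Γ), U₁.mul_mem (hnormP s hs h hh) c.2, ?_⟩
      calc s * (h * (v : Γ) * h⁻¹) * s⁻¹ = (s * h * s⁻¹) * (s * v * s⁻¹) * (s * h * s⁻¹)⁻¹ := by group
        _ = (s * h * s⁻¹) * ((c : Γ) * (v : Γ) * (c : Γ)⁻¹) * (s * h * s⁻¹)⁻¹ := by rw [h2]
        _ = s * h * s⁻¹ * (c : Γ) * (v : Γ) * (s * h * s⁻¹ * (c : Γ))⁻¹ := by group
    have hY4 : ∀ y ∈ Y, ∀ y' ∈ Y, ∃ g ∈ U₁, g * y * g⁻¹ = y' := by
      rintro y ⟨h, hh, rfl⟩ y' ⟨h', hh', rfl⟩
      exact ⟨h' * h⁻¹, U₁.mul_mem hh' (U₁.inv_mem hh), by group⟩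
    obtain ⟨y, ⟨g, hg, rfl⟩, hy⟩ := exists_fixed_of_transitive hnormP hcP₁ hPsolv Y hY1 hY2 hY3 hY4
    refine ⟨⟨g, hg⟩, ?_⟩
    rw [Subgroup.mem_subgroupOf]
    exact Subgroup.mem_inf.2 ⟨U₁.mul_mem (U₁.mul_mem hg v.2) (U₁.inv_mem hg),
      Subgroup.mem_centralizer_iff.2 fun s hs => hy s hs⟩
  have htop := Cfsg.Agent.Lib.Basic.JordanCover.eq_top_of_forall_conj_mem (U₂.subgroupOf U₁) hconj
  have hu₂ : (⟨u, hu₁⟩ : U₁) ∈ U₂.subgroupOf U₁ := by
    rw [htop]
    trivial
  rw [Subgroup.mem_subgroupOf] at hu₂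
  exact Subgroup.mem_centralizer_iff.1 hu₂.2 x hx

end Count

end Cfsg.Agent.Lib.Blocks.TPB
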