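import Mathlib
import Cfsg.Agent.Lib.Blocks.TPB2

/-!
# Two primes and the principal blocks: uniqueness of a `Q`-invariant Sylow `p`-subgroup

If `QPdeg p q X` holds and the Sylow subgroups `P` and `Q` commute, then `P` is the only Sylow
`p`-subgroup normalised by `Q`.
-/

set_option autoImplicit false
set_option linter.unusedSectionVars false
set_option linter.unusedVariables false
set_option linter.style.haveILetI false

namespace Cfsg.Agent.Lib.Blocks.TPB

open Cfsg Cfsg.Agent.Lib.Char.Basic Cfsg.Agent.Lib.Char.Ortho Cfsg.Agent.Lib.Char.Monomial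
  Cfsg.Agent.Lib.Char.GlaubP Cfsg.Agent.Lib.Char.GlaubSolv Cfsg.Agent.Lib.Solvable.PSeries
  Cfsg.Agent.Lib.Basic.PCore Cfsg.Agent.Lib.Char.ItoMichler

universe u

variable {X : Type u} [Group X] [Finite X] {p q : ℕ} [hpf : Fact p.Prime] [hqf : Fact q.Prime]

theorem eq_one_of_mem_of_coprime {A B : Subgroup X} (h : (Nat.card A).Coprime (Nat.card B)) {x : X} (hA : x ∈ A)
    (hB : x ∈ B) : x = 1 := by
  have h1 := Subgroup.orderOf_dvd_natCard A hA
  have h2 := Subgroup.orderOf_dvd_natCard B hB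
  exact orderOf_eq_one_iff.1 (Nat.eq_one_of_dvd_coprimes h h1 h2)

theorem exists_pow_eq_one_of_mem {S : Subgroup X} (h : IsPGroup p S) {x : X} (hx : x ∈ S) : ∃ k : ℕ, x ^ (p ^ k) = 1 := by
  obtain ⟨k, hk⟩ := h ⟨x, hx⟩
  exact ⟨k, by simpa using congrArg Subtype.val hk⟩

theorem card_coprime_of_isPGroup {r s : ℕ} [Fact r.Prime] [Fact s.Prime] (hrs : r ≠ s) {A : Subgroup X} (hA : IsPGroup r A) :
    (Nat.card A).Coprime s := by
  obtain ⟨k, hk⟩ := IsPGroup.iff_card.1 hA
  rw [hk]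
  exact Nat.Coprime.pow_left k ((Nat.coprime_primes Fact.out Fact.out).2 hrs)

theorem exists_sylow_le_of_not_dvd (I : Subgroup X) (h : ¬ p ∣ I.index) : ∃ S : Sylow p X, (S : Subgroup X) ≤ I := by
  classical
  let S₀ : Sylow p I := default
  let B : Subgroup X := (S₀ : Subgroup I).map I.subtype
  have hB : IsPGroup p B := S₀.isPGroup'.map _
  have hi : ¬ p ∣ B.index := by
    intro hd
    have h1 : B.index = (S₀ : Subgroup I).index * I.index := Subgroup.index_map_subtype _
    rw [h1] at hd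
    rcases (Nat.Prime.dvd_mul Fact.out).1 hd with h2 | h2
    · exact S₀.not_dvd_index h2
    · exact h h2
  refine ⟨hB.toSylow hi, ?_⟩
  show B ≤ I
  rintro _ ⟨y, -, rfl⟩
  exact y.2

theorem le_sup_of_inv (hps : IsPSolvable p X) (H : QPdeg p q X) (D U : Subgroup X) [hD : D.Normal] [hU : U.Normal]
    (hUD : U ≤ D) (hDq : ¬ q ∣ Nat.card D) (Q : Sylow q X)
    (hcomm : ∀ s ∈ (Q : Subgroup X), ∀ d ∈ D, s * d * s⁻¹ * d⁻¹ ∈ U)
    (S : Sylow p X) (hS : (S : Subgroup X) ≤ D) (A : Subgroup X) (hAD : A ≤ D) (hA : IsPGroup p A) :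
    A ≤ (S : Subgroup X) ⊔ U := by
  classical
  have hp : p.Prime := Fact.out
  let N : Subgroup D := U.subgroupOf D
  haveI : N.Normal := inferInstance
  let π : D →* D ⧸ N := QuotientGroup.mk' N
  have hπ : Function.Surjective π := QuotientGroup.mk'_surjective N
  have hdeg : DegPrime p (D ⧸ N) := by
    intro χ
    let t : D → ℂ := fun d => (χ : D ⧸ N → ℂ) (π d)
    have ht : IsIrrCharacter D t := isIrrCharacter_comp_surjective χ.2 π hπ
    have hinv : ∀ s ∈ (Q : Subgroup X), ∀ n : D, t ⟨s * n * s⁻¹, hD.conj_mem (n : X) n.2 s⟩ = t n := by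
      intro s hs n
      have hπeq : π ⟨s * n * s⁻¹, hD.conj_mem (n : X) n.2 s⟩ = π n := by
        refine (QuotientGroup.eq (s := N)).2 ?_
        rw [Subgroup.mem_subgroupOf]
        have h1 := hcomm s hs n n.2
        have h2 := U.inv_mem h1
        have h3 : (s * (n : X) * s⁻¹ * (n : X)⁻¹)⁻¹ = (n : X) * (s * (n : X) * s⁻¹)⁻¹ := by group
        rw [h3] at h2
        have h4 := hU.conj_mem _ h2 (n : X)⁻¹
        have h5 : (n : X)⁻¹ * ((n : X) * (s * (n : X) * s⁻¹)⁻¹) * ((n : X)⁻¹)⁻¹ = (s * (n : X) * s⁻¹)⁻¹ * n := by group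
        rw [h5] at h4
        simpa using h4
      show (χ : D ⧸ N → ℂ) (π _) = (χ : D ⧸ N → ℂ) (π n)
      rw [hπeq]
    have h := (not_dvd_of_inv hp H D hDq Q ht hinv).1
    have h6 : charDegree t = charDegree (χ : D ⧸ N → ℂ) := by
      unfold charDegree
      simp [t]
    rwa [h6] at h
  have hsolv : IsPSolvable p (D ⧸ N) := isPSolvable_quotient (isPSolvable_subgroup hps D) N
  let Pb : Subgroup (D ⧸ N) := ((S : Subgroup X).subgroupOf D).map π
  have hPb : IsPGroup p Pb := by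
    apply IsPGroup.map
    exact S.isPGroup'.comap_of_injective D.subtype D.subtype_injective
  have hPi : ¬ p ∣ Pb.index := by
    intro hd
    have h1 : Pb.index ∣ ((S : Subgroup X).subgroupOf D).index := Subgroup.index_map_dvd _ hπ
    have h2 : (S : Subgroup X).relIndex D * D.index = (S : Subgroup X).index := Subgroup.relIndex_mul_index hS
    apply S.not_dvd_index
    rw [← h2]
    exact Dvd.dvd.mul_right (hd.trans h1) _
  have hnormal : Pb.Normal := normal_of_degPrime hp _ (D ⧸ N) rfl hsolv hdeg Pb hPb hPi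
  have hB : IsPGroup p ((A.subgroupOf D).map π) := by
    apply IsPGroup.map
    exact hA.comap_of_injective D.subtype D.subtype_injective
  have hle := le_of_isPGroup_of_normal hp hPb hPi hB
  intro x hx
  have h1 : π ⟨x, hAD hx⟩ ∈ (A.subgroupOf D).map π := ⟨⟨x, hAD hx⟩, by simpa [Subgroup.mem_subgroupOf] using hx, rfl⟩
  obtain ⟨a, ha, ha2⟩ := hle h1
  have h2 : (a : D)⁻¹ * ⟨x, hAD hx⟩ ∈ N := (QuotientGroup.eq (s := N)).1 ha2
  have ha3 : (a : X) ∈ (S : Subgroup X) := ha
  rw [Subgroup.mem_subgroupOf] at h2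
  have h3 : x = (a : X) * (((a : D)⁻¹ * ⟨x, hAD hx⟩ : D) : X) := by simp
  rw [h3]
  exact Subgroup.mul_mem _ (Subgroup.mem_sup_left ha3) (Subgroup.mem_sup_right h2)

/-- **Uniqueness of the `Q`-invariant Sylow `p`-subgroup.** -/
theorem sylow_unique_of_inv (hpq : p ≠ q) (hps : IsPSolvable p X) (hqs : IsPSolvable q X) (H : QPdeg p q X)
    (P : Sylow p X) (Q : Sylow q X) (hc : ∀ x ∈ (P : Subgroup X), ∀ y ∈ (Q : Subgroup X), x * y = y * x)
    (P₂ : Sylow p X)
    (hn : ∀ s ∈ (Q : Subgroup X), ∀ x ∈ (P₂ : Subgroup X), s * x * s⁻¹ ∈ (P₂ : Subgroup X)) : P₂ = P := by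
  classical
  have hp : p.Prime := Fact.out
  have hq : q.Prime := Fact.out
  set D := pPrimeCore q X with hDdef
  set E := pPrimeCore p X with hEdef
  haveI hDn : D.Normal := pPrimeCore_normal q X
  haveI hEn : E.Normal := pPrimeCore_normal p X
  have hPD : (P : Subgroup X) ≤ D := le_pPrimeCore_of_commute hqs P (card_coprime_of_isPGroup hpq P.isPGroup') Q hc
  have hQE : (Q : Subgroup X) ≤ E := le_pPrimeCore_of_commute hps Q (card_coprime_of_isPGroup hpq.symm Q.isPGroup') P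
    (fun a ha x hx => (hc x hx a ha).symm)
  set U := D ⊓ E with hUdef
  haveI hUn : U.Normal := inferInstance
  have hDc : (Nat.card D).Coprime q := pPrimeCore_coprime q
  have hEc : (Nat.card E).Coprime p := pPrimeCore_coprime p
  have hDq : ¬ q ∣ Nat.card D := fun h => (Nat.Prime.coprime_iff_not_dvd hq).1 hDc.symm h
  have hUDd : Nat.card U ∣ Nat.card D := Subgroup.card_dvd_of_le inf_le_left
  have hUEd : Nat.card U ∣ Nat.card E := Subgroup.card_dvd_of_le inf_le_right
  have hUqn : ¬ q ∣ Nat.card U := fun h => hDq (h.trans hUDd)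
  have hUc_P : (Nat.card U).Coprime (Nat.card P) := by
    obtain ⟨k, hk⟩ := IsPGroup.iff_card.1 P.isPGroup'
    rw [hk]
    exact Nat.Coprime.pow_right k (Nat.Coprime.coprime_dvd_left hUEd hEc)
  have hUc_Q : (Nat.card U).Coprime (Nat.card Q) := by
    obtain ⟨k, hk⟩ := IsPGroup.iff_card.1 Q.isPGroup'
    rw [hk]
    exact Nat.Coprime.pow_right k (Nat.Coprime.coprime_dvd_left hUDd hDc)
  have hcomm : ∀ s ∈ (Q : Subgroup X), ∀ d ∈ D, s * d * s⁻¹ * d⁻¹ ∈ U := by
    intro s hs d hd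
    refine Subgroup.mem_inf.2 ⟨D.mul_mem (hDn.conj_mem d hd s) (D.inv_mem hd), ?_⟩
    have h1 : d * s⁻¹ * d⁻¹ ∈ E := hEn.conj_mem _ (E.inv_mem (hQE hs)) d
    have h2 : s * d * s⁻¹ * d⁻¹ = s * (d * s⁻¹ * d⁻¹) := by group
    rw [h2]
    exact E.mul_mem (hQE hs) h1
  have hSD : ∀ S : Sylow p X, (S : Subgroup X) ≤ D := by
    intro S
    obtain ⟨g, hg⟩ := MulAction.exists_smul_eq X P S
    rw [← hg, Sylow.coe_subgroup_smul]
    intro x hx
    obtain ⟨y, hy, rfl⟩ := Subgroup.mem_smul_pointwise_iff_exists _ _ _ |>.1 hx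
    have := hDn.conj_mem y (hPD hy) g
    simpa [MulAut.conj_apply] using this
  have hA : ∀ (S : Sylow p X) (A : Subgroup X), A ≤ D → IsPGroup p A → A ≤ (S : Subgroup X) ⊔ U :=
    fun S A hAD hA => le_sup_of_inv hps H D U inf_le_left hDq Q hcomm S (hSD S) A hAD hA
  have hB : ∀ ν : IrrCharacter U, SInv (Q : Subgroup X) (ν : U → ℂ) → SInv (P : Subgroup X) (ν : U → ℂ) := by
    intro ν hν
    rw [sinv_iff_le_inertia] at hν ⊢
    have hnd := (not_dvd_of_inv hp H U hUqn Q ν.2 (fun s hs n => hν hs n)).2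
    obtain ⟨S, hS⟩ := exists_sylow_le_of_not_dvd _ hnd
    have h1 := hA S P hPD P.isPGroup'
    have hUI : U ≤ inertiaOf U (ν : U → ℂ) := by
      intro u hu n
      have h2 := (isClassFunction_of_isCharacter (isCharacter_of_isIrrCharacter ν.2)) n ⟨u, hu⟩
      exact h2.symm ▸ rfl
    exact h1.trans (sup_le hS hUI)
  have hC := centralizes_of_inv (U := U) Q.isPGroup' P.isPGroup' hc hUc_Q hUc_P hB
  have h2 : (P₂ : Subgroup X) ≤ P := by
    intro x hx
    have hxD := hSD P₂ hx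
    have hxQ : ∀ s ∈ (Q : Subgroup X), s * x = x * s := by
      intro s hs
      have h3 : s * x * s⁻¹ * x⁻¹ ∈ U := hcomm s hs x hxD
      have h4 : s * x * s⁻¹ * x⁻¹ ∈ (P₂ : Subgroup X) := Subgroup.mul_mem _ (hn s hs x hx) (Subgroup.inv_mem _ hx)
      have hcc : (Nat.card U).Coprime (Nat.card (P₂ : Subgroup X)) := by
        obtain ⟨k, hk⟩ := IsPGroup.iff_card.1 P₂.isPGroup'
        rw [hk]
        exact Nat.Coprime.pow_right k (Nat.Coprime.coprime_dvd_left hUEd hEc)
      have h5 := eq_one_of_mem_of_coprime hcc h3 h4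
      calc s * x = s * x * s⁻¹ * x⁻¹ * (x * s) := by group
        _ = x * s := by rw [h5, one_mul]
    have hx2 : x ∈ (P : Subgroup X) ⊔ U := hA P P₂ (hSD P₂) P₂.isPGroup' hx
    rw [← SetLike.mem_coe, Subgroup.mul_normal] at hx2
    obtain ⟨a, ha, u, hu, rfl⟩ := Set.mem_mul.1 hx2
    have hu' : u ∈ U := hu
    have ha' : a ∈ (P : Subgroup X) := ha
    have huQ : ∀ s ∈ (Q : Subgroup X), s * u = u * s := by
      intro s hs
      have h3 := hxQ s hs
      have h4 := hc a ha' s hs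
      have h5 : s * a * u = a * (u * s) := by
        rw [mul_assoc, h3, mul_assoc]
      have h6 : a * (s * u) = a * (u * s) := by
        rw [← mul_assoc, h4, h5]
      exact mul_left_cancel h6
    have hau := hC u hu' huQ a ha'
    have hcomm2 : Commute a u := hau
    obtain ⟨k, hk⟩ := exists_pow_eq_one_of_mem P₂.isPGroup' hx
    obtain ⟨j, hj⟩ := exists_pow_eq_one_of_mem P.isPGroup' ha'
    have h7 : u ^ (p ^ (k + j)) = 1 := by
      have h8 : (a * u) ^ (p ^ (k + j)) = 1 := by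
        rw [pow_add, pow_mul, hk, one_pow]
      rw [hcomm2.mul_pow] at h8
      have h9 : a ^ (p ^ (k + j)) = 1 := by
        rw [add_comm, pow_add, pow_mul, hj, one_pow]
      rwa [h9, one_mul] at h8
    have h10 : orderOf u ∣ p ^ (k + j) := orderOf_dvd_of_pow_eq_one h7
    have h11 : orderOf u ∣ Nat.card U := Subgroup.orderOf_dvd_natCard U hu'
    have h12 : Nat.Coprime (Nat.card U) (p ^ (k + j)) :=
      Nat.Coprime.pow_right _ (Nat.Coprime.coprime_dvd_left hUEd hEc)
    have h13 : u = 1 := orderOf_eq_one_iff.1 (Nat.eq_one_of_dvd_coprimes h12 h11 h10)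
    rw [h13, mul_one]
    exact ha'
  exact Sylow.ext (by
    have hle : Nat.card (P₂ : Subgroup X) = Nat.card (P : Subgroup X) := by
      rw [Sylow.card_eq_multiplicity, Sylow.card_eq_multiplicity]
    exact Subgroup.eq_of_le_of_card_ge h2 hle.ge)

end Cfsg.Agent.Lib.Blocks.TPB
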