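import Mathlib
import Cfsg.Agent.Lib.Blocks.TPB3
import Cfsg.Agent.Lib.Coprime.InvSylow
import Cfsg.Agent.Lib.Coprime.Averaging
import Cfsg.Agent.Lib.Char.LinearChars
import Cfsg.Agent.Lib.Basic.MaxCentralizer

/-!
# Two primes and the principal blocks: the key reduction

If `QPdeg p q Y` holds, `V` is an abelian normal `q`-subgroup and `[P, Q] ≤ V` for Sylow subgroups `P` and
`Q`, then `P` centralises `V`.
-/

set_option autoImplicit false
set_option linter.unusedSectionVars false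
set_option linter.unusedVariables false
set_option linter.style.haveILetI false

namespace Cfsg.Agent.Lib.Blocks.TPB

open Cfsg Cfsg.Agent.Lib.Char.Basic Cfsg.Agent.Lib.Char.Ortho Cfsg.Agent.Lib.Char.Monomial
  Cfsg.Agent.Lib.Char.GlaubP Cfsg.Agent.Lib.Char.GlaubSolv Cfsg.Agent.Lib.Solvable.PSeries
  Cfsg.Agent.Lib.Basic.PCore Cfsg.Agent.Lib.Char.ItoMichler Cfsg.Agent.Lib.Char.LinearChars
open scoped Pointwise commutatorElement

universe u

section Hom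

/-- A nilpotent group has a nontrivial linear character trivial on any given proper subgroup. -/
theorem exists_hom_trivial_on {T : Type*} [Group T] [Finite T] [Group.IsNilpotent T] (B : Subgroup T) (hB : B ≠ ⊤) :
    ∃ φ : T →* ℂˣ, φ ≠ 1 ∧ ∀ b ∈ B, φ b = 1 := by
  classical
  obtain ⟨M, hM, hBM⟩ : ∃ M, IsCoatom M ∧ B ≤ M := (eq_top_or_exists_le_coatom B).resolve_left hB
  have hN : M.Normal := by
    have h1 := Group.normalizerCondition_of_isNilpotent (G := T) M (lt_top_iff_ne_top.2 hM.1)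
    have htop := hM.2 _ h1
    exact Subgroup.normalizer_eq_top_iff.1 htop
  letI : CommGroup (T ⧸ M) := { (inferInstance : Group (T ⧸ M)) with
    mul_comm := Cfsg.Agent.Lib.Basic.MaxCentralizer.quot_comm_of_coatom M hM }
  obtain ⟨a, ha⟩ : ∃ a : T, a ∉ M := by
    by_contra hcon
    push Not at hcon
    exact hM.1 (eq_top_iff.2 fun x _ => hcon x)
  have h1 : ((a : T ⧸ M)) ≠ 1 := fun h => ha ((QuotientGroup.eq_one_iff a).1 h)
  have hE : HasEnoughRootsOfUnity ℂ (Monoid.exponent (T ⧸ M)) := inferInstance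
  obtain ⟨ψ, hψ⟩ := CommGroup.exists_apply_ne_one_of_hasEnoughRootsOfUnity (T ⧸ M) ℂ h1
  refine ⟨ψ.comp (QuotientGroup.mk' M), ?_, ?_⟩
  · intro h
    apply hψ
    have := DFunLike.congr_fun h a
    simpa using this
  · intro b hb
    have h2 : ((b : T ⧸ M)) = 1 := (QuotientGroup.eq_one_iff b).2 (hBM hb)
    show ψ (b : T ⧸ M) = 1
    rw [h2, map_one]

end Hom

variable {Y : Type u} [Group Y] [Finite Y] {p q : ℕ} [hpf : Fact p.Prime] [hqf : Fact q.Prime]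

/-- The Frattini step. -/
theorem exists_mem_mul_centralizer (V : Subgroup Y) [hV : V.Normal] (P : Sylow p Y) (Q : Subgroup Y)
    (hcc : (Nat.card V).Coprime (Nat.card (P : Subgroup Y)))
    (hcomm : ∀ x ∈ (P : Subgroup Y), ∀ y ∈ Q, x * y * x⁻¹ * y⁻¹ ∈ V) (hVQ : V ≤ Q) (s : Y) (hs : s ∈ Q) :
    ∃ v ∈ V, v⁻¹ * s ∈ Subgroup.centralizer (P : Set Y) := by
  classical
  set L : Subgroup Y := V ⊔ (P : Subgroup Y) with hL
  have hPL : (P : Subgroup Y) ≤ L := le_sup_right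
  have hsPL : ((s • P : Sylow p Y) : Subgroup Y) ≤ L := by
    rw [Sylow.coe_subgroup_smul]
    intro z hz
    obtain ⟨x, hx, rfl⟩ := Subgroup.mem_smul_pointwise_iff_exists _ _ _ |>.1 hz
    have h1 : s * x * s⁻¹ * x⁻¹ ∈ V := by
      have h2 := V.inv_mem (hcomm x hx s hs)
      have h3 : (x * s * x⁻¹ * s⁻¹)⁻¹ = s * x * s⁻¹ * x⁻¹ := by group
      rwa [h3] at h2
    have h4 : MulAut.conj s • x = (s * x * s⁻¹ * x⁻¹) * x := by
      simp [MulAut.smul_def, MulAut.conj_apply]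
    rw [h4]
    exact L.mul_mem (Subgroup.mem_sup_left h1) (Subgroup.mem_sup_right hx)
  obtain ⟨r, hr⟩ := MulAction.exists_smul_eq L (P.subtype hPL) ((s • P).subtype hsPL)
  rw [Sylow.smul_subtype] at hr
  have hr2 : (r : Y) • P = s • P := Sylow.subtype_injective hr
  have hrmem : (r : Y) ∈ ((V ⊔ (P : Subgroup Y) : Subgroup Y) : Set Y) := r.2
  rw [Subgroup.normal_mul] at hrmem
  obtain ⟨v, hv, a, ha, hva⟩ := Set.mem_mul.1 hrmem
  have ha2 : a • P = P := Sylow.smul_eq_iff_mem_normalizer.2 (Subgroup.le_normalizer ha)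
  have hv2 : v • P = s • P := by
    rw [← hr2, ← hva, mul_smul, ha2]
  have hy : (v⁻¹ * s) • P = P := by
    rw [mul_smul, ← hv2, inv_smul_smul]
  have hyN : v⁻¹ * s ∈ Subgroup.normalizer ((P : Subgroup Y) : Set Y) := Sylow.smul_eq_iff_mem_normalizer.1 hy
  have hyQ : v⁻¹ * s ∈ Q := Q.mul_mem (Q.inv_mem (hVQ hv)) hs
  refine ⟨v, hv, Subgroup.mem_centralizer_iff.2 fun x hx => ?_⟩
  have hxP : x ∈ (P : Subgroup Y) := hx
  set y := v⁻¹ * s with hydef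
  have h1 := hcomm x hxP y hyQ
  have h2 : y * x⁻¹ * y⁻¹ ∈ (P : Subgroup Y) := (Subgroup.mem_normalizer_iff.1 hyN _).1 (Subgroup.inv_mem _ hxP)
  have h3 : x * y * x⁻¹ * y⁻¹ ∈ (P : Subgroup Y) := by
    have h4 : x * y * x⁻¹ * y⁻¹ = x * (y * x⁻¹ * y⁻¹) := by group
    rw [h4]
    exact Subgroup.mul_mem _ hxP h2
  have h5 := eq_one_of_mem_of_coprime hcc h1 h3
  calc x * y = x * y * x⁻¹ * y⁻¹ * (y * x) := by group
    _ = y * x := by rw [h5, one_mul]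

/-- A Sylow `p`-subgroup inside an overgroup `I` of `V` and `Q` forces `P` inside `I`. -/
theorem sylow_le_of_inertia (hpq : p ≠ q) (hps : IsPSolvable p Y) (hqs : IsPSolvable q Y) (H : QPdeg p q Y)
    (V : Subgroup Y) [hV : V.Normal] (P : Sylow p Y) (Q : Sylow q Y)
    (hcomm : ∀ x ∈ (P : Subgroup Y), ∀ y ∈ (Q : Subgroup Y), x * y * x⁻¹ * y⁻¹ ∈ V)
    (I : Subgroup Y) (hVI : V ≤ I) (hQI : (Q : Subgroup Y) ≤ I) (S : Sylow p Y) (hS : (S : Subgroup Y) ≤ I) :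
    (P : Subgroup Y) ≤ I := by
  classical
  have hp : p.Prime := Fact.out
  have hq : q.Prime := Fact.out
  let π : Y →* Y ⧸ V := QuotientGroup.mk' V
  have hπ : Function.Surjective π := QuotientGroup.mk'_surjective V
  let Pb : Sylow p (Y ⧸ V) := P.mapSurjective hπ
  let Qb : Sylow q (Y ⧸ V) := Q.mapSurjective hπ
  let Sb : Sylow p (Y ⧸ V) := S.mapSurjective hπ
  have hPbmem : ∀ z ∈ (Pb : Subgroup (Y ⧸ V)), ∃ x ∈ (P : Subgroup Y), π x = z := fun z hz =>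
    Subgroup.mem_map.1 hz
  have hQbmem : ∀ z ∈ (Qb : Subgroup (Y ⧸ V)), ∃ x ∈ (Q : Subgroup Y), π x = z := fun z hz =>
    Subgroup.mem_map.1 hz
  have hSbmem : ∀ z ∈ (Sb : Subgroup (Y ⧸ V)), ∃ x ∈ (S : Subgroup Y), π x = z := fun z hz =>
    Subgroup.mem_map.1 hz
  have hc : ∀ x ∈ (Pb : Subgroup (Y ⧸ V)), ∀ y ∈ (Qb : Subgroup (Y ⧸ V)), x * y = y * x := by
    intro x hx y hy
    obtain ⟨a, ha, rfl⟩ := hPbmem x hx
    obtain ⟨b, hb, rfl⟩ := hQbmem y hy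
    have h1 : π (a * b * a⁻¹ * b⁻¹) = 1 := (QuotientGroup.eq_one_iff _).2 (hcomm a ha b hb)
    rw [← map_mul, ← map_mul]
    have h2 : π (a * b) = π (a * b * a⁻¹ * b⁻¹) * π (b * a) := by
      rw [← map_mul]
      congr 1
      group
    rw [h2, h1, one_mul]
  set D := pPrimeCore q (Y ⧸ V) with hD
  haveI hDn : D.Normal := pPrimeCore_normal q (Y ⧸ V)
  have hps' := isPSolvable_quotient hps V
  have hqs' := isPSolvable_quotient hqs V
  have hPbD : (Pb : Subgroup (Y ⧸ V)) ≤ D := le_pPrimeCore_of_commute hqs' Pb (card_coprime_of_isPGroup hpq Pb.isPGroup') Qb hc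
  have hSbD : (Sb : Subgroup (Y ⧸ V)) ≤ D := by
    obtain ⟨g, hg⟩ := MulAction.exists_smul_eq (Y ⧸ V) Pb Sb
    rw [← hg, Sylow.coe_subgroup_smul]
    intro x hx
    obtain ⟨y, hy, rfl⟩ := Subgroup.mem_smul_pointwise_iff_exists _ _ _ |>.1 hx
    have := hDn.conj_mem y (hPbD hy) g
    simpa [MulAut.conj_apply] using this
  set K : Subgroup (Y ⧸ V) := D ⊓ I.map π with hK
  have hSbK : (Sb : Subgroup (Y ⧸ V)) ≤ K := by
    refine le_inf hSbD ?_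
    intro z hz
    obtain ⟨x, hx, rfl⟩ := hSbmem z hz
    exact ⟨x, hS hx, rfl⟩
  have hQbI : (Qb : Subgroup (Y ⧸ V)) ≤ I.map π := by
    intro z hz
    obtain ⟨x, hx, rfl⟩ := hQbmem z hz
    exact ⟨x, hQI hx, rfl⟩
  have hAK : (Qb : Subgroup (Y ⧸ V)) ≤ Subgroup.normalizer ((K : Subgroup (Y ⧸ V)) : Set (Y ⧸ V)) := by
    apply Cfsg.Agent.Lib.Coprime.InvSylow.le_normalizer_of_forall_conj_mem
    intro a ha x hx
    refine Subgroup.mem_inf.2 ⟨hDn.conj_mem x hx.1 a, ?_⟩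
    exact Subgroup.mul_mem _ (Subgroup.mul_mem _ (hQbI ha) hx.2) (Subgroup.inv_mem _ (hQbI ha))
  have hcop : (Nat.card (Qb : Subgroup (Y ⧸ V))).Coprime (Nat.card K) := by
    obtain ⟨k, hk⟩ := IsPGroup.iff_card.1 Qb.isPGroup'
    rw [hk]
    refine Nat.Coprime.pow_left k ?_
    exact (Nat.Coprime.coprime_dvd_left (Subgroup.card_dvd_of_le (inf_le_left : K ≤ D)) (pPrimeCore_coprime q)).symm
  haveI : Group.IsNilpotent (Qb : Subgroup (Y ⧸ V)) := Qb.isPGroup'.isNilpotent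
  obtain ⟨P₃, hP₃⟩ := Cfsg.Agent.Lib.Coprime.InvSylow.exists_invariant_sylow hAK hcop (Or.inl inferInstance) p
  let B : Subgroup (Y ⧸ V) := (P₃ : Subgroup K).map K.subtype
  have hBp : IsPGroup p B := P₃.isPGroup'.map _
  have hBi : ¬ p ∣ B.index := by
    intro hd
    have h1 : B.index = (P₃ : Subgroup K).index * K.index := Subgroup.index_map_subtype _
    rw [h1] at hd
    rcases hp.dvd_mul.1 hd with h2 | h2
    · exact P₃.not_dvd_index h2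
    · exact Sb.not_dvd_index (h2.trans (Subgroup.index_dvd_of_le hSbK))
  let P₂ : Sylow p (Y ⧸ V) := hBp.toSylow hBi
  have hP₂ : P₂ = Pb := by
    refine sylow_unique_of_inv hpq hps' hqs' (H.quotient V) Pb Qb hc P₂ ?_
    intro s hs x hx
    exact (Subgroup.mem_normalizer_iff.1 (hP₃ hs) x).1 hx
  have hPbK : (Pb : Subgroup (Y ⧸ V)) ≤ K := by
    rw [← hP₂]
    show B ≤ K
    rintro _ ⟨y, -, rfl⟩
    exact y.2
  intro x hx
  have h1 : π x ∈ (Pb : Subgroup (Y ⧸ V)) := by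
    show π x ∈ (P : Subgroup Y).map π
    exact ⟨x, hx, rfl⟩
  obtain ⟨i, hi, hi2⟩ := (hPbK h1).2
  have h2 : i⁻¹ * x ∈ V := (QuotientGroup.eq (s := V)).1 hi2
  have h3 : x = i * (i⁻¹ * x) := by group
  rw [h3]
  exact I.mul_mem hi (hVI h2)

/-- **Key reduction.** -/
theorem centralizes_of_comm_le (hpq : p ≠ q) (hps : IsPSolvable p Y) (hqs : IsPSolvable q Y) (H : QPdeg p q Y)
    (V : Subgroup Y) [hV : V.Normal] (hab : ∀ a ∈ V, ∀ b ∈ V, a * b = b * a) (hVq : IsPGroup q V)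
    (P : Sylow p Y) (Q : Sylow q Y)
    (hcomm : ∀ x ∈ (P : Subgroup Y), ∀ y ∈ (Q : Subgroup Y), x * y * x⁻¹ * y⁻¹ ∈ V) :
    ∀ x ∈ (P : Subgroup Y), ∀ v ∈ V, x * v = v * x := by
  classical
  have hp : p.Prime := Fact.out
  have hq : q.Prime := Fact.out
  by_contra hcon
  push Not at hcon
  obtain ⟨x₀, hx₀, v₀, hv₀, hne⟩ := hcon
  have hVQ : V ≤ Q := (le_pCore hV hVq).trans (pCore_le_sylow Q)
  let Q₂ : Subgroup (Q : Subgroup Y) := (Subgroup.centralizer ((P : Subgroup Y) : Set Y)).subgroupOf (Q : Subgroup Y)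
  have hQ₂ : Q₂ ≠ ⊤ := by
    intro h
    have h1 : (⟨v₀, hVQ hv₀⟩ : (Q : Subgroup Y)) ∈ Q₂ := by
      rw [h]
      trivial
    have h2 : v₀ ∈ Subgroup.centralizer ((P : Subgroup Y) : Set Y) := h1
    exact hne (Subgroup.mem_centralizer_iff.1 h2 x₀ hx₀)
  haveI : Group.IsNilpotent (Q : Subgroup Y) := Q.isPGroup'.isNilpotent
  obtain ⟨φ, hφ, hφ₂⟩ := exists_hom_trivial_on Q₂ hQ₂
  haveI : Fintype (Q : Subgroup Y) := Fintype.ofFinite _
  haveI : Fintype V := Fintype.ofFinite _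
  let l : ↥(Q : Subgroup Y) → ℂ := fun s => ((φ s : ℂˣ) : ℂ)
  have hl : IsIrrCharacter ↥(Q : Subgroup Y) l := isIrr_of_hom φ
  let τ₀ : V →* ℂˣ := φ.comp (Subgroup.inclusion hVQ)
  let τ : V → ℂ := fun v => ((τ₀ v : ℂˣ) : ℂ)
  have ht : IsIrrCharacter V τ := isIrr_of_hom τ₀
  have hdeg : ¬ q ∣ charDegree l := by
    have h1 : charDegree l = 1 := by
      unfold charDegree
      simp [l]
    rw [h1]
    exact hq.one_lt.ne' ∘ Nat.dvd_one.1
  have hnd := (not_dvd_of_ext hq hp H V hVQ Q.not_dvd_index hl hdeg ht (fun k => rfl)).2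
  obtain ⟨S, hS⟩ := exists_sylow_le_of_not_dvd _ hnd
  -- `Q` and `V` fix `τ`
  have hQI : (Q : Subgroup Y) ≤ inertiaOf V τ := by
    intro s hs n
    show ((τ₀ _ : ℂˣ) : ℂ) = ((τ₀ n : ℂˣ) : ℂ)
    congr 1
    show φ _ = φ _
    have h1 : (Subgroup.inclusion hVQ) ⟨s * n * s⁻¹, hV.conj_mem (n : Y) n.2 s⟩ =
        ⟨s, hs⟩ * (Subgroup.inclusion hVQ n) * (⟨s, hs⟩ : (Q : Subgroup Y))⁻¹ := rfl
    rw [h1, map_mul, map_mul, map_inv, mul_comm (φ ⟨s, hs⟩), mul_inv_cancel_right]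
  have hPI : (P : Subgroup Y) ≤ inertiaOf V τ :=
    sylow_le_of_inertia hpq hps hqs H V P Q hcomm _ (hVQ.trans hQI) hQI S hS
  -- the kernel
  let K' : Subgroup Y := (φ.ker).map (Q : Subgroup Y).subtype
  have hmemK' : ∀ (s : Y) (hs : s ∈ (Q : Subgroup Y)), φ ⟨s, hs⟩ = 1 → s ∈ K' :=
    fun s hs h => ⟨⟨s, hs⟩, h, rfl⟩
  have hcentral : V ⊓ Subgroup.centralizer ((P : Subgroup Y) : Set Y) ≤ K' := by
    rintro v ⟨hv, hvc⟩
    exact hmemK' v (hVQ hv) (hφ₂ _ hvc)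
  have hcomm' : ⁅V, (P : Subgroup Y)⁆ ≤ K' := by
    rw [Subgroup.commutator_le]
    intro v hv a ha
    have h1 : τ ⟨a * v⁻¹ * a⁻¹, hV.conj_mem _ (V.inv_mem hv) a⟩ = τ ⟨v⁻¹, V.inv_mem hv⟩ := hPI ha ⟨v⁻¹, V.inv_mem hv⟩
    have h2 : τ₀ ⟨a * v⁻¹ * a⁻¹, hV.conj_mem _ (V.inv_mem hv) a⟩ = τ₀ ⟨v⁻¹, V.inv_mem hv⟩ := Units.ext h1
    have hc : ⁅v, a⁆ ∈ V := by
      rw [commutatorElement_def]
      have h3 : v * a * v⁻¹ * a⁻¹ = v * (a * v⁻¹ * a⁻¹) := by group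
      rw [h3]
      exact V.mul_mem hv (hV.conj_mem _ (V.inv_mem hv) a)
    refine hmemK' _ (hVQ hc) ?_
    have h4 : (⟨⁅v, a⁆, hVQ hc⟩ : (Q : Subgroup Y)) = Subgroup.inclusion hVQ (⟨v, hv⟩ * ⟨a * v⁻¹ * a⁻¹, hV.conj_mem _ (V.inv_mem hv) a⟩) := by
      apply Subtype.ext
      show ⁅v, a⁆ = v * (a * v⁻¹ * a⁻¹)
      rw [commutatorElement_def]
      group
    rw [h4]
    show τ₀ _ = 1
    rw [map_mul, h2, ← map_mul]
    have h5 : (⟨v, hv⟩ * ⟨v⁻¹, V.inv_mem hv⟩ : V) = 1 := Subtype.ext (by simp)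
    rw [h5, map_one]
  haveI : IsMulCommutative V := ⟨⟨fun a b => Subtype.ext (hab a a.2 b b.2)⟩⟩
  have hNV : (P : Subgroup Y) ≤ Subgroup.normalizer (V : Set Y) := by
    rw [Subgroup.normalizer_eq_top_iff.2 hV]
    exact le_top
  have hcoprime : (Nat.card (P : Subgroup Y)).Coprime (Nat.card V) := by
    obtain ⟨k, hk⟩ := IsPGroup.iff_card.1 hVq
    rw [hk]
    exact Nat.Coprime.pow_right k (card_coprime_of_isPGroup hpq P.isPGroup')
  have hsup := (Cfsg.Agent.Lib.Coprime.Averaging.centralizer_inf_commutator_and_sup (P : Subgroup Y) V hNV hcoprime).2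
  have hVK : V ≤ K' := by
    rw [← hsup]
    exact sup_le hcentral hcomm'
  apply hφ
  ext1 ⟨s, hs⟩
  obtain ⟨v, hv, hy⟩ := exists_mem_mul_centralizer V P (Q : Subgroup Y) hcoprime.symm hcomm hVQ s hs
  have h6 : φ ⟨v⁻¹ * s, Subgroup.mul_mem _ (Subgroup.inv_mem _ (hVQ hv)) hs⟩ = 1 := hφ₂ _ hy
  obtain ⟨w, hw, hw2⟩ := hVK hv
  have h7 : φ ⟨v, hVQ hv⟩ = 1 := by
    have h8 : w = ⟨v, hVQ hv⟩ := Subtype.ext hw2
    rw [← h8]
    exact hw
  have h9 : (⟨s, hs⟩ : (Q : Subgroup Y)) = ⟨v, hVQ hv⟩ * ⟨v⁻¹ * s, Subgroup.mul_mem _ (Subgroup.inv_mem _ (hVQ hv)) hs⟩ :=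
    Subtype.ext (by simp)
  rw [h9, map_mul, h6, h7, mul_one]
  rfl

end Cfsg.Agent.Lib.Blocks.TPB
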