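import Mathlib
import Cfsg.Agent.Lib.Blocks.TPB4

/-!
# Two primes and the principal blocks: commuting Sylow subgroups

`Hyp p q G`: every irreducible character of `G / O_{p'}(G)` of `p'`-degree has `q'`-degree. If `Hyp p q G` and
`Hyp q p G` hold in a `p`- and `q`-solvable group then some Sylow `p`-subgroup commutes with some Sylow
`q`-subgroup.
-/

set_option autoImplicit false
set_option linter.unusedSectionVars false
set_option linter.unusedVariables false
set_option linter.style.haveILetI false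

namespace Cfsg.Agent.Lib.Blocks.TPB

open Cfsg Cfsg.Agent.Lib.Char.Basic Cfsg.Agent.Lib.Char.Ortho Cfsg.Agent.Lib.Char.Monomial
  Cfsg.Agent.Lib.Solvable.PSeries Cfsg.Agent.Lib.Basic.PCore
open scoped Pointwise commutatorElement

universe u

/-- Every irreducible character of `G / O_{p'}(G)` of `p'`-degree has `q'`-degree. -/
def Hyp (p q : ℕ) (G : Type*) [Group G] : Prop :=
  ∀ χ : IrrCharacter G, (∀ n ∈ pPrimeCore p G, (χ : G → ℂ) n = (χ : G → ℂ) 1) →
    ¬ p ∣ charDegree (χ : G → ℂ) → ¬ q ∣ charDegree (χ : G → ℂ)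

variable {G : Type u} [Group G] [Finite G] {p q : ℕ} [hpf : Fact p.Prime] [hqf : Fact q.Prime]

theorem map_pPrimeCore_le {r : ℕ} (N : Subgroup G) [N.Normal] :
    (pPrimeCore r G).map (QuotientGroup.mk' N) ≤ pPrimeCore r (G ⧸ N) := by
  apply le_pPrimeCore
  · exact Subgroup.Normal.map (pPrimeCore_normal r G) _ (QuotientGroup.mk'_surjective N)
  · exact Nat.Coprime.coprime_dvd_left (Subgroup.card_map_dvd _ _) (pPrimeCore_coprime r)

theorem Hyp.quotient {r s : ℕ} (h : Hyp r s G) (N : Subgroup G) [N.Normal] : Hyp r s (G ⧸ N) := by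
  intro χ hχ hp
  have h1 := h ⟨fun g => (χ : G ⧸ N → ℂ) (g : G ⧸ N),
    isIrrCharacter_comp_surjective χ.2 (QuotientGroup.mk' N) (QuotientGroup.mk'_surjective N)⟩
    (fun n hn => ?_) (by simpa [charDegree] using hp)
  · simpa [charDegree] using h1
  · show (χ : G ⧸ N → ℂ) (n : G ⧸ N) = (χ : G ⧸ N → ℂ) ((1 : G) : G ⧸ N)
    exact hχ _ (map_pPrimeCore_le N ⟨n, hn, rfl⟩)

theorem qpdeg_of_hyp {r s : ℕ} (h : Hyp s r G) : QPdeg r s (G ⧸ pPrimeCore s G) := by
  intro χ hq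
  have h1 := h ⟨fun g => (χ : G ⧸ pPrimeCore s G → ℂ) (g : G ⧸ pPrimeCore s G),
    isIrrCharacter_comp_surjective χ.2 (QuotientGroup.mk' _) (QuotientGroup.mk'_surjective _)⟩
    (fun n hn => ?_) (by simpa [charDegree] using hq)
  · simpa [charDegree] using h1
  · show (χ : G ⧸ pPrimeCore s G → ℂ) (n : G ⧸ pPrimeCore s G) = (χ : G ⧸ pPrimeCore s G → ℂ) ((1 : G) : G ⧸ pPrimeCore s G)
    rw [(QuotientGroup.eq_one_iff n).2 hn]
    rfl

theorem exists_sylow_map_eq {r : ℕ} [Fact r.Prime] (N : Subgroup G) [N.Normal] (R : Sylow r (G ⧸ N)) :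
    ∃ S : Sylow r G, (S : Subgroup G).map (QuotientGroup.mk' N) = R := by
  classical
  let S₀ : Sylow r G := default
  obtain ⟨g₀, hg⟩ := MulAction.exists_smul_eq (G ⧸ N) (S₀.mapSurjective (QuotientGroup.mk'_surjective N)) R
  obtain ⟨g, rfl⟩ := QuotientGroup.mk_surjective g₀
  refine ⟨g • S₀, ?_⟩
  rw [← hg, Sylow.coe_subgroup_smul, Sylow.coe_subgroup_smul]
  ext z
  simp only [Subgroup.mem_map, Subgroup.mem_smul_pointwise_iff_exists]
  constructor
  · rintro ⟨_, ⟨y, hy, rfl⟩, rfl⟩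
    refine ⟨_, ⟨y, hy, rfl⟩, ?_⟩
    simp [MulAut.smul_def, MulAut.conj_apply]
  · rintro ⟨_, ⟨y, hy, rfl⟩, rfl⟩
    refine ⟨_, ⟨y, hy, rfl⟩, ?_⟩
    simp [MulAut.smul_def, MulAut.conj_apply]

/-- Step 1: removing a normal `{p,q}'`-subgroup. -/
theorem step_coprime (hpq : p ≠ q) (N : Subgroup G) [hN : N.Normal] (hNq : (Nat.card N).Coprime q)
    (hNp : (Nat.card N).Coprime p) (P : Sylow p G) (Q : Sylow q G)
    (hc : ∀ x ∈ (P : Subgroup G), ∀ y ∈ (Q : Subgroup G), x * y * x⁻¹ * y⁻¹ ∈ N) :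
    ∃ Q₁ : Sylow q G, ∀ x ∈ (P : Subgroup G), ∀ y ∈ (Q₁ : Subgroup G), x * y = y * x := by
  classical
  have hp : p.Prime := Fact.out
  have hq : q.Prime := Fact.out
  let π : G →* G ⧸ N := QuotientGroup.mk' N
  set K : Subgroup G := N ⊔ (Q : Subgroup G) with hK
  have hKp : (Nat.card K).Coprime p := coprime_card_sup hNp (card_coprime_of_isPGroup hpq.symm Q.isPGroup')
  have hcop : (Nat.card (P : Subgroup G)).Coprime (Nat.card K) := by
    obtain ⟨k, hk⟩ := IsPGroup.iff_card.1 P.isPGroup'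
    rw [hk]
    exact Nat.Coprime.pow_left k hKp.symm
  have hdecomp : ∀ y ∈ K, ∃ n ∈ N, ∃ y₀ ∈ (Q : Subgroup G), y = n * y₀ := by
    intro y hy
    have hy' : y ∈ ((N ⊔ (Q : Subgroup G) : Subgroup G) : Set G) := hy
    rw [Subgroup.normal_mul] at hy'
    obtain ⟨n, hn, y₀, hy₀, rfl⟩ := Set.mem_mul.1 hy'
    exact ⟨n, hn, y₀, hy₀, rfl⟩
  have hcK : ∀ x ∈ (P : Subgroup G), ∀ y ∈ K, x * y * x⁻¹ * y⁻¹ ∈ N := by
    intro x hx y hy
    obtain ⟨n, hn, y₀, hy₀, rfl⟩ := hdecomp y hy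
    have h1 := hc x hx y₀ hy₀
    have h2 : x * (n * y₀) * x⁻¹ * (n * y₀)⁻¹ = (x * n * x⁻¹) * (x * y₀ * x⁻¹ * y₀⁻¹) * n⁻¹ := by group
    rw [h2]
    exact N.mul_mem (N.mul_mem (hN.conj_mem n hn x) h1) (N.inv_mem hn)
  have hAK : (P : Subgroup G) ≤ Subgroup.normalizer ((K : Subgroup G) : Set G) := by
    apply Cfsg.Agent.Lib.Coprime.InvSylow.le_normalizer_of_forall_conj_mem
    intro a ha y hy
    have h1 : a * y * a⁻¹ = (a * y * a⁻¹ * y⁻¹) * y := by group
    rw [h1]
    exact K.mul_mem (Subgroup.mem_sup_left (hcK a ha y hy)) hy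
  haveI : Group.IsNilpotent (P : Subgroup G) := P.isPGroup'.isNilpotent
  obtain ⟨Q₃, hQ₃⟩ := Cfsg.Agent.Lib.Coprime.InvSylow.exists_invariant_sylow hAK hcop (Or.inl inferInstance) q
  let B : Subgroup G := (Q₃ : Subgroup K).map K.subtype
  have hBp : IsPGroup q B := Q₃.isPGroup'.map _
  have hBi : ¬ q ∣ B.index := by
    intro hd
    have h1 : B.index = (Q₃ : Subgroup K).index * K.index := Subgroup.index_map_subtype _
    rw [h1] at hd
    rcases hq.dvd_mul.1 hd with h2 | h2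
    · exact Q₃.not_dvd_index h2
    · exact Q.not_dvd_index (h2.trans (Subgroup.index_dvd_of_le le_sup_right))
  refine ⟨hBp.toSylow hBi, fun x hx y hy => ?_⟩
  have hyB : y ∈ B := hy
  have hyK : y ∈ K := by
    obtain ⟨z, -, rfl⟩ := hyB
    exact z.2
  have h1 : x * y * x⁻¹ * y⁻¹ ∈ N := hcK x hx y hyK
  have h2 : x * y * x⁻¹ ∈ B := (Subgroup.mem_normalizer_iff.1 (hQ₃ hx) y).1 hyB
  have h3 : x * y * x⁻¹ * y⁻¹ ∈ B := B.mul_mem h2 (B.inv_mem hyB)
  have hcc : (Nat.card N).Coprime (Nat.card B) := by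
    obtain ⟨k, hk⟩ := IsPGroup.iff_card.1 hBp
    rw [hk]
    exact Nat.Coprime.pow_right k hNq
  have h5 := eq_one_of_mem_of_coprime hcc h1 h3
  calc x * y = x * y * x⁻¹ * y⁻¹ * (y * x) := by group
    _ = y * x := by rw [h5, one_mul]

/-- Step 2: the abelian normal `q`-subgroup. -/
theorem step_abelian (hpq : p ≠ q) (hps : IsPSolvable p G) (hqs : IsPSolvable q G) (H : Hyp q p G)
    (V : Subgroup G) [hV : V.Normal] (hab : ∀ a ∈ V, ∀ b ∈ V, a * b = b * a) (hVq : IsPGroup q V)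
    (P : Sylow p G) (Q : Sylow q G)
    (hc : ∀ x ∈ (P : Subgroup G), ∀ y ∈ (Q : Subgroup G), x * y * x⁻¹ * y⁻¹ ∈ V) :
    ∀ x ∈ (P : Subgroup G), ∀ y ∈ (Q : Subgroup G), x * y = y * x := by
  classical
  have hp : p.Prime := Fact.out
  have hq : q.Prime := Fact.out
  set N := pPrimeCore q G with hNdef
  haveI hN : N.Normal := pPrimeCore_normal q G
  let π : G →* G ⧸ N := QuotientGroup.mk' N
  have hπ : Function.Surjective π := QuotientGroup.mk'_surjective N
  have hker : ∀ g, π g = 1 ↔ g ∈ N := fun g => QuotientGroup.eq_one_iff g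
  let V' : Subgroup (G ⧸ N) := V.map π
  haveI hV' : V'.Normal := Subgroup.Normal.map hV _ hπ
  have hab' : ∀ a ∈ V', ∀ b ∈ V', a * b = b * a := by
    rintro _ ⟨a, ha, rfl⟩ _ ⟨b, hb, rfl⟩
    rw [← map_mul, ← map_mul, hab a ha b hb]
  have hVq' : IsPGroup q V' := hVq.map _
  let P' : Sylow p (G ⧸ N) := P.mapSurjective hπ
  let Q' : Sylow q (G ⧸ N) := Q.mapSurjective hπ
  have hc' : ∀ x ∈ (P' : Subgroup (G ⧸ N)), ∀ y ∈ (Q' : Subgroup (G ⧸ N)), x * y * x⁻¹ * y⁻¹ ∈ V' := by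
    intro x hx y hy
    obtain ⟨a, ha, rfl⟩ := Subgroup.mem_map.1 hx
    obtain ⟨b, hb, rfl⟩ := Subgroup.mem_map.1 hy
    refine ⟨_, hc a ha b hb, ?_⟩
    simp
  have hkey := centralizes_of_comm_le hpq (isPSolvable_quotient hps N) (isPSolvable_quotient hqs N) (qpdeg_of_hyp H) V'
    hab' hVq' P' Q' hc'
  have hcc : (Nat.card N).Coprime (Nat.card V) := by
    obtain ⟨k, hk⟩ := IsPGroup.iff_card.1 hVq
    rw [hk]
    exact Nat.Coprime.pow_right k (pPrimeCore_coprime q)
  have hPV : ∀ x ∈ (P : Subgroup G), ∀ v ∈ V, x * v = v * x := by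
    intro x hx v hv
    have h1 := hkey (π x) ⟨x, hx, rfl⟩ (π v) ⟨v, hv, rfl⟩
    have h2 : x * v * x⁻¹ * v⁻¹ ∈ N := by
      rw [← hker]
      simp only [map_mul, map_inv, h1]
      group
    have h3 : x * v * x⁻¹ * v⁻¹ ∈ V := by
      have h4 : x * v * x⁻¹ * v⁻¹ = (x * v * x⁻¹) * v⁻¹ := rfl
      rw [h4]
      exact V.mul_mem (hV.conj_mem v hv x) (V.inv_mem hv)
    have h5 := eq_one_of_mem_of_coprime hcc h2 h3
    calc x * v = x * v * x⁻¹ * v⁻¹ * (v * x) := by group
      _ = v * x := by rw [h5, one_mul]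
  intro x hx y hy
  set c := x * y * x⁻¹ * y⁻¹ with hcdef
  have hcV : c ∈ V := hc x hx y hy
  have hcx : x * c = c * x := hPV x hx c hcV
  have hxc : Commute x c := hcx
  have hpow : ∀ k : ℕ, x ^ k * y = c ^ k * y * x ^ k := by
    intro k
    induction k with
    | zero => simp
    | succ k ih =>
      have h1 : x * y = c * y * x := by
        rw [hcdef]
        group
      calc x ^ (k + 1) * y = x * (x ^ k * y) := by rw [pow_succ', mul_assoc]
        _ = x * (c ^ k * y * x ^ k) := by rw [ih]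
        _ = (x * c ^ k) * y * x ^ k := by group
        _ = (c ^ k * x) * y * x ^ k := by rw [(hxc.pow_right k).eq]
        _ = c ^ k * (x * y) * x ^ k := by group
        _ = c ^ k * (c * y * x) * x ^ k := by rw [h1]
        _ = c ^ (k + 1) * y * x ^ (k + 1) := by
            rw [pow_succ, pow_succ']
            group
  obtain ⟨a, ha⟩ := exists_pow_eq_one_of_mem P.isPGroup' hx
  obtain ⟨b, hb⟩ := exists_pow_eq_one_of_mem hVq hcV
  have h6 := hpow (p ^ a)
  rw [ha, one_mul, mul_one] at h6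
  have h7 : c ^ (p ^ a) = 1 := by
    have h8 : c ^ (p ^ a) * y = 1 * y := by rw [one_mul]; exact h6.symm
    exact mul_right_cancel h8
  have h9 : orderOf c ∣ p ^ a := orderOf_dvd_of_pow_eq_one h7
  have h10 : orderOf c ∣ q ^ b := orderOf_dvd_of_pow_eq_one hb
  have h11 : Nat.Coprime (p ^ a) (q ^ b) := Nat.Coprime.pow a b ((Nat.coprime_primes hp hq).2 hpq)
  have h12 : c = 1 := orderOf_eq_one_iff.1 (Nat.eq_one_of_dvd_coprimes h11 h9 h10)
  calc x * y = c * (y * x) := by rw [hcdef]; group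
    _ = y * x := by rw [h12, one_mul]

/-- If the `{p,q}'`-core is trivial then `O_p(G)` or `O_q(G)` is nontrivial. -/
theorem exists_core_ne_bot (hps : IsPSolvable p G) (hqs : IsPSolvable q G) [Nontrivial G]
    (hR : pPrimeCore p G ⊓ pPrimeCore q G = ⊥) : pCore p G ≠ ⊥ ∨ pCore q G ≠ ⊥ := by
  classical
  by_contra hcon
  push Not at hcon
  obtain ⟨h1, h2⟩ := hcon
  have h3 : pPrimeCore p G ≠ ⊥ := (isPSolvable_core_ne_bot hps).resolve_left (by simpa using h1)
  set A := pPrimeCore p G with hAdef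
  haveI hAn : A.Normal := pPrimeCore_normal p G
  haveI : Nontrivial A := (Subgroup.nontrivial_iff_ne_bot A).2 h3
  have hA : IsPSolvable q A := isPSolvable_subgroup hqs A
  rcases isPSolvable_core_ne_bot hA with h4 | h4
  · apply h4
    haveI := pCore_char q A
    have h5 : (pCore q A).map A.subtype ≤ pCore q G :=
      le_pCore (map_subtype_normal_of_characteristic (N := A) (pCore q A)) ((pCore_isPGroup q).map _)
    rw [h2] at h5
    exact (Subgroup.map_eq_bot_iff_of_injective _ A.subtype_injective).1 (le_bot_iff.1 h5)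
  · apply h4
    haveI := pPrimeCore_char q A
    have h5 : (pPrimeCore q A).map A.subtype ≤ pPrimeCore q G :=
      le_pPrimeCore (map_subtype_normal_of_characteristic (N := A) (pPrimeCore q A))
        (Nat.Coprime.coprime_dvd_left (Subgroup.card_map_dvd _ _) (pPrimeCore_coprime q))
    have h6 : (pPrimeCore q A).map A.subtype ≤ A := Subgroup.map_subtype_le _
    have h7 := le_inf h6 h5
    rw [hR] at h7
    exact (Subgroup.map_eq_bot_iff_of_injective _ A.subtype_injective).1 (le_bot_iff.1 h7)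

/-- The centre of `O_r(G)`. -/
theorem exists_abelian_normal {r : ℕ} [hr : Fact r.Prime] (h : pCore r G ≠ ⊥) :
    ∃ V : Subgroup G, V.Normal ∧ V ≠ ⊥ ∧ IsPGroup r V ∧ ∀ a ∈ V, ∀ b ∈ V, a * b = b * a := by
  classical
  set C := pCore r G with hCdef
  haveI hCn : C.Normal := pCore_normal r G
  haveI : Nontrivial C := (Subgroup.nontrivial_iff_ne_bot C).2 h
  have hCp : IsPGroup r C := pCore_isPGroup r
  refine ⟨(Subgroup.center C).map C.subtype, map_subtype_normal_of_characteristic (N := C) _, ?_, ?_, ?_⟩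
  · intro h0
    have h1 := (Subgroup.map_eq_bot_iff_of_injective _ C.subtype_injective).1 h0
    haveI := hCp.center_nontrivial
    exact (Subgroup.nontrivial_iff_ne_bot _).1 inferInstance h1
  · exact (hCp.to_subgroup _).map _
  · rintro _ ⟨a, ha, rfl⟩ _ ⟨b, hb, rfl⟩
    have := Subgroup.mem_center_iff.1 ha b
    exact (congrArg Subtype.val this).symm

/-- **Main theorem.** -/
theorem exists_commuting : ∀ (n : ℕ) (G : Type u) [Group G] [Finite G] (p q : ℕ) [Fact p.Prime] [Fact q.Prime],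
    Nat.card G = n → p ≠ q → IsPSolvable p G → IsPSolvable q G → Hyp p q G → Hyp q p G →
    ∃ (P : Sylow p G) (Q : Sylow q G), ∀ x ∈ (P : Subgroup G), ∀ y ∈ (Q : Subgroup G), x * y = y * x := by
  intro n
  induction n using Nat.strong_induction_on with
  | _ n ih =>
  intro G _ _ p q _ _ hn hpq hps hqs H1 H2
  classical
  have hquot : ∀ (N : Subgroup G) [N.Normal], N ≠ ⊥ → ∃ (P : Sylow p G) (Q : Sylow q G),
      ∀ x ∈ (P : Subgroup G), ∀ y ∈ (Q : Subgroup G), x * y * x⁻¹ * y⁻¹ ∈ N := by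
    intro N _ hN
    have hlt : Nat.card (G ⧸ N) < n := by
      have h1 : Nat.card N * N.index = Nat.card G := Subgroup.card_mul_index N
      have h2 : 1 < Nat.card N := by
        haveI : Nontrivial N := (Subgroup.nontrivial_iff_ne_bot N).2 hN
        exact Finite.one_lt_card
      have h3 : 0 < N.index := Nat.pos_of_ne_zero Subgroup.index_ne_zero_of_finite
      have h4 : Nat.card (G ⧸ N) = N.index := rfl
      rw [h4, ← hn, ← h1]
      nlinarith
    obtain ⟨Pb, Qb, hc⟩ := ih _ hlt (G ⧸ N) p q rfl hpq (isPSolvable_quotient hps N) (isPSolvable_quotient hqs N)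
      (H1.quotient N) (H2.quotient N)
    obtain ⟨P, hP⟩ := exists_sylow_map_eq N Pb
    obtain ⟨Q, hQ⟩ := exists_sylow_map_eq N Qb
    refine ⟨P, Q, fun x hx y hy => ?_⟩
    have h1 : QuotientGroup.mk' N x ∈ (Pb : Subgroup (G ⧸ N)) := by
      rw [← hP]
      exact ⟨x, hx, rfl⟩
    have h2 : QuotientGroup.mk' N y ∈ (Qb : Subgroup (G ⧸ N)) := by
      rw [← hQ]
      exact ⟨y, hy, rfl⟩
    have h3 := hc _ h1 _ h2
    rw [← QuotientGroup.eq_one_iff]
    have h4 : ((x * y * x⁻¹ * y⁻¹ : G) : G ⧸ N) =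
      QuotientGroup.mk' N x * QuotientGroup.mk' N y * (QuotientGroup.mk' N x)⁻¹ * (QuotientGroup.mk' N y)⁻¹ := by
      simp
    rw [h4, h3]
    group
  by_cases hR : pPrimeCore p G ⊓ pPrimeCore q G = ⊥
  · by_cases hnt : Nontrivial G
    · rcases exists_core_ne_bot hps hqs hR with h | h
      · obtain ⟨V, hVn, hV, hVp, hab⟩ := exists_abelian_normal h
        haveI := hVn
        obtain ⟨P, Q, hc⟩ := hquot V hV
        have hc' : ∀ y ∈ (Q : Subgroup G), ∀ x ∈ (P : Subgroup G), y * x * y⁻¹ * x⁻¹ ∈ V := by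
          intro y hy x hx
          have h1 := V.inv_mem (hc x hx y hy)
          have h2 : (x * y * x⁻¹ * y⁻¹)⁻¹ = y * x * y⁻¹ * x⁻¹ := by group
          rwa [h2] at h1
        have h3 := step_abelian hpq.symm hqs hps H1 V hab hVp Q P hc'
        exact ⟨P, Q, fun x hx y hy => (h3 y hy x hx).symm⟩
      · obtain ⟨V, hVn, hV, hVq, hab⟩ := exists_abelian_normal h
        haveI := hVn
        obtain ⟨P, Q, hc⟩ := hquot V hV
        exact ⟨P, Q, step_abelian hpq hps hqs H2 V hab hVq P Q hc⟩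
    · rw [not_nontrivial_iff_subsingleton] at hnt
      exact ⟨default, default, fun x _ y _ => Subsingleton.elim _ _⟩
  · obtain ⟨P, Q, hc⟩ := hquot _ hR
    have hRp : (Nat.card (pPrimeCore p G ⊓ pPrimeCore q G : Subgroup G)).Coprime p :=
      Nat.Coprime.coprime_dvd_left (Subgroup.card_dvd_of_le inf_le_left) (pPrimeCore_coprime p)
    have hRq : (Nat.card (pPrimeCore p G ⊓ pPrimeCore q G : Subgroup G)).Coprime q :=
      Nat.Coprime.coprime_dvd_left (Subgroup.card_dvd_of_le inf_le_right) (pPrimeCore_coprime q)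
    obtain ⟨Q₁, h⟩ := step_coprime hpq _ hRq hRp P Q hc
    exact ⟨P, Q₁, h⟩

end Cfsg.Agent.Lib.Blocks.TPB
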