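import Mathlib
import Cfsg.Agent.Lib.Blocks.TPB5
import Cfsg.Agent.Lib.Blocks.Fong
import Cfsg.Agent.Lib.Blocks.PrincipalCen
import Cfsg.Agent.Lib.Char.B0Core

/-!
# Two primes and the principal blocks: translation to principal blocks
-/

set_option autoImplicit false
set_option linter.unusedSectionVars false
set_option linter.unusedVariables false
set_option linter.style.haveILetI false

namespace Cfsg.Agent.Lib.Blocks.TPB

open Cfsg Cfsg.Agent.Lib.Char.Basic Cfsg.Agent.Lib.Char.Ortho Cfsg.Agent.Lib.Char.Monomial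
  Cfsg.Agent.Lib.Solvable.PSeries Cfsg.Agent.Lib.Basic.PCore Cfsg.Agent.Lib.Blocks.Osima
  Cfsg.Agent.Lib.Blocks.Covering
open scoped ComplexConjugate

universe u

variable {G : Type u} [Group G] [Fintype G] {p q : ℕ} [hpf : Fact p.Prime] [hqf : Fact q.Prime]
  {M : Ideal AlgInt}

/-- A character trivial on `O_{p'}(G)` lies in the principal `p`-block of a `p`-solvable group. -/
theorem mem_principal_of_trivial (hM : IsPModular p M) (hps : IsPSolvable p G) (χ : IrrCharacter G)
    (hχ : ∀ n ∈ pPrimeCore p G, (χ : G → ℂ) n = (χ : G → ℂ) 1) : χ ∈ principalBlock M G := by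
  classical
  haveI hMp := Cfsg.Agent.Lib.Blocks.Local.isPrime_of_isPModular hM
  have hKp : ¬ p ∣ Nat.card (pPrimeCore p G) := fun h =>
    (Nat.Prime.coprime_iff_not_dvd (Fact.out : p.Prime)).1 (pPrimeCore_coprime (G := G) p).symm h
  have hL : ∃ k : ℕ, (pPrimeCore p G).relIndex (pPrimePCore p G) = p ^ k := relIndex_stepP (pPrimeCore p G)
  have hKL : pPrimeCore p G ≤ pPrimePCore p G := le_stepP p (pPrimeCore p G)
  haveI hLn : (pPrimePCore p G).Normal := stepP_normal p (pPrimeCore p G)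
  obtain ⟨Q₀⟩ : Nonempty (Sylow p (pPrimePCore p G)) := inferInstance
  set Q : Subgroup G := (Q₀ : Subgroup (pPrimePCore p G)).map (pPrimePCore p G).subtype with hQdef
  have hQL : Q ≤ pPrimePCore p G := by
    rintro _ ⟨x, -, rfl⟩
    exact x.2
  have hQp : IsPGroup p Q := Q₀.isPGroup'.map _
  have hQS : ¬ p ∣ Q.relIndex (pPrimePCore p G) := by
    have h1 : Q.relIndex (pPrimePCore p G) = (Q₀ : Subgroup (pPrimePCore p G)).index := by
      show ((Q₀ : Subgroup (pPrimePCore p G)).map (pPrimePCore p G).subtype).relIndex (pPrimePCore p G) = _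
      unfold Subgroup.relIndex Subgroup.subgroupOf
      rw [Subgroup.comap_map_eq_self_of_injective (pPrimePCore p G).subtype_injective]
    rw [h1]
    exact Q₀.not_dvd_index
  have hCQ := Cfsg.Agent.Lib.Blocks.Fong.centralizer_sylow_le hps hQL hQp hQS
  haveI : Fintype (pPrimeCore p G) := Fintype.ofFinite _
  let θ : IrrCharacter (pPrimeCore p G) := Cfsg.Agent.Lib.Blocks.Principal.trivChar _
  have hinv : ∀ g : G, conjIrr g θ = θ := by
    intro g
    apply Subtype.ext
    funext k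
    rw [conjIrr_apply]
    rfl
  obtain ⟨B, hB, hBmem, -⟩ := Cfsg.Agent.Lib.Blocks.Fong.fong_main hM hKp hKL hL hQL hQp hQS hCQ hinv
  have hinner : ∀ ξ : IrrCharacter G, (∀ n ∈ pPrimeCore p G, (ξ : G → ℂ) n = (ξ : G → ℂ) 1) →
      classInner (fun k : pPrimeCore p G => (ξ : G → ℂ) k) (θ : pPrimeCore p G → ℂ) ≠ 0 := by
    intro ξ hξ
    have h1 : (fun k : pPrimeCore p G => (ξ : G → ℂ) k) = fun _ => (ξ : G → ℂ) 1 := funext fun k => hξ k k.2
    rw [h1]
    have h2 : classInner (fun _ : pPrimeCore p G => (ξ : G → ℂ) 1) (θ : pPrimeCore p G → ℂ) = (ξ : G → ℂ) 1 := by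
      unfold classInner
      have h3 : ∀ k : pPrimeCore p G, (ξ : G → ℂ) 1 * conj ((θ : pPrimeCore p G → ℂ) k) = (ξ : G → ℂ) 1 := by
        intro k
        show (ξ : G → ℂ) 1 * conj (1 : ℂ) = _
        simp
      simp only [h3, Finset.sum_const, Finset.card_univ, nsmul_eq_mul, Nat.card_eq_fintype_card]
      have h4 : (Fintype.card (pPrimeCore p G) : ℂ) ≠ 0 := by
        exact_mod_cast Fintype.card_ne_zero
      field_simp
    rw [h2]
    exact irr_apply_one_ne_zero ξ.2
  have h1 : Cfsg.Agent.Lib.Blocks.Principal.trivChar G ∈ B := (hBmem _).2 (hinner _ (fun _ _ => rfl))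
  have h2 : χ ∈ B := (hBmem _).2 (hinner _ hχ)
  obtain ⟨ξ, rfl⟩ := hB
  have h3 := blockOf_eq_of_mem h1
  rw [Cfsg.Agent.Lib.Blocks.Principal.principalBlock_eq, h3]
  exact h2

theorem hyp_of_block (hM : IsPModular p M) (hps : IsPSolvable p G)
    (h : ∀ χ : IrrCharacter G, χ ∈ principalBlock M G → ¬ p ∣ charDegree (χ : G → ℂ) → ¬ q ∣ charDegree (χ : G → ℂ)) :
    Hyp p q G := fun χ hχ => h χ (mem_principal_of_trivial hM hps χ hχ)

/-- A principal block character has degree prime to `q` if `O_{p'}(G)` contains a Sylow `q`-subgroup. -/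
theorem not_dvd_of_principal (hM : IsPModular p M) {χ : IrrCharacter G} (hχ : χ ∈ principalBlock M G) (Q : Sylow q G)
    (hQ : (Q : Subgroup G) ≤ pPrimeCore p G) : ¬ q ∣ charDegree (χ : G → ℂ) := by
  classical
  haveI hMp := Cfsg.Agent.Lib.Blocks.Local.isPrime_of_isPModular hM
  have hKp : ¬ p ∣ Nat.card (pPrimeCore p G) := fun h =>
    (Nat.Prime.coprime_iff_not_dvd (Fact.out : p.Prime)).1 (pPrimeCore_coprime (G := G) p).symm h
  haveI : Fintype (G ⧸ pPrimeCore p G) := Fintype.ofFinite _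
  obtain ⟨ψ, rfl⟩ := Cfsg.Agent.Lib.Char.B0Core.exists_infl (pPrimeCore p G) hM hKp hχ
  obtain ⟨d, hd1, -, hd3⟩ := Cfsg.Agent.Lib.Char.GlaubOver.exists_degree_dvd ψ.2
  have h5 : charDegree ((Cfsg.Agent.Lib.Char.B0Core.infl (pPrimeCore p G) ψ : IrrCharacter G) : G → ℂ) = d := by
    unfold charDegree
    have h7 : (Cfsg.Agent.Lib.Char.B0Core.infl (pPrimeCore p G) ψ : G → ℂ) 1 = (d : ℂ) := by
      rw [Cfsg.Agent.Lib.Char.B0Core.infl_apply, ← hd1]
      rfl
    rw [h7]
    simp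
  rw [h5]
  intro h
  have h6 : q ∣ (pPrimeCore p G).index := h.trans hd3
  exact Q.not_dvd_index (h6.trans (Subgroup.index_dvd_of_le hQ))

end Cfsg.Agent.Lib.Blocks.TPB
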