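import Mathlib
import Cfsg.Agent.Lib.Blocks.TPB6

/-!
# Two primes and the principal blocks: the sets of height zero characters determine the prime
-/

set_option autoImplicit false
set_option linter.unusedSectionVars false
set_option linter.unusedVariables false
set_option linter.style.haveILetI false

namespace Cfsg.Agent.Lib.Blocks.TPB

open Cfsg Cfsg.Agent.Lib.Char.Basic Cfsg.Agent.Lib.Char.Ortho Cfsg.Agent.Lib.Char.Monomial
  Cfsg.Agent.Lib.Solvable.PSeries Cfsg.Agent.Lib.Basic.PCore Cfsg.Agent.Lib.Blocks.Osima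
  Cfsg.Agent.Lib.Blocks.Covering Cfsg.Agent.Lib.Char.LinearChars
open scoped ComplexConjugate

universe u

variable {G : Type u} [Group G] [Fintype G] {p q : ℕ} [hpf : Fact p.Prime] [hqf : Fact q.Prime]
  {M : Ideal AlgInt}

/-- If `p` divides `|G|` and `P ≤ O_{q'}(G)`, there is a `p'`-degree character of `G / O_{p'}(G)` nontrivial on `P`. -/
theorem exists_char_nontrivial_on_sylow (hpd : p ∣ Nat.card G) (P : Sylow p G) :
    ∃ χ : IrrCharacter G, (∀ n ∈ pPrimeCore p G, (χ : G → ℂ) n = (χ : G → ℂ) 1) ∧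
      ¬ p ∣ charDegree (χ : G → ℂ) ∧ ∃ x ∈ (P : Subgroup G), (χ : G → ℂ) x ≠ (χ : G → ℂ) 1 := by
  classical
  have hp : p.Prime := Fact.out
  set N := pPrimeCore p G with hNdef
  haveI hN : N.Normal := pPrimeCore_normal p G
  let π : G →* G ⧸ N := QuotientGroup.mk' N
  have hπ : Function.Surjective π := QuotientGroup.mk'_surjective N
  let Pb : Sylow p (G ⧸ N) := P.mapSurjective hπ
  have hcc : (Nat.card N).Coprime (Nat.card (P : Subgroup G)) := by
    obtain ⟨k, hk⟩ := IsPGroup.iff_card.1 P.isPGroup'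
    rw [hk]
    exact Nat.Coprime.pow_right k (pPrimeCore_coprime p)
  -- `P` is nontrivial
  have hPne : (P : Subgroup G) ≠ ⊥ := P.ne_bot_of_dvd_card hpd
  have hPbnt : (Pb : Subgroup (G ⧸ N)) ≠ ⊥ := by
    intro h
    apply hPne
    rw [eq_bot_iff]
    intro x hx
    have h1 : π x ∈ (Pb : Subgroup (G ⧸ N)) := ⟨x, hx, rfl⟩
    rw [h] at h1
    have h2 : x ∈ N := (QuotientGroup.eq_one_iff x).1 h1
    exact eq_one_of_mem_of_coprime hcc h2 hx
  haveI : Nontrivial (Pb : Subgroup (G ⧸ N)) := (Subgroup.nontrivial_iff_ne_bot _).2 hPbnt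
  haveI : Group.IsNilpotent (Pb : Subgroup (G ⧸ N)) := Pb.isPGroup'.isNilpotent
  obtain ⟨φ, hφ, -⟩ := Cfsg.Agent.Lib.Blocks.TPB.exists_hom_trivial_on (⊥ : Subgroup (Pb : Subgroup (G ⧸ N))) bot_ne_top
  haveI : Fintype (Pb : Subgroup (G ⧸ N)) := Fintype.ofFinite _
  let l : ↥(Pb : Subgroup (G ⧸ N)) → ℂ := fun s => ((φ s : ℂˣ) : ℂ)
  have hl : IsIrrCharacter ↥(Pb : Subgroup (G ⧸ N)) l := isIrr_of_hom φ
  have hdeg : ¬ p ∣ charDegree l := by
    have h1 : charDegree l = 1 := by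
      unfold charDegree
      simp [l]
    rw [h1]
    exact hp.one_lt.ne' ∘ Nat.dvd_one.1
  obtain ⟨χ, hχ1, hχ2⟩ := exists_not_dvd_constituent hp (Pb : Subgroup (G ⧸ N)) Pb.not_dvd_index hl hdeg
  refine ⟨⟨fun g => (χ : G ⧸ N → ℂ) (g : G ⧸ N),
    isIrrCharacter_comp_surjective χ.2 (QuotientGroup.mk' N) (QuotientGroup.mk'_surjective N)⟩, ?_, ?_, ?_⟩
  · intro n hn
    show (χ : G ⧸ N → ℂ) (n : G ⧸ N) = (χ : G ⧸ N → ℂ) ((1 : G) : G ⧸ N)
    rw [(QuotientGroup.eq_one_iff n).2 hn]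
    rfl
  · simpa [charDegree] using hχ1
  · by_contra hcon
    push Not at hcon
    -- `χ` is trivial on the image of `P`
    have h1 : (fun w : (Pb : Subgroup (G ⧸ N)) => (χ : G ⧸ N → ℂ) w) = (χ : G ⧸ N → ℂ) 1 • (fun _ => (1 : ℂ)) := by
      funext w
      obtain ⟨x, hx, hxw⟩ := Subgroup.mem_map.1 w.2
      have h2 := hcon x hx
      have h3 : (χ : G ⧸ N → ℂ) (x : G ⧸ N) = (χ : G ⧸ N → ℂ) ((1 : G) : G ⧸ N) := h2
      have h4 : ((x : G) : G ⧸ N) = (w : G ⧸ N) := hxw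
      rw [h4] at h3
      simpa using h3
    apply hχ2
    rw [h1]
    have h5 : (fun _ : (Pb : Subgroup (G ⧸ N)) => (1 : ℂ)) ≠ l := by
      intro h6
      apply hφ
      ext s
      have h7 := congrFun h6 s
      simpa [l] using h7.symm
    have h6 := classInner_irr_of_ne (Cfsg.Agent.Lib.Char.Burnside2.isIrrCharacter_one) hl h5
    have h7 : classInner ((χ : G ⧸ N → ℂ) 1 • (fun _ : (Pb : Subgroup (G ⧸ N)) => (1 : ℂ))) l =
        (χ : G ⧸ N → ℂ) 1 * classInner (fun _ : (Pb : Subgroup (G ⧸ N)) => (1 : ℂ)) l := by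
      unfold classInner
      simp only [Pi.smul_apply, smul_eq_mul, mul_assoc, ← Finset.mul_sum]
      ring
    rw [h7, h6, mul_zero]

end Cfsg.Agent.Lib.Blocks.TPB
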