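/-
Tame blocks: the section package of a nilpotent block.
-/
import Mathlib
import Cfsg.Agent.Lib.Blocks.NilpBij
import Cfsg.Agent.Lib.Blocks.Pairs21

set_option autoImplicit false
set_option linter.style.haveILetI false

namespace Cfsg.Agent.Lib.Blocks.Tame

open Cfsg Cfsg.Agent.Lib.Blocks.Local Cfsg.Agent.Lib.Blocks.Central Cfsg.Agent.Lib.Blocks.Osima
open Cfsg.Agent.Lib.Blocks.Covering Cfsg.Agent.Lib.Blocks.BlockHom Cfsg.Agent.Lib.Blocks.Pairs
open Cfsg.Agent.Lib.Blocks.Twisted Cfsg.Agent.Lib.Blocks.Necklace Cfsg.Agent.Lib.Blocks.Sections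
open Cfsg.Agent.Lib.Blocks.Regular Cfsg.Agent.Lib.Blocks.BlockCount Cfsg.Agent.Lib.Blocks.Nilp
open Cfsg.Agent.Lib.Char.Ortho
open scoped ComplexConjugate

universe u

section Pack

variable {K : Type u} [Group K] [Fintype K] {M : Ideal AlgInt} [hM : M.IsPrime] {p : ℕ} [hp : Fact p.Prime]

/-- The normalized Brauer character at the section of `v`. -/
noncomputable def PHI (M : Ideal AlgInt) (p : ℕ) (P : Subgroup K)
    (e : Set (IrrCharacter (Subgroup.centralizer (P : Set K)))) (χ₀ : IrrCharacter K) (v c : K) : ℂ :=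
  twTrace (χ₀ : K → ℂ) (v * c) (Ev M p P e v)

/-- The data of a nilpotent block: the characters of the block in terms of those of `P`. -/
structure NPack (M : Ideal AlgInt) [M.IsPrime] (p : ℕ) [Fact p.Prime] (b : Set (IrrCharacter K)) (P : Subgroup K)
    (e : Set (IrrCharacter (Subgroup.centralizer (P : Set K)))) (χ₀ : IrrCharacter K)
    (L : IrrCharacter K → IrrCharacter P) : Prop where
  hMp : IsPModular p M
  hmax : IsMaximalBrauerPair p M b P e
  hnil : IsNilpotentBlock p M b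
  hχ₀ : χ₀ ∈ b
  hinj : Set.InjOn L b
  hsurj : ∀ l : IrrCharacter P, ∃ ϑ ∈ b, L ϑ = l
  hsec : ∀ ϑ ∈ b, ∀ v : P, ∀ c ∈ regC p (v : K), twTrace (ϑ : K → ℂ) ((v : K) * c) (Ev M p P e v) =
    (L ϑ : P → ℂ) v * PHI M p P e χ₀ v c
  hone : ∀ v : P, (L χ₀ : P → ℂ) v = 1
  hreg : ∀ ϑ ∈ b, ∀ c : K, ¬ p ∣ orderOf c → (ϑ : K → ℂ) c = (L ϑ : P → ℂ) 1 * (χ₀ : K → ℂ) c
  hR : ((Pf P).card : ℂ) * classInner (reg p (χ₀ : K → ℂ)) (χ₀ : K → ℂ) = 1
  hker : KerZ P (χ₀ : K → ℂ)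
  hcen : ∀ ϑ ∈ b, ∀ v : P, IsCen (v : K) →
    (L ϑ : P → ℂ) v = ((ϑ : K → ℂ) v / (ϑ : K → ℂ) 1) * (L ϑ : P → ℂ) 1
  hthe : ∀ ϑ ∈ b, ∀ ψ ∈ b, ∀ v : P, wt P v * secF p (ϑ : K → ℂ) (ψ : K → ℂ) v (Ev M p P e v) =
    (L ϑ : P → ℂ) v * conj ((L ψ : P → ℂ) v)

/-- **Every nilpotent block has the data.** -/
theorem exists_npack (hMp : IsPModular p M) {b : Set (IrrCharacter K)} (hnil : IsNilpotentBlock p M b)
    {P : Subgroup K} (hP : IsDefectGroup p M b P) :
    ∃ (e : Set (IrrCharacter (Subgroup.centralizer (P : Set K)))) (χ₀ : IrrCharacter K)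
      (L : IrrCharacter K → IrrCharacter P), NPack M p b P e χ₀ L := by
  classical
  letI : Fintype P := Fintype.ofFinite _
  letI : Fintype (IrrCharacter P) := Fintype.ofFinite _
  obtain ⟨χ₀, y, e, hχ₀, hk, hy, hT, hne, hmax, h1⟩ := exists_setup hMp hnil.1 hP
  obtain ⟨φ, a, hD⟩ := exists_secD hMp hmax hnil (fun v hv =>
    letI : Fintype (Kz v) := Fintype.ofFinite _
    bpConcl_all hMp _ (Kz v) _ rfl (isNilpotentBlock_eBlk hMp hmax hnil (mem_Pnc.mp hv).1))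
  obtain ⟨hR, ha⟩ := core_of_source hMp hmax hnil hD hy hne h1 hχ₀ hk hT
  have hex : ∀ χ : IrrCharacter K, ∃ n : ℕ, χ ∈ b → reg p (χ : K → ℂ) = (n : ℂ) • reg p (χ₀ : K → ℂ) := by
    intro χ
    by_cases hχ : χ ∈ b
    · obtain ⟨d, hd, -⟩ := rank_one_core hMp hmax hnil hD hy hne h1 hχ₀ hk hT hχ
      exact ⟨d, fun _ => hd⟩
    · exact ⟨0, fun hh => absurd hh hχ⟩
  choose d hd using hex
  have h : BPData M p b P e φ a y χ₀ d := ⟨hMp, hmax, hnil, hD, hy, hne, h1, hχ₀, hk, hT, hR, ha, hd⟩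
  have hlam : ∀ χ : IrrCharacter K, ∃ l : IrrCharacter P, χ ∈ b → ∀ v : P, TT a χ₀ d χ (v : K) = (l : P → ℂ) v := by
    intro χ
    by_cases hχ : χ ∈ b
    · obtain ⟨l, hl⟩ := h.exists_lam hχ
      exact ⟨l, fun _ => hl⟩
    · obtain ⟨l, -⟩ := h.exists_lam hχ₀
      exact ⟨l, fun hh => absurd hh hχ⟩
  choose L hL using hlam
  -- `d χ₀ = 1`
  have hd₀ : d χ₀ = 1 := by
    have h2 := congrFun (hd χ₀ hχ₀) 1
    have hone : ¬ p ∣ orderOf (1 : K) := by
      rw [orderOf_one]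
      exact fun h => hp.out.one_lt.ne' (Nat.dvd_one.mp h)
    simp only [Pi.smul_apply, smul_eq_mul] at h2
    rw [reg_of_not_dvd _ hone] at h2
    have h3 := Cfsg.Agent.Lib.Char.Ortho.irr_apply_one_ne_zero χ₀.2
    have h4 : ((d χ₀ : ℕ) : ℂ) = 1 := by
      have h5 : ((d χ₀ : ℕ) : ℂ) * (χ₀ : K → ℂ) 1 = 1 * (χ₀ : K → ℂ) 1 := by rw [one_mul]; exact h2.symm
      exact mul_right_cancel₀ h3 h5
    exact_mod_cast h4
  have hTT₀ : ∀ v : K, v ∈ P → TT a χ₀ d χ₀ v = 1 := by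
    intro v hv
    by_cases hc : IsCen v
    · simp only [TT, if_pos hc]
      have h2 := hk v hv hc 1
      rw [mul_one] at h2
      rw [h2, div_self (Cfsg.Agent.Lib.Char.Ortho.irr_apply_one_ne_zero χ₀.2), hd₀]
      simp
    · simp only [TT, if_neg hc]
      exact ha v (mem_Pnc.mpr ⟨hv, hc⟩)
  have hdeg : ∀ χ ∈ b, charDegree ((L χ : IrrCharacter P) : P → ℂ) = d χ := by
    intro χ hχ
    have h1 := Cfsg.Agent.Lib.Char.Values.IsCharacter.charDegree_cast
      (Cfsg.Agent.Lib.Char.Values.IsIrrCharacter.isCharacter (L χ).2)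
    rw [← hL χ hχ 1] at h1
    simp only [OneMemClass.coe_one] at h1
    rw [h.TT_one] at h1
    exact_mod_cast h1
  have hPcard : (Pf P).card = Nat.card P := by
    rw [Nat.card_eq_fintype_card, Fintype.card_subtype]
    rfl
  have hP0 : ((Pf P).card : ℂ) ≠ 0 := by
    rw [hPcard]
    exact_mod_cast Nat.card_pos.ne'
  have hinj : Set.InjOn L b := by
    intro χ hχ ψ hψ hLe
    have hT' : ∀ v ∈ Pf P, TT a χ₀ d χ v = TT a χ₀ d ψ v := by
      intro v hv
      have h1 := hL χ hχ ⟨v, mem_Pf.mp hv⟩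
      have h2 := hL ψ hψ ⟨v, mem_Pf.mp hv⟩
      rw [hLe] at h1
      exact h1.trans h2.symm
    have h1 := h.inner_formula hχ hψ
    have h2 := h.inner_formula hψ hψ
    rw [Finset.sum_congr rfl (fun v hv => by rw [hT' v hv]), h2,
      Cfsg.Agent.Lib.Char.Ortho.classInner_irr_self ψ.2, mul_one] at h1
    have h3 : classInner (χ : K → ℂ) (ψ : K → ℂ) = 1 := by
      apply mul_left_cancel₀ hP0
      rw [← h1, mul_one]
    rw [Cfsg.Agent.Lib.Char.Ortho.classInner_irr χ.2 ψ.2] at h3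
    split_ifs at h3 with hh
    · exact Subtype.ext hh
    · exact absurd h3 zero_ne_one
  have hsurj : ∀ l : IrrCharacter P, ∃ ϑ ∈ b, L ϑ = l := by
    have h1 : ∑ l : IrrCharacter P, (charDegree (l : P → ℂ)) ^ 2 = Nat.card P := by
      have h2 := Cfsg.Agent.Lib.Char.CompleteCor.sum_sq_degrees (G := P)
      rw [← Nat.cast_inj (R := ℂ), ← h2]
      push_cast
      refine Finset.sum_congr rfl fun l _ => ?_
      rw [Cfsg.Agent.Lib.Char.Values.IsCharacter.charDegree_cast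
        (Cfsg.Agent.Lib.Char.Values.IsIrrCharacter.isCharacter l.2)]
    have h2 : ∑ χ ∈ Finset.univ.filter (· ∈ b), (d χ) ^ 2 = Nat.card P := by
      have h3 := h.sum_sq
      rw [← hPcard, ← Nat.cast_inj (R := ℂ), ← h3]
      push_cast
      rfl
    by_contra hns
    push Not at hns
    obtain ⟨l₀, hl₀⟩ := hns
    have h3 : ∑ l ∈ (Finset.univ.filter (· ∈ b)).image L, (charDegree (l : P → ℂ)) ^ 2 =
        ∑ χ ∈ Finset.univ.filter (· ∈ b), (d χ) ^ 2 := by
      rw [Finset.sum_image (fun x hx y hy hxy => hinj (Finset.mem_filter.mp hx).2 (Finset.mem_filter.mp hy).2 hxy)]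
      exact Finset.sum_congr rfl fun χ hχ => by rw [hdeg χ (Finset.mem_filter.mp hχ).2]
    have hpos : 0 < (charDegree (l₀ : P → ℂ)) ^ 2 := by
      have h4 := Cfsg.Agent.Lib.Char.Ortho.irr_apply_one_ne_zero l₀.2
      rw [← Cfsg.Agent.Lib.Char.Values.IsCharacter.charDegree_cast
        (Cfsg.Agent.Lib.Char.Values.IsIrrCharacter.isCharacter l₀.2)] at h4
      exact pow_pos (Nat.pos_of_ne_zero (by exact_mod_cast h4)) 2
    have h4 : ∑ l ∈ (Finset.univ.filter (· ∈ b)).image L, (charDegree (l : P → ℂ)) ^ 2 <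
        ∑ l : IrrCharacter P, (charDegree (l : P → ℂ)) ^ 2 :=
      Finset.sum_lt_sum_of_subset (Finset.subset_univ _) (Finset.mem_univ l₀)
      (by
        simp only [Finset.mem_image, Finset.mem_filter, Finset.mem_univ, true_and, not_exists, not_and]
        exact fun χ hχ he => hl₀ χ hχ he) hpos (fun _ _ _ => Nat.zero_le _)
    omega
  have hdone : ∀ χ ∈ b, (L χ : P → ℂ) 1 = (d χ : ℂ) := by
    intro χ hχ
    rw [← hL χ hχ 1]
    simp only [OneMemClass.coe_one]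
    exact h.TT_one χ
  refine ⟨e, χ₀, L, ⟨hMp, hmax, hnil, hχ₀, hinj, hsurj, ?_, ?_, ?_, ?_, hk, ?_, ?_⟩⟩
  · -- sections
    intro ϑ hϑ v c hc
    have hvP := v.2
    rw [← hL ϑ hϑ v, PHI]
    by_cases hcen : IsCen (v : K)
    · have hc' : ¬ p ∣ orderOf c := ((mem_regC_of_cen hcen).mp hc)
      rw [twTrace_Ev_central hMp hmax hϑ hvP hcen hc', twTrace_Ev_central hMp hmax hχ₀ hvP hcen hc']
      simp only [TT, if_pos hcen]
      rw [central_mul hcen, central_mul hcen]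
      have h2 := congrFun (hd ϑ hϑ) c
      simp only [Pi.smul_apply, smul_eq_mul] at h2
      rw [reg_of_not_dvd _ hc', reg_of_not_dvd _ hc'] at h2
      have h3 := hk v hvP hcen 1
      rw [mul_one] at h3
      have hn1 := Cfsg.Agent.Lib.Char.Ortho.irr_apply_one_ne_zero χ₀.2
      have hn2 := Cfsg.Agent.Lib.Char.Ortho.irr_apply_one_ne_zero ϑ.2
      rw [h2, h3]
      field_simp
    · have hv' : (v : K) ∈ Pnc P := mem_Pnc.mpr ⟨hvP, hcen⟩
      simp only [TT, if_neg hcen]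
      rw [hD.sec _ hv' ϑ c hc, hD.sec _ hv' χ₀ c hc]
      have h2 := ha _ hv'
      calc a ϑ v * φ v c = a ϑ v * (a χ₀ v * conj (a χ₀ v)) * φ v c := by rw [h2, mul_one]
        _ = _ := by ring
  · intro v
    rw [← hL χ₀ hχ₀ v]
    exact hTT₀ _ v.2
  · intro ϑ hϑ c hc
    have h2 := congrFun (hd ϑ hϑ) c
    simp only [Pi.smul_apply, smul_eq_mul] at h2
    rw [reg_of_not_dvd _ hc, reg_of_not_dvd _ hc] at h2
    rw [hdone ϑ hϑ, h2]
  · exact hR
  · intro ϑ hϑ v hcen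
    rw [hdone ϑ hϑ, ← hL ϑ hϑ v]
    simp only [TT, if_pos hcen]
  · intro ϑ hϑ ψ hψ v
    rw [h.theta hϑ hψ (mem_Pf.mpr v.2), hL ϑ hϑ v, hL ψ hψ v]

namespace NPack

variable {b : Set (IrrCharacter K)} {P : Subgroup K} {e : Set (IrrCharacter (Subgroup.centralizer (P : Set K)))}
  {χ₀ : IrrCharacter K} {L : IrrCharacter K → IrrCharacter P} (H : NPack M p b P e χ₀ L)
include H

/-- The elements of `P` are `p`-elements. -/
lemma pow_eq_one (v : P) : ∃ k : ℕ, (v : K) ^ (p ^ k) = 1 := by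
  obtain ⟨k, hk⟩ := H.hmax.1.1.1 v
  refine ⟨k, ?_⟩
  have := congrArg Subtype.val hk
  simpa using this

lemma isPBlock_f (v : P) : IsPBlock M (eBlk M p P e (v : K)) :=
  isPBlock_eBlk H.hMp H.hmax.1.1 v.2

/-- The pair below `(P, e)` is a pair of the block. -/
lemma isPair (v : P) : IsBrauerPairOf p M b (Subgroup.zpowers (v : K)) (eBlk M p P e (v : K)) := by
  have hPe := H.hmax.1.1
  have hle := eBlk_spec H.hMp hPe v.2
  exact (isBrauerPairOf_iff_of_subpairLE H.hMp (isBrauerPair_of_subpairLE hPe hle) hle).mp H.hmax.1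

/-- The section of a character outside the block vanishes. -/
lemma twTrace_eq_zero {ϑ : IrrCharacter K} (hϑ : ϑ ∉ b) (v : P) {c : K} (hc : c ∈ regC p (v : K)) :
    twTrace (ϑ : K → ℂ) ((v : K) * c) (Ev M p P e v) = 0 := by
  obtain ⟨k, hk⟩ := H.pow_eq_one v
  refine twTrace_EE_eq_zero_of_not_pair H.hMp (B := blockOf M (ϑ : K → ℂ)) ⟨ϑ, rfl⟩ (mem_blockOf_self ϑ) hk
    (H.isPBlock_f v) (fun hpair => hϑ ?_) hc
  have h1 := Cfsg.Agent.Lib.Blocks.Pairs.isInducedBlock_of_brauerPair H.hMp hpair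
  have h2 := Cfsg.Agent.Lib.Blocks.Pairs.isInducedBlock_of_brauerPair H.hMp (H.isPair v)
  have h3 := Cfsg.Agent.Lib.Blocks.FirstMain2.induced_unique h1 h2
  rw [← h3]
  exact mem_blockOf_self ϑ

omit H in
lemma wt_conj (v : K) : conj (wt P v) = wt P v := by
  simp [wt, map_div₀, Complex.conj_natCast]

/-- The coefficient of a function at the section of `v`. -/
noncomputable def Cf (M : Ideal AlgInt) (p : ℕ) (P : Subgroup K)
    (e : Set (IrrCharacter (Subgroup.centralizer (P : Set K)))) (χ₀ : IrrCharacter K) (t : K → ℂ) (v : K) : ℂ :=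
  wt P v * ∑ c ∈ regC p v, t (v * c) * conj (PHI M p P e χ₀ v c)

/-- The coefficient in terms of the form at the pair. -/
lemma Cf_eq_secF {t : K → ℂ} (ht : IsClassFunction K t) (v : P) :
    Cf M p P e χ₀ t v = wt P v * secF p t (χ₀ : K → ℂ) v (Ev M p P e v) := by
  classical
  rw [Cf, secF]
  congr 1
  have h1 : ∀ c, t ((v : K) * c) * conj (PHI M p P e χ₀ v c) = ∑ f : Blk M (Kz (v : K)),
      twTrace t ((v : K) * c) (EE (Kz (v : K)) f.1) * conj (PHI M p P e χ₀ v c) := by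
    intro c
    conv_lhs => rw [sum_twTrace_EE (M := M) (Kz (v : K)) t ((v : K) * c)]
    rw [Finset.sum_mul]
  simp only [h1]
  rw [Finset.sum_comm, Finset.sum_eq_single (⟨eBlk M p P e (v : K), H.isPBlock_f v⟩ : Blk M (Kz (v : K)))]
  · rfl
  · intro f _ hne
    refine sum_regC_twTrace_EE_eq_zero H.hMp ht (isClassFunction_of_irr χ₀.2) f.2 (H.isPBlock_f v) ?_
    intro h
    exact hne (Subtype.ext h)
  · intro h
    exact absurd (Finset.mem_univ _) h

omit H in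
lemma Cf_add (t t' : K → ℂ) (v : K) :
    Cf M p P e χ₀ (t + t') v = Cf M p P e χ₀ t v + Cf M p P e χ₀ t' v := by
  simp only [Cf, Pi.add_apply, add_mul, Finset.sum_add_distrib, mul_add]

omit H in
lemma Cf_smul (a : ℂ) (t : K → ℂ) (v : K) :
    Cf M p P e χ₀ (a • t) v = a * Cf M p P e χ₀ t v := by
  simp only [Cf, Pi.smul_apply, smul_eq_mul, Finset.mul_sum]
  refine Finset.sum_congr rfl fun c _ => ?_
  ring

omit H in
lemma Cf_sum {ι : Type*} (S : Finset ι) (a : ι → ℂ) (t : ι → K → ℂ) (v : K) :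
    Cf M p P e χ₀ (fun g => ∑ i ∈ S, a i * t i g) v = ∑ i ∈ S, a i * Cf M p P e χ₀ (t i) v := by
  simp only [Cf, Finset.mul_sum, Finset.sum_mul]
  rw [Finset.sum_comm]
  refine Finset.sum_congr rfl fun i _ => Finset.sum_congr rfl fun c _ => ?_
  ring

/-- The coefficient of a member of the block. -/
lemma Cf_mem {ϑ : IrrCharacter K} (hϑ : ϑ ∈ b) (v : P) : Cf M p P e χ₀ (ϑ : K → ℂ) v = (L ϑ : P → ℂ) v := by
  rw [H.Cf_eq_secF (isClassFunction_of_irr ϑ.2), H.hthe ϑ hϑ χ₀ H.hχ₀ v, H.hone, map_one, mul_one]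

/-- The coefficient of a character outside the block. -/
lemma Cf_not {ϑ : IrrCharacter K} (hϑ : ϑ ∉ b) (v : P) : Cf M p P e χ₀ (ϑ : K → ℂ) v = 0 := by
  rw [H.Cf_eq_secF (isClassFunction_of_irr ϑ.2), secF]
  rw [Finset.sum_eq_zero, mul_zero]
  intro c hc
  rw [H.twTrace_eq_zero hϑ v hc, zero_mul]

open Classical in
/-- The coefficient of a class function. -/
lemma Cf_class {t : K → ℂ} (ht : IsClassFunction K t) (v : P) :
    Cf M p P e χ₀ t v = ∑ ϑ ∈ Finset.univ.filter (· ∈ b), classInner t (ϑ : K → ℂ) * (L ϑ : P → ℂ) v := by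
  classical
  have h1 : t = fun g => ∑ τ : IrrCharacter K, classInner t (τ : K → ℂ) * (τ : K → ℂ) g := by
    funext g
    conv_lhs => rw [Cfsg.Agent.Lib.Char.Complete.eq_sum_classInner t ht]
    simp
  conv_lhs => rw [h1]
  rw [Cf_sum, Finset.sum_filter]
  refine Finset.sum_congr rfl fun τ _ => ?_
  by_cases hτ : τ ∈ b
  · rw [if_pos hτ, H.Cf_mem hτ]
  · rw [if_neg hτ, H.Cf_not hτ, mul_zero]

/-- The adjunction between the characters of the block and those of `P`. -/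
theorem sum_mul_conj [Fintype P] {ϑ : IrrCharacter K} (hϑ : ϑ ∈ b) {t : K → ℂ} (ht : IsClassFunction K t) :
    ((Fintype.card K : ℕ) : ℂ) * ∑ v : P, (L ϑ : P → ℂ) v * conj (Cf M p P e χ₀ t v) =
      ((Pf P).card : ℂ) * ∑ g : K, (ϑ : K → ℂ) g * conj (t g) := by
  classical
  rw [← sum_wt_secF H.hMp H.hmax H.hnil hϑ ht]
  congr 1
  rw [← sum_subgroup_eq_Pf (P := P) (fun v => wt P v * secF p (ϑ : K → ℂ) t v (Ev M p P e v))]
  refine Finset.sum_congr rfl fun v _ => ?_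
  rw [H.Cf_eq_secF ht, map_mul, wt_conj, mul_left_comm]
  congr 1
  simp only [secF, map_sum, map_mul, Complex.conj_conj, Finset.mul_sum]
  refine Finset.sum_congr rfl fun c hc => ?_
  rw [H.hsec ϑ hϑ v c hc, PHI]
  ring

end NPack

end Pack

end Cfsg.Agent.Lib.Blocks.Tame
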