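/-
Tame blocks: the passage from the centralizer of an involution to the group.
-/
import Mathlib
import Cfsg.Agent.Lib.Blocks.TameA
import Cfsg.Agent.Lib.Blocks.TameB
import Cfsg.Agent.Lib.Blocks.MajorSub2

set_option autoImplicit false
set_option linter.style.haveILetI false

namespace Cfsg.Agent.Lib.Blocks.Tame

open Cfsg Cfsg.Agent.Lib.Blocks.Local Cfsg.Agent.Lib.Blocks.Central Cfsg.Agent.Lib.Blocks.Osima
open Cfsg.Agent.Lib.Blocks.Covering Cfsg.Agent.Lib.Blocks.BlockHom Cfsg.Agent.Lib.Blocks.Pairs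
open Cfsg.Agent.Lib.Blocks.Twisted Cfsg.Agent.Lib.Blocks.Necklace Cfsg.Agent.Lib.Blocks.Sections
open Cfsg.Agent.Lib.Blocks.Regular Cfsg.Agent.Lib.Blocks.BlockCount Cfsg.Agent.Lib.Blocks.Nilp
open Cfsg.Agent.Lib.Blocks.Transport Cfsg.Agent.Lib.Blocks.MajorSub
open Cfsg.Agent.Lib.Char.Ortho
open scoped ComplexConjugate

universe u

section Trans

variable {G : Type u} [Group G] [Fintype G] {M : Ideal AlgInt} [hMp : M.IsPrime]

private lemma finsum_mem_eq_sum_ite' {α : Type*} [Fintype α] (s : Set α) [DecidablePred (· ∈ s)] (f : α → ℂ) :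
    ∑ᶠ x ∈ s, f x = ∑ x, if x ∈ s then f x else 0 := by
  rw [finsum_mem_def, finsum_eq_sum_of_fintype]
  refine Finset.sum_congr rfl fun x _ => ?_
  simp [Set.indicator_apply]

/-- **Transitivity of block induction.** -/
theorem isInducedBlock_trans' {K C : Subgroup G} [Fintype K] [Fintype C] (hKC : K ≤ C) {b : Set (IrrCharacter K)}
    {c : Set (IrrCharacter C)} {B : Set (IrrCharacter G)} (hb : IsInducedBlock M C c B)
    (hc : IsInducedBlockIn M C K b c) : IsInducedBlock M K b B := by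
  classical
  refine ⟨hc.1, hb.2.1, fun ξ₀ hξ χ hχ g => ?_⟩
  obtain ⟨μ, hμ⟩ := Cfsg.Agent.Lib.Blocks.Pairs.isPBlock_nonempty hc.2.1
  have h1 := hb.2.2 μ hμ χ hχ g
  have ha := Cfsg.Agent.Lib.Blocks.Induced.traceClassSum_mem_localCenter (M := M) C g
  set a := Cfsg.Agent.Lib.Blocks.Induced.traceClassSum C g with hadef
  have key : inducedCentralChar K (ξ₀ : K → ℂ) g =
      ∑ L : ConjClasses C, a.coeff L.out * inducedCentralCharIn C K (ξ₀ : K → ℂ) ((L.out : C) : G) := by
    simp only [inducedCentralCharIn, inducedCentralChar, finsum_mem_eq_sum_ite', Finset.mul_sum]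
    rw [Finset.sum_comm]
    refine Finset.sum_congr rfl fun k _ => ?_
    set k' : C := Subgroup.inclusion hKC k with hk'
    have hmem : ∀ L : ConjClasses C, (k ∈ {k₁ : K | ∃ x : C, (x : G) * (k₁ : G) * (x : G)⁻¹ = ((L.out : C) : G)}) ↔
        ConjClasses.mk k' = L := by
      intro L
      constructor
      · rintro ⟨x, hx⟩
        have h3 : IsConj k' L.out := isConj_iff.2 ⟨x, Subtype.ext (by simpa [hk'] using hx)⟩
        rw [ConjClasses.mk_eq_mk_iff_isConj.2 h3]
        exact Quotient.out_eq L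
      · intro h3
        have h4 : IsConj k' L.out := by
          apply ConjClasses.mk_eq_mk_iff_isConj.1
          rw [h3]
          exact (Quotient.out_eq L).symm
        obtain ⟨x, hx⟩ := isConj_iff.1 h4
        exact ⟨x, congrArg Subtype.val hx⟩
    rw [Finset.sum_eq_single (ConjClasses.mk k')]
    · rw [if_pos ((hmem _).2 rfl)]
      have h4 : IsConj k' (ConjClasses.mk k').out := by
        apply ConjClasses.mk_eq_mk_iff_isConj.1
        exact (Quotient.out_eq (ConjClasses.mk k')).symm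
      obtain ⟨x, hx⟩ := isConj_iff.1 h4
      have h5 : a.coeff (ConjClasses.mk k').out = a.coeff k' := by
        rw [← hx]
        exact ha.1 k' x
      rw [h5, hadef]
      simp only [Cfsg.Agent.Lib.Blocks.Induced.traceClassSum, coeff_ofFun]
      by_cases h6 : IsConj g (k : G)
      · have h7 : IsConj g ((k' : C) : G) := h6
        have h8 : k ∈ {h : K | IsConj g (h : G)} := h6
        rw [if_pos h7, if_pos h8, one_mul]
      · have h7 : ¬ IsConj g ((k' : C) : G) := h6
        have h8 : k ∉ {h : K | IsConj g (h : G)} := h6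
        rw [if_neg h7, if_neg h8, zero_mul]
    · intro L _ hL
      rw [if_neg (fun h3 => hL ((hmem L).1 h3).symm), mul_zero]
    · intro h
      exact absurd (Finset.mem_univ _) h
  have h2 : MemLocalIdeal M (inducedCentralChar C (μ : C → ℂ) g - inducedCentralChar K (ξ₀ : K → ℂ) g) := by
    rw [Cfsg.Agent.Lib.Blocks.Induced.inducedCentralChar_eq_omega C (μ : C → ℂ) g,
      omega_eq_sum_centralChar (isClassFunction_of_irr μ.2) ha.1, key, ← Finset.sum_sub_distrib]
    refine memLocalIdeal_sum _ _ fun L _ => ?_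
    rw [← mul_sub]
    refine memLocalIdeal_mul_left (ha.2 _) ?_
    have h3 := hc.2.2 ξ₀ hξ μ hμ L.out
    have h4 := memLocalIdeal_sub memLocalIdeal_zero h3
    convert h4 using 1
    ring
  have h5 := memLocalIdeal_sub h1 h2
  convert h5 using 1
  ring

end Trans

section Invol

variable {G : Type u} [Group G] [Finite G]

/-- The unique involution of a cyclic group. -/
lemma pow_eq_of_sq_eq_one {y : G} {i j : ℕ} (hi : y ^ i * y ^ i = 1) (hi' : y ^ i ≠ 1) (hj : y ^ j * y ^ j = 1)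
    (hj' : y ^ j ≠ 1) : y ^ i = y ^ j := by
  have key : ∀ {i : ℕ}, y ^ i * y ^ i = 1 → y ^ i ≠ 1 → ∃ m q : ℕ, orderOf y = 2 * m ∧ i = m * (2 * q + 1) := by
    intro i hi hi'
    have h1 : orderOf y ∣ 2 * i := by
      apply orderOf_dvd_of_pow_eq_one
      rw [two_mul, pow_add, hi]
    have h2 : ¬ orderOf y ∣ i := fun h => hi' (orderOf_dvd_iff_pow_eq_one.mp h)
    rcases Nat.even_or_odd' (orderOf y) with ⟨m, hm | hm⟩
    · rw [hm] at h1 h2
      have h3 : m ∣ i := Nat.dvd_of_mul_dvd_mul_left (by norm_num) h1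
      obtain ⟨q, rfl⟩ := h3
      rcases Nat.even_or_odd' q with ⟨c, rfl | rfl⟩
      · exact absurd ⟨c, by ring⟩ h2
      · exact ⟨m, c, hm, rfl⟩
    · exfalso
      have hcop : Nat.Coprime (orderOf y) 2 := by
        rw [hm]
        exact (Nat.coprime_two_right.mpr (odd_two_mul_add_one m))
      exact h2 (hcop.dvd_of_dvd_mul_left h1)
  obtain ⟨m, q, hm, rfl⟩ := key hi hi'
  obtain ⟨m', q', hm', rfl⟩ := key hj hj'
  have hmm : m = m' := by omega
  subst hmm
  have hy : (y ^ m) ^ 2 = 1 := by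
    rw [← pow_mul, mul_comm, ← hm, pow_orderOf_eq_one]
  have hodd : ∀ q : ℕ, (y ^ m) ^ (2 * q + 1) = y ^ m := by
    intro q
    rw [pow_succ, pow_mul, hy, one_pow, one_mul]
  rw [pow_mul, pow_mul, hodd, hodd]

end Invol

section Compare

variable {G : Type u} [Group G] [Fintype G]

lemma exists_pow_of_mem_zpowers {z w : G} (h : z ∈ Subgroup.zpowers w) : ∃ i : ℕ, w ^ i = z := by
  have h1 := (mem_powers_iff_mem_zpowers).2 h
  exact Submonoid.mem_powers_iff _ _ |>.mp h1

/-- A conjugate of `w` in `G` which also contains `z` is conjugate in the centralizer of `z`. -/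
lemma conj_fixes_of_mem {z : G} (hzz : z * z = 1) (hz1 : z ≠ 1) {w w' g : G} (hw : z ∈ Subgroup.zpowers w)
    (hw' : z ∈ Subgroup.zpowers w') (hg : g * w * g⁻¹ = w') : g * z * g⁻¹ = z := by
  obtain ⟨i, hi⟩ := exists_pow_of_mem_zpowers hw
  obtain ⟨j, hj⟩ := exists_pow_of_mem_zpowers hw'
  have h1 : g * z * g⁻¹ = w' ^ i := by
    rw [← hg, ← hi, conj_pow]
  rw [h1]
  conv_rhs => rw [← hj]
  refine pow_eq_of_sq_eq_one ?_ ?_ (by rw [hj]; exact hzz) (by rw [hj]; exact hz1)
  · rw [← h1]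
    calc g * z * g⁻¹ * (g * z * g⁻¹) = g * (z * z) * g⁻¹ := by group
      _ = 1 := by rw [hzz]; group
  · rw [← h1]
    intro h0
    apply hz1
    have : z = g⁻¹ * (g * z * g⁻¹) * g := by group
    rw [this, h0]
    group

/-- **Column orthogonality in `G` and in the centralizer of an involution.** -/
theorem sum_irr_eq_sum_irr {z : G} (hzz : z * z = 1) (hz1 : z ≠ 1) [Fintype (Cen z)] {w w' : Cen z}
    (hw : z ∈ Subgroup.zpowers (w : G)) (hw' : z ∈ Subgroup.zpowers (w' : G)) :
    ∑ χ : IrrCharacter G, (χ : G → ℂ) w * conj ((χ : G → ℂ) w') =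
      ∑ ϑ : IrrCharacter (Cen z), (ϑ : Cen z → ℂ) w * conj ((ϑ : Cen z → ℂ) w') := by
  classical
  by_cases hc : IsConj (w : G) (w' : G)
  · obtain ⟨g, hg⟩ := isConj_iff.mp hc
    have hgz := conj_fixes_of_mem hzz hz1 hw hw' hg
    have hgH : g ∈ Cen z := by
      rw [Subgroup.mem_centralizer_singleton_iff]
      calc g * z = (g * z * g⁻¹) * g := by group
        _ = z * g := by rw [hgz]
    have hcH : IsConj w w' := isConj_iff.mpr ⟨⟨g, hgH⟩, Subtype.ext hg⟩
    rw [Cfsg.Agent.Lib.Char.CompleteCor.column_orth_conj hc, Cfsg.Agent.Lib.Char.CompleteCor.column_orth_conj hcH]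
    congr 1
    obtain ⟨i, hi⟩ := exists_pow_of_mem_zpowers hw
    have hmem : ∀ c : Subgroup.centralizer ({(w : G)} : Set G), (c : G) ∈ Cen z := by
      intro c
      rw [Subgroup.mem_centralizer_singleton_iff]
      have h1 := Subgroup.mem_centralizer_singleton_iff.mp c.2
      have h2 : Commute (c : G) ((w : G) ^ i) := (show Commute (c : G) (w : G) from h1).pow_right i
      rw [hi] at h2
      exact h2.eq
    refine Nat.card_congr
      { toFun := fun c => ⟨⟨c, hmem c⟩, ?_⟩
        invFun := fun c => ⟨((c : Cen z) : G), ?_⟩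
        left_inv := fun c => rfl
        right_inv := fun c => rfl }
    · rw [Subgroup.mem_centralizer_singleton_iff]
      exact Subtype.ext (Subgroup.mem_centralizer_singleton_iff.mp c.2)
    · rw [Subgroup.mem_centralizer_singleton_iff]
      exact congrArg Subtype.val (Subgroup.mem_centralizer_singleton_iff.mp c.2)
  · rw [Cfsg.Agent.Lib.Char.CompleteCor.column_orth_not_conj hc,
      Cfsg.Agent.Lib.Char.CompleteCor.column_orth_not_conj]
    intro hcH
    obtain ⟨g, hg⟩ := isConj_iff.mp hcH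
    exact hc (isConj_iff.mpr ⟨g, congrArg Subtype.val hg⟩)

end Compare

section Expand

variable {K : Type u} [Group K] [Fintype K] {M : Ideal AlgInt} {p : ℕ}
  {P : Subgroup K} {e : Set (IrrCharacter (Subgroup.centralizer (P : Set K)))} {χ₀ : IrrCharacter K}

/-- The expansion of a sum of products of coefficients. -/
lemma sum_Cf_mul_conj {ι : Type*} [Fintype ι] (t : ι → K → ℂ) (u v : K) :
    ∑ i, NPack.Cf M p P e χ₀ (t i) u * conj (NPack.Cf M p P e χ₀ (t i) v) =
      wt P u * conj (wt P v) * ∑ c ∈ regC p u, ∑ c' ∈ regC p v,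
        (∑ i, t i (u * c) * conj (t i (v * c'))) *
          (conj (PHI M p P e χ₀ u c) * PHI M p P e χ₀ v c') := by
  simp only [NPack.Cf, map_mul, map_sum, Complex.conj_conj]
  simp only [mul_mul_mul_comm (wt P u), Finset.sum_mul_sum]
  rw [← Finset.mul_sum, Finset.sum_comm]
  congr 1
  refine Finset.sum_congr rfl fun c _ => ?_
  rw [Finset.sum_comm]
  refine Finset.sum_congr rfl fun c' _ => ?_
  rw [Finset.sum_mul]
  refine Finset.sum_congr rfl fun i _ => ?_
  ring

end Expand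

section Main

variable {G : Type u} [Group G] [Fintype G] {M : Ideal AlgInt} [hM : M.IsPrime]
  {z : G} [Fintype (Cen z)] {b : Set (IrrCharacter (Cen z))} {P : Subgroup (Cen z)}
  {e : Set (IrrCharacter (Subgroup.centralizer (P : Set (Cen z))))} {χ₀ : IrrCharacter (Cen z)}
  {L : IrrCharacter (Cen z) → IrrCharacter P}

/-- The column of a character of `G` at `v`. -/
noncomputable def NN (M : Ideal AlgInt) (P : Subgroup (Cen z))
    (e : Set (IrrCharacter (Subgroup.centralizer (P : Set (Cen z))))) (χ₀ : IrrCharacter (Cen z))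
    (χ : IrrCharacter G) (v : Cen z) : ℂ :=
  NPack.Cf M 2 P e χ₀ (fun h : Cen z => (χ : G → ℂ) h) v

open Classical in
/-- The column in terms of the characters of the block. -/
theorem NN_eq_sum (H : NPack M 2 b P e χ₀ L) (χ : IrrCharacter G) (v : P) :
    NN M P e χ₀ χ v = ∑ ϑ ∈ Finset.univ.filter (· ∈ b), (mm χ ϑ : ℂ) * (L ϑ : P → ℂ) v := by
  rw [NN, H.Cf_class (isClassFunction_res χ)]
  refine Finset.sum_congr rfl fun ϑ _ => ?_
  rw [mm_spec]

/-- The `2`-part of a section element. -/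
lemma mem_zpowers_mul {u c : G} {k : ℕ} (hu : orderOf u = 2 ^ k) (hcomm : u * c = c * u) (hc : ¬ 2 ∣ orderOf c)
    (hz : z ∈ Subgroup.zpowers u) : z ∈ Subgroup.zpowers (u * c) := by
  have hp : IsPPart 2 (u * c) u := ⟨c, rfl, hcomm, ⟨k, hu⟩, hc⟩
  obtain ⟨s, hs⟩ := isPPart_exists_pow_eq hp
  obtain ⟨i, hi⟩ := exists_pow_of_mem_zpowers hz
  have h2 : z = (u * c) ^ (s * i) := by rw [pow_mul, hs, hi]
  rw [h2]
  exact Subgroup.pow_mem _ (Subgroup.mem_zpowers _) _

open Classical in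
/-- The sum over the block is a sum over the characters of `P`. -/
lemma sum_block_eq (H : NPack M 2 b P e χ₀ L) [Fintype P] (F : IrrCharacter P → ℂ) :
    ∑ l : IrrCharacter P, F l = ∑ ϑ : IrrCharacter (Cen z), if ϑ ∈ b then F (L ϑ) else 0 := by
  classical
  rw [← Finset.sum_filter]
  symm
  refine Finset.sum_nbij L (fun _ _ => Finset.mem_univ _) ?_ ?_ (fun _ _ => rfl)
  · intro x hx y hy hxy
    exact H.hinj (Finset.mem_filter.mp hx).2 (Finset.mem_filter.mp hy).2 hxy
  · intro l _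
    obtain ⟨ϑ, hϑ, rfl⟩ := H.hsurj l
    exact ⟨ϑ, by simpa using hϑ, rfl⟩

/-- **The Gram matrix of the columns.** -/
theorem NN_gram (hzz : z * z = 1) (hz1 : z ≠ 1) (H : NPack M 2 b P e χ₀ L) [Fintype P] {u v : P}
    (hu : z ∈ Subgroup.zpowers (((u : Cen z) : G))) (hv : z ∈ Subgroup.zpowers (((v : Cen z) : G))) :
    ∑ χ : IrrCharacter G, NN M P e χ₀ χ u * conj (NN M P e χ₀ χ v) =
      ∑ l : IrrCharacter P, (l : P → ℂ) u * conj ((l : P → ℂ) v) := by
  classical
  have horder : ∀ w : P, ∃ k : ℕ, orderOf ((w : Cen z) : G) = 2 ^ k := by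
    intro w
    obtain ⟨k, hk⟩ := H.pow_eq_one w
    have h1 : ((w : Cen z) : G) ^ 2 ^ k = 1 := by
      have := congrArg Subtype.val hk
      simpa using this
    obtain ⟨j, -, hj⟩ := (Nat.dvd_prime_pow Nat.prime_two).mp (orderOf_dvd_of_pow_eq_one h1)
    exact ⟨j, hj⟩
  have hsec : ∀ (w : P), z ∈ Subgroup.zpowers (((w : Cen z) : G)) → ∀ c ∈ regC 2 (w : Cen z),
      z ∈ Subgroup.zpowers ((((w : Cen z) * c : Cen z) : G)) := by
    intro w hw c hc
    obtain ⟨hcK, hcreg⟩ := mem_regC.mp hc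
    obtain ⟨k, hk⟩ := horder w
    have hcomm : ((w : Cen z) : G) * (c : G) = (c : G) * ((w : Cen z) : G) := by
      have := mem_centralizer_zpowers_iff.mp hcK
      exact (congrArg Subtype.val this).symm
    refine mem_zpowers_mul hk hcomm ?_ hw
    rwa [Subgroup.orderOf_coe]
  have h1 : ∑ χ : IrrCharacter G, NN M P e χ₀ χ u * conj (NN M P e χ₀ χ v) =
      ∑ ϑ : IrrCharacter (Cen z), NPack.Cf M 2 P e χ₀ (ϑ : Cen z → ℂ) u * conj (NPack.Cf M 2 P e χ₀ (ϑ : Cen z → ℂ) v) := by
    simp only [NN]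
    rw [sum_Cf_mul_conj (fun χ : IrrCharacter G => fun h : Cen z => (χ : G → ℂ) h) (u : Cen z) (v : Cen z),
      sum_Cf_mul_conj (fun ϑ : IrrCharacter (Cen z) => (ϑ : Cen z → ℂ)) (u : Cen z) (v : Cen z)]
    congr 1
    refine Finset.sum_congr rfl fun c hc => Finset.sum_congr rfl fun c' hc' => ?_
    congr 1
    exact sum_irr_eq_sum_irr hzz hz1 (hsec u hu c hc) (hsec v hv c' hc')
  rw [h1, sum_block_eq H]
  refine Finset.sum_congr rfl fun ϑ _ => ?_
  by_cases hϑ : ϑ ∈ b
  · rw [if_pos hϑ, H.Cf_mem hϑ, H.Cf_mem hϑ]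
  · rw [if_neg hϑ, H.Cf_not hϑ, zero_mul]

end Main

end Cfsg.Agent.Lib.Blocks.Tame
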