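/-
Tame blocks: lifting blocks from the centralizer of an involution, vanishing of columns.
-/
import Mathlib
import Cfsg.Agent.Lib.Blocks.TameC

set_option autoImplicit false
set_option linter.style.haveILetI false

namespace Cfsg.Agent.Lib.Blocks.Tame

open Cfsg Cfsg.Agent.Lib.Blocks.Local Cfsg.Agent.Lib.Blocks.Central Cfsg.Agent.Lib.Blocks.Osima
open Cfsg.Agent.Lib.Blocks.Covering Cfsg.Agent.Lib.Blocks.BlockHom Cfsg.Agent.Lib.Blocks.Pairs
open Cfsg.Agent.Lib.Blocks.Twisted Cfsg.Agent.Lib.Blocks.Necklace Cfsg.Agent.Lib.Blocks.Sections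
open Cfsg.Agent.Lib.Blocks.Regular Cfsg.Agent.Lib.Blocks.BlockCount Cfsg.Agent.Lib.Blocks.Nilp
open Cfsg.Agent.Lib.Blocks.Transport Cfsg.Agent.Lib.Blocks.MajorSub
open Cfsg.Agent.Lib.Char.Ortho
open scoped ComplexConjugate

universe u

section Lift

variable {G : Type u} [Group G] [Fintype G] {M : Ideal AlgInt} [hM : M.IsPrime]

/-- **Lifting a block of a centralizer in `W` to the centralizer in `G`.** -/
theorem exists_lift {W Q A : Subgroup G} [Fintype W] (hCW : Subgroup.centralizer (Q : Set G) ≤ W) (hQA : Q ≤ A)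
    (hAW : A ≤ W) {A' : Subgroup W} (hA' : A' = A.subgroupOf W)
    {f : Set (IrrCharacter (Subgroup.centralizer (A' : Set W)))} {b : Set (IrrCharacter W)}
    {B : Set (IrrCharacter G)}
    (hf : IsInducedBlock M (Subgroup.centralizer (A' : Set W)) f b) (hb : IsInducedBlock M W b B) :
    ∃ c : Set (IrrCharacter (Subgroup.centralizer (A : Set G))),
      IsInducedBlock M (Subgroup.centralizer (A : Set G)) c B ∧
      ∀ (t : G → ℂ) (h : W), twTrace (fun w : W => t w) h (EE (Subgroup.centralizer (A' : Set W)) f) =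
        twTrace t (h : G) (EE (Subgroup.centralizer (A : Set G)) c) := by
  classical
  subst hA'
  letI : Fintype (Subgroup.centralizer (A : Set G)) := Fintype.ofFinite _
  letI : Fintype (Subgroup.centralizer ((A.subgroupOf W : Subgroup W) : Set W)) := Fintype.ofFinite _
  set φ := cD hCW hQA hAW with hφ
  refine ⟨blockMap φ.symm f, ?_, fun t h => ?_⟩
  · have hfb : IsInducedBlockIn M W (Subgroup.centralizer (A : Set G)) (blockMap φ.symm f) b := by
      apply (isInducedBlock_iff_in hCW hQA hAW).mp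
      rw [blockMap_blockMap_symm]
      exact hf
    exact isInducedBlock_trans' ((Subgroup.centralizer_le hQA).trans hCW) hb hfb
  · simp only [twTrace, coeff_EE]
    rw [SubsectionNorm.sum_eq_sum_subgroup (Subgroup.centralizer ((A.subgroupOf W : Subgroup W) : Set W)) _
        (fun k hk => by rw [subgroupBlockCoeff_of_notMem f hk, zero_mul]),
      SubsectionNorm.sum_eq_sum_subgroup (Subgroup.centralizer (A : Set G)) _
        (fun k hk => by rw [subgroupBlockCoeff_of_notMem _ hk, zero_mul])]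
    refine Fintype.sum_equiv φ.toEquiv _ _ fun k => ?_
    rw [subgroupBlockCoeff_coe, subgroupBlockCoeff_coe, blockCoeff_blockMap]
    simp only [MulEquiv.toEquiv_eq_coe, EquivLike.coe_coe, MulEquiv.symm_apply_apply]
    rfl

end Lift

section Vanish

variable {G : Type u} [Group G] [Fintype G] {M : Ideal AlgInt} [hM : M.IsPrime]
  {z : G} [Fintype (Cen z)] {b : Set (IrrCharacter (Cen z))} {P : Subgroup (Cen z)}
  {e : Set (IrrCharacter (Subgroup.centralizer (P : Set (Cen z))))} {χ₀ : IrrCharacter (Cen z)}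
  {L : IrrCharacter (Cen z) → IrrCharacter P}

/-- The centralizer in `G` of a subgroup above `z` lies in the centralizer of `z`. -/
lemma centralizer_zpowers_le {z v : G} (hv : z ∈ Subgroup.zpowers v) :
    Subgroup.centralizer ((Subgroup.zpowers v : Subgroup G) : Set G) ≤ Cen z := by
  intro c hc
  rw [Subgroup.mem_centralizer_singleton_iff]
  have := (Subgroup.mem_centralizer_iff.mp hc) z hv
  exact this.symm

lemma zpowers_subgroupOf {W : Subgroup G} (v : W) :
    Subgroup.zpowers v = (Subgroup.zpowers (v : G)).subgroupOf W := by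
  ext x
  rw [Subgroup.mem_subgroupOf, Subgroup.mem_zpowers_iff, Subgroup.mem_zpowers_iff]
  constructor
  · rintro ⟨k, rfl⟩
    exact ⟨k, by simp⟩
  · rintro ⟨k, hk⟩
    exact ⟨k, Subtype.ext (by simpa using hk)⟩

/-- **The section part of a character outside the block vanishes.** -/
theorem twTrace_res_eq_zero (hMp : IsPModular 2 M) {B : Set (IrrCharacter G)} (hB : IsPBlock M B)
    (hind : IsInducedBlock M (Cen z) b B) {v : Cen z} (hv : z ∈ Subgroup.zpowers (v : G)) {k : ℕ}
    (hk : (v : G) ^ (2 ^ k) = 1)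
    {f : Set (IrrCharacter (Kz v))} (hf : IsBrauerPairOf 2 M b (Subgroup.zpowers v) f)
    {χ : IrrCharacter G} (hχ : χ ∉ B) {c : Cen z} (hc : c ∈ regC 2 v) :
    twTrace (fun w : Cen z => (χ : G → ℂ) w) (v * c) (EE (Kz v) f) = 0 := by
  classical
  haveI : Fact (Nat.Prime 2) := ⟨Nat.prime_two⟩
  have hfi := isInducedBlock_of_brauerPair hMp hf
  have hCW : Subgroup.centralizer ((Subgroup.zpowers (v : G) : Subgroup G) : Set G) ≤ Cen z :=
    centralizer_zpowers_le hv
  have hCW' : Subgroup.centralizer ((Subgroup.zpowers z : Subgroup G) : Set G) ≤ Cen z := by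
    intro c hc
    rw [Subgroup.mem_centralizer_singleton_iff]
    exact (Subgroup.mem_centralizer_iff.mp hc z (Subgroup.mem_zpowers z)).symm
  have hQA : Subgroup.zpowers z ≤ Subgroup.zpowers (v : G) := by
    rw [Subgroup.zpowers_le]
    exact hv
  have hAW : Subgroup.zpowers (v : G) ≤ Cen z := by
    rw [Subgroup.zpowers_le]
    exact v.2
  obtain ⟨c', hc'1, hc'2⟩ := exists_lift hCW' hQA hAW (zpowers_subgroupOf v) hfi hind
  rw [hc'2 (χ : G → ℂ) (v * c)]
  have h1 : ((v * c : Cen z) : G) = (v : G) * (c : G) := rfl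
  rw [h1]
  obtain ⟨hcK, hcreg⟩ := mem_regC.mp hc
  have hcG : (c : G) ∈ regC 2 (v : G) := by
    rw [mem_regC]
    refine ⟨?_, by rwa [Subgroup.orderOf_coe]⟩
    rw [mem_centralizer_zpowers_iff]
    have := mem_centralizer_zpowers_iff.mp hcK
    exact congrArg Subtype.val this
  refine twTrace_EE_eq_zero_of_not_pair (B := blockOf M (χ : G → ℂ)) hMp ⟨χ, rfl⟩ (mem_blockOf_self χ) hk
    hc'1.1 ?_ hcG
  intro hpair
  have h2 := isInducedBlock_of_brauerPair hMp hpair
  have h3 := FirstMain2.induced_unique h2 hc'1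
  apply hχ
  rw [← h3]
  exact mem_blockOf_self χ

/-- **The columns vanish off the block.** -/
theorem NN_vanish {B : Set (IrrCharacter G)} (hB : IsPBlock M B) (hind : IsInducedBlock M (Cen z) b B)
    (H : NPack M 2 b P e χ₀ L) {χ : IrrCharacter G} (hχ : χ ∉ B) {v : P}
    (hv : z ∈ Subgroup.zpowers (((v : Cen z) : G))) : NN M P e χ₀ χ v = 0 := by
  classical
  rw [NN, H.Cf_eq_secF (isClassFunction_res χ), secF]
  apply mul_eq_zero_of_right
  refine Finset.sum_eq_zero fun c hc => ?_
  obtain ⟨k, hk⟩ := H.pow_eq_one v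
  have hk' : ((v : Cen z) : G) ^ (2 ^ k) = 1 := by
    have := congrArg Subtype.val hk
    simpa using this
  have h1 := twTrace_res_eq_zero H.hMp hB hind hv hk' (H.isPair v) hχ hc
  rw [Ev, h1, zero_mul]

end Vanish

end Cfsg.Agent.Lib.Blocks.Tame
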