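/-
Tame blocks: the structure of a `2`-soluble group with a tame Sylow `2`-subgroup.
-/
import Mathlib
import Cfsg.Agent.Lib.Blocks.TameA
import Cfsg.Agent.Lib.Coprime.FrattiniAct
import Cfsg.Agent.Lib.FrobRep.TwoRank
import Cfsg.Agent.Lib.Solvable.PSeries
import Cfsg.Agent.Lib.Basic.PCore
import Cfsg.Agent.Lib.Basic.SylowUtil

set_option autoImplicit false
set_option linter.style.haveILetI false

namespace Cfsg.Agent.Lib.Blocks.Tame

open Cfsg
open scoped commutatorElement

universe u

/-- A `2`-group with a cyclic subgroup `⟨x⟩` of index at most two containing all the elements of order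
at least that of `x`. -/
structure TameSyl (S : Type*) [Group S] (x : S) : Prop where
  hp : IsPGroup 2 S
  hidx : ∀ g h : S, g ∉ Subgroup.zpowers x → h ∉ Subgroup.zpowers x → g * h ∈ Subgroup.zpowers x
  hord : ∀ g : S, g ∉ Subgroup.zpowers x → orderOf g < orderOf x

section Transport

theorem TameSyl.of_equiv {S S' : Type*} [Group S] [Group S'] {x : S} (h : TameSyl S x) (e : S ≃* S') :
    TameSyl S' (e x) := by
  have hmem : ∀ g : S, e g ∈ Subgroup.zpowers (e x) ↔ g ∈ Subgroup.zpowers x := by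
    intro g
    constructor
    · rintro ⟨k, hk⟩
      refine ⟨k, e.injective ?_⟩
      rw [map_zpow]
      exact hk
    · rintro ⟨k, hk⟩
      refine ⟨k, ?_⟩
      show (e x) ^ k = e g
      rw [← map_zpow]
      exact congrArg e hk
  refine ⟨?_, ?_, ?_⟩
  · intro g
    obtain ⟨k, hk⟩ := h.hp (e.symm g)
    refine ⟨k, ?_⟩
    have := congrArg e hk
    simpa using this
  · intro g g' hg hg'
    have h1 : e.symm g ∉ Subgroup.zpowers x := fun h2 => hg (by simpa using (hmem (e.symm g)).mpr h2)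
    have h2 : e.symm g' ∉ Subgroup.zpowers x := fun h2 => hg' (by simpa using (hmem (e.symm g')).mpr h2)
    have h3 := h.hidx _ _ h1 h2
    have h4 := (hmem _).mpr h3
    simpa using h4
  · intro g hg
    have h1 : e.symm g ∉ Subgroup.zpowers x := fun h2 => hg (by simpa using (hmem (e.symm g)).mpr h2)
    have h2 := h.hord _ h1
    rw [MulEquiv.orderOf_eq] at h2
    rwa [MulEquiv.orderOf_eq]

end Transport

section Odd

variable {X : Type u} [Group X] [Finite X]

/-- **An element of odd order normalizing a tame `2`-group centralizes it.** -/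
theorem TameSyl.odd_centralizes {S : Subgroup X} {x : S} (hT : TameSyl S x) {u : X} (hu : Odd (orderOf u))
    (hn : ∀ s ∈ S, u * s * u⁻¹ ∈ S) {s : X} (hs : s ∈ S) : u * s * u⁻¹ = s := by
  -- the rotation is fixed
  have hcx : u * (x : X) * u⁻¹ ∈ (Subgroup.zpowers (x : X)) := by
    by_contra hcon
    have h1 : (⟨u * (x : X) * u⁻¹, hn _ x.2⟩ : S) ∉ Subgroup.zpowers x := by
      rintro ⟨k, hk⟩
      apply hcon
      refine ⟨k, ?_⟩
      have := congrArg Subtype.val hk
      simpa using this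
    have h2 := hT.hord _ h1
    rw [Subgroup.orderOf_mk] at h2
    have h3 : orderOf (u * (x : X) * u⁻¹) = orderOf (x : X) := by
      rw [← MulAut.conj_apply, MulEquiv.orderOf_eq]
    rw [h3, Subgroup.orderOf_coe] at h2
    exact lt_irrefl _ h2
  obtain ⟨r, hr⟩ : ∃ r : ℕ, orderOf (x : X) = 2 ^ r := by
    obtain ⟨k, hk⟩ := (IsPGroup.iff_orderOf.mp hT.hp) x
    exact ⟨k, by rw [← hk, Subgroup.orderOf_coe]⟩
  obtain ⟨m, hm⟩ : ∃ m : ℕ, (x : X) ^ m = u * (x : X) * u⁻¹ := by
    exact (mem_powers_iff_mem_zpowers).mpr hcx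
  have hfix : u * (x : X) * u⁻¹ = x := conj_eq_of_odd hr hu hm.symm
  have hfixp : ∀ k : ℤ, u * (x : X) ^ k * u⁻¹ = (x : X) ^ k := by
    intro k
    rw [← conj_zpow, hfix]
  have hfixp' : ∀ k : ℤ, u⁻¹ * (x : X) ^ k * u = (x : X) ^ k := by
    intro k
    have := hfixp k
    calc u⁻¹ * (x : X) ^ k * u = u⁻¹ * (u * (x : X) ^ k * u⁻¹) * u := by rw [this]
      _ = _ := by group
  by_cases hsx : (⟨s, hs⟩ : S) ∈ Subgroup.zpowers x
  · obtain ⟨k, hk⟩ := hsx
    have h1 : s = (x : X) ^ k := by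
      have := congrArg Subtype.val hk
      simpa using this.symm
    rw [h1, hfixp]
  · -- the image is not on the rotations
    have hsx' : (⟨u * s * u⁻¹, hn s hs⟩ : S) ∉ Subgroup.zpowers x := by
      rintro ⟨k, hk⟩
      apply hsx
      refine ⟨k, ?_⟩
      have h1 : (x : X) ^ k = u * s * u⁻¹ := by
        have := congrArg Subtype.val hk
        simpa using this
      apply Subtype.ext
      have h3 : s = (x : X) ^ k := by
        calc s = u⁻¹ * (u * s * u⁻¹) * u := by group
          _ = u⁻¹ * (x : X) ^ k * u := by rw [h1]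
          _ = _ := hfixp' k
      simpa using h3.symm
    have hsinv : (⟨s, hs⟩ : S)⁻¹ ∉ Subgroup.zpowers x := fun h1 =>
      hsx (by simpa using (Subgroup.inv_mem _ h1))
    obtain ⟨k, hk⟩ := hT.hidx _ _ hsinv hsx'
    set a : X := (x : X) ^ k with ha
    have h1 : u * s * u⁻¹ = s * a := by
      have := congrArg Subtype.val hk
      simp only [Subgroup.coe_zpow, Subgroup.coe_mul, Subgroup.coe_inv] at this
      rw [← ha] at this
      rw [this]
      group
    have hua : u * a * u⁻¹ = a := hfixp k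
    have hpow : ∀ i : ℕ, u ^ i * s * (u ^ i)⁻¹ = s * a ^ i := by
      intro i
      induction i with
      | zero => simp
      | succ i ih =>
        have h2 : u ^ (i + 1) * s * (u ^ (i + 1))⁻¹ = u * (u ^ i * s * (u ^ i)⁻¹) * u⁻¹ := by
          rw [pow_succ']
          group
        rw [h2, ih, pow_succ]
        have h3 : u * (s * a ^ i) * u⁻¹ = (u * s * u⁻¹) * (u * a ^ i * u⁻¹) := by group
        rw [h3, h1, ← conj_pow, hua]
        group
    have h2 := hpow (orderOf u)
    rw [pow_orderOf_eq_one] at h2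
    simp only [one_mul, inv_one, mul_one] at h2
    have h3 : a ^ orderOf u = 1 := by
      have : s * a ^ orderOf u = s * 1 := by rw [← h2, mul_one]
      exact mul_left_cancel this
    have h4 : orderOf a ∣ orderOf u := orderOf_dvd_of_pow_eq_one h3
    have h5 : orderOf a ∣ 2 ^ r := by
      rw [← hr]
      exact orderOf_dvd_of_pow_eq_one (by
        rw [ha, ← zpow_natCast, ← zpow_mul, mul_comm, zpow_mul, zpow_natCast, pow_orderOf_eq_one, one_zpow])
    have h6 : Nat.Coprime (orderOf u) (2 ^ r) := Nat.Coprime.pow_right _ (Nat.coprime_two_right.mpr hu)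
    have h7 : orderOf a = 1 := Nat.eq_one_of_dvd_coprimes h6 h4 h5
    rw [h1, orderOf_eq_one_iff.mp h7, mul_one]

end Odd

section Gen

open Cfsg.Agent.Lib.FrobRep.TwoRank

variable {W : Type u} [Group W] [Finite W]

/-- Subgroups of a tame group are generated by two elements. -/
theorem TameSyl.index_frattini_le {S Q : Subgroup W} {x : S} (hT : TameSyl S x) (hQS : Q ≤ S) :
    (frattini ↥Q).index ≤ 4 := by
  haveI : Fact (Nat.Prime 2) := ⟨Nat.prime_two⟩
  have hQp : IsPGroup 2 Q := by
    intro q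
    obtain ⟨k, hk⟩ := hT.hp ⟨q, hQS q.2⟩
    refine ⟨k, Subtype.ext ?_⟩
    simpa using congrArg Subtype.val hk
  set C : Subgroup Q := (Subgroup.zpowers (x : W)).subgroupOf Q with hC
  have hmemC : ∀ q : Q, q ∈ C ↔ (⟨q, hQS q.2⟩ : S) ∈ Subgroup.zpowers x := by
    intro q
    rw [hC, Subgroup.mem_subgroupOf]
    constructor
    · rintro ⟨k, hk⟩
      exact ⟨k, Subtype.ext (by simpa using hk)⟩
    · rintro ⟨k, hk⟩
      exact ⟨k, by simpa using congrArg Subtype.val hk⟩
  haveI hcyc : IsCyclic C := by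
    let f : C →* Subgroup.zpowers (x : W) :=
      { toFun := fun c => ⟨((c : Q) : W), Subgroup.mem_subgroupOf.mp c.2⟩
        map_one' := rfl
        map_mul' := fun _ _ => rfl }
    exact isCyclic_of_injective f (fun a b hab => Subtype.ext (Subtype.ext (by
      have h := congrArg Subtype.val hab
      exact h)))
  obtain ⟨c, hc⟩ := hcyc.exists_generator
  have hgenC : GenMod (⊥ : Subgroup C) 1 := by
    refine GenMod.of_zpowers (g₀ := c) ?_
    rw [bot_sup_eq, eq_top_iff]
    intro y _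
    exact hc y
  have hex : ∃ g₀ : Q, C ⊔ Subgroup.zpowers g₀ = ⊤ := by
    by_cases h : ∃ g₀ : Q, g₀ ∉ C
    · obtain ⟨g₀, hg₀⟩ := h
      refine ⟨g₀, ?_⟩
      rw [eq_top_iff]
      intro y _
      by_cases hy : y ∈ C
      · exact Subgroup.mem_sup_left hy
      · have h1 := hT.hidx _ _ (fun h2 => hg₀ ((hmemC g₀).mpr (by
            have := Subgroup.inv_mem _ h2
            simpa using this)) : (⟨(g₀ : W), hQS g₀.2⟩ : S)⁻¹ ∉ Subgroup.zpowers x)
          (show (⟨(y : W), hQS y.2⟩ : S) ∉ Subgroup.zpowers x from fun h2 => hy ((hmemC y).mpr h2))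
        have h3 : g₀⁻¹ * y ∈ C := (hmemC _).mpr h1
        have h4 : y = g₀ * (g₀⁻¹ * y) := by group
        rw [h4]
        exact Subgroup.mul_mem _ (Subgroup.mem_sup_right (Subgroup.mem_zpowers g₀)) (Subgroup.mem_sup_left h3)
    · push Not at h
      refine ⟨1, ?_⟩
      rw [eq_top_iff]
      intro y _
      exact Subgroup.mem_sup_left (h y)
  obtain ⟨g₀, hg₀⟩ := hex
  have h2 : GenMod (⊥ : Subgroup Q) 2 := GenMod.of_index_two hg₀ hgenC
  exact Cfsg.Agent.Lib.FrobRep.TwoRank.index_frattini_le hQp h2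

end Gen

section Act

open Cfsg.Agent.Lib.Basic.PCore

variable {W : Type u} [Group W] [Finite W] (Q : Subgroup W) [hQ : Q.Normal]

/-- The action on the Frattini quotient. -/
noncomputable def actE (g : W) : (↥Q ⧸ frattini ↥Q) ≃* (↥Q ⧸ frattini ↥Q) :=
  QuotientGroup.congr (frattini ↥Q) (frattini ↥Q) (MulAut.conjNormal g)
    ((Subgroup.characteristic_iff_map_eq.mp inferInstance) _)

lemma actE_mk (g : W) (t : Q) :
    actE Q g (t : ↥Q ⧸ frattini ↥Q) = ((MulAut.conjNormal g t : Q) : ↥Q ⧸ frattini ↥Q) := rfl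

lemma actE_one : actE Q (1 : W) = MulEquiv.refl _ := by
  ext a
  obtain ⟨t, rfl⟩ := QuotientGroup.mk_surjective a
  rw [actE_mk]
  simp

lemma actE_mul (g h : W) (a : ↥Q ⧸ frattini ↥Q) : actE Q (g * h) a = actE Q g (actE Q h a) := by
  obtain ⟨t, rfl⟩ := QuotientGroup.mk_surjective a
  rw [actE_mk, actE_mk, actE_mk, map_mul]
  rfl

/-- The action on the nontrivial elements of the Frattini quotient. -/
noncomputable def psiE : W →* Equiv.Perm {a : ↥Q ⧸ frattini ↥Q // a ≠ 1} where
  toFun g := (actE Q g).toEquiv.subtypeEquiv (fun a => by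
    simp only [ne_eq, MulEquiv.toEquiv_eq_coe, EquivLike.coe_coe, EmbeddingLike.map_eq_one_iff])
  map_one' := by
    ext ⟨a, ha⟩
    rw [actE_one]
    rfl
  map_mul' := by
    intro g h
    ext ⟨a, ha⟩
    exact congrArg Subtype.val (Subtype.ext (actE_mul Q g h a) :
      (⟨actE Q (g * h) a, by simpa using ha⟩ : {a : ↥Q ⧸ frattini ↥Q // a ≠ 1}) =
        ⟨actE Q g (actE Q h a), by simpa using ha⟩)

lemma mem_ker_psiE (g : W) :
    g ∈ (psiE Q).ker ↔ ∀ t : Q, t⁻¹ * MulAut.conjNormal g t ∈ frattini ↥Q := by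
  rw [MonoidHom.mem_ker]
  constructor
  · intro h t
    rw [← QuotientGroup.eq]
    by_cases ht : (t : ↥Q ⧸ frattini ↥Q) = 1
    · have h1 : actE Q g (t : ↥Q ⧸ frattini ↥Q) = 1 := by rw [ht, map_one]
      rw [actE_mk] at h1
      rw [ht, h1]
    · have h1 := congrArg (fun π : Equiv.Perm {a : ↥Q ⧸ frattini ↥Q // a ≠ 1} => (π ⟨_, ht⟩).1) h
      simp only [Equiv.Perm.coe_one, id] at h1
      exact h1.symm
  · intro h
    ext ⟨a, ha⟩
    obtain ⟨t, rfl⟩ := QuotientGroup.mk_surjective a
    show actE Q g (t : ↥Q ⧸ frattini ↥Q) = (t : ↥Q ⧸ frattini ↥Q)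
    rw [actE_mk]
    exact (QuotientGroup.eq.mpr (h t)).symm

/-- **The quotient by `O₂` has order dividing `6`.** -/
theorem index_dvd_six (hQp : IsPGroup 2 Q) (hC : Subgroup.centralizer (Q : Set W) ≤ Q)
    (hmax : ∀ N : Subgroup W, N.Normal → IsPGroup 2 N → N ≤ Q) (hi : (frattini ↥Q).index ≤ 4) :
    Q.index ∣ 6 := by
  classical
  haveI : Fact (Nat.Prime 2) := ⟨Nat.prime_two⟩
  have hker : (psiE Q).ker = Q := by
    apply le_antisymm
    · apply hmax _ inferInstance
      intro g
      obtain ⟨a, m, hm, he⟩ := Nat.exists_eq_two_pow_mul_odd (orderOf_pos (g : W)).ne'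
      refine ⟨a, Subtype.ext ?_⟩
      simp only [Subgroup.coe_pow, OneMemClass.coe_one]
      set u : W := (g : W) ^ (2 ^ a) with hu
      have hum : u ^ m = 1 := by
        rw [hu, ← pow_mul, ← he, pow_orderOf_eq_one]
      have huker : u ∈ (psiE Q).ker := Subgroup.pow_mem _ g.2 _
      have hodd : Nat.Coprime (orderOf u) 2 := by
        have h1 := orderOf_dvd_of_pow_eq_one hum
        exact Nat.Coprime.coprime_dvd_left h1 (Nat.coprime_two_right.mpr hm)
      have hzle : Subgroup.zpowers u ≤ (psiE Q).ker := by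
        rw [Subgroup.zpowers_le]
        exact huker
      have hcen := Cfsg.Agent.Lib.Coprime.FrattiniAct.le_centralizer_of_frattini (p := 2) (T := Q)
        (A := Subgroup.zpowers u) hQp (by
          rw [Subgroup.normalizer_eq_top_iff.mpr hQ]
          exact le_top) (by rwa [Nat.card_zpowers]) (by
          intro t ht b hb
          have h1 := (mem_ker_psiE Q b).mp (hzle hb) ⟨t, ht⟩
          exact ⟨_, h1, rfl⟩)
      have huQ : u ∈ Q := hC (hcen (Subgroup.mem_zpowers u))
      obtain ⟨k, hk⟩ := hQp ⟨u, huQ⟩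
      have h2 : orderOf u ∣ 2 ^ k := orderOf_dvd_of_pow_eq_one (by
        have := congrArg Subtype.val hk
        simpa using this)
      have h3 : orderOf u = 1 := by
        have h4 : Nat.Coprime (orderOf u) (2 ^ k) := Nat.Coprime.pow_right k hodd
        exact Nat.Coprime.eq_one_of_dvd h4 h2
      exact orderOf_eq_one_iff.mp h3
    · intro t ht
      rw [mem_ker_psiE]
      intro s
      have h1 : s⁻¹ * MulAut.conjNormal t s = ⁅s⁻¹, (⟨t, ht⟩ : Q)⁆ := by
        apply Subtype.ext
        simp [commutatorElement_def]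
        group
      rw [h1]
      apply Cfsg.Agent.Lib.PGroup.FrattiniBasis.commutator_le_frattini hQp
      exact Subgroup.commutator_mem_commutator (Subgroup.mem_top _) (Subgroup.mem_top _)
  rw [← hker, Subgroup.index_ker]
  letI : Fintype {a : ↥Q ⧸ frattini ↥Q // a ≠ 1} := Fintype.ofFinite _
  haveI : Finite (↥Q ⧸ frattini ↥Q) := inferInstance
  letI : Fintype (↥Q ⧸ frattini ↥Q) := Fintype.ofFinite _
  have h1 : Nat.card (psiE Q).range ∣ Nat.card (Equiv.Perm {a : ↥Q ⧸ frattini ↥Q // a ≠ 1}) :=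
    Subgroup.card_subgroup_dvd_card _
  have h2 : Nat.card (Equiv.Perm {a : ↥Q ⧸ frattini ↥Q // a ≠ 1}) =
      (Fintype.card (↥Q ⧸ frattini ↥Q) - 1).factorial := by
    rw [Nat.card_eq_fintype_card, Fintype.card_perm, Fintype.card_subtype_compl]
    simp
  have h3 : Fintype.card (↥Q ⧸ frattini ↥Q) ≤ 4 := by
    rw [← Nat.card_eq_fintype_card]
    exact hi
  have h4 : (Fintype.card (↥Q ⧸ frattini ↥Q) - 1).factorial ∣ 6 := by
    have h5 : Fintype.card (↥Q ⧸ frattini ↥Q) - 1 ≤ 3 := by omega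
    exact (Nat.factorial_dvd_factorial h5).trans (by decide)
  exact h1.trans (h2 ▸ h4)

end Act

end Cfsg.Agent.Lib.Blocks.Tame
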