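/-
Tame blocks: the odd conjugacy classes of a `2`-soluble group with a tame Sylow `2`-subgroup.
-/
import Mathlib
import Cfsg.Agent.Lib.Blocks.TameO1

set_option autoImplicit false
set_option linter.style.haveILetI false

namespace Cfsg.Agent.Lib.Blocks.Tame

open Cfsg Cfsg.Agent.Lib.Basic.PCore
open scoped Pointwise

universe u

section Three

variable {W : Type u} [Group W] [Finite W]

lemma mem_zpowers_three {r w : W} (hr : orderOf r = 3) (hw : w ∈ Subgroup.zpowers r) :
    w = 1 ∨ w = r ∨ w = r⁻¹ := by
  obtain ⟨m, rfl⟩ := (mem_powers_iff_mem_zpowers).mpr hw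
  have h1 : r ^ m = r ^ (m % 3) := by
    conv_lhs => rw [← pow_mod_orderOf, hr]
  have hr3 : r ^ 3 = 1 := by rw [← hr, pow_orderOf_eq_one]
  show r ^ m = 1 ∨ r ^ m = r ∨ r ^ m = r⁻¹
  rw [h1]
  have hm : m % 3 = 0 ∨ m % 3 = 1 ∨ m % 3 = 2 := by omega
  rcases hm with hm | hm | hm <;> rw [hm]
  · left
    simp
  · right
    left
    simp
  · right
    right
    rw [eq_inv_iff_mul_eq_one, ← pow_succ]
    exact hr3

/-- Subgroups of order `3` are Sylow when `9` does not divide the order. -/
theorem conj_of_three {r u : W} (hr : orderOf r = 3) (hu : orderOf u = 3) (h9 : ¬ 9 ∣ Nat.card W) :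
    IsConj u r ∨ IsConj u r⁻¹ := by
  classical
  haveI : Fact (Nat.Prime 3) := ⟨Nat.prime_three⟩
  have h3 : 3 ∣ Nat.card W := by
    rw [← hr]
    exact orderOf_dvd_natCard r
  have hfac : (Nat.card W).factorization 3 = 1 := by
    have h1 : 1 ≤ (Nat.card W).factorization 3 :=
      (Nat.Prime.dvd_iff_one_le_factorization Nat.prime_three Nat.card_pos.ne').mp h3
    have h2 : ¬ 2 ≤ (Nat.card W).factorization 3 := by
      intro h
      apply h9
      have := (Nat.Prime.pow_dvd_iff_le_factorization Nat.prime_three Nat.card_pos.ne').mpr h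
      simpa using this
    omega
  let P : Sylow 3 W := Sylow.ofCard (Subgroup.zpowers r) (by
    rw [Nat.card_zpowers, hr, hfac, pow_one])
  let P' : Sylow 3 W := Sylow.ofCard (Subgroup.zpowers u) (by
    rw [Nat.card_zpowers, hu, hfac, pow_one])
  have hP : (P : Subgroup W) = Subgroup.zpowers r := Sylow.coe_ofCard _ _
  have hP' : (P' : Subgroup W) = Subgroup.zpowers u := Sylow.coe_ofCard _ _
  obtain ⟨g, hg⟩ := MulAction.exists_smul_eq W P' P
  have h1 : g * u * g⁻¹ ∈ (P : Subgroup W) := by
    rw [← hg, Sylow.coe_subgroup_smul]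
    refine ⟨u, ?_, rfl⟩
    rw [hP']
    exact Subgroup.mem_zpowers u
  rw [hP] at h1
  have hu1 : u ≠ 1 := by
    rintro rfl
    rw [orderOf_one] at hu
    omega
  rcases mem_zpowers_three hr h1 with h2 | h2 | h2
  · exfalso
    apply hu1
    have : g * u * g⁻¹ * g = g := by rw [h2, one_mul]
    have h3 : g * u = g := by simpa using this
    simpa using h3
  · left
    exact isConj_iff.mpr ⟨g, h2⟩
  · right
    exact isConj_iff.mpr ⟨g, h2⟩

end Three

section Main

variable {W : Type u} [Group W] [Finite W]

/-- **A `2`-soluble group with tame Sylow subgroup and `O_{2'} = 1` has at most two classes of odd order elements.** -/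
theorem exists_odd_rep (hsol : IsPSolvable 2 W) (hcore : pPrimeCore 2 W = ⊥) (S : Sylow 2 W)
    {x : (S : Subgroup W)} (hT : TameSyl (S : Subgroup W) x) :
    ∃ r : W, ∀ u : W, ¬ 2 ∣ orderOf u → u = 1 ∨ IsConj u r := by
  classical
  haveI : Fact (Nat.Prime 2) := ⟨Nat.prime_two⟩
  set Q : Subgroup W := pCore 2 W with hQdef
  haveI hQn : Q.Normal := pCore_normal 2 W
  have hQp : IsPGroup 2 Q := pCore_isPGroup 2
  have hQS : Q ≤ S := pCore_le_sylow S
  have hCQ : Subgroup.centralizer (Q : Set W) ≤ Q :=
    Cfsg.Agent.Lib.Solvable.PSeries.centralizer_pCore_le hsol hcore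
  have hmax : ∀ N : Subgroup W, N.Normal → IsPGroup 2 N → N ≤ Q := fun N hN hp => le_pCore hN hp
  have h6 : Q.index ∣ 6 := index_dvd_six Q hQp hCQ hmax (hT.index_frattini_le hQS)
  have hoddQ : ∀ u : W, ¬ 2 ∣ orderOf u → u ∈ Q → u = 1 := by
    intro u hu huQ
    obtain ⟨k, hk⟩ := hQp ⟨u, huQ⟩
    have h2 : orderOf u ∣ 2 ^ k := orderOf_dvd_of_pow_eq_one (by
      have := congrArg Subtype.val hk
      simpa using this)
    have h4 : Nat.Coprime (orderOf u) (2 ^ k) :=
      Nat.Coprime.pow_right k (Nat.Coprime.symm ((Nat.Prime.coprime_iff_not_dvd Nat.prime_two).mpr hu))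
    exact orderOf_eq_one_iff.mp (Nat.Coprime.eq_one_of_dvd h4 h2)
  have h3 : ∀ u : W, ¬ 2 ∣ orderOf u → u ^ 3 = 1 := by
    intro u hu
    have h1 : u ^ 6 ∈ Q := by
      obtain ⟨c, hc⟩ := h6
      rw [hc, pow_mul]
      exact Subgroup.pow_mem _ (Subgroup.pow_index_mem Q u) _
    obtain ⟨k, hk⟩ := hQp ⟨u ^ 6, h1⟩
    have h2 : u ^ (3 * 2 ^ (k + 1)) = 1 := by
      have h5 : (u ^ 6) ^ 2 ^ k = 1 := by
        have := congrArg Subtype.val hk
        simpa using this
      rw [← pow_mul] at h5
      have h6 : 3 * 2 ^ (k + 1) = 6 * 2 ^ k := by rw [pow_succ]; ring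
      rw [h6, h5]
    have h4 := orderOf_dvd_of_pow_eq_one h2
    have h5 : Nat.Coprime (orderOf u) (2 ^ (k + 1)) :=
      Nat.Coprime.pow_right _ (Nat.Coprime.symm ((Nat.Prime.coprime_iff_not_dvd Nat.prime_two).mpr hu))
    have h7 : orderOf u ∣ 3 := h5.dvd_of_dvd_mul_right h4
    exact orderOf_dvd_iff_pow_eq_one.mp h7
  by_cases hex : ∃ r : W, ¬ 2 ∣ orderOf r ∧ r ≠ 1
  swap
  · push Not at hex
    exact ⟨1, fun u hu => Or.inl (hex u hu)⟩
  obtain ⟨r, hr2, hr1⟩ := hex
  have hr : orderOf r = 3 := orderOf_eq_prime (h3 r hr2) hr1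
  have hrQ : r ∉ Q := fun h => hr1 (hoddQ r hr2 h)
  -- the order of the group
  have h9 : ¬ 9 ∣ Nat.card W := by
    intro h
    obtain ⟨k, hk⟩ := IsPGroup.iff_card.mp hQp
    rw [← Subgroup.card_mul_index Q, hk] at h
    have h4 : Nat.Coprime 9 (2 ^ k) := Nat.Coprime.pow_right k (by norm_num)
    have h5 : 9 ∣ Q.index := h4.dvd_of_dvd_mul_left h
    have h7 := h5.trans h6
    omega
  -- the structure of the quotient
  have hidx : Q.index = 3 ∨ Q.index = 6 := by
    have hle : Q.index ≤ 6 := Nat.le_of_dvd (by norm_num) h6
    have hpos : 0 < Q.index := Nat.pos_of_ne_zero Subgroup.index_ne_zero_of_finite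
    interval_cases hv : Q.index
    · exfalso
      apply hrQ
      have := Subgroup.pow_index_mem Q r
      rw [hv, pow_one] at this
      exact this
    · exfalso
      have h4 := Subgroup.pow_index_mem Q r
      rw [hv] at h4
      have h5 := hoddQ (r ^ 2) (by
        intro h
        exact hr2 (by
          have : r ^ 2 = r⁻¹ := by
            rw [eq_inv_iff_mul_eq_one, ← pow_succ]
            exact h3 r hr2
          rw [this, orderOf_inv] at h
          exact h)) h4
      have h7 := orderOf_dvd_of_pow_eq_one h5
      rw [hr] at h7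
      omega
    · left
      rfl
    · exfalso
      omega
    · exfalso
      omega
    · right
      rfl
  have hinv : IsConj r r⁻¹ := by
    rcases hidx with hi3 | hi6
    · -- the Sylow subgroup is normal
      exfalso
      have hSQ : (S : Subgroup W) ≤ Q := by
        rw [← Subgroup.relIndex_eq_one]
        have h1 : Q.relIndex S ∣ Q.index := Subgroup.relIndex_dvd_index_of_normal Q _
        rw [hi3] at h1
        have h2 : Q.relIndex S ∣ Nat.card (S : Subgroup W) := Subgroup.relIndex_dvd_card _ _
        obtain ⟨k, hk⟩ := IsPGroup.iff_card.mp S.isPGroup'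
        rw [hk] at h2
        obtain ⟨j, -, hj⟩ := (Nat.dvd_prime_pow Nat.prime_two).mp h2
        rcases (Nat.dvd_prime Nat.prime_three).mp h1 with h3' | h3'
        · exact h3'
        · exfalso
          rw [h3'] at hj
          have h4 : 3 ∣ 2 ^ j := by rw [← hj]
          have := (Nat.Prime.dvd_of_dvd_pow Nat.prime_three h4)
          omega
      have hSeq : (S : Subgroup W) = Q := le_antisymm hSQ hQS
      have hodd : Odd (orderOf r) := by
        rw [hr]
        decide
      have hcen : r ∈ Subgroup.centralizer (Q : Set W) := by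
        rw [Subgroup.mem_centralizer_iff]
        intro q hq
        have h1 := hT.odd_centralizes hodd (s := q) (by
          intro s hs
          rw [hSeq] at hs ⊢
          exact hQn.conj_mem s hs r) (by
          rw [hSeq]
          exact hq)
        calc q * r = (r * q * r⁻¹) * r := by rw [h1]
          _ = r * q := by group
      exact hrQ (hCQ hcen)
    · -- the quotient has order six
      set Y := W ⧸ Q with hY
      have hYcard : Nat.card Y = 6 := hi6
      set rb : Y := (r : Y) with hrb
      have hrb1 : rb ≠ 1 := by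
        intro h
        exact hrQ ((QuotientGroup.eq_one_iff r).mp h)
      have hrb3 : rb ^ 3 = 1 := by
        rw [hrb, ← QuotientGroup.mk_pow, h3 r hr2]
        rfl
      have hrbo : orderOf rb = 3 := orderOf_eq_prime hrb3 hrb1
      have hzi : (Subgroup.zpowers rb).index = 2 := by
        have h1 := Subgroup.card_mul_index (Subgroup.zpowers rb)
        rw [Nat.card_zpowers, hrbo, hYcard] at h1
        omega
      haveI hzn : (Subgroup.zpowers rb).Normal := Subgroup.normal_of_index_eq_two hzi
      set L : Subgroup W := (Subgroup.zpowers rb).comap (QuotientGroup.mk' Q) with hL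
      haveI hLn : L.Normal := Subgroup.Normal.comap hzn _
      haveI : Fact (Nat.Prime 3) := ⟨Nat.prime_three⟩
      have h3d : 3 ∣ Nat.card W := by
        rw [← hr]
        exact orderOf_dvd_natCard r
      have hfac : (Nat.card W).factorization 3 = 1 := by
        have h1 : 1 ≤ (Nat.card W).factorization 3 :=
          (Nat.Prime.dvd_iff_one_le_factorization Nat.prime_three Nat.card_pos.ne').mp h3d
        have h2 : ¬ 2 ≤ (Nat.card W).factorization 3 := by
          intro h
          apply h9
          have := (Nat.Prime.pow_dvd_iff_le_factorization Nat.prime_three Nat.card_pos.ne').mpr h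
          simpa using this
        omega
      let P : Sylow 3 W := Sylow.ofCard (Subgroup.zpowers r) (by
        rw [Nat.card_zpowers, hr, hfac, pow_one])
      have hP : (P : Subgroup W) = Subgroup.zpowers r := Sylow.coe_ofCard _ _
      have hPL : (P : Subgroup W) ≤ L := by
        rw [hP, Subgroup.zpowers_le]
        exact Subgroup.mem_zpowers rb
      by_contra hnc
      -- every element commutes with `r` modulo `Q`
      have hcomm : ∀ g : W, (g : Y) * rb = rb * (g : Y) := by
        intro g
        obtain ⟨n, hn, h, hh, rfl⟩ := Cfsg.Agent.Lib.Basic.SylowUtil.frattini_argument P hPL g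
        have h1 : h * r * h⁻¹ ∈ Subgroup.zpowers r := by
          rw [← hP]
          apply (Subgroup.mem_normalizer_iff.mp hh r).mp
          rw [hP]
          exact Subgroup.mem_zpowers r
        have hne : h * r * h⁻¹ ≠ 1 := by
          intro h2
          apply hr1
          have h3' : h * r = h := by
            have : h * r * h⁻¹ * h = h := by rw [h2, one_mul]
            simpa using this
          simpa using h3'
        have h4 : h * r * h⁻¹ = r := by
          rcases mem_zpowers_three hr h1 with h2 | h2 | h2
          · exact absurd h2 hne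
          · exact h2
          · exact absurd (isConj_iff.mpr ⟨h, h2⟩) hnc
        have h5 : ((h : W) : Y) * rb = rb * (h : Y) := by
          rw [hrb, ← QuotientGroup.mk_mul, ← QuotientGroup.mk_mul]
          congr 1
          calc h * r = (h * r * h⁻¹) * h := by group
            _ = r * h := by rw [h4]
        obtain ⟨k, hk⟩ := (show (n : Y) ∈ Subgroup.zpowers rb from hn)
        have h6' : (n : Y) * rb = rb * (n : Y) := by
          rw [← hk]
          exact (Commute.zpow_left (Commute.refl rb) k)
        rw [QuotientGroup.mk_mul, mul_assoc, h5, ← mul_assoc, h6', mul_assoc]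
      -- an involution in the quotient
      have h2Y : 2 ∣ Nat.card Y := by
        rw [hYcard]
        norm_num
      obtain ⟨w, hw⟩ := exists_prime_orderOf_dvd_card' 2 h2Y
      have hwz : w ∉ Subgroup.zpowers rb := by
        intro h
        have h1 := orderOf_dvd_of_pow_eq_one (show w ^ 3 = 1 from by
          obtain ⟨k, hk⟩ := h
          rw [← hk, ← zpow_natCast, ← zpow_mul, mul_comm, zpow_mul]
          simp [hrb3])
        rw [hw] at h1
        omega
      have hwc : ∀ y : Y, y * w = w * y := by
        have hcent : ∀ y : Y, y * rb = rb * y := by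
          intro y
          obtain ⟨g, rfl⟩ := QuotientGroup.mk_surjective y
          exact hcomm g
        have hcentz : ∀ c ∈ Subgroup.zpowers rb, ∀ y : Y, y * c = c * y := by
          rintro c ⟨k, rfl⟩ y
          exact (Commute.zpow_right (show Commute y rb from hcent y) k)
        intro y
        by_cases hy : y ∈ Subgroup.zpowers rb
        · exact (hcentz y hy w).symm
        · have h1 : y * w ∈ Subgroup.zpowers rb := by
            rw [Subgroup.mul_mem_iff_of_index_two hzi]
            exact iff_of_false hy hwz
          have h2 : y = (y * w) * w⁻¹ := by group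
          have h4 : w * (y * w) = (y * w) * w := (hcentz _ h1 w)
          calc y * w = w⁻¹ * (w * (y * w)) := by group
            _ = w⁻¹ * ((y * w) * w) := by rw [h4]
            _ = w⁻¹ * (y * w) * w := by group
            _ = (y * w) * w⁻¹ * w := by
              have h5 := hcentz _ h1 w⁻¹
              rw [h5]
            _ = y * w := by group
            _ = w * y := by
              have h6' : w ^ 2 = 1 := by
                rw [← hw]
                exact pow_orderOf_eq_one w
              have h7 : w⁻¹ = w := by
                rw [inv_eq_iff_mul_eq_one, ← sq]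
                exact h6'
              have h8 := hcentz _ h1 w
              have h9' : y * w * w = w * y * w := by rw [← h8]; simp [mul_assoc]
              exact mul_right_cancel h9'
      -- a larger normal `2`-subgroup
      have hNn : (Subgroup.zpowers w).Normal := by
        constructor
        rintro c ⟨k, rfl⟩ g
        have h1 : g * w ^ k * g⁻¹ = w ^ k := by
          have h2 : g * w ^ k = w ^ k * g := (Commute.zpow_right (show Commute g w from hwc g) k)
          rw [h2]
          group
        show g * w ^ k * g⁻¹ ∈ _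
        rw [h1]
        exact Subgroup.zpow_mem_zpowers _ _
      have hLL : (Subgroup.zpowers w).comap (QuotientGroup.mk' Q) ≤ Q := by
        apply hmax _ (Subgroup.Normal.comap hNn _)
        intro t
        obtain ⟨k, hk⟩ := (show ((t : W) : Y) ∈ Subgroup.zpowers w from t.2)
        have h1 : (((t : W) : Y)) ^ 2 = 1 := by
          rw [← hk, ← zpow_natCast, ← zpow_mul, mul_comm, zpow_mul, zpow_natCast, ← hw, pow_orderOf_eq_one, one_zpow]
        have h2 : (t : W) ^ 2 ∈ Q := by
          rw [← QuotientGroup.eq_one_iff, QuotientGroup.mk_pow]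
          exact h1
        obtain ⟨j, hj⟩ := hQp ⟨(t : W) ^ 2, h2⟩
        refine ⟨j + 1, Subtype.ext ?_⟩
        have h4 : ((t : W) ^ 2) ^ 2 ^ j = 1 := by
          have := congrArg Subtype.val hj
          simpa using this
        simp only [Subgroup.coe_pow, OneMemClass.coe_one]
        rw [← h4, ← pow_mul, pow_succ']
      obtain ⟨g, rfl⟩ := QuotientGroup.mk_surjective w
      have h1 : g ∈ Q := hLL (Subgroup.mem_zpowers _)
      have h2 : ((g : W) : Y) = 1 := (QuotientGroup.eq_one_iff g).mpr h1
      rw [h2, orderOf_one] at hw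
      omega
  refine ⟨r, fun u hu => ?_⟩
  by_cases hu1 : u = 1
  · exact Or.inl hu1
  right
  have huo : orderOf u = 3 := orderOf_eq_prime (h3 u hu) hu1
  rcases conj_of_three hr huo h9 with h1 | h1
  · exact h1
  · exact h1.trans hinv.symm

end Main

end Cfsg.Agent.Lib.Blocks.Tame
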