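/-
Tame blocks: the rank of the characters over an invariant character of a normal subgroup is at most the
number of regular classes of the quotient.
-/
import Mathlib
import Cfsg.Agent.Lib.Blocks.FongMain
import Cfsg.Agent.Lib.Blocks.KLOne

set_option autoImplicit false
set_option linter.style.haveILetI false

namespace Cfsg.Agent.Lib.Blocks.Tame

open Cfsg Module
open Cfsg.Agent.Lib.Char.DegreeDvd Cfsg.Agent.Lib.Char.FongTensor
open Cfsg.Agent.Lib.Blocks.FongGam Cfsg.Agent.Lib.Blocks.FongMain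

universe u

section Main

variable {G : Type u} [Group G] [Fintype G] {N : Subgroup G} [hN : N.Normal] [Fintype N]

/-- The values of a character over an invariant character. -/
theorem exists_value_fun_aux {V W : Type} [AddCommGroup V] [Module ℂ V] [FiniteDimensional ℂ V]
    [AddCommGroup W] [Module ℂ W] [FiniteDimensional ℂ W] [Nontrivial W]
    (ρ : Representation ℂ G V) (Y : Representation ℂ N W) [hρ : ρ.IsIrreducible] [hY : Y.IsIrreducible]
    (hinv : ∀ (g : G) (n : N), Y.character (cn g n) = Y.character n)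
    (hU : 0 < finrank ℂ (Uhom ρ Y)) (hdim : finrank ℂ (Uhom ρ Y) * finrank ℂ W = finrank ℂ V) :
    ∃ f : Gam Y → ℂ, ∀ (s k : Gam Y) (a : ℂ), IsSc Y k a →
      ρ.character (s * k).1.1 = a⁻¹ * f s * LinearMap.trace ℂ W
        (((s * k).1.2 : W ≃ₗ[ℂ] W) : W →ₗ[ℂ] W) := by
  have hW : 0 < finrank ℂ W := Module.finrank_pos
  refine ⟨fun s => (repU ρ Y).character s, fun s k a ha => ?_⟩
  have h1 := character_piG ρ Y hW hinv hU hdim (s * k)
  rw [h1]
  congr 1
  show LinearMap.trace ℂ _ (repU ρ Y (s * k)) = a⁻¹ * LinearMap.trace ℂ _ (repU ρ Y s)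
  rw [map_mul, repU_of_isSc ρ Y ha.ne_zero ha]
  rw [Module.End.mul_eq_comp, LinearMap.comp_smul, LinearMap.comp_id, map_smul, smul_eq_mul]

/-- The values of a character over an invariant character. -/
theorem exists_value_fun {d : ℕ} (Y : Representation ℂ N (Fin d → ℂ)) [hY : Y.IsIrreducible]
    (hinv : ∀ (g : G) (n : N), Y.character (cn g n) = Y.character n) (χ : IrrCharacter G)
    (hcon : classInner (fun n : N => (χ : G → ℂ) n) Y.character ≠ 0) :
    ∃ f : Gam Y → ℂ, ∀ (s k : Gam Y) (a : ℂ), IsSc Y k a →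
      (χ : G → ℂ) (s * k).1.1 = a⁻¹ * f s * LinearMap.trace ℂ (Fin d → ℂ)
        (((s * k).1.2 : (Fin d → ℂ) ≃ₗ[ℂ] (Fin d → ℂ)) : (Fin d → ℂ) →ₗ[ℂ] (Fin d → ℂ)) := by
  obtain ⟨χ, c, ρ, hρ, rfl⟩ := χ
  haveI := hρ
  haveI hnt : Nontrivial (Fin d → ℂ) := Cfsg.Agent.Lib.Char.Integrality.nontrivial_of_isIrreducible Y
  obtain ⟨hU, hdim⟩ := uhom_dims ρ Y hinv hcon
  exact exists_value_fun_aux ρ Y hinv hU hdim

variable {p : ℕ} [hp : Fact p.Prime]

/-- **The rank is at most the number of regular classes of the quotient.** -/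
theorem blockRank_le_of_reps {θ : N → ℂ} (hθ : IsIrrCharacter N θ) (hinv : ∀ (g : G) (n : N), θ (cn g n) = θ n)
    (R : Finset (G ⧸ N)) (hR : ∀ u : G ⧸ N, ¬ p ∣ orderOf u → ∃ r ∈ R, IsConj u r)
    (U : Set (IrrCharacter G)) (hU : ∀ χ ∈ U, classInner (fun n : N => (χ : G → ℂ) n) θ ≠ 0) :
    blockRank p U ≤ R.card := by
  classical
  obtain ⟨d, Y, hY, rfl⟩ := hθ
  haveI hnt : Nontrivial (Fin d → ℂ) := Cfsg.Agent.Lib.Char.Integrality.nontrivial_of_isIrreducible Y
  have hW : 0 < finrank ℂ (Fin d → ℂ) := Module.finrank_pos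
  have hex := fun χ : IrrCharacter G => exists_value_fun Y hinv χ
  choose! f hf using hex
  have hlift : ∀ r : G ⧸ N, ∃ s : Gam Y, ((s.1.1 : G) : G ⧸ N) = r := by
    intro r
    obtain ⟨g, rfl⟩ := QuotientGroup.mk_surjective r
    obtain ⟨s, hs⟩ := piG_surjective Y hW hinv g
    have hs' : s.1.1 = g := hs
    exact ⟨s, by rw [hs']⟩
  choose sr hsr using hlift
  have hg : ∀ g : G, ¬ p ∣ orderOf g → ∃ r ∈ R, ∃ c : ℂ, ∀ χ : IrrCharacter G,
      classInner (fun n : N => (χ : G → ℂ) n) Y.character ≠ 0 → (χ : G → ℂ) g = f χ (sr r) * c := by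
    intro g hgp
    have hgb : ¬ p ∣ orderOf ((g : G) : G ⧸ N) := fun h =>
      hgp (h.trans (orderOf_map_dvd (QuotientGroup.mk' N) g))
    obtain ⟨r, hr, hc⟩ := hR _ hgb
    obtain ⟨x, hx⟩ := QuotientGroup.mk_surjective (isConj_iff.mp hc).choose
    have hxg : (x : G ⧸ N) * (g : G ⧸ N) * (x : G ⧸ N)⁻¹ = r := by
      rw [hx]
      exact (isConj_iff.mp hc).choose_spec
    set n : G := ((sr r).1.1)⁻¹ * (x * g * x⁻¹) with hn
    have hnN : n ∈ N := by
      rw [hn, ← QuotientGroup.eq, hsr r, ← hxg]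
      rfl
    obtain ⟨k, hk⟩ := piG_surjective Y hW hinv n
    have hk' : k.1.1 = n := hk
    obtain ⟨a, ha⟩ := exists_isSc k (hk' ▸ hnN)
    refine ⟨r, hr, a⁻¹ * LinearMap.trace ℂ (Fin d → ℂ)
        (((sr r * k).1.2 : (Fin d → ℂ) ≃ₗ[ℂ] (Fin d → ℂ)) : (Fin d → ℂ) →ₗ[ℂ] (Fin d → ℂ)), fun χ hχ => ?_⟩
    have h1 := hf χ hχ (sr r) k a ha
    have h2 : (sr r * k).1.1 = x * g * x⁻¹ := by
      show (sr r).1.1 * k.1.1 = _
      rw [hk', hn]
      group
    rw [h2] at h1
    have h3 : (χ : G → ℂ) (x * g * x⁻¹) = (χ : G → ℂ) g :=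
      Cfsg.Agent.Lib.Blocks.Central.isClassFunction_of_irr χ.2 g x
    rw [← h3, h1]
    ring
  choose! rr hrr cc hcc using hg
  let e : G ⧸ N → G → ℂ := fun r g => if ¬ p ∣ orderOf g ∧ rr g = r then cc g else 0
  have hsub : (fun χ : IrrCharacter G => pRegularPart p (χ : G → ℂ)) '' U ⊆
      Submodule.span ℂ ((fun r => e r) '' (R : Set (G ⧸ N))) := by
    rintro _ ⟨χ, hχ, rfl⟩
    have heq : pRegularPart p (χ : G → ℂ) = ∑ r ∈ R, f χ (sr r) • e r := by
      funext g
      rw [Finset.sum_apply]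
      by_cases hgp : p ∣ orderOf g
      · rw [Cfsg.Agent.Lib.Blocks.KLOne.pRegularPart_apply_of_singular _ hgp]
        symm
        refine Finset.sum_eq_zero fun r _ => ?_
        simp [e, hgp]
      · rw [Cfsg.Agent.Lib.Blocks.KLOne.pRegularPart_apply_of_regular _ hgp]
        rw [Finset.sum_eq_single (rr g)]
        · simp only [Pi.smul_apply, smul_eq_mul, e]
          rw [if_pos ⟨hgp, trivial⟩]
          exact hcc g hgp χ (hU χ hχ)
        · intro r _ hne
          simp only [Pi.smul_apply, smul_eq_mul, e]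
          rw [if_neg (fun h => hne h.2.symm), mul_zero]
        · intro h
          exact absurd (hrr g hgp) h
    show pRegularPart p (χ : G → ℂ) ∈ _
    rw [heq]
    refine Submodule.sum_mem _ fun r hr => Submodule.smul_mem _ _ (Submodule.subset_span ⟨r, hr, rfl⟩)
  have hle := Submodule.finrank_mono (Submodule.span_le.mpr hsub)
  have h2 : finrank ℂ (Submodule.span ℂ ((fun r => e r) '' (R : Set (G ⧸ N)))) ≤ R.card := by
    have h3 : ((fun r => e r) '' (R : Set (G ⧸ N))) = ((R.image e : Finset (G → ℂ)) : Set (G → ℂ)) := by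
      rw [Finset.coe_image]
    rw [h3]
    exact (finrank_span_finset_le_card _).trans Finset.card_image_le
  exact hle.trans h2

end Main

end Cfsg.Agent.Lib.Blocks.Tame
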