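/-
Tame blocks: blocks of `2`-soluble groups with tame defect groups have rank at most two.
-/
import Mathlib
import Cfsg.Agent.Lib.Blocks.TameO2
import Cfsg.Agent.Lib.Blocks.TameO3

set_option autoImplicit false
set_option linter.style.haveILetI false

namespace Cfsg.Agent.Lib.Blocks.Tame

open Cfsg
open Cfsg.Agent.Lib.Blocks.Local Cfsg.Agent.Lib.Blocks.Central Cfsg.Agent.Lib.Blocks.Osima
  Cfsg.Agent.Lib.Blocks.Sections Cfsg.Agent.Lib.Blocks.BlockCount
  Cfsg.Agent.Lib.Blocks.Transport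
open Cfsg.Agent.Lib.Blocks.Fong Cfsg.Agent.Lib.Blocks.KLOne Cfsg.Agent.Lib.Blocks.FongReynolds
  Cfsg.Agent.Lib.Blocks.Covering
open Cfsg.Agent.Lib.Basic.PCore Cfsg.Agent.Lib.Solvable.PSeries
open Cfsg.Agent.Lib.Char.Clifford Cfsg.Agent.Lib.Char.DegreeDvd

universe u

section Tame

/-- The tame property. -/
def IsTame (S : Type*) [Group S] : Prop := ∃ x : S, TameSyl S x

theorem IsTame.of_equiv {S S' : Type*} [Group S] [Group S'] (h : IsTame S) (e : S ≃* S') : IsTame S' := by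
  obtain ⟨x, hx⟩ := h
  exact ⟨e x, hx.of_equiv e⟩

/-- Conjugate subgroups are isomorphic. -/
theorem IsTame.map_conj {G : Type*} [Group G] {D : Subgroup G} (h : IsTame D) (x : G) :
    IsTame (D.map (MulAut.conj x).toMonoidHom) :=
  h.of_equiv (D.equivMapOfInjective _ (MulAut.conj x).injective)

theorem IsTame.of_map_subtype {G : Type*} [Group G] {T : Subgroup G} {D : Subgroup T}
    (h : IsTame (D.map T.subtype)) : IsTame D :=
  h.of_equiv (D.equivMapOfInjective _ T.subtype_injective).symm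

end Tame

section Inv

variable {G : Type u} [Group G] [Fintype G] {M : Ideal AlgInt}

/-- **The case of an invariant character of `O_{2'}(G)`.** -/
theorem rank_le_two_invariant (hM : IsPModular 2 M) (hs : IsPSolvable 2 G) [Fintype (pPrimeCore 2 G)]
    {θ : IrrCharacter (pPrimeCore 2 G)} (hinv : ∀ g : G, conjIrr g θ = θ) (χ₀ : IrrCharacter G)
    (hχ₀ : classInner (fun k : pPrimeCore 2 G => (χ₀ : G → ℂ) k) (θ : pPrimeCore 2 G → ℂ) ≠ 0)
    {D : Subgroup G} (hD : IsDefectGroup 2 M (blockOf M (χ₀ : G → ℂ)) D) (hT : IsTame D) :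
    blockRank 2 (blockOf M (χ₀ : G → ℂ)) ≤ 2 := by
  classical
  haveI : Fact (Nat.Prime 2) := ⟨Nat.prime_two⟩
  haveI hMp := isPrime_of_isPModular hM
  have hKp : ¬ 2 ∣ Nat.card (pPrimeCore 2 G) := fun h =>
    (Nat.Prime.coprime_iff_not_dvd Nat.prime_two).1 (pPrimeCore_coprime (G := G) 2).symm h
  set L := pPrimePCore 2 G with hLdef
  have hKL : (pPrimeCore 2 G) ≤ L := le_stepP 2 _
  have hLK : ∃ k : ℕ, (pPrimeCore 2 G).relIndex L = 2 ^ k := relIndex_stepP _
  obtain ⟨Q₀⟩ : Nonempty (Sylow 2 L) := inferInstance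
  set Q : Subgroup G := (Q₀ : Subgroup L).map L.subtype with hQdef
  have hQL : Q ≤ L := by
    rintro _ ⟨x, -, rfl⟩
    exact x.2
  have hQp : IsPGroup 2 Q := Q₀.isPGroup'.map _
  have hQS : ¬ 2 ∣ Q.relIndex L := by
    have h1 : Q.relIndex L = (Q₀ : Subgroup L).index := by
      show ((Q₀ : Subgroup L).map L.subtype).relIndex L = _
      unfold Subgroup.relIndex Subgroup.subgroupOf
      rw [Subgroup.comap_map_eq_self_of_injective L.subtype_injective]
    rw [h1]
    exact Q₀.not_dvd_index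
  have hCQ : Subgroup.centralizer (Q : Set G) ≤ L := centralizer_sylow_le hs hQL hQp hQS
  obtain ⟨B, hB, hBmem, hBS⟩ := fong_main hM hKp hKL hLK hQL hQp hQS hCQ hinv
  have hχB : χ₀ ∈ B := (hBmem χ₀).2 hχ₀
  have hBeq : blockOf M (χ₀ : G → ℂ) = B := by
    obtain ⟨ξ, rfl⟩ := hB
    exact blockOf_eq_of_mem hχB
  have hBb : IsPBlock M (blockOf M (χ₀ : G → ℂ)) := ⟨χ₀, rfl⟩
  -- the Sylow subgroup of the quotient
  obtain ⟨S⟩ : Nonempty (Sylow 2 G) := inferInstance
  have hSdef : IsDefectGroup 2 M (blockOf M (χ₀ : G → ℂ)) (S : Subgroup G) := by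
    rw [hBeq]
    exact hBS S
  obtain ⟨y, hy⟩ := Cfsg.Agent.Lib.Blocks.HeightZero.exists_map_conj_eq_of_isDefectGroup hM hBb hSdef hD
  have hTS : IsTame (S : Subgroup G) := by
    rw [← hy]
    exact hT.map_conj y
  have hsq : IsPSolvable 2 (G ⧸ (pPrimeCore 2 G)) := isPSolvable_quotient hs (pPrimeCore 2 G)
  have hcore : pPrimeCore 2 (G ⧸ (pPrimeCore 2 G)) = ⊥ := pPrimeCore_quotient 2
  let Sb : Sylow 2 (G ⧸ (pPrimeCore 2 G)) := S.mapSurjective (QuotientGroup.mk'_surjective (pPrimeCore 2 G))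
  have hSb : (Sb : Subgroup (G ⧸ (pPrimeCore 2 G))) = (S : Subgroup G).map (QuotientGroup.mk' (pPrimeCore 2 G)) := Sylow.coe_mapSurjective _ _
  have hinj : Function.Injective (fun s : (S : Subgroup G) => (⟨QuotientGroup.mk' (pPrimeCore 2 G) (s : G), by
      rw [hSb]
      exact ⟨s, s.2, rfl⟩⟩ : (Sb : Subgroup (G ⧸ (pPrimeCore 2 G))))) := by
    intro a b hab
    have h1 : QuotientGroup.mk' (pPrimeCore 2 G) (a : G) = QuotientGroup.mk' (pPrimeCore 2 G) (b : G) := congrArg Subtype.val hab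
    have h2 : (a : G)⁻¹ * b ∈ (pPrimeCore 2 G) := QuotientGroup.eq.mp h1
    obtain ⟨k, hk⟩ := S.isPGroup' (a⁻¹ * b)
    have h3 : ((a : G)⁻¹ * b) ^ 2 ^ k = 1 := by
      have := congrArg Subtype.val hk
      simpa using this
    have h4 : orderOf ((a : G)⁻¹ * b) ∣ 2 ^ k := orderOf_dvd_of_pow_eq_one h3
    have h5 : orderOf ((a : G)⁻¹ * b) ∣ Nat.card (pPrimeCore 2 G) := by
      have := orderOf_dvd_natCard (⟨_, h2⟩ : (pPrimeCore 2 G))
      rwa [Subgroup.orderOf_mk] at this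
    have h6 : Nat.Coprime (2 ^ k) (Nat.card (pPrimeCore 2 G)) :=
      Nat.Coprime.pow_left k ((Nat.Prime.coprime_iff_not_dvd Nat.prime_two).mpr hKp)
    have h7 := Nat.eq_one_of_dvd_coprimes h6 h4 h5
    have h8 := orderOf_eq_one_iff.mp h7
    apply Subtype.ext
    have : (a : G) * ((a : G)⁻¹ * b) = (a : G) * 1 := by rw [h8]
    simpa using this.symm
  have hsurj : Function.Surjective (fun s : (S : Subgroup G) => (⟨QuotientGroup.mk' (pPrimeCore 2 G) (s : G), by
      rw [hSb]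
      exact ⟨s, s.2, rfl⟩⟩ : (Sb : Subgroup (G ⧸ (pPrimeCore 2 G))))) := by
    rintro ⟨b, hb⟩
    rw [hSb] at hb
    obtain ⟨s, hs', rfl⟩ := hb
    exact ⟨⟨s, hs'⟩, rfl⟩
  let eS : (S : Subgroup G) ≃* (Sb : Subgroup (G ⧸ (pPrimeCore 2 G))) :=
    { Equiv.ofBijective _ ⟨hinj, hsurj⟩ with
      map_mul' := fun a b => Subtype.ext (map_mul (QuotientGroup.mk' (pPrimeCore 2 G)) (a : G) b) }
  obtain ⟨x, hx⟩ := hTS.of_equiv eS
  obtain ⟨r, hr⟩ := exists_odd_rep hsq hcore Sb hx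
  have hR : ∀ u : G ⧸ (pPrimeCore 2 G), ¬ 2 ∣ orderOf u → ∃ w ∈ ({1, r} : Finset (G ⧸ (pPrimeCore 2 G))), IsConj u w := by
    intro u hu
    rcases hr u hu with h1 | h1
    · exact ⟨1, by simp, by rw [h1]⟩
    · exact ⟨r, by simp, h1⟩
  have hle := Cfsg.Agent.Lib.Blocks.Tame.blockRank_le_of_reps (p := 2) (θ := (θ : (pPrimeCore 2 G) → ℂ)) θ.2
    (fun g n => by
      have h1 := congrFun (congrArg Subtype.val (hinv g)) n
      rw [conjIrr_apply] at h1
      exact h1) {1, r} hR (blockOf M (χ₀ : G → ℂ)) (fun χ hχ => by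
      rw [hBeq] at hχ
      exact (hBmem χ).mp hχ)
  refine hle.trans ?_
  exact Finset.card_le_two

end Inv

section Ind

variable {M : Ideal AlgInt}

/-- **A block of a `2`-soluble group with tame defect group has rank at most two.** -/
theorem rank_le_two_main (hM : IsPModular 2 M) : ∀ (n : ℕ) (G : Type u) [Group G] [Fintype G], Nat.card G = n →
    IsPSolvable 2 G → ∀ χ₀ : IrrCharacter G, ∀ D : Subgroup G,
    IsDefectGroup 2 M (blockOf M (χ₀ : G → ℂ)) D → IsTame D →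
    blockRank 2 (blockOf M (χ₀ : G → ℂ)) ≤ 2 := by
  intro n
  induction n using Nat.strong_induction_on with
  | _ n ih =>
    intro G _ _ hn hs χ₀ D hD hTD
    classical
    haveI : Fact (Nat.Prime 2) := ⟨Nat.prime_two⟩
    haveI hMp := isPrime_of_isPModular hM
    letI : Fintype (pPrimeCore 2 G) := Fintype.ofFinite _
    have hKp : ¬ 2 ∣ Nat.card (pPrimeCore 2 G) := fun h =>
      (Nat.Prime.coprime_iff_not_dvd Nat.prime_two).1 (pPrimeCore_coprime (G := G) 2).symm h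
    obtain ⟨θ, hθ⟩ := exists_constituent (N := pPrimeCore 2 G) χ₀.2
    by_cases hinv : ∀ g : G, conjIrr g θ = θ
    · exact rank_le_two_invariant hM hs hinv χ₀ hθ hD hTD
    -- the stabilizer
    have hb : IsPBlock M ({θ} : Set (IrrCharacter (pPrimeCore 2 G))) := by
      refine ⟨θ, ?_⟩
      ext ψ
      constructor
      · intro h
        rw [Set.mem_singleton_iff.mp h]
        exact sameBlock_refl _
      · intro h
        exact Cfsg.Agent.Lib.Blocks.PSolvHeight.eq_of_mem_blockOf hM hKp h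
    let T : Subgroup G := Cfsg.Agent.Lib.Blocks.Knorr.blockStabilizer (G := G) _ hb
    letI : Fintype T := Fintype.ofFinite _
    have hS : IsStabilizer ({θ} : Set (IrrCharacter (pPrimeCore 2 G))) T :=
      Cfsg.Agent.Lib.Blocks.Knorr.isStabilizer_blockStabilizer hb
    have hNT : pPrimeCore 2 G ≤ T := Cfsg.Agent.Lib.Blocks.Knorr.le_blockStabilizer hb
    have hTtop : T ≠ ⊤ := by
      intro h0
      apply hinv
      intro g
      have h1 : g ∈ T := by rw [h0]; trivial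
      exact (hS g).1 h1 θ rfl
    have hTcard : Nat.card T < n := by
      rw [← hn]
      refine lt_of_le_of_ne (Subgroup.card_le_card_group T) fun h => hTtop ?_
      exact Subgroup.eq_top_of_card_eq T h
    have hBb : IsPBlock M (blockOf M (χ₀ : G → ℂ)) := ⟨χ₀, rfl⟩
    obtain ⟨B', hB', ⟨ψ₀, hψ₀, θ', hθ', hc⟩, hind⟩ := exists_induced_of_covers hNT hb hS hBb (χ := χ₀)
      (sameBlock_refl _) (Set.mem_singleton θ) hθ
    obtain ⟨B₁, hi₁, -, hirr, hmem⟩ := induced_of_covers hNT hb hS hB' hψ₀ hθ' hc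
    have hBB : blockOf M (χ₀ : G → ℂ) = B₁ := Cfsg.Agent.Lib.Blocks.FirstMain2.induced_unique hind hi₁
    rw [← hBB] at hmem
    have hall : ∀ ψ ∈ B', AllIn hNT ({θ} : Set (IrrCharacter (pPrimeCore 2 G))) (ψ : T → ℂ) := by
      intro ψ hψ
      obtain ⟨ξ, rfl⟩ := id hB'
      exact allIn_of_sameBlock hNT hb hS ψ₀.2 ψ.2 (sameBlock_trans (sameBlock_symm hψ₀) hψ) hθ' hc
    have hrank : blockRank 2 (blockOf M (χ₀ : G → ℂ)) = blockRank 2 B' :=
      blockRank_eq_of_induced hKp hb hS hNT hall hirr hmem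
    obtain ⟨ξ, rfl⟩ := id hB'
    -- a defect group of the block of `T`
    obtain ⟨g₀, hg₀⟩ := Cfsg.Agent.Lib.Blocks.Osima.exists_isDefectClass (M := M) hB'
    obtain ⟨P⟩ : Nonempty (Sylow 2 (Subgroup.centralizer ({g₀} : Set T))) := inferInstance
    have hD' : IsDefectGroup 2 M (blockOf M (ξ : T → ℂ))
        ((P : Subgroup (Subgroup.centralizer ({g₀} : Set T))).map (Subgroup.centralizer ({g₀} : Set T)).subtype) :=
      ⟨g₀, hg₀, P, rfl⟩
    have hT' : ∀ g : G, g ∈ T ↔ ∀ θ₁ ∈ ({θ} : Set (IrrCharacter (pPrimeCore 2 G))), ∀ θ₂ : IrrCharacter (pPrimeCore 2 G),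
        (∀ n : pPrimeCore 2 G, (θ₂ : pPrimeCore 2 G → ℂ) n =
          (θ₁ : pPrimeCore 2 G → ℂ) ⟨g * n * g⁻¹, (inferInstance : (pPrimeCore 2 G).Normal).conj_mem n n.2 g⟩) →
        θ₂ ∈ ({θ} : Set (IrrCharacter (pPrimeCore 2 G))) := by
      intro g
      rw [hS g]
      constructor
      · intro h θ₁ hθ₁ θ₂ hθ₂
        have h1 : θ₂ = conjIrr g θ₁ := by
          apply Subtype.ext
          funext m
          rw [conjIrr_apply, hθ₂ m]
        rw [h1]
        exact h θ₁ hθ₁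
      · intro h θ₁ hθ₁
        exact h θ₁ hθ₁ _ (fun m => conjIrr_apply g θ₁ m)
    have hDT := (Cfsg.Agent.S4436.result 2 M hM (pPrimeCore 2 G) _ hb T hT' hNT _ hB'
      ⟨ψ₀, hψ₀, θ', hθ', hc⟩ _ hind).1 _ hD'
    obtain ⟨x, hx⟩ := Cfsg.Agent.Lib.Blocks.HeightZero.exists_map_conj_eq_of_isDefectGroup hM hBb hDT hD
    have hTD' : IsTame ((P : Subgroup (Subgroup.centralizer ({g₀} : Set T))).map (Subgroup.centralizer ({g₀} : Set T)).subtype) := by
      apply IsTame.of_map_subtype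
      rw [← hx]
      exact hTD.map_conj x
    rw [hrank]
    exact ih _ hTcard T rfl (isPSolvable_subgroup hs T) ξ _ hD' hTD'

/-- **A block of a `2`-soluble group with tame defect group has rank at most two.** -/
theorem rank_le_two {G : Type u} [Group G] [Fintype G] (hM : IsPModular 2 M) (hs : IsPSolvable 2 G)
    {B : Set (IrrCharacter G)} (hB : IsPBlock M B) {D : Subgroup G} (hD : IsDefectGroup 2 M B D) (hT : IsTame D) :
    blockRank 2 B ≤ 2 := by
  obtain ⟨χ₀, rfl⟩ := hB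
  exact rank_le_two_main hM _ G rfl hs χ₀ D hD hT

end Ind


end Cfsg.Agent.Lib.Blocks.Tame
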