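/-
Tame blocks: the defect group of the image of a block in the quotient by a central `p`-subgroup.
-/
import Mathlib
import Cfsg.Agent.Lib.Blocks.CentralQuot
import Cfsg.Agent.Lib.Blocks.HeightZero
import Cfsg.Agent.S0907

set_option autoImplicit false
set_option linter.style.haveILetI false

namespace Cfsg.Agent.Lib.Blocks.Tame

open Cfsg Cfsg.Agent.Lib.Blocks.Local Cfsg.Agent.Lib.Blocks.Central Cfsg.Agent.Lib.Blocks.Osima
open Cfsg.Agent.Lib.Blocks.CentralQuot
open scoped ComplexConjugate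

universe u

section Quot

variable {H : Type u} [Group H] [Fintype H] {M : Ideal AlgInt} [hMp : M.IsPrime] {p : ℕ} [hp : Fact p.Prime]

/-- An element of order prime to `p` conjugated to itself times a central `p`-element. -/
lemma eq_of_conj_central {g c z : H} (hg : ¬ p ∣ orderOf g) {k : ℕ} (hz : z ^ p ^ k = 1)
    (hc : ∀ y : H, y * z = z * y) (h : c * g * c⁻¹ = g * z) : z = 1 := by
  have h1 : orderOf (g * z) = orderOf g := by
    rw [← h, ← MulAut.conj_apply, MulEquiv.orderOf_eq]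
  have h2 : (g * z) ^ orderOf g = 1 := by
    rw [← h1, pow_orderOf_eq_one]
  have h3 : z ^ orderOf g = 1 := by
    have hcomm : Commute g z := hc g
    rw [hcomm.mul_pow, pow_orderOf_eq_one, one_mul] at h2
    exact h2
  have h4 : orderOf z ∣ orderOf g := orderOf_dvd_of_pow_eq_one h3
  have h5 : orderOf z ∣ p ^ k := orderOf_dvd_of_pow_eq_one hz
  have h6 : Nat.Coprime (orderOf g) (p ^ k) :=
    Nat.Coprime.pow_right k ((Nat.Prime.coprime_iff_not_dvd hp.out).mpr hg).symm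
  exact orderOf_eq_one_iff.mp (Nat.eq_one_of_dvd_coprimes h6 h4 h5)

variable (Z : Subgroup H) [hZn : Z.Normal]

/-- The centralizer of a `p`-regular element in the quotient by a central `p`-subgroup. -/
lemma mem_centralizer_of_quot (hZ : ∀ z ∈ Z, ∀ g : H, g * z = z * g) (hZp : IsPGroup p Z) {g c : H}
    (hg : ¬ p ∣ orderOf g) (hc : (c : H ⧸ Z) ∈ Subgroup.centralizer ({(g : H ⧸ Z)} : Set (H ⧸ Z))) :
    c ∈ Subgroup.centralizer ({g} : Set H) := by
  rw [Subgroup.mem_centralizer_singleton_iff] at hc ⊢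
  have h1 : ((c * g : H) : H ⧸ Z) = ((g * c : H) : H ⧸ Z) := by
    rw [QuotientGroup.mk_mul, QuotientGroup.mk_mul, hc]
  have h2 : (g * c)⁻¹ * (c * g) ∈ Z := by
    have := QuotientGroup.eq.mp h1.symm
    exact this
  set z := (g * c)⁻¹ * (c * g) with hz
  obtain ⟨k, hk⟩ := hZp ⟨z, h2⟩
  have hk' : z ^ p ^ k = 1 := by
    have := congrArg Subtype.val hk
    simpa using this
  have h3 : c * g * c⁻¹ = g * (c * z * c⁻¹) := by
    rw [hz]
    group
  have h4 : c * z * c⁻¹ = z := by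
    rw [hZ z h2 c]
    group
  rw [h4] at h3
  have h5 := eq_of_conj_central hg hk' (fun y => hZ z h2 y) h3
  rw [h5, mul_one] at h3
  calc c * g = (c * g * c⁻¹) * c := by group
    _ = g * c := by rw [h3]

lemma index_centralizer_quot (hZ : ∀ z ∈ Z, ∀ g : H, g * z = z * g) (hZp : IsPGroup p Z) {g : H}
    (hg : ¬ p ∣ orderOf g) :
    (Subgroup.centralizer ({(g : H ⧸ Z)} : Set (H ⧸ Z))).index = (Subgroup.centralizer ({g} : Set H)).index := by
  have h1 : (Subgroup.centralizer ({(g : H ⧸ Z)} : Set (H ⧸ Z))).comap (QuotientGroup.mk' Z) =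
      Subgroup.centralizer ({g} : Set H) := by
    ext c
    constructor
    · intro h
      exact mem_centralizer_of_quot Z hZ hZp hg h
    · intro h
      rw [Subgroup.mem_centralizer_singleton_iff] at h
      show (c : H ⧸ Z) ∈ Subgroup.centralizer ({(g : H ⧸ Z)} : Set (H ⧸ Z))
      rw [Subgroup.mem_centralizer_singleton_iff, ← QuotientGroup.mk_mul, h, QuotientGroup.mk_mul]
  rw [← h1, Subgroup.index_comap_of_surjective _ (QuotientGroup.mk'_surjective Z)]

/-- The idempotent coefficient of the image block. -/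
lemma blockCoeff_quotBlock [Fintype Z] [Fintype (H ⧸ Z)] (hM : IsPModular p M) (hZ : ∀ z ∈ Z, ∀ g : H, g * z = z * g) (hZp : IsPGroup p Z)
    {b : Set (IrrCharacter H)} (hb : IsPBlock M b) {g : H} (hg : ¬ p ∣ orderOf g) :
    blockCoeff (quotBlock Z b) (g : H ⧸ Z) = blockCoeff b g := by
  classical
  -- the vanishing on the singular elements
  have h0 : ∑ z : Z, blockCoeff b (g * z) = blockCoeff b g := by
    rw [Finset.sum_eq_single (1 : Z)]
    · simp
    · intro z _ hz1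
      have hz1' : (z : H) ≠ 1 := fun h => hz1 (Subtype.ext h)
      obtain ⟨k, hk⟩ := (IsPGroup.iff_orderOf.mp hZp) z
      have hk' : orderOf (z : H) = p ^ k := by rw [Subgroup.orderOf_coe]; exact hk
      have hdvd := dvd_orderOf_mul (hZ z z.2 g) hg hk' hz1'
      have h1 := Cfsg.Agent.S0907.result p M hM b hb 1 (g * z) (by simpa using hp.out.one_lt.ne') hdvd
      have h2 : blockCoeff b (g * z) = (Nat.card H : ℂ)⁻¹ * ∑ᶠ χ ∈ b, (χ : H → ℂ) 1 * conj ((χ : H → ℂ) (g * z)) := rfl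
      rw [h2, h1, mul_zero]
    · intro h
      exact absurd (Finset.mem_univ _) h
  rw [← h0]
  -- the sum over the cosets
  have hcard : Nat.card (H ⧸ Z) * Nat.card Z = Nat.card H := (Subgroup.card_eq_card_quotient_mul_card_subgroup Z).symm
  have hc1 : (Nat.card H : ℂ) ≠ 0 := by exact_mod_cast Nat.card_pos.ne'
  have hc2 : (Nat.card (H ⧸ Z) : ℂ) ≠ 0 := by exact_mod_cast Nat.card_pos.ne'
  have hc3 : (Nat.card Z : ℂ) ≠ 0 := by exact_mod_cast Nat.card_pos.ne'
  have hL : ∀ y : H ⧸ Z, blockCoeff (quotBlock Z b) y = (Nat.card (H ⧸ Z) : ℂ)⁻¹ *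
      ∑ η ∈ Finset.univ.filter (· ∈ quotBlock Z b), (η : H ⧸ Z → ℂ) 1 * conj ((η : H ⧸ Z → ℂ) y) := blockCoeff_eq_sum _
  rw [hL]
  simp only [blockCoeff_eq_sum]
  rw [← Finset.mul_sum, Finset.sum_comm]
  have hin : ∀ χ ∈ Finset.univ.filter (· ∈ b), ∑ z : Z, (χ : H → ℂ) 1 * conj ((χ : H → ℂ) (g * z)) =
      (χ : H → ℂ) 1 * conj (∑ z : Z, (χ : H → ℂ) (g * z)) := by
    intro χ _
    rw [map_sum, Finset.mul_sum]
  rw [Finset.sum_congr rfl hin]
  have hinj : Function.Injective (infl Z) := by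
    intro η η' h
    apply Subtype.ext
    funext y
    obtain ⟨y, rfl⟩ := QuotientGroup.mk_surjective y
    have := congrFun (congrArg Subtype.val h) y
    exact this
  have hF : ∀ χ : IrrCharacter H, (χ : H → ℂ) 1 * conj (∑ z : Z, (χ : H → ℂ) (g * z)) =
      if ∀ n ∈ Z, (χ : H → ℂ) n = (χ : H → ℂ) 1 then (Nat.card Z : ℂ) * ((χ : H → ℂ) 1 * conj ((χ : H → ℂ) g)) else 0 := by
    intro χ
    rw [sum_mul_central Z hZ χ.2 g]
    split_ifs
    · rw [map_mul, Complex.conj_natCast]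
      ring
    · simp
  simp only [hF]
  rw [← Finset.sum_filter]
  have himg : (Finset.univ.filter (· ∈ b)).filter (fun χ : IrrCharacter H => ∀ n ∈ Z, (χ : H → ℂ) n = (χ : H → ℂ) 1) =
      (Finset.univ.filter (· ∈ quotBlock Z b)).image (infl Z) := by
    ext χ
    simp only [Finset.mem_filter, Finset.mem_univ, true_and, Finset.mem_image]
    constructor
    · rintro ⟨hχ, hk⟩
      obtain ⟨η₁, hη₁⟩ := Cfsg.Agent.Lib.Blocks.Kernel.exists_irr_of_kernel Z χ.2 hk
      have hη₀ : χ = infl Z η₁ := Subtype.ext hη₁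
      exact ⟨η₁, show infl Z η₁ ∈ b from hη₀ ▸ hχ, hη₀.symm⟩
    · rintro ⟨η, hη, rfl⟩
      refine ⟨hη, fun n hn => ?_⟩
      have h1 : ((n : H) : H ⧸ Z) = 1 := (QuotientGroup.eq_one_iff n).mpr hn
      show (η : H ⧸ Z → ℂ) (n : H) = (η : H ⧸ Z → ℂ) ((1 : H) : H ⧸ Z)
      rw [h1]
      rfl
  rw [himg, Finset.sum_image (fun a _ b _ h => hinj h), ← hcard]
  have h1 : ((Nat.card (H ⧸ Z) * Nat.card Z : ℕ) : ℂ)⁻¹ = (Nat.card (H ⧸ Z) : ℂ)⁻¹ * (Nat.card Z : ℂ)⁻¹ := by
    push_cast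
    rw [mul_inv]
  rw [h1, mul_assoc]
  congr 1
  rw [Finset.mul_sum]
  refine Finset.sum_congr rfl fun η _ => ?_
  show _ = (Nat.card Z : ℂ)⁻¹ * ((Nat.card Z : ℂ) * ((η : H ⧸ Z → ℂ) ((1 : H) : H ⧸ Z) * conj ((η : H ⧸ Z → ℂ) (g : H ⧸ Z))))
  rw [inv_mul_cancel_left₀ hc3]
  rfl

/-- The central character is unchanged. -/
lemma centralChar_quot (hZ : ∀ z ∈ Z, ∀ g : H, g * z = z * g) (hZp : IsPGroup p Z) {g : H}
    (hg : ¬ p ∣ orderOf g) (η : IrrCharacter (H ⧸ Z)) :
    centralChar (η : H ⧸ Z → ℂ) (g : H ⧸ Z) = centralChar (infl Z η : H → ℂ) g := by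
  unfold centralChar
  rw [index_centralizer_quot Z hZ hZp hg]
  rfl

/-- **The image of a defect group is a defect group of the image block.** -/
theorem isDefectGroup_quotBlock [Fintype Z] [Fintype (H ⧸ Z)] (hM : IsPModular p M)
    (hZ : ∀ z ∈ Z, ∀ g : H, g * z = z * g) (hZp : IsPGroup p Z)
    {b : Set (IrrCharacter H)} (hb : IsPBlock M b) {D : Subgroup H} (hD : IsDefectGroup p M b D) :
    IsDefectGroup p M (quotBlock Z b) (D.map (QuotientGroup.mk' Z)) := by
  classical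
  obtain ⟨g, hg, P, rfl⟩ := hD
  have hreg := Cfsg.Agent.Lib.Blocks.HeightZero.isPRegular_of_isDefectClass hM hb hg
  refine ⟨(g : H ⧸ Z), ⟨?_, ?_, ?_⟩, ?_⟩
  · rw [blockCoeff_quotBlock Z hM hZ hZp hb hreg]
    exact hg.1
  · rw [blockCoeff_quotBlock Z hM hZ hZp hb hreg]
    exact hg.2.1
  · intro η hη
    rw [centralChar_quot Z hZ hZp hreg]
    exact hg.2.2 _ hη
  · -- the map of centralizers
    let f : Subgroup.centralizer ({g} : Set H) →* Subgroup.centralizer ({(g : H ⧸ Z)} : Set (H ⧸ Z)) :=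
      { toFun := fun c => ⟨(c : H), by
          have h := Subgroup.mem_centralizer_singleton_iff.mp c.2
          rw [Subgroup.mem_centralizer_singleton_iff, ← QuotientGroup.mk_mul, h, QuotientGroup.mk_mul]⟩
        map_one' := rfl
        map_mul' := fun _ _ => rfl }
    have hf : Function.Surjective f := by
      rintro ⟨c, hc⟩
      obtain ⟨c, rfl⟩ := QuotientGroup.mk_surjective c
      exact ⟨⟨c, mem_centralizer_of_quot Z hZ hZp hreg hc⟩, rfl⟩
    refine ⟨P.mapSurjective hf, ?_⟩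
    rw [Sylow.coe_mapSurjective]
    ext y
    constructor
    · rintro ⟨_, ⟨c, hc, rfl⟩, rfl⟩
      exact ⟨f c, ⟨c, hc, rfl⟩, rfl⟩
    · rintro ⟨_, ⟨c, hc, rfl⟩, rfl⟩
      exact ⟨_, ⟨c, hc, rfl⟩, rfl⟩

end Quot

end Cfsg.Agent.Lib.Blocks.Tame
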