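/-
Tame blocks: semidihedral groups, and the tameness of dihedral and semidihedral groups.
-/
import Mathlib
import Cfsg.Agent.Lib.Blocks.TameO1

set_option autoImplicit false
set_option linter.style.haveILetI false

namespace Cfsg.Agent.Lib.Blocks.Tame

open Cfsg

universe u

section Dih

variable {G : Type u} [Group G] {D : Subgroup G} {x a : G} {N : ℕ}

/-- A dihedral group is tame. -/
theorem DihD.tameSyl [Finite G] (hd : DihD D x a N) (hcard : ∃ k : ℕ, Nat.card D = 2 ^ k) :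
    TameSyl D ⟨x, hd.hxD⟩ := by
  have hmem : ∀ g : D, g ∉ Subgroup.zpowers (⟨x, hd.hxD⟩ : D) → ∃ t : ℕ, (g : G) = a * x ^ t := by
    intro g hg
    rcases hd.hcov g g.2 with ⟨t, ht⟩ | ht
    · exfalso
      apply hg
      refine ⟨t, Subtype.ext ?_⟩
      simp [ht]
    · exact ht
  have hN := hd.N_pos
  have hN2 : 2 ≤ N := by
    obtain ⟨m, hm⟩ := hd.hpow
    rw [hm, pow_succ]
    have : 0 < 2 ^ m := by positivity
    omega
  refine ⟨?_, ?_, ?_⟩
  · obtain ⟨k, hk⟩ := hcard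
    exact IsPGroup.of_card hk
  · intro g g' hg hg'
    obtain ⟨t, ht⟩ := hmem g hg
    obtain ⟨s, hs⟩ := hmem g' hg'
    have h1 := hd.a_conj_pow t
    have h2 : ((g * g' : D) : G) = (x ^ t)⁻¹ * x ^ s := by
      rw [Subgroup.coe_mul, ht, hs, ← h1]
      have h3 := hd.haa
      calc a * x ^ t * (a * x ^ s) = a * x ^ t * a⁻¹ * (a * a) * x ^ s := by group
        _ = _ := by rw [h3]; group
    refine ⟨(-(t : ℤ)) + s, Subtype.ext ?_⟩
    show (((⟨x, hd.hxD⟩ : D) ^ ((-(t : ℤ)) + s) : D) : G) = _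
    rw [h2, Subgroup.coe_zpow, zpow_add, zpow_neg, zpow_natCast, zpow_natCast]
  · intro g hg
    obtain ⟨t, ht⟩ := hmem g hg
    have h1 : g * g = 1 := by
      apply Subtype.ext
      rw [Subgroup.coe_mul, ht]
      exact hd.refl_sq t
    have h2 : orderOf g ∣ 2 := orderOf_dvd_of_pow_eq_one (by rw [sq]; exact h1)
    have h3 := Nat.le_of_dvd (by norm_num) h2
    have h4 : orderOf (⟨x, hd.hxD⟩ : D) = 2 * N := by rw [Subgroup.orderOf_mk, hd.hxo]
    rw [h4]
    omega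

end Dih

section SD

variable {S : Type*} [Group S] [Finite S] {x y : S} {n : ℕ}

/-- The data of a semidihedral group. -/
structure SDD (x y : S) (n : ℕ) : Prop where
  hn : 3 ≤ n
  hcard : Nat.card S = 2 ^ (n + 1)
  hxo : orderOf x = 2 ^ n
  hyo : orderOf y = 2
  hyx : y * x * y⁻¹ = x ^ (2 ^ (n - 1) - 1)

namespace SDD

variable (h : SDD x y n)
include h

theorem yy : y * y = 1 := by
  rw [← sq, ← h.hyo, pow_orderOf_eq_one]

theorem y_inv : y⁻¹ = y := inv_eq_of_mul_eq_one_left h.yy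

theorem two_pow : (2 : ℕ) ^ n = 2 * 2 ^ (n - 1) := by
  rw [← pow_succ']
  congr 1
  have := h.hn
  omega

theorem two_pow' : (2 : ℕ) ^ (n - 1) = 2 * 2 ^ (n - 2) := by
  rw [← pow_succ']
  congr 1
  have := h.hn
  omega

theorem four_le : 4 ≤ 2 ^ (n - 2) * 2 := by
  have := h.hn
  have h1 : (2 : ℕ) ^ 1 ≤ 2 ^ (n - 2) := Nat.pow_le_pow_right (by norm_num) (by omega)
  omega

theorem not_comm : y * x ≠ x * y := by
  intro he
  have h1 : y * x * y⁻¹ = x := by
    rw [he]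
    group
  rw [h.hyx] at h1
  have h2 : x ^ (2 ^ (n - 1) - 1) = x ^ 1 := by rw [h1, pow_one]
  rw [pow_eq_pow_iff_modEq, h.hxo] at h2
  have h3 := h.four_le
  have h4 := h.two_pow
  have h5 := h.two_pow'
  have h6 : 2 ^ (n - 1) - 1 < 2 ^ n := by omega
  have h7 : 1 < 2 ^ n := by omega
  have h8 := Nat.ModEq.eq_of_lt_of_lt h2 h6 h7
  omega

theorem y_notMem : y ∉ Subgroup.zpowers x := by
  intro h1
  apply h.not_comm
  obtain ⟨k, hk⟩ := h1
  rw [← hk]
  exact ((Commute.refl x).zpow_left k).eq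

theorem index_two : (Subgroup.zpowers x).index = 2 := by
  have h1 := Subgroup.card_mul_index (Subgroup.zpowers x)
  rw [Nat.card_zpowers, h.hxo, h.hcard, pow_succ] at h1
  have hpos : 0 < 2 ^ n := by positivity
  exact Nat.eq_of_mul_eq_mul_left hpos h1

theorem cover (g : S) (hg : g ∉ Subgroup.zpowers x) : ∃ t : ℕ, g = y * x ^ t := by
  have h1 : y⁻¹ * g ∈ Subgroup.zpowers x := by
    rw [Subgroup.mul_mem_iff_of_index_two h.index_two]
    refine iff_of_false (fun h2 => h.y_notMem ?_) hg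
    simpa using Subgroup.inv_mem _ h2
  obtain ⟨t, ht⟩ := (mem_powers_iff_mem_zpowers).mpr h1
  refine ⟨t, ?_⟩
  have ht' : x ^ t = y⁻¹ * g := ht
  rw [ht']
  group

theorem conj_pow (t : ℕ) : y * x ^ t * y⁻¹ = x ^ ((2 ^ (n - 1) - 1) * t) := by
  rw [← _root_.conj_pow, h.hyx, pow_mul]

theorem refl_sq (t : ℕ) : (y * x ^ t) * (y * x ^ t) = x ^ (2 ^ (n - 1) * t) := by
  have h1 := h.conj_pow t
  have h2 : 2 ^ (n - 1) * t = (2 ^ (n - 1) - 1) * t + t := by
    have : 1 ≤ 2 ^ (n - 1) := Nat.one_le_two_pow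
    obtain ⟨c, hc⟩ : ∃ c, 2 ^ (n - 1) = c + 1 := ⟨2 ^ (n - 1) - 1, by omega⟩
    rw [hc]
    simp
    ring
  rw [h2, pow_add, ← h1]
  have h3 := h.yy
  calc y * x ^ t * (y * x ^ t) = y * x ^ t * y⁻¹ * (y * y) * x ^ t := by group
    _ = _ := by rw [h3]; group

theorem refl_pow_four (t : ℕ) : (y * x ^ t) ^ 4 = 1 := by
  have h1 : (y * x ^ t) ^ 4 = ((y * x ^ t) * (y * x ^ t)) * ((y * x ^ t) * (y * x ^ t)) := by
    simp only [pow_succ, pow_zero, one_mul, mul_assoc]
  rw [h1, h.refl_sq, ← pow_add, ← two_mul, ← mul_assoc, ← pow_succ', ]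
  have h2 : 2 ^ (n - 1 + 1) = 2 ^ n := by
    congr 1
    have := h.hn
    omega
  rw [h2, ← h.hxo, pow_mul, pow_orderOf_eq_one, one_pow]

/-- A semidihedral group is tame. -/
theorem tameSyl : TameSyl S x := by
  refine ⟨?_, ?_, ?_⟩
  · exact IsPGroup.of_card h.hcard
  · intro g g' hg hg'
    rw [Subgroup.mul_mem_iff_of_index_two h.index_two]
    exact iff_of_false hg hg'
  · intro g hg
    obtain ⟨t, rfl⟩ := h.cover g hg
    have h1 : orderOf (y * x ^ t) ∣ 4 := orderOf_dvd_of_pow_eq_one (h.refl_pow_four t)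
    have h2 := Nat.le_of_dvd (by norm_num) h1
    rw [h.hxo]
    have h3 := h.two_pow
    have h4 := h.two_pow'
    have h5 := h.four_le
    omega

/-- The central involution of a semidihedral group. -/
theorem eq_center {t : S} (ht : ∀ g : S, g * t = t * g) (htt : t * t = 1) (ht1 : t ≠ 1) :
    t = x ^ (2 ^ (n - 1)) := by
  by_cases hmem : t ∈ Subgroup.zpowers x
  · obtain ⟨s, rfl⟩ : ∃ s : ℕ, x ^ s = t := (mem_powers_iff_mem_zpowers).mpr hmem
    have h1 : x ^ (2 * s) = 1 := by rw [two_mul, pow_add, htt]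
    have h2 := orderOf_dvd_of_pow_eq_one h1
    rw [h.hxo, h.two_pow] at h2
    have h3 : 2 ^ (n - 1) ∣ s := Nat.dvd_of_mul_dvd_mul_left (by norm_num) h2
    obtain ⟨q, rfl⟩ := h3
    have hq : q % 2 = 1 := by
      by_contra hq0
      apply ht1
      have h4 : q = 2 * (q / 2) := by omega
      rw [h4, ← mul_assoc, mul_comm (2 ^ (n - 1)) 2, ← h.two_pow, pow_mul, ← h.hxo, pow_orderOf_eq_one, one_pow]
    have h4 : q = 2 * (q / 2) + 1 := by omega
    rw [h4, mul_add, mul_one, ← mul_assoc, mul_comm (2 ^ (n - 1)) 2, ← h.two_pow, pow_add, pow_mul, ← h.hxo,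
      pow_orderOf_eq_one, one_pow, one_mul]
  · exfalso
    obtain ⟨s, rfl⟩ := h.cover t hmem
    apply h.not_comm
    have h1 := ht x
    have h2 : y * x ^ s * x = y * x * x ^ s := by
      rw [mul_assoc, mul_assoc, ← pow_succ, ← pow_succ']
    rw [← mul_assoc x, h2] at h1
    exact (mul_right_cancel h1).symm

end SDD

end SD

end Cfsg.Agent.Lib.Blocks.Tame
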