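/-
Tame blocks: counting products in a conjugation-closed set.
-/
import Mathlib
import Cfsg.Agent.Lib.Blocks.Central
import Cfsg.Agent.Lib.Blocks.NilpData
import Cfsg.Agent.Lib.Char.CompleteCor

set_option autoImplicit false
set_option linter.style.haveILetI false

namespace Cfsg.Agent.Lib.Blocks.Tame

open Cfsg Cfsg.Agent.Lib.Blocks.Central
open Cfsg.Agent.Lib.Char.Ortho
open scoped ComplexConjugate

universe u

section Pc

variable {K : Type u} [Group K] [Fintype K]

open Classical in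
/-- The indicator function of a set. -/
noncomputable def indF (T : Finset K) (s : K) : ℂ := if s ∈ T then 1 else 0

lemma indF_mem {T : Finset K} {s : K} (hs : s ∈ T) : indF T s = 1 := by
  classical
  simp [indF, hs]

lemma indF_not_mem {T : Finset K} {s : K} (hs : s ∉ T) : indF T s = 0 := by
  classical
  simp [indF, hs]

open Classical in
/-- The factorizations in a set. -/
noncomputable def pcSet (X : Finset K) (w : K) : Finset (K × K) :=
  (X ×ˢ X).filter (fun p : K × K => p.1 * p.2 = w)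

lemma mem_pcSet {X : Finset K} {w : K} {p : K × K} : p ∈ pcSet X w ↔ p.1 ∈ X ∧ p.2 ∈ X ∧ p.1 * p.2 = w := by
  classical
  simp [pcSet, and_assoc]

/-- The number of factorizations in a set. -/
noncomputable def pc (X : Finset K) (w : K) : ℂ := ((pcSet X w).card : ℂ)

open Classical in
lemma sum_pc_mul (X : Finset K) (f : K → ℂ) : ∑ w, pc X w * f w = ∑ s ∈ X, ∑ t ∈ X, f (s * t) := by
  have h1 : ∀ w, pc X w = ∑ p ∈ X ×ˢ X, if p.1 * p.2 = w then (1 : ℂ) else 0 := by
    intro w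
    rw [pc, pcSet, Finset.sum_boole]
  simp only [h1, Finset.sum_mul]
  rw [Finset.sum_comm, Finset.sum_product]
  refine Finset.sum_congr rfl fun s _ => Finset.sum_congr rfl fun t _ => ?_
  simp only [ite_mul, one_mul, zero_mul]
  rw [Finset.sum_ite_eq]
  simp

open Classical in
lemma pc_isClass (X : Finset K) (hX : ∀ s ∈ X, ∀ g : K, g * s * g⁻¹ ∈ X) : IsClassFunction K (pc X) := by
  intro w g
  unfold pc
  congr 1
  refine Finset.card_bij (fun p _ => (g⁻¹ * p.1 * g, g⁻¹ * p.2 * g)) ?_ ?_ ?_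
  · intro p hp
    obtain ⟨hs, ht, hp2⟩ := mem_pcSet.mp hp
    refine mem_pcSet.mpr ⟨?_, ?_, ?_⟩
    · simpa using hX _ hs g⁻¹
    · simpa using hX _ ht g⁻¹
    · show g⁻¹ * p.1 * g * (g⁻¹ * p.2 * g) = w
      calc g⁻¹ * p.1 * g * (g⁻¹ * p.2 * g) = g⁻¹ * (p.1 * p.2) * g := by group
        _ = w := by rw [hp2]; group
  · intro p _ q _ he
    have h1 := congrArg Prod.fst he
    have h2 := congrArg Prod.snd he
    simp only at h1 h2
    apply Prod.ext
    · simpa using h1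
    · simpa using h2
  · intro p hp
    obtain ⟨hs, ht, hp2⟩ := mem_pcSet.mp hp
    refine ⟨(g * p.1 * g⁻¹, g * p.2 * g⁻¹), mem_pcSet.mpr ⟨hX _ hs g, hX _ ht g, ?_⟩, ?_⟩
    · show g * p.1 * g⁻¹ * (g * p.2 * g⁻¹) = g * w * g⁻¹
      rw [← hp2]
      group
    · apply Prod.ext
      · simp [mul_assoc]
      · simp [mul_assoc]

open Classical in
/-- **Products in a conjugation-closed set.** -/
theorem sum_sum_irr {χ : K → ℂ} (hχ : IsIrrCharacter K χ) (X : Finset K) (hX : ∀ s ∈ X, ∀ g : K, g * s * g⁻¹ ∈ X) :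
    ∑ s ∈ X, ∑ t ∈ X, χ (s * t) = (∑ s ∈ X, χ s) ^ 2 / χ 1 := by
  have h0 := Cfsg.Agent.Lib.Char.Ortho.irr_apply_one_ne_zero hχ
  set c : K → ℂ := fun g => if g ∈ X then 1 else 0 with hc
  have hcl : IsClassFunction K (ofFun c).coeff := by
    intro g h
    simp only [coeff_ofFun, hc]
    by_cases hg : g ∈ X
    · rw [if_pos hg, if_pos (hX g hg h)]
    · rw [if_neg hg, if_neg]
      intro h1
      apply hg
      simpa [mul_assoc] using hX _ h1 h⁻¹
  have h1 := omega_mul hχ hcl (ofFun c)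
  have h2 : omega χ (ofFun c) = (∑ s ∈ X, χ s) / χ 1 := by
    rw [omega_ofFun]
    congr 1
    simp only [hc, ite_mul, one_mul, zero_mul]
    rw [Finset.sum_ite_mem, Finset.univ_inter]
  have h3 : ∑ s ∈ X, ∑ t ∈ X, χ (s * t) = omega χ (ofFun c * ofFun c) * χ 1 := by
    have h4 : ofFun c * ofFun c = ∑ s ∈ X, ∑ t ∈ X, MonoidAlgebra.single (s * t) (1 : ℂ) := by
      have h5 : ofFun c = ∑ s ∈ X, MonoidAlgebra.single s (1 : ℂ) := by
        apply ext_coeff
        intro g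
        rw [coeff_ofFun, MonoidAlgebra.coeff_sum, Finset.sum_apply']
        simp only [MonoidAlgebra.coeff_single, Finsupp.single_apply, hc]
        rw [Finset.sum_ite_eq']
      rw [h5, Finset.sum_mul_sum]
      refine Finset.sum_congr rfl fun s _ => Finset.sum_congr rfl fun t _ => ?_
      rw [MonoidAlgebra.single_mul_single, mul_one]
    rw [h4, omega_sum, Finset.sum_mul]
    refine Finset.sum_congr rfl fun s _ => ?_
    rw [omega_sum, Finset.sum_mul]
    refine Finset.sum_congr rfl fun t _ => ?_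
    rw [omega]
    simp only [MonoidAlgebra.coeff_single, Finsupp.single_apply, ite_mul, one_mul, zero_mul]
    rw [Finset.sum_ite_eq]
    simp [h0]
  rw [h3, h1, h2]
  field_simp

open Classical in
/-- The inner product of the count with a character. -/
theorem pc_inner {χ : K → ℂ} (hχ : IsIrrCharacter K χ) (X : Finset K) (hX : ∀ s ∈ X, ∀ g : K, g * s * g⁻¹ ∈ X) :
    classInner (pc X) χ = (Nat.card K : ℂ)⁻¹ * conj ((∑ s ∈ X, χ s) ^ 2 / χ 1) := by
  rw [classInner, sum_pc_mul X (fun g => conj (χ g)), ← sum_sum_irr hχ X hX, map_sum]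
  congr 1
  refine Finset.sum_congr rfl fun s _ => ?_
  rw [map_sum]

end Pc

section Central

variable {Q : Type u} [Group Q] [Fintype Q]

open Classical in
/-- **The sum over the characters with a central twist.** -/
theorem sum_irr_central_sq [Fintype (IrrCharacter Q)] (ζ : Q) (hζ : ∀ k, ζ * k = k * ζ) (U : Q → ℂ)
    (hU : IsClassFunction Q U) :
    ∑ l : IrrCharacter Q, ((l : Q → ℂ) ζ / (l : Q → ℂ) 1) * (∑ v, (l : Q → ℂ) v * U v) ^ 2 =
      (Nat.card Q : ℂ) * ∑ v, U v * U (ζ * v)⁻¹ := by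
  have h1 : ∀ l : IrrCharacter Q, ((l : Q → ℂ) ζ / (l : Q → ℂ) 1) * (∑ v, (l : Q → ℂ) v * U v) ^ 2 =
      ∑ v, ∑ v', (U v * U v') * ((l : Q → ℂ) v * conj ((l : Q → ℂ) (ζ * v')⁻¹)) := by
    intro l
    obtain ⟨c, -, hc⟩ := Cfsg.Agent.Lib.Blocks.Nilp.exists_central_shift l hζ
    have h0 := Cfsg.Agent.Lib.Char.Ortho.irr_apply_one_ne_zero l.2
    have h2 : (l : Q → ℂ) ζ / (l : Q → ℂ) 1 = c := by
      have := hc 1
      rw [mul_one] at this
      rw [this]
      field_simp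
    rw [h2, sq, ← mul_assoc, mul_comm c, mul_assoc, Finset.mul_sum (a := c), Finset.sum_mul_sum]
    refine Finset.sum_congr rfl fun v _ => ?_
    refine Finset.sum_congr rfl fun v' _ => ?_
    have h3 : conj ((l : Q → ℂ) (ζ * v')⁻¹) = (l : Q → ℂ) (ζ * v') := by
      rw [Cfsg.Agent.Lib.Char.Ortho.conj_of_isCharacter (Cfsg.Agent.Lib.Char.Basic.isCharacter_of_isIrrCharacter l.2), inv_inv]
    rw [h3, hc v']
    ring
  simp only [h1]
  rw [Finset.sum_comm]
  have h2 : ∀ v, ∑ l : IrrCharacter Q, ∑ v', (U v * U v') * ((l : Q → ℂ) v * conj ((l : Q → ℂ) (ζ * v')⁻¹)) =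
      (Nat.card Q : ℂ) * (U v * U (ζ * v)⁻¹) := by
    intro v
    rw [Finset.sum_comm]
    have h3 : ∀ v', ∑ l : IrrCharacter Q, (U v * U v') * ((l : Q → ℂ) v * conj ((l : Q → ℂ) (ζ * v')⁻¹)) =
        (U v * U v') * ∑ k : Q, if k * v * k⁻¹ = (ζ * v')⁻¹ then (1 : ℂ) else 0 := by
      intro v'
      rw [← Finset.mul_sum, ← Cfsg.Agent.Lib.Char.CompleteCor.conjCount_eq_sum]
      unfold Cfsg.Agent.Lib.Char.CompleteCor.conjCount
      congr 1
    simp only [h3, Finset.mul_sum]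
    rw [Finset.sum_comm]
    rw [Nat.card_eq_fintype_card, ← Finset.card_univ, ← nsmul_eq_mul, ← Finset.sum_const]
    refine Finset.sum_congr rfl fun k _ => ?_
    have hiff : ∀ v', (k * v * k⁻¹ = (ζ * v')⁻¹) ↔ v' = ζ⁻¹ * (k * v * k⁻¹)⁻¹ := by
      intro v'
      constructor
      · intro h
        rw [h]
        group
      · intro h
        rw [h]
        group
    simp only [hiff]
    have h4 : ∀ v', (U v * U v') * (if v' = ζ⁻¹ * (k * v * k⁻¹)⁻¹ then (1 : ℂ) else 0) =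
        if v' = ζ⁻¹ * (k * v * k⁻¹)⁻¹ then U v * U v' else 0 := by
      intro v'
      split_ifs <;> simp
    simp only [h4]
    rw [Finset.sum_ite_eq']
    simp only [Finset.mem_univ, if_true]
    congr 1
    have hζi : ∀ y : Q, ζ⁻¹ * y = y * ζ⁻¹ := by
      intro y
      have := hζ y
      calc ζ⁻¹ * y = ζ⁻¹ * (y * ζ) * ζ⁻¹ := by group
        _ = ζ⁻¹ * (ζ * y) * ζ⁻¹ := by rw [this]
        _ = y * ζ⁻¹ := by group
    have h5 : ζ⁻¹ * (k * v * k⁻¹)⁻¹ = k * (ζ * v)⁻¹ * k⁻¹ := by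
      have h6 : (ζ * v)⁻¹ = ζ⁻¹ * v⁻¹ := by
        rw [mul_inv_rev, hζi]
      rw [h6]
      calc ζ⁻¹ * (k * v * k⁻¹)⁻¹ = (ζ⁻¹ * k) * v⁻¹ * k⁻¹ := by group
        _ = k * ζ⁻¹ * v⁻¹ * k⁻¹ := by rw [hζi]
        _ = _ := by group
    rw [h5]
    exact hU _ k
  simp only [h2]
  rw [← Finset.mul_sum]

end Central

end Cfsg.Agent.Lib.Blocks.Tame
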