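/-
Tame blocks: the values of the section data at an involution.
-/
import Mathlib
import Cfsg.Agent.Lib.Blocks.TameB
import Cfsg.Agent.Lib.Blocks.TameY1
import Cfsg.Agent.Lib.Blocks.BrauerFeit
import Cfsg.Agent.Lib.Blocks.HeightZero
import Cfsg.Agent.S0908

set_option autoImplicit false
set_option linter.style.haveILetI false

namespace Cfsg.Agent.Lib.Blocks.Tame

open Cfsg Cfsg.Agent.Lib.Blocks.Local Cfsg.Agent.Lib.Blocks.Central Cfsg.Agent.Lib.Blocks.Osima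
open Cfsg.Agent.Lib.Blocks.Covering Cfsg.Agent.Lib.Blocks.BlockHom Cfsg.Agent.Lib.Blocks.Pairs
open Cfsg.Agent.Lib.Blocks.Twisted Cfsg.Agent.Lib.Blocks.Necklace Cfsg.Agent.Lib.Blocks.Sections
open Cfsg.Agent.Lib.Blocks.Regular Cfsg.Agent.Lib.Blocks.BlockCount Cfsg.Agent.Lib.Blocks.Nilp
open Cfsg.Agent.Lib.Blocks.BrauerFeit
open Cfsg.Agent.Lib.Char.Ortho
open scoped ComplexConjugate

universe u

section Val

variable {K : Type u} [Group K] [Fintype K]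

/-- The `2`-parts of the degree of a character of least `2`-part and of the group. -/
lemma val_of_mu {f : Set (IrrCharacter K)} {ξ₀ : IrrCharacter K} (hξ₀ : ξ₀ ∈ f)
    (h : (charDegree (ξ₀ : K → ℂ)).factorization 2 = mu 2 f) :
    ∃ m n ν : ℕ, Odd m ∧ Odd n ∧ 2 ^ blockDefect 2 f * charDegree (ξ₀ : K → ℂ) = 2 ^ ν * m ∧ Nat.card K = 2 ^ ν * n := by
  haveI : Fact (Nat.Prime 2) := ⟨Nat.prime_two⟩
  have h1 := defect_add_mu (p := 2) hξ₀
  have hd0 : charDegree (ξ₀ : K → ℂ) ≠ 0 := Cfsg.Agent.Lib.Blocks.RegInt.charDegree_ne_zero ξ₀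
  have hk0 : Nat.card K ≠ 0 := Nat.card_pos.ne'
  refine ⟨ordCompl[2] (charDegree (ξ₀ : K → ℂ)), ordCompl[2] (Nat.card K), (Nat.card K).factorization 2, ?_, ?_, ?_, ?_⟩
  · exact Nat.odd_iff.mpr (by
      have := Nat.not_dvd_ordCompl Nat.prime_two hd0
      omega)
  · exact Nat.odd_iff.mpr (by
      have := Nat.not_dvd_ordCompl Nat.prime_two hk0
      omega)
  · rw [← h1, pow_add, ← h, mul_assoc, Nat.ordProj_mul_ordCompl_eq_self]
  · rw [Nat.ordProj_mul_ordCompl_eq_self]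

/-- A base character has the least `2`-part. -/
lemma base_mu {f : Set (IrrCharacter K)} (hf : f.Nonempty) {ξ₀ : IrrCharacter K} (hξ₀ : ξ₀ ∈ f)
    (hd : ∀ ξ ∈ f, charDegree (ξ₀ : K → ℂ) ∣ charDegree (ξ : K → ℂ)) :
    (charDegree (ξ₀ : K → ℂ)).factorization 2 = mu 2 f := by
  haveI : Fact (Nat.Prime 2) := ⟨Nat.prime_two⟩
  obtain ⟨ξ₁, hξ₁, h₁⟩ := Cfsg.Agent.Lib.Blocks.HeightZero.exists_height_zero (p := 2) hf
  have h1 := mu_add_height (p := 2) hξ₁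
  rw [h₁, add_zero] at h1
  have h2 := mu_le (p := 2) hξ₀
  have h3 := (Nat.factorization_le_iff_dvd (Cfsg.Agent.Lib.Blocks.RegInt.charDegree_ne_zero ξ₀) (Cfsg.Agent.Lib.Blocks.RegInt.charDegree_ne_zero ξ₁)).mpr (hd ξ₁ hξ₁) 2
  omega

end Val

section Pack

variable {K : Type u} [Group K] [Fintype K] {M : Ideal AlgInt} [hM : M.IsPrime]
  {b : Set (IrrCharacter K)} {P : Subgroup K} {e : Set (IrrCharacter (Subgroup.centralizer (P : Set K)))}
  {χ₀ : IrrCharacter K} {L : IrrCharacter K → IrrCharacter P}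

namespace NPack

variable (H : NPack M 2 b P e χ₀ L)
include H

/-- The coefficient of the indicator function of a set of involutions. -/
theorem Cf_indicator_aux (T : Finset K) (hT : ∀ s ∈ T, s * s = 1) (v : P) {c : K} (hc : c ∈ regC 2 (v : K)) (hc1 : c ≠ 1) :
    (v : K) * c ∉ T := by
  haveI : Fact (Nat.Prime 2) := ⟨Nat.prime_two⟩
  intro hmem
  obtain ⟨hcK, hcreg⟩ := mem_regC.mp hc
  obtain ⟨k, hk⟩ := H.pow_eq_one v
  have hvc : (v : K) * c = c * (v : K) := (mem_centralizer_zpowers_iff.mp hcK).symm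
  have hord : ∃ j : ℕ, orderOf (v : K) = 2 ^ j := by
    have h2 : (v : K) ^ 2 ^ k = 1 := hk
    obtain ⟨i, -, hi⟩ := (Nat.dvd_prime_pow Nat.prime_two).mp (orderOf_dvd_of_pow_eq_one h2)
    exact ⟨i, hi⟩
  have hp : IsPPart 2 ((v : K) * c) (v : K) := ⟨c, rfl, hvc, hord, hcreg⟩
  obtain ⟨s, hs⟩ := isPPart_exists_pow_eq hp
  have h3 := hT _ hmem
  have hsq : ((v : K) * c) ^ 2 = 1 := by rw [sq]; exact h3
  have hv2 : (v : K) ^ 2 = 1 := by
    rw [← hs, ← pow_mul, mul_comm, pow_mul, hsq, one_pow]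
  have hc2 : c ^ 2 = 1 := by
    have h4 : ((v : K) * c) ^ 2 = (v : K) ^ 2 * c ^ 2 := (Commute.mul_pow hvc 2)
    rw [hsq, hv2, one_mul] at h4
    exact h4.symm
  have h5 := orderOf_dvd_of_pow_eq_one hc2
  rcases (Nat.dvd_prime Nat.prime_two).mp h5 with h6 | h6
  · exact hc1 (orderOf_eq_one_iff.mp h6)
  · rw [h6] at hcreg
    exact hcreg (dvd_refl 2)

theorem Cf_indicator_mem (T : Finset K) (hT : ∀ s ∈ T, s * s = 1) (v : P) (hv : (v : K) ∈ T) :
    Cf M 2 P e χ₀ (indF T) v = wt P (v : K) * conj (PHI M 2 P e χ₀ v 1) := by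
  haveI : Fact (Nat.Prime 2) := ⟨Nat.prime_two⟩
  unfold Cf
  congr 1
  have h1 : (1 : K) ∈ regC 2 (v : K) := mem_regC.mpr ⟨Subgroup.one_mem _, by simp⟩
  rw [Finset.sum_eq_single 1]
  · rw [mul_one, indF_mem hv, one_mul]
  · intro c hc hc1
    rw [indF_not_mem (H.Cf_indicator_aux T hT v hc hc1), zero_mul]
  · exact fun h => absurd h1 h

theorem Cf_indicator_not_mem (T : Finset K) (hT : ∀ s ∈ T, s * s = 1) (v : P) (hv : (v : K) ∉ T) :
    Cf M 2 P e χ₀ (indF T) v = 0 := by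
  haveI : Fact (Nat.Prime 2) := ⟨Nat.prime_two⟩
  unfold Cf
  apply mul_eq_zero_of_right
  refine Finset.sum_eq_zero fun c hc => ?_
  by_cases hc1 : c = 1
  · rw [hc1, mul_one, indF_not_mem hv, zero_mul]
  · rw [indF_not_mem (H.Cf_indicator_aux T hT v hc hc1), zero_mul]

/-- **The value of the section data at an involution.** -/
theorem invol_val (r : P) (hrr : (r : K) * (r : K) = 1) :
    ∃ m n : ℤ, Odd m ∧ Odd n ∧ wt P (r : K) * PHI M 2 P e χ₀ r 1 = (m : ℂ) / (n : ℂ) := by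
  classical
  haveI : Fact (Nat.Prime 2) := ⟨Nat.prime_two⟩
  obtain ⟨v, hvP⟩ := r
  simp only at hrr ⊢
  letI : Fintype (Kz v) := Fintype.ofFinite _
  have hMp := H.hMp
  have hmax := H.hmax
  have hPe := hmax.1.1
  obtain ⟨ξ₀, hξ₀, hd, hnorm⟩ := bpConcl_all hMp _ (Kz v) _ rfl (isNilpotentBlock_eBlk hMp hmax H.hnil hvP)
  choose! d hd using hd
  have hle := eBlk_spec hMp hPe hvP
  have hDf := isDefectGroup_centralizer_of_nilpotent hMp hmax H.hnil hle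
  have hn := hnorm _ hDf
  have hvK : v ∈ Kz v := mem_centralizer_zpowers_iff.mpr rfl
  have hK : ∀ k ∈ Kz v, k * v = v * k := fun k hk => mem_centralizer_zpowers_iff.mp hk
  set A : ℂ := ∑ ξ ∈ Finset.univ.filter (· ∈ eBlk M 2 P e v),
    classInner (fun k : Kz v => (χ₀ : K → ℂ) (v * k)) (ξ : Kz v → ℂ) * (d ξ : ℂ) with hA
  have hsec : ∀ c : Kz v, ¬ 2 ∣ orderOf c →
      twTrace (χ₀ : K → ℂ) (v * c) (Ev M 2 P e v) = A * (ξ₀ : Kz v → ℂ) c := by
    intro c hc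
    have h5 := twTrace_EE_eq_blockPart (isClassFunction_of_irr χ₀.2) hK (eBlk M 2 P e v) c
    simp only [Ev]
    rw [h5, blockPart_eq_sum, hA, Finset.sum_mul]
    refine Finset.sum_congr rfl fun ξ hξ => ?_
    have hξ' := (Finset.mem_filter.mp hξ).2
    rw [hd ξ hξ' c hc]
    ring
  have hAreal : conj A = A := by
    rw [hA, map_sum]
    refine Finset.sum_congr rfl fun ξ _ => ?_
    rw [map_mul, Complex.conj_natCast]
    congr 1
    have hw : ∀ k : Kz v, (⟨v, hvK⟩ : Kz v) * k = k * ⟨v, hvK⟩ := by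
      intro k
      apply Subtype.ext
      exact (hK k k.2).symm
    obtain ⟨ζ, hζ, h1⟩ := classInner_shift (fun k : Kz v => (χ₀ : K → ℂ) k) ξ hw
    have h2 : classInner (fun k : Kz v => (χ₀ : K → ℂ) (v * k)) (ξ : Kz v → ℂ) =
        classInner (fun k : Kz v => (fun k : Kz v => (χ₀ : K → ℂ) k) (⟨v, hvK⟩ * k)) (ξ : Kz v → ℂ) := rfl
    rw [h2, h1]
    have h3 : IsCharacter (Kz v) (fun k : Kz v => (χ₀ : K → ℂ) k) :=
      Cfsg.Agent.Lib.Char.Basic.isCharacter_restrict (Cfsg.Agent.Lib.Char.Values.IsIrrCharacter.isCharacter χ₀.2) (Kz v)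
    obtain ⟨m, hm⟩ := Cfsg.Agent.Lib.Char.Ortho.exists_nat_classInner h3 ξ
    rw [hm, map_mul, Complex.conj_natCast]
    congr 1
    have h4 : orderOf (⟨v, hvK⟩ : Kz v) ∣ 2 := by
      apply orderOf_dvd_of_pow_eq_one
      apply Subtype.ext
      simpa [sq] using hrr
    obtain ⟨t, ht⟩ := h4
    have h5 : ζ * ζ = 1 := by
      rw [← sq, ht, pow_mul, hζ, one_pow]
    rcases mul_self_eq_one_iff.mp h5 with h6 | h6 <;> simp [h6]
  -- the norm
  have hthe := H.hthe χ₀ H.hχ₀ χ₀ H.hχ₀ ⟨v, hvP⟩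
  rw [H.hone, map_one, mul_one] at hthe
  simp only at hthe
  have hsum : ∑ c ∈ regC 2 v, twTrace (χ₀ : K → ℂ) (v * c) (Ev M 2 P e v) * conj (twTrace (χ₀ : K → ℂ) (v * c) (Ev M 2 P e v)) =
      A * conj A * ∑ g : Kz v, reg 2 (ξ₀ : Kz v → ℂ) g * conj ((ξ₀ : Kz v → ℂ) g) := by
    have h2 : ∀ g : Kz v, reg 2 (ξ₀ : Kz v → ℂ) g * conj ((ξ₀ : Kz v → ℂ) g) =
        if ¬ 2 ∣ orderOf g then (ξ₀ : Kz v → ℂ) g * conj ((ξ₀ : Kz v → ℂ) g) else 0 := by
      intro g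
      by_cases hg : 2 ∣ orderOf g
      · rw [reg_of_dvd _ hg, if_neg (not_not.mpr hg), zero_mul]
      · rw [reg_of_not_dvd _ hg, if_pos hg]
    simp only [h2]
    rw [← Finset.sum_filter, Finset.mul_sum]
    symm
    refine Finset.sum_bij (fun g _ => (g : K)) ?_ ?_ ?_ ?_
    · intro g hg
      have hg' := (Finset.mem_filter.mp hg).2
      refine mem_regC.mpr ⟨g.2, ?_⟩
      rwa [Subgroup.orderOf_coe]
    · intro a _ b _ h
      exact Subtype.ext h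
    · intro c hc
      obtain ⟨h3, h4⟩ := mem_regC.mp hc
      refine ⟨⟨c, h3⟩, Finset.mem_filter.mpr ⟨Finset.mem_univ _, ?_⟩, rfl⟩
      rw [← Subgroup.orderOf_coe]
      exact h4
    · intro g hg
      have hg' := (Finset.mem_filter.mp hg).2
      rw [hsec g hg', map_mul]
      ring
  rw [secF, hsum] at hthe
  have hn' := hn
  rw [Cfsg.Agent.Lib.Blocks.Nilp.card_subgroupOf_Kz, Cfsg.Agent.Lib.Blocks.Nilp.card_Kz] at hn'
  have hZ : ((setZ v).card : ℂ) ≠ 0 := by exact_mod_cast (setZ_pos v).ne'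
  have hwtS : wt P v * ∑ g : Kz v, reg 2 (ξ₀ : Kz v → ℂ) g * conj ((ξ₀ : Kz v → ℂ) g) = 1 := by
    rw [wt, div_mul_eq_mul_div, hn', div_self hZ]
  have hAA : A * A = 1 := by
    have h1 : A * conj A * (wt P v * ∑ g : Kz v, reg 2 (ξ₀ : Kz v → ℂ) g * conj ((ξ₀ : Kz v → ℂ) g)) = 1 := by
      rw [← hthe]
      ring
    rw [hwtS, mul_one, hAreal] at h1
    exact h1
  -- the valuation
  have hf : IsPBlock M (eBlk M 2 P e v) := isPBlock_eBlk hMp hPe hvP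
  have hdvd : ∀ ξ ∈ eBlk M 2 P e v, charDegree (ξ₀ : Kz v → ℂ) ∣ charDegree (ξ : Kz v → ℂ) := by
    intro ξ hξ
    have h1 := hd ξ hξ 1 (by simp)
    rw [← Cfsg.Agent.Lib.Blocks.RegInt.charDegree_cast ξ, ← Cfsg.Agent.Lib.Blocks.RegInt.charDegree_cast ξ₀] at h1
    have h2 : charDegree (ξ : Kz v → ℂ) = d ξ * charDegree (ξ₀ : Kz v → ℂ) := by exact_mod_cast h1
    exact ⟨d ξ, by rw [h2, mul_comm]⟩
  obtain ⟨m, n, ν, hm, hn2, hval, hcard⟩ := val_of_mu hξ₀ (base_mu (isPBlock_nonempty hf) hξ₀ hdvd)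
  have hDcard := Cfsg.Agent.S0908.result 2 M hMp _ hf _ hDf
  have hwt : wt P v = ((2 ^ blockDefect 2 (eBlk M 2 P e v) : ℕ) : ℂ) / ((2 ^ ν * n : ℕ) : ℂ) := by
    rw [wt, ← hDcard, ← hcard, Cfsg.Agent.Lib.Blocks.Nilp.card_subgroupOf_Kz, Cfsg.Agent.Lib.Blocks.Nilp.card_Kz]
  have hPHI : PHI M 2 P e χ₀ v 1 = A * ((charDegree (ξ₀ : Kz v → ℂ) : ℕ) : ℂ) := by
    rw [PHI]
    have h1 := hsec 1 (by simp)
    simp only [OneMemClass.coe_one] at h1
    rw [h1, Cfsg.Agent.Lib.Blocks.RegInt.charDegree_cast]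
  have hn0 : (n : ℂ) ≠ 0 := by
    have := hn2.pos
    exact_mod_cast this.ne'
  have h2ν : ((2 : ℂ) ^ ν) ≠ 0 := pow_ne_zero _ two_ne_zero
  have hmain : wt P v * ((charDegree (ξ₀ : Kz v → ℂ) : ℕ) : ℂ) = (m : ℂ) / (n : ℂ) := by
    have h1 : ((2 ^ blockDefect 2 (eBlk M 2 P e v) * charDegree (ξ₀ : Kz v → ℂ) : ℕ) : ℂ) = ((2 ^ ν * m : ℕ) : ℂ) := by
      rw [hval]
    push_cast at h1
    rw [hwt]
    push_cast
    rw [div_mul_eq_mul_div, h1]
    field_simp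
  rw [hPHI, mul_left_comm, hmain]
  rcases mul_self_eq_one_iff.mp hAA with h6 | h6
  · refine ⟨m, n, ?_, ?_, ?_⟩
    · exact_mod_cast hm
    · exact_mod_cast hn2
    · rw [h6, one_mul]
      simp
  · refine ⟨-m, n, ?_, ?_, ?_⟩
    · have : Odd (m : ℤ) := by exact_mod_cast hm
      exact this.neg
    · exact_mod_cast hn2
    · rw [h6]
      push_cast
      ring

end NPack

end Pack

end Cfsg.Agent.Lib.Blocks.Tame
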