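import Mathlib

/-!
# Two commuting `SL₂`'s interchanged by a square root of the central involution

Data `Two L₁ L₂ j n`: subgroups `L₁`, `L₂` with `L₁ ∩ L₂ = ⟨j⟩`, commuting, interchanged by `n` with
`n ^ 2 = j`, and `C(j) = L₁L₂ ∪ nL₁L₂`.  For an involution `w ≠ j` of `C(j)` the subgroup `D j w`
generated by the involutions of `C(j) ∩ C(w)` has `j` as its canonical involution, the unique nontrivial
value of `x ↦ x ^ (exp / 2)`.  As `D j w` is symmetric in `j`, `w`, the involution `j` is weakly closed in `C(j)`.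
-/

set_option autoImplicit false

namespace Cfsg.Agent.Lib.Blocks.TwoSL2

universe u

variable {G : Type u} [Group G]

/-- The data of two commuting `SL₂`'s. -/
structure Two (L₁ L₂ : Subgroup G) (j n : G) : Prop where
  j2 : j * j = 1
  j1 : j ≠ 1
  n2 : n * n = j
  jL₁ : j ∈ L₁
  jL₂ : j ∈ L₂
  comm : ∀ a ∈ L₁, ∀ b ∈ L₂, a * b = b * a
  meet : ∀ x ∈ L₁, x ∈ L₂ → x = 1 ∨ x = j
  sw₁ : ∀ a ∈ L₁, n * a * n⁻¹ ∈ L₂
  sw₂ : ∀ b ∈ L₂, n * b * n⁻¹ ∈ L₁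
  cos : ∀ x, x * j = j * x → (∃ a ∈ L₁, ∃ b ∈ L₂, x = a * b) ∨ (∃ a ∈ L₁, ∃ b ∈ L₂, x = n * (a * b))
  inv₁ : ∀ x ∈ L₁, x * x = 1 → x = 1 ∨ x = j
  inv₂ : ∀ x ∈ L₂, x * x = 1 → x = 1 ∨ x = j
  ex₁ : ∀ t ∈ L₁, t * t = j → ∃ r ∈ L₁, r * t * r⁻¹ = t⁻¹
  ex₂ : ∀ t ∈ L₂, t * t = j → ∃ r ∈ L₂, r * t * r⁻¹ = t⁻¹
  an₁ : ∀ t ∈ L₁, t * t = j → ∀ r ∈ L₁, r * t * r⁻¹ = t⁻¹ → r * r = j
  an₂ : ∀ t ∈ L₂, t * t = j → ∀ r ∈ L₂, r * t * r⁻¹ = t⁻¹ → r * r = j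

namespace Two

variable {L₁ L₂ : Subgroup G} {j n : G}

lemma jinv (T : Two L₁ L₂ j n) : j⁻¹ = j := inv_eq_of_mul_eq_one_left T.j2

lemma j_comm₁ (T : Two L₁ L₂ j n) {a : G} (ha : a ∈ L₁) : a * j = j * a := T.comm a ha j T.jL₂

lemma j_comm₂ (T : Two L₁ L₂ j n) {b : G} (hb : b ∈ L₂) : b * j = j * b := (T.comm j T.jL₁ b hb).symm

lemma n_comm (T : Two L₁ L₂ j n) : n * j = j * n := by
  rw [← T.n2, mul_assoc]

/-- No coset element `n a b` squares to `1`. -/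
lemma not_coset (T : Two L₁ L₂ j n) {a b : G} (ha : a ∈ L₁) (hb : b ∈ L₂) :
    (n * (a * b)) * (n * (a * b)) ≠ 1 := by
  intro h
  set a' := n * a * n⁻¹ with ha'
  set b' := n * b * n⁻¹ with hb'
  have ha'm : a' ∈ L₂ := T.sw₁ a ha
  have hb'm : b' ∈ L₁ := T.sw₂ b hb
  have hjinv := T.jinv
  -- the square
  have h1 : (n * (a * b)) * (n * (a * b)) = a' * b' * (n * n) * (a * b) := by
    rw [ha', hb']; group
  rw [h1, T.n2] at h
  have h2 : a' * b' * j * (a * b) = j * (b' * a) * (a' * b) := by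
    have e1 : a' * b' = b' * a' := (T.comm b' hb'm a' ha'm).symm
    have e2 : a' * a = a * a' := (T.comm a ha a' ha'm).symm
    have e3 : b' * j = j * b' := T.j_comm₁ hb'm
    have e4 : a' * j = j * a' := T.j_comm₂ ha'm
    calc a' * b' * j * (a * b) = b' * (a' * j) * (a * b) := by rw [e1]; group
      _ = (b' * j) * (a' * a) * b := by rw [e4]; group
      _ = j * b' * (a * a') * b := by rw [e3, e2]
      _ = j * (b' * a) * (a' * b) := by group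
  rw [h2] at h
  set v := b' * a with hv
  set w := a' * b with hw
  have hvm : v ∈ L₁ := L₁.mul_mem hb'm ha
  have hwm : w ∈ L₂ := L₂.mul_mem ha'm hb
  -- conjugating `v` by `n`
  have hnv : n * v * n⁻¹ = b * a' := by
    have e1 : n * v * n⁻¹ = (n * n) * b * (n * n)⁻¹ * a' := by
      rw [hv, hb', ha']; group
    rw [e1, T.n2, hjinv, (T.j_comm₂ hb).symm]
    calc b * j * j * a' = b * (j * j) * a' := by group
      _ = b * a' := by rw [T.j2, mul_one]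
  have h3 : w = (j * v)⁻¹ := eq_inv_of_mul_eq_one_right h
  have hjv2 : j * v ∈ L₂ := by
    have : j * v = w⁻¹ := by rw [h3, inv_inv]
    rw [this]
    exact L₂.inv_mem hwm
  rcases T.meet _ (L₁.mul_mem T.jL₁ hvm) hjv2 with h4 | h4
  · -- `v = j`, `w = 1`
    have hvj : v = j := by
      have := eq_inv_of_mul_eq_one_right h4
      rw [this, hjinv]
    have hw1 : w = 1 := by rw [h3, h4, inv_one]
    have e1 : b * a' = j := by
      rw [← hnv, hvj, T.n_comm]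
      group
    have e2 : a' * b = 1 := hw1
    have e3 : a' = b⁻¹ := eq_inv_of_mul_eq_one_left e2
    rw [e3, mul_inv_cancel] at e1
    exact T.j1 e1.symm
  · -- `v = 1`, `w = j`
    have hv1 : v = 1 := by simpa using h4
    have hwj : w = j := by rw [h3, h4, hjinv]
    have e1 : b * a' = 1 := by
      rw [← hnv, hv1]; group
    have e3 : a' = b⁻¹ := eq_inv_of_mul_eq_one_right e1
    have e2 : a' * b = j := hwj
    rw [e3, inv_mul_cancel] at e2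
    exact T.j1 e2.symm

/-- The involutions of `C(j)` lie in `L₁L₂`. -/
lemma decomp (T : Two L₁ L₂ j n) {x : G} (hx : x * x = 1) (hxj : x * j = j * x) :
    ∃ a ∈ L₁, ∃ b ∈ L₂, x = a * b := by
  rcases T.cos x hxj with h | ⟨a, ha, b, hb, rfl⟩
  · exact h
  · exact absurd hx (T.not_coset ha hb)

/-- The shape of an involution other than `j`. -/
lemma form_w (T : Two L₁ L₂ j n) {w : G} (hw : w * w = 1) (hw1 : w ≠ 1) (hwj : w ≠ j) (hc : w * j = j * w) :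
    ∃ u₁ ∈ L₁, ∃ u₂ ∈ L₂, w = u₁ * u₂ ∧ u₁ * u₁ = j ∧ u₂ * u₂ = j := by
  obtain ⟨a, ha, b, hb, rfl⟩ := T.decomp hw hc
  have hab : a * b = b * a := T.comm a ha b hb
  have h1 : (a * a) * (b * b) = 1 := by
    calc (a * a) * (b * b) = a * (a * b) * b := by group
      _ = a * (b * a) * b := by rw [hab]
      _ = (a * b) * (a * b) := by group
      _ = 1 := hw
  have h2 : a * a = (b * b)⁻¹ := eq_inv_of_mul_eq_one_left h1
  have h3 : a * a ∈ L₂ := by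
    rw [h2]
    exact L₂.inv_mem (L₂.mul_mem hb hb)
  rcases T.meet _ (L₁.mul_mem ha ha) h3 with h4 | h4
  · exfalso
    have h5 : b * b = 1 := by simpa [h4] using h1
    rcases T.inv₁ a ha h4 with rfl | rfl <;> rcases T.inv₂ b hb h5 with rfl | rfl
    · exact hw1 (by simp)
    · exact hwj (by simp)
    · exact hwj (by simp)
    · exact hw1 T.j2
  · refine ⟨a, ha, b, hb, rfl, h4, ?_⟩
    rw [h4] at h1
    have : b * b = j⁻¹ := eq_inv_of_mul_eq_one_right h1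
    rwa [T.jinv] at this

/-- The dichotomy for elements of `L₁L₂` commuting with `u₁u₂`. -/
lemma dich (T : Two L₁ L₂ j n) {u₁ u₂ α β : G} (hu₁ : u₁ ∈ L₁) (hu₂ : u₂ ∈ L₂) (h1 : u₁ * u₁ = j) (h2 : u₂ * u₂ = j)
    (hα : α ∈ L₁) (hβ : β ∈ L₂) (hc : (α * β) * (u₁ * u₂) = (u₁ * u₂) * (α * β)) :
    (α * u₁ = u₁ * α ∧ β * u₂ = u₂ * β) ∨ (α * u₁ * α⁻¹ = u₁⁻¹ ∧ β * u₂ * β⁻¹ = u₂⁻¹) := by
  set A := α * u₁ * α⁻¹ with hA
  set B := β * u₂ * β⁻¹ with hB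
  have hAm : A ∈ L₁ := L₁.mul_mem (L₁.mul_mem hα hu₁) (L₁.inv_mem hα)
  have hBm : B ∈ L₂ := L₂.mul_mem (L₂.mul_mem hβ hu₂) (L₂.inv_mem hβ)
  have e1 : A * B = u₁ * u₂ := by
    have e2 : A * B = (α * β) * (u₁ * u₂) * (α * β)⁻¹ := by
      have c1 : β * u₁ = u₁ * β := (T.comm u₁ hu₁ β hβ).symm
      have c2 : β * α⁻¹ = α⁻¹ * β := (T.comm _ (L₁.inv_mem hα) β hβ).symm
      have c3 : u₂ * α⁻¹ = α⁻¹ * u₂ := (T.comm _ (L₁.inv_mem hα) u₂ hu₂).symm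
      have c4 : β⁻¹ * α⁻¹ = α⁻¹ * β⁻¹ := (T.comm _ (L₁.inv_mem hα) _ (L₂.inv_mem hβ)).symm
      rw [hA, hB, mul_inv_rev]
      calc α * u₁ * α⁻¹ * (β * u₂ * β⁻¹) = α * u₁ * (α⁻¹ * β) * u₂ * β⁻¹ := by group
        _ = α * u₁ * β * (α⁻¹ * u₂) * β⁻¹ := by rw [← c2]; group
        _ = α * (u₁ * β) * (u₂ * α⁻¹) * β⁻¹ := by rw [← c3]; group
        _ = α * β * u₁ * u₂ * (α⁻¹ * β⁻¹) := by rw [← c1]; group
        _ = α * β * (u₁ * u₂) * (β⁻¹ * α⁻¹) := by rw [c4]; group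
    rw [e2, hc]
    group
  have e3 : u₁⁻¹ * A = u₂ * B⁻¹ := by
    calc u₁⁻¹ * A = u₁⁻¹ * (A * B) * B⁻¹ := by group
      _ = u₂ * B⁻¹ := by rw [e1]; group
  have hc1 : u₁⁻¹ * A ∈ L₁ := L₁.mul_mem (L₁.inv_mem hu₁) hAm
  have hc2 : u₁⁻¹ * A ∈ L₂ := by
    rw [e3]
    exact L₂.mul_mem hu₂ (L₂.inv_mem hBm)
  rcases T.meet _ hc1 hc2 with h3 | h3
  · left
    have h4 : A = u₁ := by
      have := mul_eq_one_iff_eq_inv.1 h3
      simpa using this.symm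
    have h5 : B = u₂ := by
      rw [e3] at h3
      have := mul_eq_one_iff_eq_inv.1 h3
      simpa using this.symm
    constructor
    · have : α * u₁ = A * α := by rw [hA]; group
      rw [this, h4]
    · have : β * u₂ = B * β := by rw [hB]; group
      rw [this, h5]
  · right
    have hj := T.jinv
    have hu₁i : u₁⁻¹ = u₁ * j := by
      rw [← h1]
      have : u₁ * (u₁ * (u₁ * u₁)) = j * j := by
        calc u₁ * (u₁ * (u₁ * u₁)) = (u₁ * u₁) * (u₁ * u₁) := by group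
          _ = j * j := by rw [h1]
      apply inv_eq_of_mul_eq_one_right
      rw [this, T.j2]
    have hu₂i : u₂⁻¹ = j * u₂ := by
      have h6 : u₂ * j = j * u₂ := T.j_comm₂ hu₂
      rw [← h6, ← h2]
      have : u₂ * (u₂ * (u₂ * u₂)) = j * j := by
        calc u₂ * (u₂ * (u₂ * u₂)) = (u₂ * u₂) * (u₂ * u₂) := by group
          _ = j * j := by rw [h2]
      apply inv_eq_of_mul_eq_one_right
      rw [this, T.j2]
    constructor
    · have h4 : A = u₁ * j := by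
        calc A = u₁ * (u₁⁻¹ * A) := by group
          _ = u₁ * j := by rw [h3]
      rw [h4, hu₁i]
    · have h4 : u₂ * B⁻¹ = j := by rw [← e3]; exact h3
      have h5 : B⁻¹ = u₂⁻¹ * j := by
        calc B⁻¹ = u₂⁻¹ * (u₂ * B⁻¹) := by group
          _ = u₂⁻¹ * j := by rw [h4]
      have h6 : B = j * u₂ := by
        calc B = (B⁻¹)⁻¹ := by group
          _ = (u₂⁻¹ * j)⁻¹ := by rw [h5]
          _ = j⁻¹ * u₂ := by group
          _ = j * u₂ := by rw [hj]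
      rw [h6, hu₂i]

end Two

/-- The subgroup generated by the involutions of `C(a) ∩ C(b)`. -/
def D (a b : G) : Subgroup G := Subgroup.closure {x | x * x = 1 ∧ x * a = a * x ∧ x * b = b * x}

lemma D_comm (a b : G) : D a b = D b a := by
  unfold D
  congr 1
  ext x
  simp only [Set.mem_ofPred_eq]
  tauto

lemma D_commute {a b y : G} (hy : y ∈ D a b) : y * a = a * y ∧ y * b = b * y := by
  unfold D at hy
  induction hy using Subgroup.closure_induction with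
  | mem x hx => exact ⟨hx.2.1, hx.2.2⟩
  | one => simp
  | mul x y _ _ hx hy =>
    constructor
    · rw [mul_assoc, hy.1, ← mul_assoc, hx.1, mul_assoc]
    · rw [mul_assoc, hy.2, ← mul_assoc, hx.2, mul_assoc]
  | inv x _ hx =>
    constructor
    · rw [inv_mul_eq_iff_eq_mul, ← mul_assoc, hx.1, mul_assoc, mul_inv_cancel, mul_one]
    · rw [inv_mul_eq_iff_eq_mul, ← mul_assoc, hx.2, mul_assoc, mul_inv_cancel, mul_one]

/-- The element `z` is the canonical involution of the subgroup `E`. -/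
def CharInv (E : Subgroup G) (z : G) : Prop :=
  (∀ y ∈ E, y ^ (Monoid.exponent E / 2) = 1 ∨ y ^ (Monoid.exponent E / 2) = z) ∧
    ∃ y ∈ E, y ^ (Monoid.exponent E / 2) = z

lemma CharInv.eq_of {E : Subgroup G} {z z' : G} (h : CharInv E z) (h' : CharInv E z') (hz : z ≠ 1) : z = z' := by
  obtain ⟨y, hy, hyz⟩ := h.2
  rcases h'.1 y hy with h1 | h1
  · exact absurd (hyz.symm.trans h1) hz
  · exact hyz.symm.trans h1

lemma CharInv.map {E : Subgroup G} {z : G} (h : CharInv E z) (f : G ≃* G) :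
    CharInv (E.map f.toMonoidHom) (f z) := by
  have hexp : Monoid.exponent (E.map f.toMonoidHom) = Monoid.exponent E :=
    (Monoid.exponent_eq_of_mulEquiv (E.equivMapOfInjective f.toMonoidHom f.injective)).symm
  rw [CharInv, hexp]
  constructor
  · rintro _ ⟨y, hy, rfl⟩
    rcases h.1 y hy with h1 | h1
    · left
      change f y ^ _ = 1
      rw [← map_pow, h1, map_one]
    · right
      change f y ^ _ = f z
      rw [← map_pow, h1]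
  · obtain ⟨y, hy, h1⟩ := h.2
    refine ⟨f y, ⟨y, hy, rfl⟩, ?_⟩
    rw [← map_pow, h1]

lemma D_map (f : G ≃* G) (a b : G) : (D a b).map f.toMonoidHom = D (f a) (f b) := by
  unfold D
  rw [MonoidHom.map_closure]
  congr 1
  ext x
  simp only [Set.mem_image, Set.mem_ofPred_eq]
  constructor
  · rintro ⟨y, ⟨h1, h2, h3⟩, rfl⟩
    change f y * f y = 1 ∧ f y * f a = f a * f y ∧ f y * f b = f b * f y
    rw [← map_mul, ← map_mul, ← map_mul, ← map_mul, h1, h2, h3]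
    simp
  · rintro ⟨h1, h2, h3⟩
    refine ⟨f.symm x, ⟨?_, ?_, ?_⟩, by simp⟩
    · apply f.injective; simpa using h1
    · apply f.injective; simpa using h2
    · apply f.injective; simpa using h3

section main

variable {L₁ L₂ : Subgroup G} {j n w : G}

/-- The centralizer in `L₁` of `u₁` lies in `D`. -/
lemma mem_D₁ (T : Two L₁ L₂ j n) {u₁ u₂ r₁ r₂ α : G} (hu₁ : u₁ ∈ L₁) (hu₂ : u₂ ∈ L₂) (h1 : u₁ * u₁ = j) (h2 : u₂ * u₂ = j)
    (hw : w = u₁ * u₂) (hww : w * w = 1) (hr₁ : r₁ ∈ L₁) (hr₂ : r₂ ∈ L₂)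
    (hr₁' : r₁ * u₁ * r₁⁻¹ = u₁⁻¹) (hr₂' : r₂ * u₂ * r₂⁻¹ = u₂⁻¹) (hα : α ∈ L₁) (hαc : α * u₁ = u₁ * α) :
    α ∈ D j w := by
  have gen : ∀ {s₁ s₂ : G}, s₁ ∈ L₁ → s₂ ∈ L₂ → s₁ * u₁ * s₁⁻¹ = u₁⁻¹ → s₂ * u₂ * s₂⁻¹ = u₂⁻¹ →
      s₁ * s₂ ∈ D j w := by
    intro s₁ s₂ hs₁ hs₂ hs₁' hs₂'
    apply Subgroup.subset_closure
    have hs₁s := T.an₁ u₁ hu₁ h1 s₁ hs₁ hs₁'
    have hs₂s := T.an₂ u₂ hu₂ h2 s₂ hs₂ hs₂'
    have hcm : s₁ * s₂ = s₂ * s₁ := T.comm s₁ hs₁ s₂ hs₂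
    refine ⟨?_, ?_, ?_⟩
    · calc s₁ * s₂ * (s₁ * s₂) = s₁ * (s₂ * s₁) * s₂ := by group
        _ = s₁ * (s₁ * s₂) * s₂ := by rw [hcm]
        _ = (s₁ * s₁) * (s₂ * s₂) := by group
        _ = 1 := by rw [hs₁s, hs₂s, T.j2]
    · rw [mul_assoc, T.j_comm₂ hs₂, ← mul_assoc, T.j_comm₁ hs₁, mul_assoc]
    · -- commutes with `w`
      have hwi : w⁻¹ = w := inv_eq_of_mul_eq_one_left hww
      have c1 : s₂ * u₁ = u₁ * s₂ := (T.comm u₁ hu₁ s₂ hs₂).symm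
      have c2 : s₂⁻¹ * s₁⁻¹ = s₁⁻¹ * s₂⁻¹ := (T.comm _ (L₁.inv_mem hs₁) _ (L₂.inv_mem hs₂)).symm
      have c3 : u₂ * s₁⁻¹ = s₁⁻¹ * u₂ := (T.comm _ (L₁.inv_mem hs₁) u₂ hu₂).symm
      have c4 : s₂ * s₁⁻¹ = s₁⁻¹ * s₂ := (T.comm _ (L₁.inv_mem hs₁) s₂ hs₂).symm
      have c5 : u₁⁻¹ * u₂⁻¹ = u₂⁻¹ * u₁⁻¹ := T.comm _ (L₁.inv_mem hu₁) _ (L₂.inv_mem hu₂)
      have h3 : (s₁ * s₂) * w * (s₁ * s₂)⁻¹ = w⁻¹ := by
        calc (s₁ * s₂) * w * (s₁ * s₂)⁻¹ = s₁ * (s₂ * u₁) * u₂ * (s₂⁻¹ * s₁⁻¹) := by rw [hw]; group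
          _ = s₁ * u₁ * (s₂ * u₂) * (s₁⁻¹ * s₂⁻¹) := by rw [c1, c2]; group
          _ = s₁ * u₁ * s₂ * (u₂ * s₁⁻¹) * s₂⁻¹ := by group
          _ = s₁ * u₁ * (s₂ * s₁⁻¹) * u₂ * s₂⁻¹ := by rw [c3]; group
          _ = (s₁ * u₁ * s₁⁻¹) * (s₂ * u₂ * s₂⁻¹) := by rw [c4]; group
          _ = u₁⁻¹ * u₂⁻¹ := by rw [hs₁', hs₂']
          _ = w⁻¹ := by rw [c5, hw, mul_inv_rev]
      rw [hwi] at h3
      calc s₁ * s₂ * w = (s₁ * s₂) * w * (s₁ * s₂)⁻¹ * (s₁ * s₂) := by group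
        _ = w * (s₁ * s₂) := by rw [h3]
  have g1 := gen hr₁ hr₂ hr₁' hr₂'
  have g2 : (r₁ * α) * r₂ ∈ D j w := gen (L₁.mul_mem hr₁ hα) hr₂ (by
    have : r₁ * α * u₁ * (r₁ * α)⁻¹ = r₁ * (α * u₁) * α⁻¹ * r₁⁻¹ := by group
    rw [this, hαc]
    have : r₁ * (u₁ * α) * α⁻¹ * r₁⁻¹ = r₁ * u₁ * r₁⁻¹ := by group
    rw [this, hr₁']) hr₂'
  have hf : α = (r₁ * r₂)⁻¹ * ((r₁ * α) * r₂) := by
    have c : α * r₂ = r₂ * α := T.comm α hα r₂ hr₂
    calc α = r₂⁻¹ * (r₂ * α) := by group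
      _ = r₂⁻¹ * (α * r₂) := by rw [c]
      _ = (r₁ * r₂)⁻¹ * ((r₁ * α) * r₂) := by group
  rw [hf]
  exact Subgroup.mul_mem _ (Subgroup.inv_mem _ g1) g2

/-- The centralizer in `L₂` of `u₂` lies in `D`. -/
lemma mem_D₂ (T : Two L₁ L₂ j n) {u₁ u₂ r₁ r₂ β : G} (hu₁ : u₁ ∈ L₁) (hu₂ : u₂ ∈ L₂) (h1 : u₁ * u₁ = j) (h2 : u₂ * u₂ = j)
    (hw : w = u₁ * u₂) (hww : w * w = 1) (hr₁ : r₁ ∈ L₁) (hr₂ : r₂ ∈ L₂)
    (hr₁' : r₁ * u₁ * r₁⁻¹ = u₁⁻¹) (hr₂' : r₂ * u₂ * r₂⁻¹ = u₂⁻¹) (hβ : β ∈ L₂) (hβc : β * u₂ = u₂ * β) :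
    β ∈ D j w := by
  have h1' : (1 : G) * u₁ = u₁ * 1 := by simp
  have g1 : r₁ * r₂ ∈ D j w := by
    have := mem_D₁ T hu₁ hu₂ h1 h2 hw hww hr₁ hr₂ hr₁' hr₂' L₁.one_mem h1'
    -- the generators
    apply Subgroup.subset_closure
    have hs₁s := T.an₁ u₁ hu₁ h1 r₁ hr₁ hr₁'
    have hs₂s := T.an₂ u₂ hu₂ h2 r₂ hr₂ hr₂'
    have hcm : r₁ * r₂ = r₂ * r₁ := T.comm r₁ hr₁ r₂ hr₂
    refine ⟨?_, ?_, ?_⟩
    · calc r₁ * r₂ * (r₁ * r₂) = r₁ * (r₂ * r₁) * r₂ := by group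
        _ = r₁ * (r₁ * r₂) * r₂ := by rw [hcm]
        _ = (r₁ * r₁) * (r₂ * r₂) := by group
        _ = 1 := by rw [hs₁s, hs₂s, T.j2]
    · rw [mul_assoc, T.j_comm₂ hr₂, ← mul_assoc, T.j_comm₁ hr₁, mul_assoc]
    · have hwi : w⁻¹ = w := inv_eq_of_mul_eq_one_left hww
      have c1 : r₂ * u₁ = u₁ * r₂ := (T.comm u₁ hu₁ r₂ hr₂).symm
      have c2 : r₂⁻¹ * r₁⁻¹ = r₁⁻¹ * r₂⁻¹ := (T.comm _ (L₁.inv_mem hr₁) _ (L₂.inv_mem hr₂)).symm
      have c3 : u₂ * r₁⁻¹ = r₁⁻¹ * u₂ := (T.comm _ (L₁.inv_mem hr₁) u₂ hu₂).symm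
      have c4 : r₂ * r₁⁻¹ = r₁⁻¹ * r₂ := (T.comm _ (L₁.inv_mem hr₁) r₂ hr₂).symm
      have c5 : u₁⁻¹ * u₂⁻¹ = u₂⁻¹ * u₁⁻¹ := T.comm _ (L₁.inv_mem hu₁) _ (L₂.inv_mem hu₂)
      have h3 : (r₁ * r₂) * w * (r₁ * r₂)⁻¹ = w⁻¹ := by
        calc (r₁ * r₂) * w * (r₁ * r₂)⁻¹ = r₁ * (r₂ * u₁) * u₂ * (r₂⁻¹ * r₁⁻¹) := by rw [hw]; group
          _ = r₁ * u₁ * (r₂ * u₂) * (r₁⁻¹ * r₂⁻¹) := by rw [c1, c2]; group
          _ = r₁ * u₁ * r₂ * (u₂ * r₁⁻¹) * r₂⁻¹ := by group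
          _ = r₁ * u₁ * (r₂ * r₁⁻¹) * u₂ * r₂⁻¹ := by rw [c3]; group
          _ = (r₁ * u₁ * r₁⁻¹) * (r₂ * u₂ * r₂⁻¹) := by rw [c4]; group
          _ = u₁⁻¹ * u₂⁻¹ := by rw [hr₁', hr₂']
          _ = w⁻¹ := by rw [c5, hw, mul_inv_rev]
      rw [hwi] at h3
      calc r₁ * r₂ * w = (r₁ * r₂) * w * (r₁ * r₂)⁻¹ * (r₁ * r₂) := by group
        _ = w * (r₁ * r₂) := by rw [h3]
  have g2 : r₁ * (r₂ * β) ∈ D j w := by
    apply Subgroup.subset_closure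
    have hr₂β : r₂ * β ∈ L₂ := L₂.mul_mem hr₂ hβ
    have hr₂β' : (r₂ * β) * u₂ * (r₂ * β)⁻¹ = u₂⁻¹ := by
      have : r₂ * β * u₂ * (r₂ * β)⁻¹ = r₂ * (β * u₂) * β⁻¹ * r₂⁻¹ := by group
      rw [this, hβc]
      have : r₂ * (u₂ * β) * β⁻¹ * r₂⁻¹ = r₂ * u₂ * r₂⁻¹ := by group
      rw [this, hr₂']
    have hs₁s := T.an₁ u₁ hu₁ h1 r₁ hr₁ hr₁'
    have hs₂s := T.an₂ u₂ hu₂ h2 _ hr₂β hr₂β'
    set s₂ := r₂ * β with hs₂
    have hcm : r₁ * s₂ = s₂ * r₁ := T.comm r₁ hr₁ s₂ hr₂β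
    refine ⟨?_, ?_, ?_⟩
    · calc r₁ * s₂ * (r₁ * s₂) = r₁ * (s₂ * r₁) * s₂ := by group
        _ = r₁ * (r₁ * s₂) * s₂ := by rw [hcm]
        _ = (r₁ * r₁) * (s₂ * s₂) := by group
        _ = 1 := by rw [hs₁s, hs₂s, T.j2]
    · rw [mul_assoc, T.j_comm₂ hr₂β, ← mul_assoc, T.j_comm₁ hr₁, mul_assoc]
    · have hwi : w⁻¹ = w := inv_eq_of_mul_eq_one_left hww
      have c1 : s₂ * u₁ = u₁ * s₂ := (T.comm u₁ hu₁ s₂ hr₂β).symm
      have c2 : s₂⁻¹ * r₁⁻¹ = r₁⁻¹ * s₂⁻¹ := (T.comm _ (L₁.inv_mem hr₁) _ (L₂.inv_mem hr₂β)).symm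
      have c3 : u₂ * r₁⁻¹ = r₁⁻¹ * u₂ := (T.comm _ (L₁.inv_mem hr₁) u₂ hu₂).symm
      have c4 : s₂ * r₁⁻¹ = r₁⁻¹ * s₂ := (T.comm _ (L₁.inv_mem hr₁) s₂ hr₂β).symm
      have c5 : u₁⁻¹ * u₂⁻¹ = u₂⁻¹ * u₁⁻¹ := T.comm _ (L₁.inv_mem hu₁) _ (L₂.inv_mem hu₂)
      have h3 : (r₁ * s₂) * w * (r₁ * s₂)⁻¹ = w⁻¹ := by
        calc (r₁ * s₂) * w * (r₁ * s₂)⁻¹ = r₁ * (s₂ * u₁) * u₂ * (s₂⁻¹ * r₁⁻¹) := by rw [hw]; group
          _ = r₁ * u₁ * (s₂ * u₂) * (r₁⁻¹ * s₂⁻¹) := by rw [c1, c2]; group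
          _ = r₁ * u₁ * s₂ * (u₂ * r₁⁻¹) * s₂⁻¹ := by group
          _ = r₁ * u₁ * (s₂ * r₁⁻¹) * u₂ * s₂⁻¹ := by rw [c3]; group
          _ = (r₁ * u₁ * r₁⁻¹) * (s₂ * u₂ * s₂⁻¹) := by rw [c4]; group
          _ = u₁⁻¹ * u₂⁻¹ := by rw [hr₁', hr₂β']
          _ = w⁻¹ := by rw [c5, hw, mul_inv_rev]
      rw [hwi] at h3
      calc r₁ * s₂ * w = (r₁ * s₂) * w * (r₁ * s₂)⁻¹ * (r₁ * s₂) := by group
        _ = w * (r₁ * s₂) := by rw [h3]
  have hf : β = (r₁ * r₂)⁻¹ * (r₁ * (r₂ * β)) := by group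
  rw [hf]
  exact Subgroup.mul_mem _ (Subgroup.inv_mem _ g1) g2

/-- The elements of `D` lie in `L₁L₂`. -/
lemma D_decomp (T : Two L₁ L₂ j n) {y : G} (hy : y ∈ D j w) : ∃ a ∈ L₁, ∃ b ∈ L₂, y = a * b := by
  unfold D at hy
  induction hy using Subgroup.closure_induction with
  | mem x hx => exact T.decomp hx.1 hx.2.1
  | one => exact ⟨1, L₁.one_mem, 1, L₂.one_mem, by simp⟩
  | mul x y _ _ hx hy =>
    obtain ⟨a, ha, b, hb, rfl⟩ := hx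
    obtain ⟨c, hc, d, hd, rfl⟩ := hy
    refine ⟨a * c, L₁.mul_mem ha hc, b * d, L₂.mul_mem hb hd, ?_⟩
    have : b * c = c * b := (T.comm c hc b hb).symm
    calc a * b * (c * d) = a * (b * c) * d := by group
      _ = a * (c * b) * d := by rw [this]
      _ = a * c * (b * d) := by group
  | inv x _ hx =>
    obtain ⟨a, ha, b, hb, rfl⟩ := hx
    refine ⟨a⁻¹, L₁.inv_mem ha, b⁻¹, L₂.inv_mem hb, ?_⟩
    rw [mul_inv_rev]
    exact (T.comm _ (L₁.inv_mem ha) _ (L₂.inv_mem hb)).symm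

/-- `j` is the canonical involution of `D j w`. -/
theorem charInv_D [Finite G] (T : Two L₁ L₂ j n) (hww : w * w = 1) (hw1 : w ≠ 1) (hwj : w ≠ j) (hc : w * j = j * w) :
    CharInv (D j w) j := by
  haveI : Fact (Nat.Prime 2) := ⟨Nat.prime_two⟩
  obtain ⟨u₁, hu₁, u₂, hu₂, hw, h1, h2⟩ := T.form_w hww hw1 hwj hc
  obtain ⟨r₁, hr₁, hr₁'⟩ := T.ex₁ u₁ hu₁ h1
  obtain ⟨r₂, hr₂, hr₂'⟩ := T.ex₂ u₂ hu₂ h2
  have hD₁ : ∀ {α : G}, α ∈ L₁ → α * u₁ = u₁ * α → α ∈ D j w := fun hα hαc =>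
    mem_D₁ T hu₁ hu₂ h1 h2 hw hww hr₁ hr₂ hr₁' hr₂' hα hαc
  have hD₂ : ∀ {β : G}, β ∈ L₂ → β * u₂ = u₂ * β → β ∈ D j w := fun hβ hβc =>
    mem_D₂ T hu₁ hu₂ h1 h2 hw hww hr₁ hr₂ hr₁' hr₂' hβ hβc
  set E := D j w with hE
  have hu₁E : u₁ ∈ E := hD₁ hu₁ rfl
  have hord : orderOf (⟨u₁, hu₁E⟩ : E) = 2 ^ 2 := by
    rw [Subgroup.orderOf_mk]
    apply orderOf_eq_prime_pow (p := 2) (n := 1)
    · rw [pow_one, pow_two, h1]; exact T.j1
    · have : u₁ ^ 2 ^ (1 + 1) = (u₁ * u₁) * (u₁ * u₁) := by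
        simp only [Nat.reduceAdd, Nat.reducePow]
        simp [pow_succ, mul_assoc]
      rw [this, h1, T.j2]
  have h4 : 4 ∣ Monoid.exponent E := by
    have := Monoid.order_dvd_exponent (⟨u₁, hu₁E⟩ : E)
    rwa [hord] at this
  have hne : Monoid.exponent E ≠ 0 := Monoid.exponent_ne_zero_of_finite
  obtain ⟨k, hk⟩ := h4
  have hdiv : Monoid.exponent E / 2 = 2 * k := by omega
  have hkpos : 0 < k := by
    rcases Nat.eq_zero_or_pos k with h | h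
    · rw [h] at hk; omega
    · exact h
  have hexpE : ∀ y ∈ E, y ^ (4 * k) = 1 := by
    intro y hy
    have := Monoid.pow_exponent_eq_one (⟨y, hy⟩ : E)
    rw [hk] at this
    exact congrArg Subtype.val this
  rw [CharInv, hdiv]
  constructor
  · intro y hy
    obtain ⟨α, hα, β, hβ, rfl⟩ := D_decomp T hy
    have hcw := (D_commute hy).2
    rw [hw] at hcw
    have hcm : α * β = β * α := T.comm α hα β hβ
    rcases T.dich hu₁ hu₂ h1 h2 hα hβ hcw with ⟨c1, c2⟩ | ⟨c1, c2⟩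
    · have hαE := hD₁ hα c1
      have hβE := hD₂ hβ c2
      have e1 : (α ^ (2 * k)) * (α ^ (2 * k)) = 1 := by
        rw [← pow_add, show 2 * k + 2 * k = 4 * k by ring, hexpE α hαE]
      have e2 : (β ^ (2 * k)) * (β ^ (2 * k)) = 1 := by
        rw [← pow_add, show 2 * k + 2 * k = 4 * k by ring, hexpE β hβE]
      have hp : (α * β) ^ (2 * k) = α ^ (2 * k) * β ^ (2 * k) := (show Commute α β from hcm).mul_pow _
      rw [hp]
      rcases T.inv₁ _ (L₁.pow_mem hα _) e1 with h5 | h5 <;> rcases T.inv₂ _ (L₂.pow_mem hβ _) e2 with h6 | h6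
      · left; rw [h5, h6, one_mul]
      · right; rw [h5, h6, one_mul]
      · right; rw [h5, h6, mul_one]
      · left; rw [h5, h6, T.j2]
    · left
      have e1 := T.an₁ u₁ hu₁ h1 α hα c1
      have e2 := T.an₂ u₂ hu₂ h2 β hβ c2
      have e3 : (α * β) ^ 2 = 1 := by
        rw [(show Commute α β from hcm).mul_pow, pow_two, pow_two, e1, e2, T.j2]
      rw [pow_mul, e3, one_pow]
  · by_contra hno
    push Not at hno
    have hall : ∀ g : E, g ^ (2 * k) = 1 := by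
      rintro ⟨y, hy⟩
      apply Subtype.ext
      have h5 : y ^ (2 * k) = 1 := by
        obtain ⟨α, hα, β, hβ, rfl⟩ := D_decomp T hy
        have hcw := (D_commute hy).2
        rw [hw] at hcw
        have hcm : α * β = β * α := T.comm α hα β hβ
        rcases T.dich hu₁ hu₂ h1 h2 hα hβ hcw with ⟨c1, c2⟩ | ⟨c1, c2⟩
        · have hαE := hD₁ hα c1
          have hβE := hD₂ hβ c2
          have e1 : (α ^ (2 * k)) * (α ^ (2 * k)) = 1 := by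
            rw [← pow_add, show 2 * k + 2 * k = 4 * k by ring, hexpE α hαE]
          have e2 : (β ^ (2 * k)) * (β ^ (2 * k)) = 1 := by
            rw [← pow_add, show 2 * k + 2 * k = 4 * k by ring, hexpE β hβE]
          have hp : (α * β) ^ (2 * k) = α ^ (2 * k) * β ^ (2 * k) := (show Commute α β from hcm).mul_pow _
          have h7 := hno _ hy
          rcases T.inv₁ _ (L₁.pow_mem hα _) e1 with h5 | h5 <;> rcases T.inv₂ _ (L₂.pow_mem hβ _) e2 with h6 | h6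
          · rw [hp, h5, h6, one_mul]
          · exact absurd (by rw [hp, h5, h6, one_mul]) h7
          · exact absurd (by rw [hp, h5, h6, mul_one]) h7
          · rw [hp, h5, h6, T.j2]
        · have e1 := T.an₁ u₁ hu₁ h1 α hα c1
          have e2 := T.an₂ u₂ hu₂ h2 β hβ c2
          have e3 : (α * β) ^ 2 = 1 := by
            rw [(show Commute α β from hcm).mul_pow, pow_two, pow_two, e1, e2, T.j2]
          rw [pow_mul, e3, one_pow]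
      simpa using h5
    have := Monoid.exponent_dvd_of_forall_pow_eq_one hall
    rw [hk] at this
    have h6 := Nat.le_of_dvd (by omega) this
    omega

/-- `j` is weakly closed in its centralizer. -/
theorem eq_of_commute_conj [Finite G] (T : Two L₁ L₂ j n) (g : G) (hc : g * j * g⁻¹ * j = j * (g * j * g⁻¹)) :
    g * j * g⁻¹ = j := by
  by_contra hne
  set j' := g * j * g⁻¹ with hj'
  have hj'1 : j' ≠ 1 := by
    intro h
    apply T.j1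
    have : j = g⁻¹ * j' * g := by rw [hj']; group
    rw [this, h]; group
  have hj'2 : j' * j' = 1 := by
    have : j' * j' = g * (j * j) * g⁻¹ := by rw [hj']; group
    rw [this, T.j2]; group
  -- the other conjugate
  set j'' := g⁻¹ * j * g with hj''
  have hj''2 : j'' * j'' = 1 := by
    have : j'' * j'' = g⁻¹ * (j * j) * g := by rw [hj'']; group
    rw [this, T.j2]; group
  have hj''1 : j'' ≠ 1 := by
    intro h
    apply T.j1
    have : j = g * j'' * g⁻¹ := by rw [hj'']; group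
    rw [this, h]; group
  have hj''j : j'' ≠ j := by
    intro h
    apply hne
    have h8 : g⁻¹ * j * g = j := h
    calc j' = g * j * g⁻¹ := rfl
      _ = g * (g⁻¹ * j * g) * g⁻¹ := by rw [h8]
      _ = j := by group
  have hj''c : j'' * j = j * j'' := by
    have h5 : g⁻¹ * ((g * j * g⁻¹) * j) * g = g⁻¹ * (j * (g * j * g⁻¹)) * g := by rw [hc]
    have h6 : g⁻¹ * ((g * j * g⁻¹) * j) * g = j * j'' := by rw [hj'']; group
    have h7 : g⁻¹ * (j * (g * j * g⁻¹)) * g = j'' * j := by rw [hj'']; group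
    rw [h6, h7] at h5
    exact h5.symm
  have h1 : CharInv (D j j') j := charInv_D T hj'2 hj'1 hne hc
  have h2 : CharInv (D j j'') j := charInv_D T hj''2 hj''1 hj''j hj''c
  have h3 := h2.map (MulAut.conj g)
  rw [D_map] at h3
  have e1 : MulAut.conj g j = j' := by simp [hj', MulAut.conj_apply]
  have e2 : MulAut.conj g j'' = j := by
    simp only [MulAut.conj_apply, hj'']; group
  rw [e1, e2, D_comm] at h3
  exact hne (h1.eq_of h3 T.j1).symm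

end main

end Cfsg.Agent.Lib.Blocks.TwoSL2
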