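import Mathlib
import Cfsg.Agent.Lib.Blocks.TwoSL2

/-!
# Elements of order four in `SL₂(F)`, `F` a finite field of odd order
-/

set_option autoImplicit false

namespace Cfsg.Agent.Lib.Blocks.TwoSL2Mat

universe u v

variable {F : Type v} [Field F] [Fintype F]

local notation "SL" => Matrix.SpecialLinearGroup (Fin 2) F

/-- The entries of a product. -/
lemma entries_mul (x y : SL) :
    (x * y).1 0 0 = x.1 0 0 * y.1 0 0 + x.1 0 1 * y.1 1 0 ∧
    (x * y).1 0 1 = x.1 0 0 * y.1 0 1 + x.1 0 1 * y.1 1 1 ∧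
    (x * y).1 1 0 = x.1 1 0 * y.1 0 0 + x.1 1 1 * y.1 1 0 ∧
    (x * y).1 1 1 = x.1 1 0 * y.1 0 1 + x.1 1 1 * y.1 1 1 := by
  simp [Matrix.SpecialLinearGroup.coe_mul, Matrix.mul_apply, Fin.sum_univ_two]

lemma det_entries (x : SL) : x.1 0 0 * x.1 1 1 - x.1 0 1 * x.1 1 0 = 1 := by
  have := x.2
  rwa [Matrix.det_fin_two] at this

lemma ext_entries {x y : SL} (h00 : x.1 0 0 = y.1 0 0) (h01 : x.1 0 1 = y.1 0 1) (h10 : x.1 1 0 = y.1 1 0)
    (h11 : x.1 1 1 = y.1 1 1) : x = y := by
  apply Subtype.ext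
  ext i j
  fin_cases i <;> fin_cases j <;> assumption

lemma entries_one : (1 : SL).1 0 0 = 1 ∧ (1 : SL).1 0 1 = 0 ∧ (1 : SL).1 1 0 = 0 ∧ (1 : SL).1 1 1 = 1 := by
  simp [Matrix.SpecialLinearGroup.coe_one]

/-- The entries of the element `-1`. -/
lemma entries_neg {m : SL} (hm : m.1 = -1) : m.1 0 0 = -1 ∧ m.1 0 1 = 0 ∧ m.1 1 0 = 0 ∧ m.1 1 1 = -1 := by
  rw [hm]
  simp

/-- The only involution of `SL₂(F)` is `-1`. -/
lemma sl_inv (hF : (2 : F) ≠ 0) {x m : SL} (hm : m.1 = -1) (hx : x * x = 1) : x = 1 ∨ x = m := by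
  obtain ⟨e1, e2, e3, e4⟩ := entries_mul x x
  obtain ⟨o1, o2, o3, o4⟩ := entries_one (F := F)
  obtain ⟨m1, m2, m3, m4⟩ := entries_neg hm
  rw [hx] at e1 e2 e3 e4
  rw [o1] at e1
  rw [o2] at e2
  rw [o3] at e3
  rw [o4] at e4
  have hd := det_entries x
  set a := x.1 0 0 with ha
  set b := x.1 0 1 with hb
  set c := x.1 1 0 with hc
  set d := x.1 1 1 with hd'
  have h1 : a * (a + d) = 2 := by linear_combination -e1 + hd
  have h2 : a + d ≠ 0 := by
    intro h
    rw [h, mul_zero] at h1
    exact hF h1.symm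
  have hb0 : b = 0 := by
    have : b * (a + d) = 0 := by linear_combination -e2
    exact (mul_eq_zero.1 this).resolve_right h2
  have hc0 : c = 0 := by
    have : c * (a + d) = 0 := by linear_combination -e3
    exact (mul_eq_zero.1 this).resolve_right h2
  rw [hb0, hc0] at hd e1
  have hda : d = a := by
    have h3 : a * (a - d) = 0 := by linear_combination -e1 - hd
    have h4 : a ≠ 0 := by
      intro h
      rw [h, zero_mul] at h1
      exact hF h1.symm
    have h5 := (mul_eq_zero.1 h3).resolve_left h4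
    linear_combination -h5
  have h6 : (a - 1) * (a + 1) = 0 := by linear_combination -e1
  rcases mul_eq_zero.1 h6 with h7 | h7
  · left
    have ha1 : a = 1 := by linear_combination h7
    apply ext_entries
    · rw [o1]; exact ha1
    · rw [o2]; exact hb0
    · rw [o3]; exact hc0
    · rw [o4]; change d = 1; rw [hda]; exact ha1
  · right
    have ha1 : a = -1 := by linear_combination h7
    apply ext_entries
    · rw [m1]; exact ha1
    · rw [m2]; exact hb0
    · rw [m3]; exact hc0
    · rw [m4]; change d = -1; rw [hda]; exact ha1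

/-- The square root of `-1` has trace zero. -/
lemma trace_zero {t m : SL} (hm : m.1 = -1) (ht : t * t = m) : t.1 1 1 = - t.1 0 0 := by
  obtain ⟨e1, e2, e3, e4⟩ := entries_mul t t
  obtain ⟨m1, m2, m3, m4⟩ := entries_neg hm
  rw [ht] at e1 e2 e3 e4
  rw [m1] at e1
  rw [m2] at e2
  rw [m3] at e3
  rw [m4] at e4
  have hd := det_entries t
  set p := t.1 0 0 with hp
  set q := t.1 0 1 with hq
  set s := t.1 1 0 with hs
  set u := t.1 1 1 with hu
  have h1 : p * (p + u) = 0 := by linear_combination -e1 + hd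
  have h2 : q * (p + u) = 0 := by linear_combination -e2
  have h3 : s * (p + u) = 0 := by linear_combination -e3
  by_contra hne
  have h4 : p + u ≠ 0 := fun h => hne (by linear_combination h)
  have hp0 := (mul_eq_zero.1 h1).resolve_right h4
  have hq0 := (mul_eq_zero.1 h2).resolve_right h4
  have hs0 := (mul_eq_zero.1 h3).resolve_right h4
  rw [hp0, hq0] at hd
  simp at hd

/-- The inverse of a square root of `-1`. -/
lemma inv_eq {t m : SL} (hm : m.1 = -1) (ht : t * t = m) : t⁻¹ = m * t := by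
  have hmm : m * m = 1 := by
    obtain ⟨m1, m2, m3, m4⟩ := entries_neg hm
    obtain ⟨o1, o2, o3, o4⟩ := entries_one (F := F)
    obtain ⟨e1, e2, e3, e4⟩ := entries_mul m m
    apply ext_entries
    · rw [e1, m1, m2, m3, o1]; ring
    · rw [e2, m1, m2, m4, o2]; ring
    · rw [e3, m3, m4, m1, o3]; ring
    · rw [e4, m3, m2, m4, o4]; ring
  apply inv_eq_of_mul_eq_one_right
  calc t * (m * t) = t * ((t * t) * t) := by rw [ht]
    _ = (t * t) * (t * t) := by group
    _ = 1 := by rw [ht, hmm]

/-- The anticommutation relation, in entries. -/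
lemma anti_entries {t r : SL} (hMat : r.1 * t.1 = -(t.1 * r.1)) :
    r.1 0 0 * t.1 0 0 + r.1 0 1 * t.1 1 0 = -(t.1 0 0 * r.1 0 0 + t.1 0 1 * r.1 1 0) ∧
    r.1 0 0 * t.1 0 1 + r.1 0 1 * t.1 1 1 = -(t.1 0 0 * r.1 0 1 + t.1 0 1 * r.1 1 1) ∧
    r.1 1 0 * t.1 0 0 + r.1 1 1 * t.1 1 0 = -(t.1 1 0 * r.1 0 0 + t.1 1 1 * r.1 1 0) ∧
    r.1 1 0 * t.1 0 1 + r.1 1 1 * t.1 1 1 = -(t.1 1 0 * r.1 0 1 + t.1 1 1 * r.1 1 1) := by
  have e00 := congrFun (congrFun hMat 0) 0
  have e01 := congrFun (congrFun hMat 0) 1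
  have e10 := congrFun (congrFun hMat 1) 0
  have e11 := congrFun (congrFun hMat 1) 1
  simp only [Matrix.mul_apply, Fin.sum_univ_two, Matrix.neg_apply] at e00 e01 e10 e11
  exact ⟨e00, e01, e10, e11⟩

/-- An element inverting a square root of `-1` is a square root of `-1`. -/
lemma sl_anti (hF : (2 : F) ≠ 0) {t r m : SL} (hm : m.1 = -1) (ht : t * t = m) (hr : r * t * r⁻¹ = t⁻¹) : r * r = m := by
  have h1 : r * t = m * t * r := by
    rw [inv_eq hm ht] at hr
    rw [← hr]
    group
  have hMat : r.1 * t.1 = -(t.1 * r.1) := by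
    have := congrArg Subtype.val h1
    simpa [Matrix.SpecialLinearGroup.coe_mul, hm] using this
  obtain ⟨e00, e01, e10, e11⟩ := anti_entries hMat
  have ht0 := trace_zero hm ht
  have hdt := det_entries t
  have hdr := det_entries r
  obtain ⟨m1, m2, m3, m4⟩ := entries_neg hm
  obtain ⟨f1, f2, f3, f4⟩ := entries_mul r r
  generalize t.1 0 0 = p at *
  generalize t.1 0 1 = q at *
  generalize t.1 1 0 = s at *
  generalize t.1 1 1 = u at *
  generalize r.1 0 0 = a at *
  generalize r.1 0 1 = b at *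
  generalize r.1 1 0 = c at *
  generalize r.1 1 1 = d at *
  subst ht0
  have h2 : q * (a + d) = 0 := by linear_combination e01
  have h3 : s * (a + d) = 0 := by linear_combination e10
  have h4 : 2 * (p * (a + d)) = 0 := by linear_combination e00 - e11
  have h5 : p * (a + d) = 0 := (mul_eq_zero.1 h4).resolve_left hF
  have h6 : a + d = 0 := by
    by_contra hne
    have hp0 := (mul_eq_zero.1 h5).resolve_right hne
    have hq0 := (mul_eq_zero.1 h2).resolve_right hne
    rw [hp0, hq0] at hdt
    simp at hdt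
  have hd : d = -a := by linear_combination h6
  subst hd
  apply ext_entries
  · rw [f1, m1]; linear_combination -hdr
  · rw [f2, m2]; ring
  · rw [f3, m3]; ring
  · rw [f4, m4]; linear_combination -hdr

/-- A square root of `-1` is conjugate to its inverse. -/
lemma sl_exists (hF : (2 : F) ≠ 0) {t m : SL} (hm : m.1 = -1) (ht : t * t = m) : ∃ r : SL, r * t * r⁻¹ = t⁻¹ := by
  obtain ⟨e1, e2, e3, e4⟩ := entries_mul t t
  obtain ⟨m1, m2, m3, m4⟩ := entries_neg hm
  have ht0 := trace_zero hm ht
  have hdt := det_entries t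
  -- it suffices to find an anticommuting element
  suffices hs : ∃ r : SL, r.1 * t.1 = -(t.1 * r.1) by
    obtain ⟨r, hr⟩ := hs
    refine ⟨r, ?_⟩
    have h1 : r * t = m * t * r := by
      apply Subtype.ext
      simpa [Matrix.SpecialLinearGroup.coe_mul, hm] using hr
    rw [inv_eq hm ht, h1]
    group
  by_cases hs0 : t.1 1 0 = 0
  · -- lower triangular case
    rw [ht0, hs0] at hdt
    have hp : t.1 0 0 ≠ 0 := by
      intro h
      rw [h] at hdt
      simp at hdt
    set p := t.1 0 0 with hp'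
    set q := t.1 0 1 with hq'
    set x : F := -q / (2 * p) with hx
    have hxp : 2 * x * p = -q := by
      rw [hx]
      field_simp
    refine ⟨⟨!![x, -1 - x * x; 1, -x], ?_⟩, ?_⟩
    · rw [Matrix.det_fin_two_of]; ring
    · ext i k
      fin_cases i <;> fin_cases k <;>
        simp [Matrix.mul_apply, Fin.sum_univ_two, ht0, hs0, ← hp', ← hq']
      all_goals first
        | ring1
        | (linear_combination hxp; done)
        | (linear_combination -hxp; done)
  · -- the general case: `a ^ 2 + b ^ 2 = -1`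
    haveI : NeZero (ringChar F) := ⟨CharP.ringChar_ne_zero_of_finite F⟩
    obtain ⟨a', b', hab⟩ := CharP.sq_add_sq F (ringChar F) (-1 : ℤ)
    set a : F := (a' : F)
    set b : F := (b' : F)
    have hab' : a ^ 2 + b ^ 2 = -1 := by simpa using hab
    set p := t.1 0 0 with hp'
    set q := t.1 0 1 with hq'
    set s := t.1 1 0 with hs'
    have hdt' : 1 + q * s + p * p = 0 := by
      rw [ht0] at hdt
      linear_combination -hdt
    obtain ⟨y, hy⟩ : ∃ y : F, y * s = b - 2 * p * a - p * p * b :=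
      ⟨(b - 2 * p * a - p * p * b) / s, div_mul_cancel₀ _ hs0⟩
    refine ⟨⟨!![a + p * b, y; s * b, -(a + p * b)], ?_⟩, ?_⟩
    · rw [Matrix.det_fin_two_of]
      linear_combination (-b) * hy - hab'
    · ext i k
      fin_cases i <;> fin_cases k <;>
        simp [Matrix.mul_apply, Fin.sum_univ_two, ht0, ← hp', ← hq', ← hs']
      all_goals first
        | ring1
        | (linear_combination hy + b * hdt'; done)
        | (linear_combination (-1 : F) * hy - b * hdt'; done)

section transport

variable {G : Type u} [Group G]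

/-- The properties of `L ≅ SL₂(F)` used in the data `Two`. -/
theorem props_of_equiv (hF : (2 : F) ≠ 0) {L : Subgroup G} (e : L ≃* SL) {j : G} (hjL : j ∈ L) (hj : j * j = 1) (hj1 : j ≠ 1) :
    (∀ x ∈ L, x * x = 1 → x = 1 ∨ x = j) ∧ (∀ t ∈ L, t * t = j → ∃ r ∈ L, r * t * r⁻¹ = t⁻¹) ∧
      (∀ t ∈ L, t * t = j → ∀ r ∈ L, r * t * r⁻¹ = t⁻¹ → r * r = j) := by
  -- the element `-1`
  obtain ⟨m, hm⟩ : ∃ m : SL, m.1 = -1 := by
    refine ⟨⟨-1, ?_⟩, rfl⟩
    rw [Matrix.det_neg]
    simp
  have hmm : m * m = 1 := by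
    apply Subtype.ext
    simp [Matrix.SpecialLinearGroup.coe_mul, hm]
  have hm1 : m ≠ 1 := by
    intro h
    have h1 := (entries_neg hm).1
    rw [h] at h1
    have h2 := (entries_one (F := F)).1
    rw [h2] at h1
    apply hF
    linear_combination h1
  set J : L := ⟨j, hjL⟩ with hJ
  have hJ2 : J * J = 1 := Subtype.ext hj
  have hJ1 : J ≠ 1 := fun h => hj1 (congrArg Subtype.val h)
  have heJ : e J = m := by
    have h1 : e J * e J = 1 := by rw [← map_mul, hJ2, map_one]
    rcases sl_inv hF hm h1 with h2 | h2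
    · exact absurd ((map_eq_one_iff e e.injective).1 h2) hJ1
    · exact h2
  refine ⟨?_, ?_, ?_⟩
  · intro x hx hxx
    set X : L := ⟨x, hx⟩
    have h1 : e X * e X = 1 := by
      rw [← map_mul, show X * X = 1 from Subtype.ext hxx, map_one]
    rcases sl_inv hF hm h1 with h2 | h2
    · left
      have := (map_eq_one_iff e e.injective).1 h2
      exact congrArg Subtype.val this
    · right
      rw [← heJ] at h2
      exact congrArg Subtype.val (e.injective h2)
  · intro t ht htt
    set T : L := ⟨t, ht⟩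
    have h1 : e T * e T = m := by
      rw [← map_mul, show T * T = J from Subtype.ext htt, heJ]
    obtain ⟨r, hr⟩ := sl_exists hF hm h1
    refine ⟨(e.symm r : L), (e.symm r).2, ?_⟩
    have h2 : e.symm r * T * (e.symm r)⁻¹ = T⁻¹ := by
      apply e.injective
      simp only [map_mul, map_inv, MulEquiv.apply_symm_apply]
      exact hr
    exact congrArg Subtype.val h2
  · intro t ht htt r hr hrt
    set T : L := ⟨t, ht⟩
    set R : L := ⟨r, hr⟩
    have h1 : e T * e T = m := by
      rw [← map_mul, show T * T = J from Subtype.ext htt, heJ]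
    have h2 : R * T * R⁻¹ = T⁻¹ := Subtype.ext hrt
    have h3 : e R * e T * (e R)⁻¹ = (e T)⁻¹ := by
      rw [← map_mul, ← map_inv, ← map_mul, h2, map_inv]
    have h4 := sl_anti hF hm h1 h3
    have h5 : R * R = J := by
      apply e.injective
      rw [map_mul, h4, heJ]
    exact congrArg Subtype.val h5

/-- `SL₂(F)` has an element other than `±1`. -/
lemma exists_other (L : Subgroup G) (e : L ≃* SL) (j : G) (hF : (2 : F) ≠ 0) (hj : j * j = 1) : ∃ x ∈ L, x ≠ 1 ∧ x ≠ j := by
  set y : SL := ⟨!![1, 1; 0, 1], by rw [Matrix.det_fin_two_of]; ring⟩ with hy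
  have hyy : y * y ≠ 1 := by
    intro h
    have h1 := (entries_mul y y).2.1
    rw [h, (entries_one (F := F)).2.1] at h1
    simp [hy] at h1
    exact hF (by linear_combination -h1)
  refine ⟨(e.symm y : L), (e.symm y).2, ?_, ?_⟩
  · intro h
    have h2 : e.symm y = 1 := Subtype.ext h
    have h3 : y = 1 := by
      have := congrArg e h2
      simpa using this
    rw [h3] at hyy
    exact hyy (by simp)
  · intro h
    have h2 : (e.symm y : L) * (e.symm y : L) = 1 := by
      apply Subtype.ext
      simp only [Subgroup.coe_mul, Subgroup.coe_one]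
      rw [h, hj]
    have h3 : y * y = 1 := by
      have := congrArg e h2
      simpa using this
    exact hyy h3

end transport

end Cfsg.Agent.Lib.Blocks.TwoSL2Mat
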