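import Mathlib
import Cfsg.Agent.Lib.Blocks.MajorSub3
import Cfsg.Agent.Lib.Blocks.Knorr3
import Cfsg.Agent.S0973
import Cfsg.Agent.S0908
import Cfsg.Agent.S0912
import Cfsg.Agent.S0919
import Cfsg.Agent.Lib.Blocks.HarrisKnorr

/-!
# Heights and the centre of the defect group

The numbers `x` of major subsections at different classes of pairs are orthogonal.
-/

set_option autoImplicit false
set_option linter.unusedSectionVars false
set_option linter.style.haveILetI false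

namespace Cfsg.Agent.Lib.Blocks.ZDefect

open Cfsg Cfsg.Agent.Lib.Blocks.Local Cfsg.Agent.Lib.Blocks.Central Cfsg.Agent.Lib.Blocks.Osima
  Cfsg.Agent.Lib.Blocks.Sections Cfsg.Agent.Lib.Blocks.HeightZero Cfsg.Agent.Lib.Blocks.MajorSub
  Cfsg.Agent.Lib.Blocks.MajorSub2 Cfsg.Agent.Lib.Blocks.MajorNum Cfsg.Agent.Lib.Blocks.CycloSums
  Cfsg.Agent.Lib.Blocks.BlockCount Cfsg.Agent.Lib.Blocks.SubsectionNorm Cfsg.Agent.Lib.Blocks.Transport
  Cfsg.Agent.Lib.Blocks.Regular Cfsg.Agent.Lib.Blocks.MajorSub3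
open scoped ComplexConjugate

universe u

section Transport

variable {A B : Type*} [Group A] [Group B] [Fintype A] [Fintype B] {p : ℕ}

/-- The span of the `p`-regular parts is transported along isomorphisms. -/
lemma regSpan_comap (φ : A ≃* B) {C : Set (IrrCharacter B)} {a : B → ℂ} (ha : a ∈ regSpan p C) :
    (fun x => a (φ x)) ∈ regSpan p (blockMap φ C) := by
  induction ha using Submodule.span_induction with
  | mem x h =>
    obtain ⟨ξ, hξ, rfl⟩ := h
    refine Submodule.subset_span ⟨irrComap φ ξ, irrComap_mem_blockMap φ hξ, ?_⟩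
    funext y
    simp only [Cfsg.Agent.Lib.Blocks.Cartan.pRegularPart_eq_reg]
    by_cases hy : p ∣ orderOf y
    · rw [reg_of_dvd _ hy, reg_of_dvd _ (by rwa [MulEquiv.orderOf_eq])]
    · rw [reg_of_not_dvd _ hy, reg_of_not_dvd _ (by rwa [MulEquiv.orderOf_eq])]
      rfl
  | zero => exact Submodule.zero_mem _
  | add x y _ _ hx hy => exact Submodule.add_mem _ hx hy
  | smul c x _ hx => exact Submodule.smul_mem _ c hx

end Transport

section Cen

variable {G : Type u} [Group G]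

/-- Conjugation between centralizers. -/
def cenConj (g : G) {u₁ u₂ : G} (hg : g * u₁ * g⁻¹ = u₂) : Cen u₁ ≃* Cen u₂ where
  toFun x := ⟨g * x * g⁻¹, by
    rw [Subgroup.mem_centralizer_singleton_iff, ← hg]
    have h1 := Subgroup.mem_centralizer_singleton_iff.1 x.2
    calc g * x * g⁻¹ * (g * u₁ * g⁻¹) = g * (x * u₁) * g⁻¹ := by group
      _ = g * (u₁ * x) * g⁻¹ := by rw [h1]
      _ = g * u₁ * g⁻¹ * (g * x * g⁻¹) := by group⟩
  invFun x := ⟨g⁻¹ * x * g, by
    rw [Subgroup.mem_centralizer_singleton_iff]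
    have h1 := Subgroup.mem_centralizer_singleton_iff.1 x.2
    have h2 : (x : G) * (g * u₁ * g⁻¹) = (g * u₁ * g⁻¹) * x := by
      rw [hg]
      exact h1
    calc g⁻¹ * x * g * u₁ = g⁻¹ * ((x : G) * (g * u₁ * g⁻¹)) * g := by group
      _ = g⁻¹ * ((g * u₁ * g⁻¹) * x) * g := by rw [h2]
      _ = u₁ * (g⁻¹ * x * g) := by group⟩
  left_inv x := by
    apply Subtype.ext
    simp [mul_assoc]
  right_inv x := by
    apply Subtype.ext
    simp [mul_assoc]
  map_mul' x y := by
    apply Subtype.ext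
    simp [mul_assoc]

@[simp] lemma coe_cenConj (g : G) {u₁ u₂ : G} (hg : g * u₁ * g⁻¹ = u₂) (x : Cen u₁) :
    ((cenConj g hg x : Cen u₂) : G) = g * x * g⁻¹ := rfl

lemma isConj_conj (g x : G) : IsConj x (g * x * g⁻¹) := isConj_iff.2 ⟨g, rfl⟩

/-- Blocks conjugate under `G` induce the same block. -/
lemma isInducedBlock_cenConj {M : Ideal AlgInt} [Finite G] (g : G) {u₁ u₂ : G} (hg : g * u₁ * g⁻¹ = u₂)
    {c : Set (IrrCharacter (Cen u₂))} {B : Set (IrrCharacter G)} (h : IsInducedBlock M (Cen u₂) c B) :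
    IsInducedBlock M (Cen u₁) (blockMap (cenConj g hg) c) B := by
  refine ⟨isPBlock_blockMap _ h.1, h.2.1, ?_⟩
  rintro _ ⟨ξ, hξ, rfl⟩ χ hχ x
  have h1 := h.2.2 ξ hξ χ hχ x
  convert h1 using 2
  rw [inducedCentralChar, inducedCentralChar]
  apply finsum_mem_eq_of_bijOn (cenConj g hg)
  · refine ⟨?_, (cenConj g hg).injective.injOn, ?_⟩
    · intro y hy
      show IsConj x ((cenConj g hg y : Cen u₂) : G)
      rw [coe_cenConj]
      exact IsConj.trans hy (isConj_conj g y)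
    · intro k hk
      refine ⟨(cenConj g hg).symm k, ?_, by simp⟩
      have h2 : IsConj x (k : G) := hk
      show IsConj x (((cenConj g hg).symm k : Cen u₁) : G)
      have h3 : (((cenConj g hg).symm k : Cen u₁) : G) = g⁻¹ * k * g := rfl
      rw [h3]
      have h4 := isConj_conj g⁻¹ (k : G)
      rw [inv_inv] at h4
      exact h2.trans h4
  · intro y _
    simp

end Cen

section Pair

variable {G : Type u} [Group G] [Fintype G] {M : Ideal AlgInt} [hMp : M.IsPrime] {p : ℕ} [hp : Fact p.Prime]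

open Classical

/-- The numbers `x` in terms of the section functions. -/
lemma XX_eq_conj_sumInner (hM : IsPModular p M) {u : G} [Fintype (Cen u)] {b : Set (IrrCharacter (Cen u))}
    (hb : IsPBlock M b) (χ χ' : IrrCharacter G) :
    XX p b χ χ' = conj ((p : ℂ) ^ blockDefect p b * ((Nat.card (Cen u) : ℂ)⁻¹ *
      sumInner (fun c : Cen u => (χ' : G → ℂ) (u * c)) (gg p b χ))) := by
  have h : sumInner (gg p b χ') (gg p b χ) = sumInner (fun c : Cen u => (χ' : G → ℂ) (u * c)) (gg p b χ) :=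
    sumInner_reg_blockPart hM (isClosed_of_isPBlock hb) _ (gg_mem b χ)
  rw [← XX_conj b χ' χ, XX_eq_SS, SS, classInner_eq_sumInner, h]

/-- Orthogonality for non-conjugate elements. -/
lemma sum_conj_mul_of_not_isConj (hM : IsPModular p M) {u₁ u₂ : G} [Fintype (Cen u₁)] [Fintype (Cen u₂)]
    {k₁ k₂ : ℕ} (hk₁ : orderOf u₁ = p ^ k₁) (hk₂ : orderOf u₂ = p ^ k₂) (hnc : ¬ IsConj u₂ u₁)
    {B : Set (IrrCharacter G)} (hB : IsPBlock M B) {a₁ : Cen u₁ → ℂ} {a₂ : Cen u₂ → ℂ}
    (ha₁ : ∀ c, p ∣ orderOf c → a₁ c = 0) (ha₂ : ∀ c, p ∣ orderOf c → a₂ c = 0) :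
    ∑ χ ∈ Finset.univ.filter (· ∈ B), conj (sumInner (fun c : Cen u₁ => (χ : G → ℂ) (u₁ * c)) a₁) *
      sumInner (fun c : Cen u₂ => (χ : G → ℂ) (u₂ * c)) a₂ = 0 := by
  simp only [sumInner, map_sum, map_mul, Complex.conj_conj, Finset.sum_mul, Finset.mul_sum]
  rw [Finset.sum_comm]
  refine Finset.sum_eq_zero fun y _ => ?_
  rw [Finset.sum_comm]
  refine Finset.sum_eq_zero fun x _ => ?_
  by_cases hx : p ∣ orderOf x
  · simp [ha₁ x hx]
  by_cases hy : p ∣ orderOf y
  · simp [ha₂ y hy]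
  have hpart₁ : IsPPart p (u₁ * x) u₁ := ⟨x, rfl, Commute.symm (commute_of_mem_Cen x), ⟨k₁, hk₁⟩, by
    rwa [Subgroup.orderOf_coe]⟩
  have hpart₂ : IsPPart p (u₂ * y) u₂ := ⟨y, rfl, Commute.symm (commute_of_mem_Cen y), ⟨k₂, hk₂⟩, by
    rwa [Subgroup.orderOf_coe]⟩
  have h1 := Cfsg.Agent.Lib.Blocks.Sections.block_orthogonality hM hpart₂ hpart₁ hnc hB
  rw [Osima.finsum_mem_eq_sum_filter] at h1
  have h2 : ∀ χ ∈ Finset.univ.filter (· ∈ B), conj ((χ : G → ℂ) (u₁ * x)) * a₁ x *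
      ((χ : G → ℂ) (u₂ * y) * conj (a₂ y)) =
      (a₁ x * conj (a₂ y)) * ((χ : G → ℂ) (u₂ * y) * (χ : G → ℂ) (u₁ * x)⁻¹) := by
    intro χ _
    rw [Cfsg.Agent.Lib.Char.Ortho.conj_of_isCharacter
      (Cfsg.Agent.Lib.Char.Basic.isCharacter_of_isIrrCharacter χ.2)]
    ring
  rw [Finset.sum_congr rfl h2, ← Finset.mul_sum, h1, mul_zero]

/-- Orthogonality of the `p`-regular spans of different blocks. -/
lemma sumInner_eq_zero_of_ne {X : Type*} [Group X] [Fintype X] (hM : IsPModular p M)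
    {c₁ c₂ : Set (IrrCharacter X)} (hc₁ : IsPBlock M c₁) (hc₂ : IsPBlock M c₂) (hne : c₁ ≠ c₂)
    {a₁ a₂ : X → ℂ} (ha₁ : a₁ ∈ regSpan p c₁) (ha₂ : a₂ ∈ regSpan p c₂) : sumInner a₁ a₂ = 0 := by
  have h1 := sumInner_reg_blockPart hM (isClosed_of_isPBlock hc₂) a₁ ha₂
  rw [blockPart_of_mem_regSpan_of_disjoint hM (isClosed_of_isPBlock hc₂)
    (disjoint_of_isPBlock hc₂ hc₁ hne.symm) ha₁] at h1
  rw [← h1]
  simp [sumInner, reg]

/-- Orthogonality for conjugate elements. -/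
lemma sum_conj_mul_of_conj (hM : IsPModular p M) {u₁ u₂ : G} [Fintype (Cen u₁)] [Fintype (Cen u₂)]
    {k₁ : ℕ} (hk₁ : orderOf u₁ = p ^ k₁) (g : G) (hg : g * u₁ * g⁻¹ = u₂)
    {B : Set (IrrCharacter G)} {c₁ : Set (IrrCharacter (Cen u₁))} {c₂ : Set (IrrCharacter (Cen u₂))}
    (hind₁ : IsInducedBlock M (Cen u₁) c₁ B) (hind₂ : IsInducedBlock M (Cen u₂) c₂ B)
    (hne : c₁ ≠ blockMap (cenConj g hg) c₂) {a₁ : Cen u₁ → ℂ} {a₂ : Cen u₂ → ℂ}
    (ha₁ : a₁ ∈ regSpan p c₁) (ha₂ : a₂ ∈ regSpan p c₂) :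
    ∑ χ ∈ Finset.univ.filter (· ∈ B), conj (sumInner (fun c : Cen u₁ => (χ : G → ℂ) (u₁ * c)) a₁) *
      sumInner (fun c : Cen u₂ => (χ : G → ℂ) (u₂ * c)) a₂ = 0 := by
  set w : Cen u₁ → ℂ := fun x => a₂ (cenConj g hg x) with hw
  have hw' : w ∈ regSpan p (blockMap (cenConj g hg) c₂) := regSpan_comap _ ha₂
  have hind₂' := isInducedBlock_cenConj g hg hind₂
  have hsec : ∀ χ : IrrCharacter G, sumInner (fun c : Cen u₂ => (χ : G → ℂ) (u₂ * c)) a₂ =
      sumInner (fun c : Cen u₁ => (χ : G → ℂ) (u₁ * c)) w := by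
    intro χ
    rw [sumInner, sumInner, ← Equiv.sum_comp (cenConj g hg).toEquiv]
    refine Finset.sum_congr rfl fun x _ => ?_
    congr 1
    have h1 : u₂ * (((cenConj g hg).toEquiv x : Cen u₂) : G) = g * (u₁ * x) * g⁻¹ := by
      show u₂ * (g * x * g⁻¹) = _
      rw [← hg]
      group
    rw [h1]
    exact isClassFunction_of_irr χ.2 _ _
  simp only [hsec]
  obtain ⟨χ₀, rfl⟩ := id hind₁.2.1
  have hχ₀ := mem_blockOf_self (M := M) χ₀
  have hs : ∀ c : Set (IrrCharacter (Cen u₁)), IsInducedBlock M (Cen u₁) c (blockOf M (χ₀ : G → ℂ)) →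
      regSpan p c ≤ regSpan p (inducers (Cen u₁) M (χ₀ : G → ℂ)) := by
    intro c hc
    exact Submodule.span_mono (Set.image_mono fun ξ hξ g => hc.2.2 ξ hξ χ₀ hχ₀ g)
  rw [sum_polar hM χ₀ hk₁ (hs _ hind₁ ha₁) (hs _ hind₂' hw'),
    sumInner_eq_zero_of_ne hM hind₁.1 hind₂'.1 hne ha₁ hw', mul_zero]

/-- The orthogonality of the numbers `x`. -/
lemma XX_orth (hM : IsPModular p M) {u₁ u₂ : G} [Fintype (Cen u₁)] [Fintype (Cen u₂)]
    {B : Set (IrrCharacter G)} {c₁ : Set (IrrCharacter (Cen u₁))} {c₂ : Set (IrrCharacter (Cen u₂))}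
    (hc₁ : IsPBlock M c₁) (hc₂ : IsPBlock M c₂) (χ : IrrCharacter G)
    (h : ∀ {a₁ : Cen u₁ → ℂ} {a₂ : Cen u₂ → ℂ}, a₁ ∈ regSpan p c₁ → a₂ ∈ regSpan p c₂ →
      ∑ χ ∈ Finset.univ.filter (· ∈ B), conj (sumInner (fun c : Cen u₁ => (χ : G → ℂ) (u₁ * c)) a₁) *
        sumInner (fun c : Cen u₂ => (χ : G → ℂ) (u₂ * c)) a₂ = 0) :
    ∑ χ' ∈ Finset.univ.filter (· ∈ B), XX p c₁ χ χ' * conj (XX p c₂ χ χ') = 0 := by
  have h0 := h (gg_mem c₁ χ) (gg_mem c₂ χ)
  simp only [XX_eq_conj_sumInner hM hc₁, XX_eq_conj_sumInner hM hc₂, Complex.conj_conj, map_mul (starRingEnd ℂ)]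
  have h2 : ∀ χ' ∈ Finset.univ.filter (· ∈ B),
      conj ((p : ℂ) ^ blockDefect p c₁) * (conj ((Nat.card (Cen u₁) : ℂ)⁻¹) *
        conj (sumInner (fun c : Cen u₁ => (χ' : G → ℂ) (u₁ * c)) (gg p c₁ χ))) *
        ((p : ℂ) ^ blockDefect p c₂ * ((Nat.card (Cen u₂) : ℂ)⁻¹ *
          sumInner (fun c : Cen u₂ => (χ' : G → ℂ) (u₂ * c)) (gg p c₂ χ))) =
      (conj ((p : ℂ) ^ blockDefect p c₁) * conj ((Nat.card (Cen u₁) : ℂ)⁻¹) *
        ((p : ℂ) ^ blockDefect p c₂ * (Nat.card (Cen u₂) : ℂ)⁻¹)) *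
        (conj (sumInner (fun c : Cen u₁ => (χ' : G → ℂ) (u₁ * c)) (gg p c₁ χ)) *
          sumInner (fun c : Cen u₂ => (χ' : G → ℂ) (u₂ * c)) (gg p c₂ χ)) := by
    intro χ' _
    ring
  rw [Finset.sum_congr rfl h2, ← Finset.mul_sum, h0, mul_zero]

end Pair

section Numeric

variable {G : Type u} [Group G] [Fintype G] {M : Ideal AlgInt} [hMp : M.IsPrime] {p : ℕ} [hp : Fact p.Prime]
  [hCen : ∀ u : G, Fintype (Cen u)]

open Classical

/-- **The key inequality**: the number of pairwise orthogonal major subsections times `p^h` is at most `p^d`. -/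
theorem card_mul_pow_le (hM : IsPModular p M) {B : Set (IrrCharacter G)} (hB : IsPBlock M B) {ι : Type*}
    (s : Finset ι) (z : ι → G) (c : ∀ i, Set (IrrCharacter (Cen (z i)))) (K : ℕ)
    (hz : ∀ i ∈ s, ∃ k ≤ K, orderOf (z i) = p ^ k)
    (hind : ∀ i ∈ s, IsInducedBlock M (Cen (z i)) (c i) B)
    (hd : ∀ i ∈ s, blockDefect p (c i) = blockDefect p B)
    (horth : ∀ i ∈ s, ∀ j ∈ s, i ≠ j → ∀ χ : IrrCharacter G,
      ∑ χ' ∈ Finset.univ.filter (· ∈ B), XX p (c i) χ χ' * conj (XX p (c j) χ χ') = 0)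
    {χ : IrrCharacter G} (hχ : χ ∈ B) :
    s.card * p ^ blockHeight p B (χ : G → ℂ) ≤ p ^ blockDefect p B := by
  classical
  have hppos : 0 < p := hp.out.pos
  set n := p ^ (K + 1) with hn
  haveI : NeZero n := ⟨(pow_pos hppos _).ne'⟩
  set t := Finset.univ.filter (· ∈ B) with ht
  have hχt : χ ∈ t := by simp [ht, hχ]
  set d := blockDefect p B with hddef
  have hcpos : 0 < p ^ d := pow_pos hppos _
  have hmem : ∀ i ∈ s, ∀ χ₁ χ₂ : IrrCharacter G, XX p (c i) χ₁ χ₂ ∈ rootRing n := by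
    intro i hi χ₁ χ₂
    obtain ⟨k, hkK, hk⟩ := hz i hi
    exact rootRing_mono (pow_dvd_pow p (Nat.succ_le_succ hkK)) (XX_mem' hM hk (c i) χ₁ χ₂)
  -- the matrix of one major subsection
  have hHi : ∀ i ∈ s, Herm t n (p ^ d) (XX p (c i)) := by
    intro i hi
    obtain ⟨k, -, hk⟩ := hz i hi
    refine ⟨hmem i hi, XX_conj _, fun χ₁ _ => ?_⟩
    have := XX_row hM hk (hind i hi) χ₁
    rw [hd i hi] at this
    exact this
  -- each diagonal entry is large
  obtain ⟨χ₀, hχ₀, h0⟩ := exists_height_zero (p := p) (nonempty_of_isPBlock hB)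
  have hχ₀t : χ₀ ∈ t := by simp [ht, hχ₀]
  have hlarge : ∀ i ∈ s, ((p ^ blockHeight p B (χ : G → ℂ) : ℕ) : ℝ) ≤ aAvg n (XX p (c i) χ χ) := by
    intro i hi
    obtain ⟨k, hkK, hk⟩ := hz i hi
    have hH := hHi i hi
    have hne : XX p (c i) χ χ₀ ≠ 0 := XX_ne_of_height_zero hM hk (hind i hi) (hd i hi) hχ hχ₀ h0
    have h1 := hH.card_le_of_ne hχt (T := {χ₀}) (Finset.singleton_subset_iff.2 hχ₀t)
      (fun j hj => by rwa [Finset.mem_singleton.1 hj])
    have h2 : XX p (c i) χ χ ≠ 0 := by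
      intro h3
      rw [h3] at h1
      have h4 : aAvg n 0 = 0 := by simpa using aAvg_natCast (n := n) 0
      rw [h4] at h1
      simp at h1
      linarith
    have h3 := XX_eq_pow_mul hM (hind i hi).1 (hd i hi) hχ χ
    have hy : yy p (c i) χ χ ∈ rootRing n :=
      rootRing_mono (pow_dvd_pow p (Nat.succ_le_succ hkK)) (yy_mem hM hk (hind i hi).1 (hd i hi) hχ χ)
    have hy0 : yy p (c i) χ χ ≠ 0 := by
      intro h4
      rw [h4, mul_zero] at h3
      exact h2 h3
    have h5 : XX p (c i) χ χ = ((p ^ blockHeight p B (χ : G → ℂ) : ℕ) : ℂ) * yy p (c i) χ χ := by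
      rw [h3]
      push_cast
      rfl
    have hT := hH.totNonneg hcpos hχt
    rw [h5] at hT
    have hTy := hT.natCast_mul (c := p ^ blockHeight p B (χ : G → ℂ)) (pow_pos hppos _)
    have h6 := hTy.one_le_aAvg hy hy0
    rw [h5, aAvg_natCast_mul]
    have h7 : (0 : ℝ) ≤ ((p ^ blockHeight p B (χ : G → ℂ) : ℕ) : ℝ) := Nat.cast_nonneg _
    nlinarith
  -- the sum
  set a : IrrCharacter G → IrrCharacter G → ℂ := fun χ₁ χ₂ => ∑ i ∈ s, XX p (c i) χ₁ χ₂ with ha
  have hH : Herm t n (p ^ d) a := by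
    refine ⟨fun χ₁ χ₂ => ?_, fun χ₁ χ₂ => ?_, fun χ₁ hχ₁ => ?_⟩
    · exact Subring.sum_mem _ fun i hi => hmem i hi χ₁ χ₂
    · rw [ha]
      simp only [map_sum, XX_conj]
    · simp only [ha, map_sum, Finset.sum_mul, Finset.mul_sum]
      rw [Finset.sum_comm]
      refine Finset.sum_congr rfl fun i hi => ?_
      rw [Finset.sum_comm]
      rw [Finset.sum_eq_single i]
      · exact (hHi i hi).row χ₁ hχ₁
      · intro j hj hji
        exact horth j hj i hi hji χ₁
      · intro hi'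
        exact absurd hi hi'
  have h1 := hH.aAvg_le hcpos hχt
  have h2 : aAvg n (a χ χ) = ∑ i ∈ s, aAvg n (XX p (c i) χ χ) := aAvg_sum _ _
  have h3 : ((s.card * p ^ blockHeight p B (χ : G → ℂ) : ℕ) : ℝ) ≤ aAvg n (a χ χ) := by
    rw [h2]
    have := Finset.card_nsmul_le_sum s (fun i => aAvg n (XX p (c i) χ χ)) _ hlarge
    rw [nsmul_eq_mul] at this
    push_cast at this ⊢
    exact this
  have h4 := h3.trans h1
  exact_mod_cast h4

end Numeric

section Trans

variable {G : Type u} [Group G] [Fintype G] {M : Ideal AlgInt} [hMp : M.IsPrime]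

lemma finsum_mem_eq_sum_ite' {α : Type*} [Fintype α] (s : Set α) [DecidablePred (· ∈ s)] (f : α → ℂ) :
    ∑ᶠ x ∈ s, f x = ∑ x, if x ∈ s then f x else 0 := by
  rw [finsum_mem_def, finsum_eq_sum_of_fintype]
  refine Finset.sum_congr rfl fun x _ => ?_
  simp [Set.indicator_apply]

/-- **Transitivity of block induction.** -/
theorem isInducedBlock_trans {K C : Subgroup G} [Fintype K] [Fintype C] (hKC : K ≤ C) {b : Set (IrrCharacter K)}
    {c : Set (IrrCharacter C)} {B : Set (IrrCharacter G)} (hb : IsInducedBlock M K b B)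
    (hc : IsInducedBlockIn M C K b c) : IsInducedBlock M C c B := by
  classical
  refine ⟨hc.2.1, hb.2.1, fun μ hμ χ hχ g => ?_⟩
  obtain ⟨ξ₀, hξ₀⟩ := id hb.1
  have hξ : ξ₀ ∈ b := by rw [hξ₀]; exact mem_blockOf_self ξ₀
  have h1 := hb.2.2 ξ₀ hξ χ hχ g
  have ha := Cfsg.Agent.Lib.Blocks.Induced.traceClassSum_mem_localCenter (M := M) C g
  set a := Cfsg.Agent.Lib.Blocks.Induced.traceClassSum C g with hadef
  have key : inducedCentralChar K (ξ₀ : K → ℂ) g =
      ∑ L : ConjClasses C, a.coeff L.out * inducedCentralCharIn C K (ξ₀ : K → ℂ) ((L.out : C) : G) := by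
    simp only [inducedCentralCharIn, inducedCentralChar, finsum_mem_eq_sum_ite', Finset.mul_sum]
    rw [Finset.sum_comm]
    refine Finset.sum_congr rfl fun k _ => ?_
    set k' : C := Subgroup.inclusion hKC k with hk'
    have hmem : ∀ L : ConjClasses C, (k ∈ {k₁ : K | ∃ x : C, (x : G) * (k₁ : G) * (x : G)⁻¹ = ((L.out : C) : G)}) ↔
        ConjClasses.mk k' = L := by
      intro L
      constructor
      · rintro ⟨x, hx⟩
        have h3 : IsConj k' L.out := isConj_iff.2 ⟨x, Subtype.ext (by simpa [hk'] using hx)⟩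
        rw [ConjClasses.mk_eq_mk_iff_isConj.2 h3]
        exact Quotient.out_eq L
      · intro h3
        have h4 : IsConj k' L.out := by
          apply ConjClasses.mk_eq_mk_iff_isConj.1
          rw [h3]
          exact (Quotient.out_eq L).symm
        obtain ⟨x, hx⟩ := isConj_iff.1 h4
        exact ⟨x, congrArg Subtype.val hx⟩
    rw [Finset.sum_eq_single (ConjClasses.mk k')]
    · rw [if_pos ((hmem _).2 rfl)]
      have h4 : IsConj k' (ConjClasses.mk k').out := by
        apply ConjClasses.mk_eq_mk_iff_isConj.1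
        exact (Quotient.out_eq (ConjClasses.mk k')).symm
      obtain ⟨x, hx⟩ := isConj_iff.1 h4
      have h5 : a.coeff (ConjClasses.mk k').out = a.coeff k' := by
        rw [← hx]
        exact ha.1 k' x
      rw [h5, hadef]
      simp only [Cfsg.Agent.Lib.Blocks.Induced.traceClassSum, coeff_ofFun]
      by_cases h6 : IsConj g (k : G)
      · have h7 : IsConj g ((k' : C) : G) := h6
        have h8 : k ∈ {h : K | IsConj g (h : G)} := h6
        rw [if_pos h7, if_pos h8, one_mul]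
      · have h7 : ¬ IsConj g ((k' : C) : G) := h6
        have h8 : k ∉ {h : K | IsConj g (h : G)} := h6
        rw [if_neg h7, if_neg h8, zero_mul]
    · intro L _ hL
      rw [if_neg (fun h3 => hL ((hmem L).1 h3).symm), mul_zero]
    · intro h
      exact absurd (Finset.mem_univ _) h
  have h2 : MemLocalIdeal M (inducedCentralChar C (μ : C → ℂ) g - inducedCentralChar K (ξ₀ : K → ℂ) g) := by
    rw [Cfsg.Agent.Lib.Blocks.Induced.inducedCentralChar_eq_omega C (μ : C → ℂ) g,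
      omega_eq_sum_centralChar (isClassFunction_of_irr μ.2) ha.1, key, ← Finset.sum_sub_distrib]
    refine memLocalIdeal_sum _ _ fun L _ => ?_
    rw [← mul_sub]
    refine memLocalIdeal_mul_left (ha.2 _) ?_
    have h3 := hc.2.2 ξ₀ hξ μ hμ L.out
    have h4 := memLocalIdeal_sub memLocalIdeal_zero h3
    convert h4 using 1
    ring
  have h5 := memLocalIdeal_add h2 h1
  convert h5 using 1
  ring

end Trans

section Pairs

variable {G : Type u} [Group G] {D C : Subgroup G}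

/-- `D C_G(D)`. -/
abbrev HD (D : Subgroup G) : Subgroup G := D ⊔ Subgroup.centralizer (D : Set G)

/-- `D C_C(D)` inside `C`. -/
abbrev LC (D C : Subgroup G) : Subgroup C :=
  (D.subgroupOf C) ⊔ Subgroup.centralizer ((D.subgroupOf C : Subgroup C) : Set C)

lemma LC_eq (h : HD D ≤ C) : LC D C = (HD D).subgroupOf C := by
  have h1 : D ≤ C := le_sup_left.trans h
  have h2 : Subgroup.centralizer (D : Set G) ≤ C := le_sup_right.trans h
  have h3 : (Subgroup.centralizer (D : Set G)).subgroupOf C =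
      Subgroup.centralizer ((D.subgroupOf C : Subgroup C) : Set C) := by
    ext x
    rw [Subgroup.mem_subgroupOf]
    exact (Cfsg.Agent.Lib.Blocks.HarrisKnorr.mem_centralizer_subgroupOf_iff h1 x).symm
  rw [HD, Subgroup.subgroupOf_sup h1 h2, h3]

/-- `D C_C(D)` and `D C_G(D)`. -/
noncomputable def sigma (h : HD D ≤ C) : LC D C ≃* HD D :=
  (MulEquiv.subgroupCongr (LC_eq h)).trans (Subgroup.subgroupOfEquivOfLe h)

@[simp] lemma coe_sigma (h : HD D ≤ C) (x : LC D C) : ((sigma h x : HD D) : G) = ((x : C) : G) := rfl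

lemma inducedCentralChar_sigma (h : HD D ≤ C) (ξ : HD D → ℂ) (g : C) :
    inducedCentralChar (LC D C) (fun x => ξ (sigma h x)) g = inducedCentralCharIn C (HD D) ξ (g : G) := by
  rw [inducedCentralChar, inducedCentralCharIn]
  apply finsum_mem_eq_of_bijOn (sigma h)
  · refine ⟨?_, (sigma h).injective.injOn, ?_⟩
    · intro y hy
      obtain ⟨x, hx⟩ := isConj_iff.1 (IsConj.symm hy)
      exact ⟨x, congrArg Subtype.val hx⟩
    · rintro k ⟨x, hx⟩
      refine ⟨(sigma h).symm k, ?_, by simp⟩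
      have h3 : (((sigma h).symm k : LC D C) : G) = k := by
        rw [← coe_sigma h ((sigma h).symm k)]
        simp
      exact IsConj.symm (isConj_iff.2 ⟨x, Subtype.ext (by simpa [h3] using hx)⟩)
  · intro y _
    simp

variable {M : Ideal AlgInt}

theorem isInducedBlock_iff_in [Finite G] (h : HD D ≤ C) {b : Set (IrrCharacter (HD D))} {c : Set (IrrCharacter C)} :
    IsInducedBlock M (LC D C) (blockMap (sigma h) b) c ↔ IsInducedBlockIn M C (HD D) b c := by
  constructor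
  · intro h1
    refine ⟨?_, h1.2.1, fun ξ hξ χ hχ g => ?_⟩
    · have h2 := isPBlock_blockMap (sigma h).symm h1.1
      rwa [blockMap_symm_blockMap] at h2
    · have h2 := h1.2.2 _ (irrComap_mem_blockMap _ hξ) χ hχ g
      have h3 : inducedCentralChar (LC D C) (irrComap (sigma h) ξ : LC D C → ℂ) g =
          inducedCentralCharIn C (HD D) (ξ : HD D → ℂ) (g : G) := inducedCentralChar_sigma h _ g
      rwa [h3] at h2
  · intro h1
    refine ⟨isPBlock_blockMap _ h1.1, h1.2.1, ?_⟩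
    rintro _ ⟨ξ, hξ, rfl⟩ χ hχ g
    have h3 : inducedCentralChar (LC D C) (irrComap (sigma h) ξ : LC D C → ℂ) g =
        inducedCentralCharIn C (HD D) (ξ : HD D → ℂ) (g : G) := inducedCentralChar_sigma h _ g
    rw [h3]
    exact h1.2.2 ξ hξ χ hχ g

variable [Fintype G] {p : ℕ} [hp : Fact p.Prime]

/-- A block induced from a subgroup, in which the defect group of the induced block is normal, has that
defect group. -/
theorem isDefectGroup_of_normal (hM : IsPModular p M) {H : Subgroup G} {b : Set (IrrCharacter H)}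
    {B : Set (IrrCharacter G)} (hind : IsInducedBlock M H b B) {D : Subgroup G} (hD : IsDefectGroup p M B D)
    (hDH : D ≤ H) (hn : (D.subgroupOf H).Normal) : IsDefectGroup p M b (D.subgroupOf H) := by
  classical
  haveI hMp := isPrime_of_isPModular hM
  haveI : Fintype H := Fintype.ofFinite _
  have hDp : IsPGroup p D := by
    obtain ⟨g, -, S, rfl⟩ := hD
    exact Cfsg.Agent.Lib.Blocks.Defect.isPGroup_sylow_map S
  obtain ⟨k, hk⟩ := exists_isDefectClass (M := M) hind.1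
  obtain ⟨S'⟩ : Nonempty (Sylow p (Subgroup.centralizer ({k} : Set H))) := inferInstance
  have hdb : IsDefectGroup p M b ((S' : Subgroup _).map (Subgroup.centralizer ({k} : Set H)).subtype) :=
    ⟨k, hk, S', rfl⟩
  have hcore := Cfsg.Agent.S0912.result p M hM b hind.1 _ hdb
  have hDp' : IsPGroup p (D.subgroupOf H) := hDp.comap_of_injective _ (Subgroup.subtype_injective _)
  have hDcore := Cfsg.Agent.Lib.Basic.PCore.le_pCore hn hDp'
  obtain ⟨E, hE, hDbE⟩ := Cfsg.Agent.Lib.Blocks.Induced.induced_block_defect_group_le hM _ b hind.1 B hind.2.1 hind _ hdb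
  have hcardE := Cfsg.Agent.S0908.result p M hM B hind.2.1 E hE
  have hcardD := Cfsg.Agent.S0908.result p M hM B hind.2.1 D hD
  have h1 : Nat.card (D.subgroupOf H) = Nat.card D := Nat.card_congr (Subgroup.subgroupOfEquivOfLe hDH).toEquiv
  have hle2 : Nat.card ((S' : Subgroup _).map (Subgroup.centralizer ({k} : Set H)).subtype) ≤
      Nat.card (D.subgroupOf H) := by
    rw [h1, hcardD, ← hcardE]
    refine le_trans (le_of_eq ?_) (Subgroup.card_le_of_le hDbE)
    exact Nat.card_congr (Subgroup.equivMapOfInjective _ _ (Subgroup.subtype_injective _)).toEquiv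
  have heq := Subgroup.eq_of_le_of_card_ge (hDcore.trans hcore) hle2
  rw [heq]
  exact hdb

lemma normal_subgroupOf_HD (D : Subgroup G) : (D.subgroupOf (HD D)).Normal := by
  have h1 : HD D ≤ Subgroup.normalizer (D : Set G) := sup_le Subgroup.le_normalizer (Subgroup.centralizer_le_normalizer _)
  exact (Subgroup.normal_subgroupOf_iff_le_normalizer le_sup_left).mpr h1

/-- The block of the centralizer of `z` attached to `b`. -/
theorem exists_pair (hM : IsPModular p M) {B : Set (IrrCharacter G)} {b : Set (IrrCharacter (HD D))}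
    (hind : IsInducedBlock M (HD D) b B) (hD : IsDefectGroup p M B D) (h : HD D ≤ C) :
    ∃ c : Set (IrrCharacter C), IsInducedBlockIn M C (HD D) b c ∧ IsInducedBlock M C c B ∧
      IsDefectGroup p M c (D.subgroupOf C) := by
  classical
  haveI hMp := isPrime_of_isPModular hM
  haveI : Fintype C := Fintype.ofFinite _
  haveI : Fintype (HD D) := Fintype.ofFinite _
  have hDp : IsPGroup p D := by
    obtain ⟨g, -, S, rfl⟩ := hD
    exact Cfsg.Agent.Lib.Blocks.Defect.isPGroup_sylow_map S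
  have hDC : D ≤ C := le_sup_left.trans h
  have hP : IsPGroup p (D.subgroupOf C) := hDp.comap_of_injective _ (Subgroup.subtype_injective _)
  have hb' : IsPBlock M (blockMap (sigma h) b) := isPBlock_blockMap _ hind.1
  obtain ⟨c, hc⟩ := Cfsg.Agent.S0919.result p M hM (D.subgroupOf C) (LC D C) hP le_sup_left le_sup_right
    (sup_le Subgroup.le_normalizer (Subgroup.centralizer_le_normalizer _)) _ hb'
  have hin := (isInducedBlock_iff_in h).1 hc
  have hcB := isInducedBlock_trans h hind hin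
  refine ⟨c, hin, hcB, ?_⟩
  have hbdef := isDefectGroup_of_normal hM hind hD le_sup_left (normal_subgroupOf_HD D)
  have hb'def := isDefectGroup_blockMap (p := p) (sigma h) hbdef
  obtain ⟨E, hE, hle⟩ := Cfsg.Agent.Lib.Blocks.Induced.induced_block_defect_group_le hM (LC D C) _ hb' c hc.2.1 hc _ hb'def
  have hPE : D.subgroupOf C ≤ E := by
    intro q hq
    have hq' : (q : G) ∈ D := Subgroup.mem_subgroupOf.1 hq
    refine hle ⟨⟨q, Subgroup.mem_sup_left hq⟩, ?_, rfl⟩
    exact hq'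
  obtain ⟨E', hE', hle'⟩ := Cfsg.Agent.Lib.Blocks.Induced.induced_block_defect_group_le hM C c hc.2.1 B hind.2.1 hcB E hE
  have hcardE := Cfsg.Agent.S0908.result p M hM B hind.2.1 E' hE'
  have hcardD := Cfsg.Agent.S0908.result p M hM B hind.2.1 D hD
  have h1 : Nat.card (D.subgroupOf C) = Nat.card D := Nat.card_congr (Subgroup.subgroupOfEquivOfLe hDC).toEquiv
  have hle2 : Nat.card E ≤ Nat.card (D.subgroupOf C) := by
    rw [h1, hcardD, ← hcardE]
    refine le_trans (le_of_eq ?_) (Subgroup.card_le_of_le hle')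
    exact Nat.card_congr (Subgroup.equivMapOfInjective _ _ (Subgroup.subtype_injective _)).toEquiv
  have heq := Subgroup.eq_of_le_of_card_ge hPE hle2
  rw [heq]
  exact hE

end Pairs

section Conj

variable {G : Type u} [Group G] [Fintype G] {D : Subgroup G}

lemma conj_mem_HD {t : G} (ht : t ∈ Subgroup.normalizer (D : Set G)) {x : G} (hx : x ∈ HD D) :
    t * x * t⁻¹ ∈ HD D := by
  have h : HD D ≤ (HD D).comap (MulAut.conj t).toMonoidHom := by
    refine sup_le (fun d hd => ?_) (fun d hd => ?_)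
    · exact Subgroup.mem_sup_left ((Subgroup.mem_normalizer_iff.1 ht d).1 hd)
    · exact Subgroup.mem_sup_right ((Cfsg.Agent.Lib.Blocks.BrauerMap.conj_mem_centralizer_iff' ht).2 hd)
  exact h hx

/-- Conjugation by an element of `N_G(D)` on `D C_G(D)`. -/
def hdConj (t : G) (ht : t ∈ Subgroup.normalizer (D : Set G)) : HD D ≃* HD D where
  toFun x := ⟨t * x * t⁻¹, conj_mem_HD ht x.2⟩
  invFun x := ⟨t⁻¹ * x * t, by
    have := conj_mem_HD (Subgroup.inv_mem _ ht) x.2
    simpa using this⟩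
  left_inv x := by
    apply Subtype.ext
    simp [mul_assoc]
  right_inv x := by
    apply Subtype.ext
    simp [mul_assoc]
  map_mul' x y := by
    apply Subtype.ext
    simp [mul_assoc]

@[simp] lemma coe_hdConj (t : G) (ht : t ∈ Subgroup.normalizer (D : Set G)) (x : HD D) :
    ((hdConj t ht x : HD D) : G) = t * x * t⁻¹ := rfl

variable {M : Ideal AlgInt}

lemma inducedCentralCharIn_conj (g : G) {z z' : G} (hg : g * z * g⁻¹ = z') (ht : g ∈ Subgroup.normalizer (D : Set G))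
    (ξ : HD D → ℂ) (y : Cen z) :
    inducedCentralCharIn (Cen z) (HD D) (fun a => ξ (hdConj g ht a)) (y : G) =
      inducedCentralCharIn (Cen z') (HD D) ξ ((cenConj g hg y : Cen z') : G) := by
  rw [inducedCentralCharIn, inducedCentralCharIn]
  apply finsum_mem_eq_of_bijOn (hdConj g ht)
  · refine ⟨?_, (hdConj g ht).injective.injOn, ?_⟩
    · rintro k ⟨x, hx⟩
      refine ⟨cenConj g hg x, ?_⟩
      simp only [coe_cenConj, coe_hdConj, ← hx]
      group
    · rintro k ⟨x, hx⟩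
      refine ⟨(hdConj g ht).symm k, ⟨(cenConj g hg).symm x, ?_⟩, by simp⟩
      have h1 : (((cenConj g hg).symm x : Cen z) : G) = g⁻¹ * x * g := rfl
      have h2 : (((hdConj g ht).symm k : HD D) : G) = g⁻¹ * k * g := rfl
      rw [h1, h2]
      have h3 : g * (y : G) * g⁻¹ = x * k * (x : G)⁻¹ := by
        rw [hx]
        rfl
      have h4 : (y : G) = g⁻¹ * (g * (y : G) * g⁻¹) * g := by group
      rw [h4, h3]
      group
  · intro k _
    simp

lemma isInducedBlockIn_conj (g : G) {z z' : G} (hg : g * z * g⁻¹ = z') (ht : g ∈ Subgroup.normalizer (D : Set G))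
    {b : Set (IrrCharacter (HD D))} {c' : Set (IrrCharacter (Cen z'))} (h : IsInducedBlockIn M (Cen z') (HD D) b c') :
    IsInducedBlockIn M (Cen z) (HD D) (blockMap (hdConj g ht) b) (blockMap (cenConj g hg) c') := by
  refine ⟨isPBlock_blockMap _ h.1, isPBlock_blockMap _ h.2.1, ?_⟩
  rintro _ ⟨ξ, hξ, rfl⟩ _ ⟨χ, hχ, rfl⟩ y
  have h1 := h.2.2 ξ hξ χ hχ (cenConj g hg y)
  show MemLocalIdeal M (inducedCentralCharIn (Cen z) (HD D) (fun a => (ξ : HD D → ℂ) (hdConj g ht a)) (y : G) -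
    centralChar (fun a => (χ : Cen z' → ℂ) (cenConj g hg a)) y)
  rw [inducedCentralCharIn_conj g hg ht, centralChar_comap]
  exact h1

variable {p : ℕ} [hp : Fact p.Prime]

/-- **The block of the centralizer determines the conjugacy class of `z` under the stabilizer of `b`.** -/
theorem exists_stabilizer_conj (hM : IsPModular p M) {b : Set (IrrCharacter (HD D))} {z z' : G}
    (hHz : HD D ≤ Cen z) (hHz' : HD D ≤ Cen z') {c : Set (IrrCharacter (Cen z))} {c' : Set (IrrCharacter (Cen z'))}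
    (hin : IsInducedBlockIn M (Cen z) (HD D) b c) (hin' : IsInducedBlockIn M (Cen z') (HD D) b c')
    (hdc : IsDefectGroup p M c (D.subgroupOf (Cen z))) (hdc' : IsDefectGroup p M c' (D.subgroupOf (Cen z')))
    (g : G) (hg : g * z * g⁻¹ = z') (hc : c = blockMap (cenConj g hg) c') :
    ∃ t ∈ Subgroup.normalizer (D : Set G),
      (∀ θ ∈ b, ∀ θ' : IrrCharacter (HD D), (∀ h h' : HD D, (h' : G) = t * h * t⁻¹ →
        (θ' : HD D → ℂ) h' = (θ : HD D → ℂ) h) → θ' ∈ b) ∧ t * z * t⁻¹ = z' := by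
  classical
  haveI hMp := isPrime_of_isPModular hM
  haveI : Fintype (Cen z) := Fintype.ofFinite _
  haveI : Fintype (Cen z') := Fintype.ofFinite _
  have hcb : IsPBlock M c := hin.2.1
  set φ := cenConj g hg with hφ
  have hA : IsDefectGroup p M c ((D.subgroupOf (Cen z')).comap φ.toMonoidHom) := by
    rw [hc]
    exact isDefectGroup_blockMap φ hdc'
  obtain ⟨x, hx⟩ := exists_map_conj_eq_of_isDefectGroup hM hcb hdc hA
  set g₁ : G := g * (x : G)⁻¹ with hg₁
  have hxz : (x : G)⁻¹ * z * x = z := by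
    have h1 := Subgroup.mem_centralizer_singleton_iff.1 x.2
    rw [mul_assoc, ← h1, inv_mul_cancel_left]
  have hg₁z : g₁ * z * g₁⁻¹ = z' := by
    rw [← hg, hg₁]
    calc g * (x : G)⁻¹ * z * (g * (x : G)⁻¹)⁻¹ = g * ((x : G)⁻¹ * z * x) * g⁻¹ := by group
      _ = g * z * g⁻¹ := by rw [hxz]
  have hg₁N : g₁ ∈ Subgroup.normalizer (D : Set G) := by
    rw [← Subgroup.inv_mem_iff]
    apply Cfsg.Agent.Lib.Blocks.HarrisKnorr.mem_normalizer_of_conj_mem
    intro d hd
    have hdz' : d ∈ Cen z' := hHz' (Subgroup.mem_sup_left hd)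
    have ha : φ.symm ⟨d, hdz'⟩ ∈ (D.subgroupOf (Cen z')).comap φ.toMonoidHom := by
      rw [Subgroup.mem_comap]
      simpa [Subgroup.mem_subgroupOf] using hd
    have h1 : (MulAut.conj x).toMonoidHom (φ.symm ⟨d, hdz'⟩) ∈ D.subgroupOf (Cen z) := by
      rw [← hx]
      exact ⟨_, ha, rfl⟩
    have h2 := Subgroup.mem_subgroupOf.1 h1
    have h3 : (((MulAut.conj x).toMonoidHom (φ.symm ⟨d, hdz'⟩) : Cen z) : G) = g₁⁻¹ * d * g₁⁻¹⁻¹ := by
      have h4 : ((φ.symm ⟨d, hdz'⟩ : Cen z) : G) = g⁻¹ * d * g := rfl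
      simp only [MulEquiv.toMonoidHom_eq_coe, MonoidHom.coe_coe, MulAut.conj_apply, Subgroup.coe_mul,
        Subgroup.coe_inv, h4, hg₁]
      group
    rwa [h3] at h2
  set φ₁ := cenConj g₁ hg₁z with hφ₁
  have hc₁ : c = blockMap φ₁ c' := by
    rw [hc]
    have h1 : irrComap φ = irrComap φ₁ := by
      funext χ
      apply Subtype.ext
      funext y
      show (χ : Cen z' → ℂ) (φ y) = (χ : Cen z' → ℂ) (φ₁ y)
      have h2 : φ₁ y = φ (x⁻¹ * y * x⁻¹⁻¹) := by
        apply Subtype.ext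
        simp only [hφ₁, hφ, coe_cenConj, hg₁, Subgroup.coe_mul, Subgroup.coe_inv]
        group
      rw [h2]
      exact (isClassFunction_of_irr (irrComap φ χ).2 y x⁻¹).symm
    rw [blockMap, blockMap, h1]
  set ψ := hdConj g₁ hg₁N with hψ
  have hin₁ := isInducedBlockIn_conj g₁ hg₁z hg₁N hin'
  rw [← hφ₁, ← hc₁] at hin₁
  have h1 := (isInducedBlock_iff_in hHz).2 hin
  have h2 := (isInducedBlock_iff_in hHz).2 hin₁
  obtain ⟨n, hn, hn'⟩ := (Cfsg.Agent.S0973.result p M hM c hcb (D.subgroupOf (Cen z)) hdc).2 _ _ h1 h2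
  have hDz : D ≤ Cen z := le_sup_left.trans hHz
  have hnG : ((n : Cen z) : G) ∈ Subgroup.normalizer (D : Set G) := by
    apply Cfsg.Agent.Lib.Blocks.HarrisKnorr.mem_normalizer_of_conj_mem
    intro q hq
    have h3 := (Subgroup.mem_normalizer_iff.1 hn ⟨q, hDz hq⟩).1 (Subgroup.mem_subgroupOf.2 hq)
    exact Subgroup.mem_subgroupOf.1 h3
  have htN : g₁ * ((n : Cen z) : G)⁻¹ ∈ Subgroup.normalizer (D : Set G) :=
    Subgroup.mul_mem _ hg₁N (Subgroup.inv_mem _ hnG)
  refine ⟨g₁ * ((n : Cen z) : G)⁻¹, htN, fun θ hθ θ' hθ' => ?_, ?_⟩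
  · obtain ⟨θ₂, hθ₂, hθ₂'⟩ := hn' _ (irrComap_mem_blockMap (sigma hHz) hθ)
    rw [mem_blockMap_iff, mem_blockMap_iff] at hθ₂
    suffices hs : θ' = irrComap ψ.symm (irrComap (sigma hHz).symm θ₂) by
      rw [hs]
      exact hθ₂
    apply Subtype.ext
    funext h'
    show (θ' : HD D → ℂ) h' = (θ₂ : LC D (Cen z) → ℂ) ((sigma hHz).symm (ψ.symm h'))
    set X : LC D (Cen z) := (sigma hHz).symm (ψ.symm h') with hX
    have hXG : ((X : Cen z) : G) = g₁⁻¹ * h' * g₁ := by
      rw [← coe_sigma hHz X, hX]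
      simp only [MulEquiv.apply_symm_apply]
      rfl
    have hmem : n * (X : Cen z) * n⁻¹ ∈ LC D (Cen z) := by
      refine (SetLike.ext_iff.1 (LC_eq hHz) _).2 (Subgroup.mem_subgroupOf.2 ?_)
      have h5 : ((n * (X : Cen z) * n⁻¹ : Cen z) : G) = (n : G) * (g₁⁻¹ * h' * g₁) * (n : G)⁻¹ := by
        simp [hXG]
      rw [h5]
      have h6 := conj_mem_HD hnG (conj_mem_HD (Subgroup.inv_mem _ hg₁N) h'.2)
      simpa using h6
    rw [hθ₂' X hmem]
    apply hθ'
    show (h' : G) = _ * ((((n * (X : Cen z) * n⁻¹ : Cen z)) : G)) * _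
    simp only [Subgroup.coe_mul, Subgroup.coe_inv, hXG]
    group
  · have hnz : ((n : Cen z) : G)⁻¹ * z * (n : Cen z) = z := by
      have h1 := Subgroup.mem_centralizer_singleton_iff.1 n.2
      rw [mul_assoc, ← h1, inv_mul_cancel_left]
    calc g₁ * ((n : Cen z) : G)⁻¹ * z * (g₁ * ((n : Cen z) : G)⁻¹)⁻¹ =
        g₁ * (((n : Cen z) : G)⁻¹ * z * (n : Cen z)) * g₁⁻¹ := by group
      _ = g₁ * z * g₁⁻¹ := by rw [hnz]
      _ = z' := hg₁z

end Conj

end Cfsg.Agent.Lib.Blocks.ZDefect
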